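import Cfsg.Statements.S3909
import Mathlib
import Cfsg.Agent.Lib.PGroupMisc

set_option autoImplicit false
open Cfsg

namespace Cfsg.Agent.S3909

open CfsgLib.PGrp
open scoped commutatorElement

/-- Let G be a finite group in which any two abelian subgroups of the same order are conjugate. Let M be a normal subgroup of G. If M contains an element of the same order as a ∈ G, then a ∈ M; and if M is elementary abelian of order p^t with p prime and t ≥ 2, then M is the unique Sylow p-subgroup of G. -/
theorem result {G : Type*} [Group G] [Finite G] (hB : ∀ A B : Subgroup G, IsMulCommutative ↥A → IsMulCommutative ↥B → Nat.card ↥A = Nat.card ↥B → ∃ g : G, B = A.map (MulAut.conj g).toMonoidHom) (M : Subgroup G) [M.Normal] :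
    (∀ a : G, (∃ m ∈ M, orderOf m = orderOf a) → a ∈ M) ∧
    ∀ (p t : ℕ) [Fact p.Prime], 2 ≤ t → Nat.card ↥M = p ^ t → Cfsg.IsElementaryAbelian p M → ∀ P : Sylow p G, (P : Subgroup G) = M := by
  have key : ∀ A B : Subgroup G, IsMulCommutative A → IsMulCommutative B →
      Nat.card A = Nat.card B → A ≤ M → B ≤ M := by
    intro A B hA hB' hc hAM
    obtain ⟨g, rfl⟩ := hB A B hA hB' hc
    rintro _ ⟨a, ha, rfl⟩
    exact Subgroup.Normal.conj_mem inferInstance a (hAM ha) g
  have h1 : ∀ a : G, (∃ m ∈ M, orderOf m = orderOf a) → a ∈ M := by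
    rintro a ⟨m, hm, ho⟩
    exact key (Subgroup.zpowers m) (Subgroup.zpowers a) inferInstance inferInstance
      (by rw [Nat.card_zpowers, Nat.card_zpowers, ho]) (Subgroup.zpowers_le.2 hm)
      (Subgroup.mem_zpowers a)
  refine ⟨h1, fun p t hp ht hM hE P => ?_⟩
  have hMp : IsPGroup p M := IsPGroup.of_card hM
  refine le_antisymm ?_ (hMp.le_sylow_of_normal P)
  intro x hx
  by_contra hxM
  obtain ⟨k, hk1, hk2⟩ := exists_pow_not_mem_pow_prime_mem' P.isPGroup' M hx hxM
  set y := x ^ p ^ k
  have h2 : ∀ j ≤ 2, orderOf y = p ^ j → False := by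
    intro j hj hy
    obtain ⟨E, hEM, hE'⟩ := Sylow.exists_subgroup_le_card_pow_prime_of_le_card (n := j) hp.out
      hMp (H := ⊤) (by rw [Subgroup.card_top, hM]; exact Nat.pow_le_pow_right hp.out.pos (by omega))
    refine hk1 (key (E.map M.subtype) (Subgroup.zpowers y)
      (isMulCommutative_of_le (Subgroup.map_subtype_le E) hE.1) inferInstance ?_
      (Subgroup.map_subtype_le E) (Subgroup.mem_zpowers y))
    rw [Subgroup.card_map_of_injective M.subtype_injective, hE', Nat.card_zpowers, hy]
  have h3 : y ^ p ^ 2 = 1 := by rw [sq, pow_mul]; exact hE.2 _ hk2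
  obtain ⟨j, hj, hj'⟩ := (Nat.dvd_prime_pow hp.out).1 (orderOf_dvd_of_pow_eq_one h3)
  exact h2 j hj hj'

end Cfsg.Agent.S3909
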