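import Cfsg.Statements.S4201
import Cfsg.Agent.Lib.ClassCount

set_option autoImplicit false
open Cfsg

namespace Cfsg.Agent.S4201

open CfsgLib.ClassCount Subgroup


/-- If N is a normal subgroup of the finite group X then k(X) ≤ k(N)·k(X ⧸ N), where k denotes the number of conjugacy classes. -/
theorem result {X : Type*} [Group X] [Finite X] (N : Subgroup X) [N.Normal] : Nat.card (ConjClasses X) ≤ Nat.card (ConjClasses N) * Nat.card (ConjClasses (X ⧸ N)) := by
  classical
  have := Fintype.ofFinite X
  have hXN := N.card_mul_index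
  have hle : ∀ x : X, Nat.card (centralizer ({x} : Set X)) ≤
      Nat.card (centralizer ({(x : X ⧸ N)} : Set (X ⧸ N))) *
        Nat.card (N ⊓ centralizer ({x} : Set X) : Subgroup X) := fun x => by
    rw [← card_mul_relIndex_inf N, mul_comm]
    refine Nat.mul_le_mul_right _ ?_
    have : N.relIndex (centralizer ({x} : Set X)) =
        Nat.card ((centralizer ({x} : Set X)).map (QuotientGroup.mk' N)) := by
      rw [← relIndex_ker, QuotientGroup.ker_mk']
    rw [this]
    apply card_le_of_le
    rintro _ ⟨c, hc, rfl⟩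
    rw [SetLike.mem_coe, mem_centralizer_singleton_iff] at hc
    rw [mem_centralizer_singleton_iff, QuotientGroup.mk'_apply, ← QuotientGroup.mk_mul,
      ← QuotientGroup.mk_mul, hc]
  have hfib : ∀ q : X ⧸ N, ∑ x ∈ Finset.univ.filter (fun x : X => (x : X ⧸ N) = q),
      Nat.card (N ⊓ centralizer ({x} : Set X) : Subgroup X) ≤
        Nat.card (ConjClasses N) * Nat.card N := by
    intro q
    rw [sum_card_inf_centralizer, card_conjClasses_mul_card]
    refine Finset.sum_le_sum fun n _ => ?_
    rw [card_centralizer_eq_card_filter]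
    rcases ((Finset.univ.filter (fun x : X => (x : X ⧸ N) = q)).filter
      fun x => Commute (n : X) x).eq_empty_or_nonempty with h | ⟨x₀, hx₀⟩
    · rw [h]; simp
    · simp only [Finset.mem_filter, Finset.mem_univ, true_and] at hx₀
      refine Finset.card_le_card_of_injOn
        (fun x => if h : x₀⁻¹ * x ∈ N then ⟨x₀⁻¹ * x, h⟩ else 1) ?_ ?_
      · intro x hx
        simp only [Finset.coe_filter, Finset.mem_filter, Finset.mem_univ, true_and,
          Set.mem_ofPred_eq] at hx ⊢
        have h : x₀⁻¹ * x ∈ N := QuotientGroup.eq.mp (hx₀.1.trans hx.1.symm)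
        rw [dif_pos h]
        exact Subtype.ext (hx₀.2.inv_right.mul_right hx.2).eq
      · intro x hx y hy hxy
        simp only [Finset.coe_filter, Finset.mem_filter, Finset.mem_univ, true_and,
          Set.mem_ofPred_eq] at hx hy
        have h1 : x₀⁻¹ * x ∈ N := QuotientGroup.eq.mp (hx₀.1.trans hx.1.symm)
        have h2 : x₀⁻¹ * y ∈ N := QuotientGroup.eq.mp (hx₀.1.trans hy.1.symm)
        simp only [dif_pos h1, dif_pos h2, Subtype.mk.injEq] at hxy
        exact mul_left_cancel hxy
  have key : Nat.card (ConjClasses X) * Nat.card X ≤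
      (Nat.card (ConjClasses (X ⧸ N)) * Nat.card (X ⧸ N)) *
        (Nat.card (ConjClasses N) * Nat.card N) := by
    rw [card_conjClasses_mul_card, card_conjClasses_mul_card (G := X ⧸ N), Finset.sum_mul,
      ← Finset.sum_fiberwise (s := Finset.univ) (g := fun x : X => (x : X ⧸ N))]
    refine Finset.sum_le_sum fun q _ => ?_
    refine le_trans ?_ (Nat.mul_le_mul_left _ (hfib q))
    rw [Finset.mul_sum]
    refine Finset.sum_le_sum fun x hx => ?_
    rw [← (Finset.mem_filter.mp hx).2]
    exact hle x
  rw [← hXN, index] at key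
  refine Nat.le_of_mul_le_mul_right (key.trans (le_of_eq ?_))
    (Nat.mul_pos Nat.card_pos Nat.card_pos)
  ring

end Cfsg.Agent.S4201
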