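import Cfsg.Statements.S3802
import Cfsg.Agent.Lib.CoreSubnormal

set_option autoImplicit false
open Cfsg

namespace Cfsg.Agent.S3802

open Subgroup CfsgLib
open scoped Pointwise commutatorElement



theorem result {G : Type*} [Group G] [Finite G] (M N : Subgroup G) (hM : IsCoatom M) (hN : N.IsSubnormal) (hNM : N ≤ M) :
    N ≤ Subgroup.normalCore M := by
  obtain ⟨L, h1, h2, h3, h4, h5⟩ := exists_max_subnormal_le M
  have hn : L.Normal := by
    rw [← normalizer_eq_top_iff]
    by_contra h
    have h6 := h5 ((hM.le_iff.mp h3).resolve_left h).le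
    exact hM.1 (top_le_iff.mp (h6 ▸ h1))
  exact (h4 N hNM hN).trans (normal_le_normalCore.mpr h1)

end Cfsg.Agent.S3802
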