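import Cfsg.Statements.S3803
import Cfsg.Agent.Lib.CoprimePGroup
import Cfsg.Agent.Lib.PGroupCyclicMax

set_option autoImplicit false
open Cfsg

namespace Cfsg.Agent.S3803

open Subgroup CfsgLib.Cop CfsgLib.PGrp
open scoped commutatorElement

theorem card_map_of_index_two {X : Type*} [Group X] [Finite X] {Q : Subgroup X} {M : Subgroup Q}
    (hM : M.index = 2) : 2 * Nat.card (M.map Q.subtype) = Nat.card Q := by
  rw [card_map_of_injective Q.subtype_injective, ← hM, index_mul_card]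

theorem centralizes_of_maximal {X : Type*} [Group X] [Finite X] {Q A : Subgroup X}
    (hQ : IsPGroup 2 Q) (hA : Odd (Nat.card A)) (hAQ : A ≤ normalizer (Q : Set X))
    (h : ∀ M : Subgroup X, M ≤ Q → 2 * Nat.card M = Nat.card Q → A ≤ normalizer (M : Set X)) :
    ⁅Q, A⁆ = ⊥ := by
  refine commutator_eq_bot_of_le_frattini
    (coprime_card_of_isPGroup (Nat.coprime_two_right.2 hA) hQ) (commutator_le.2 fun g hg a ha => ?_)
  have h1 := conj_mem_of_le_normalizer hAQ ha (Q.inv_mem hg)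
  refine ⟨⟨g, hg⟩ * ⟨_, h1⟩, mem_frattini_iff.2 fun M hM => ?_, by
    simp [commutatorElement_def, mul_assoc]⟩
  rw [isCoatom_iff_index_eq hQ] at hM
  rw [mul_mem_iff_of_index_two hM, ← M.inv_mem_iff,
    ← mem_map_iff_mem (f := Q.subtype) Q.subtype_injective,
    ← mem_map_iff_mem (f := Q.subtype) Q.subtype_injective]
  exact mem_normalizer_iff.1 (h _ (map_subtype_le _) (card_map_of_index_two hM) ha) g⁻¹

theorem centralizes_of_cyclic {X : Type*} [Group X] [Finite X] {Q A : Subgroup X}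
    (hQ : IsPGroup 2 Q) (hA : Odd (Nat.card A)) (hAQ : A ≤ normalizer (Q : Set X))
    (hc : IsCyclic Q) : ⁅Q, A⁆ = ⊥ := by
  refine centralizes_of_maximal hQ hA hAQ fun M hM _ => ?_
  rw [le_normalizer_iff]
  intro a ha m hm
  refine le_of_card_dvd_of_le_cyclic (C := Q) (H := M.map (MulAut.conj a).toMonoidHom) ?_ hM
    (by rw [card_map_of_injective (MulAut.conj a).injective]) ⟨m, hm, rfl⟩
  rintro _ ⟨x, hx, rfl⟩
  exact conj_mem_of_le_normalizer hAQ ha (hM hx)


/-- Let P be a 2-subgroup and A a subgroup of odd order of a finite group, with A normalizing P. Let D ≤ P with 1 < |D| < |P|. If every subgroup of P of order |D|, and also every subgroup of P of order 4 in case |D| = 2, is normalized by A, then A centralizes P. -/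
theorem result {X : Type*} [Group X] [Finite X] (P A D : Subgroup X) (hP : IsPGroup 2 P) (hA : Odd (Nat.card A))
    (hAP : A ≤ Subgroup.normalizer (P : Set X)) (hDP : D ≤ P) (hD1 : 1 < Nat.card D) (hD2 : Nat.card D < Nat.card P)
    (hinv : ∀ E : Subgroup X, E ≤ P → (Nat.card E = Nat.card D ∨ (Nat.card D = 2 ∧ Nat.card E = 4)) → A ≤ Subgroup.normalizer (E : Set X)) :
    A ≤ Subgroup.centralizer (P : Set X) := by
  rw [← commutator_eq_bot_iff_le_centralizer, commutator_comm]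
  refine commutator_eq_bot_of_centralizes_omega_two hP hAP (Nat.coprime_two_right.2 hA)
    fun x hx hx4 => ?_
  suffices h : ∃ E : Subgroup X, x ∈ E ∧ ⁅E, A⁆ = ⊥ by
    obtain ⟨E, h1, h2⟩ := h
    exact commutator_eq_bot_iff_le_centralizer.1 h2 h1
  obtain ⟨d, hd⟩ := (hP.to_le hDP).exists_card_eq
  obtain ⟨n, hn⟩ := hP.exists_card_eq
  obtain ⟨k, hk2, hk⟩ := (Nat.dvd_prime_pow Nat.prime_two).1
    (show orderOf x ∣ 2 ^ 2 from orderOf_dvd_of_pow_eq_one hx4)
  have hxP : zpowers x ≤ P := zpowers_le.2 hx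
  have hd0 : 0 < d := by
    by_contra h
    rw [hd, show d = 0 by omega] at hD1
    omega
  have hdn : d < n := (Nat.pow_lt_pow_iff_right one_lt_two).1 (by rwa [hd, hn] at hD2)
  by_cases hkd : d < k
  · obtain ⟨rfl, rfl⟩ : d = 1 ∧ k = 2 := by omega
    exact ⟨zpowers x, mem_zpowers x, centralizes_of_cyclic (hP.to_le hxP) hA
      (hinv _ hxP (Or.inr ⟨hd, by rw [Nat.card_zpowers, hk]; rfl⟩)) inferInstance⟩
  have key : ∀ (H : Subgroup X) (i j : ℕ), H ≤ P → Nat.card H = 2 ^ i → i ≤ j → j ≤ n →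
      ∃ K : Subgroup X, H ≤ K ∧ K ≤ P ∧ Nat.card K = 2 ^ j := by
    intro H i j hH hi hij hj
    obtain ⟨K, h1, h2⟩ := Sylow.exists_subgroup_card_pow_prime_le 2 (G := P) (m := j)
      (hn ▸ pow_dvd_pow 2 hj) (H.subgroupOf P)
      (by rw [← hi]; exact Nat.card_congr (subgroupOfEquivOfLe hH).toEquiv) hij
    exact ⟨K.map P.subtype, (map_subgroupOf_eq_of_le hH).ge.trans (map_mono h2), map_subtype_le _,
      by rw [card_map_of_injective P.subtype_injective, h1]⟩
  obtain ⟨E, hxE, hEP, hE⟩ := key _ k d hxP (by rw [Nat.card_zpowers, hk]) (by omega) hdn.le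
  have hAE := hinv E hEP (Or.inl (hE.trans hd.symm))
  by_cases hc : IsCyclic E
  · exact ⟨E, hxE (mem_zpowers x), centralizes_of_cyclic (hP.to_le hEP) hA hAE hc⟩
  obtain ⟨Q, hEQ, hQP, hQ⟩ := key E d (d + 1) hEP hE (by omega) hdn
  have hmax : ∀ M : Subgroup X, M ≤ Q → 2 * Nat.card M = Nat.card Q →
      A ≤ normalizer (M : Set X) := fun M hM h => hinv M (hM.trans hQP) (Or.inl (by
    rw [hQ, pow_succ] at h
    omega))
  refine ⟨Q, hEQ (hxE (mem_zpowers x)), centralizes_of_maximal (hP.to_le hQP) hA ?_ hmax⟩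
  have hEi : (E.subgroupOf Q).index = 2 := by
    have h1 := (E.subgroupOf Q).index_mul_card
    rw [Nat.card_congr (subgroupOfEquivOfLe hEQ).toEquiv, hE, hQ, pow_succ'] at h1
    exact Nat.eq_of_mul_eq_mul_right (by positivity) h1
  have hEc := (isCoatom_iff_index_eq (hP.to_le hQP)).2 hEi
  obtain ⟨g, hg⟩ : ∃ g : Q, g ∉ E.subgroupOf Q := by
    by_contra! h
    exact hEc.1 (eq_top_iff.2 fun g _ => h g)
  obtain ⟨M, hM, hgM⟩ := (eq_top_or_exists_le_coatom (zpowers g)).resolve_left fun h => by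
    have : IsCyclic Q := isCyclic_iff_exists_zpowers_eq_top.2 ⟨g, h⟩
    exact hc (isCyclic_of_le hEQ)
  have h1 : E.subgroupOf Q ⊔ M = ⊤ :=
    hEc.2 _ (left_lt_sup.2 fun h => hg (h (hgM (mem_zpowers g))))
  have h2 : E ⊔ M.map Q.subtype = Q := by
    rw [← map_subgroupOf_eq_of_le hEQ, ← Subgroup.map_sup, h1, ← MonoidHom.range_eq_map,
      range_subtype]
  rw [← h2]
  exact (le_inf hAE (hmax _ (map_subtype_le _) (card_map_of_index_two
    ((isCoatom_iff_index_eq (hP.to_le hQP)).1 hM)))).trans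
    (normalizer_inf_normalizer_le_normalizer_sup _ _)

end Cfsg.Agent.S3803
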