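import Cfsg.Statements.S3805
import Mathlib
import Cfsg.Agent.Lib.H5NineD
import Cfsg.Agent.Lib.PGroupDihQuat

set_option autoImplicit false
open Cfsg

namespace Cfsg.Agent.S3805
open Subgroup CfsgLib CfsgLib.H5 CfsgLib.H5.Nine DihedralGroup

theorem exists_two (V : Type*) [Group V] [Finite V] (h : 2 < Nat.card V) :
    ∃ p q : V, p ≠ 1 ∧ q ≠ 1 ∧ p ≠ q := by
  classical
  have := Fintype.ofFinite V
  obtain ⟨p, hp, q, hq, h⟩ := Finset.one_lt_card.1 (show 1 < (Finset.univ.erase (1 : V)).card by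
    rw [Finset.card_erase_of_mem (Finset.mem_univ _), Finset.card_univ, ← Nat.card_eq_fintype_card]
    omega)
  exact ⟨p, q, (Finset.mem_erase.1 hp).1, (Finset.mem_erase.1 hq).1, h⟩

theorem three {G : Type*} [Group G] [Finite G] {T K : Subgroup G} (hT : Nat.card T = 9)
    (hK : K ≤ T) (hne : ∃ t ∈ T, t ∉ K) {x y : G} (hx : x ∈ K) (hx1 : x ≠ 1) (hy : y ∈ K) :
    y = 1 ∨ y = x ∨ y = x⁻¹ := by
  have h1 : Nat.card K ∣ 3 ^ 2 := (card_dvd_of_le hK).trans hT.dvd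
  have h2 : Nat.card K = 3 := by
    obtain ⟨k, hk, e⟩ := (Nat.dvd_prime_pow Nat.prime_three).1 h1
    interval_cases k
    · exact absurd (mem_bot.1 (card_eq_one.1 e ▸ hx)) hx1
    · exact e
    · obtain ⟨t, ht, ht'⟩ := hne
      exact absurd (eq_of_le_of_card_ge hK (by omega) ▸ ht) ht'
  have h3 : orderOf x = 3 := ((Nat.dvd_prime Nat.prime_three).1
    (h2 ▸ orderOf_dvd_natCard K hx)).resolve_left (by simpa using hx1)
  have h4 : zpowers x = K := eq_of_le_of_card_ge (zpowers_le.2 hx) (by rw [Nat.card_zpowers]; omega)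
  obtain ⟨n, rfl⟩ := (Submonoid.mem_powers_iff _ _).1 (mem_powers_iff_mem_zpowers.2 (h4 ▸ hy))
  rw [← pow_mod_orderOf, h3]
  have h5 := Nat.mod_lt n (by norm_num : 0 < 3)
  interval_cases n % 3
  · simp
  · simp
  · exact Or.inr (Or.inr (eq_inv_of_mul_eq_one_left (by rw [← pow_succ]; exact orderOf_dvd_iff_pow_eq_one.1 h3.dvd)))

theorem exists_hom {G : Type*} [Group G] {x y : G} (hx : x ^ 3 = 1) (hy : y * y = 1)
    (hr : y * x * y⁻¹ = x⁻¹) : ∃ f : D3 →* G, f (r 1) = x ∧ f (sr 0) = y := by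
  have hc1 : ∀ k : ℤ, x ^ k * y = y * x ^ (-k) := by
    intro k
    have := PGrp.conj_zpow_of_conj (x := x) (y := y) (r := -1) (by simpa using hr) (-k)
    rw [mul_inv_eq_iff_eq_mul.1 this]
    simp
  refine ⟨MonoidHom.mk' (fun a => match a with
      | .r i => x ^ (ZMod.cast i : ℤ)
      | .sr i => y * x ^ (ZMod.cast i : ℤ)) ?_, zpow_one x, (congrArg (y * ·) (zpow_zero x)).trans (mul_one y)⟩
  rintro (i | i) (j | j) <;> obtain ⟨i, rfl⟩ := ZMod.intCast_surjective i <;>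
    obtain ⟨j, rfl⟩ := ZMod.intCast_surjective j
  · simp only [DihedralGroup.r_mul_r, ← Int.cast_add, PGrp.zpow_cast_intCast hx, zpow_add]
  · simp only [DihedralGroup.r_mul_sr, ← Int.cast_sub, PGrp.zpow_cast_intCast hx]
    rw [← mul_assoc, hc1, mul_assoc, ← zpow_add]; congr 2; ring
  · simp only [DihedralGroup.sr_mul_r, ← Int.cast_add, PGrp.zpow_cast_intCast hx, zpow_add,
      mul_assoc]
  · simp only [DihedralGroup.sr_mul_sr, ← Int.cast_sub, PGrp.zpow_cast_intCast hx]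
    rw [mul_assoc, ← mul_assoc (x ^ i), hc1, ← mul_assoc, ← mul_assoc, hy, one_mul,
      ← zpow_add]; congr 1; ring


theorem exists_gens {G : Type*} [Group G] [Finite G] {T V : Subgroup G} (hcard : Nat.card T = 9)
    (hT : ∀ x ∈ T, x ^ 3 = 1) (hc : ∀ x ∈ T, ∀ y ∈ T, x * y = y * x) (hV4 : Nat.card V = 4)
    (hV2 : ∀ s ∈ V, s * s = 1) (hcj : ∀ {s t : G}, s ∈ V → t ∈ T → s * t * s⁻¹ ∈ T)
    (hf : ∀ s ∈ V, (∀ t ∈ T, s * t * s⁻¹ = t) → s = 1) :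
    ∃ a ∈ T, ∃ b ∈ T, ∃ u ∈ V, ∃ v ∈ V, u * a * u⁻¹ = a⁻¹ ∧ u * b * u⁻¹ = b ∧ v * a * v⁻¹ = a ∧
      v * b * v⁻¹ = b⁻¹ ∧ u * v = v * u ∧ (∀ K : Subgroup G, a ∈ K → b ∈ K → T ≤ K) ∧
      ∀ K : Subgroup G, u ∈ K → v ∈ K → V ≤ K := by
  have hVi : ∀ s ∈ V, s⁻¹ = s := fun s hs => inv_eq_of_mul_eq_one_left (hV2 s hs)
  have hVc : ∀ s ∈ V, ∀ q ∈ V, s * q = q * s := fun s hs q hq => by
    rw [← hVi _ (mul_mem hs hq), mul_inv_rev, hVi s hs, hVi q hq]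
  have hinv : ∀ s ∈ V, ∀ t ∈ T,
      s * (t * (s * t * s⁻¹)) * s⁻¹ = t * (s * t * s⁻¹) ∧
      s * (t * (s * t * s⁻¹)⁻¹) * s⁻¹ = (t * (s * t * s⁻¹)⁻¹)⁻¹ := fun s hs t ht => by
    have h1 : s * (s * t * s⁻¹) * s⁻¹ = t := by
      rw [hVi s hs, ← mul_assoc, ← mul_assoc, hV2 s hs, mul_assoc, hV2 s hs, one_mul, mul_one]
    constructor
    · rw [← conj_mul, h1, hc _ (hcj hs ht) _ ht]
    · rw [← conj_mul, ← conj_inv, h1, mul_inv_rev, inv_inv]
  obtain ⟨u, hu, hu1, b, hb, hb1, hub⟩ : ∃ u ∈ V, u ≠ 1 ∧ ∃ b ∈ T, b ≠ 1 ∧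
      u * b * u⁻¹ = b := by
    by_contra! h
    have h1 : ∀ s ∈ V, s ≠ 1 → ∀ t ∈ T, s * t * s⁻¹ = t⁻¹ := fun s hs hs1 t ht =>
      eq_inv_of_mul_eq_one_right (by_contra fun e =>
        h s hs hs1 _ (mul_mem ht (hcj hs ht)) e (hinv s hs t ht).1)
    obtain ⟨p, q, hp, hq, hpq⟩ := exists_two V (by omega)
    refine hpq (Subtype.ext (mul_inv_eq_one.1 (hf _ (mul_mem p.2 (V.inv_mem q.2)) fun t ht => ?_)))
    rw [hVi q q.2, show (p : G) * q * t * (p * q : G)⁻¹ = p * (q * t * (q : G)⁻¹) * (p : G)⁻¹ by group,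
      h1 q q.2 (by simpa using hq) t ht, h1 p p.2 (by simpa using hp) _ (T.inv_mem ht), inv_inv]
  obtain ⟨t₀, ht₀, ht₁⟩ : ∃ t ∈ T, u * t * u⁻¹ ≠ t := by
    by_contra! h; exact hu1 (hf u hu h)
  obtain ⟨a, ha, ha1, hua⟩ : ∃ a ∈ T, a ≠ 1 ∧ u * a * u⁻¹ = a⁻¹ :=
    ⟨_, mul_mem ht₀ (T.inv_mem (hcj hu ht₀)), fun e => ht₁ (mul_inv_eq_one.1 e).symm,
      (hinv u hu t₀ ht₀).2⟩
  have hne : ∀ x ∈ T, x = x⁻¹ → x = 1 := fun x hx e => by
    have := hT x hx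
    rwa [pow_succ, sq, eq_inv_iff_mul_eq_one.1 e, one_mul] at this
  have hFb : ∀ y ∈ T, u * y * u⁻¹ = y → y = 1 ∨ y = b ∨ y = b⁻¹ := fun y hy e =>
    three hcard (K := T ⊓ centralizer {u}) inf_le_left
      ⟨a, ha, fun h => ha1 (hne a ha (by
        rw [← hua, ← mem_centralizer_singleton_iff.1 h.2, mul_inv_cancel_right]))⟩
      ⟨hb, mem_centralizer_singleton_iff.2 (mul_inv_eq_iff_eq_mul.1 hub).symm⟩ hb1
      ⟨hy, mem_centralizer_singleton_iff.2 (mul_inv_eq_iff_eq_mul.1 e).symm⟩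
  let I : Subgroup G :=
    { carrier := {y | y ∈ T ∧ u * y * u⁻¹ = y⁻¹}
      one_mem' := ⟨one_mem _, by simp⟩
      mul_mem' := fun {x y} hx hy => ⟨mul_mem hx.1 hy.1, by
        rw [← conj_mul, hx.2, hy.2, ← mul_inv_rev, hc _ hx.1 _ hy.1]⟩
      inv_mem' := fun {x} hx => ⟨T.inv_mem hx.1, by rw [← conj_inv, hx.2]⟩ }
  have hIa : ∀ y ∈ T, u * y * u⁻¹ = y⁻¹ → y = 1 ∨ y = a ∨ y = a⁻¹ := fun y hy e =>
    three hcard (K := I) (fun _ h => h.1) ⟨b, hb, fun h => hb1 (hne b hb (hub.symm.trans h.2))⟩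
      ⟨ha, hua⟩ ha1 ⟨hy, e⟩
  have hgen : ∀ K : Subgroup G, a ∈ K → b ∈ K → T ≤ K := fun K h1 h2 t ht => by
    have h3 : t * (u * t * u⁻¹) ∈ K := by
      rcases hFb _ (mul_mem ht (hcj hu ht)) (hinv u hu t ht).1 with e | e | e <;> rw [e]
      exacts [one_mem _, h2, K.inv_mem h2]
    have h4 : t * (u * t * u⁻¹)⁻¹ ∈ K := by
      rcases hIa _ (mul_mem ht (T.inv_mem (hcj hu ht))) (hinv u hu t ht).2 with
        e | e | e <;> rw [e]
      exacts [one_mem _, h1, K.inv_mem h1]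
    have h5 := K.inv_mem (mul_mem h3 h4)
    rwa [mul_assoc, ← mul_assoc (u * t * u⁻¹), hc _ (hcj hu ht) _ ht, mul_inv_cancel_right,
      inv_eq_of_mul_eq_one_left (by rw [← hT t ht, pow_three])] at h5
  have hq : ∀ q ∈ V, (q * a * q⁻¹ = a ∨ q * a * q⁻¹ = a⁻¹) ∧
      (q * b * q⁻¹ = b ∨ q * b * q⁻¹ = b⁻¹) := fun q hq => by
    have h1 : ∀ y : G, u * (q * y * q⁻¹) * u⁻¹ = q * (u * y * u⁻¹) * q⁻¹ := fun y => by
      calc _ = u * q * y * (u * q)⁻¹ := by group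
        _ = _ := by rw [hVc u hu q hq]; group
    exact ⟨(hIa _ (hcj hq ha) (by rw [h1, hua, conj_inv])).resolve_left (by simpa using ha1),
      (hFb _ (hcj hq hb) (by rw [h1, hub])).resolve_left (by simpa using hb1)⟩
  obtain ⟨v, hv, hv1, hvu, hva⟩ : ∃ v ∈ V, v ≠ 1 ∧ v ≠ u ∧ v * a * v⁻¹ = a := by
    obtain ⟨q, hq0, hq1, hq2⟩ : ∃ q ∈ V, q ≠ 1 ∧ q ≠ u := by
      obtain ⟨p, q, hp, hq, hpq⟩ := exists_two V (by omega)
      by_cases e : p = u
      exacts [⟨q, q.2, by simpa using hq, fun h => hpq (Subtype.ext (e.trans h.symm))⟩,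
        ⟨p, p.2, by simpa using hp, e⟩]
    rcases (hq q hq0).1 with e | e
    · exact ⟨q, hq0, hq1, hq2, e⟩
    · refine ⟨q * u, mul_mem hq0 hu, fun h => hq2 (by rw [← hVi u hu]; exact eq_inv_of_mul_eq_one_left h),
        by simpa using hq1, ?_⟩
      rw [show q * u * a * (q * u)⁻¹ = q * (u * a * u⁻¹) * q⁻¹ by group, hua, ← conj_inv, e, inv_inv]
  have hvb : v * b * v⁻¹ = b⁻¹ := (hq v hv).2.resolve_left fun e => hv1 (hf v hv fun t ht =>
    mul_inv_eq_iff_eq_mul.2 (mem_centralizer_singleton_iff.1 (hgen (centralizer {v})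
      (mem_centralizer_singleton_iff.2 (mul_inv_eq_iff_eq_mul.1 hva).symm)
      (mem_centralizer_singleton_iff.2 (mul_inv_eq_iff_eq_mul.1 e).symm) ht)).symm)
  refine ⟨a, ha, b, hb, u, hu, v, hv, hua, hub, hva, hvb, hVc u hu v hv, hgen,
    fun K e1 e2 g hg => ?_⟩
  have : Nontrivial V := ⟨⟨u, hu⟩, 1, by simpa using hu1⟩
  have : IsKleinFour V := ⟨hV4, (Monoid.exponent_eq_prime_iff Nat.prime_two).2 fun g hg =>
    orderOf_eq_prime (Subtype.ext (by simpa [sq] using hV2 g g.2)) hg⟩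
  by_cases h1 : g = 1
  · exact h1 ▸ one_mem _
  by_cases h2 : g = u
  · exact h2 ▸ e1
  by_cases h3 : g = v
  · exact h3 ▸ e2
  have := IsKleinFour.eq_mul_of_ne_all (G := V) (x := ⟨u, hu⟩) (y := ⟨v, hv⟩) (z := ⟨g, hg⟩)
    (by simpa using hu1) (by simpa using hv1) (by simpa using hvu.symm) (by simpa using h1)
    (by simpa using h2) (by simpa using h3)
  rw [show g = u * v from congrArg Subtype.val this]
  exact mul_mem e1 e2

theorem exists_phi {G : Type*} [Group G] [Finite G] {T V N : Subgroup G} (hcard : Nat.card T = 9)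
    (hT : ∀ x ∈ T, x ^ 3 = 1) (hc : ∀ x ∈ T, ∀ y ∈ T, x * y = y * x) (hV4 : Nat.card V = 4)
    (hV2 : ∀ s ∈ V, s * s = 1) (hcj : ∀ {s t : G}, s ∈ V → t ∈ T → s * t * s⁻¹ ∈ T)
    (hf : ∀ s ∈ V, (∀ t ∈ T, s * t * s⁻¹ = t) → s = 1) (hTN : T ≤ N) (hV : V ≤ N)
    (hN36 : Nat.card N = 36) : ∃ φ : SS →* G, Function.Injective φ ∧ φ.range = N ∧
      ∀ g, g ∈ T ↔ ∃ i j, φ (r i, r j) = g := by
  obtain ⟨a, ha, b, hb, u, hu, v, hv, hua, hub, hva, hvb, huv, hgen, hgenV⟩ :=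
    exists_gens hcard hT hc hV4 hV2 hcj hf
  obtain ⟨f₁, f1, f2⟩ := exists_hom (hT a ha) (hV2 u hu) hua
  obtain ⟨f₂, f3, f4⟩ := exists_hom (hT b hb) (hV2 v hv) hvb
  have hgen2 : ∀ s : D3, ∃ m n : Fin 3, s = sr 0 ^ m.1 * r 1 ^ n.1 := by decide
  let φ : SS →* G := f₁.noncommCoprod f₂ fun s s' => by
    obtain ⟨m, n, rfl⟩ := hgen2 s
    obtain ⟨k, l, rfl⟩ := hgen2 s'
    simp only [map_mul, map_pow, f1, f2, f3, f4]
    have e1 : Commute u v := huv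
    have e2 : Commute u b := mul_inv_eq_iff_eq_mul.1 hub
    have e3 : Commute a v := (mul_inv_eq_iff_eq_mul.1 hva).symm
    have e4 : Commute a b := hc a ha b hb
    exact ((e1.pow_pow _ _).mul_right (e2.pow_pow _ _)).mul_left
      ((e3.pow_pow _ _).mul_right (e4.pow_pow _ _))
  have hφ : ∀ s s', φ (s, s') = f₁ s * f₂ s' := fun _ _ => rfl
  have hle : φ.range ≤ N := by
    rintro _ ⟨⟨s, s'⟩, rfl⟩
    obtain ⟨m, n, rfl⟩ := hgen2 s
    obtain ⟨k, l, rfl⟩ := hgen2 s'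
    simp only [hφ, map_mul, map_pow, f1, f2, f3, f4]
    exact mul_mem (mul_mem (pow_mem (hV hu) _) (pow_mem (hTN ha) _))
      (mul_mem (pow_mem (hV hv) _) (pow_mem (hTN hb) _))
  have hTφ : ∀ g, g ∈ T ↔ ∃ i j, φ (r i, r j) = g := fun g => by
    constructor
    · intro hg
      obtain ⟨s, hs, rfl⟩ := hgen ((centralizer {((r 1, r 1) : SS)}).map φ)
        ⟨(r 1, 1), mem_centralizer_singleton_iff.2 (by decide), by simp [hφ, f1]⟩
        ⟨(1, r 1), mem_centralizer_singleton_iff.2 (by decide), by simp [hφ, f3]⟩ hg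
      obtain ⟨i, j, rfl⟩ := (by decide : ∀ s : SS, s * (r 1, r 1) = (r 1, r 1) * s →
        ∃ i j, s = (r i, r j)) s (mem_centralizer_singleton_iff.1 hs)
      exact ⟨i, j, rfl⟩
    · rintro ⟨i, j, rfl⟩
      obtain ⟨m, hm⟩ := (by decide : ∀ i : ZMod 3, ∃ m : Fin 3, (r i : D3) = r 1 ^ m.1) i
      obtain ⟨n, hn⟩ := (by decide : ∀ i : ZMod 3, ∃ m : Fin 3, (r i : D3) = r 1 ^ m.1) j
      rw [hφ, hm, hn, map_pow, map_pow, f1, f3]
      exact mul_mem (pow_mem ha _) (pow_mem hb _)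
  have hcard' : 36 ∣ Nat.card φ.range := by
    refine Nat.Coprime.mul_dvd_of_dvd_of_dvd (a := Nat.card φ.range) (m := 4) (n := 9)
      (by norm_num) ?_ (hcard ▸ card_dvd_of_le fun g hg => by
        obtain ⟨i, j, h⟩ := (hTφ g).1 hg
        exact ⟨_, h⟩)
    exact hV4 ▸ card_dvd_of_le (hgenV _ ⟨(sr 0, 1), by simp [hφ, f2]⟩ ⟨(1, sr 0), by simp [hφ, f4]⟩)
  have hr : φ.range = N := eq_of_le_of_card_ge hle (hN36 ▸ Nat.le_of_dvd Nat.card_pos hcard')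
  have hinj : Function.Injective φ := by
    have h1 := φ.ker.card_mul_index
    rw [index_ker, hr, hN36, Nat.card_prod, nat_card] at h1
    exact (MonoidHom.ker_eq_bot_iff φ).1 (card_eq_one.1 (by omega))
  exact ⟨φ, hinj, hr, hTφ⟩

/-- Let G be a finite group whose Sylow 3-subgroup T is elementary abelian of order 9 and self-centralizing, with N_G(T)/T a Klein four-group, and suppose that the centralizer of every nonidentity element of T lies in N_G(T). Then T is normal in G. -/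
theorem result {G : Type*} [Group G] [Finite G]
    (T : Sylow 3 G) (hT : Cfsg.IsElementaryAbelian 3 (T : Subgroup G)) (hcard : Nat.card T = 9)
    (hC : Subgroup.centralizer ((T : Subgroup G) : Set G) = T)
    [hn : ((T : Subgroup G).subgroupOf (Subgroup.normalizer ((T : Subgroup G) : Set G))).Normal]
    (hK : IsKleinFour (↥(Subgroup.normalizer ((T : Subgroup G) : Set G)) ⧸
      (T : Subgroup G).subgroupOf (Subgroup.normalizer ((T : Subgroup G) : Set G))))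
    (hloc : ∀ t ∈ (T : Subgroup G), t ≠ 1 →
      Subgroup.centralizer ({t} : Set G) ≤ Subgroup.normalizer ((T : Subgroup G) : Set G)) :
    Subgroup.normalizer ((T : Subgroup G) : Set G) = ⊤ := by
  classical
  have := Fintype.ofFinite G
  set N := normalizer ((T : Subgroup G) : Set G) with hN
  have hc : ∀ x ∈ (T : Subgroup G), ∀ y ∈ (T : Subgroup G), x * y = y * x :=
    PGrp.isMulCommutative_iff_forall.1 hT.1
  have hTN : (T : Subgroup G) ≤ N := le_normalizer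
  have hcj : ∀ {s t : G}, s ∈ N → t ∈ (T : Subgroup G) → s * t * s⁻¹ ∈ (T : Subgroup G) :=
    fun hs ht => (mem_normalizer_iff.1 hs _).1 ht
  have hN36 : Nat.card N = 36 := by
    rw [← card_mul_relIndex hTN, hcard, relIndex, index, hK.card_four]
  have h3T : ∀ {X : Subgroup G}, X ≤ N → IsPGroup 3 X → X ≤ T := fun hX h =>
    le_sup_right.trans ((IsSylowIn.sylow_top T).eq_of_le (T.2.to_sup_of_normal_left' h hX)
      le_sup_left le_top).le
  obtain ⟨V, hV⟩ := IsSylowIn.exists_in (p := 2) N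
  have hV4 : Nat.card V = 4 := by
    rw [hV.card_eq_ordProj, hN36, show 36 = 2 ^ 2 * 9 from rfl,
      Nat.factorization_mul (by norm_num) (by norm_num), Nat.prime_two.factorization_pow]
    simp [Nat.factorization_eq_zero_of_not_dvd]
  have hVT : ∀ s ∈ V, s ∈ (T : Subgroup G) → s = 1 := fun s h1 h2 =>
    (disjoint_def.1 (IsPGroup.disjoint_of_ne 2 3 (by norm_num) _ _ hV.isPGroup T.2)) h1 h2
  have hV2 : ∀ s ∈ V, s * s = 1 := fun s hs => hVT _ (mul_mem hs hs)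
    ((QuotientGroup.eq_one_iff (N := (T : Subgroup G).subgroupOf N) ((⟨s, hV.le hs⟩ : N) * ⟨s, hV.le hs⟩)).1
      (by exact IsKleinFour.mul_self (QuotientGroup.mk (⟨s, hV.le hs⟩ : N) :
        N ⧸ (T : Subgroup G).subgroupOf N)))
  have hf : ∀ s ∈ V, (∀ t ∈ (T : Subgroup G), s * t * s⁻¹ = t) → s = 1 := fun s hs h =>
    hVT s hs (hC ▸ mem_centralizer_iff.2 fun t ht => (mul_inv_eq_iff_eq_mul.1 (h t ht)).symm)
  obtain ⟨φ, hinj, hr, hTφ⟩ := exists_phi hcard hT.2 hc hV4 hV2 (fun hs ht => hcj (hV.le hs) ht)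
    hf hTN hV.le hN36
  rw [← hr]
  refine main' φ hinj (fun x s s' h hs => ?_) T hTφ
  obtain ⟨i, j, e⟩ := (by decide : ∀ s : SS, ∃ i j, s ^ 2 = (r i, r j)) s
  obtain ⟨k, l, e'⟩ := (by decide : ∀ s : SS, ∃ i j, s ^ 2 = (r i, r j)) s'
  have h1 : x⁻¹ * φ (s ^ 2) * x = φ (s' ^ 2) := by
    rw [map_pow, map_pow, ← h]; simp [sq, mul_assoc]
  have h2 := h3T (X := (T : Subgroup G).map (MulAut.conj x⁻¹).toMonoidHom) (le_trans (by
    rintro _ ⟨t, ht, rfl⟩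
    refine mem_centralizer_singleton_iff.2 ?_
    have := hc t ht _ ((hTφ _).2 ⟨i, j, congrArg φ e.symm⟩)
    rw [← h1]
    calc x⁻¹ * t * x⁻¹⁻¹ * (x⁻¹ * φ (s ^ 2) * x) = x⁻¹ * (t * φ (s ^ 2)) * x := by group
      _ = x⁻¹ * φ (s ^ 2) * x * (x⁻¹ * t * x⁻¹⁻¹) := by rw [this]; group)
    (hloc _ ((hTφ _).2 ⟨k, l, congrArg φ e'.symm⟩) fun h => hs (hinj (h.trans (map_one φ).symm))))
    (T.2.map _)
  rw [hr, ← Subgroup.inv_mem_iff]
  exact mem_normalizer_fintype fun t ht => h2 (mem_map_of_mem _ ht)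

end Cfsg.Agent.S3805
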