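import Cfsg.Statements.S3814
import Mathlib
import Cfsg.Agent.Lib.H5FourC

set_option autoImplicit false
open Cfsg

namespace Cfsg.Agent.S3814
open Subgroup CfsgLib CfsgLib.FT CfsgLib.FT.BGN CfsgLib.FT.U4 CfsgLib.H5.FourP

section

variable {G : Type*} [Group G] [Finite G]

theorem nt_of {p q r : ℕ} (hp : p.Prime) (hq : q.Prime) (hr : r.Prime) (pq : p ≠ q) (qr : q ≠ r)
    (pr : p ≠ r) (h : ∀ g : G, orderOf g ≠ p * q * r) : NT G p q r := by
  intro a b c ha hb hc a1 b1 c1 h1 h2 h3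
  obtain ⟨a', ha', oa⟩ := exists_order hp ha (by simpa using a1)
  obtain ⟨b', hb', ob⟩ := exists_order hq hb (by simpa using b1)
  obtain ⟨c', hc', oc⟩ := exists_order hr hc (by simpa using c1)
  have key : ∀ {x y x' y' : G}, x ∈ 𝐂[y] → x' ∈ zpowers x → y' ∈ zpowers y → Commute x' y' :=
    fun hxy hx hy => mem_cent1.1 (zpowers_le.2 (cent1_le_cent1 hy hxy) hx)
  have e1 : orderOf (a' * b') = p * q := by
    rw [(key h1 ha' hb').orderOf_mul_eq_mul_orderOf_of_coprime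
      (by rw [oa, ob]; exact (Nat.coprime_primes hp hq).2 pq), oa, ob]
  refine h (a' * b' * c') ?_
  rw [((key h2 ha' hc').mul_left (key h3 hb' hc')).orderOf_mul_eq_mul_orderOf_of_coprime, e1, oc]
  rw [e1, oc]
  exact Nat.Coprime.mul_left ((Nat.coprime_primes hp hr).2 pr) ((Nat.coprime_primes hq hr).2 qr)

theorem exists_order' {H : Subgroup G} {r : ℕ} (hr : r.Prime) (hd : r ∣ Nat.card H) :
    ∃ b ∈ H, orderOf b = r := by
  have := Fact.mk hr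
  obtain ⟨g, hg⟩ := exists_prime_orderOf_dvd_card' (G := H) r hd
  exact ⟨g, g.2, by rwa [orderOf_coe]⟩

theorem luc_aux {t p q s : ℕ} (d : D4 G t p q s) {z : G} (hz : orderOf z = t) {V Y : Subgroup G}
    (hV : IsPGroup p V) (hV1 : V ≠ ⊥) (hVz : V ≤ 𝐂[z]) (hYz : Y ≤ 𝐂[z]) (hYV : Y ≤ 𝐍(V))
    (hs : s ∣ Nat.card Y) (hq : pCoreOf q Y ≠ ⊥) : False := by
  obtain ⟨c, hc, hco⟩ := exists_order' d.hs hs
  have z1 := ne_one_of_prime d.hp hz
  have c1 := ne_one_of_prime d.hs hco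
  have hle := H1.pCoreOf_le (p := q) Y
  have h1 := frob d.hq d.hr d.hs d.qr.symm d.qs.symm hV (H1.pCoreOf_isPGroup Y) hco
    (H1.le_normalizer_pCoreOf Y hc) (by
      rw [← d.prs.s12.bot (H1.pCoreOf_isPGroup Y) (pg_zpowers hz) (pg_zpowers hco) z1 c1
        (mem_cent1_comm.1 (hYz hc)), inf_eq_left.2 (hle.trans hYz)]) (hle.trans hYV) (hYV hc) (by
      rw [← d.pqs.s12.bot hV (pg_zpowers hz) (pg_zpowers hco) z1 c1
        (mem_cent1_comm.1 (hYz hc)), inf_eq_left.2 hVz])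
  obtain ⟨u, hu, hu1⟩ := exists_ne_one hq
  obtain ⟨v, hv, hv1⟩ := exists_ne_one hV1
  exact d.pqr z v u (pg_zpowers hz) (pz hV hv) (pz (H1.pCoreOf_isPGroup Y) hu) z1 hv1 hu1
    (mem_cent1_comm.1 (hVz hv)) (mem_cent1_comm.1 (hYz (hle hu)))
    (mem_cent1_comm.1 (cent_le_cent1 hv (h1 hu)))

variable [Group.IsSolvable G]

theorem ne_bot_of_dvd {r : ℕ} (hr : r.Prime) {Y : Subgroup G} (h : r ∣ Nat.card Y) : Y ≠ ⊥ := by
  rintro rfl
  rw [card_bot] at h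
  exact hr.one_lt.ne' (Nat.dvd_one.1 h)

theorem luc_aux2 {t p q s : ℕ} (d : D4 G t p q s) {z : G} (hz : orderOf z = t) {X : Subgroup G}
    (hXz : X ≤ 𝐂[z]) (hq : q ∣ Nat.card X) (hs : s ∣ Nat.card X) (hp : pCoreOf p X ≠ ⊥) :
    False := by
  obtain ⟨Y, hYX, hpg, h1⟩ := exists_hall {q, s} X
  have h2 := (h1 q (Or.inl rfl) d.hr).2.2 hq
  have h3 := (h1 s (Or.inr rfl) d.hs).2.2 hs
  obtain ⟨u, hu | hu, h4⟩ := exists_core hpg (ne_bot_of_dvd d.hr h2)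
  · subst hu
    exact luc_aux d hz (H1.pCoreOf_isPGroup X) hp ((H1.pCoreOf_le X).trans hXz) (hYX.trans hXz)
      (hYX.trans (H1.le_normalizer_pCoreOf X)) h3 h4
  · obtain rfl : u = s := hu
    exact luc_aux d.s34 hz (H1.pCoreOf_isPGroup X) hp ((H1.pCoreOf_le X).trans hXz) (hYX.trans hXz)
      (hYX.trans (H1.le_normalizer_pCoreOf X)) h2 h4

theorem luc {t p q s : ℕ} (d : D4 G t p q s) {z : G} (hz : orderOf z = t)
    (hp : p ∣ Nat.card 𝐂[z]) (hq : q ∣ Nat.card 𝐂[z]) (hs : s ∣ Nat.card 𝐂[z]) : False := by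
  obtain ⟨X, hX, hpg, h1⟩ := exists_hall {p, q, s} 𝐂[z]
  have h2 := (h1 p (Or.inl rfl) d.hq).2.2 hp
  have h3 := (h1 q (Or.inr (Or.inl rfl)) d.hr).2.2 hq
  have h4 := (h1 s (Or.inr (Or.inr rfl)) d.hs).2.2 hs
  obtain ⟨u, hu | hu | hu, h5⟩ := exists_core hpg (ne_bot_of_dvd d.hq h2)
  · subst hu
    exact luc_aux2 d hz hX h3 h4 h5
  · subst hu
    exact luc_aux2 d.s23 hz hX h2 h4 h5
  · obtain rfl : u = s := hu
    exact luc_aux2 d.s34.s23 hz hX h2 h3 h5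

theorem rk2_top {t p q s : ℕ} (d : D4 G t p q s) (hp : ∃ g : G, orderOf g = t * p)
    (hq : ∃ g : G, orderOf g = t * q) (hs : ∃ g : G, orderOf g = t * s) :
    Rk2 t (⊤ : Subgroup G) := by
  have := Fact.mk d.hp
  by_contra h
  obtain ⟨P, hP⟩ := IsSylowIn.exists_in (p := t) (⊤ : Subgroup G)
  have hP1 : P ≠ ⊥ := hP.ne_bot (by
    obtain ⟨g, hg⟩ := hp
    exact (dvd_mul_right t p).trans (hg ▸ orderOf_dvd_natCard _ (mem_top g)))
  obtain ⟨z, hz, hzo⟩ := exists_order d.hp (hP.isPGroup.to_le inf_le_left)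
    (center_ne_bot d.hp hP.isPGroup hP1)
  have key : ∀ u : ℕ, u.Prime → (∃ g : G, orderOf g = t * u) → u ∣ Nat.card 𝐂[z] := by
    rintro u hu ⟨g, hg⟩
    have h1 : orderOf (g ^ u) = t := by
      rw [orderOf_pow_of_dvd hu.ne_zero (hg ▸ dvd_mul_left u t), hg, Nat.mul_div_cancel _ hu.pos]
    obtain ⟨x, -, hx⟩ := hP.exists_conj_le (pg_zpowers h1) le_top
    have h2 := hx (conj_mem_map_conj (mem_zpowers _))
    have h3 : orderOf (x * g ^ u * x⁻¹) = t := by rw [orderOf_conj, h1]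
    have h4 := mem_of_not_rk2 d.hp h (mem_top _) (mem_top z) (h3 ▸ pow_orderOf_eq_one _) hzo
      (cent_le_cent1 h2 hz.2)
    rw [← cent1_eq d.hp hzo h4 (ne_one_of_prime d.hp h3), cent1_conj, card_map_conj]
    exact (dvd_mul_left u t).trans (hg ▸ orderOf_dvd_natCard _
      (mem_cent1_comm.1 (pow_mem (self_mem_cent1 g) u)))
  exact luc d hzo (key p d.hq hp) (key q d.hr hq) (key s d.hs hs)

theorem fin_aux2 {p q r s : ℕ} (d : D4 G p q r s) {V H : Subgroup G} (hV : IsPGroup p V)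
    (hV1 : V ≠ ⊥) (hHV : H ≤ 𝐍(V)) (hr : Rk2 r H) (hs : Rk2 s H)
    (hq : pCoreOf q (H ⊓ 𝐂(V)) ≠ ⊥) : False := by
  obtain ⟨K, hKH, hpg, h1⟩ := exists_hall {r, s} H
  exact P2.false ⟨d, hV1, hq, hV, H1.pCoreOf_isPGroup _, (H1.pCoreOf_le _).trans inf_le_right,
    hKH.trans hHV, (hKH.trans (H1.le_normalizer_inf le_normalizer
      (H1.le_normalizer_centralizer hHV))).trans (H1.normalizer_le_normalizer_pCoreOf _), hpg,
    (h1 r (Or.inl rfl) d.hr).1 hr, (h1 s (Or.inr rfl) d.hs).1 hs⟩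

theorem fin_aux {p q r s : ℕ} (d : D4 G p q r s) {X : Subgroup G} (hp : pCoreOf p X ≠ ⊥)
    (hq : Rk2 q X) (hr : Rk2 r X) (hs : Rk2 s X) : False := by
  obtain ⟨H, hHX, hpg, h1⟩ := exists_hall {q, r, s} X
  have h2 := (h1 q (Or.inl rfl) d.hq).1 hq
  have h3 := (h1 r (Or.inr (Or.inl rfl)) d.hr).1 hr
  have h4 := (h1 s (Or.inr (Or.inr rfl)) d.hs).1 hs
  have hV := H1.pCoreOf_isPGroup (p := p) X
  have hHV := hHX.trans (H1.le_normalizer_pCoreOf (p := p) X)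
  by_cases h5 : H ⊓ 𝐂(pCoreOf p X) = ⊥
  · exact P1.false ⟨d, hp, hV, hHV, h5, hpg, h2, h3, h4⟩
  obtain ⟨u, hu | hu | hu, h6⟩ := exists_core (π := {q, r, s})
    (fun t ht hd => hpg t ht (hd.trans (card_dvd_of_le inf_le_left))) h5
  · subst hu
    exact fin_aux2 d hV hp hHV h3 h4 h6
  · subst hu
    exact fin_aux2 d.s23 hV hp hHV h2 h4 h6
  · obtain rfl : u = s := hu
    exact fin_aux2 d.s34.s23 hV hp hHV h2 h3 h6

theorem fin {p q r s : ℕ} (d : D4 G p q r s) (hp : Rk2 p (⊤ : Subgroup G))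
    (hq : Rk2 q (⊤ : Subgroup G)) (hr : Rk2 r (⊤ : Subgroup G)) (hs : Rk2 s (⊤ : Subgroup G)) :
    False := by
  obtain ⟨X, -, hpg, h1⟩ := exists_hall {p, q, r, s} (⊤ : Subgroup G)
  have h0 := (h1 p (Or.inl rfl) d.hp).1 hp
  have h2 := (h1 q (Or.inr (Or.inl rfl)) d.hq).1 hq
  have h3 := (h1 r (Or.inr (Or.inr (Or.inl rfl))) d.hr).1 hr
  have h4 := (h1 s (Or.inr (Or.inr (Or.inr rfl))) d.hs).1 hs
  have hX : X ≠ ⊥ := by
    obtain ⟨A, hAK, hA⟩ := h3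
    obtain ⟨a, ha, ha'⟩ := hA.exists_notMem d.hr 1
    exact ne_bot_of_mem (hAK ha) fun e => ha' (by rw [e]; exact one_mem _)
  obtain ⟨u, hu | hu | hu | hu, h6⟩ := exists_core hpg hX
  · subst hu
    exact fin_aux d h6 h2 h3 h4
  · subst hu
    exact fin_aux d.s12 h6 h0 h3 h4
  · subst hu
    exact fin_aux d.s23.s12 h6 h0 h2 h4
  · obtain rfl : u = s := hu
    exact fin_aux d.s34.s23.s12 h6 h0 h2 h3

end


/-- A criterion for nonsolvability from element orders: let G be a finite group and σ a set of at least four primes such that for all distinct p, q ∈ σ the product pq is the order of some element of G, while for all pairwise distinct p, q, r ∈ σ no element of G has order pqr. Then G is not solvable. -/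
theorem result {G : Type*} [Group G] [Finite G]
    (σ : Finset ℕ) (hσ : 4 ≤ σ.card) (hprime : ∀ p ∈ σ, p.Prime)
    (h2 : ∀ p ∈ σ, ∀ q ∈ σ, p ≠ q → ∃ g : G, orderOf g = p * q)
    (h3 : ∀ p ∈ σ, ∀ q ∈ σ, ∀ r ∈ σ, p ≠ q → q ≠ r → p ≠ r → ∀ g : G, orderOf g ≠ p * q * r) :
    ¬ Group.IsSolvable G := by
  intro hG
  obtain ⟨τ, hτ, hc⟩ := Finset.exists_subset_card_eq hσ
  obtain ⟨p, τ', hp', rfl, hc'⟩ := Finset.card_eq_succ.1 hc
  obtain ⟨q, r, s, qr, qs, rs, rfl⟩ := Finset.card_eq_three.1 hc'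
  have hp : p ∈ σ := hτ (by simp)
  have hq : q ∈ σ := hτ (by simp)
  have hr : r ∈ σ := hτ (by simp)
  have hs : s ∈ σ := hτ (by simp)
  simp only [Finset.mem_insert, Finset.mem_singleton, not_or] at hp'
  obtain ⟨pq, pr, ps⟩ := hp'
  have nt : ∀ a ∈ σ, ∀ b ∈ σ, ∀ c ∈ σ, a ≠ b → b ≠ c → a ≠ c → NT G a b c :=
    fun a ha b hb c hc h1 h2' h3' => nt_of (hprime a ha) (hprime b hb) (hprime c hc) h1 h2' h3'
      (h3 a ha b hb c hc h1 h2' h3')
  have d : D4 G p q r s := ⟨hprime p hp, hprime q hq, hprime r hr, hprime s hs, pq, pr, ps, qr, qs,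
    rs, nt p hp q hq r hr pq qr pr, nt p hp q hq s hs pq qs ps, nt p hp r hr s hs pr rs ps,
    nt q hq r hr s hs qr rs qs⟩
  exact fin d (rk2_top d (h2 p hp q hq pq) (h2 p hp r hr pr) (h2 p hp s hs ps))
    (rk2_top d.s12 (h2 q hq p hp (Ne.symm pq)) (h2 q hq r hr qr) (h2 q hq s hs qs))
    (rk2_top d.s23.s12 (h2 r hr p hp (Ne.symm pr)) (h2 r hr q hq qr.symm) (h2 r hr s hs rs))
    (rk2_top d.s34.s23.s12 (h2 s hs p hp (Ne.symm ps)) (h2 s hs q hq qs.symm) (h2 s hs r hr rs.symm))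

end Cfsg.Agent.S3814
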