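import Cfsg.Statements.S3816
import Cfsg.Agent.Lib.SLin.FixGenB
import Cfsg.Agent.Lib.CoprimeAut

set_option autoImplicit false
open Cfsg

namespace Cfsg.Agent.S3816

/-- Let p be an odd prime, H a finite solvable group of order prime to p, and x an automorphism of H of order p (so P = ⟨x⟩ has prime order p > 2 and acts coprimely on H). For h ∈ H let [h, P] be the subgroup generated by the commutators h⁻¹·xⁱ(h), and let [H, P] be the subgroup generated by all of these. Then the fixed points of x in [H, P] are generated by the fixed points of x in the subgroups [h, P], h ∈ H. -/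
theorem result {H : Type*} [Group H] [Finite H]
    [Group.IsSolvable H] {p : ℕ} [Fact p.Prime] (hp : p ≠ 2) (hcop : (Nat.card H).Coprime p)
    (x : MulAut H) (hx : orderOf x = p) :
    Subgroup.closure {c : H | ∃ h : H, ∃ i : ℕ, c = h⁻¹ * (x ^ i) h} ⊓ (x : H →* H).eqLocus (MonoidHom.id H) =
      ⨆ h : H, Subgroup.closure {c : H | ∃ i : ℕ, c = h⁻¹ * (x ^ i) h} ⊓ (x : H →* H).eqLocus (MonoidHom.id H) := by
  refine le_antisymm ?_ (iSup_le fun h => inf_le_inf_right _ (Subgroup.closure_mono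
    (by rintro _ ⟨i, rfl⟩; exact ⟨h, i, rfl⟩)))
  have : Finite (MulAut H) := Finite.of_injective _ DFunLike.coe_injective
  let φ := (Subgroup.zpowers x).subtype
  have := CfsgLib.CopAut.finite_semidirect (φ := φ)
  obtain ⟨y, hy⟩ : ∃ y : H ⋊[φ] Subgroup.zpowers x,
    y = SemidirectProduct.inr ⟨x, Subgroup.mem_zpowers x⟩ := ⟨_, rfl⟩
  have h1 : ∀ (i : ℕ) (h : H), y ^ i * SemidirectProduct.inl h * (y ^ i)⁻¹ =
      SemidirectProduct.inl ((x ^ i) h) := fun i h => by
    rw [hy, ← map_pow, CfsgLib.CopAut.inr_conj_inl]; rfl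
  have h2 : ∀ h : H, SemidirectProduct.inl h ∈ Subgroup.centralizer
      (Subgroup.zpowers y : Set (H ⋊[φ] Subgroup.zpowers x)) ↔ x h = h := fun h => by
    rw [CfsgLib.H1.centralizer_zpowers_eq, hy, CfsgLib.CopAut.inl_mem_centralizer_inr_iff]; rfl
  have h3 := CfsgLib.SLin.FG.fix_gen Fact.out hp _ _ y (CfsgLib.CopAut.L φ ⊤) rfl
    (by rw [hy, orderOf_injective _ SemidirectProduct.inr_injective, ← hx, ← Subgroup.orderOf_coe])
    (Subgroup.zpowers_le.2 (CfsgLib.mem_normalizer_of_conj_mem (by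
      rintro _ ⟨h, -, rfl⟩
      exact ⟨x h, trivial, by simpa using (h1 1 h).symm⟩)))
    (CfsgLib.CopAut.solvable_L inferInstance) (by rwa [CfsgLib.CopAut.card_L_top])
  rw [← CfsgLib.CopAut.L_le_L (φ := φ)]
  refine le_trans ?_ (h3.trans (CfsgLib.SLin.FG.DD_le ?_))
  · rintro _ ⟨g, hg, rfl⟩
    refine ⟨Subgroup.map_le_iff_le_comap.2 ((Subgroup.closure_le _).2 ?_)
      (Subgroup.mem_map_of_mem _ hg.1), (h2 g).2 hg.2⟩
    rintro _ ⟨h, i, rfl⟩
    have := Subgroup.commutator_mem_commutator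
      (Subgroup.mem_map_of_mem (SemidirectProduct.inl (φ := φ)) (Subgroup.mem_top h⁻¹))
      (pow_mem (Subgroup.mem_zpowers y) i)
    simpa [commutatorElement_def, mul_assoc, ← h1] using this
  · rintro _ ⟨h, -, rfl⟩ g hg
    obtain ⟨k, hk, rfl⟩ : g ∈ (Subgroup.closure {c : H | ∃ i : ℕ, c = h⁻¹ * (x ^ i) h}).map
        SemidirectProduct.inl := by
      refine CfsgLib.SLin.FG.cm_le_iff.2 (fun i => ?_) hg.1
      exact ⟨_, Subgroup.subset_closure ⟨i, rfl⟩, by rw [h1, map_mul, map_inv]⟩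
    exact Subgroup.mem_map_of_mem _ (Subgroup.mem_iSup_of_mem h ⟨hk, (h2 k).1 hg.2⟩)

end Cfsg.Agent.S3816
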