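import Cfsg.Statements.S3818
import Cfsg.Agent.Lib.SLin.Flav

set_option autoImplicit false
open Cfsg

namespace Cfsg.Agent.S3818

/-- Let G be a finite solvable group and P a subgroup of G of prime order p > 3 whose conjugates generate G. Let V be a faithful irreducible representation of G over a field of positive characteristic, finite-dimensional. Then the subspace of V fixed by P has dimension less than half the dimension of V. -/
theorem result {G : Type*} [Group G] [Finite G] [Group.IsSolvable G]
    {p : ℕ} [Fact p.Prime] (hp : 3 < p) (P : Subgroup G) (hP : Nat.card P = p) (hgen : Subgroup.normalClosure (P : Set G) = ⊤)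
    {k : Type*} [Field k] (ℓ : ℕ) [Fact ℓ.Prime] [CharP k ℓ]
    {V : Type*} [AddCommGroup V] [Module k V] [FiniteDimensional k V]
    (ρ : Representation k G V) [ρ.IsIrreducible] (hfaith : Function.Injective ρ) :
    2 * Module.finrank k ↥(⨅ g : ↥P, LinearMap.ker (ρ (g : G) - LinearMap.id)) < Module.finrank k V := by
  classical
  have hpp : p.Prime := Fact.out
  obtain ⟨x, rfl, hx⟩ := CfsgLib.H9.exists_zpowers_eq_of_card_prime hpp hP
  have hirr : CfsgLib.SLin.IrrR ρ := fun W hW =>
    (eq_bot_or_eq_top (⟨W, fun g _ hv => hW g hv⟩ : Subrepresentation ρ)).imp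
      (congrArg Subrepresentation.toSubmodule) (congrArg Subrepresentation.toSubmodule)
  have : Nontrivial G := ⟨x, 1, fun e => by rw [e, orderOf_one] at hx; omega⟩
  have : Nontrivial V := by
    by_contra hne
    rw [not_nontrivial_iff_subsingleton] at hne
    exact not_subsingleton G hfaith.subsingleton
  obtain ⟨N, hN⟩ := CfsgLib.exists_isMinNormal (G := G)
  have := hN.1
  have := Fintype.ofFinite N
  obtain ⟨q, hq, hE⟩ := hN.exists_isElementaryAbelian inferInstance
  have := Fact.mk hq
  obtain ⟨⟨a, ha⟩, ha1⟩ := Subgroup.ne_bot_iff_exists_ne_one.1 hN.2.1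
  have h1 := hirr.cast_ne_zero hfaith (hN.le_fitting_of_isSolvable inferInstance ha)
  rw [orderOf_eq_prime (hE.2 a ha) fun e => ha1 (Subtype.ext e)] at h1
  obtain ⟨m, hm⟩ := IsPGroup.iff_card.1
    (fun g : N => ⟨1, Subtype.ext (by rw [pow_one]; exact hE.2 g g.2)⟩ : IsPGroup q N)
  have h2 : ∑ g : N, ρ g = 0 := by
    have h3 := (hirr (⨅ g : N, LinearMap.ker (ρ g - 1)) fun g w hw =>
      (Submodule.mem_iInf _).2 fun u => CfsgLib.SLin.mem_ker_sub_one.2 (by
        have := CfsgLib.SLin.mem_ker_sub_one.1
          ((Submodule.mem_iInf _).1 hw (MulAut.conjNormal g⁻¹ u))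
        conv_rhs => rw [← this]
        rw [← Module.End.mul_apply, ← Module.End.mul_apply, ← map_mul, ← map_mul]
        simp [mul_assoc])).resolve_right fun e => ha1 (Subtype.ext (hfaith (LinearMap.ext fun w =>
          (CfsgLib.SLin.mem_ker_sub_one.1 ((Submodule.mem_iInf _).1 (e.ge Submodule.mem_top)
            ⟨a, ha⟩)).trans (by simp))))
    refine LinearMap.ext fun v => (Submodule.mem_bot k).1 (h3.le ((Submodule.mem_iInf _).2
      fun u => CfsgLib.SLin.mem_ker_sub_one.2 ?_))
    rw [← Module.End.mul_apply, Finset.mul_sum]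
    exact LinearMap.congr_fun (Fintype.sum_equiv (Equiv.mulLeft u) _ _ fun g =>
      (map_mul ρ _ _).symm) v
  have : Nontrivial (TensorProduct k (AlgebraicClosure k) V) :=
    (CfsgLib.H9.one_tmul_injective (AlgebraicClosure k)).nontrivial
  have h4 := CfsgLib.SLin.flav_main hpp hp _ G _ (CfsgLib.H9.bcRep (AlgebraicClosure k) ρ) x
    Finset.univ (fun g : N => (g : G)) (hx ▸ pow_orderOf_eq_one x)
    (top_le_iff.1 (hgen.ge.trans (Subgroup.normalClosure_le_normal
      (Subgroup.zpowers_le.2 (Subgroup.subset_normalClosure rfl))))) (by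
      rw [Finset.card_univ, ← Nat.card_eq_fintype_card, hm, ← map_natCast (algebraMap k _),
        map_ne_zero, Nat.cast_pow]
      exact pow_ne_zero _ h1) (by
      have := congrArg (Module.End.baseChangeHom k (AlgebraicClosure k) V) h2
      rwa [map_sum, map_zero] at this) Module.finrank_baseChange
  refine lt_of_le_of_lt (Nat.mul_le_mul_left _ ?_) h4
  rw [← CfsgLib.H9.finrank_submodule_baseChange (AlgebraicClosure k),
    ← CfsgLib.H9.span_one_tmul]
  refine Submodule.finrank_mono (Submodule.span_le.2 ?_)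
  rintro _ ⟨v, hv, rfl⟩
  exact CfsgLib.SLin.mem_ker_sub_one.2 (congrArg (TensorProduct.tmul k (1 : AlgebraicClosure k))
    (CfsgLib.SLin.mem_ker_sub_one.1
    ((Submodule.mem_iInf _).1 hv ⟨x, Subgroup.mem_zpowers x⟩)))

end Cfsg.Agent.S3818
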