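import Cfsg.Statements.S3820
import Cfsg.Agent.Lib.CoreBasic

set_option autoImplicit false
open Cfsg

namespace Cfsg.Agent.S3820

open CfsgLib Subgroup

/-- Call a subgroup H of G pronormal if H and gHg⁻¹ are conjugate inside ⟨H, gHg⁻¹⟩ for every g ∈ G. Let S ≤ H ≤ G be subgroups of a finite group with S pronormal in G (for instance S a Sylow subgroup). Then H is pronormal in G if and only if H and gHg⁻¹ are conjugate inside ⟨H, gHg⁻¹⟩ for every g ∈ N_G(S). In particular H is pronormal whenever N_G(S) ≤ H. -/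
theorem result {G : Type*} [Group G] [Finite G] (S H : Subgroup G) (hSH : S ≤ H)
    (hS : Cfsg.IsPronormal S) :
    Cfsg.IsPronormal H ↔
      ∀ g ∈ Subgroup.normalizer (S : Set G), ∃ w ∈ H ⊔ H.map (MulAut.conj g).toMonoidHom,
        H.map (MulAut.conj g).toMonoidHom = H.map (MulAut.conj w).toMonoidHom := by
  refine ⟨fun h g _ => h g, fun h g => ?_⟩
  obtain ⟨x, hx, hxe⟩ := hS g
  have hxL : x ∈ H ⊔ H.map (MulAut.conj g).toMonoidHom :=
    sup_le_sup hSH (map_mono hSH) hx
  have hn : x⁻¹ * g ∈ normalizer (S : Set G) := by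
    apply mem_normalizer_of_map_conj_eq
    rw [map_conj_mul, hxe, ← map_conj_mul, inv_mul_cancel, map_conj_one]
  obtain ⟨w, hw, hwe⟩ := h _ hn
  have hwL : w ∈ H ⊔ H.map (MulAut.conj g).toMonoidHom := by
    refine (sup_le le_sup_left ?_ : _ ≤ H ⊔ H.map (MulAut.conj g).toMonoidHom) hw
    intro y hy
    rw [map_conj_mul, mem_map_conj_iff, inv_inv] at hy
    have := mul_mem (mul_mem (inv_mem hxL) (mem_sup_right hy)) hxL
    simpa [mul_assoc] using this
  refine ⟨x * w, mul_mem hxL hwL, ?_⟩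
  rw [map_conj_mul, ← hwe, ← map_conj_mul, mul_inv_cancel_left]

end Cfsg.Agent.S3820
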