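import Cfsg.Statements.S3821
import Cfsg.Agent.Lib.CoreBasic

set_option autoImplicit false
open Cfsg

namespace Cfsg.Agent.S3821

open CfsgLib Subgroup

theorem map_subtype_conj {G : Type*} [Group G] {A H : Subgroup G} (hHA : H ≤ A) (a : A) :
    ((H.subgroupOf A).map (MulAut.conj a).toMonoidHom).map A.subtype =
      H.map (MulAut.conj (a : G)).toMonoidHom := by
  conv_rhs => rw [← map_subgroupOf_eq_of_le hHA]
  rw [map_map, map_map]
  rfl

/-- Let A be a normal subgroup of the finite group G and H a subgroup of A. Then H is pronormal in G (H and gHg⁻¹ conjugate inside ⟨H, gHg⁻¹⟩ for every g ∈ G) if and only if H is pronormal in A and G = A · N_G(H). -/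
theorem result {G : Type*} [Group G] [Finite G] (A H : Subgroup G) [A.Normal] (hHA : H ≤ A) :
    Cfsg.IsPronormal H ↔ (Cfsg.IsPronormal (H.subgroupOf A) ∧ A ⊔ Subgroup.normalizer (H : Set G) = ⊤) := by
  have hle : ∀ g : G, H ⊔ H.map (MulAut.conj g).toMonoidHom ≤ A := fun g =>
    sup_le hHA ((map_mono hHA).trans (map_conj_eq_of_normal g A).le)
  have hsup : ∀ a : A, (H.subgroupOf A ⊔ (H.subgroupOf A).map (MulAut.conj a).toMonoidHom).map
      A.subtype = H ⊔ H.map (MulAut.conj (a : G)).toMonoidHom := fun a => by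
    rw [Subgroup.map_sup, map_subtype_conj hHA, map_subgroupOf_eq_of_le hHA]
  constructor
  · intro h
    refine ⟨fun a => ?_, ?_⟩
    · obtain ⟨x, hx, hxe⟩ := h a
      refine ⟨⟨x, hle a hx⟩, ?_, ?_⟩
      · rw [← hsup] at hx
        obtain ⟨y, hy, rfl⟩ := hx
        exact hy
      · apply map_injective A.subtype_injective
        rw [map_subtype_conj hHA, map_subtype_conj hHA, hxe]
    · rw [eq_top_iff]
      intro g _
      obtain ⟨x, hx, hxe⟩ := h g
      have hn : x⁻¹ * g ∈ normalizer (H : Set G) := by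
        apply mem_normalizer_of_map_conj_eq
        rw [map_conj_mul, hxe, ← map_conj_mul, inv_mul_cancel, map_conj_one]
      simpa using mul_mem (mem_sup_left (hle g hx)) (mem_sup_right hn)
  · rintro ⟨h1, h2⟩ g
    obtain ⟨a, ha, n, hn, rfl⟩ := (mem_sup_iff_of_le_normalizer' (N := A)
      (le_top.trans (normalizer_eq_top A).ge)).mp (h2 ▸ mem_top g)
    rw [map_conj_mul, map_conj_eq_of_mem_normalizer hn]
    obtain ⟨x, hx, hxe⟩ := h1 ⟨a, ha⟩
    refine ⟨x, ?_, ?_⟩
    · rw [← hsup ⟨a, ha⟩]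
      exact mem_map_of_mem _ hx
    · rw [← map_subtype_conj hHA x, ← hxe, map_subtype_conj hHA]

end Cfsg.Agent.S3821
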