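import Cfsg.Statements.S3822
import Cfsg.Agent.Lib.SLin.FlavSec
import Cfsg.Agent.Lib.H1Amb

set_option autoImplicit false
open Cfsg

namespace Cfsg.Agent.S3822

open Subgroup CfsgLib in
open scoped commutatorElement in
theorem cent {G : Type*} [Group G] [Finite G] {p q : ℕ} [Fact q.Prime] (hp : p.Prime)
    (h3 : 3 < p) {x a : G} (hx : x ^ p = 1) {A R U : Subgroup G} (hs : Group.IsSolvable A)
    (ha : a ∈ A) (hA : A = zpowers x ⊔ zpowers (a * x * a⁻¹))
    (hmax : ∀ B : Subgroup G, A ≤ B → Group.IsSolvable B →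
      (∃ b ∈ B, B = zpowers x ⊔ zpowers (b * x * b⁻¹)) → B = A)
    (hRA : R ≤ A) (hAR : A ≤ normalizer (R : Set G)) (hR : (Nat.card R).Coprime q)
    (hU : IsPGroup q U) (hAU : A ≤ normalizer (U : Set G)) : ⁅U, R⁆ = ⊥ := by
  by_contra hne
  obtain ⟨V, hVU, hAV, hne, hmin⟩ := Cop.exists_minimal_action hAU hne
  have hV := hU.to_le hVU
  obtain ⟨h1, -, h2, -, -, h3', -⟩ := Cop.minimal_action hV hAV hRA hAR hR hne hmin
  have hcop := Cop.coprime_card_of_isPGroup hR hV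
  have hRV := hRA.trans hAV
  have hDV : ⁅V, V⁆ < V := h2 ▸ Cop.frattini_map_lt fun e => hne (by simp [e])
  have hND : normalizer (V : Set G) ≤ normalizer ((⁅V, V⁆ : Subgroup G) : Set G) :=
    Cop.le_normalizer_commutator le_rfl le_rfl
  have hfix : ∀ b ∈ V, (∀ r ∈ R, ⁅r, b⁆ ∈ ⁅V, V⁆) → b ∈ ⁅V, V⁆ := fun b hb h =>
    Cop.mem_of_mem_commutator_sup_of_commutator_mem hRV (hRV.trans hND) hDV.le le_rfl hcop
      (mem_sup_left (h1.ge hb)) fun r hr => commutatorElement_inv r b ▸ inv_mem (h r hr)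
  have hxA : x ∈ A := hA ▸ mem_sup_left (mem_zpowers x)
  have hyA : a * x * a⁻¹ ∈ A := mul_mem (mul_mem ha hxA) (inv_mem ha)
  have hN : ∀ N : Subgroup A, N.Normal → (⟨x, hxA⟩ : A) ∈ N → N = ⊤ := fun N hN h =>
    top_le_iff.1 fun g _ => by
      have : A ≤ N.map A.subtype := hA.le.trans (sup_le (zpowers_le.2 ⟨_, h, rfl⟩)
        (zpowers_le.2 ⟨_, hN.conj_mem _ h ⟨a, ha⟩, rfl⟩))
      obtain ⟨g', hg', e⟩ := this g.2
      exact Subtype.ext e ▸ hg'
  refine SLin.flav_sec hp h3 hs hAV (hAV.trans hND) hDV le_rfl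
    (fun v hv => h2 ▸ Cop.pow_mem_frattini_map hV hv) hRA hR hfix (x := ⟨x, hxA⟩)
    (y := ⟨_, hyA⟩) (Subtype.ext hx) (Subtype.ext (by simp [hx]))
    (hN _ inferInstance (subset_normalClosure rfl)) (hN _ inferInstance (by
      convert normalClosure_normal.conj_mem _ (subset_normalClosure
        (s := {(⟨_, hyA⟩ : A)}) rfl) (⟨a, ha⟩ : A)⁻¹ using 1
      exact Subtype.ext (by simp [mul_assoc]))) fun v hv => ?_
  obtain ⟨B, hB⟩ : ∃ B, B = zpowers x ⊔ zpowers (v * a * x * (v * a)⁻¹) := ⟨_, rfl⟩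
  have hxB : x ∈ B := hB ▸ mem_sup_left (mem_zpowers x)
  have hyB : v * (a * x * a⁻¹) * v⁻¹ ∈ B := by
    simpa [hB, mul_assoc] using mem_sup_right (S := zpowers x)
      (mem_zpowers (v * a * x * (v * a)⁻¹))
  have hBH : B ≤ A ⊔ V := hB.le.trans (sup_le (zpowers_le.2 (mem_sup_left hxA)) (zpowers_le.2
    (by
      have := mul_mem (mem_sup_right (S := A) hv) (mem_sup_left ha)
      exact mul_mem (mul_mem this (mem_sup_left hxA)) (inv_mem this))))
  have hBV : B ≤ normalizer (V : Set G) := hBH.trans (sup_le hAV le_normalizer)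
  have hAB : A ≤ V ⊔ B := hA.le.trans (sup_le (zpowers_le.2 (mem_sup_right hxB)) (zpowers_le.2
    (by simpa [mul_assoc] using (mul_mem (mul_mem (inv_mem (mem_sup_left (T := B) hv))
      (mem_sup_right hyB)) (mem_sup_left hv)))))
  have hBD : B ⊓ V ≤ ⁅V, V⁆ := by
    have hle : B ⊓ V ⊔ ⁅V, V⁆ ≤ V := sup_le inf_le_right hDV.le
    rcases hle.lt_or_eq with h | h
    · exact le_sup_left.trans (h3' _ h (hAB.trans (sup_le
        (Cop.le_normalizer_of_commutator_le le_sup_right hle) (H1.le_normalizer_sup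
          (H1.le_normalizer_inf le_normalizer hBV) (hBV.trans hND)))))
    have hVB : V ≤ B := inf_eq_right.1 (Cop.eq_of_sup_frattini_eq inf_le_right (h2 ▸ h.ge))
    have hAB' : A ≤ B := hAB.trans (sup_le hVB le_rfl)
    have hVA : V ≤ A := hVB.trans (hmax B hAB' (Cop.solvable_of_le
      (isSolvable_sup hAV hs (Cop.solvable_of_isPGroup hV)) hBH)
      ⟨_, mul_mem (hVB hv) (hAB' ha), hB⟩).le
    refine (hne (le_bot_iff.1 ((le_inf ?_ h1.le).trans (inf_eq_bot_of_coprime hcop).le))).elim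
    rw [Subgroup.commutator_comm]
    exact Cop.commutator_le_left_of_le_normalizer (hVA.trans hAR)
  obtain ⟨n, hn, hRB⟩ := Cop.exists_conj_le_of_le_sup hBV (hRA.trans hAB) hcop
    (Or.inr (Cop.solvable_of_isPGroup hV))
  refine ⟨n, hn, ?_, SLin.comm_mem_of_conj_le hRV (hAR hyA) (hAV hyA) le_rfl hDV.le hfix hBD hv hn
    hyB hRB⟩
  simpa using SLin.comm_mem_of_conj_le hRV (hAR hxA) (hAV hxA) le_rfl hDV.le hfix hBD V.one_mem hn
    (by simpa using hxB) hRB

/-- Let G be a finite group and P a subgroup of prime order p > 3. Consider the solvable subgroups A of G of the form A = ⟨P, aPa⁻¹⟩ for some a ∈ A, and let A be maximal under inclusion among them. Then for every nilpotent subgroup V of G normalized by A, the subgroup F(A)V generated by the Fitting subgroup of A and V is nilpotent. -/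
theorem result {G : Type*} [Group G] [Finite G]
    {p : ℕ} [Fact p.Prime] (hp : 3 < p) (P : Subgroup G) (hP : Nat.card P = p) (A : Subgroup G)
    (hA : Group.IsSolvable ↥A ∧ ∃ a ∈ A, A = P ⊔ P.map (MulAut.conj a).toMonoidHom)
    (hmax : ∀ B : Subgroup G, A ≤ B → Group.IsSolvable ↥B → (∃ b ∈ B, B = P ⊔ P.map (MulAut.conj b).toMonoidHom) → B = A)
    (V : Subgroup G) (hV : Group.IsNilpotent ↥V) (hAV : A ≤ Subgroup.normalizer (V : Set G)) :
    Group.IsNilpotent ↥((Cfsg.fittingSubgroup ↥A).map A.subtype ⊔ V) := by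
  have hpp : p.Prime := Fact.out
  obtain ⟨x, rfl, hx⟩ := CfsgLib.H9.exists_zpowers_eq_of_card_prime hpp hP
  obtain ⟨hs, a, ha, hA⟩ := hA
  simp only [MonoidHom.map_zpowers] at hA hmax
  refine CfsgLib.isNilpotent_of_le (CfsgLib.map_fitting_isNilpotent (A ⊔ V)) (sup_le ?_
    (CfsgLib.le_map_fitting le_sup_right (sup_le hAV Subgroup.le_normalizer) hV))
  refine Subgroup.map_le_iff_le_comap.2 (CfsgLib.fitting_le_of_forall_pCore_le fun r _ =>
    Subgroup.map_le_iff_le_comap.1 ?_)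
  change Cfsg.pCoreOf r A ≤ _
  have hR := CfsgLib.H1.pCoreOf_isPGroup (p := r) A
  have hW := CfsgLib.H1.pCoreOf_isPGroup (p := r) V
  have hAR := CfsgLib.H1.le_normalizer_pCoreOf (p := r) A
  have hAW : ∀ q, A ≤ Subgroup.normalizer (Cfsg.pCoreOf q V : Set G) := fun q =>
    hAV.trans (CfsgLib.H1.normalizer_le_normalizer_pCoreOf V)
  have hRW := IsPGroup.to_sup_of_normal_right' hR hW
    ((CfsgLib.H1.pCoreOf_le A).trans (hAW r))
  refine le_sup_left.trans (CfsgLib.le_map_fitting (sup_le_sup (CfsgLib.H1.pCoreOf_le A)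
    (CfsgLib.H1.pCoreOf_le V)) (sup_le (CfsgLib.H1.le_normalizer_sup hAR (hAW r)) ?_)
    hRW.isNilpotent)
  refine CfsgLib.le_of_forall_primePow_mem fun v hv q k hq hk => ?_
  have := Fact.mk hq
  have hvq : v ∈ Cfsg.pCoreOf q V := CfsgLib.H1.le_pCoreOf_of_le_fittingOf
    ((Subgroup.zpowers_le.2 hv).trans (CfsgLib.le_map_fitting le_rfl Subgroup.le_normalizer hV))
    (CfsgLib.isPGroup_zpowers_iff.2 ⟨k, hk⟩) (Subgroup.mem_zpowers v)
  by_cases hqr : q = r
  · subst hqr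
    exact Subgroup.le_normalizer (Subgroup.mem_sup_right hvq)
  obtain ⟨m, hm⟩ := IsPGroup.iff_card.1 hR
  have h1 := cent hpp hp (hx ▸ pow_orderOf_eq_one x) hs ha hA hmax (CfsgLib.H1.pCoreOf_le A) hAR
    (hm ▸ Nat.Coprime.pow_left _ ((Nat.coprime_primes Fact.out hq).2 (Ne.symm hqr)))
    (CfsgLib.H1.pCoreOf_isPGroup V) (hAW q)
  rw [Subgroup.commutator_eq_bot_iff_le_centralizer] at h1
  exact CfsgLib.H1.le_normalizer_sup (h1.trans (Subgroup.centralizer_le_normalizer _))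
    ((CfsgLib.H1.pCoreOf_le V).trans (CfsgLib.H1.le_normalizer_pCoreOf V)) hvq

end Cfsg.Agent.S3822
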