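import Cfsg.Statements.S3825
import Cfsg.Agent.Lib.CoreBasic

set_option autoImplicit false
open Cfsg

namespace Cfsg.Agent.S3825

open Subgroup CfsgLib
open scoped Pointwise commutatorElement



theorem result {H : Type*} [Group H] [Finite H] (U : Subgroup H) (w : H) (hw : orderOf w = 2)
    (hwU : w ∈ Subgroup.normalizer (U : Set H)) (y : H) (hy : y ≠ 1) (hyU : y ∈ U)
    (hfix : ∀ u ∈ U, w * u * w⁻¹ = u ↔ (u = 1 ∨ u = y))
    (V : Subgroup H) (hVU : V ≤ U) (hVn : (V.subgroupOf U).Normal) (hVw : ∀ v ∈ V, w * v * w⁻¹ ∈ V)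
    (hVe : Cfsg.IsElementaryAbelian 2 V) (hVc : ¬ IsCyclic ↥V) (hyV : y ∈ V) :
    ¬ 2 ∣ V.relIndex U ∧ Nat.card ↥V = 4 ∧ ⁅U, U⁆ ≤ V := by
  have hw2 : w * w = 1 := by rw [← sq, ← hw, pow_orderOf_eq_one]
  have hwi : w⁻¹ = w := inv_eq_of_mul_eq_one_right hw2
  have hV2 : ∀ v ∈ V, v⁻¹ = v := fun v hv =>
    inv_eq_of_mul_eq_one_right (by rw [← sq]; exact hVe.2 v hv)
  have hVc' : ∀ a ∈ V, ∀ b ∈ V, a * b = b * a := fun a ha b hb =>
    congrArg Subtype.val (hVe.1.is_comm.comm ⟨a, ha⟩ ⟨b, hb⟩)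
  have h1 : ∀ u ∈ U, u⁻¹ * (w * u * w⁻¹) ∈ V → u ≠ 1 → u ≠ y → w * u * w⁻¹ = u * y := by
    intro u hu hv h2 h3
    have h4 : w * (u⁻¹ * (w * u * w⁻¹)) * w⁻¹ = u⁻¹ * (w * u * w⁻¹) := by
      calc w * (u⁻¹ * (w * u * w⁻¹)) * w⁻¹ = w * u⁻¹ * (w * u * (w * w)⁻¹) := by group
        _ = w * u⁻¹ * w⁻¹ * u := by rw [hw2, hwi]; group
        _ = (u⁻¹ * (w * u * w⁻¹))⁻¹ := by group
        _ = _ := hV2 _ hv
    rcases (hfix _ (hVU hv)).mp h4 with h5 | h5
    · exact absurd ((hfix u hu).mp (inv_mul_eq_one.mp h5).symm) (not_or.mpr ⟨h2, h3⟩)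
    · rw [← h5]; group
  obtain ⟨v, hv, hv1⟩ : ∃ v ∈ V, v ∉ zpowers y := by
    by_contra h
    push Not at h
    exact hVc (le_antisymm h (zpowers_le.mpr hyV) ▸ inferInstance)
  have hv2 : v ≠ 1 := fun h => hv1 (h ▸ one_mem _)
  have hv3 : v ≠ y := fun h => hv1 (h ▸ mem_zpowers _)
  have hv4 := h1 v (hVU hv) (mul_mem (inv_mem hv) (hVw v hv)) hv2 hv3
  have h2 : ∀ u ∈ U, u⁻¹ * (w * u * w⁻¹) ∈ V → u = 1 ∨ u = y ∨ u = v ∨ u = y * v := by
    intro u hu h3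
    by_cases h4 : u = 1
    · exact Or.inl h4
    by_cases h5 : u = y
    · exact Or.inr (Or.inl h5)
    have h6 : w * (u * v⁻¹) * w⁻¹ = u * v⁻¹ := by
      calc w * (u * v⁻¹) * w⁻¹ = (w * u * w⁻¹) * (w * v * w⁻¹)⁻¹ := by group
        _ = _ := by rw [h1 u hu h3 h4 h5, hv4]; group
    rcases (hfix _ (mul_mem hu (inv_mem (hVU hv)))).mp h6 with h7 | h7
    · exact Or.inr (Or.inr (Or.inl (mul_inv_eq_one.mp h7)))
    · exact Or.inr (Or.inr (Or.inr (mul_inv_eq_iff_eq_mul.mp h7)))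
  let φ : U →* U := (U.normalizerMonoidHom ⟨w, hwU⟩).toMonoidHom
  let ψ : U ⧸ V.subgroupOf U →* U ⧸ V.subgroupOf U :=
    QuotientGroup.map _ _ φ fun x hx => hVw x hx
  have hψ1 : MonoidHom.FixedPointFree ψ := by
    intro x hx
    obtain ⟨x, rfl⟩ := QuotientGroup.mk_surjective x
    have h3 : (x : H)⁻¹ * (w * x * w⁻¹) ∈ V :=
      QuotientGroup.eq (s := V.subgroupOf U) (a := x) (b := φ x) |>.mp hx.symm
    refine (QuotientGroup.eq_one_iff x).mpr ?_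
    show (x : H) ∈ V
    rcases h2 x x.2 h3 with h | h | h | h <;> rw [h]
    exacts [one_mem _, hyV, hv, mul_mem hyV hv]
  have hψ2 : Function.Involutive ψ := by
    intro x
    obtain ⟨x, rfl⟩ := QuotientGroup.mk_surjective x
    refine congrArg QuotientGroup.mk (Subtype.ext ?_)
    show w * (w * x * w⁻¹) * w⁻¹ = x
    calc w * (w * x * w⁻¹) * w⁻¹ = (w * w) * x * (w * w)⁻¹ := by group
      _ = x := by rw [hw2]; group
  refine ⟨?_, ?_, ?_⟩
  · exact Nat.two_dvd_ne_zero.mpr (Nat.odd_iff.mp (hψ1.odd_card_of_involutive hψ2))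
  · have h3 : (V : Set H) = {1, y, v, y * v} := by
      ext u
      constructor
      · exact fun hu => h2 u (hVU hu) (mul_mem (inv_mem hu) (hVw u hu))
      · rintro (h | h | h | h) <;> rw [h]
        exacts [one_mem _, hyV, hv, mul_mem hyV hv]
    have h4 : y * v ≠ 1 := fun h => hv1 (by
      rw [eq_inv_of_mul_eq_one_right h]; exact inv_mem (mem_zpowers y))
    rw [show Nat.card V = (V : Set H).ncard from rfl, h3, Set.ncard_insert_of_notMem,
      Set.ncard_insert_of_notMem, Set.ncard_pair]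
    · simpa using hy
    · simpa using ⟨hv3.symm, hv2⟩
    · simpa using ⟨hy.symm, hv2.symm, h4.symm⟩
  · rw [commutator_le]
    intro a ha b hb
    have := hψ1.commute_all_of_involutive hψ2 (QuotientGroup.mk' _ ⟨a, ha⟩)
      (QuotientGroup.mk' _ ⟨b, hb⟩)
    rw [← commutatorElement_eq_one_iff_commute, ← map_commutatorElement] at this
    exact (QuotientGroup.eq_one_iff (N := V.subgroupOf U) _).mp this

end Cfsg.Agent.S3825
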