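import Cfsg.Statements.S3835
import Cfsg.Agent.Lib.CoreBasic
import Cfsg.Agent.Lib.PGroupBasic

set_option autoImplicit false
open Cfsg

namespace Cfsg.Agent.S3835

open Subgroup CfsgLib
open scoped Pointwise commutatorElement

open Matrix

theorem comm_of_perm {p : ℕ} [hp : Fact p.Prime] {n : ℕ} (hn : n < p ^ 2)
    (P : Subgroup (Equiv.Perm (Fin n))) (hP : IsPGroup p P) (x y : P) : x * y = y * x := by
  have key : ∀ ω : Fin n, ⁅x, y⁆ ∈ MulAction.stabilizer P ω := by
    intro ω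
    obtain ⟨k, hk⟩ := hP.index (MulAction.stabilizer P ω)
    have hle : (MulAction.stabilizer P ω).index ≤ n := by
      rw [MulAction.index_stabilizer]
      calc (MulAction.orbit P ω).ncard ≤ (Set.univ : Set (Fin n)).ncard :=
            Set.ncard_le_ncard (Set.subset_univ _)
        _ = n := by simp [Set.ncard_univ]
    have hk2 : k < 2 := by
      have : p ^ k < p ^ 2 := by omega
      exact (Nat.pow_lt_pow_iff_right hp.out.one_lt).1 this
    interval_cases k
    · rw [pow_zero, Subgroup.index_eq_one] at hk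
      rw [hk]; trivial
    · rw [pow_one] at hk
      haveI : (MulAction.stabilizer P ω).Normal := PGrp.normal_of_index_eq_prime hP hk
      haveI : IsCyclic (P ⧸ MulAction.stabilizer P ω) := isCyclic_of_prime_card (p := p) hk
      rw [← QuotientGroup.eq_one_iff]
      change QuotientGroup.mk' (MulAction.stabilizer P ω) ⁅x, y⁆ = 1
      rw [map_commutatorElement]
      letI := IsCyclic.commGroup (α := P ⧸ MulAction.stabilizer P ω)
      exact commutatorElement_eq_one_iff_mul_comm.2 (mul_comm _ _)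
  rw [← commutatorElement_eq_one_iff_mul_comm]
  ext ω
  have := key ω
  rw [MulAction.mem_stabilizer_iff] at this
  exact congrArg Fin.val this

theorem val_mul {p : ℕ} (A B : SpecialLinearGroup (Fin 3) (ZMod p)) (i j : Fin 3) :
    (A * B).1 i j = A.1 i 0 * B.1 0 j + A.1 i 1 * B.1 1 j + A.1 i 2 * B.1 2 j := by
  have : (A * B).1 = A.1 * B.1 := rfl
  rw [this, Matrix.mul_apply, Fin.sum_univ_three]

theorem mem_qd {p : ℕ} (M : SpecialLinearGroup (Fin 3) (ZMod p)) :
    M ∈ qd p ↔ (M : Matrix (Fin 3) (Fin 3) (ZMod p)) 2 0 = 0 ∧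
    (M : Matrix (Fin 3) (Fin 3) (ZMod p)) 2 1 = 0 ∧ (M : Matrix (Fin 3) (Fin 3) (ZMod p)) 2 2 = 1 := by
  constructor
  · intro h
    induction h using Subgroup.closure_induction with
    | mem x hx => exact hx
    | one => simp
    | mul x y _ _ hx hy =>
      simp [Matrix.mul_apply, Fin.sum_univ_three, hx.1, hx.2.1, hx.2.2, hy.1, hy.2.1, hy.2.2]
    | inv x _ hx =>
      have h1 : (x * x⁻¹ : SpecialLinearGroup (Fin 3) (ZMod p)) = 1 := mul_inv_cancel x
      have h2 : ∀ j, ((x * x⁻¹ : SpecialLinearGroup (Fin 3) (ZMod p)) :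
          Matrix (Fin 3) (Fin 3) (ZMod p)) 2 j = (x⁻¹ : SpecialLinearGroup (Fin 3) (ZMod p)) 2 j := by
        intro j
        rw [val_mul, hx.1, hx.2.1, hx.2.2]
        simp only [zero_mul, one_mul, zero_add]
      refine ⟨?_, ?_, ?_⟩ <;> (rw [← h2, h1]; simp)
  · intro h; exact Subgroup.subset_closure h

theorem pow_eq_one_of_cube {p : ℕ} [hp : Fact p.Prime] (h2 : p ≠ 2)
    (M : SpecialLinearGroup (Fin 3) (ZMod p))
    (h : ((M : Matrix (Fin 3) (Fin 3) (ZMod p)) - 1) ^ 3 = 0) : M ^ p = 1 := by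
  have h3 : 3 ≤ p := by have := hp.out.two_le; omega
  apply Subtype.ext
  have := sub_pow_char_of_commute (R := Matrix (Fin 3) (Fin 3) (ZMod p)) p
    (Commute.one_right (M : Matrix (Fin 3) (Fin 3) (ZMod p)))
  rw [pow_eq_zero_of_le h3 h, one_pow] at this
  have h4 : (M ^ p).1 = M.1 ^ p := Matrix.SpecialLinearGroup.coe_pow M p
  rw [h4]
  exact (sub_eq_zero.1 this.symm)

/-- a general element with last row (0,0,1) -/
def mk {p : ℕ} (a b c d s t : ZMod p) (h : a * d - b * c = 1) : qd p :=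
  ⟨⟨!![a, b, s; c, d, t; 0, 0, 1], by simp [Matrix.det_fin_three]; linear_combination h⟩,
    (mem_qd _).2 (by simp)⟩

theorem mk_mul {p : ℕ} (a b c d s t a' b' c' d' s' t' : ZMod p) (h h') (h'') :
    mk a b c d s t h * mk a' b' c' d' s' t' h' =
      mk (a * a' + b * c') (a * b' + b * d') (c * a' + d * c') (c * b' + d * d')
        (a * s' + b * t' + s) (c * s' + d * t' + t) h'' := by
  apply Subtype.ext; apply Subtype.ext
  ext i j
  rw [Subgroup.coe_mul, val_mul]
  fin_cases i <;> fin_cases j <;> simp [mk]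

theorem mk_congr {p : ℕ} {a b c d s t a' b' c' d' s' t' : ZMod p} {h h'}
    (h1 : a = a') (h2 : b = b') (h3 : c = c') (h4 : d = d') (h5 : s = s') (h6 : t = t') :
    mk a b c d s t h = mk a' b' c' d' s' t' h' := by
  subst h1 h2 h3 h4 h5 h6; rfl

theorem exists_mk {p : ℕ} (M : qd p) : ∃ a b c d s t h, M = mk a b c d s t h := by
  obtain ⟨M, hM⟩ := M
  obtain ⟨h1, h2, h3⟩ := (mem_qd M).1 hM
  have hd := M.2
  rw [Matrix.det_fin_three, h1, h2, h3] at hd
  refine ⟨M 0 0, M 0 1, M 1 0, M 1 1, M 0 2, M 1 2, by linear_combination hd, ?_⟩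
  apply Subtype.ext; apply Subtype.ext
  ext i j
  fin_cases i <;> fin_cases j <;> simp [mk, h1, h2, h3]

theorem upper_pow {p : ℕ} [hp : Fact p.Prime] (h2 : p ≠ 2) (b s t : ZMod p) (h) :
    (mk 1 b 0 1 s t h) ^ p = 1 := by
  apply Subtype.ext
  rw [Subgroup.coe_pow]
  apply pow_eq_one_of_cube h2
  ext i j
  fin_cases i <;> fin_cases j <;> simp [mk, pow_succ, Matrix.mul_apply, Fin.sum_univ_three]

theorem lower_pow {p : ℕ} [hp : Fact p.Prime] (h2 : p ≠ 2) (c : ZMod p) (h) :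
    (mk 1 0 c 1 0 0 h) ^ p = 1 := by
  apply Subtype.ext
  rw [Subgroup.coe_pow]
  apply pow_eq_one_of_cube h2
  ext i j
  fin_cases i <;> fin_cases j <;> simp [mk, pow_succ, Matrix.mul_apply, Fin.sum_univ_three]

theorem hom_trivial {p : ℕ} [hp : Fact p.Prime] (h2 : p ≠ 2) (χ : qd p →* ℤˣ) (M : qd p) :
    χ M = 1 := by
  have hodd : ∀ x : qd p, x ^ p = 1 → χ x = 1 := by
    intro x hx
    have h1 : (χ x) ^ p = 1 := by rw [← map_pow, hx, map_one]
    rcases Int.units_eq_one_or (χ x) with h | h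
    · exact h
    · rw [h, (hp.out.odd_of_ne_two h2).neg_one_pow] at h1
      exact absurd h1 (by decide)
  have hc : ∀ a b c d s t h, c ≠ 0 → χ (mk a b c d s t h) = 1 := by
    intro a b c d s t h hc
    have : mk a b c d s t h = mk 1 ((a - 1) / c) 0 1 s t (by simp) *
        (mk 1 0 c 1 0 0 (by simp) * mk 1 ((d - 1) / c) 0 1 0 0 (by simp)) := by
      rw [mk_mul (h'' := by simp; ring), mk_mul (h'' := by simp; ring)]
      apply mk_congr
      · field_simp; ring
      · field_simp; linear_combination -h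
      · ring
      · field_simp; ring
      · ring
      · ring
    rw [this, map_mul, map_mul, hodd _ (upper_pow h2 _ _ _ _), hodd _ (lower_pow h2 _ _),
      hodd _ (upper_pow h2 _ _ _ _)]
    simp
  obtain ⟨a, b, c, d, s, t, h, rfl⟩ := exists_mk M
  by_cases h0 : c = 0
  · subst h0
    have ha : a ≠ 0 := by rintro rfl; simp at h
    have := hc (1 * a + 0 * 0) (1 * b + 0 * d) (1 * a + 1 * 0) (1 * b + 1 * d) (1 * s + 0 * t + 0)
      (1 * s + 1 * t + 0) (by linear_combination h) (by simpa using ha)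
    rw [← mk_mul 1 0 1 1 0 0 a b 0 d s t (by simp) h, map_mul, hodd _ (lower_pow h2 _ _),
      one_mul] at this
    exact this
  · exact hc _ _ _ _ _ _ _ h0

/-- the affine action -/
def act {p : ℕ} : qd p →* Equiv.Perm (ZMod p × ZMod p) :=
  letI : MulAction (qd p) (ZMod p × ZMod p) :=
    { smul := fun M v => (M.1 0 0 * v.1 + M.1 0 1 * v.2 + M.1 0 2, M.1 1 0 * v.1 + M.1 1 1 * v.2 + M.1 1 2)
      one_smul := by
        intro v
        show ((1 : qd p).1 0 0 * v.1 + (1 : qd p).1 0 1 * v.2 + (1 : qd p).1 0 2,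
          (1 : qd p).1 1 0 * v.1 + (1 : qd p).1 1 1 * v.2 + (1 : qd p).1 1 2) = v
        simp
      mul_smul := by
        intro M N v
        obtain ⟨h1, h2, h3⟩ := (mem_qd N.1).1 N.2
        show ((M * N).1 0 0 * v.1 + (M * N).1 0 1 * v.2 + (M * N).1 0 2,
          (M * N).1 1 0 * v.1 + (M * N).1 1 1 * v.2 + (M * N).1 1 2) =
          (M.1 0 0 * (N.1 0 0 * v.1 + N.1 0 1 * v.2 + N.1 0 2) + M.1 0 1 * (N.1 1 0 * v.1 + N.1 1 1 * v.2 + N.1 1 2) + M.1 0 2,
           M.1 1 0 * (N.1 0 0 * v.1 + N.1 0 1 * v.2 + N.1 0 2) + M.1 1 1 * (N.1 1 0 * v.1 + N.1 1 1 * v.2 + N.1 1 2) + M.1 1 2)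
        simp only [Subgroup.coe_mul, val_mul, h1, h2, h3]
        ext <;> simp only [] <;> ring }
  MulAction.toPermHom (qd p) (ZMod p × ZMod p)

theorem act_apply {p : ℕ} (M : qd p) (v : ZMod p × ZMod p) :
    act M v = (M.1 0 0 * v.1 + M.1 0 1 * v.2 + M.1 0 2, M.1 1 0 * v.1 + M.1 1 1 * v.2 + M.1 1 2) := rfl

theorem act_injective {p : ℕ} : Function.Injective (act (p := p)) := by
  rw [injective_iff_map_eq_one]
  intro M hM
  obtain ⟨a, b, c, d, s, t, h, rfl⟩ := exists_mk M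
  have e0 := act_apply (mk a b c d s t h) (0, 0)
  have e1 := act_apply (mk a b c d s t h) (1, 0)
  have e2 := act_apply (mk a b c d s t h) (0, 1)
  rw [hM] at e0 e1 e2
  simp [mk] at e0 e1 e2
  obtain ⟨rfl, rfl⟩ := e0
  simp at e1 e2
  obtain ⟨rfl, rfl⟩ := e1
  obtain ⟨rfl, rfl⟩ := e2
  apply Subtype.ext; apply Subtype.ext
  ext i j
  fin_cases i <;> fin_cases j <;> simp [mk]

def upper (p : ℕ) : Subgroup (qd p) where
  carrier := {M | ∃ b s t h, M = mk 1 b 0 1 s t h}
  one_mem' := ⟨0, 0, 0, by simp, by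
    apply Subtype.ext; apply Subtype.ext
    ext i j
    fin_cases i <;> fin_cases j <;> simp [mk]⟩
  mul_mem' := by
    rintro _ _ ⟨b, s, t, h, rfl⟩ ⟨b', s', t', h', rfl⟩
    refine ⟨b' + b, s' + b * t' + s, t' + t, by simp, ?_⟩
    rw [mk_mul (h'' := by simp)]
    apply mk_congr <;> ring
  inv_mem' := by
    rintro _ ⟨b, s, t, h, rfl⟩
    refine ⟨-b, -s + b * t, -t, by simp, ?_⟩
    apply inv_eq_of_mul_eq_one_right
    rw [mk_mul (h'' := by simp)]
    apply Subtype.ext; apply Subtype.ext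
    ext i j
    fin_cases i <;> fin_cases j <;> simp [mk]

theorem not_involves {p : ℕ} [hp : Fact p.Prime] (h2 : p ≠ 2) {n : ℕ} (hn : n < p ^ 2) :
    ¬ Cfsg.Involves ↥(Cfsg.qd p) ↥(alternatingGroup (Fin n)) := by
  rintro ⟨K, R, hR, ⟨e⟩⟩
  let f : K →* qd p := e.toMonoidHom.comp (QuotientGroup.mk' _)
  have hf : Function.Surjective f := e.surjective.comp (QuotientGroup.mk'_surjective _)
  have hU : IsPGroup p (upper p) := by
    rintro ⟨_, b, s, t, h, rfl⟩
    refine ⟨1, Subtype.ext ?_⟩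
    rw [pow_one]
    exact upper_pow h2 b s t h
  obtain ⟨Q, hQ⟩ := hU.exists_le_sylow
  obtain ⟨P, rfl⟩ := Sylow.mapSurjective_surjective hf p Q
  have ha : mk (1 : ZMod p) 1 0 1 0 0 (by simp) ∈ upper p := ⟨_, _, _, _, rfl⟩
  have hb : mk (1 : ZMod p) 0 0 1 0 1 (by simp) ∈ upper p := ⟨_, _, _, _, rfl⟩
  obtain ⟨x, hx, hxa⟩ := hQ ha
  obtain ⟨y, hy, hyb⟩ := hQ hb
  let ι : K →* Equiv.Perm (Fin n) := (alternatingGroup (Fin n)).subtype.comp K.subtype
  have hι : Function.Injective ι := Subtype.val_injective.comp Subtype.val_injective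
  have hP : IsPGroup p ((P : Subgroup K).map ι) := P.2.map ι
  have := comm_of_perm hn _ hP ⟨ι x, x, hx, rfl⟩ ⟨ι y, y, hy, rfl⟩
  have hxy : x * y = y * x := hι (by simpa using congrArg Subtype.val this)
  have h3 := congrArg f hxy
  rw [map_mul, map_mul, hxa, hyb, mk_mul (h'' := by simp), mk_mul (h'' := by simp)] at h3
  have h4 := congrArg (fun M : qd p => M.1 0 2) h3
  simp [mk] at h4

theorem result {p : ℕ} [Fact p.Prime] (hp : p ≠ 2) (n : ℕ) : ((∃ H : Subgroup (alternatingGroup (Fin n)), Nonempty (↥H ≃* ↥(Cfsg.qd p))) ↔ p ^ 2 ≤ n) ∧ (n < p ^ 2 → ¬ Cfsg.Involves ↥(Cfsg.qd p) ↥(alternatingGroup (Fin n))) := by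
  refine ⟨⟨?_, ?_⟩, not_involves hp⟩
  · rintro ⟨H, ⟨e⟩⟩
    by_contra hn
    refine not_involves hp (not_le.1 hn) ⟨H, ⊥, inferInstance, ⟨?_⟩⟩
    refine MulEquiv.trans ?_ e
    exact (QuotientGroup.quotientMulEquivOfEq (by simp)).trans QuotientGroup.quotientBot
  · intro hn
    obtain ⟨ι⟩ : Nonempty (ZMod p × ZMod p ↪ Fin n) := by
      apply Function.Embedding.nonempty_of_card_le
      simp [ZMod.card]; nlinarith
    let φ : qd p →* Equiv.Perm (Fin n) := (Equiv.Perm.viaEmbeddingHom ι).comp act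
    have hφ : Function.Injective φ := (Equiv.Perm.viaEmbeddingHom_injective ι).comp act_injective
    let ψ : qd p →* alternatingGroup (Fin n) := φ.codRestrict _ (fun M => by
      rw [Equiv.Perm.mem_alternatingGroup]
      exact hom_trivial hp (Equiv.Perm.sign.comp φ) M)
    have hψ : Function.Injective ψ := fun a b h => hφ (congrArg Subtype.val h)
    exact ⟨ψ.range, ⟨(MonoidHom.ofInjective hψ).symm⟩⟩

end Cfsg.Agent.S3835
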