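import Cfsg.Statements.S3836
import Cfsg.Agent.Lib.CorePi

set_option autoImplicit false
open Cfsg

namespace Cfsg.Agent.S3836

open CfsgLib Subgroup

/-- Let G be a finite group that is p-stable in the normalizer form: for every p-subgroup Q and every x ∈ N_G(Q) with [Q, x, x] = 1, the image of x in N_G(Q)/C_G(Q) lies in O_p(N_G(Q)/C_G(Q)). Then every subgroup of G is p-stable in the same sense. -/
theorem result {G : Type*} [Group G] [Finite G] {p : ℕ} [Fact p.Prime] (hst : Cfsg.IsNormalizerPStable p G) (H : Subgroup G) : Cfsg.IsNormalizerPStable p ↥H := by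
  intro P hP g hg hcomm
  have hg' : ∀ x : H, x ∈ normalizer (P : Set H) →
      (x : G) ∈ normalizer ((P.map H.subtype : Subgroup G) : Set G) := fun x hx =>
    le_normalizer_map H.subtype (mem_map_of_mem H.subtype hx)
  have h1 := hst (P.map H.subtype) (hP.map _) g (hg' g hg) (by
    have := congrArg (Subgroup.map H.subtype) hcomm
    rwa [map_commutator, map_commutator, MonoidHom.map_zpowers, Subgroup.map_bot] at this)
  let φ : normalizer (P : Set H) →* normalizer ((P.map H.subtype : Subgroup G) : Set G) :=
    (H.subtype.comp (normalizer (P : Set H)).subtype).codRestrict _ fun x => hg' x x.2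
  have hφ : ((centralizer ((P.map H.subtype : Subgroup G) : Set G)).subgroupOf _).comap φ =
      (centralizer (P : Set H)).subgroupOf (normalizer (P : Set H)) := by
    ext x
    simp only [mem_comap, mem_subgroupOf, mem_centralizer_iff]
    constructor
    · intro h y hy
      exact Subtype.ext (h y ⟨y, hy, rfl⟩)
    · rintro h _ ⟨y, hy, rfl⟩
      exact congrArg Subtype.val (h y hy)
  have hinj : Function.Injective (QuotientGroup.map _ _ φ hφ.ge) := by
    rw [← MonoidHom.ker_eq_bot_iff, QuotientGroup.ker_map, hφ, QuotientGroup.map_mk'_self]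
  exact comap_pCore_le p hinj h1

end Cfsg.Agent.S3836
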