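import Cfsg.Statements.S3838
import Cfsg.Agent.Lib.PComplementMore

set_option autoImplicit false
open Cfsg

namespace Cfsg.Agent.S3838

open Subgroup CfsgLib CfsgLib.PCompl

/-- Let G be a finite group with Sylow p-subgroup P such that N_G(P) has a normal p-complement. Then N_G(Q) has a normal p-complement for every subgroup Q with [P, P] ≤ Q ≤ Φ(P). -/
theorem result {G : Type*} [Group G] [Finite G] {p : ℕ} [Fact p.Prime] (P : Sylow p G) (hN : Cfsg.HasNormalPComplement p ↥(Subgroup.normalizer ((P : Subgroup G) : Set G))) (Q : Subgroup G) (h1 : (commutator ↥(P : Subgroup G)).map (P : Subgroup G).subtype ≤ Q) (h2 : Q ≤ (frattini ↥(P : Subgroup G)).map (P : Subgroup G).subtype) : Cfsg.HasNormalPComplement p ↥(Subgroup.normalizer (Q : Set G)) := by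
  have hQP : Q ≤ P := h2.trans (map_subtype_le _)
  have hPN : (P : Subgroup G) ≤ normalizer (Q : Set G) := by
    rw [le_normalizer_iff_commutator_le_left]
    rw [map_subtype_commutator] at h1
    exact (commutator_mono hQP le_rfl).trans h1
  set H := normalizer (Q : Set G) with hH
  let P' : Sylow p H := P.subtype hPN
  have hP' : (P' : Subgroup H) = (P : Subgroup G).subgroupOf H := rfl
  let e : (P' : Subgroup H) ≃* (P : Subgroup G) := subgroupOfEquivOfLe hPN
  refine hnpc_of_quotient_le_map_frattini (Q.subgroupOf H) (H := (P' : Subgroup H)) ?_ ?_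
  · intro x hx
    obtain ⟨y, hy, hyx⟩ := h2 hx
    refine ⟨e.symm y, ?_, Subtype.ext hyx⟩
    exact frattini_le_comap_frattini_of_surjective (φ := e.symm.toMonoidHom) e.symm.surjective hy
  · let P'' := P'.mapSurjective (QuotientGroup.mk'_surjective (Q.subgroupOf H))
    have hP'' : (P'' : Subgroup (H ⧸ Q.subgroupOf H)) =
      (P' : Subgroup H).map (QuotientGroup.mk' (Q.subgroupOf H)) := rfl
    refine hnpc_of_comm_of_hnpc_normalizer P'' ?_ ?_
    · rw [← le_centralizer_iff_isMulCommutative, ← commutator_eq_bot_iff_le_centralizer, hP'',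
        ← map_commutator, Subgroup.map_eq_bot_iff, QuotientGroup.ker_mk', commutator_le]
      intro a ha b hb
      rw [map_subtype_commutator] at h1
      exact h1 (commutator_mem_commutator ha hb)
    · have h3 : normalizer ((P'' : Subgroup (H ⧸ Q.subgroupOf H)) : Set (H ⧸ Q.subgroupOf H)) =
          (normalizer ((P' : Subgroup H) : Set H)).map (QuotientGroup.mk' (Q.subgroupOf H)) := by
        have h4 : (P'' : Subgroup (H ⧸ Q.subgroupOf H)).comap (QuotientGroup.mk' (Q.subgroupOf H))
            = P' := by
          rw [hP'', comap_map_eq, QuotientGroup.ker_mk', sup_eq_left]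
          exact subgroupOf_mono H hQP
        rw [← h4, ← comap_normalizer_eq_of_surjective _ (QuotientGroup.mk'_surjective _),
          map_comap_eq_self_of_surjective (QuotientGroup.mk'_surjective _)]
      rw [h3]
      apply hnpc_map
      rw [hP', ← subgroupOf_normalizer_eq hPN, ← hnpc_map_subtype_iff, subgroupOf_map_subtype]
      exact hnpc_of_le hN inf_le_left

end Cfsg.Agent.S3838
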