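import Cfsg.Statements.S3839
import Cfsg.Agent.Lib.FusionRadical

set_option autoImplicit false
open Cfsg

namespace Cfsg.Agent.S3839

open Subgroup CfsgLib CfsgLib.FrobNPC CfsgLib.PCompl

/-- A Frobenius normal p-complement criterion relative to a strongly closed subgroup. Let G be a finite group, S a Sylow p-subgroup and D a subgroup of S strongly closed in S with respect to G. Then G has a normal p-complement if and only if N_G(U) has a normal p-complement for every subgroup U of D with C_D(U) ≤ U. -/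
theorem result {G : Type*} [Group G] [Finite G] {p : ℕ} [Fact p.Prime] (S : Sylow p G) (D : Subgroup G) (hD : Cfsg.IsStronglyClosed D (S : Subgroup G)) : Cfsg.HasNormalPComplement p G ↔ ∀ U : Subgroup G, U ≤ D → D ⊓ Subgroup.centralizer (U : Set G) ≤ U → Cfsg.HasNormalPComplement p ↥(Subgroup.normalizer (U : Set G)) := by
  refine ⟨fun h U _ _ => hnpc_subgroup h _, fun h => ?_⟩
  by_contra hG
  obtain ⟨Q, hQS, hQA, -, -, hrad⟩ := exists_radical_of_not_hnpc S hG
  have hQp : IsPGroup p Q := S.isPGroup'.to_le hQS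
  set U := Q ⊓ D with hU
  have hNU : normalizer (Q : Set G) ≤ normalizer (U : Set G) := by
    intro g hg
    apply mem_normalizer_of_conj_mem
    intro x hx
    have h1 := conj_mem_of_mem_normalizer hg hx.1
    exact ⟨h1, hD.2 x hx.2 g (hQS h1)⟩
  have hSD : (S : Subgroup G) ≤ normalizer (D : Set G) := by
    intro g hg
    apply mem_normalizer_of_conj_mem
    intro x hx
    exact hD.2 x hx g (mul_mem (mul_mem hg (hD.1 hx)) (inv_mem hg))
  apply hQA
  apply pAutomizer_of_hnpc_normalizer hQp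
  refine hnpc_of_le (h U inf_le_right ?_) hNU
  by_contra hnot
  set X := D ⊓ centralizer (U : Set G) with hX
  have hQX : Q ≤ normalizer (X : Set G) := by
    refine le_trans (le_inf (hQS.trans hSD) ?_) inf_normalizer_le_normalizer_inf
    exact (le_normalizer.trans hNU).trans (normalizer_le_normalizer_centralizer U)
  have hlt : Q < Q ⊔ X := by
    refine lt_of_le_of_ne le_sup_left fun e => hnot ?_
    exact le_inf (le_sup_right.trans e.ge) inf_le_left
  have hQXS : Q ⊔ X ≤ S := sup_le hQS (inf_le_left.trans hD.1)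
  obtain ⟨y, hy, hyQ⟩ := SetLike.exists_of_lt
    (lt_inf_normalizer_of_isPGroup (S.isPGroup'.to_le hQXS) hlt)
  obtain ⟨q, hq, x, hx, rfl⟩ := (mem_sup_iff_of_le_normalizer hQX).1 hy.1
  have hxN : x ∈ normalizer (Q : Set G) := by
    have := mul_mem (inv_mem (le_normalizer hq)) hy.2
    rwa [inv_mul_cancel_left] at this
  let K : Subgroup G :=
    { carrier := {g | g ∈ normalizer (Q : Set G) ∧ g ∈ centralizer (U : Set G) ∧
        ∀ z ∈ Q, g * z * g⁻¹ * z⁻¹ ∈ U}
      one_mem' := ⟨one_mem _, one_mem _, fun z _ => by simp⟩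
      mul_mem' := by
        rintro a b ⟨ha1, ha2, ha3⟩ ⟨hb1, hb2, hb3⟩
        refine ⟨mul_mem ha1 hb1, mul_mem ha2 hb2, fun z hz => ?_⟩
        have h1 := U.mul_mem (ha3 _ (conj_mem_of_mem_normalizer hb1 hz)) (hb3 z hz)
        have e : a * (b * z * b⁻¹) * a⁻¹ * (b * z * b⁻¹)⁻¹ * (b * z * b⁻¹ * z⁻¹) =
          a * b * z * (a * b)⁻¹ * z⁻¹ := by group
        rwa [e] at h1
      inv_mem' := by
        rintro a ⟨ha1, ha2, ha3⟩
        refine ⟨inv_mem ha1, inv_mem ha2, fun z hz => ?_⟩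
        have h1 := U.inv_mem (ha3 _ (conj_mem_of_mem_normalizer' ha1 hz))
        have e : (a * (a⁻¹ * z * a) * a⁻¹ * (a⁻¹ * z * a)⁻¹)⁻¹ = a⁻¹ * z * a⁻¹⁻¹ * z⁻¹ := by group
        rwa [e] at h1 }
  have hK := hrad K (fun g hg => hg.1) ?_ ?_
  · have hxK : x ∈ K := by
      refine ⟨hxN, hx.2, fun z hz => ⟨Q.mul_mem (conj_mem_of_mem_normalizer hxN hz) (Q.inv_mem hz), ?_⟩⟩
      have h1 := D.mul_mem hx.1 (conj_mem_of_mem_normalizer (hSD (hQS hz)) (D.inv_mem hx.1))
      have e : x * (z * x⁻¹ * z⁻¹) = x * z * x⁻¹ * z⁻¹ := by group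
      rwa [e] at h1
    exact hyQ (mul_mem hq (hK ⟨hD.1 hx.1, hxK⟩))
  · intro g hg
    apply mem_normalizer_of_conj_mem
    rintro a ⟨ha1, ha2, ha3⟩
    refine ⟨mul_mem (mul_mem hg ha1) (inv_mem hg),
      conj_mem_of_mem_normalizer (normalizer_le_normalizer_centralizer U (hNU hg)) ha2,
      fun z hz => ?_⟩
    have h1 := conj_mem_of_mem_normalizer (hNU hg) (ha3 _ (conj_mem_of_mem_normalizer' hg hz))
    have e : g * (a * (g⁻¹ * z * g) * a⁻¹ * (g⁻¹ * z * g)⁻¹) * g⁻¹ =
      g * a * g⁻¹ * z * (g * a * g⁻¹)⁻¹ * z⁻¹ := by group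
    rwa [e] at h1
  · intro g hg hc
    exact mem_centralizer_of_stabilizes (hQp.to_inf_left) hc hg.2.1 hg.2.2

end Cfsg.Agent.S3839
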