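import Cfsg.Statements.S3857
import Cfsg.Agent.Lib.FrobTwo

set_option autoImplicit false
open Cfsg

namespace Cfsg.Agent.S3857

open Subgroup CfsgLib CfsgLib.Frob

theorem aux {G : Type*} [Group G] [Finite G] [Group.IsSolvable G] {π : Set ℕ} (h : PiSplit π G)
    (h1 : piCore π G ≠ ⊥) {b : ℕ} (hb : b.Prime) (hbπ : b ∉ π) (hd : b ∣ Nat.card G) :
    (∃ C : Subgroup G, Cfsg.IsFrobeniusComplement C) ∨
    (∃ (H K : Subgroup G) (_ : H.Normal), K.Normal ∧ H < K ∧
      (∃ C : Subgroup ↥K, Cfsg.IsFrobeniusComplement C ∧ Cfsg.frobeniusKernel C = (H.subgroupOf K : Set ↥K)) ∧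
      (∃ C : Subgroup (G ⧸ H), Cfsg.IsFrobeniusComplement C ∧ Cfsg.frobeniusKernel C = (K.map (QuotientGroup.mk' H) : Set (G ⧸ H)))) := by
  have h2 : piCore π G ≠ ⊤ := fun e => hbπ (piCore_isPiSubgroup (G := G) π b hb (by
    rw [e, card_top]; exact hd))
  rcases h.frobenius_or_twoFrobenius h1 h2 with h3 | ⟨K, h3, h4, h5, h6⟩
  · obtain ⟨C, hC, -⟩ := isFrobeniusKernel_iff.mp h3
    exact Or.inl ⟨C, hC⟩
  · exact Or.inr ⟨_, K, inferInstance, h3, h4, isFrobeniusKernel_iff.mp h5,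
      isFrobeniusKernel_iff.mp h6⟩

/-- A finite solvable group whose prime graph (prime divisors of the order, two distinct primes joined when there is an element of order their product) is disconnected is a Frobenius group or a 2-Frobenius group (it has normal subgroups H < K with K a Frobenius group with kernel H and G/H a Frobenius group with kernel K/H). -/
theorem result {G : Type*} [Group G] [Finite G] (hsol : Group.IsSolvable G)
    (hdisc : (∃ A : Set ℕ, (∃ a ∈ A, a.Prime ∧ a ∣ Nat.card G) ∧ (∃ b ∉ A, b.Prime ∧ b ∣ Nat.card G) ∧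
      ∀ a ∈ A, ∀ b ∉ A, a.Prime → b.Prime → a ∣ Nat.card G → b ∣ Nat.card G → ¬ ∃ g : G, orderOf g = a * b)) :
    (∃ C : Subgroup G, Cfsg.IsFrobeniusComplement C) ∨
    (∃ (H K : Subgroup G) (_ : H.Normal), K.Normal ∧ H < K ∧
      (∃ C : Subgroup ↥K, Cfsg.IsFrobeniusComplement C ∧ Cfsg.frobeniusKernel C = (H.subgroupOf K : Set ↥K)) ∧
      (∃ C : Subgroup (G ⧸ H), Cfsg.IsFrobeniusComplement C ∧ Cfsg.frobeniusKernel C = (K.map (QuotientGroup.mk' H) : Set (G ⧸ H)))) := by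
  obtain ⟨A, ⟨a, ha, hap, had⟩, ⟨b, hb, hbp, hbd⟩, h⟩ := hdisc
  have hs : PiSplit A G := piSplit_of_forall_orderOf_ne h
  have : Nontrivial G := Finite.one_lt_card_iff_nontrivial.mp
    (lt_of_lt_of_le hap.one_lt (Nat.le_of_dvd Nat.card_pos had))
  obtain ⟨p, hp, hp'⟩ := exists_pCore_ne_bot (G := G)
  have := Fact.mk hp
  have key : ∀ π : Set ℕ, p ∈ π → piCore π G ≠ ⊥ := fun π hπ e => hp' (by
    rw [eq_bot_iff, ← e]
    exact le_piCore (isPiSubgroup_mono (isPGroup_iff_isPiSubgroup.mp (pCore_isPGroup p))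
      (Set.singleton_subset_iff.mpr hπ)))
  by_cases hpA : p ∈ A
  · exact aux hs (key A hpA) hbp hb hbd
  · exact aux hs.compl (key Aᶜ hpA) hap (not_not.mpr ha) had

end Cfsg.Agent.S3857
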