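import Cfsg.Statements.S3856
import Cfsg.Agent.Lib.PG.Red
import Cfsg.Agent.S3857

set_option autoImplicit false
open Cfsg

namespace Cfsg.Agent.S3856

open CfsgLib.Frob in
open Subgroup CfsgLib in
/-- Structure of finite groups with disconnected prime graph. The prime graph of a finite group G has the prime divisors of |G| as vertices, two distinct primes p, q being joined when G has an element of order pq. If G has even order and its prime graph is disconnected then, writing π₁ for the set of primes joined to 2 by a path: either G is a Frobenius group; or G is a 2-Frobenius group (there are normal subgroups H < K of G with K a Frobenius group with kernel H and G/H a Frobenius group with kernel K/H); or G has normal subgroups N ≤ M such that every prime divisor of |N| and of |G/M| lies in π₁ and M/N is a non-abelian simple group. -/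
theorem result {G : Type*} [Group G] [Finite G] (heven : Even (Nat.card G))
    (hdisc : (∃ A : Set ℕ, (∃ a ∈ A, a.Prime ∧ a ∣ Nat.card G) ∧ (∃ b ∉ A, b.Prime ∧ b ∣ Nat.card G) ∧
      ∀ a ∈ A, ∀ b ∉ A, a.Prime → b.Prime → a ∣ Nat.card G → b ∣ Nat.card G → ¬ ∃ g : G, orderOf g = a * b)) :
    (∃ C : Subgroup G, Cfsg.IsFrobeniusComplement C) ∨
    (∃ (H K : Subgroup G) (_ : H.Normal), K.Normal ∧ H < K ∧
      (∃ C : Subgroup ↥K, Cfsg.IsFrobeniusComplement C ∧ Cfsg.frobeniusKernel C = (H.subgroupOf K : Set ↥K)) ∧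
      (∃ C : Subgroup (G ⧸ H), Cfsg.IsFrobeniusComplement C ∧ Cfsg.frobeniusKernel C = (K.map (QuotientGroup.mk' H) : Set (G ⧸ H)))) ∨
    (∃ (N M : Subgroup G) (_ : N.Normal) (_ : M.Normal), N ≤ M ∧
      (∀ p : ℕ, p.Prime → p ∣ Nat.card ↥N → Relation.ReflTransGen (fun a b : ℕ => a.Prime ∧ b.Prime ∧ a ≠ b ∧ a ∣ Nat.card G ∧ b ∣ Nat.card G ∧ ∃ g : G, orderOf g = a * b) 2 p) ∧
      (∀ p : ℕ, p.Prime → p ∣ Nat.card (G ⧸ M) → Relation.ReflTransGen (fun a b : ℕ => a.Prime ∧ b.Prime ∧ a ≠ b ∧ a ∣ Nat.card G ∧ b ∣ Nat.card G ∧ ∃ g : G, orderOf g = a * b) 2 p) ∧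
      IsSimpleGroup (↥M ⧸ N.subgroupOf M) ∧ ¬ IsMulCommutative (↥M ⧸ N.subgroupOf M)) := by
  by_cases hsol : Group.IsSolvable G
  · exact (S3857.result hsol hdisc).imp_right Or.inl
  set R : ℕ → ℕ → Prop := fun a b : ℕ => a.Prime ∧ b.Prime ∧ a ≠ b ∧ a ∣ Nat.card G ∧
    b ∣ Nat.card G ∧ ∃ g : G, orderOf g = a * b with hR
  set σ : Set ℕ := {a | Relation.ReflTransGen R 2 a} with hσ
  have h : PiSplit σ G := piSplit_of_forall_orderOf_ne fun a ha b hb ha' hb' h1 h2 hg =>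
    hb (Relation.ReflTransGen.tail ha ⟨ha', hb', fun e => hb (e ▸ ha), h1, h2, hg⟩)
  obtain ⟨A, ⟨a, ha, hap, had⟩, ⟨b, hb, hbp, hbd⟩, hA⟩ := hdisc
  have key : ∀ c ∈ σ, (c ∈ A ↔ 2 ∈ A) := fun c hc => by
    induction hc with
    | refl => rfl
    | tail _ h' ih =>
      obtain ⟨a1, a2, -, a4, a5, g, hg⟩ := h'
      rw [← ih]
      constructor
      · exact fun e => by_contra fun e' => hA _ e _ e' a2 a1 a5 a4 ⟨g, by rw [hg, mul_comm]⟩
      · exact fun e => by_contra fun e' => hA _ e _ e' a1 a2 a4 a5 ⟨g, hg⟩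
  obtain ⟨r, hr, hrσ, hrG⟩ : ∃ r : ℕ, r.Prime ∧ r ∈ σᶜ ∧ r ∣ Nat.card G := by
    by_cases h2 : 2 ∈ A
    · exact ⟨b, hbp, fun e => hb ((key b e).2 h2), hbd⟩
    · exact ⟨a, hap, fun e => h2 ((key a e).1 ha), had⟩
  rcases CfsgLib.FT.PGI.gk_main h.compl (not_not.2 Relation.ReflTransGen.refl) hsol hr hrσ hrG with
    h1 | ⟨K, h3, h4, h5, h6⟩ | ⟨M, h3, h4, h5, h6, h7⟩
  · obtain ⟨C, hC, -⟩ := isFrobeniusKernel_iff.mp h1
    exact Or.inl ⟨C, hC⟩
  · exact Or.inr (Or.inl ⟨_, K, inferInstance, h3, h4, isFrobeniusKernel_iff.mp h5,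
      isFrobeniusKernel_iff.mp h6⟩)
  · exact Or.inr (Or.inr ⟨_, M, inferInstance, h3, h4,
      fun p hp hd => not_not.1 (piCore_isPiSubgroup σᶜᶜ p hp hd),
      fun p hp hd => not_not.1 (h5 p hp hd), h6, h7⟩)

end Cfsg.Agent.S3856
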