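import Cfsg.Statements.S3859
import Cfsg.Agent.Lib.SylowIn
import Cfsg.Agent.Lib.CoreSolvable

set_option autoImplicit false
open Cfsg

namespace Cfsg.Agent.S3859

open CfsgLib Subgroup

theorem normalizer_ne_top {G : Type*} [Group G] [Finite G] (T : Subgroup G) [T.Normal]
    (hT : IsSimpleGroup T) (hna : ¬ IsMulCommutative T) {r : ℕ} [Fact r.Prime] (R : Sylow r G)
    (hR0 : (R : Subgroup G) ⊓ T ≠ ⊥) :
    normalizer (((R : Subgroup G) ⊓ T : Subgroup G) : Set G) ≠ ⊤ := by
  intro h
  have hn : ((R : Subgroup G) ⊓ T).Normal := normalizer_eq_top_iff.mp h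
  rcases (hn.subgroupOf T).eq_bot_or_eq_top with h1 | h1
  · rw [subgroupOf_eq_bot, disjoint_iff, inf_assoc, inf_idem] at h1
    exact hR0 h1
  · rw [subgroupOf_eq_top] at h1
    have hp : IsPGroup r T := R.isPGroup'.to_le (h1.trans inf_le_left)
    exact hna ⟨⟨IsSimpleGroup.comm_iff_isSolvable.mpr (isSolvable_of_isPGroup hp)⟩⟩

/-- Let G be a finite group with a normal non-abelian simple subgroup T whose centralizer is trivial (G almost simple with socle T), r a prime and R a Sylow r-subgroup of G meeting T nontrivially. If R lies in exactly one maximal subgroup of G, then G/T is an r-group. -/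
theorem result {G : Type*} [Group G] [Finite G] (T : Subgroup G) [T.Normal] (hT : IsSimpleGroup T) (hna : ¬ IsMulCommutative T)
    (hC : Subgroup.centralizer (T : Set G) = ⊥) {r : ℕ} [Fact r.Prime] (R : Sylow r G) (hR0 : (R : Subgroup G) ⊓ T ≠ ⊥)
    (huniq : ∃! M : Subgroup G, IsCoatom M ∧ (R : Subgroup G) ≤ M) : IsPGroup r (G ⧸ T) := by
  obtain ⟨M, ⟨hM, -⟩, huniq⟩ := huniq
  have key : ∀ K : Subgroup G, (R : Subgroup G) ≤ K → K ≠ ⊤ → K ≤ M := fun K hK hK1 => by
    obtain ⟨M', hM', hle⟩ := (eq_top_or_exists_le_coatom K).resolve_left hK1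
    exact huniq M' ⟨hM', hK.trans hle⟩ ▸ hle
  have h1 : (R : Subgroup G) ⊔ T = ⊤ := by
    by_contra h
    have h2 := key _ le_sup_left h
    have h3 := key _ ((le_inf le_normalizer (le_top.trans (normalizer_eq_top T).ge)).trans
      inf_normalizer_le_normalizer_inf) (normalizer_ne_top T hT hna R hR0)
    have h4 := (IsSylowIn.sylow_inf_normal R T).frattini_le le_top (normalizer_eq_top T).ge
    exact hM.1 (top_le_iff.mp (h4.trans (sup_le (le_sup_right.trans h2) (inf_le_right.trans h3))))
  have h2 := R.isPGroup'.map (QuotientGroup.mk' T)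
  have h3 : (R : Subgroup G).map (QuotientGroup.mk' T) = ⊤ := by
    rw [← map_top_of_surjective _ (QuotientGroup.mk'_surjective T), ← h1, Subgroup.map_sup,
      (map_eq_bot_iff T).mpr (QuotientGroup.ker_mk' T).ge, sup_bot_eq]
  rw [h3] at h2
  exact h2.of_equiv topEquiv

end Cfsg.Agent.S3859
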