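import Cfsg.Statements.S3858
import Cfsg.Agent.S3859

set_option autoImplicit false
open Cfsg

namespace Cfsg.Agent.S3858

open CfsgLib Subgroup

theorem isCoatom_map_conj {G : Type*} [Group G] {M : Subgroup G} (hM : IsCoatom M) (g : G) :
    IsCoatom (M.map (MulAut.conj g).toMonoidHom) :=
  (OrderIso.isCoatom_iff (MulAut.conj g).mapSubgroup M).mpr hM

theorem exists_le_conj {G : Type*} [Group G] [Finite G] {r : ℕ} [hr : Fact r.Prime]
    (R : Sylow r G) {M : Subgroup G} (h : ¬ r ∣ M.index) :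
    ∃ g : G, (R : Subgroup G) ≤ M.map (MulAut.conj g).toMonoidHom := by
  obtain ⟨S, hS⟩ := IsSylowIn.exists_in (p := r) M
  have hS' : IsSylowIn r S ⊤ := ⟨le_top, hS.isPGroup, by
    rw [relIndex_top_right, ← relIndex_mul_index hS.le, hr.out.dvd_mul]
    exact not_or.mpr ⟨hS.not_dvd, h⟩⟩
  obtain ⟨g, -, hg⟩ := (IsSylowIn.sylow_top R).exists_conj_eq hS'
  exact ⟨g, hg ▸ map_mono hS.le⟩

/-- Let G be a finite group with a normal non-abelian simple subgroup T whose centralizer is trivial (G almost simple with socle T), r a prime and R a Sylow r-subgroup of G meeting T nontrivially. Then R lies in exactly one maximal subgroup of G if and only if G has exactly one conjugacy class of maximal subgroups whose index is prime to r. -/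
theorem result {G : Type*} [Group G] [Finite G] (T : Subgroup G) [T.Normal] (hT : IsSimpleGroup T) (hna : ¬ IsMulCommutative T)
    (hC : Subgroup.centralizer (T : Set G) = ⊥) {r : ℕ} [Fact r.Prime] (R : Sylow r G) (hR0 : (R : Subgroup G) ⊓ T ≠ ⊥) :
    (∃! M : Subgroup G, IsCoatom M ∧ (R : Subgroup G) ≤ M) ↔
      ((∃ M : Subgroup G, IsCoatom M ∧ ¬ r ∣ M.index) ∧
        ∀ M₁ M₂ : Subgroup G, IsCoatom M₁ → ¬ r ∣ M₁.index → IsCoatom M₂ → ¬ r ∣ M₂.index → ∃ g : G, M₂ = M₁.map (MulAut.conj g).toMonoidHom) := by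
  have hidx : ∀ M : Subgroup G, (R : Subgroup G) ≤ M → ¬ r ∣ M.index := fun M hM h =>
    R.not_dvd_index (h.trans (index_dvd_of_le hM))
  constructor
  · rintro ⟨M, ⟨hM, hRM⟩, huniq⟩
    refine ⟨⟨M, hM, hidx M hRM⟩, fun M₁ M₂ h1 h1' h2 h2' => ?_⟩
    obtain ⟨g₁, hg₁⟩ := exists_le_conj R h1'
    obtain ⟨g₂, hg₂⟩ := exists_le_conj R h2'
    have e1 := huniq _ ⟨isCoatom_map_conj h1 g₁, hg₁⟩
    have e2 := huniq _ ⟨isCoatom_map_conj h2 g₂, hg₂⟩
    refine ⟨g₂⁻¹ * g₁, ?_⟩
    rw [map_conj_mul, e1, ← e2, map_conj_inv_map_conj]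
  · rintro ⟨-, hconj⟩
    have h1 : normalizer ((R : Subgroup G) : Set G) ≠ ⊤ := fun h =>
      S3859.normalizer_ne_top T hT hna R hR0 (top_le_iff.mp
        ((le_inf h.ge (normalizer_eq_top T).ge).trans inf_normalizer_le_normalizer_inf))
    obtain ⟨M, hM, hle⟩ := (eq_top_or_exists_le_coatom _).resolve_left h1
    have hRM : (R : Subgroup G) ≤ M := le_normalizer.trans hle
    refine ⟨M, ⟨hM, hRM⟩, fun M' ⟨hM', hRM'⟩ => ?_⟩
    obtain ⟨g, rfl⟩ := hconj M M' hM (hidx M hRM) hM' (hidx M' hRM')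
    have h2 := (IsSylowIn.of_sylow R hRM').map_conj g⁻¹
    rw [map_conj_inv_map_conj] at h2
    obtain ⟨x, hx, hxe⟩ := (IsSylowIn.of_sylow R hRM).exists_conj_eq h2
    rw [← map_conj_mul] at hxe
    have h3 : g ∈ M := by
      simpa using mul_mem (inv_mem (hle (mem_normalizer_of_map_conj_eq hxe))) hx
    exact map_conj_eq_of_mem_normalizer (le_normalizer h3)

end Cfsg.Agent.S3858
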