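import Cfsg.Statements.S3860
import Cfsg.Agent.Lib.RC.Main

set_option autoImplicit false
open Cfsg

namespace Cfsg.Agent.S3860

/-- Let G be a finite group in which all conjugacy classes of non-central real elements (elements conjugate to their inverses) have sizes with the same 2-part (the same largest power of 2 dividing them). Then G has 2-length at most one: there are normal subgroups N ≤ K of G with N and G/K of odd order and K/N a 2-group. -/
theorem result {G : Type*} [Group G] [Finite G] (a : ℕ) (h : ∀ x : G, IsConj x x⁻¹ → x ∉ Subgroup.center G → ((Subgroup.centralizer ({x} : Set G)).index).factorization 2 = a) : ∃ N K : Subgroup G, N.Normal ∧ K.Normal ∧ N ≤ K ∧ Odd (Nat.card N) ∧ Odd K.index ∧ ∃ j : ℕ, N.relIndex K = 2 ^ j :=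
  CfsgLib.RC.final CfsgLib.RC.core a h

end Cfsg.Agent.S3860
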