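import Cfsg.Statements.S3861
import Cfsg.Agent.Lib.H5Real

set_option autoImplicit false
open Cfsg

namespace Cfsg.Agent.S3861

open Subgroup CfsgLib
open scoped Pointwise commutatorElement



theorem result {G : Type*} [Group G] [Finite G] (P : Sylow 2 G) : (∀ x : G, x ≠ 1 → Odd (orderOf x) → ¬ IsConj x x⁻¹) ↔ (P : Subgroup G).Normal := by
  constructor
  · intro h
    refine H5.sylow_two_normal_of_not_real (fun y hy h2 => h y ?_ (hy.odd_of_ne_two h2)) P
    rintro rfl
    rw [orderOf_one] at hy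
    exact Nat.not_prime_one hy
  · intro hP x hx hodd hc
    obtain ⟨u, ⟨k, hk⟩, hu⟩ := H5.exists_two_element_inverts hc
    have h1 : u ∈ (P : Subgroup G) := by
      obtain ⟨Q, hQ⟩ := exists_sylow_mem_of_orderOf hk
      have := Sylow.unique_of_normal P hP
      rwa [Subsingleton.elim Q P] at hQ
    have h2 : x ^ 2 ∈ (P : Subgroup G) := by
      have h3 : x ^ 2 = (x * u * x⁻¹) * u⁻¹ := by
        rw [show x * u * x⁻¹ * u⁻¹ = x * (u * x * u⁻¹)⁻¹ by group, hu, inv_inv, sq]
      rw [h3]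
      exact mul_mem (hP.conj_mem u h1 x) (inv_mem h1)
    obtain ⟨j, hj⟩ := orderOf_eq_pow_of_mem_isPGroup P.isPGroup' h2
    rw [(Nat.coprime_two_right.mpr hodd).orderOf_pow] at hj
    exact hx (orderOf_eq_one_iff.mp (Nat.eq_one_of_dvd_coprimes
      ((Nat.coprime_two_right.mpr hodd).pow_right j) dvd_rfl (hj ▸ dvd_rfl)))

end Cfsg.Agent.S3861
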