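import Cfsg.Statements.S3862
import Cfsg.Agent.Lib.FrobeniusPComplement
import Cfsg.Agent.Lib.CoreElements

set_option autoImplicit false
open Cfsg

namespace Cfsg.Agent.S3862

open Subgroup CfsgLib
open scoped Pointwise commutatorElement



theorem result {G : Type*} [Group G] [Finite G] (h : ∀ x : G, (∃ j : ℕ, orderOf x = 2 ^ j) → IsConj x x⁻¹ → x ∈ Subgroup.center G) : Cfsg.HasNormalPComplement 2 G := by
  refine FrobNPC.hnpc_of_primePow_centralizes fun H hH _ g hg q k hq hq2 hgk => ?_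
  have key : ∀ (j : ℕ), ∀ y ∈ H, y ^ 2 ^ j = 1 → g * y * g⁻¹ = y := by
    intro j
    induction j with
    | zero => intro y _ hy; rw [pow_zero, pow_one] at hy; simp [hy]
    | succ j ih =>
      intro y hy hyj
      have h1 := ih (y ^ 2) (pow_mem hy 2) (by rw [← pow_mul, ← pow_succ', hyj])
      set x := y⁻¹ * (g * y * g⁻¹) with hx
      have hxH : x ∈ H := mul_mem (inv_mem hy) (conj_mem_of_mem_normalizer hg hy)
      have h2 : y * x * y⁻¹ = x⁻¹ := by
        rw [eq_inv_iff_mul_eq_one, hx]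
        calc y * (y⁻¹ * (g * y * g⁻¹)) * y⁻¹ * (y⁻¹ * (g * y * g⁻¹))
            = (g * y * g⁻¹) * (y ^ 2)⁻¹ * (g * y * g⁻¹) := by group
          _ = (g * y * g⁻¹) * (g * y ^ 2 * g⁻¹)⁻¹ * (g * y * g⁻¹) := by rw [h1]
          _ = 1 := by group
      obtain ⟨i, hi⟩ := orderOf_eq_pow_of_mem_isPGroup hH hxH
      have h3 := mem_center_iff.mp (h x ⟨i, hi⟩ (isConj_iff.mpr ⟨y, h2⟩))
      have h4 : ∀ n : ℕ, g ^ n * y * (g ^ n)⁻¹ = y * x ^ n := by
        intro n
        induction n with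
        | zero => simp
        | succ n ih2 =>
          have h5 : g * x ^ n * g⁻¹ = x ^ n := by
            rw [((show Commute g x from h3 g).pow_right n).eq, mul_inv_cancel_right]
          calc g ^ (n + 1) * y * (g ^ (n + 1))⁻¹ = g * (g ^ n * y * (g ^ n)⁻¹) * g⁻¹ := by group
            _ = (g * y * g⁻¹) * (g * x ^ n * g⁻¹) := by rw [ih2]; group
            _ = y * x ^ (n + 1) := by rw [h5, pow_succ' x, ← mul_assoc, hx]; group
      have h6 := h4 (orderOf g)
      rw [pow_orderOf_eq_one, one_mul, inv_one, mul_one, left_eq_mul, hgk] at h6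
      have h7 : x = 1 := orderOf_eq_one_iff.mp (Nat.eq_one_of_dvd_coprimes
        (Nat.Coprime.pow i k ((Nat.coprime_primes Nat.prime_two hq).mpr (Ne.symm hq2)))
        (hi ▸ dvd_rfl) (orderOf_dvd_of_pow_eq_one h6))
      exact (inv_mul_eq_one.mp h7).symm
  intro y hy
  obtain ⟨j, hj⟩ := orderOf_eq_pow_of_mem_isPGroup hH hy
  have := key j y hy (hj ▸ pow_orderOf_eq_one y)
  rw [mul_inv_eq_iff_eq_mul] at this
  exact this.symm

end Cfsg.Agent.S3862
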