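import Cfsg.Statements.S3863
import Cfsg.Agent.Lib.CoreBasic

set_option autoImplicit false
open Cfsg

namespace Cfsg.Agent.S3863

open CfsgLib Subgroup

theorem exists_two_element {G : Type*} [Group G] [Finite G] (x : G) (hx : IsConj x x⁻¹) :
    ∃ t : G, (∃ j : ℕ, orderOf t = 2 ^ j) ∧ t * x * t⁻¹ = x⁻¹ := by
  obtain ⟨g, hg⟩ := isConj_iff.mp hx
  obtain ⟨j, m, hm, hjm⟩ := Nat.exists_eq_two_pow_mul_odd (orderOf_pos g).ne'
  refine ⟨g ^ m, ⟨j, ?_⟩, ?_⟩
  · rw [orderOf_pow' _ hm.pos.ne', hjm, Nat.gcd_mul_left_left, Nat.mul_div_cancel _ hm.pos]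
  · obtain ⟨k, rfl⟩ := hm
    have h2 : g ^ 2 * x * (g ^ 2)⁻¹ = x := by
      calc g ^ 2 * x * (g ^ 2)⁻¹ = g * (g * x * g⁻¹) * g⁻¹ := by simp [sq, mul_assoc]
        _ = (g * x * g⁻¹)⁻¹ := by
          conv_lhs => rw [hg]
          simp [mul_assoc]
        _ = x := by rw [hg, inv_inv]
    have h3 : Commute (g ^ 2) x := by rwa [mul_inv_eq_iff_eq_mul] at h2
    have h4 := (h3.pow_left k).eq
    rw [pow_succ', pow_mul, mul_inv_rev, mul_assoc g, h4, ← hg]
    group

/-- Let x be an element of the finite group G that is conjugate to its inverse. Then some 2-element conjugates x to its inverse; if the conjugacy class of x has odd size then x ^ 2 = 1; and x lies in, and is conjugate to its inverse inside, every normal subgroup of odd index. -/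
theorem result {G : Type*} [Group G] [Finite G] (x : G) (hx : IsConj x x⁻¹) : (∃ t : G, (∃ j : ℕ, orderOf t = 2 ^ j) ∧ t * x * t⁻¹ = x⁻¹) ∧ (Odd (Subgroup.centralizer ({x} : Set G)).index → x ^ 2 = 1) ∧ ∀ (N : Subgroup G) [N.Normal], Odd N.index → ∃ hxN : x ∈ N, IsConj (⟨x, hxN⟩ : N) (⟨x, hxN⟩ : N)⁻¹ := by
  obtain ⟨t, ⟨j, hj⟩, ht⟩ := exists_two_element x hx
  refine ⟨⟨t, ⟨j, hj⟩, ht⟩, fun hodd => ?_, fun N _ hodd => ?_⟩
  · have hn : zpowers t ≤ normalizer (centralizer ({x} : Set G) : Set G) := by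
      rw [zpowers_le]
      refine mem_normalizer_of_conj_mem fun y hy => ?_
      rw [mem_centralizer_singleton_iff] at hy ⊢
      have h1 : Commute (t * y * t⁻¹) (t * x * t⁻¹) := (Commute.conj_iff t).mpr hy
      rw [ht] at h1
      exact (Commute.inv_right_iff.mp h1).eq
    have h1 : (centralizer ({x} : Set G)).relIndex (zpowers t) = 1 := by
      refine Nat.eq_one_of_dvd_coprimes (Nat.Coprime.pow_left j (Nat.coprime_two_left.mpr hodd))
        (by rw [← hj, ← Nat.card_zpowers]; exact relIndex_dvd_card _ _) ?_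
      rw [← relIndex_sup_of_le_normalizer hn]
      exact relIndex_dvd_index_of_le le_sup_right
    have h2 := relIndex_eq_one.mp h1 (mem_zpowers t)
    rw [mem_centralizer_singleton_iff] at h2
    rw [h2, mul_inv_cancel_right] at ht
    rw [sq]
    nth_rw 2 [ht]
    exact mul_inv_cancel x
  · have key : ∀ (y : G) (k : ℕ), y ^ 2 ^ k ∈ N → y ∈ N := fun y k hy => by
      rw [← QuotientGroup.eq_one_iff, ← orderOf_eq_one_iff]
      refine Nat.eq_one_of_dvd_coprimes (Nat.Coprime.pow_left k (Nat.coprime_two_left.mpr hodd))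
        (orderOf_dvd_of_pow_eq_one ?_) (orderOf_dvd_natCard _)
      rwa [← QuotientGroup.mk_pow, QuotientGroup.eq_one_iff]
    have htN : t ∈ N := key t j (by rw [← hj, pow_orderOf_eq_one]; exact one_mem _)
    have hxN : x ∈ N := key x 1 (by
      have h1 : x ^ 2 ^ 1 = (x * t * x⁻¹) * t⁻¹ := by
        calc x ^ 2 ^ 1 = x * (t * x * t⁻¹)⁻¹ := by rw [ht, inv_inv, pow_one, sq]
          _ = _ := by simp [mul_assoc]
      rw [h1]
      exact mul_mem (Normal.conj_mem inferInstance t htN x) (inv_mem htN))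
    exact ⟨hxN, isConj_iff.mpr ⟨⟨t, htN⟩, Subtype.ext ht⟩⟩

end Cfsg.Agent.S3863
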