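import Cfsg.Statements.S3864
import Cfsg.Agent.Lib.PComplementMore
import Cfsg.Agent.Lib.CoreElements
import Cfsg.Agent.Lib.H8Misc
import Cfsg.Agent.Lib.H5NilpotentMaximal

set_option autoImplicit false
open Cfsg

namespace Cfsg.Agent.S3864

open Subgroup CfsgLib CfsgLib.PCompl CfsgLib.PRes CfsgLib.Fusion DihedralGroup

/-- parity -/
def par (k : ℕ) : ZMod (4 * k) →+* ZMod 2 := ZMod.castHom ⟨2 * k, by ring⟩ (ZMod 2)

theorem par_two (k : ℕ) : par k 2 = 0 := by
  rw [map_ofNat]; rfl

theorem par_eq_zero_iff {k : ℕ} [NeZero k] {i : ZMod (4 * k)} : par k i = 0 ↔ ∃ t, i = 2 * t := by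
  constructor
  · intro h
    rw [← ZMod.natCast_zmod_val i, map_natCast, ZMod.natCast_eq_zero_iff] at h
    obtain ⟨t, ht⟩ := h
    exact ⟨t, by rw [← ZMod.natCast_zmod_val i, ht]; simp⟩
  · rintro ⟨t, rfl⟩
    rw [map_mul, par_two, zero_mul]

theorem two_mul_k_ne {k : ℕ} [NeZero k] : ((2 * k : ℕ) : ZMod (4 * k)) ≠ 0 := by
  rw [Ne, ZMod.natCast_eq_zero_iff]
  intro h
  have h0 := NeZero.pos k
  have := Nat.le_of_dvd (by omega) h
  omega

theorem two_mul_two_mul_k (k : ℕ) : (2 : ZMod (4 * k)) * ((2 * k : ℕ) : ZMod (4 * k)) = 0 := by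
  have : ((4 * k : ℕ) : ZMod (4 * k)) = 0 := ZMod.natCast_self _
  rw [← this]; push_cast; ring

theorem par_eq_zero_iff' {k : ℕ} [NeZero k] {i : ZMod (4 * k)} :
    par k i = 0 ↔ i * ((2 * k : ℕ) : ZMod (4 * k)) = 0 := by
  have h1 : ∀ j : ZMod (4 * k), par k j = 0 → j * ((2 * k : ℕ) : ZMod (4 * k)) = 0 := by
    intro j hj
    obtain ⟨t, rfl⟩ := par_eq_zero_iff.1 hj
    rw [mul_comm 2 t, mul_assoc, two_mul_two_mul_k, mul_zero]
  refine ⟨h1 i, fun h => ?_⟩
  by_contra hne
  have h2 : par k (i - 1) = 0 := by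
    rw [map_sub, map_one]
    generalize par k i = a at hne
    revert a; decide
  have h3 := h1 _ h2
  rw [sub_mul, h, one_mul, zero_sub, neg_eq_zero] at h3
  exact two_mul_k_ne h3

theorem eq_of_orderOf_r {k : ℕ} [NeZero k] {i : ZMod (4 * k)}
    (h : orderOf (r i : DihedralGroup (4 * k)) = 2) : i = ((2 * k : ℕ) : ZMod (4 * k)) := by
  have h1 := pow_orderOf_eq_one (r i : DihedralGroup (4 * k))
  rw [h, pow_two, r_mul_r, one_def, r.injEq] at h1
  have h2 : -i = i := by rw [neg_eq_iff_add_eq_zero, h1]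
  rcases (ZMod.neg_eq_self_iff i).1 h2 with h3 | h3
  · rw [h3, r_zero, orderOf_one] at h
    omega
  · rw [← ZMod.natCast_zmod_val i]
    congr 1
    omega

theorem orderOf_z {k : ℕ} [NeZero k] :
    orderOf (r ((2 * k : ℕ) : ZMod (4 * k)) : DihedralGroup (4 * k)) = 2 := by
  apply orderOf_eq_prime
  · rw [pow_two, r_mul_r, ← two_mul, two_mul_two_mul_k, r_zero]
  · rw [one_def, Ne, r.injEq]
    exact two_mul_k_ne

theorem isConj_sr {k : ℕ} [NeZero k] {i j : ZMod (4 * k)} (h : par k i = par k j) :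
    IsConj (sr i : DihedralGroup (4 * k)) (sr j) := by
  obtain ⟨t, ht⟩ := par_eq_zero_iff.1 (show par k (i - j) = 0 by rw [map_sub, h, sub_self])
  rw [isConj_iff]
  refine ⟨r t, ?_⟩
  simp only [r_mul_sr, inv_r, sr_mul_r, sr.injEq]
  linear_combination ht

/-- the sign character -/
def chi1 (k : ℕ) : DihedralGroup (4 * k) →* Multiplicative (ZMod 2) :=
  MonoidHom.mk' (fun x => match x with
    | r _ => 1
    | sr _ => Multiplicative.ofAdd 1) (by
      rintro (i | i) (j | j) <;> simp
      rfl)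

/-- the parity character -/
def chi2 (k : ℕ) : DihedralGroup (4 * k) →* Multiplicative (ZMod 2) :=
  MonoidHom.mk' (fun x => match x with
    | r i => Multiplicative.ofAdd (par k i)
    | sr i => Multiplicative.ofAdd (par k i)) (by
      have key : ∀ a b : ZMod 2, b - a = a + b := by decide
      rintro (i | i) (j | j) <;> simp [← ofAdd_add, key])

theorem chi1_r (k : ℕ) (i : ZMod (4 * k)) : chi1 k (r i) = 1 := rfl
theorem chi1_sr (k : ℕ) (i : ZMod (4 * k)) : chi1 k (sr i) = Multiplicative.ofAdd 1 := rfl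
theorem chi2_r (k : ℕ) (i : ZMod (4 * k)) : chi2 k (r i) = Multiplicative.ofAdd (par k i) := rfl
theorem chi2_sr (k : ℕ) (i : ZMod (4 * k)) : chi2 k (sr i) = Multiplicative.ofAdd (par k i) := rfl

/-- the automorphism swapping the two classes of reflections -/
def shift (m : ℕ) : DihedralGroup m →* DihedralGroup m :=
  MonoidHom.mk' (fun x => match x with
    | r i => r i
    | sr i => sr (i + 1)) (by
      rintro (i | i) (j | j) <;> simp <;> ring)

theorem shift_r (m : ℕ) (i : ZMod m) : shift m (r i) = r i := rfl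
theorem shift_sr (m : ℕ) (i : ZMod m) : shift m (sr i) = sr (i + 1) := rfl

theorem shift_surjective (m : ℕ) : Function.Surjective (shift m) := by
  rintro (i | i)
  · exact ⟨r i, rfl⟩
  · exact ⟨sr (i - 1), by rw [shift_sr, sub_add_cancel]⟩

theorem shift_injective (m : ℕ) : Function.Injective (shift m) := by
  rintro (i | i) (j | j) h <;> simp_all [shift_r, shift_sr]

section

variable {G : Type*} [Group G] [Finite G] (P : Sylow 2 G) {k : ℕ} [NeZero k]
  (φ : DihedralGroup (4 * k) →* G) (hφ : Function.Injective φ) (hP : φ.range = P)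

include hφ in
theorem par_eq_of_isConj {i j : ZMod (4 * k)} (h : IsConj (φ (r i)) (φ (r j))) :
    par k i = par k j := by
  have key : ∀ i j : ZMod (4 * k), IsConj (φ (r i)) (φ (r j)) → par k i = 0 → par k j = 0 := by
    intro i j h hi
    rw [par_eq_zero_iff'] at hi ⊢
    have h1 := h.pow (2 * k)
    rw [← map_pow, ← map_pow, r_pow, r_pow, hi, r_zero, map_one, isConj_one_right, ← map_one φ,
      hφ.eq_iff, one_def, r.injEq] at h1
    exact h1
  have h1 := key i j h
  have h2 := key j i h.symm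
  generalize par k i = a at h1 h2 ⊢
  generalize par k j = b at h1 h2 ⊢
  revert a b; decide

include hφ in
theorem eq_z_of_isConj {i j : ZMod (4 * k)} (h : IsConj (φ (r i)) (φ (sr j))) :
    i = ((2 * k : ℕ) : ZMod (4 * k)) := by
  apply eq_of_orderOf_r
  obtain ⟨c, hc⟩ := isConj_iff.1 h
  rw [← orderOf_injective φ hφ, ← (MulAut.conj c).orderOf_eq, MulAut.conj_apply, hc,
    orderOf_injective φ hφ, orderOf_sr]

include hP in
theorem focal_le {M : Type*} [Group M] (χ : DihedralGroup (4 * k) →* M)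
    (h : ∀ x y, IsConj (φ x) (φ y) → χ x = χ y) :
    commutator G ⊓ (P : Subgroup G) ≤ χ.ker.map φ := by
  apply commutator_inf_sylow_le P
  intro x hx g hg
  rw [← hP] at hx hg
  obtain ⟨x, rfl⟩ := hx
  obtain ⟨y, hy⟩ := hg
  refine ⟨y * x⁻¹, ?_, by rw [map_mul, map_inv, hy]⟩
  have := h x y (isConj_iff.2 ⟨g, hy.symm⟩)
  simp [MonoidHom.mem_ker, this]

theorem r_two_mul_mem (t : ZMod (4 * k)) : φ (r (2 * t)) ∈ commutator G := by
  have : (r (2 * t) : DihedralGroup (4 * k)) = r t * sr 0 * (r t)⁻¹ * (sr 0)⁻¹ := by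
    simp only [r_mul_sr, inv_r, sr_mul_r, inv_sr, sr_mul_sr, r.injEq]
    ring
  rw [this, map_mul, map_mul, map_mul, map_inv, map_inv]
  exact commutator_mem_commutator (mem_top _) (mem_top _)

theorem z_mem : φ (r ((2 * k : ℕ) : ZMod (4 * k))) ∈ commutator G := by
  have := r_two_mul_mem φ (k : ZMod (4 * k))
  rwa [Nat.cast_mul, Nat.cast_ofNat]

include hφ hP in
theorem classes_eq : {C : ConjClasses G | ∃ g : G, ConjClasses.mk g = C ∧ orderOf g = 2} =
    {ConjClasses.mk (φ (r ((2 * k : ℕ) : ZMod (4 * k)))), ConjClasses.mk (φ (sr 0)),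
      ConjClasses.mk (φ (sr 1))} := by
  ext C
  simp only [Set.mem_ofPred_eq, Set.mem_insert_iff, Set.mem_singleton_iff]
  constructor
  · rintro ⟨g, rfl, hg⟩
    obtain ⟨c, -, hc⟩ := (IsSylowIn.sylow_top P).exists_conj_le
      (isPGroup_zpowers_iff.2 ⟨1, hg⟩) le_top
    have h1 := hc (conj_mem_map_conj (mem_zpowers g))
    rw [← hP] at h1
    obtain ⟨x, hx⟩ := h1
    have h2 : ConjClasses.mk g = ConjClasses.mk (φ x) :=
      ConjClasses.mk_eq_mk_iff_isConj.2 (isConj_iff.2 ⟨c, hx.symm⟩)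
    have h3 : orderOf x = 2 := by
      rw [← orderOf_injective φ hφ, hx, ← hg]
      exact (MulAut.conj c).orderOf_eq g
    rw [h2]
    rcases x with i | i
    · exact Or.inl (by rw [eq_of_orderOf_r h3])
    · have h4 : par k i = par k 0 ∨ par k i = par k 1 := by
        rw [map_zero, map_one]
        generalize par k i = a
        revert a; decide
      rcases h4 with h4 | h4
      · exact Or.inr (Or.inl (ConjClasses.mk_eq_mk_iff_isConj.2 (φ.map_isConj (isConj_sr h4))))
      · exact Or.inr (Or.inr (ConjClasses.mk_eq_mk_iff_isConj.2 (φ.map_isConj (isConj_sr h4))))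
  · rintro (rfl | rfl | rfl)
    · exact ⟨_, rfl, by rw [orderOf_injective φ hφ, orderOf_z]⟩
    · exact ⟨_, rfl, by rw [orderOf_injective φ hφ, orderOf_sr]⟩
    · exact ⟨_, rfl, by rw [orderOf_injective φ hφ, orderOf_sr]⟩

theorem mem_of_isConj {N : Subgroup G} [hN : N.Normal] {x y : G} (h : IsConj x y) (hy : y ∈ N) :
    x ∈ N := by
  obtain ⟨c, hc⟩ := isConj_iff.1 h.symm
  rw [← hc]
  exact hN.conj_mem y hy c

include hP in
theorem case_one (ha : IsConj (φ (sr 0)) (φ (r ((2 * k : ℕ) : ZMod (4 * k)))))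
    (hb : IsConj (φ (sr 1)) (φ (r ((2 * k : ℕ) : ZMod (4 * k))))) (N : Subgroup G) (hN : N.Normal) :
    N.index ≠ 2 := by
  intro h2
  have h1 : commutator G ≤ N := by
    have : IsCyclic (G ⧸ N) := isCyclic_of_prime_card (p := 2) h2
    exact Subgroup.Normal.quotient_commutative_iff_commutator_le.1 inferInstance
  have h3 := mem_of_isConj ha (h1 (z_mem φ))
  have h4 := mem_of_isConj hb (h1 (z_mem φ))
  have h5 : ∀ i : ZMod (4 * k), φ (r i) ∈ N := by
    intro i
    have h6 := N.pow_mem (N.mul_mem h3 h4) i.val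
    rwa [← map_mul, ← map_pow, sr_mul_sr, sub_zero, r_one_pow, ZMod.natCast_zmod_val] at h6
  have h7 : (P : Subgroup G) ≤ N := by
    rw [← hP]
    rintro _ ⟨i | i, rfl⟩
    · exact h5 i
    · have := N.mul_mem h3 (h5 i)
      rwa [← map_mul, sr_mul_r, zero_add] at this
  have h8 := index_dvd_of_le h7
  rw [h2] at h8
  exact P.not_dvd_index h8

include hφ hP in
theorem case_two (ha : IsConj (φ (sr 0)) (φ (r ((2 * k : ℕ) : ZMod (4 * k)))))
    (hb : ¬ IsConj (φ (sr 1)) (φ (r ((2 * k : ℕ) : ZMod (4 * k))))) :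
    (∃ N : Subgroup G, N.Normal ∧ N.index = 2) ∧ ∀ N : Subgroup G, N.Normal → N.index ≠ 4 := by
  have hz : par k ((2 * k : ℕ) : ZMod (4 * k)) = 0 :=
    par_eq_zero_iff.2 ⟨k, by rw [Nat.cast_mul, Nat.cast_ofNat]⟩
  have hs : ∀ i, IsConj (φ (sr i)) (φ (r ((2 * k : ℕ) : ZMod (4 * k)))) ↔ par k i = 0 := by
    intro i
    constructor
    · intro h
      by_contra hne
      refine hb ((φ.map_isConj (isConj_sr ?_)).trans h)
      rw [map_one]
      generalize par k i = a at hne
      revert a; decide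
    · intro h
      exact (φ.map_isConj (isConj_sr (by rw [h, map_zero]))).trans ha
  have h1 := focal_le P φ hP (chi2 k) (by
    rintro (i | i) (j | j) h
    · rw [chi2_r, chi2_r, par_eq_of_isConj φ hφ h]
    · have h2 := eq_z_of_isConj φ hφ h
      rw [h2] at h
      rw [chi2_r, chi2_sr, h2, hz, (hs j).1 h.symm]
    · have h2 := eq_z_of_isConj φ hφ h.symm
      rw [h2] at h
      rw [chi2_r, chi2_sr, h2, hz, (hs i).1 h]
    · rw [chi2_sr, chi2_sr]
      have h3 : par k i = 0 ↔ par k j = 0 := by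
        rw [← hs, ← hs]
        exact ⟨fun h' => h.symm.trans h', fun h' => h.trans h'⟩
      generalize par k i = a at h3 ⊢
      generalize par k j = b at h3 ⊢
      revert a b; decide)
  constructor
  · have h2 : pResidual 2 G ≠ ⊤ := by
      intro h3
      have h4 := sylow_le_commutator_of_pResidual_eq_top P h3
      have h5 : φ (r 1) ∈ (P : Subgroup G) := hP ▸ ⟨_, rfl⟩
      obtain ⟨x, hx, e⟩ := h1 ⟨h4 h5, h5⟩
      rw [hφ e, SetLike.mem_coe, MonoidHom.mem_ker, chi2_r, map_one] at hx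
      exact absurd hx (by decide)
    obtain ⟨M, hM, hle⟩ := (eq_top_or_exists_le_coatom _).resolve_left h2
    have hMn := H8.normal_of_isCoatom_of_pResidual_le hM hle
    refine ⟨M, hMn, ?_⟩
    have h6 : IsPGroup 2 (G ⧸ M) := isPGroup_quotient_of_pResidual_le hle
    have h7 : IsCoatom (⊥ : Subgroup (G ⧸ M)) := by
      have := H5.isCoatom_map_of_surjective (QuotientGroup.mk'_surjective M) hM
        (by rw [QuotientGroup.ker_mk'])
      rwa [QuotientGroup.map_mk'_self] at this
    have := BurnsideBasis.coatom_index h6 h7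
    rwa [index_bot] at this
  · intro N hN h4
    have h2 : commutator G ≤ N := by
      have : IsMulCommutative (G ⧸ N) := IsPGroup.isMulCommutative_of_card_eq_prime_sq (p := 2) h4
      exact Subgroup.Normal.quotient_commutative_iff_commutator_le.1 inferInstance
    have h3 := mem_of_isConj ha (h2 (z_mem φ))
    have h5 : (chi2 k).ker ≤ N.comap φ := by
      have h6 : ∀ i, par k i = 0 → φ (r i) ∈ N := by
        intro i hi
        obtain ⟨t, rfl⟩ := par_eq_zero_iff.1 hi
        exact h2 (r_two_mul_mem φ t)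
      rintro (i | i) hi
      · exact h6 i hi
      · have := N.mul_mem h3 (h6 i hi)
        rwa [← map_mul, sr_mul_r, zero_add] at this
    have h7 := index_dvd_of_le h5
    rw [index_comap, hP, ← index_eq_relIndex_sylow P N (k := 2) h4, h4, index_ker] at h7
    have h8 := h7.trans (card_subgroup_dvd_card (chi2 k).range)
    simp at h8

include hφ hP in
theorem case_three (ha : ¬ IsConj (φ (sr 0)) (φ (r ((2 * k : ℕ) : ZMod (4 * k)))))
    (hb : ¬ IsConj (φ (sr 1)) (φ (r ((2 * k : ℕ) : ZMod (4 * k))))) :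
    HasNormalPComplement 2 G ∧ ¬ IsConj (φ (sr 0)) (φ (sr 1)) := by
  have hs : ∀ i, ¬ IsConj (φ (sr i)) (φ (r ((2 * k : ℕ) : ZMod (4 * k)))) := by
    intro i h
    have h4 : par k 0 = par k i ∨ par k 1 = par k i := by
      rw [map_zero, map_one]
      generalize par k i = a
      revert a; decide
    rcases h4 with h4 | h4
    · exact ha ((φ.map_isConj (isConj_sr h4)).trans h)
    · exact hb ((φ.map_isConj (isConj_sr h4)).trans h)
  have h1 := focal_le P φ hP (chi1 k) (by
    rintro (i | i) (j | j) h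
    · rfl
    · have h2 := eq_z_of_isConj φ hφ h
      rw [h2] at h
      exact absurd h.symm (hs j)
    · have h2 := eq_z_of_isConj φ hφ h.symm
      rw [h2] at h
      exact absurd h (hs i)
    · rfl)
  have h2 : (chi1 k).ker.map φ ≤ zpowers (φ (r 1)) := by
    rintro _ ⟨i | i, hi, rfl⟩
    · refine ⟨i.val, ?_⟩
      simp only
      rw [zpow_natCast, ← map_pow, r_one_pow, ZMod.natCast_zmod_val]
    · rw [SetLike.mem_coe, MonoidHom.mem_ker, chi1_sr] at hi
      exact absurd hi (by decide)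
  have hG : HasNormalPComplement 2 G := by
    obtain ⟨K, hK, -, h3, h4, -⟩ := exists_normal_inf_sylow_eq P
    refine hnpc_of_pResidual_le h3 ?_
    obtain ⟨Q, hQ⟩ := (IsSylowIn.sylow_inf_normal P K).exists_sylow_map
    refine hnpc_two_of_isCyclic Q ?_
    have h5 : (Q : Subgroup K).map K.subtype ≤ zpowers (φ (r 1)) := by
      rw [hQ, inf_comm, h4]; exact h1.trans h2
    have h6 : IsCyclic ((Q : Subgroup K).map K.subtype) :=
      isCyclic_of_injective (inclusion h5) (inclusion_injective _)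
    exact isCyclic_of_injective
      ((Q : Subgroup K).equivMapOfInjective K.subtype K.subtype_injective).toMonoidHom
      (MulEquiv.injective _)
  refine ⟨hG, fun h => ?_⟩
  obtain ⟨g, hg⟩ := isConj_iff.1 h
  obtain ⟨u, hu, h3⟩ := hnpc_fusion hG P g
  have h4 := h3 (φ (sr 0)) (hP ▸ ⟨_, rfl⟩) (hg ▸ hP ▸ ⟨_, rfl⟩)
  rw [← hP] at hu
  obtain ⟨u, rfl⟩ := hu
  rw [hg, ← map_inv, ← map_mul, ← map_mul, hφ.eq_iff] at h4
  have h5 := congrArg (chi2 k) h4
  rw [map_mul, map_mul, map_inv, mul_inv_cancel_comm, chi2_sr, chi2_sr, map_one, map_zero] at h5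
  exact absurd h5 (by decide)

end

/-- Let G be a finite group whose Sylow 2-subgroups are dihedral of order 2 ^ n with n ≥ 3, and count the conjugacy classes of involutions of G. Then exactly one of the following holds: there is one class of involutions and no normal subgroup of index 2; there are two classes of involutions, a normal subgroup of index 2 and none of index 4; there are three classes of involutions and G has a normal 2-complement. -/
theorem result {G : Type*} [Group G] [Finite G] (P : Sylow 2 G) (n : ℕ) (hn : 3 ≤ n) (hdih : Nonempty (↥(P : Subgroup G) ≃* DihedralGroup (2 ^ (n - 1)))) : (Nat.card {C : ConjClasses G // ∃ g : G, ConjClasses.mk g = C ∧ orderOf g = 2} = 1 ∧ ∀ N : Subgroup G, N.Normal → N.index ≠ 2) ∨ (Nat.card {C : ConjClasses G // ∃ g : G, ConjClasses.mk g = C ∧ orderOf g = 2} = 2 ∧ (∃ N : Subgroup G, N.Normal ∧ N.index = 2) ∧ ∀ N : Subgroup G, N.Normal → N.index ≠ 4) ∨ (Nat.card {C : ConjClasses G // ∃ g : G, ConjClasses.mk g = C ∧ orderOf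 g = 2} = 3 ∧ Cfsg.HasNormalPComplement 2 G) := by
  obtain ⟨e⟩ := hdih
  obtain ⟨k, hk⟩ : ∃ k, 2 ^ (n - 1) = 4 * k :=
    ⟨2 ^ (n - 3), by rw [show n - 1 = 2 + (n - 3) by omega, pow_add]; rfl⟩
  have : NeZero k := ⟨by rintro rfl; simp at hk⟩
  rw [hk] at e
  let φ : DihedralGroup (4 * k) →* G := (P : Subgroup G).subtype.comp e.symm.toMonoidHom
  have hφ : Function.Injective φ := (subtype_injective _).comp e.symm.injective
  have hP : φ.range = P := by
    rw [MonoidHom.range_comp, MonoidHom.range_eq_top.2 e.symm.surjective, ← MonoidHom.range_eq_map,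
      range_subtype]
  have hc : Nat.card {C : ConjClasses G // ∃ g : G, ConjClasses.mk g = C ∧ orderOf g = 2} =
      Set.ncard {ConjClasses.mk (φ (r ((2 * k : ℕ) : ZMod (4 * k)))), ConjClasses.mk (φ (sr 0)),
      ConjClasses.mk (φ (sr 1))} := by
    rw [← classes_eq P φ hφ hP, ← Nat.card_coe_set_eq]; rfl
  rw [hc]
  by_cases ha : IsConj (φ (sr 0)) (φ (r ((2 * k : ℕ) : ZMod (4 * k))))
  · by_cases hb : IsConj (φ (sr 1)) (φ (r ((2 * k : ℕ) : ZMod (4 * k))))
    · refine Or.inl ⟨?_, case_one P φ hP ha hb⟩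
      rw [ConjClasses.mk_eq_mk_iff_isConj.2 ha, ConjClasses.mk_eq_mk_iff_isConj.2 hb]
      simp
    · refine Or.inr (Or.inl ⟨?_, case_two P φ hφ hP ha hb⟩)
      rw [ConjClasses.mk_eq_mk_iff_isConj.2 ha, Set.insert_eq_of_mem (Set.mem_insert _ _)]
      exact Set.ncard_pair fun h => hb (ConjClasses.mk_eq_mk_iff_isConj.1 h).symm
  · by_cases hb : IsConj (φ (sr 1)) (φ (r ((2 * k : ℕ) : ZMod (4 * k))))
    · refine Or.inr (Or.inl ⟨?_, case_two P (φ.comp (shift _)) (hφ.comp (shift_injective _))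
        (by rw [MonoidHom.range_comp, MonoidHom.range_eq_top.2 (shift_surjective _),
          ← MonoidHom.range_eq_map, hP]) ?_ ?_⟩)
      · rw [ConjClasses.mk_eq_mk_iff_isConj.2 hb, Set.pair_comm,
          Set.insert_eq_of_mem (Set.mem_insert _ _)]
        exact Set.ncard_pair fun h => ha (ConjClasses.mk_eq_mk_iff_isConj.1 h).symm
      · simpa only [MonoidHom.comp_apply, shift_r, shift_sr, zero_add] using hb
      · simp only [MonoidHom.comp_apply, shift_r, shift_sr]
        intro h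
        refine ha ((φ.map_isConj (isConj_sr ?_)).trans h)
        rw [map_zero, one_add_one_eq_two, par_two]
    · obtain ⟨h1, h2⟩ := case_three P φ hφ hP ha hb
      refine Or.inr (Or.inr ⟨?_, h1⟩)
      refine Set.ncard_eq_three.2 ⟨_, _, _, ?_, ?_, ?_, rfl⟩
      · exact fun h => ha (ConjClasses.mk_eq_mk_iff_isConj.1 h).symm
      · exact fun h => hb (ConjClasses.mk_eq_mk_iff_isConj.1 h).symm
      · exact fun h => h2 (ConjClasses.mk_eq_mk_iff_isConj.1 h)

end Cfsg.Agent.S3864
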