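import Cfsg.Statements.S3865
import Cfsg.Agent.Lib.H5MaxClass2
import Cfsg.Agent.Lib.CoreTate
import Cfsg.Agent.Lib.SylowIn
import Cfsg.Agent.Lib.CoprimeAction
import Cfsg.Agent.Lib.CoreElements
import Cfsg.Agent.Lib.PComplement
import Cfsg.Agent.Lib.H5Misc
import Cfsg.Agent.Lib.Extraspecial

set_option autoImplicit false
open Cfsg

namespace Cfsg.Agent.S3865

open Subgroup CfsgLib
open scoped Pointwise commutatorElement

theorem card_quot {X : Type*} [Group X] [Finite X] {p : ℕ} (hp : p.Prime) (Z : Subgroup X)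
    [Z.Normal] (hZ : Nat.card Z = p) (hZc : Z ≤ center X) {x c : X} (hc : ⁅c, x⁆ ∈ Z)
    (hc1 : ⁅c, x⁆ ≠ 1) {K : Subgroup X} (hZK : Z ≤ K) (hcK : c ∈ K) :
    Nat.card (K.map (QuotientGroup.mk' Z) ⊓ centralizer {(QuotientGroup.mk' Z) x} : Subgroup _) =
      Nat.card (K ⊓ centralizer {x} : Subgroup X) := by
  set f := QuotientGroup.mk' Z
  set D := K ⊓ (centralizer {f x}).comap f with hD
  have hmem : ∀ d, d ∈ D ↔ d ∈ K ∧ ⁅d, x⁆ ∈ Z := fun d => by
    rw [hD, mem_inf, mem_comap, mem_centralizer_singleton_iff,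
      ← QuotientGroup.eq_one_iff (N := Z), ← QuotientGroup.mk'_apply Z, map_commutatorElement,
      commutatorElement_eq_one_iff_mul_comm]
  have h1 : D.map f = K.map f ⊓ centralizer {f x} := by
    apply le_antisymm
    · rintro _ ⟨d, hd, rfl⟩
      exact ⟨⟨d, hd.1, rfl⟩, hd.2⟩
    · rintro _ ⟨⟨d, hd, rfl⟩, h⟩
      exact ⟨d, ⟨hd, h⟩, rfl⟩
  have hZD : Z ≤ D := fun z hz => (hmem z).2 ⟨hZK hz, by
    rw [commutatorElement_eq_one_iff_mul_comm.2 (mem_center_iff.1 (hZc hz) x).symm]
    exact one_mem _⟩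
  have h2 := card_map_mk'_mul_card_inf D Z
  rw [inf_eq_left.2 hZD, hZ, h1] at h2
  let φ : D →* X := MonoidHom.mk' (fun d => ⁅(d : X), x⁆) (fun a b => by
    have ha := mem_center_iff.1 (hZc ((hmem a).1 a.2).2)
    have hb := mem_center_iff.1 (hZc ((hmem b).1 b.2).2)
    have e : ⁅((a * b : D) : X), x⁆ = (a : X) * ⁅(b : X), x⁆ * (a : X)⁻¹ * ⁅(a : X), x⁆ := by
      simp only [coe_mul, commutatorElement_def]; group
    rw [e, hb a, mul_inv_cancel_right, ha])
  have hr : φ.range = Z := by
    have hle : φ.range ≤ Z := by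
      rintro _ ⟨d, rfl⟩
      exact ((hmem d).1 d.2).2
    have hne : φ.range ≠ ⊥ := fun h => hc1 (by
      have : φ ⟨c, (hmem c).2 ⟨hcK, hc⟩⟩ ∈ φ.range := ⟨_, rfl⟩
      rw [h] at this; exact this)
    have := card_dvd_of_le hle
    rw [hZ] at this
    rcases (Nat.dvd_prime hp).1 this with h | h
    · exact absurd (card_eq_one.1 h) hne
    · exact eq_of_le_of_card_le hle (by rw [h, hZ])
  have hk : φ.ker.map D.subtype = K ⊓ centralizer {x} := by
    apply le_antisymm
    · rintro _ ⟨d, hd, rfl⟩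
      exact ⟨d.2.1, mem_centralizer_singleton_iff.2
        (commutatorElement_eq_one_iff_mul_comm.1 hd)⟩
    · rintro d ⟨hd, h⟩
      have h' := commutatorElement_eq_one_iff_mul_comm.2 (mem_centralizer_singleton_iff.1 h)
      exact ⟨⟨d, (hmem d).2 ⟨hd, by rw [h']; exact one_mem _⟩⟩, h', rfl⟩
  have h3 := φ.ker.card_mul_index
  rw [index_ker, hr, hZ, ← card_map_subtype, hk, ← h2] at h3
  exact (Nat.eq_of_mul_eq_mul_right hp.pos h3).symm

theorem key {p : ℕ} [hp : Fact p.Prime] (X : Type*) [Group X] [Finite X] :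
    ∀ P M : Subgroup X, IsSylowIn p P ⊤ → M.Normal → ∀ x ∈ P, x ∉ M →
      Nat.card (P ⊓ centralizer {x} : Subgroup X) = p ^ 2 →
      (M.relIndex P = p ∨ (IsPGroup p M ∧ ∀ g : X, (orderOf g).Coprime p →
        g ∈ centralizer (M : Set X) → g = 1)) →
      ¬ p ^ 3 ∣ Nat.card (centralizer ({x} : Set X)) := by
  revert X
  refine card_induction fun X _ _ ih => ?_
  intro P M hP hM x hxP hxM hR hcase hdvd
  have h1p := hp.out.one_lt
  set R := P ⊓ centralizer {x} with hRdef
  have h32 : ¬ p ^ 3 ∣ p ^ 2 := fun h =>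
    absurd ((Nat.pow_dvd_pow_iff_le_right h1p).1 h) (by omega)
  by_cases hMP : M ⊓ P = ⊥
  · rcases hcase with h | ⟨hMp, h⟩
    · have h1 := card_inf_mul_relIndex M P
      rw [hMP, card_bot, one_mul, h] at h1
      have h2 := card_dvd_of_le (inf_le_left : R ≤ P)
      rw [hR, ← h1] at h2
      have := Nat.le_of_dvd hp.out.pos h2
      nlinarith
    · obtain ⟨g, -, hg⟩ := hP.exists_conj_le hMp le_top
      rw [map_conj_eq_of_normal] at hg
      have hM1 : M = ⊥ := by rw [← hMP, inf_eq_left.2 hg]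
      have hX : IsPGroup p (⊤ : Subgroup X) := isPGroup_of_forall_orderOf fun y _ => by
        obtain ⟨u, -, v, -, huv, -, hu, hv⟩ := exists_p_part hp.out y
        have := h v hv (by rw [hM1]; intro m hm; rw [mem_bot.1 hm]; simp)
        rw [this, mul_one] at huv
        rwa [huv]
      have : P = ⊤ := (hP.eq_of_le hX le_top le_top).symm
      rw [hRdef, this, top_inf_eq] at hR
      exact h32 (hR ▸ hdvd)
  by_cases hRP : R = P
  · have h1 := hP.card_eq_ordProj
    rw [← hRP, hR] at h1
    have h2 : p ^ 3 ∣ Nat.card (⊤ : Subgroup X) := hdvd.trans (card_dvd_of_le le_top)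
    have h3 := (Nat.Prime.pow_dvd_iff_dvd_ordProj hp.out Nat.card_pos.ne').1 h2
    exact h32 (h1 ▸ h3)
  haveI := hP.isPGroup.isNilpotent
  obtain ⟨z, hzM, hz1, hzc⟩ := PGrp.exists_ne_one_mem_center_of_normal (M.subgroupOf P) (by
    intro h
    apply hMP
    rw [← card_eq_one, ← card_subgroupOf_eq_card_inf, h, card_bot])
  have hzP : ∀ g ∈ P, g * z = z * g := fun g hg => by
    simpa using congrArg Subtype.val (mem_center_iff.1 hzc ⟨g, hg⟩)
  have hzR : (z : X) ∈ R := ⟨z.2, mem_centralizer_singleton_iff.2 (hzP x hxP).symm⟩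
  have hxR : x ∈ R := ⟨hxP, mem_centralizer_singleton_iff.2 rfl⟩
  set Z := M ⊓ R with hZdef
  have hzZ : (z : X) ∈ Z := ⟨hzM, hzR⟩
  have hZ : Nat.card Z = p := by
    have h1 := card_dvd_of_le (inf_le_right : Z ≤ R)
    rw [hR] at h1
    obtain ⟨k, hk, h2⟩ := (Nat.dvd_prime_pow hp.out).1 h1
    interval_cases k
    · exact absurd (mem_bot.1 (card_eq_one.1 h2 ▸ hzZ)) (fun h => hz1 (Subtype.ext h))
    · rw [h2, pow_one]
    · have := eq_of_le_of_card_le (inf_le_right : Z ≤ R) (by rw [h2, hR])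
      exact absurd (this.ge hxR).1 hxM
  have hZz : Z = zpowers (z : X) := by
    have hle : zpowers (z : X) ≤ Z := zpowers_le.2 hzZ
    have := card_dvd_of_le hle
    rw [hZ] at this
    rcases (Nat.dvd_prime hp.out).1 this with h | h
    · exact absurd (zpowers_eq_bot.1 (card_eq_one.1 h)) (fun h => hz1 (Subtype.ext h))
    · exact (eq_of_le_of_card_le hle (by rw [h, hZ])).symm
  -- `p`-subgroups normalizing `R` centralize `z` and `R / Z`
  have hnorm : ∀ T : Subgroup X, IsPGroup p T → R ≤ T → T ≤ normalizer (R : Set X) →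
      ∀ c ∈ T, c * z = z * c ∧ ⁅c, x⁆ ∈ Z := by
    intro T hT hRT hTN c hc
    have hZT : Z ≤ T := inf_le_right.trans hRT
    have hZn : (Z.subgroupOf T).Normal := normal_subgroupOf_of_le_normalizer fun t ht =>
      mem_normalizer_of_conj_mem fun y hy =>
        ⟨hM.conj_mem _ hy.1 t, conj_mem_of_mem_normalizer (hTN ht) hy.2⟩
    have hRn : (R.subgroupOf T).Normal := normal_subgroupOf_of_le_normalizer hTN
    have hZT' : Nat.card (Z.subgroupOf T) = p := by rw [card_subgroupOf_of_le hZT, hZ]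
    refine ⟨?_, ?_⟩
    · have := PGrp.le_center_of_card_eq_prime hT _ hZT' (show (⟨z, hZT hzZ⟩ : T) ∈ _ from hzZ)
      simpa using congrArg Subtype.val (mem_center_iff.1 this ⟨c, hc⟩)
    · have h1 := card_map_mk'_mul_card_inf (R.subgroupOf T) (Z.subgroupOf T)
      rw [inf_eq_left.2 (subgroupOf_mono _ inf_le_right), hZT', card_subgroupOf_of_le hRT, hR,
        pow_two] at h1
      have h2 := PGrp.le_center_of_card_eq_prime (hT.to_quotient (Z.subgroupOf T)) _
        (Nat.eq_of_mul_eq_mul_right hp.out.pos h1)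
        (show (QuotientGroup.mk' _) (⟨x, hRT hxR⟩ : T) ∈ _ from ⟨_, hxR, rfl⟩)
      have h3 := commutatorElement_eq_one_iff_mul_comm.2
        (mem_center_iff.1 h2 ((QuotientGroup.mk' _) (⟨c, hc⟩ : T)))
      rw [← map_commutatorElement, QuotientGroup.mk'_apply, QuotientGroup.eq_one_iff] at h3
      exact h3
  obtain ⟨c, hc, hcR⟩ := SetLike.exists_of_lt
    (lt_inf_normalizer_of_isPGroup hP.isPGroup (lt_of_le_of_ne inf_le_left hRP))
  have hcx := (hnorm (P ⊓ normalizer (R : Set X)) (hP.isPGroup.to_le inf_le_left)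
    (le_inf inf_le_left le_normalizer) inf_le_right c hc).2
  have hcx1 : ⁅c, x⁆ ≠ 1 := fun h => hcR ⟨hc.1, mem_centralizer_singleton_iff.2
    (commutatorElement_eq_one_iff_mul_comm.1 h)⟩
  set C := centralizer ({(z : X)} : Set X) with hC
  have hPC : P ≤ C := fun g hg => mem_centralizer_singleton_iff.2 (hzP g hg)
  -- a bigger `p`-subgroup of `C(x)` inside `C`
  have hbig : p ^ 3 ∣ Nat.card (C ⊓ centralizer {x} : Subgroup X) := by
    obtain ⟨S, hRS, hS⟩ := IsSylowIn.exists_ge (hP.isPGroup.to_le (inf_le_left : R ≤ P))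
      (inf_le_right : R ≤ centralizer {x})
    have hne : R ≠ S := fun h => by
      have h1 := hS.card_eq_ordProj
      rw [← h, hR] at h1
      exact h32 (h1 ▸ (Nat.Prime.pow_dvd_iff_dvd_ordProj hp.out Nat.card_pos.ne').1 hdvd)
    have hlt := lt_inf_normalizer_of_isPGroup hS.isPGroup (lt_of_le_of_ne hRS hne)
    have hT := hS.isPGroup.to_le (inf_le_left : S ⊓ normalizer (R : Set X) ≤ S)
    have hle : S ⊓ normalizer (R : Set X) ≤ C ⊓ centralizer {x} := fun t ht =>
      ⟨mem_centralizer_singleton_iff.2 (hnorm _ hT hlt.le inf_le_right t ht).1, hS.le ht.1⟩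
    refine dvd_trans ?_ (card_dvd_of_le hle)
    obtain ⟨k, hk⟩ := hT.exists_card_eq
    have := card_lt_card_of_lt hlt
    rw [hR, hk] at this
    rw [hk]
    exact pow_dvd_pow _ ((Nat.pow_lt_pow_iff_right h1p).1 this)
  have hZP : Z ≤ P := inf_le_right.trans inf_le_left
  have hZc : Z.subgroupOf C ≤ center C := fun y hy => mem_center_iff.2 fun g => Subtype.ext (by
    rw [mem_subgroupOf, hZz] at hy
    obtain ⟨k, hk⟩ := hy
    have := (Commute.zpow_right (mem_centralizer_singleton_iff.1 g.2) k).eq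
    simp only at hk
    simpa [hk] using this)
  haveI hZn : (Z.subgroupOf C).Normal := ⟨fun y hy g => by
    rwa [mem_center_iff.1 (hZc hy) g, mul_inv_cancel_right]⟩
  have hZ' : Nat.card (Z.subgroupOf C) = p := by rw [card_subgroupOf_of_le (hZP.trans hPC), hZ]
  set f := QuotientGroup.mk' (Z.subgroupOf C) with hf
  have hfs : Function.Surjective f := QuotientGroup.mk'_surjective _
  set x' : C := ⟨x, hPC hxP⟩
  set c' : C := ⟨c, hPC hc.1⟩
  have hq := fun K : Subgroup C => card_quot hp.out (Z.subgroupOf C) hZ' hZc (x := x') (c := c')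
    hcx (fun h => hcx1 (congrArg Subtype.val h)) (K := K)
  have hcen : centralizer ({x'} : Set C) = (centralizer {x}).subgroupOf C := by
    ext y
    rw [mem_subgroupOf, mem_centralizer_singleton_iff, mem_centralizer_singleton_iff,
      Subtype.ext_iff]
    rfl
  have hker : ∀ K : Subgroup X, Z ≤ K → ((K.subgroupOf C).map f).comap f = K.subgroupOf C :=
    fun K hK => by
      rw [comap_map_eq, hf, QuotientGroup.ker_mk', sup_eq_left.2 (subgroupOf_mono _ hK)]
  refine ih (C ⧸ Z.subgroupOf C) ?_ ((P.subgroupOf C).map f) ((M.subgroupOf C).map f) ?_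
    (Normal.map inferInstance f hfs) (f x') ⟨x', hxP, rfl⟩ ?_ ?_ ?_ ?_
  · refine (card_quotient_lt ?_).trans_le (card_le_card_group C)
    intro h
    rw [h, card_bot] at hZ'
    omega
  · have := ((hP.mono hPC le_top).subgroupOf le_rfl).map f
    rwa [subgroupOf_self, ← MonoidHom.range_eq_map, MonoidHom.range_eq_top.2 hfs] at this
  · intro h
    rw [← mem_comap, hker M inf_le_left] at h
    exact hxM h
  · rw [hq _ (subgroupOf_mono _ hZP) hc.1, hcen,
      show P.subgroupOf C ⊓ (centralizer {x}).subgroupOf C = R.subgroupOf C from rfl,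
      card_subgroupOf_of_le (inf_le_left.trans hPC), hR]
  · rcases hcase with h | ⟨hMp, h⟩
    · left
      have := relIndex_comap ((M.subgroupOf C).map f) f (P.subgroupOf C)
      rw [← this, hker M inf_le_left, relIndex_subgroupOf hPC, h]
    · right
      obtain ⟨g, -, hg⟩ := hP.exists_conj_le hMp le_top
      rw [map_conj_eq_of_normal] at hg
      refine ⟨hMp.comap_subtype.map f, fun g hg1 hg2 => ?_⟩
      obtain ⟨g, rfl⟩ := hfs g
      obtain ⟨u, -, hu, hu'⟩ := exists_lift_isPiNum f (π := {p}ᶜ) g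
        ((isPiNum_compl_singleton_iff hp.out).2 hg1)
      rw [← hu] at hg2 ⊢
      have hu1 := (isPiNum_compl_singleton_iff hp.out).1 hu'
      have hcomm : ⁅M, zpowers (u : X)⁆ = ⊥ := by
        refine Cop.commutator_eq_bot_of_le_of_centralizes (N := Z) ?_ ?_ ?_
        · rw [commutator_le]
          rintro m hm _ ⟨k, rfl⟩
          have h1 := (zpow_mem hg2 k) (f ⟨m, hPC (hg hm)⟩) ⟨_, hm, rfl⟩
          rw [← map_zpow] at h1
          have h3 := commutatorElement_eq_one_iff_mul_comm.2 h1
          rw [← map_commutatorElement, hf, QuotientGroup.mk'_apply,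
            QuotientGroup.eq_one_iff] at h3
          exact h3
        · rw [eq_bot_iff, commutator_le]
          rintro y hy _ ⟨k, rfl⟩
          have := mem_center_iff.1 (hZc (show (⟨y, hPC (hZP hy)⟩ : C) ∈ _ from hy)) (u ^ k)
          exact commutatorElement_eq_one_iff_mul_comm.2 (congrArg Subtype.val this).symm
        · rw [hZ, Nat.card_zpowers, orderOf_coe]; exact hu1
      have := h u (by rw [orderOf_coe]; exact hu1) (by
        rw [Cop.commutator_eq_bot_iff_le_centralizer'] at hcomm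
        exact hcomm (mem_zpowers _))
      rw [show u = 1 from Subtype.ext this, map_one]
  · have := hq ⊤ le_top (mem_top _)
    rw [← MonoidHom.range_eq_map, MonoidHom.range_eq_top.2 hfs, top_inf_eq, top_inf_eq, hcen,
      card_subgroupOf_eq_card_inf, inf_comm] at this
    rwa [this]

theorem result {G : Type*} [Group G] [Finite G] (p : ℕ) [Fact p.Prime] (P : Sylow p G) (n : ℕ) (hP : Nat.card P = p ^ n) (hn : 2 ≤ n) (hmax : Group.nilpotencyClass ↥(P : Subgroup G) = n - 1) (hcore : Cfsg.pPrimeCore p G = ⊥) (hres : ∀ N : Subgroup G, N.Normal → (N.index).Coprime p → N = ⊤) : (∃ x ∈ (P : Subgroup G), (Nat.card (Subgroup.centralizer ({x} : Set G))).factorization p = 2) ∨ (Cfsg.IsQuasisimple G ∧ Nat.card (Subgroup.center G) ≤ p) := by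
  rename_i hp
  have h1p := hp.out.one_lt
  have hS := IsSylowIn.sylow_top P
  rw [or_iff_not_imp_left]
  intro hno
  have hn3 : 3 ≤ n := by
    by_contra h
    obtain rfl : n = 2 := by omega
    refine hno ⟨1, one_mem _, ?_⟩
    have h1 : centralizer ({1} : Set G) = ⊤ := eq_top_iff.2 fun g _ =>
      mem_centralizer_singleton_iff.2 (by simp)
    have h2 := hS.card_eq_ordProj
    rw [hP] at h2
    rw [h1, ← Nat.pow_right_injective h1p h2]
  have hx : ∀ M : Subgroup G, M.Normal → M ≠ ⊤ → ∃ x ∈ (P : Subgroup G), x ∉ M ∧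
      Nat.card ((P : Subgroup G) ⊓ centralizer {x} : Subgroup G) = p ^ 2 := by
    intro M hM hne
    obtain ⟨x, hxM, hx⟩ := H5.exists_not_mem_card_centralizer_of_maxClass hP hn3 hmax
      (H := M.subgroupOf P) (fun h => hne (hres M hM ((Nat.Prime.coprime_iff_not_dvd hp.out).2
        fun hd => P.not_dvd_index (hd.trans (index_dvd_of_le (subgroupOf_eq_top.1 h)))).symm))
    refine ⟨x, x.2, hxM, ?_⟩
    rw [← hx, inf_comm, ← card_subgroupOf_eq_card_inf]
    congr 2
    ext y
    rw [mem_subgroupOf, mem_centralizer_singleton_iff, mem_centralizer_singleton_iff,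
      Subtype.ext_iff]
    rfl
  have hkey : ∀ M : Subgroup G, M.Normal → M ≠ ⊤ → ¬ (M.relIndex P = p ∨ (IsPGroup p M ∧
      ∀ g : G, (orderOf g).Coprime p → g ∈ centralizer (M : Set G) → g = 1)) := by
    intro M hM hne hcase
    obtain ⟨x, hxP, hxM, hx⟩ := hx M hM hne
    have h3 := key G P M hS hM x hxP hxM hx hcase
    refine hno ⟨x, hxP, le_antisymm ?_ ?_⟩
    · by_contra h
      exact h3 ((hp.out.pow_dvd_iff_le_factorization Nat.card_pos.ne').2 (by omega))
    · exact (hp.out.pow_dvd_iff_le_factorization Nat.card_pos.ne').1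
        (hx ▸ card_dvd_of_le inf_le_right)
  have hpg : ∀ M : Subgroup G, M.Normal → M ≠ ⊤ → IsPGroup p M := by
    intro M hM hne
    obtain ⟨x, hxP, hxM, -⟩ := hx M hM hne
    obtain ⟨k, hk⟩ := P.isPGroup'.index (M.subgroupOf P)
    have hk0 : k ≠ 0 := by
      rintro rfl
      exact hxM (subgroupOf_eq_top.1 (index_eq_one.1 hk) hxP)
    have hk1 : k ≠ 1 := by
      rintro rfl
      exact hkey M hM hne (Or.inl (by rw [relIndex, hk, pow_one]))
    have h1 := (M.subgroupOf P).card_mul_index
    obtain ⟨j, hj⟩ := (P.isPGroup'.to_subgroup (M.subgroupOf P)).exists_card_eq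
    rw [hk, hj, hP, ← pow_add] at h1
    have h2 := Nat.pow_right_injective h1p h1
    obtain ⟨K, hKn, hMK, -, hK⟩ := PGrp.exists_normal_card_eq_pow_between P.isPGroup'
      (M.subgroupOf P) ⊤ le_top (n - 2) (by rw [hj]; exact Nat.pow_le_pow_right hp.out.pos (by omega))
      (by rw [card_top, hP]; exact Nat.pow_le_pow_right hp.out.pos (by omega))
    have hKi : K.index = p ^ 2 := by
      have := K.card_mul_index
      rw [hK, hP, show n = n - 2 + 2 by omega, pow_add, Nat.add_sub_cancel] at this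
      exact Nat.eq_of_mul_eq_mul_left (pow_pos hp.out.pos _) this
    have hci := PGrp.index_commutator_eq_sq_of_lowerCentralSeries_ne_bot hP hn3
      ((PGrp.nilpotencyClass_eq_iff_lowerCentralSeries_ne_bot hP (by omega)).1 hmax)
    have hcK : commutator P ≤ K := by
      have := IsPGroup.isMulCommutative_of_card_eq_prime_sq (G := P ⧸ K) hKi
      exact Normal.quotient_commutative_iff_commutator_le.1 this
    have hKc : commutator P = K := eq_of_le_of_card_le hcK (by
      have h3 := K.card_mul_index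
      rw [hKi, ← (commutator P).card_mul_index, hci] at h3
      exact (Nat.eq_of_mul_eq_mul_right (pow_pos hp.out.pos _) h3).le)
    have h4 := hnpc_of_inf_le_frattini P (M := M) le_normalizer_of_normal (by
      rw [← subgroupOf_map_subtype]
      exact map_mono (hMK.trans (hKc.ge.trans (PGrp.commutator_le_frattini P.isPGroup'))))
    refine PCompl.isPGroup_of_hnpc_of_pPrimeCore_eq_bot h4 ?_
    have := map_pPrimeCore_le_of_isSubnormal (p := p) hM.isSubnormal
    rw [hcore, le_bot_iff] at this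
    exact (map_eq_bot_iff_of_injective _ M.subtype_injective).1 this
  have hcen : ∀ M : Subgroup G, M.Normal → M ≠ ⊤ → M ≤ center G := by
    intro M hM hne
    by_contra hc
    refine hkey M hM hne (Or.inr ⟨hpg M hM hne, fun g hg1 hg2 => ?_⟩)
    have := hpg (centralizer (M : Set G)) inferInstance (fun h => hc fun m hm =>
      mem_center_iff.2 fun g => ((h ▸ mem_top g : g ∈ centralizer (M : Set G)) m hm).symm)
    obtain ⟨k, hk⟩ := orderOf_eq_pow_of_mem_isPGroup this hg2
    rw [hk] at hg1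
    rw [← orderOf_eq_one_iff, hk]
    rcases k with _ | k
    · rfl
    · exact absurd (Nat.Coprime.eq_one_of_dvd (hg1.symm) (dvd_pow_self _ k.succ_ne_zero)) h1p.ne'
  have hnt : (⊥ : Subgroup G) ≠ ⊤ := fun h => by
    have := card_dvd_of_le ((le_top.trans h.ge) : (P : Subgroup G) ≤ ⊥)
    rw [hP, card_bot, Nat.dvd_one] at this
    exact absurd this (Nat.one_lt_pow (by omega) h1p).ne'
  have hZ : center G ≠ ⊤ := fun h => by
    obtain ⟨x, -, -, hx⟩ := hx ⊥ inferInstance hnt
    rw [centralizer_eq_top_iff_subset.2 (by rw [h]; exact Set.subset_univ _), inf_top_eq, hP] at hx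
    have := Nat.pow_right_injective h1p hx
    omega
  obtain ⟨x, hxP, hxZ, hx2⟩ := hx (center G) inferInstance hZ
  refine ⟨⟨⟨?_⟩, H5.isSimpleGroup_quotient_of_maximal hZ fun M hM hle => ?_⟩, ?_⟩
  · by_contra h
    have h1 := hcen _ inferInstance h
    have hn : (center G ⊔ zpowers x).Normal := PGrp.normal_of_commutator_mem fun e _ g =>
      mem_sup_left (h1 (commutator_mem_commutator (mem_top e) (mem_top g)))
    by_cases h2 : center G ⊔ zpowers x = ⊤
    · refine hxZ (mem_center_iff.2 fun g => ?_)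
      have : center G ⊔ zpowers x ≤ centralizer {x} := sup_le (center_le_centralizer _)
        (zpowers_le.2 (mem_centralizer_singleton_iff.2 rfl))
      exact mem_centralizer_singleton_iff.1 (this (h2 ▸ mem_top g))
    · exact hxZ (hcen _ hn h2 (mem_sup_right (mem_zpowers x)))
  · exact or_iff_not_imp_right.2 fun h => le_antisymm (hcen M hM h) hle
  · obtain ⟨g, -, hg⟩ := hS.exists_conj_le (hpg _ inferInstance hZ) le_top
    rw [map_conj_eq_of_normal] at hg
    have hlt : center G < (P : Subgroup G) ⊓ centralizer {x} :=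
      lt_of_le_not_ge (le_inf hg (center_le_centralizer _)) fun h =>
        hxZ (h ⟨hxP, mem_centralizer_singleton_iff.2 rfl⟩)
    have := PGrp.mul_card_le_card_of_lt (P.isPGroup'.to_le inf_le_left) hlt
    rw [hx2, pow_two] at this
    exact Nat.le_of_mul_le_mul_left this hp.out.pos

end Cfsg.Agent.S3865
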