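import Cfsg.Statements.S3866
import Cfsg.Agent.Lib.CoreBasic

set_option autoImplicit false
open Cfsg

namespace Cfsg.Agent.S3866

open CfsgLib Subgroup

/-- Let A be a commutative normal subgroup of the finite group G with G generated by A and an element x. Then a ↦ x a x⁻¹ a⁻¹ is a surjective homomorphism from A onto the commutator subgroup of G whose kernel is the centralizer of x in A; in particular the commutator subgroup has order equal to the index in A of that centralizer. -/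
theorem result {G : Type*} [Group G] [Finite G] (A : Subgroup G) [A.Normal] (hA : IsMulCommutative A) (x : G) (hgen : A ⊔ Subgroup.zpowers x = ⊤) : (∀ a ∈ A, x * a * x⁻¹ * a⁻¹ ∈ commutator G) ∧ (∀ c ∈ commutator G, ∃ a ∈ A, x * a * x⁻¹ * a⁻¹ = c) ∧ (∀ a ∈ A, ∀ b ∈ A, x * (a * b) * x⁻¹ * (a * b)⁻¹ = (x * a * x⁻¹ * a⁻¹) * (x * b * x⁻¹ * b⁻¹)) ∧ Nat.card (commutator G) * Nat.card ↥(A ⊓ Subgroup.centralizer ({x} : Set G)) = Nat.card A := by
  have hc : ∀ a ∈ A, ∀ b ∈ A, a * b = b * a := fun a ha b hb =>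
    congrArg Subtype.val (hA.is_comm.comm (⟨a, ha⟩ : A) ⟨b, hb⟩)
  have hmem : ∀ a ∈ A, x * a * x⁻¹ * a⁻¹ ∈ A := fun a ha =>
    mul_mem (Normal.conj_mem inferInstance a ha x) (inv_mem ha)
  have hmul : ∀ a ∈ A, ∀ b ∈ A, x * (a * b) * x⁻¹ * (a * b)⁻¹ =
      (x * a * x⁻¹ * a⁻¹) * (x * b * x⁻¹ * b⁻¹) := by
    intro a ha b hb
    rw [mul_assoc (x * a * x⁻¹), hc _ (inv_mem ha) _ (hmem b hb)]
    group
  let φ : A →* G := MonoidHom.mk' (fun a => x * a * x⁻¹ * (a : G)⁻¹) fun a b => hmul a a.2 b b.2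
  have hle : φ.range ≤ _root_.commutator G := by
    rintro _ ⟨a, rfl⟩
    exact commutator_mem_commutator (mem_top x) (mem_top (a : G))
  have hn : φ.range.Normal := by
    rw [← normalizer_eq_top_iff, eq_top_iff, ← hgen, sup_le_iff, zpowers_le]
    constructor
    · intro a ha
      refine mem_normalizer_of_conj_mem ?_
      rintro _ ⟨b, rfl⟩
      exact ⟨b, by rw [hc a ha (φ b) (hmem b b.2), mul_inv_cancel_right]⟩
    · refine mem_normalizer_of_conj_mem ?_
      rintro _ ⟨b, rfl⟩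
      refine ⟨⟨_, Normal.conj_mem inferInstance _ b.2 x⟩, ?_⟩
      simp [φ, mul_assoc]
  have hge : _root_.commutator G ≤ φ.range := by
    have h1 : A ≤ (centralizer (A.map (QuotientGroup.mk' φ.range) : Set (G ⧸ φ.range))).comap
        (QuotientGroup.mk' φ.range) := by
      rintro a ha _ ⟨b, hb, rfl⟩
      rw [← map_mul, ← map_mul, hc a ha b hb]
    have h2 : x ∈ (centralizer (A.map (QuotientGroup.mk' φ.range) : Set (G ⧸ φ.range))).comap
        (QuotientGroup.mk' φ.range) := by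
      rintro _ ⟨b, hb, rfl⟩
      rw [← map_mul, ← map_mul, eq_comm, QuotientGroup.mk'_apply, QuotientGroup.mk'_apply,
        QuotientGroup.eq_iff_div_mem]
      exact ⟨⟨b, hb⟩, by simp [φ, div_eq_mul_inv, mul_assoc]⟩
    have h3 : ∀ g : G, ∀ a ∈ A, (a : G ⧸ φ.range) * g = g * a := fun g a ha => by
      have : g ∈ A ⊔ zpowers x := hgen ▸ mem_top g
      exact (sup_le h1 (zpowers_le.mpr h2)) this _ ⟨a, ha, rfl⟩
    have h4 : ∀ g : G, g ∈ (centralizer ({(x : G ⧸ φ.range)} : Set (G ⧸ φ.range))).comap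
        (QuotientGroup.mk' φ.range) := fun g => by
      have : g ∈ A ⊔ zpowers x := hgen ▸ mem_top g
      refine (sup_le (fun a ha => ?_) (zpowers_le.mpr ?_) : A ⊔ zpowers x ≤ _) this
      · exact mem_centralizer_singleton_iff.mpr (h3 x a ha)
      · exact mem_centralizer_singleton_iff.mpr rfl
    have h5 : ∀ g : G, g ∈ (center (G ⧸ φ.range)).comap (QuotientGroup.mk' φ.range) := fun g => by
      have : g ∈ A ⊔ zpowers x := hgen ▸ mem_top g
      refine (sup_le (fun a ha => ?_) (zpowers_le.mpr ?_) : A ⊔ zpowers x ≤ _) this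
      · exact mem_center_iff.mpr fun y => QuotientGroup.induction_on y fun y => (h3 y a ha).symm
      · exact mem_center_iff.mpr fun y => QuotientGroup.induction_on y fun y =>
          mem_centralizer_singleton_iff.mp (h4 y)
    rw [_root_.commutator, commutator_le]
    intro a _ b _
    rw [← QuotientGroup.eq_one_iff, ← QuotientGroup.mk'_apply, map_commutatorElement,
      commutatorElement_eq_one_iff_mul_comm]
    exact mem_center_iff.mp (h5 b) _
  refine ⟨fun a ha => hle ⟨⟨a, ha⟩, rfl⟩, fun c hc => ?_, hmul, ?_⟩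
  · obtain ⟨a, rfl⟩ := hge hc
    exact ⟨a, a.2, rfl⟩
  · have h1 : φ.ker = (centralizer ({x} : Set G)).subgroupOf A := by
      ext a
      rw [MonoidHom.mem_ker, mem_subgroupOf, mem_centralizer_singleton_iff]
      change x * a * x⁻¹ * (a : G)⁻¹ = 1 ↔ _
      rw [mul_inv_eq_one, mul_inv_eq_iff_eq_mul, eq_comm]
    rw [← le_antisymm hle hge, ← φ.ker.card_mul_index, index_ker, h1,
      card_subgroupOf_eq_card_inf, inf_comm, mul_comm]

end Cfsg.Agent.S3866
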