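import Cfsg.Statements.S3867
import Cfsg.Agent.Lib.H9SylowNum
import Cfsg.Agent.Lib.CorePi

set_option autoImplicit false
open Cfsg

namespace Cfsg.Agent.S3867

open Subgroup CfsgLib
open scoped Pointwise commutatorElement



theorem result {G : Type*} [Group G] [Finite G] (p : ℕ) [Fact p.Prime] (M N : Subgroup G) [M.Normal] [N.Normal] (hM : M ≠ ⊥) (hN : N ≠ ⊥) (hMN : M ⊓ N = ⊥) : Nat.card (Sylow p G) * Nat.card (Sylow p (G ⧸ (M ⊔ N))) = Nat.card (Sylow p (G ⧸ M)) * Nat.card (Sylow p (G ⧸ N)) := by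
  obtain ⟨P⟩ : Nonempty (Sylow p G) := inferInstance
  rw [H9.card_sylow_quotient _ P, H9.card_sylow_quotient _ P, H9.card_sylow_quotient _ P,
    H9.card_sylow_eq_index P]
  set T := normalizer ((P : Subgroup G) : Set G) with hT
  have h1 : ((P : Subgroup G) ⊔ M) ⊓ ((P : Subgroup G) ⊔ N) = P := by
    refine P.is_maximal' ?_ (le_inf le_sup_left le_sup_left)
    let f := ((QuotientGroup.mk' M).prod (QuotientGroup.mk' N))
    have hf : Function.Injective f := by
      rw [← MonoidHom.ker_eq_bot_iff, MonoidHom.ker_prod, QuotientGroup.ker_mk',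
        QuotientGroup.ker_mk', hMN]
    have hq : ∀ (K : Subgroup G) [K.Normal], ∀ x ∈ (P : Subgroup G) ⊔ K,
        ∃ k, QuotientGroup.mk' K x ^ p ^ k = 1 := by
      intro K _ x hx
      have := mem_map_of_mem (QuotientGroup.mk' K) hx
      rw [Subgroup.map_sup, QuotientGroup.map_mk'_self, sup_bot_eq] at this
      obtain ⟨k, hk⟩ := P.isPGroup'.map (QuotientGroup.mk' K) ⟨_, this⟩
      exact ⟨k, congrArg Subtype.val hk⟩
    rintro ⟨x, hx1, hx2⟩
    obtain ⟨a, ha⟩ := hq M x hx1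
    obtain ⟨b, hb⟩ := hq N x hx2
    refine ⟨a + b, Subtype.ext (hf ?_)⟩
    show f (x ^ p ^ (a + b)) = f 1
    rw [map_pow, map_one]
    refine Prod.ext ?_ ?_
    · show QuotientGroup.mk' M x ^ p ^ (a + b) = 1
      rw [pow_add, pow_mul, ha, one_pow]
    · show QuotientGroup.mk' N x ^ p ^ (a + b) = 1
      rw [pow_add, mul_comm, pow_mul, hb, one_pow]
  have h2 : (T ⊔ M) ⊓ (T ⊔ N) = T := by
    refine le_antisymm ?_ (le_inf le_sup_left le_sup_left)
    rw [hT, ← H9.normalizer_sylow_sup, ← H9.normalizer_sylow_sup]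
    refine inf_normalizer_le_normalizer_inf.trans ?_
    rw [h1]
  have h3 : T.relIndex (T ⊔ N) = (T ⊔ M).relIndex (T ⊔ (M ⊔ N)) := by
    have h4 := inf_relIndex_right (T ⊔ M) (T ⊔ N)
    rw [h2] at h4
    rw [h4, ← sup_assoc,
      H9.relIndex_sup_eq_of_le_normalizer le_rfl le_normalizer_of_normal,
      H9.relIndex_sup_eq_of_le_normalizer le_sup_left le_normalizer_of_normal]
  rw [← relIndex_mul_index (le_sup_left : T ≤ T ⊔ N), h3,
    ← relIndex_mul_index (sup_le_sup_left le_sup_left T : T ⊔ M ≤ T ⊔ (M ⊔ N))]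
  ring

end Cfsg.Agent.S3867
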