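import Cfsg.Statements.S3878
import Cfsg.Agent.Lib.QBaer
import Cfsg.Agent.Lib.CharBurnside
import Cfsg.Agent.Lib.CoreSolvable

set_option autoImplicit false
open Cfsg

namespace Cfsg.Agent.S3878

open Subgroup CfsgLib
open scoped Pointwise commutatorElement

open Equiv

theorem trans_of_order {q : ℕ} (hq : q.Prime) {σ : Perm (Fin q)} (h1 : σ ≠ 1)
    (h : ∃ k, orderOf σ = q ^ k) : (∀ a, σ a ≠ a) ∧ ∀ a b, ∃ i : ℕ, (σ ^ i) a = b := by
  obtain ⟨k, hk⟩ := h
  have h2 : q ^ k ∣ q.factorial := by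
    have := orderOf_dvd_natCard σ
    rwa [hk, Nat.card_perm, Nat.card_fin] at this
  have h3 : orderOf σ = q := by
    rcases k with _ | _ | k
    · exact absurd (orderOf_eq_one_iff.mp hk) h1
    · simpa using hk
    · exfalso
      have h4 : q * q ∣ q * (q - 1).factorial := by
        rw [Nat.mul_factorial_pred hq.ne_zero]
        exact Dvd.dvd.trans ⟨q ^ k, by ring⟩ h2
      have := hq.dvd_factorial.mp (Nat.dvd_of_mul_dvd_mul_left hq.pos h4)
      have := hq.pos
      omega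
  have h4 : σ.IsCycle := Perm.isCycle_of_prime_order'' (by simpa using hq) (by simpa using h3)
  have h5 : σ.support = Finset.univ :=
    Finset.eq_univ_of_card _ (h4.orderOf.symm.trans (by simpa using h3))
  have h6 : ∀ a, σ a ≠ a := fun a => Perm.mem_support.mp (h5 ▸ Finset.mem_univ a)
  exact ⟨h6, fun a b => h4.exists_pow_eq (h6 a) (h6 b)⟩

theorem case_swap {π : Set ℕ} {q r : ℕ} (hq : q.Prime) (hr : r.Prime) (h2 : 2 ∈ π) (hqπ : q ∈ π)
    (hrπ : r ∉ π) (hlt : r ≤ q) : ¬ IsEPiGroup π (Perm (Fin q)) := by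
  classical
  rintro ⟨H, h1, h3⟩
  haveI : Fact (Nat.Prime 2) := ⟨Nat.prime_two⟩
  have hq2 := hq.two_le
  have hne : (⟨0, by omega⟩ : Fin q) ≠ ⟨1, by omega⟩ := by simp
  obtain ⟨g, hg⟩ := Chr.exists_conj_mem_of_not_dvd_index (h3 2 Nat.prime_two h2)
    (x := swap (⟨0, by omega⟩ : Fin q) ⟨1, by omega⟩) ⟨1, by
      rw [pow_one]; exact (Perm.isSwap_iff_cycleType.mp ⟨_, _, hne, rfl⟩ ▸ Perm.lcm_cycleType _).symm.trans (by simp)⟩
  have hc : Nat.card H * H.index = q.factorial := by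
    rw [card_mul_index, Nat.card_perm, Nat.card_fin]
  have h4 : q ∣ Nat.card H :=
    (hq.dvd_mul.mp (hc ▸ hq.dvd_factorial.mpr le_rfl)).resolve_right (h3 q hq hqπ)
  have h5 : H = ⊤ := Perm.subgroup_eq_top_of_swap_mem (by simpa using hq)
    (by rw [Fintype.card_fin, ← Nat.card_eq_fintype_card]; exact h4) hg
    (by rw [← Equiv.swap_apply_apply]; exact ⟨_, _, g.injective.ne hne, rfl⟩)
  refine hrπ (h1 r hr ?_)
  rw [h5, card_top, Nat.card_perm, Nat.card_fin]
  exact hr.dvd_factorial.mpr hlt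

theorem case_alt {π : Set ℕ} {r : ℕ} (hr : r.Prime) (h5 : 5 ≤ r) (hrπ : r ∉ π)
    (h : ∀ s : ℕ, s.Prime → s < r → s ∈ π) :
    ¬ IsEPiGroup π (alternatingGroup (Fin (r + 1))) := by
  rintro ⟨H, h1, h3⟩
  haveI := alternatingGroup.isSimpleGroup (α := Fin (r + 1)) (by simp; omega)
  haveI : Nontrivial (Fin (r + 1)) := Fin.nontrivial_iff_two_le.mpr (by omega)
  have hc : 2 * (Nat.card H * H.index) = (r + 1).factorial := by
    rw [card_mul_index, two_mul_nat_card_alternatingGroup, Nat.card_perm, Nat.card_fin]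
  have hr1 : ¬ (r + 1).Prime := fun h' => by
    have := hr.eq_two_or_odd
    have := h'.eq_two_or_odd
    omega
  have h4 : ∀ s : ℕ, s.Prime → s ∣ H.index → s = r := by
    intro s hs hd
    have h6 : s ≤ r + 1 := hs.dvd_factorial.mp (hc ▸ (hd.mul_left _).mul_left _)
    by_contra h7
    have h8 : s ≠ r + 1 := fun h' => hr1 (h' ▸ hs)
    exact h3 s hs (h s hs (by omega)) hd
  have h6 : H.index = r ^ H.index.primeFactorsList.length :=
    Nat.eq_prime_pow_of_unique_prime_dvd index_ne_zero_of_finite (h4 _ · ·)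
  have h7 : ¬ r * r ∣ (r + 1).factorial := by
    intro h'
    rw [Nat.factorial_succ, ← Nat.mul_factorial_pred hr.ne_zero, mul_left_comm] at h'
    rcases hr.dvd_mul.mp (Nat.dvd_of_mul_dvd_mul_left hr.pos h') with h' | h'
    · have := Nat.le_of_dvd one_pos ((Nat.dvd_add_right dvd_rfl).mp h')
      omega
    · have := hr.dvd_factorial.mp h'
      omega
  have h8 : r ∣ H.index := by
    have h9 : r ∣ 2 * (Nat.card H * H.index) := hc ▸ hr.dvd_factorial.mpr (by omega)
    rcases hr.dvd_mul.mp h9 with h9 | h9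
    · have := Nat.le_of_dvd two_pos h9
      omega
    · exact (hr.dvd_mul.mp h9).resolve_left fun h' => hrπ (h1 r hr h')
  have h9 : H.index = r := by
    generalize H.index.primeFactorsList.length = k at h6
    rcases k with _ | _ | k
    · rw [h6, pow_zero] at h8
      exact absurd (Nat.dvd_one.mp h8) hr.one_lt.ne'
    · simpa using h6
    · exact absurd (hc ▸ ((h6 ▸ ⟨r ^ k, by ring⟩ : r * r ∣ H.index).mul_left _).mul_left _) h7
  rcases (normalCore_normal H).eq_bot_or_eq_top with h10 | h10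
  · have h11 : Function.Injective (MulAction.toPermHom (alternatingGroup (Fin (r + 1))) (_ ⧸ H)) := by
      rw [← MonoidHom.ker_eq_bot_iff, ← normalCore_eq_ker, h10]
    have h12 := Nat.card_le_card_of_injective _ h11
    rw [Nat.card_perm, ← index_eq_card, h9, ← card_mul_index H] at h12
    rw [Nat.factorial_succ] at hc
    have := Nat.factorial_pos r
    nlinarith
  · have : H = ⊤ := top_le_iff.mp (h10 ▸ normalCore_le H)
    rw [this, index_top] at h9
    omega

theorem case_odd {π : Set ℕ} {p q : ℕ} (hp : p.Prime) (hq : q.Prime) (hpq : p + 2 ≤ q)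
    (hpπ : p ∈ π) (hqπ : q ∈ π) (h : ∀ s : ℕ, s.Prime → s ∈ π → s ≤ q → s = p ∨ s = q) :
    ¬ IsEPiGroup π (Perm (Fin q)) := by
  classical
  rintro ⟨H, h1, h3⟩
  haveI := Fact.mk hp
  haveI := Fact.mk hq
  have hc : Nat.card H * H.index = q.factorial := by
    rw [card_mul_index, Nat.card_perm, Nat.card_fin]
  have h2 : ∀ s : ℕ, s.Prime → s ∣ Nat.card H → s = p ∨ s = q := fun s hs hd =>
    h s hs (h1 s hs hd) (hs.dvd_factorial.mp (hc ▸ hd.mul_right _))
  have h4 : q ∣ Nat.card H :=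
    (hq.dvd_mul.mp (hc ▸ hq.dvd_factorial.mpr le_rfl)).resolve_right (h3 q hq hqπ)
  haveI := isSolvable_of_two_primes hp hq h2
  obtain ⟨c, hc0⟩ := exists_prime_orderOf_dvd_card' q h4
  have hc1 : (c : Perm (Fin q)) ≠ 1 := fun h' => by
    rw [OneMemClass.coe_eq_one] at h'
    rw [h', orderOf_one] at hc0
    exact hq.one_lt.ne hc0
  haveI : Nontrivial H := ⟨c, 1, fun h' => hc1 (by simp [h'])⟩
  obtain ⟨s, hs, hs0⟩ := exists_pCore_ne_bot (G := H)
  haveI := Fact.mk hs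
  have hN : IsPGroup s (pCore s H) := pCore_isPGroup s
  obtain ⟨⟨d, hd⟩, hd1⟩ := ne_bot_iff_exists_ne_one.mp hs0
  have hd2 : d ≠ 1 := fun h' => hd1 (Subtype.ext h')
  have hs1 : s ∣ Nat.card H := by
    obtain ⟨k, hk⟩ := hN.exists_card_eq
    rcases k with _ | k
    · exact absurd (card_eq_one.mp hk) hs0
    · exact Dvd.dvd.trans (hk ▸ ⟨s ^ k, by ring⟩) (card_subgroup_dvd_card (pCore s H))
  rcases h2 s hs hs1 with rfl | rfl
  · obtain ⟨a, ha⟩ := hN.nonempty_fixed_point_of_prime_not_dvd_card (Fin q) (by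
      rw [Nat.card_fin]
      intro h'
      have := (Nat.prime_dvd_prime_iff_eq hs hq).mp h'
      omega)
    refine hd2 (Subtype.ext (Equiv.ext fun b => ?_))
    obtain ⟨i, rfl⟩ := (trans_of_order hq hc1 ⟨1, by rw [orderOf_coe, hc0, pow_one]⟩).2 a b
    have h5 := ha ⟨_, (pCore_normal (p := s) (G := H)).conj_mem _ hd (c ^ i)⁻¹⟩
    have h6 : (((c ^ i)⁻¹ * d * (c ^ i)⁻¹⁻¹ : H) : Perm (Fin q)) a = a := h5
    simp only [inv_inv, coe_mul, InvMemClass.coe_inv, SubmonoidClass.coe_pow, Perm.coe_mul,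
      Function.comp_apply] at h6
    rw [Perm.inv_eq_iff_eq] at h6
    simpa using h6
  · have h5 : ∀ e ∈ pCore s H, e ≠ 1 → (∀ a, (e : Perm (Fin s)) a ≠ a) ∧
        ∀ a b, ∃ i : ℕ, ((e : Perm (Fin s)) ^ i) a = b := by
      intro e he he1
      refine trans_of_order hq (fun h' => he1 (Subtype.ext h')) ?_
      obtain ⟨k, hk⟩ := (IsPGroup.iff_orderOf.mp hN) ⟨e, he⟩
      exact ⟨k, by rw [orderOf_coe, ← hk, ← orderOf_coe (⟨e, he⟩ : pCore s H)]⟩
    obtain ⟨y, hy⟩ := (Perm.exists_with_cycleType_iff (α := Fin s) (m := {p})).mpr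
      ⟨by simp; omega, by simpa using hp.two_le⟩
    obtain ⟨g, hg⟩ := Chr.exists_conj_mem_of_not_dvd_index (h3 p hp hpπ) (x := y)
      ⟨1, by rw [← Perm.lcm_cycleType, hy]; simp⟩
    have hx : (g * y * g⁻¹).support.card = p := by
      rw [← Perm.sum_cycleType, Perm.cycleType_conj, hy, Multiset.sum_singleton]
    generalize g * y * g⁻¹ = x at hg hx
    obtain ⟨a, ha, b, hb, hab⟩ := Finset.one_lt_card.mp
      (show 1 < x.supportᶜ.card by rw [Finset.card_compl, hx, Fintype.card_fin]; omega)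
    rw [Finset.mem_compl, Perm.notMem_support] at ha hb
    obtain ⟨i, hi⟩ := (h5 d hd hd2).2 a b
    have he : d ^ i ∈ pCore s H := pow_mem hd i
    have hi' : ((d ^ i : H) : Perm (Fin s)) a = b := hi
    generalize d ^ i = e at he hi'
    have he1 : e ≠ 1 := by
      rintro rfl
      exact hab hi'
    have h6 : e⁻¹ * (⟨x, hg⟩ * e * ⟨x, hg⟩⁻¹) = 1 := by
      by_contra h'
      refine (h5 _ (mul_mem (inv_mem he)
        ((pCore_normal (p := s) (G := H)).conj_mem _ he _)) h').1 a ?_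
      have ha' : x⁻¹ a = a := Perm.inv_eq_iff_eq.mpr ha.symm
      simp only [coe_mul, InvMemClass.coe_inv, Perm.coe_mul, Function.comp_apply]
      rw [ha', hi', hb, Perm.inv_eq_iff_eq, hi']
    have h7 : Commute x (e : Perm (Fin s)) := by
      rw [inv_mul_eq_one, eq_mul_inv_iff_mul_eq] at h6
      exact (congrArg Subtype.val h6).symm
    have h8 : x = 1 := by
      refine Equiv.ext fun z => ?_
      obtain ⟨j, rfl⟩ := (h5 e he he1).2 a z
      rw [← Perm.mul_apply, (h7.pow_right j).eq, Perm.mul_apply, ha, Perm.one_apply]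
    rw [h8, Perm.support_one, Finset.card_empty] at hx
    exact hp.ne_zero hx.symm

theorem of_E {π : Set ℕ} (hE : ∀ (G : Type) [Group G] [Finite G], Cfsg.IsEPiGroup π G) :
    (∀ p q : ℕ, p.Prime → q.Prime → p ∈ π → q ∈ π → p = q) ∨ ∀ p : ℕ, p.Prime → p ∈ π := by
  classical
  by_contra h
  rw [not_or] at h
  obtain ⟨h1, h2⟩ := h
  push Not at h1 h2
  have h3 : ∃ p, p.Prime ∧ p ∈ π := let ⟨p, _, hp, _, hπ, _⟩ := h1; ⟨p, hp, hπ⟩
  obtain ⟨hp, hpπ⟩ := Nat.find_spec h3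
  have hpm := fun m => Nat.find_min' h3 (m := m)
  generalize Nat.find h3 = p at hp hpπ hpm
  have h4 : ∃ q, q.Prime ∧ q ∈ π ∧ q ≠ p := by
    obtain ⟨a, b, ha, hb, haπ, hbπ, hab⟩ := h1
    by_cases h : a = p
    · exact ⟨b, hb, hbπ, fun h' => hab (h.trans h'.symm)⟩
    · exact ⟨a, ha, haπ, h⟩
  obtain ⟨hq, hqπ, hqp⟩ := Nat.find_spec h4
  have hqm := fun m => Nat.find_min' h4 (m := m)
  generalize Nat.find h4 = q at hq hqπ hqp hqm
  obtain ⟨hr, hrπ⟩ := Nat.find_spec h2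
  have hrm := fun m => Nat.find_min' h2 (m := m)
  generalize Nat.find h2 = r at hr hrπ hrm
  have hpq := hpm q ⟨hq, hqπ⟩
  by_cases h2π : 2 ∈ π
  · by_cases h5 : ∃ s, s.Prime ∧ s ∈ π ∧ r ≤ s
    · obtain ⟨s, hs, hsπ, hrs⟩ := h5
      exact case_swap hs hr h2π hsπ hrπ hrs (hE _)
    · push Not at h5
      have h6 := h5 q hq hqπ
      have h7 := hp.two_le
      have h8 : r ≠ 4 := by rintro rfl; exact absurd hr (by decide)
      refine case_alt hr (by omega) hrπ (fun s hs hlt => ?_) (hE _)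
      by_contra h9
      have := hrm s ⟨hs, h9⟩
      omega
  · have h5 : p ≠ 2 := fun h => h2π (h ▸ hpπ)
    have h6 : q ≠ 2 := fun h => h2π (h ▸ hqπ)
    have h7 := hp.eq_two_or_odd
    have h8 := hq.eq_two_or_odd
    refine case_odd hp hq (by omega) hpπ hqπ (fun s hs hsπ hle => ?_) (hE _)
    by_cases h : s = p
    · exact Or.inl h
    · exact Or.inr (le_antisymm hle (hqm s ⟨hs, hsπ, h⟩))

theorem E_of_D {π : Set ℕ} {G : Type} [Group G] [Finite G] (h : IsDPiGroup π G) :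
    IsEPiGroup π G := by
  haveI : Finite (Subgroup G) := inferInstance
  have h0 : IsPiSubgroup π (⊥ : Subgroup G) := fun p hp hd => by
    rw [card_bot] at hd
    exact absurd (Nat.dvd_one.mp hd) hp.one_lt.ne'
  obtain ⟨H, -, hH⟩ := Finite.exists_le_maximal h0
  refine ⟨H, hH.1, fun p hp hπ hd => ?_⟩
  haveI := Fact.mk hp
  obtain ⟨P⟩ : Nonempty (Sylow p G) := inferInstance
  have h1 : IsPiSubgroup π (P : Subgroup G) := fun r hr hd => by
    obtain ⟨k, hk⟩ := P.2.exists_card_eq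
    rw [hk] at hd
    rwa [(Nat.prime_dvd_prime_iff_eq hr hp).mp (hr.dvd_of_dvd_pow hd)]
  obtain ⟨K, hPK, hK⟩ := Finite.exists_le_maximal h1
  obtain ⟨g, rfl⟩ := h H K hH hK
  refine P.not_dvd_index (Dvd.dvd.trans ?_ (index_dvd_of_le hPK))
  rwa [index_map_of_bijective (MulAut.conj g).bijective]


theorem result (π : Set ℕ) :
    ((∀ (G : Type) [Group G] [Finite G], Cfsg.IsEPiGroup π G) ↔
      ((∀ p q : ℕ, p.Prime → q.Prime → p ∈ π → q ∈ π → p = q) ∨ ∀ p : ℕ, p.Prime → p ∈ π)) ∧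
    ((∀ (G : Type) [Group G] [Finite G], Cfsg.IsDPiGroup π G) ↔
      ((∀ p q : ℕ, p.Prime → q.Prime → p ∈ π → q ∈ π → p = q) ∨ ∀ p : ℕ, p.Prime → p ∈ π)) := by
  have key : ((∀ p q : ℕ, p.Prime → q.Prime → p ∈ π → q ∈ π → p = q) ∨ ∀ p : ℕ, p.Prime → p ∈ π) →
      ∀ (G : Type) [Group G] [Finite G], Cfsg.IsDPiGroup π G := by
    intro h G _ _ H K hH hK
    rcases h with h | h
    · by_cases h1 : ∃ p, p.Prime ∧ p ∈ π
      · obtain ⟨p, hp, hπ⟩ := h1
        haveI := Fact.mk hp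
        have h2 : ∀ L : Subgroup G, Maximal (IsPiSubgroup π) L → ∃ P : Sylow p G, L = P := by
          intro L hL
          have h3 : IsPGroup p L := IsPGroup.of_card (Nat.eq_prime_pow_of_unique_prime_dvd
            Nat.card_pos.ne' fun hr hd => h _ _ hr hp (hL.1 _ hr hd) hπ)
          obtain ⟨P, hP⟩ := h3.exists_le_sylow
          refine ⟨P, hL.eq_of_le (fun r hr hd => ?_) hP⟩
          obtain ⟨k, hk⟩ := P.2.exists_card_eq
          rw [hk] at hd
          rwa [(Nat.prime_dvd_prime_iff_eq hr hp).mp (hr.dvd_of_dvd_pow hd)]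
        obtain ⟨P, rfl⟩ := h2 H hH
        obtain ⟨Q, rfl⟩ := h2 K hK
        obtain ⟨g, rfl⟩ := MulAction.exists_smul_eq G P Q
        exact ⟨g, rfl⟩
      · have h2 : ∀ L : Subgroup G, IsPiSubgroup π L → L = ⊥ := by
          intro L hL
          by_contra h3
          obtain ⟨p, hp, hd⟩ := Nat.exists_prime_and_dvd (mt card_eq_one.mp h3)
          exact h1 ⟨p, hp, hL p hp hd⟩
        exact ⟨1, by rw [h2 H hH.1, h2 K hK.1, Subgroup.map_bot]⟩
    · have h2 : ∀ L : Subgroup G, Maximal (IsPiSubgroup π) L → L = ⊤ := fun L hL =>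
        hL.eq_of_le (fun r hr _ => h r hr) le_top
      exact ⟨1, by
        rw [h2 H hH, h2 K hK, map_top_of_surjective _ (MulAut.conj (1 : G)).surjective]⟩
  exact ⟨⟨of_E, fun h G _ _ => E_of_D (key h G)⟩,
    ⟨fun h => of_E fun G _ _ => E_of_D (h G), key⟩⟩

end Cfsg.Agent.S3878
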