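import Cfsg.Statements.S3881
import Mathlib
import Cfsg.Agent.Lib.MetacyclicMain

set_option autoImplicit false
open Cfsg

namespace Cfsg.Agent.S3881

open CfsgLib.PGrp
open scoped commutatorElement

/-- Let p be an odd prime and G a finite metacyclic p-group (G has a cyclic normal subgroup with cyclic quotient). Suppose G is non-abelian with |G'| = p^n. Then for 1 ≤ i ≤ n the number of elements of G whose conjugacy class has exactly p^i elements is |Z(G)| · (p^(2i) − p^(2i−2)). -/
theorem result {G : Type*} [Group G] [Finite G] {p : ℕ} [Fact p.Prime] (hp : p ≠ 2) (hG : IsPGroup p G) (hmc : Cfsg.IsMetacyclic G) (n : ℕ) (hn : n ≠ 0) (hGn : Nat.card ↥(commutator G) = p ^ n) (i : ℕ) (hi : 1 ≤ i) (hin : i ≤ n) :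
    Nat.card {g : G // (Subgroup.centralizer ({g} : Set G)).index = p ^ i} =
      Nat.card ↥(Subgroup.center G) * (p ^ (2 * i) - p ^ (2 * i - 2)) := by
  have hpp : p.Prime := Fact.out
  obtain ⟨c⟩ := nonempty_metaCoord hp hG hmc hGn
  obtain ⟨j, rfl⟩ : ∃ j, i = j + 1 := ⟨i - 1, by omega⟩
  have h1 := c.card_index_centralizer_dvd hin
  have h2 := c.card_index_centralizer_dvd (i := j) (by omega)
  have h3 : {g : G | (Subgroup.centralizer ({g} : Set G)).index = p ^ (j + 1)} =
      {g : G | (Subgroup.centralizer {g}).index ∣ p ^ (j + 1)} \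
        {g : G | (Subgroup.centralizer {g}).index ∣ p ^ j} := by
    ext g
    obtain ⟨k, hk⟩ := hG.index (Subgroup.centralizer ({g} : Set G))
    simp only [Set.mem_ofPred_eq, Set.mem_diff, hk, Nat.pow_dvd_pow_iff_le_right hpp.one_lt,
      Nat.pow_right_inj hpp.one_lt]
    omega
  have h4 : {g : G | (Subgroup.centralizer {g}).index ∣ p ^ j} ⊆
      {g : G | (Subgroup.centralizer {g}).index ∣ p ^ (j + 1)} :=
    fun g hg => dvd_trans hg (pow_dvd_pow _ (Nat.le_succ j))
  change Nat.card {g : G | (Subgroup.centralizer ({g} : Set G)).index = p ^ (j + 1)} = _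
  rw [Nat.card_coe_set_eq] at h1 h2 ⊢
  rw [h3, Set.ncard_diff h4, h1, h2, Nat.mul_sub, show 2 * (j + 1) - 2 = 2 * j by omega]

end Cfsg.Agent.S3881
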