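import Cfsg.Statements.S3883
import Mathlib
import Cfsg.Agent.Lib.MetacyclicMain

set_option autoImplicit false
open Cfsg

namespace Cfsg.Agent.S3883

open CfsgLib.PGrp
open scoped commutatorElement

/-- Let p be an odd prime and G a finite metacyclic p-group (G has a cyclic normal subgroup with cyclic quotient). Suppose G is non-abelian. Then an element g of G lies outside the Frattini subgroup if and only if its centralizer C_G(g) is abelian. -/
theorem result {G : Type*} [Group G] [Finite G] {p : ℕ} [Fact p.Prime] (hp : p ≠ 2) (hG : IsPGroup p G) (hmc : Cfsg.IsMetacyclic G) (hna : ¬ IsMulCommutative G) (g : G) :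
    g ∉ frattini G ↔ IsMulCommutative ↥(Subgroup.centralizer ({g} : Set G)) := by
  have hpp : p.Prime := Fact.out
  obtain ⟨n, hn⟩ := IsPGroup.iff_card.1 (hG.to_subgroup (commutator G))
  obtain _ | n := n
  · rw [pow_zero, ← Subgroup.eq_bot_iff_card, commutator_eq_bot_iff] at hn
    exact absurd hn hna
  rw [metacyclic_frattini_eq hG hmc, metacyclic_mem_agemo_iff hp hG hmc hn (by omega),
    metacyclic_isMulCommutative_iff hp hG hmc]
  obtain ⟨k, hk⟩ := hG.index (Subgroup.centralizer ({g} : Set G))
  have h1 := (Subgroup.centralizer ({g} : Set G)).card_mul_index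
  have h2 := (commutator G).card_mul_index
  rw [hk] at h1
  rw [hn, ← h1] at h2
  have h3 : 0 < Nat.card (Subgroup.centralizer ({g} : Set G)) := Nat.card_pos
  rw [hk, Nat.add_sub_cancel, Nat.pow_le_pow_iff_right hpp.one_lt, not_le,
    ← Nat.mul_le_mul_left_iff (pow_pos hpp.pos (n + 1)), h2, mul_comm,
    Nat.mul_le_mul_left_iff h3, Nat.pow_le_pow_iff_right hpp.one_lt]
  omega

end Cfsg.Agent.S3883
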