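import Cfsg.Statements.S3884
import Mathlib
import Cfsg.Agent.Lib.MetacyclicMain

set_option autoImplicit false
open Cfsg

namespace Cfsg.Agent.S3884

open CfsgLib.PGrp
open scoped commutatorElement

theorem of_cover {G : Type*} [Group G] [Finite G] {x y : G}
    (h : ∀ g, ∃ u w : ℤ, g = x ^ u * y ^ w) (hle : orderOf x * orderOf y ≤ Nat.card G) :
    ∃ A B : Subgroup G, IsCyclic ↥A ∧ IsCyclic ↥B ∧ A ⊓ B = ⊥ ∧
      Nat.card ↥A * Nat.card ↥B = Nat.card G := by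
  let f : Subgroup.zpowers x × Subgroup.zpowers y → G := fun z => z.1 * z.2
  have hf : Function.Surjective f := by
    intro g
    obtain ⟨u, w, rfl⟩ := h g
    exact ⟨(⟨_, Subgroup.zpow_mem_zpowers x u⟩, ⟨_, Subgroup.zpow_mem_zpowers y w⟩), rfl⟩
  have h1 := Nat.card_le_card_of_surjective f hf
  rw [← Nat.card_zpowers, ← Nat.card_zpowers, ← Nat.card_prod] at hle
  have h2 := (hf.bijective_of_nat_card_le hle).1
  refine ⟨Subgroup.zpowers x, Subgroup.zpowers y, inferInstance, inferInstance, ?_, ?_⟩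
  · rw [eq_bot_iff]
    intro z hz
    have := @h2 (⟨z, (Subgroup.mem_inf.1 hz).1⟩, 1) (1, ⟨z, (Subgroup.mem_inf.1 hz).2⟩)
      (by simp [f])
    exact congrArg (fun w => (w.1 : G)) this
  · rw [← Nat.card_prod]
    exact le_antisymm hle h1

theorem exists_inv {p : ℕ} [hp : Fact p.Prime] {u : ℤ} (hu : ¬ (p : ℤ) ∣ u) (m : ℕ) :
    ∃ i : ℤ, (p : ℤ) ^ m ∣ i * u - 1 := by
  obtain ⟨c, d, h⟩ := (((Nat.prime_iff_prime_int.1 hp.out).coprime_iff_not_dvd.2 hu).pow_left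
    (m := m))
  exact ⟨d, -c, by linear_combination h⟩

theorem geom_unit {p : ℕ} [hp : Fact p.Prime] (hp2 : p ≠ 2) {r : ℤ} (hr : (p : ℤ) ∣ r - 1)
    (k : ℕ) : ∃ u : ℤ, ¬ (p : ℤ) ∣ u ∧ ∑ t ∈ Finset.range (p ^ k), r ^ t = p ^ k * u := by
  obtain ⟨u, hu⟩ := (pow_dvd_geom_sum_iff hp2 hr k (p ^ k)).2 dvd_rfl
  refine ⟨u, fun h => ?_, hu⟩
  have := (pow_dvd_geom_sum_iff hp2 hr (k + 1) (p ^ k)).1
    (by rw [hu, pow_succ]; exact mul_dvd_mul_left _ h)
  rw [Nat.pow_dvd_pow_iff_le_right hp.out.one_lt] at this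
  omega

/-- Let p be an odd prime and G a finite metacyclic p-group (G has a cyclic normal subgroup with cyclic quotient). Then G is the product of two cyclic subgroups with trivial intersection: there are cyclic subgroups A and B with A ∩ B = 1 and |A| · |B| = |G|. -/
theorem result {G : Type*} [Group G] [Finite G] {p : ℕ} [Fact p.Prime] (hp : p ≠ 2) (hG : IsPGroup p G) (hmc : Cfsg.IsMetacyclic G) : ∃ A B : Subgroup G, IsCyclic ↥A ∧ IsCyclic ↥B ∧ A ⊓ B = ⊥ ∧ Nat.card ↥A * Nat.card ↥B = Nat.card G := by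
  have hpp : p.Prime := Fact.out
  obtain ⟨a, b, r, hr1, hr, hg⟩ := exists_metacyclic_gens hG hmc
  have hN : (Subgroup.zpowers a).Normal := by
    refine ⟨fun x hx g => ?_⟩
    obtain ⟨i, j, rfl⟩ := hg g
    obtain ⟨k, rfl⟩ := Subgroup.mem_zpowers_iff.1 hx
    have : a ^ i * b ^ j * a ^ k * (a ^ i * b ^ j)⁻¹ = a ^ i * (b ^ j * a ^ k * (b ^ j)⁻¹) * a ^ (-i) := by
      group
    rw [this, conj_zpow_of_conj (pow_conj_of_conj hr j) k, ← zpow_add, ← zpow_add]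
    exact Subgroup.zpow_mem_zpowers _ _
  obtain ⟨m, hm⟩ := (IsPGroup.iff_orderOf.1 hG) a
  obtain ⟨k, hk⟩ := hG.index (Subgroup.zpowers a)
  have hc : Nat.card G = p ^ m * p ^ k := by
    rw [← (Subgroup.zpowers a).card_mul_index, Nat.card_zpowers, hm, hk]
  have ha : ∀ z : ℤ, a ^ z = 1 ↔ (p : ℤ) ^ m ∣ z := by
    intro z
    rw [← orderOf_dvd_iff_zpow_eq_one, hm, Nat.cast_pow]
  obtain ⟨t, ht⟩ := Subgroup.mem_zpowers_iff.1 ((Subgroup.zpowers a).pow_index_mem b)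
  rw [hk] at ht
  by_cases hA : ∃ t : ℤ, b ^ p ^ k = a ^ (p ^ k * t : ℤ)
  · obtain ⟨t, ht⟩ := hA
    obtain ⟨u, hu, hu'⟩ := geom_unit hp hr1 k
    obtain ⟨i, hi⟩ := exists_inv hu m
    refine of_cover (x := a) (y := a ^ (-(i * t)) * b ^ 1) (fun g => ?_) ?_
    · obtain ⟨i', j, rfl⟩ := hg g
      refine ⟨i' + i * t * ∑ s ∈ Finset.range j, (r ^ 1) ^ s, j, ?_⟩
      rw [zpow_natCast, pow_metacyclic hr, ← mul_assoc, ← zpow_add, one_mul]
      congr 2
      ring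
    · rw [hc, hm]
      refine Nat.mul_le_mul_left _ (Nat.le_of_dvd (pow_pos hpp.pos _)
        (orderOf_dvd_of_pow_eq_one ?_))
      rw [pow_metacyclic hr, one_mul, ht, ← zpow_add, pow_one, hu', ha]
      obtain ⟨c, hc⟩ := hi
      exact ⟨-(c * t * p ^ k), by linear_combination (-t * p ^ k) * hc⟩
  have ht0 : t ≠ 0 := by
    rintro rfl
    exact hA ⟨0, by rw [← ht]; simp⟩
  obtain ⟨v, t', ht', rfl⟩ := WfDvdMonoid.max_power_factor ht0
    (Nat.prime_iff_prime_int.1 hpp).irreducible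
  have hvk : v < k := by
    by_contra h
    obtain ⟨d, rfl⟩ := Nat.exists_eq_add_of_le (not_lt.1 h)
    exact hA ⟨p ^ d * t', by rw [← ht, pow_add, mul_assoc]⟩
  have hvm : v < m := by
    by_contra h
    refine hA ⟨0, ?_⟩
    rw [← ht, mul_zero, zpow_zero, ha]
    exact (pow_dvd_pow _ (not_lt.1 h)).mul_right _
  obtain ⟨d, rfl⟩ := Nat.exists_eq_add_of_le hvk.le
  obtain ⟨e, rfl⟩ := Nat.exists_eq_add_of_le hvm.le
  have hρ : (p : ℤ) ∣ r ^ p ^ d - 1 := hr1.trans (by simpa using sub_dvd_pow_sub_pow r 1 (p ^ d))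
  obtain ⟨u, hu, hu'⟩ := geom_unit hp hρ v
  obtain ⟨i, hi⟩ := exists_inv hu (v + e)
  obtain ⟨i₂, hi₂⟩ := exists_inv ht' (v + e)
  refine of_cover (x := a ^ (-(i * t')) * b ^ p ^ d) (y := b) (fun g => ?_) ?_
  · obtain ⟨i', j, rfl⟩ := hg g
    obtain ⟨w, hw⟩ := geom_sum_zmod_surjective hp hρ (v + e) ((-(u * i₂ * i') : ℤ))
    rw [ZMod.intCast_eq_intCast_iff_dvd_sub, Nat.cast_pow] at hw
    refine ⟨w, j - (p ^ d * w : ℕ), ?_⟩
    rw [zpow_natCast, pow_metacyclic hr, mul_assoc, ← zpow_natCast b (p ^ d * w), ← zpow_add,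
      add_sub_cancel, zpow_natCast]
    congr 1
    rw [← mul_inv_eq_one, ← zpow_sub, ha]
    obtain ⟨c1, hc1⟩ := hi
    obtain ⟨c2, hc2⟩ := hi₂
    obtain ⟨c3, hc3⟩ := hw
    exact ⟨-(i * t' * c3) - i' * c1 - i' * i * u * c2, by
      linear_combination (-(i * t')) * hc3 - i' * hc1 - i' * i * u * hc2⟩
  · have h1 : orderOf (a ^ (-(i * t')) * b ^ p ^ d) ∣ p ^ v := by
      refine orderOf_dvd_of_pow_eq_one ?_
      rw [pow_metacyclic hr, ← pow_add, add_comm d, ← ht, ← zpow_add, hu', ha]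
      obtain ⟨c, hc⟩ := hi
      exact ⟨-(c * t' * p ^ v), by linear_combination (-t' * p ^ v) * hc⟩
    have h2 : orderOf b ∣ p ^ (v + d) * p ^ e := by
      refine orderOf_dvd_of_pow_eq_one ?_
      rw [pow_mul, ← ht, ← zpow_natCast, ← zpow_mul, ha]
      exact ⟨t', by push_cast; ring⟩
    refine Nat.le_of_dvd Nat.card_pos ((mul_dvd_mul h1 h2).trans (dvd_of_eq ?_))
    rw [hc]
    ring

end Cfsg.Agent.S3884
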