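import Cfsg.Statements.S3886
import Mathlib
import Cfsg.Agent.Lib.MetacyclicMain

set_option autoImplicit false
open Cfsg

namespace Cfsg.Agent.S3886

open CfsgLib.PGrp
open scoped commutatorElement

/-- Let p be an odd prime and G a finite metacyclic p-group (G has a cyclic normal subgroup with cyclic quotient). Then the largest value of |R| · |Z(R)| over subgroups R of G is |G : G'|², and the subgroups attaining it (the centrally large subgroups) are exactly the non-abelian subgroups together with the maximal abelian subgroups of G. -/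
theorem result {G : Type*} [Group G] [Finite G] {p : ℕ} [Fact p.Prime] (hp : p ≠ 2) (hG : IsPGroup p G) (hmc : Cfsg.IsMetacyclic G) : Cfsg.maxCentralProduct G = (commutator G).index ^ 2 ∧
    ∀ R : Subgroup G, Cfsg.IsCentrallyLarge R ↔ (¬ IsMulCommutative ↥R ∨ Maximal (fun K : Subgroup G => IsMulCommutative ↥K) R) := by
  have hcomm : ∀ R : Subgroup G, IsMulCommutative R →
      Nat.card R * Nat.card (Subgroup.center R) = Nat.card R ^ 2 := by
    intro R hR
    rw [card_center_eq_card_inf, inf_eq_left.2 R.le_centralizer, sq]
  have hle : ∀ R : Subgroup G,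
      Nat.card R * Nat.card (Subgroup.center R) ≤ (commutator G).index ^ 2 := by
    intro R
    by_cases hR : IsMulCommutative R
    · rw [hcomm R hR]
      exact Nat.pow_le_pow_left ((metacyclic_isMulCommutative_iff hp hG hmc R).1 hR) 2
    · exact (metacyclic_card_mul_card_center_of_not_comm hp hG hmc hR).le
  have h1 : Cfsg.maxCentralProduct G = (commutator G).index ^ 2 := by
    refine IsGreatest.csSup_eq ⟨⟨⊤, ?_⟩, ?_⟩
    · rw [Subgroup.card_top, card_center_eq_card_inf, Subgroup.coe_top, Subgroup.centralizer_univ,
        top_inf_eq, metacyclic_card_mul_card_center hp hG hmc]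
    · rintro _ ⟨R, rfl⟩
      exact hle R
  refine ⟨h1, fun R => ?_⟩
  rw [Cfsg.IsCentrallyLarge, h1]
  by_cases hR : IsMulCommutative R
  · rw [hcomm R hR, metacyclic_maximal_comm_iff hp hG hmc, Nat.pow_left_inj two_ne_zero]
    simp [hR]
  · simp [hR, metacyclic_card_mul_card_center_of_not_comm hp hG hmc hR]

end Cfsg.Agent.S3886
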