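import Cfsg.Statements.S3888
import Mathlib
import Cfsg.Agent.Lib.H5Blackburn

set_option autoImplicit false
open Cfsg

namespace Cfsg.Agent.S3888
open Subgroup Cfsg CfsgLib CfsgLib.FT CfsgLib.H5
open scoped commutatorElement

section
variable {G : Type*} [Group G] [Finite G] {p : ℕ} [hp : Fact p.Prime]

theorem closure_eq_top_aux (hG : IsPGroup p G) {M D : Subgroup G} (hM : M.index ≤ p) (hDM : D ≤ M)
    (hD : Nat.card M ≤ p * Nat.card D) {x y z : G} (hx : x ∉ M) (hyM : y ∈ M) (hy : y ∉ D)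
    (hz : zpowers z = D) : closure ({x, y, z} : Set G) = ⊤ := by
  have h1 : D < closure ({x, y, z} : Set G) ⊓ M := lt_of_le_not_ge
    (le_inf (hz ▸ zpowers_le.2 (subset_closure (by simp))) hDM)
    fun h => hy (h (mem_inf.2 ⟨subset_closure (by simp), hyM⟩))
  have h2 := eq_of_le_of_card_le (inf_le_right : closure ({x, y, z} : Set G) ⊓ M ≤ M)
    (hD.trans (PGrp.mul_card_le_card_of_lt (hG.to_subgroup _) h1))
  have h3 : M < closure ({x, y, z} : Set G) := lt_of_le_not_ge (h2.ge.trans inf_le_left)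
    fun h => hx (h (subset_closure (by simp)))
  refine eq_of_le_of_card_le le_top ?_
  refine le_trans ?_ (PGrp.mul_card_le_card_of_lt (hG.to_subgroup _) h3)
  rw [card_top, ← M.card_mul_index, mul_comm]
  exact Nat.mul_le_mul_right _ hM

theorem card_aux {n : ℕ} (hG : Nat.card G = p ^ n) {M D : Subgroup G} (hM : M.index ≤ p)
    (hMt : M ≠ ⊤) (hDM : D < M) (hD : Nat.card M ≤ p * Nat.card D) :
    2 ≤ n ∧ Nat.card D = p ^ (n - 2) := by
  have hP : IsPGroup p G := IsPGroup.of_card hG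
  have h1 := PGrp.mul_card_le_card_of_lt (hP.to_subgroup _) hDM
  have h2 := PGrp.mul_card_le_card_of_lt (hP.to_subgroup _) (lt_top_iff_ne_top.2 hMt)
  have h3 : Nat.card G ≤ p * Nat.card M := by
    rw [← M.card_mul_index, mul_comm]; exact Nat.mul_le_mul_right _ hM
  rw [card_top] at h2
  have h4 : p ^ n = p ^ 2 * Nat.card D := by
    rw [← hG, le_antisymm h3 h2, le_antisymm hD h1]; ring
  obtain ⟨k, hk⟩ := IsPGroup.iff_card.1 (hP.to_subgroup D)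
  rw [hk, ← pow_add] at h4
  have := Nat.pow_right_injective hp.out.two_le h4
  exact ⟨by omega, by rw [hk]; congr 1; omega⟩

theorem gen_aux {z : G} {k : ℕ} (hz : orderOf z = p ^ (k + 1)) :
    z ^ p ^ k ≠ 1 ∧ (z ^ p ^ k) ^ p = 1 := by
  refine ⟨fun h => ?_, by rw [← pow_mul, ← pow_succ, ← hz, pow_orderOf_eq_one]⟩
  have := orderOf_dvd_of_pow_eq_one h
  rw [hz, Nat.pow_dvd_pow_iff_le_right hp.out.one_lt] at this
  omega

theorem caseA (hp2 : p ≠ 2) (n : ℕ) (hG : Nat.card G = p ^ n) (hr : PRankLE p 2 G)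
    (E : Subgroup G) [hEn : E.Normal] (hE : ∀ x ∈ E, x ^ p = 1) (hEc : p ^ 2 < Nat.card E) :
    (3 ≤ n ∧ ∃ x y z : G, Subgroup.closure ({x, y, z} : Set G) = ⊤ ∧ x ^ p = 1 ∧ y ^ p = 1 ∧ z ^ p ^ (n - 2) = 1 ∧
        x * z = z * x ∧ y * z = z * y ∧ x⁻¹ * y * x = y * z ^ p ^ (n - 3)) ∨
    (4 ≤ n ∧ ∃ (s : ℕ) (x y z : G), (s = 1 ∨ ¬ IsSquare (s : ZMod p)) ∧ Subgroup.closure ({x, y, z} : Set G) = ⊤ ∧
        x ^ p = 1 ∧ y ^ p = 1 ∧ z ^ p ^ (n - 2) = 1 ∧ y * z = z * y ∧ x⁻¹ * y * x = y * z ^ (s * p ^ (n - 3)) ∧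
        x⁻¹ * z * x = y * z) := by
  have hP : IsPGroup p G := IsPGroup.of_card hG
  have hp1 := hp.out.one_lt
  obtain ⟨Y, hYn, hYE, hYc⟩ := PGrp.exists_normal_le_card_eq_pow hP E 2 hEc.le
  have hY := elemAb_of_card_eq_sq hYc fun x hx => hE x (hYE hx)
  obtain ⟨Z, hZn, hZY, hZ⟩ := PGrp.exists_normal_le_card_eq_pow hP Y 1
    (hYc ▸ Nat.pow_le_pow_right hp.out.pos (by omega))
  rw [pow_one] at hZ
  have hZc := PGrp.le_center_of_card_eq_prime hP Z hZ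
  set M := centralizer (Y : Set G) with hM
  have hMi : M.index ≤ p := PGrp.index_centralizer_le_of_card_sq hP Y hYc
  have hYM : Y ≤ M := elemAb_le_centralizer hY
  have hEM : ∀ x ∈ E, x ∈ M → x ∈ Y := fun x hx hxM => mem_of_rank_two hr hY hYc hxM (hE x hx)
  obtain ⟨ξ, hξE, hξM⟩ : ∃ s ∈ E, s ∉ M := by
    by_contra hcon
    push Not at hcon
    exact absurd (card_le_of_le (show E ≤ Y from fun x hx => hEM x hx (hcon x hx)))
      (not_le.2 (hYc ▸ hEc))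
  have hMt : M ≠ ⊤ := fun h => hξM (h ▸ mem_top ξ)
  have hn3 : 3 ≤ n := by
    have := (pow_succ_le_card_of_lt (hP.to_subgroup E) hEc).trans (card_le_card_group E)
    rw [hG] at this
    exact (Nat.pow_le_pow_iff_right hp1).1 this
  have hφY : ∀ m ∈ M, ⁅ξ, m⁆ ∈ Y := fun m hm => hEM _
    (by rw [commutatorElement_def, mul_assoc, mul_assoc]
        exact mul_mem hξE (by simpa [mul_assoc] using hEn.conj_mem _ (inv_mem hξE) m))
    (mul_mem (Normal.conj_mem inferInstance m hm ξ) (inv_mem hm))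
  have hmul : ∀ a ∈ M, ∀ b ∈ M, ⁅ξ, a * b⁆ = ⁅ξ, a⁆ * ⁅ξ, b⁆ := fun a ha b hb =>
    CommCalc.comm_mul_right_of_commute (mem_centralizer_iff.1 ha _ (hφY b hb)).symm
  let φ : M →* G := MonoidHom.mk' (fun m => ⁅ξ, (m : G)⁆) fun a b => hmul a a.2 b b.2
  have hφZ : ∀ y ∈ Y, ⁅ξ, y⁆ ∈ Z := fun y hy => by
    rw [← commutatorElement_inv]
    exact inv_mem (commutator_mem_of_card_le_prime hP Z Y hZY (by rw [hYc, hZ, sq]) hy ξ)
  have hker : ∀ y ∈ Y, ⁅ξ, y⁆ = 1 → y ∈ Z := by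
    intro y hy h
    by_contra hyZ
    have h1 := PGrp.mul_card_le_card_of_lt (hP.to_subgroup (Y ⊓ centralizer {ξ}))
      (lt_of_le_not_ge (le_inf hZY (hZc.trans (center_le_centralizer _)))
        fun h' => hyZ (h' (mem_inf.2 ⟨hy, mem_centralizer_singleton_iff.2
          (commutatorElement_eq_one_iff_mul_comm.1 h).symm⟩)))
    have h2 := eq_of_le_of_card_le (inf_le_left : Y ⊓ centralizer {ξ} ≤ Y)
      (by rw [hYc, sq]; rwa [hZ] at h1)
    refine hξM (mem_centralizer_iff.2 fun y hy => ?_)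
    rw [← h2] at hy
    exact mem_centralizer_singleton_iff.1 hy.2
  obtain ⟨y₀, hy₀, hy₀Z⟩ : ∃ y ∈ Y, y ∉ Z := by
    by_contra hcon
    push Not at hcon
    have := card_le_of_le (show Y ≤ Z from hcon)
    rw [hYc, hZ, sq] at this
    nlinarith
  -- the cyclic subgroup attached to a subgroup `U` of order at most `p` meeting `Z` trivially
  have main : ∀ U : Subgroup G, U ⊓ Z = ⊥ → ∀ V : Subgroup G, (∀ m ∈ M, ⁅ξ, m⁆ ∈ V) →
      U ≤ V → Nat.card V ≤ p * Nat.card U → V ≤ Y →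
      ∃ z : G, (∀ m, m ∈ zpowers z ↔ m ∈ M ∧ ⁅ξ, m⁆ ∈ U) ∧ orderOf z = p ^ (n - 2) ∧
        z ^ p ^ (n - 3) ∈ Z ∧ z ^ p ^ (n - 3) ≠ 1 ∧
        (∀ x ∉ M, ∀ y ∈ Y, y ∉ Z → closure ({x, y, z} : Set G) = ⊤) := by
    intro U hU V hV hUV hVc hVY
    let D : Subgroup G := (U.comap φ).map M.subtype
    have hD : ∀ m, m ∈ D ↔ m ∈ M ∧ ⁅ξ, m⁆ ∈ U := fun m =>
      ⟨by rintro ⟨m, hm, rfl⟩; exact ⟨m.2, hm⟩, fun h => ⟨⟨m, h.1⟩, h.2, rfl⟩⟩
    have hDM : D ≤ M := fun m hm => ((hD m).1 hm).1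
    have hDY : ∀ y ∈ Y, y ∈ D → y ∈ Z := fun y hy hyD =>
      hker y hy (mem_bot.1 (hU ▸ mem_inf.2 ⟨((hD y).1 hyD).2, hφZ y hy⟩))
    have hDZ : ∀ x ∈ D, x ^ p = 1 → x ∈ Z := fun x hx hxp =>
      hDY x (mem_of_rank_two hr hY hYc (hDM hx) hxp) hx
    have hDc := isCyclic_of_omegaOne_le hp2 (hP.to_subgroup D)
      (isCyclic_of_card_le_prime (hP.to_subgroup Z) hZ.le) hDZ
    obtain ⟨z, hz⟩ := (Subgroup.isCyclic_iff_exists_zpowers_eq_top _).1 hDc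
    have hlt : D < M := lt_of_le_not_ge hDM fun h => hy₀Z (hDY _ hy₀ (h (hYM hy₀)))
    have hcard : Nat.card M ≤ p * Nat.card D := by
      have h1 : (U.comap φ).index ≤ p := by
        rw [index_comap]
        have h2 : U.relIndex φ.range ≤ U.relIndex V := relIndex_le_of_le_right
          (by rintro _ ⟨m, rfl⟩; exact hV m m.2) index_ne_zero_of_finite
        refine h2.trans ?_
        have h3 := card_mul_relIndex hUV
        exact Nat.le_of_mul_le_mul_left (h3.le.trans (hVc.trans_eq (mul_comm _ _))) Nat.card_pos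
      rw [card_map_subtype, ← (U.comap φ).card_mul_index, mul_comm]
      exact Nat.mul_le_mul_right _ h1
    have h4 := (card_aux hG hMi hMt hlt hcard).2
    rw [← hz, Nat.card_zpowers] at h4
    have h5 := gen_aux (k := n - 3) (h4.trans (by congr 1; omega))
    refine ⟨z, hz ▸ hD, h4, hDZ _ (hz ▸ pow_mem (mem_zpowers z) _) h5.2, h5.1,
      fun x hx y hy hyZ => closure_eq_top_aux hP hMi hDM hcard hx (hYM hy)
        (fun h => hyZ (hDY y hy h)) hz⟩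
  by_cases hcase : ∀ m ∈ M, ⁅ξ, m⁆ ∈ Z
  · left
    obtain ⟨z, hz1, hz2, hz3, hz4, hz5⟩ := main ⊥ (bot_inf_eq _) Z hcase bot_le
      (by rw [hZ, card_bot, mul_one]) hZY
    obtain ⟨hzM, hzξ⟩ := (hz1 z).1 (mem_zpowers z)
    obtain ⟨j, hj⟩ := exists_pow_eq_of_card_prime hZ (hφZ _ hy₀) (fun h => hy₀Z (hker _ hy₀ h)) hz3
    have h1 : ⁅ξ, y₀ ^ j⁆ = z ^ p ^ (n - 3) := by
      rw [hj]; exact map_pow φ ⟨y₀, hYM hy₀⟩ j
    refine ⟨hn3, ξ⁻¹, y₀ ^ j, z, hz5 _ (fun h => hξM (inv_mem_iff.1 h)) _ (pow_mem hy₀ j)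
      fun h => hz4 ?_, by rw [inv_pow, hE ξ hξE, inv_one], hY.2 _ (pow_mem hy₀ j),
      by rw [← hz2, pow_orderOf_eq_one], ?_, mem_centralizer_iff.1 hzM _ (pow_mem hy₀ j), ?_⟩
    · rw [← h1, commutatorElement_eq_one_iff_mul_comm]
      exact mem_center_iff.1 (hZc h) ξ
    · exact (show Commute ξ z from commutatorElement_eq_one_iff_commute.1 (mem_bot.1 hzξ)).inv_left
    · rw [inv_inv, mem_center_iff.1 (hZc hz3), ← h1, commutatorElement_def]; group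
  · right
    push Not at hcase
    obtain ⟨m, hmM, hmZ⟩ := hcase
    have hm1 : Nat.card (zpowers ⁅ξ, m⁆) = p := by
      rw [Nat.card_zpowers]
      exact orderOf_eq_prime (hY.2 _ (hφY m hmM)) fun h => hmZ (h ▸ one_mem Z)
    have hU : zpowers ⁅ξ, m⁆ ⊓ Z = ⊥ := by
      rw [eq_bot_iff]
      intro a ha
      by_contra ha1
      obtain ⟨k, hk⟩ := exists_pow_eq_of_card_prime hm1 ha.1 ha1 (mem_zpowers _)
      exact hmZ (hk ▸ pow_mem ha.2 k)
    obtain ⟨z, hz1, hz2, hz3, hz4, hz5⟩ := main _ hU Y hφY (zpowers_le.2 (hφY m hmM))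
      (by rw [hm1, hYc, sq]) le_rfl
    obtain ⟨hzM, hzξ⟩ := (hz1 z).1 (mem_zpowers z)
    have hy₁ : ⁅ξ, z⁆ ∈ Y := hφY z hzM
    have hy₁Z : ⁅ξ, z⁆ ∉ Z := by
      intro h
      obtain ⟨k, hk⟩ := (hz1 m).2 ⟨hmM, mem_zpowers _⟩
      apply hmZ
      have : ⁅ξ, m⁆ = ⁅ξ, z⁆ ^ k := by
        rw [← hk]; exact map_zpow φ ⟨z, hzM⟩ k
      rw [this]; exact zpow_mem h k
    have hn4 : 4 ≤ n := by
      by_contra h
      have h3 : n = 3 := by omega
      rw [h3, show 3 - 3 = 0 from rfl, pow_zero, pow_one] at hz3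
      apply hy₁Z
      rw [commutatorElement_eq_one_iff_mul_comm.2 (mem_center_iff.1 (hZc hz3) ξ)]
      exact one_mem Z
    obtain ⟨s, hs⟩ := exists_pow_eq_of_card_prime hZ hz3 hz4 (hφZ _ hy₁)
    have hc1 : ⁅ξ, ⁅ξ, z⁆⁆ ≠ 1 := fun h => hy₁Z (hker _ hy₁ h)
    have hcZ := hZc (hφZ _ hy₁)
    have hzord : z ^ p ^ (n - 2) = 1 := by rw [← hz2, pow_orderOf_eq_one]
    have hcd : ∀ b : G, ξ * b * ξ⁻¹ = ⁅ξ, b⁆ * b := fun b => by
      simp [commutatorElement_def]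
    refine ⟨hn4, ?_⟩
    by_cases hsq : IsSquare (s : ZMod p)
    · obtain ⟨t, ht⟩ := hsq
      have hwp : (z ^ p ^ (n - 3)) ^ p = 1 := hY.2 _ (hZY hz3)
      have hwo : orderOf (z ^ p ^ (n - 3)) = p := orderOf_eq_prime hwp hz4
      have ht0 : t ≠ 0 := by
        rintro rfl
        rw [mul_zero, ZMod.natCast_eq_zero_iff] at ht
        exact hc1 (by rw [hs, ← orderOf_dvd_iff_pow_eq_one, hwo]; exact ht)
      set a := (t⁻¹).val with ha
      have ha1 : ((s * (a * a) : ℕ) : ZMod p) = (1 : ℕ) := by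
        push_cast
        rw [ht, ha, ZMod.natCast_zmod_val]
        field_simp
      have ha2 : ⁅ξ, ⁅ξ, z⁆⁆ ^ (a * a) = z ^ p ^ (n - 3) := by
        rw [hs, ← pow_mul]
        conv_rhs => rw [← pow_one (z ^ p ^ (n - 3))]
        rw [pow_eq_pow_iff_modEq, hwo]
        exact (ZMod.natCast_eq_natCast_iff _ _ _).1 ha1
      have hcx : Commute ξ ⁅ξ, ⁅ξ, z⁆⁆ := mem_center_iff.1 hcZ ξ
      have hcy : Commute ⁅ξ, ⁅ξ, z⁆⁆ ⁅ξ, z⁆ := (mem_center_iff.1 hcZ _).symm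
      have h1 := conj_pow_eq_of_chain (x := ξ) (a := z) (b := ⁅ξ, z⁆) (c := ⁅ξ, ⁅ξ, z⁆⁆)
        (hcd _) (hcd _) hcx hcy a
      have h2 := conj_pow_eq_of_chain (x := ξ) (a := ⁅ξ, z⁆) (b := ⁅ξ, ⁅ξ, z⁆⁆) (c := 1)
        (hcd _) (by rw [hcx.eq, mul_inv_cancel_right, one_mul]) (Commute.one_right _)
        (Commute.one_left _) a
      rw [one_pow, one_mul] at h2
      have hyY : ⁅ξ, ⁅ξ, z⁆⁆ ^ a.choose 2 * ⁅ξ, z⁆ ^ a ∈ Y :=
        mul_mem (pow_mem (hZY (hφZ _ hy₁)) _) (pow_mem hy₁ _)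
      have h3 : ξ ^ a * (⁅ξ, ⁅ξ, z⁆⁆ ^ a.choose 2 * ⁅ξ, z⁆ ^ a) * (ξ ^ a)⁻¹ =
          ⁅ξ, ⁅ξ, z⁆⁆ ^ a.choose 2 * ⁅ξ, z⁆ ^ a * z ^ p ^ (n - 3) := by
        rw [← mul_assoc, ((hcx.pow_left a).pow_right _).eq, mul_assoc, mul_assoc, ← mul_assoc (ξ ^ a),
          ← conj_pow, h2, (hcy.pow_left a).mul_pow, ← pow_mul, ha2, mul_assoc,
          ← mem_center_iff.1 (hZc hz3)]
      have h4 : ξ ^ a ∉ M := fun h => hz4 (by
        have h5 := mem_centralizer_iff.1 h _ hyY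
        rw [← h5, mul_inv_cancel_right] at h3
        exact left_eq_mul.1 h3)
      refine ⟨1, (ξ ^ a)⁻¹, _, z, Or.inl rfl, hz5 _ (fun h => h4 (inv_mem_iff.1 h)) _ hyY
        fun h => hz4 ?_, by rw [inv_pow, hE _ (pow_mem hξE a), inv_one], hY.2 _ hyY, hzord,
        mem_centralizer_iff.1 hzM _ hyY, by rw [inv_inv, one_mul, h3], by rw [inv_inv, h1]⟩
      rw [mem_center_iff.1 (hZc h), mul_inv_cancel_right] at h3
      exact left_eq_mul.1 h3
    · refine ⟨s, ξ⁻¹, ⁅ξ, z⁆, z, Or.inr hsq, hz5 _ (fun h => hξM (inv_mem_iff.1 h)) _ hy₁ hy₁Z,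
        by rw [inv_pow, hE ξ hξE, inv_one], hY.2 _ hy₁, hzord, mem_centralizer_iff.1 hzM _ hy₁,
        ?_, by rw [inv_inv, hcd]⟩
      rw [inv_inv, mul_comm s, pow_mul, ← hs, mem_center_iff.1 hcZ, hcd]

end

/-- The classification of the p-groups of rank at most two for odd p. Let p be an odd prime and G a group of order p^n with no elementary abelian subgroup of order p³. Then one of the following holds: G is metacyclic; n ≥ 3 and G is generated by elements x, y, z with x^p = y^p = z^(p^(n−2)) = 1, z commuting with x and y, and x⁻¹yx = y z^(p^(n−3)); n ≥ 4 and G is generated by elements x, y, z with x^p = y^p = z^(p^(n−2)) = 1, yz = zy, x⁻¹yx = y z^(s p^(n−3)) and x⁻¹zx = yz, where s = 1 or s is a quadratic non-residue modulo p; or p = 3 and G has maximal class (nilpotency class n − 1). -/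
theorem result {G : Type*} [Group G] [Finite G] {p : ℕ} [Fact p.Prime] (hp : p ≠ 2) (n : ℕ) (hG : Nat.card G = p ^ n)
    (hrk : Cfsg.PRankLE p 2 G) :
    Cfsg.IsMetacyclic G ∨
    (3 ≤ n ∧ ∃ x y z : G, Subgroup.closure ({x, y, z} : Set G) = ⊤ ∧ x ^ p = 1 ∧ y ^ p = 1 ∧ z ^ p ^ (n - 2) = 1 ∧
        x * z = z * x ∧ y * z = z * y ∧ x⁻¹ * y * x = y * z ^ p ^ (n - 3)) ∨
    (4 ≤ n ∧ ∃ (s : ℕ) (x y z : G), (s = 1 ∨ ¬ IsSquare (s : ZMod p)) ∧ Subgroup.closure ({x, y, z} : Set G) = ⊤ ∧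
        x ^ p = 1 ∧ y ^ p = 1 ∧ z ^ p ^ (n - 2) = 1 ∧ y * z = z * y ∧ x⁻¹ * y * x = y * z ^ (s * p ^ (n - 3)) ∧
        x⁻¹ * z * x = y * z) ∨
    (p = 3 ∧ 2 ≤ n ∧ (⊤ : Subgroup G).lowerCentralSeries (n - 2) ≠ ⊥) := by
  have hP : IsPGroup p G := IsPGroup.of_card hG
  by_cases h : NoNormExp p G
  · by_cases hp3 : p = 3
    · rcases metacyclic_or_card_centralizer hp G hP h with h1 | ⟨s, hs⟩
      · exact Or.inl h1
      · have hn : 2 ≤ n := by
          have := card_le_card_group (centralizer ({s} : Set G))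
          rw [hs, hG] at this
          exact (Nat.pow_le_pow_iff_right (Fact.out : p.Prime).one_lt).1 this
        exact Or.inr (Or.inr (Or.inr ⟨hp3, hn,
          (PGrp.nilpotencyClass_eq_iff_lowerCentralSeries_ne_bot hG hn).1
            (PGrp.nilpotencyClass_eq_of_card_centralizer hG hs)⟩))
    · have h2 := (Fact.out : p.Prime).two_le
      have h3 : 3 < p := by omega
      exact Or.inl (p2_ohm1_metacyclic_top h3 G hP (h _ (PGrp.normal_omegaOne ⊤)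
        (exponent_ohm1_rank2 h3 (hP.to_subgroup ⊤) (pRankLE_top.2 hrk))))
  · simp only [NoNormExp, not_forall] at h
    obtain ⟨E, hEn, hE, hEc⟩ := h
    rcases caseA hp n hG hrk E hE (not_le.1 hEc) with h1 | h1
    · exact Or.inr (Or.inl h1)
    · exact Or.inr (Or.inr (Or.inl h1))

end Cfsg.Agent.S3888
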