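import Cfsg.Statements.S3895
import Mathlib
import Cfsg.Agent.Lib.IsolatedCount
import Cfsg.Agent.Lib.FrobeniusPComplement
import Cfsg.Agent.Lib.FusionControl

set_option autoImplicit false
open Cfsg

namespace Cfsg.Agent.S3895

open CfsgLib.PGrp
open scoped commutatorElement

/-- Let G be a finite group with Sylow 2-subgroup P, and write k₂(G) for the number of conjugacy classes of G consisting of 2-elements (elements of 2-power order, the identity included). Then k₂(G) > |P|/2 if and only if G has a normal 2-complement and P has more than |P|/2 conjugacy classes. -/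
theorem result {G : Type*} [Group G] [Finite G] (P : Sylow 2 G) :
    Nat.card ↥(P : Subgroup G) < 2 * Nat.card {c : ConjClasses G // ∀ x ∈ c.carrier, ∃ k : ℕ, orderOf x = 2 ^ k} ↔
      Cfsg.HasNormalPComplement 2 G ∧ Nat.card ↥(P : Subgroup G) < 2 * Nat.card (ConjClasses ↥(P : Subgroup G)) := by
  constructor
  · intro h
    refine ⟨?_, h.trans_le (Nat.mul_le_mul_left 2 (card_pClasses_le P))⟩
    by_contra hn
    obtain ⟨H, g, q, k, hH, -, hg, hq, hq2, ho, hc⟩ :=
      CfsgLib.FrobNPC.exists_not_centralizes_of_not_hnpc hn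
    have hodd : Odd (orderOf g) := ho ▸ (hq.odd_of_ne_two hq2).pow
    exact absurd h (not_lt.2 (two_mul_card_pClasses_le P hH hg
      ((Nat.coprime_two_right).2 hodd) hodd hc))
  · rintro ⟨h1, h2⟩
    rwa [card_pClasses_eq_of_fusion P ((CfsgLib.Fusion.hnpc_iff_fusion P).1 h1)]

end Cfsg.Agent.S3895
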