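import Cfsg.Statements.S3896
import Cfsg.Agent.Lib.GW.FourStruct
import Cfsg.Agent.Lib.GW.HalfA
import Cfsg.Agent.Lib.CharCentral
import Cfsg.Agent.Lib.FrobeniusPComplement

set_option autoImplicit false
open Cfsg

namespace Cfsg.Agent.S3896

open Subgroup CfsgLib CfsgLib.GW CfsgLib.FT.BGN CfsgLib.FT.U4 CfsgLib.PGrp
open scoped commutatorElement

section

variable {G : Type*} [Group G] [Finite G]

theorem two_mul_card_conjClasses_ne (hG : IsPGroup 2 G) :
    2 * Nat.card (ConjClasses G) ≠ Nat.card G := by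
  intro h
  choose d hd using fun χ : IrrCharacter G => χ.2.isCharacter.exists_nat_one
  obtain ⟨n, hn⟩ := IsPGroup.iff_card.1 hG
  have h1 : ∑ χ, d χ ^ 2 = Nat.card G := by
    have := sum_irr_one_sq (G := G)
    simp only [hd] at this
    exact_mod_cast this
  have h2 : ∀ χ, d χ ^ 2 ≡ 1 [MOD 3] := fun χ => by
    obtain ⟨k, -, hk⟩ := (Nat.dvd_prime_pow Nat.prime_two).1 (hn ▸ χ.2.degree_dvd_card (hd χ))
    rw [hk, ← pow_mul, mul_comm, pow_mul]
    simpa using (show 2 ^ 2 ≡ 1 [MOD 3] by decide).pow k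
  have h3 : ∑ χ, d χ ^ 2 ≡ ∑ _χ : IrrCharacter G, 1 [MOD 3] :=
    Nat.ModEq.sum fun χ _ => h2 χ
  rw [h1, Finset.sum_const, Finset.card_univ, smul_eq_mul, mul_one, ← Nat.card_eq_fintype_card,
    card_irr_eq_card_conjClasses] at h3
  have h4 : 3 ∣ Nat.card G := by
    unfold Nat.ModEq at h3
    omega
  rw [hn] at h4
  exact absurd (Nat.prime_three.dvd_of_dvd_pow h4) (by decide)

theorem le_center_of_inf_Jv (hO : Od (⊤ : Subgroup G) = ⊥) {N : Subgroup G} [hN : N.Normal]
    (h : N ⊓ Jv (commutator G) = ⊥) : N ≤ center G := by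
  have h1 : N ⊓ commutator G = ⊥ := eq_bot_of_normal_odd hO inferInstance
    (odd_card_of_forall fun x hx h2 => ne_one_of_inv h2 (mem_bot.1 (h ▸ ⟨hx.1, mem_Jv hx.2 h2⟩)))
  intro x hx
  rw [mem_center_iff]
  intro g
  have h2 : ⁅g, x⁆ ∈ N ⊓ commutator G := ⟨by
    rw [commutatorElement_def]
    exact N.mul_mem (hN.conj_mem x hx g) (N.inv_mem hx),
    commutator_mem_commutator (mem_top g) (mem_top x)⟩
  rw [h1, mem_bot] at h2
  exact commutatorElement_eq_one_iff_mul_comm.1 h2

theorem simple_case (hO : Od (⊤ : Subgroup G) = ⊥) {X : Type*} [Group X]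
    (hs : IsSimpleGroup (Jv (commutator G))) (hna : ¬ IsMulCommutative (Jv (commutator G)))
    (e : Jv (commutator G) ≃* X) :
    ∃ S : Subgroup (G ⧸ center G), S.Normal ∧ IsSimpleGroup S ∧ ¬ IsMulCommutative S ∧
      centralizer (S : Set (G ⧸ center G)) = ⊥ ∧ Nonempty (S ≃* X) := by
  set L := Jv (commutator G) with hL
  have h1 : 𝐂(L) ⊓ L = ⊥ := by
    rcases (inferInstance : ((𝐂(L)).subgroupOf L).Normal).eq_bot_or_eq_top with h | h
    · rw [subgroupOf_eq_bot, disjoint_iff] at h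
      exact h
    · refine absurd ⟨⟨fun x y => Subtype.ext ?_⟩⟩ hna
      exact (subgroupOf_eq_top.1 h y.2) x x.2
  have h2 := le_center_of_inf_Jv hO h1
  have h3 : center G ≤ 𝐂(L) := center_le_centralizer _
  have h4 : Function.Injective ((QuotientGroup.mk' (center G)).comp L.subtype) := by
    rw [injective_iff_map_eq_one]
    intro x hx
    have : (x : G) ∈ 𝐂(L) ⊓ L := ⟨h3 ((QuotientGroup.eq_one_iff _).1 hx), x.2⟩
    rw [h1, mem_bot] at this
    exact Subtype.ext this
  have e1 : L ≃* L.map (QuotientGroup.mk' (center G)) :=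
    (MonoidHom.ofInjective h4).trans (MulEquiv.subgroupCongr (by
      rw [MonoidHom.range_comp, range_subtype]))
  refine ⟨L.map (QuotientGroup.mk' (center G)),
    Normal.map inferInstance _ (QuotientGroup.mk'_surjective _), e1.symm.isSimpleGroup,
    fun h => hna ⟨⟨fun x y => e1.injective (by rw [map_mul, map_mul, h.is_comm.comm])⟩⟩, ?_,
    ⟨e1.symm.trans e⟩⟩
  refine eq_bot_iff.2 fun x hx => ?_
  obtain ⟨x, rfl⟩ := QuotientGroup.mk'_surjective _ x
  refine (QuotientGroup.eq_one_iff _).2 (h2 fun l hl => ?_)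
  have h5 := hx _ ⟨l, hl, rfl⟩
  have h6 : ⁅x, l⁆ ∈ 𝐂(L) ⊓ L := ⟨h3 (by
    rw [← QuotientGroup.eq_one_iff, ← QuotientGroup.mk'_apply, map_commutatorElement,
      commutatorElement_eq_one_iff_mul_comm]
    exact h5.symm), by
    rw [commutatorElement_def]
    exact L.mul_mem ((inferInstance : L.Normal).conj_mem l hl x) (L.inv_mem hl)⟩
  rw [h1, mem_bot] at h6
  exact (commutatorElement_eq_one_iff_mul_comm.1 h6).symm

theorem solvable_case (hO : Od (⊤ : Subgroup G) = ⊥) {a b y : G} (h4 : Four a b)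
    (hS : IsSylowIn 2 (V a b) (commutator G)) (hJ : Jv (commutator G) = V a b)
    (hodd : Odd (orderOf y)) (ha : y * a * y⁻¹ = b) (hb : y * b * y⁻¹ = a * b) :
    Nonempty (G ⧸ center G ≃* alternatingGroup (Fin 4)) ∨
      Nonempty (G ⧸ center G ≃* Equiv.Perm (Fin 4)) := by
  classical
  have hN : (V a b).Normal := hJ ▸ inferInstance
  have haV := t_mem_V a b
  have hbV := s_mem_V a b
  have hab : y * (a * b) * y⁻¹ = a := by
    rw [← _root_.conj_mul, ha, hb, h4.comm, ← mul_assoc, h4.ss, one_mul]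
  have hW : 𝐂(V a b) ⊓ commutator G ≤ V a b := by
    have hVW : V a b ≤ 𝐂(V a b) ⊓ commutator G := le_inf h4.V_le_cent hS.le
    have h1 := hS.mono hVW inf_le_right
    refine (h1.eq_of_le (isPGroup_two_of_forall_odd fun x hx ho => ?_) hVW le_rfl).le
    have h2 := nilp2_of_norm_le (e4_of_sylow h4 h1) (M := ⊤) (h4.coe (hVW haV) (hVW hbV)) le_top
      (fun z _ => by
        exact (cent_V _ _).ge ⟨mem_cent1.2 (Subtype.ext (z.2.1 a haV).symm),
          mem_cent1.2 (Subtype.ext (z.2.1 b hbV).symm)⟩) ⟨x, hx⟩ trivial (by rwa [← orderOf_coe])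
    rw [Od_top_eq_bot_of_normal hO, mem_bot] at h2
    exact congrArg Subtype.val h2
  have hC : ∀ c ∈ 𝐂(V a b), ∀ g : G, c⁻¹ * (g * c * g⁻¹) ∈ V a b := fun c hc g =>
    hW ⟨Subgroup.mul_mem _ (Subgroup.inv_mem _ hc) ((inferInstance : (𝐂(V a b)).Normal).conj_mem c hc g), by
      have : c⁻¹ * (g * c * g⁻¹) = ⁅c⁻¹, g⁆ := by rw [commutatorElement_def]; group
      rw [this]
      exact commutator_mem_commutator (mem_top _) (mem_top _)⟩
  have hodd1 : ∀ c ∈ 𝐂(V a b), Odd (orderOf c) → c = 1 := by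
    intro c hc ho
    have h1 : c ∈ center G := mem_center_iff.2 fun g => by
      have h2 := hC c hc g
      have h3 : Commute c⁻¹ (g * c * g⁻¹) := by
        have : Commute (c⁻¹ * (g * c * g⁻¹)) c := hc _ h2
        simpa using ((Commute.refl c).mul_left this).symm.inv_left
      have h5 : c⁻¹ * (g * c * g⁻¹) = 1 := eq_one_of_pow_odd h4.isPGroup_V h2 ho (by
        rw [h3.mul_pow, inv_pow, conj_pow, pow_orderOf_eq_one]; simp)
      rwa [inv_mul_eq_one, eq_comm, mul_inv_eq_iff_eq_mul] at h5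
    have h2 := eq_bot_of_normal_odd hO (N := zpowers c) ⟨fun x hx g => by
      rwa [mem_center_iff.1 (zpowers_le.2 h1 hx) g, mul_inv_cancel_right]⟩
      (by rwa [Nat.card_zpowers])
    exact zpowers_eq_bot.1 h2
  have memC : ∀ {c : G}, c * a * c⁻¹ = a → c * b * c⁻¹ = b → c ∈ 𝐂(V a b) := fun h1 h2 => by
    rw [cent_V]
    exact ⟨mem_cent1.2 (mul_inv_eq_iff_eq_mul.1 h1), mem_cent1.2 (mul_inv_eq_iff_eq_mul.1 h2)⟩
  have hy3 : y ^ 3 = 1 := by
    have aux : ∀ v : G, y ^ 3 * v * (y ^ 3)⁻¹ = y * (y * (y * v * y⁻¹) * y⁻¹) * y⁻¹ := fun v => by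
      rw [pow_three']; group
    refine hodd1 _ (memC ?_ ?_) (hodd.of_dvd_nat (orderOf_pow_dvd 3))
    · rw [aux, ha, hb, hab]
    · rw [aux, hb, hab, ha]
  have hy1 : y ≠ 1 := fun h => h4.ne (by rw [← ha, h]; simp)
  have oy : orderOf y = 3 := orderOf_eq_prime hy3 hy1
  have key : ∀ z : G, z ^ 3 = 1 → z * a * z⁻¹ = b → ∃ v ∈ V a b, z = v * y * v⁻¹ := by
    intro z hz e1
    have e2 : z * b * z⁻¹ = a * b := by
      rcases h4.mem_V.1 (hN.conj_mem b hbV z) with h | h | h | h
      · exact absurd h (conj_ne_one_iff.2 h4.s1)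
      · refine absurd ?_ h4.ne
        have h1 : z ^ 3 * a * (z ^ 3)⁻¹ = z * (z * (z * a * z⁻¹) * z⁻¹) * z⁻¹ := by
          rw [pow_three']; group
        rw [e1, h, e1, hz] at h1
        simpa using h1
      · exact absurd (conj_injective (e1.trans h.symm)) h4.ne
      · exact h
    obtain ⟨c, hc⟩ : ∃ c, c = y⁻¹ * z := ⟨_, rfl⟩
    have hcC : c ∈ 𝐂(V a b) := memC (by
      calc c * a * c⁻¹ = y⁻¹ * (z * a * z⁻¹) * y := by rw [hc]; group
        _ = a := by rw [e1, ← ha]; group) (by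
      calc c * b * c⁻¹ = y⁻¹ * (z * b * z⁻¹) * y := by rw [hc]; group
        _ = b := by rw [e2, ← hb]; group)
    have h1 := hC c hcC y
    have h2 := hC c hcC (y * y)
    have h3 : c ^ 3 ∈ V a b := by
      have c1 : Commute (c⁻¹ * (y * c * y⁻¹)) c := hcC _ h1
      have c2 : Commute (c⁻¹ * (y * y * c * (y * y)⁻¹)) c := hcC _ h2
      have h5 : c ^ 3 * ((c⁻¹ * (y * c * y⁻¹)) * (c⁻¹ * (y * y * c * (y * y)⁻¹))) = 1 := by
        have h6 : c * (c⁻¹ * (y * c * y⁻¹)) * (c * (c⁻¹ * (y * y * c * (y * y)⁻¹))) * c =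
            z ^ 3 * (c⁻¹ * (y ^ 3)⁻¹ * c) := by
          rw [hc, pow_three', pow_three']; group
        rw [hz, hy3] at h6
        generalize c⁻¹ * (y * c * y⁻¹) = v₁ at c1 h6
        generalize c⁻¹ * (y * y * c * (y * y)⁻¹) = v₂ at c2 h6
        calc c ^ 3 * (v₁ * v₂) = c * (c * (c * v₁)) * v₂ := by rw [pow_three']; group
          _ = c * (c * (v₁ * c)) * v₂ := by rw [c1.eq]
          _ = c * (c * v₁) * (c * v₂) := by group
          _ = c * (v₁ * c) * (v₂ * c) := by rw [c1.eq, c2.eq]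
          _ = c * v₁ * (c * v₂) * c := by group
          _ = 1 := by rw [h6]; group
      rw [eq_inv_of_mul_eq_one_left h5]
      exact inv_mem (mul_mem h1 h2)
    have h5 : c * c = 1 := hodd1 _ (mul_mem hcC hcC) (Odd.of_dvd_nat (n := 3) (by decide)
      (orderOf_dvd_of_pow_eq_one (by
        rw [← h4.mul_self_of_mem h3, (Commute.refl c).mul_pow])))
    have h6 : c ∈ V a b := by rwa [pow_three', h5, one_mul] at h3
    have hz' : z = y * c := by rw [hc]; group
    have aux : ∀ v w : G, y * w * y⁻¹ = v → v * y * v⁻¹ = y * (w * v⁻¹) := fun v w h => by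
      rw [← h]; group
    rcases h4.mem_V.1 h6 with h | h | h | h
    · exact ⟨1, one_mem _, by rw [hz', h]; group⟩
    · refine ⟨a * b, mul_mem haV hbV, ?_⟩
      rw [aux _ _ hb, hz', h, inv_of_inv h4.ots, h4.comm, ← mul_assoc b, h4.ss, one_mul]
    · refine ⟨a, haV, ?_⟩
      rw [aux _ _ hab, hz', h, h4.comm, mul_inv_cancel_right]
    · exact ⟨b, hbV, by rw [aux _ _ ha, hz', h, h4.si]⟩
  let M : Subgroup G := 𝐍(zpowers y)
  have hVM : ∀ g : G, ∃ v ∈ V a b, v⁻¹ * g ∈ M := by
    intro g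
    have h3 : (g * y * g⁻¹) ^ 3 = 1 := by rw [conj_pow, hy3]; simp
    have fin : ∀ v : G, ∀ k : ℤ, g * y * g⁻¹ = v * y ^ k * v⁻¹ → v⁻¹ * g ∈ M := fun v k h =>
      mem_normalizer_of_conj_mem fun x hx => by
        obtain ⟨m, rfl⟩ := mem_zpowers_iff.1 hx
        rw [← conj_zpow]
        refine zpow_mem ?_ m
        have : v⁻¹ * g * y * (v⁻¹ * g)⁻¹ = y ^ k := by
          calc v⁻¹ * g * y * (v⁻¹ * g)⁻¹ = v⁻¹ * (g * y * g⁻¹) * v := by group
            _ = y ^ k := by rw [h]; group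
        rw [this]
        exact zpow_mem (mem_zpowers y) k
    obtain ⟨z, hz⟩ : ∃ z, z = g * y * g⁻¹ := ⟨_, rfl⟩
    have oz : Odd (orderOf z) := by rw [hz, orderOf_conj]; exact hodd
    have z1 : z ≠ 1 := hz ▸ conj_ne_one_iff.2 hy1
    rw [← hz] at h3 fin
    have aux : ∀ v : G, z * (z * (z * v * z⁻¹) * z⁻¹) * z⁻¹ = v := fun v => by
      calc _ = z ^ 3 * v * (z ^ 3)⁻¹ := by rw [pow_three']; group
        _ = v := by rw [h3]; group
    rcases h4.mem_V.1 (hN.conj_mem a haV z) with h | h | h | h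
    · exact absurd h (conj_ne_one_iff.2 h4.t1)
    · refine absurd (hodd1 z (memC h ?_) oz) z1
      rcases h4.mem_V.1 (hN.conj_mem b hbV z) with h' | h' | h' | h'
      · exact absurd h' (conj_ne_one_iff.2 h4.s1)
      · exact absurd (conj_injective (h.trans h'.symm)) h4.ne
      · exact h'
      · have := aux b
        rw [h', ← _root_.conj_mul (a := a) (b := z) (c := b), h, h', ← mul_assoc a a, h4.tt, one_mul,
          h', mul_eq_right] at this
        exact absurd this h4.t1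
    · obtain ⟨v, hv, e⟩ := key z h3 h
      exact ⟨v, hv, fin v 1 (by rw [zpow_one]; exact e)⟩
    · obtain ⟨v, hv, e⟩ := key z⁻¹ (by rw [inv_pow, h3, inv_one]) (by
        rcases h4.mem_V.1 (hN.conj_mem a haV z⁻¹) with h' | h' | h' | h'
        · exact absurd h' (conj_ne_one_iff.2 h4.t1)
        · refine absurd ?_ h4.s1
          have : z * a * z⁻¹ = a := by rw [← h']; nth_rw 2 [h']; group
          rwa [h, mul_eq_left] at this
        · exact h'
        · refine absurd ?_ h4.s1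
          have h1 : z * (a * b) * z⁻¹ = a := by rw [← h']; group
          have := aux a
          rwa [h, h1, h, mul_eq_left] at this)
      exact ⟨v, hv, fin v (-1) (by rw [← inv_inv z, e]; group)⟩
  have hdis : V a b ⊓ M = ⊥ := by
    refine eq_bot_iff.2 fun v hv => ?_
    have h1 : v * y * v⁻¹ * y⁻¹ ∈ zpowers y :=
      mul_mem (conj_mem_of_mem_normalizer hv.2 (mem_zpowers y)) (inv_mem (mem_zpowers y))
    have h2 : v * y * v⁻¹ * y⁻¹ ∈ V a b := by
      have := Subgroup.mul_mem _ hv.1 (hN.conj_mem _ (Subgroup.inv_mem _ hv.1) y)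
      simpa only [mul_assoc] using this
    have h3 : v * y * v⁻¹ * y⁻¹ = 1 := eq_one_of_odd_of_mul_self
      (odd_orderOf_of_mem (by rwa [Nat.card_zpowers]) h1) (h4.mul_self_of_mem h2)
    have h5 : y * v * y⁻¹ = v := by
      rw [mul_inv_eq_one, mul_inv_eq_iff_eq_mul] at h3
      rw [← h3, mul_inv_cancel_right]
    rcases h4.mem_V.1 hv.1 with h | h | h | h
    · exact mem_bot.2 h
    · exact absurd (by rw [← ha, ← h, h5]) h4.ne
    · rw [h, hb, mul_eq_right] at h5
      exact absurd h5 h4.t1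
    · rw [h, hab, eq_comm, mul_eq_left] at h5
      exact absurd h5 h4.s1
  have hi : Nat.card (G ⧸ M) = 4 := by
    have := (isComplement'_of_disjoint_and_mul_eq_univ (disjoint_iff.2 hdis)
      (Set.eq_univ_of_forall fun g => by
        obtain ⟨v, hv, h⟩ := hVM g
        exact ⟨v, hv, _, h, by simp⟩)).index_eq_card
    rw [h4.card_V] at this
    exact this
  have e : G ⧸ M ≃ Fin 4 := Finite.equivFinOfCardEq hi
  let f : G →* Equiv.Perm (Fin 4) :=
    (e.permCongrHom).toMonoidHom.comp (MulAction.toPermHom G (G ⧸ M))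
  have hf : f.ker = center G := by
    rw [MonoidHom.ker_comp_of_injective _ _ (e.permCongrHom).injective, ← normalCore_eq_ker]
    refine le_antisymm (le_center_of_inf_Jv hO ?_) (normal_le_normalCore.2 (center_le_normalizer _))
    rw [hJ, eq_bot_iff, ← hdis, inf_comm]
    exact inf_le_inf_left _ (normalCore_le M)
  have hZM : center G ≤ M := center_le_normalizer _
  have h1 : 4 ∣ Nat.card f.range := by
    have h2 : Function.Injective (f.comp (V a b).subtype) := by
      rw [injective_iff_map_eq_one]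
      intro x hx
      have : (x : G) ∈ V a b ⊓ M := ⟨x.2, hZM (hf ▸ hx)⟩
      rw [hdis, mem_bot] at this
      exact Subtype.ext this
    have h3 := card_dvd_of_le (show (f.comp (V a b).subtype).range ≤ f.range by
      rw [MonoidHom.range_comp]; exact map_le_range _ _)
    rwa [← Nat.card_congr (MonoidHom.ofInjective h2).toEquiv, h4.card_V] at h3
  have h2 : 3 ∣ Nat.card f.range := by
    have h3 : orderOf (f y) = 3 := orderOf_eq_prime (by rw [← map_pow, hy3, map_one]) fun h => by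
      have h5 : y ∈ center G := hf ▸ h
      exact h4.ne (by rw [← ha, ← mem_center_iff.1 h5 a, mul_inv_cancel_right])
    rw [← h3]
    exact orderOf_dvd_natCard _ ⟨y, rfl⟩
  have e1 : G ⧸ center G ≃* f.range :=
    (QuotientGroup.quotientMulEquivOfEq hf.symm).trans (QuotientGroup.quotientKerEquivRange f)
  have h3 := f.range.card_mul_index
  rw [Nat.card_perm] at h3
  simp only [Nat.card_eq_fintype_card, Fintype.card_fin, Nat.factorial] at h3 h1 h2
  obtain ⟨m, hm⟩ := (show Nat.Coprime 4 3 by decide).mul_dvd_of_dvd_of_dvd h1 h2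
  have h5 : m * f.range.index = 2 := by rw [hm] at h3; linarith
  rcases (Nat.dvd_prime Nat.prime_two).1 (Dvd.intro_left _ h5) with h | h
  · exact Or.inr ⟨e1.trans ((MulEquiv.subgroupCongr (index_eq_one.1 h)).trans topEquiv)⟩
  · exact Or.inl ⟨e1.trans (MulEquiv.subgroupCongr
      (Equiv.Perm.eq_alternatingGroup_of_index_eq_two h))⟩

end

/-- Let G be a finite group whose largest normal subgroup of odd order is trivial, let P be a Sylow 2-subgroup of G, and suppose the number of conjugacy classes of G consisting of 2-elements (elements of 2-power order, the identity included) is exactly |P|/2. Then G/Z(G) is isomorphic to the alternating or the symmetric group of degree 4, or G/Z(G) has a normal non-abelian simple subgroup with trivial centralizer that is isomorphic to PSL₂(q) for some prime power q > 3 with q ≡ 3 or 5 (mod 8). -/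
theorem result {G : Type*} [Group G] [Finite G] (P : Sylow 2 G) (hO : Cfsg.pPrimeCore 2 G = ⊥)
    (hk : 2 * Nat.card {c : ConjClasses G // ∀ x ∈ c.carrier, ∃ k : ℕ, orderOf x = 2 ^ k} = Nat.card ↥(P : Subgroup G)) :
    Nonempty (G ⧸ Subgroup.center G ≃* ↥(alternatingGroup (Fin 4))) ∨ Nonempty (G ⧸ Subgroup.center G ≃* Equiv.Perm (Fin 4)) ∨
    ∃ S : Subgroup (G ⧸ Subgroup.center G), S.Normal ∧ IsSimpleGroup ↥S ∧ ¬ IsMulCommutative ↥S ∧
      Subgroup.centralizer (S : Set (G ⧸ Subgroup.center G)) = ⊥ ∧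
      ∃ (F : Type) (_ : Field F) (_ : Fintype F), 3 < Fintype.card F ∧ (Fintype.card F % 8 = 3 ∨ Fintype.card F % 8 = 5) ∧
        Nonempty (↥S ≃* Matrix.ProjectiveSpecialLinearGroup (Fin 2) F) := by
  have hO' : Od (⊤ : Subgroup G) = ⊥ := by rw [Od, H1.piCoreOf_top, ← pPrimeCore_eq_piCore, hO]
  have hn : ¬ HasNormalPComplement 2 G := fun h => by
    have h1 := PCompl.isPGroup_of_hnpc_of_pPrimeCore_eq_bot h hO
    have h2 : (P : Subgroup G) = ⊤ :=
      ((IsSylowIn.sylow_top P).eq_of_le (h1.to_subgroup ⊤) le_top le_rfl).symm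
    rw [card_pClasses_eq_of_fusion P fun x _ g _ => ⟨g, h2 ▸ mem_top g, rfl⟩] at hk
    exact two_mul_card_conjClasses_ne P.isPGroup' hk
  obtain ⟨Q, y, q, k, hQ, -, hy, hq, hq2, ho, hc⟩ := FrobNPC.exists_not_centralizes_of_not_hnpc hn
  have hodd : Odd (orderOf y) := ho ▸ (hq.odd_of_ne_two hq2).pow
  obtain ⟨P', hQP⟩ := hQ.exists_le_sylow
  rw [Sylow.card_eq_multiplicity P, ← Sylow.card_eq_multiplicity P'] at hk
  obtain ⟨a, ha, h4, hb⟩ := half_four P' hk hQP hy hodd hc
  have h1 := half_focal P' hk hQP hy hodd ha h4 hb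
  have hbQ : y * a * y⁻¹ ∈ Q := (mem_normalizer_iff.1 hy a).1 ha
  have h2 : a ∈ commutator G := by
    have : a = ⁅y, y * a * y⁻¹⁆ := by
      rw [commutatorElement_def, hb, mul_inv_cancel_right]
    rw [this]
    exact commutator_mem_commutator (mem_top _) (mem_top _)
  have h3 : (P' : Subgroup G) ⊓ commutator G = V a (y * a * y⁻¹) := le_antisymm
    (by rw [inf_comm, commutator_inf_eq_focalSubgroup]; exact h1)
    (V_le ⟨hQP ha, h2⟩ ⟨hQP hbQ, (inferInstance : (commutator G).Normal).conj_mem a h2 y⟩)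
  have hS := IsSylowIn.sylow_inf_normal P' (commutator G)
  rw [h3] at hS
  rcases struct_Jv hO' h4 hS with h | ⟨hs, hna, F, _, _, h5, h6, ⟨e⟩⟩
  · exact (solvable_case hO' h4 hS h hodd rfl hb).imp_right Or.inl
  · obtain ⟨S, h7, h8, h9, h10, h11⟩ := simple_case hO' hs hna e
    exact Or.inr (Or.inr ⟨S, h7, h8, h9, h10, F, inferInstance, inferInstance, by omega, h6, h11⟩)

end Cfsg.Agent.S3896
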