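import Cfsg.Statements.S3897
import Cfsg.Agent.Lib.H8PiClasses

set_option autoImplicit false
open Cfsg

namespace Cfsg.Agent.S3897

open CfsgLib CfsgLib.PiCl CfsgLib.PCompl Subgroup

/-- Let p be an odd prime and G a finite group with Sylow p-subgroup P, and write k_p(G) for the number of conjugacy classes of G consisting of p-elements (elements of p-power order, the identity included). Then k_p(G) > (p + 1)|P|/(2p) if and only if G has a normal p-complement and P is abelian. -/
theorem result {G : Type*} [Group G] [Finite G] {p : ℕ} [Fact p.Prime] (hp : p ≠ 2) (P : Sylow p G) :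
    (p + 1) * Nat.card ↥(P : Subgroup G) < 2 * p * Nat.card {c : ConjClasses G // ∀ x ∈ c.carrier, ∃ k : ℕ, orderOf x = p ^ k} ↔
      Cfsg.HasNormalPComplement p G ∧ IsMulCommutative ↥(P : Subgroup G) := by
  have hpp : p.Prime := Fact.out
  have e : Nat.card {c : ConjClasses G // ∀ x ∈ c.carrier, ∃ k : ℕ, orderOf x = p ^ k} =
      (piClasses {p} G).ncard := by
    congr 2
    ext c
    change _ ↔ c ∈ piClasses {p} G
    rw [mem_piClasses_iff_forall]
    exact forall₂_congr fun x _ => (isPiNum_singleton_iff hpp (orderOf_pos x).ne').symm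
  rw [e]
  constructor
  · intro h
    have h1 := normalizer_le_centralizer_of_lt P h
    exact ⟨hnpc_of_normalizer_le_centralizer P h1,
      le_centralizer_iff_isMulCommutative.mp (le_normalizer.trans h1)⟩
  · rintro ⟨h1, h2⟩
    have h3 : Nat.card (P : Subgroup G) ≤ (piClasses {p} G).ncard := by
      apply Set.ncard_le_ncard_of_injOn (s := ((P : Subgroup G) : Set G)) ConjClasses.mk
      · intro x hx
        exact mk_mem_piClasses.mpr ((isPiNum_singleton_iff hpp (orderOf_pos x).ne').mpr
          (orderOf_eq_pow_of_mem_isPGroup P.isPGroup' hx))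
      · intro x hx y hy hxy
        obtain ⟨g, rfl⟩ := isConj_iff.mp (ConjClasses.mk_eq_mk_iff_isConj.mp hxy)
        obtain ⟨N, hN, hc⟩ := hnpc_exists_isComplement' h1 P
        obtain ⟨⟨n, s⟩, rfl⟩ := hc.2 g
        have hs : (s : G) * x * (s : G)⁻¹ = x := by
          have := congrArg Subtype.val (h2.is_comm.comm s ⟨x, hx⟩)
          simp only [coe_mul] at this
          rw [this, mul_inv_cancel_right]
        have h4 : (n : G) * s * x * ((n : G) * s)⁻¹ = n * x * (n : G)⁻¹ := by
          rw [mul_inv_rev, ← mul_assoc, mul_assoc _ (s : G), mul_assoc _ (_ * x), hs]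
        simp only at hy ⊢
        rw [h4] at hy ⊢
        have h5 : (n : G) * x * (n : G)⁻¹ * x⁻¹ ∈ N ⊓ (P : Subgroup G) := by
          refine ⟨?_, (P : Subgroup G).mul_mem hy ((P : Subgroup G).inv_mem hx)⟩
          have := N.mul_mem n.2 (hN.conj_mem _ (N.inv_mem n.2) x)
          simpa [mul_assoc] using this
        rw [hc.disjoint.eq_bot, mem_bot, mul_inv_eq_one] at h5
        exact h5.symm
    have h4 : 0 < Nat.card (P : Subgroup G) := Nat.card_pos
    have := hpp.two_le
    nlinarith

end Cfsg.Agent.S3897
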