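import Cfsg.Statements.S3898
import Mathlib
import Cfsg.Agent.Lib.IsolatedCount
import Cfsg.Agent.Lib.FrobeniusPComplement
import Cfsg.Agent.Lib.H8PiClasses
import Cfsg.Agent.Lib.ClassCount

set_option autoImplicit false
open Cfsg

namespace Cfsg.Agent.S3898

open CfsgLib.PGrp
open scoped commutatorElement

open CfsgLib CfsgLib.PiCl CfsgLib.PCompl CfsgLib.PRes Subgroup

theorem comm_of_odd {X : Type*} [Group X] [Finite X] (hodd : Odd (Nat.card X))
    (h : Nat.card X < 2 * Nat.card (ConjClasses X)) : IsMulCommutative X := by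
  classical
  by_contra hc
  have := Fintype.ofFinite X
  have h1 := ClassCount.card_conjClasses_mul_card (G := X)
  have h2 : 4 ≤ (center X).index := by
    by_contra h2
    have h3 : (center X).index ≠ 0 := index_ne_zero_of_finite
    have h4 : IsCyclic (X ⧸ center X) := by
      have : (center X).index = 1 ∨ (center X).index = 2 ∨ (center X).index = 3 := by omega
      rcases this with h | h | h
      · have : Subsingleton (X ⧸ center X) := (Nat.card_eq_one_iff_unique.1 h).1
        infer_instance
      · exact isCyclic_of_prime_card (p := 2) h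
      · exact isCyclic_of_prime_card (p := 3) h
    exact hc (isMulCommutative_of_isCyclic_quotient_center_self X)
  have h5 : ∀ x : X, 3 * Nat.card (centralizer ({x} : Set X)) ≤
      Nat.card X + if x ∈ center X then 2 * Nat.card X else 0 := by
    intro x
    split_ifs with hx
    · have := Subgroup.card_le_card_group (centralizer ({x} : Set X))
      omega
    · have h6 := (centralizer ({x} : Set X)).card_mul_index
      have h7 : Odd (centralizer ({x} : Set X)).index :=
        Odd.of_dvd_nat hodd (index_dvd_card _)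
      have h8 := mt ClassCount.index_centralizer_eq_one_iff.1 hx
      have h9 : 3 ≤ (centralizer ({x} : Set X)).index := by
        obtain ⟨k, hk⟩ := h7
        omega
      rw [add_zero, ← h6, mul_comm]
      exact Nat.mul_le_mul_left _ h9
  have h6 := Finset.sum_le_sum fun x (_ : x ∈ Finset.univ) => h5 x
  rw [← Finset.mul_sum, ← h1, Finset.sum_add_distrib, ← Finset.sum_filter, Finset.sum_const,
    Finset.sum_const, Finset.card_univ, ← Fintype.card_subtype, ← Nat.card_eq_fintype_card,
    ← Nat.card_eq_fintype_card, smul_eq_mul, smul_eq_mul] at h6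
  have h7 := (center X).card_mul_index
  have h8 : 0 < Nat.card X := Nat.card_pos
  have h9 : 3 * Nat.card (ConjClasses X) ≤ Nat.card X + 2 * Nat.card (center X) :=
    Nat.le_of_mul_le_mul_right (by linarith) h8
  have h10 := Nat.mul_le_mul_left (Nat.card (center X)) h2
  omega

/-- Let π be a finite set of primes containing 2 and G a finite group. Write k_π(G) for the number of conjugacy classes of G consisting of π-elements (elements all of whose order's prime divisors lie in π) and |G|_π for the π-part of the order of G. If k_π(G) > |G|_π/2, then G has a normal π-complement (a normal subgroup of order prime to π whose index is a π-number) and an abelian Hall subgroup for the set of odd primes in π. -/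
theorem result {G : Type*} [Group G] [Finite G] (π : Finset ℕ) (hπ : ∀ r ∈ π, r.Prime) (h2 : 2 ∈ π)
    (hk : π.prod (fun r => r ^ (Nat.card G).factorization r) < 2 * Nat.card {c : ConjClasses G // ∀ x ∈ c.carrier, ∀ r : ℕ, r.Prime → r ∣ orderOf x → r ∈ π}) :
    (∃ N : Subgroup G, N.Normal ∧ (∀ r : ℕ, r.Prime → r ∣ Nat.card ↥N → r ∉ π) ∧ ∀ r : ℕ, r.Prime → r ∣ N.index → r ∈ π) ∧ ∃ H : Subgroup G, Cfsg.IsPiHall ((↑π : Set ℕ) \ {2}) H ∧ IsMulCommutative ↥H := by
  classical
  have key0 : ∀ r ∈ π, ∀ [Fact r.Prime] (P : Sylow r G), Nat.card (P : Subgroup G) <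
      2 * Nat.card {c : ConjClasses G // ∀ x ∈ c.carrier, ∃ k : ℕ, orderOf x = r ^ k} := by
    intro r hr _ P
    have hrp := hπ r hr
    have e : Nat.card {c : ConjClasses G // ∀ x ∈ c.carrier, ∀ r : ℕ, r.Prime → r ∣ orderOf x →
        r ∈ π} = (piClasses (π : Set ℕ) G).ncard := by
      congr 2
      ext c
      rw [mem_piClasses_iff_forall]
      rfl
    have e' : Nat.card {c : ConjClasses G // ∀ x ∈ c.carrier, ∃ k : ℕ, orderOf x = r ^ k} =
        (piClasses {r} G).ncard := by
      congr 2
      ext c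
      change _ ↔ c ∈ piClasses {r} G
      rw [mem_piClasses_iff_forall]
      exact forall₂_congr fun x _ => (isPiNum_singleton_iff hrp (orderOf_pos x).ne').symm
    rw [e, ← Finset.mul_prod_erase π _ hr, ← P.card_eq_multiplicity] at hk
    set m := ∏ x ∈ π.erase r, x ^ (Nat.card G).factorization x with hm
    have h1 := ncard_piClasses_le_mul (G := G) (π : Set ℕ) {r} m fun y _ => by
      rw [← Finset.coe_erase]
      exact ncard_piClasses_le_prod _ (fun q hq => hπ q (Finset.mem_of_mem_erase hq)) _ _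
        fun q _ => (Nat.factorization_le_iff_dvd Nat.card_pos.ne' Nat.card_pos.ne').mpr
          (card_subgroup_dvd_card _) q
    rw [e']
    apply Nat.lt_of_mul_lt_mul_right (a := m)
    calc _ < _ := hk
      _ ≤ 2 * ((piClasses {r} G).ncard * m) := Nat.mul_le_mul_left _ h1
      _ = _ := by ring
  have hG2 : HasNormalPComplement 2 G := by
    by_contra hn
    obtain ⟨P⟩ : Nonempty (Sylow 2 G) := inferInstance
    obtain ⟨H, g, q, k, hH, -, hg, hq, hq2, ho, hc⟩ :=
      CfsgLib.FrobNPC.exists_not_centralizes_of_not_hnpc hn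
    have hodd : Odd (orderOf g) := ho ▸ (hq.odd_of_ne_two hq2).pow
    exact absurd (key0 2 h2 P) (not_lt.2 (two_mul_card_pClasses_le P hH hg
      ((Nat.coprime_two_right).2 hodd) hodd hc))
  set K := pResidual 2 G with hK
  have hKn : K.Normal := pResidual_normal
  have hKodd : Odd (Nat.card K) := Nat.coprime_two_right.1 (hnpc_iff_coprime_pResidual.1 hG2)
  obtain ⟨e, he⟩ : ∃ e, K.index = 2 ^ e := exists_index_pResidual_eq_pow
  have key : ∀ r ∈ π, r ≠ 2 → ∀ [Fact r.Prime],
      HasNormalPComplement r K ∧ commutator K ≤ pResidual r K := by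
    intro r hr hr2 _
    have hrp := hπ r hr
    have h5 : HasNormalPComplement r K := by
      by_contra hn
      obtain ⟨P⟩ : Nonempty (Sylow r G) := inferInstance
      obtain ⟨H, g, q, k, hH, -, hg, hq, hq2, ho, hc⟩ :=
        CfsgLib.FrobNPC.exists_not_centralizes_of_not_hnpc hn
      refine absurd (key0 r hr P) (not_lt.2 (two_mul_card_pClasses_le P (hH.map K.subtype)
        (y := g) (le_normalizer_map _ ⟨g, hg, rfl⟩) ?_ ?_ fun h => hc fun x hx => ?_))
      · rw [orderOf_coe, ho]
        exact ((Nat.coprime_primes hq hrp).2 hq2).pow_left _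
      · rw [orderOf_coe]
        exact Odd.of_dvd_nat hKodd (orderOf_dvd_natCard g)
      · exact Subtype.ext (h _ ⟨x, hx, rfl⟩)
    obtain ⟨P⟩ : Nonempty (Sylow r K) := inferInstance
    obtain ⟨P', hP'⟩ := (P.isPGroup'.map K.subtype).exists_le_sylow
    have h6 : IsMulCommutative (P' : Subgroup G) := by
      refine comm_of_odd ?_ ((key0 r hr P').trans_le (Nat.mul_le_mul_left 2 (card_pClasses_le P')))
      rw [P'.card_eq_multiplicity]
      exact (hrp.odd_of_ne_two hr2).pow
    refine ⟨h5, ?_⟩
    have hN := pResidual_normal (G := K) (p := r)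
    have hc := hnpc_isComplement' h5 P
    rw [commutator_def, commutator_le]
    intro a _ b _
    obtain ⟨⟨n, s⟩, rfl⟩ := hc.2 a
    obtain ⟨⟨n', s'⟩, rfl⟩ := hc.2 b
    rw [← QuotientGroup.eq_one_iff]
    change QuotientGroup.mk' _ _ = 1
    have hn : ∀ n : pResidual r K, QuotientGroup.mk' (pResidual r K) n = 1 := fun n =>
      (QuotientGroup.eq_one_iff _).mpr n.2
    rw [map_commutatorElement, map_mul, map_mul, hn, hn, one_mul, one_mul,
      commutatorElement_eq_one_iff_mul_comm, ← map_mul, ← map_mul]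
    have h7 := congrArg Subtype.val
      (h6.is_comm.comm ⟨_, hP' ⟨_, s.2, rfl⟩⟩ ⟨_, hP' ⟨_, s'.2, rfl⟩⟩)
    exact congrArg _ (Subtype.ext h7)
  let N₀ : Subgroup K := ⨅ r ∈ π.erase 2, pResidual r K
  have hN₀ : N₀.Normal := ⟨fun n hn g => by
    simp only [N₀, mem_iInf] at hn ⊢
    exact fun r hr => pResidual_normal.conj_mem n (hn r hr) g⟩
  have hmem : ∀ x : G, x ∈ N₀.map K.subtype ↔ ∀ r ∈ π, (orderOf x).Coprime r := by
    intro x
    constructor
    · rintro ⟨x, hx, rfl⟩ r hr
      simp only [N₀, SetLike.mem_coe, mem_iInf] at hx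
      rw [subtype_apply, orderOf_coe]
      by_cases hr2 : r = 2
      · rw [hr2]
        exact Nat.coprime_two_right.2 (Odd.of_dvd_nat hKodd (orderOf_dvd_natCard x))
      · have : Fact r.Prime := ⟨hπ r hr⟩
        exact (hnpc_mem_pResidual_iff (key r hr hr2).1).1 (hx r (Finset.mem_erase.2 ⟨hr2, hr⟩))
    · intro h
      refine ⟨⟨x, mem_pResidual_of_coprime (h 2 h2)⟩, ?_, rfl⟩
      simp only [N₀, SetLike.mem_coe, mem_iInf]
      intro r hr
      exact mem_pResidual_of_coprime (by rw [orderOf_mk]; exact h r (Finset.mem_of_mem_erase hr))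
  have hN1 : ∀ r : ℕ, r.Prime → r ∣ Nat.card ↥(N₀.map K.subtype) → r ∉ π := by
    intro r hr hd hrπ
    have : Fact r.Prime := ⟨hr⟩
    obtain ⟨x, hx⟩ := exists_prime_orderOf_dvd_card' r hd
    have h1 := (hmem x).1 x.2 r hrπ
    rw [orderOf_coe, hx, Nat.coprime_self] at h1
    exact hr.ne_one h1
  have hN2 : ∀ r : ℕ, r.Prime → r ∣ (N₀.map K.subtype).index → r ∈ π := by
    intro q hq hd
    by_contra hqπ
    have : Fact q.Prime := ⟨hq⟩
    obtain ⟨Q⟩ : Nonempty (Sylow q G) := inferInstance
    refine Q.not_dvd_index (hd.trans (index_dvd_of_le fun x hx => (hmem x).2 fun r hr => ?_))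
    obtain ⟨k, hk⟩ := IsPGroup.iff_orderOf.1 Q.isPGroup' ⟨x, hx⟩
    rw [orderOf_mk] at hk
    rw [hk]
    exact ((Nat.coprime_primes hq (hπ r hr)).2 fun h => hqπ (h ▸ hr)).pow_left _
  refine ⟨⟨N₀.map K.subtype, ⟨fun n hn g => (hmem _).2 ?_⟩, hN1, hN2⟩, ?_⟩
  · rw [orderOf_conj']
    exact (hmem n).1 hn
  rw [card_map_of_injective K.subtype_injective] at hN1
  rw [index_map_subtype] at hN2
  obtain ⟨H, hH⟩ := exists_right_complement'_of_coprime (N := N₀)
    (Nat.coprime_of_dvd fun r hr h1 h2 => hN1 r hr h1 (hN2 r hr (h2.mul_right _)))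
  refine ⟨H.map K.subtype, ⟨fun r hr hd => ?_, fun r hr hrπ hd => ?_⟩, ?_⟩
  · rw [card_map_of_injective K.subtype_injective] at hd
    refine ⟨hN2 r hr (Dvd.dvd.mul_right (hH.symm.index_eq_card ▸ hd) _), fun h => ?_⟩
    rw [Set.mem_singleton_iff.1 h] at hd
    exact (Nat.not_even_iff_odd.2 hKodd) (even_iff_two_dvd.2 (hd.trans (card_subgroup_dvd_card H)))
  · rw [index_map_subtype, he, hH.index_eq_card] at hd
    rcases hr.dvd_mul.1 hd with h | h
    · exact hN1 r hr h hrπ.1
    · exact hrπ.2 ((Nat.prime_dvd_prime_iff_eq hr Nat.prime_two).1 (hr.dvd_of_dvd_pow h))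
  · have : IsMulCommutative H := by
      refine ⟨⟨fun a b => ?_⟩⟩
      have h1 : (⁅(a : K), (b : K)⁆) ∈ N₀ ⊓ H := by
        refine ⟨?_, ?_⟩
        · refine (le_iInf₂ fun r hr => ?_ : commutator K ≤ N₀)
            (commutator_mem_commutator (mem_top _) (mem_top _))
          have : Fact r.Prime := ⟨hπ r (Finset.mem_of_mem_erase hr)⟩
          exact (key r (Finset.mem_of_mem_erase hr) (Finset.ne_of_mem_erase hr)).2
        · exact H.mul_mem (H.mul_mem (H.mul_mem a.2 b.2) (H.inv_mem a.2)) (H.inv_mem b.2)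
      rw [hH.disjoint.eq_bot, mem_bot, commutatorElement_eq_one_iff_mul_comm] at h1
      exact Subtype.ext h1
    infer_instance

end Cfsg.Agent.S3898
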