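import Cfsg.Statements.S3899
import Cfsg.Agent.Lib.H8PiClasses

set_option autoImplicit false
open Cfsg

namespace Cfsg.Agent.S3899

open CfsgLib CfsgLib.PiCl CfsgLib.PCompl CfsgLib.PRes Subgroup
open scoped commutatorElement

/-- Let π be a finite non-empty set of odd primes with smallest member p and G a finite group. Write k_π(G) for the number of conjugacy classes of G consisting of π-elements (elements all of whose order's prime divisors lie in π) and |G|_π for the π-part of the order of G. If k_π(G) > (p + 1)|G|_π/(2p), then G has a normal π-complement (a normal subgroup of order prime to π whose index is a π-number) and an abelian Hall π-subgroup. -/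
theorem result {G : Type*} [Group G] [Finite G] (π : Finset ℕ) (hπ : ∀ r ∈ π, r.Prime) (h2 : 2 ∉ π) (p : ℕ) (hp : p ∈ π)
    (hmin : ∀ r ∈ π, p ≤ r) (hk : (p + 1) * π.prod (fun r => r ^ (Nat.card G).factorization r) < 2 * p * Nat.card {c : ConjClasses G // ∀ x ∈ c.carrier, ∀ r : ℕ, r.Prime → r ∣ orderOf x → r ∈ π}) :
    (∃ N : Subgroup G, N.Normal ∧ (∀ r : ℕ, r.Prime → r ∣ Nat.card ↥N → r ∉ π) ∧ ∀ r : ℕ, r.Prime → r ∣ N.index → r ∈ π) ∧ ∃ H : Subgroup G, Cfsg.IsPiHall (↑π : Set ℕ) H ∧ IsMulCommutative ↥H := by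
  classical
  have key : ∀ r ∈ π, (Nat.card (pResidual r G)).Coprime r ∧ commutator G ≤ pResidual r G := by
    intro r hr
    have hrp := hπ r hr
    haveI : Fact r.Prime := ⟨hrp⟩
    obtain ⟨P⟩ : Nonempty (Sylow r G) := inferInstance
    have e : Nat.card {c : ConjClasses G // ∀ x ∈ c.carrier, ∀ r : ℕ, r.Prime → r ∣ orderOf x →
        r ∈ π} = (piClasses (π : Set ℕ) G).ncard := by
      congr 2
      ext c
      rw [mem_piClasses_iff_forall]
      rfl
    rw [e, ← Finset.mul_prod_erase π _ hr, ← P.card_eq_multiplicity] at hk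
    set m := ∏ x ∈ π.erase r, x ^ (Nat.card G).factorization x with hm
    have h1 := ncard_piClasses_le_mul (G := G) (π : Set ℕ) {r} m fun y _ => by
      rw [← Finset.coe_erase]
      exact ncard_piClasses_le_prod _ (fun q hq => hπ q (Finset.mem_of_mem_erase hq)) _ _
        fun q _ => (Nat.factorization_le_iff_dvd Nat.card_pos.ne' Nat.card_pos.ne').mpr
          (card_subgroup_dvd_card _) q
    have h2 : (p + 1) * Nat.card (P : Subgroup G) < 2 * p * (piClasses {r} G).ncard := by
      apply Nat.lt_of_mul_lt_mul_right (a := m)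
      calc _ = (p + 1) * (Nat.card (P : Subgroup G) * m) := by ring
        _ < _ := hk
        _ ≤ 2 * p * ((piClasses {r} G).ncard * m) := Nat.mul_le_mul_left _ h1
        _ = _ := by ring
    have h3 : (r + 1) * Nat.card (P : Subgroup G) < 2 * r * (piClasses {r} G).ncard := by
      apply Nat.lt_of_mul_lt_mul_right (a := p)
      have := hmin r hr
      calc (r + 1) * Nat.card (P : Subgroup G) * p
          = ((r + 1) * p) * Nat.card (P : Subgroup G) := by ring
        _ ≤ ((p + 1) * r) * Nat.card (P : Subgroup G) :=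
          Nat.mul_le_mul_right _ (by nlinarith)
        _ = r * ((p + 1) * Nat.card (P : Subgroup G)) := by ring
        _ < r * (2 * p * (piClasses {r} G).ncard) := Nat.mul_lt_mul_of_pos_left h2 hrp.pos
        _ = _ := by ring
    have h4 := normalizer_le_centralizer_of_lt P h3
    have h5 := hnpc_of_normalizer_le_centralizer P h4
    have h6 := le_centralizer_iff_isMulCommutative.mp (le_normalizer.trans h4)
    refine ⟨hnpc_iff_coprime_pResidual.mp h5, ?_⟩
    have hN := pResidual_normal (G := G) (p := r)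
    have hc := hnpc_isComplement' h5 P
    rw [commutator_def, commutator_le]
    intro a _ b _
    obtain ⟨⟨n, s⟩, rfl⟩ := hc.2 a
    obtain ⟨⟨n', s'⟩, rfl⟩ := hc.2 b
    rw [← QuotientGroup.eq_one_iff]
    change QuotientGroup.mk' _ _ = 1
    have hn : ∀ n : pResidual r G, QuotientGroup.mk' (pResidual r G) n = 1 := fun n =>
      (QuotientGroup.eq_one_iff _).mpr n.2
    rw [map_commutatorElement, map_mul, map_mul, hn, hn, one_mul, one_mul,
      commutatorElement_eq_one_iff_mul_comm, ← map_mul, ← map_mul]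
    exact congrArg _ (congrArg Subtype.val (h6.is_comm.comm s s'))
  let N : Subgroup G := ⨅ r ∈ π, pResidual r G
  have hNr : ∀ r ∈ π, N ≤ pResidual r G := fun r hr => biInf_le _ hr
  have hN : N.Normal := ⟨fun n hn g => by
    simp only [N, mem_iInf] at hn ⊢
    exact fun r hr => pResidual_normal.conj_mem n (hn r hr) g⟩
  have hN1 : ∀ r : ℕ, r.Prime → r ∣ Nat.card ↥N → r ∉ π := fun r hr hd hrπ =>
    (Nat.Prime.coprime_iff_not_dvd hr).mp (key r hrπ).1.symm
      (hd.trans (card_dvd_of_le (hNr r hrπ)))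
  have hN2 : ∀ r : ℕ, r.Prime → r ∣ N.index → r ∈ π := by
    intro q hq hd
    by_contra hqπ
    haveI : Fact q.Prime := ⟨hq⟩
    obtain ⟨x, hx⟩ := exists_prime_orderOf_dvd_card' (G := G ⧸ N) q hd
    obtain ⟨x, rfl⟩ := QuotientGroup.mk'_surjective N x
    obtain ⟨u, -, hu, hu'⟩ := exists_lift_isPiNum (QuotientGroup.mk' N) (π := {q}) x
      (by rw [hx]; exact isPiNum_prime hq rfl)
    have : u ∈ N := by
      simp only [N, mem_iInf]
      intro r hr
      haveI : Fact r.Prime := ⟨hπ r hr⟩
      apply mem_pResidual_of_coprime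
      rw [Nat.coprime_comm, Nat.Prime.coprime_iff_not_dvd (hπ r hr)]
      intro hd'
      exact hqπ ((hu' r (hπ r hr) hd' : r = q) ▸ hr)
    have h1 : QuotientGroup.mk' N u = 1 := (QuotientGroup.eq_one_iff _).mpr this
    rw [← hu, h1, orderOf_one] at hx
    exact hq.ne_one hx.symm
  refine ⟨⟨N, hN, hN1, hN2⟩, ?_⟩
  obtain ⟨H, hH⟩ := exists_right_complement'_of_coprime (N := N)
    (Nat.coprime_of_dvd fun r hr h1 h2 => hN1 r hr h1 (hN2 r hr h2))
  refine ⟨H, ⟨fun r hr hd => hN2 r hr (hH.symm.index_eq_card ▸ hd),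
    fun r hr hrπ hd => hN1 r hr (hH.index_eq_card ▸ hd) hrπ⟩, ⟨⟨fun a b => ?_⟩⟩⟩
  have h1 : (⁅(a : G), (b : G)⁆) ∈ N ⊓ H := by
    refine ⟨?_, ?_⟩
    · exact (le_iInf₂ fun r hr => (key r hr).2 : commutator G ≤ N)
        (commutator_mem_commutator (mem_top _) (mem_top _))
    · exact H.mul_mem (H.mul_mem (H.mul_mem a.2 b.2) (H.inv_mem a.2)) (H.inv_mem b.2)
  rw [hH.disjoint.eq_bot, mem_bot, commutatorElement_eq_one_iff_mul_comm] at h1
  exact Subtype.ext h1

end Cfsg.Agent.S3899
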