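import Cfsg.Statements.S3900
import Mathlib
import Cfsg.Agent.Lib.H5MaxClass
import Cfsg.Agent.Lib.H5Real
import Cfsg.Agent.Lib.H5Involutions
import Cfsg.Agent.Lib.H5Small
import Cfsg.Agent.Lib.FrobeniusPComplement
import Cfsg.Agent.Lib.SylowIn
import Cfsg.Agent.Lib.CoreSolvable
import Cfsg.Agent.Lib.FT.Main

set_option autoImplicit false
open Cfsg

namespace Cfsg.Agent.S3900
open Subgroup CfsgLib CfsgLib.H5
open scoped commutatorElement

section basic
variable {G : Type*} [Group G]

/-- Left-normed commutator values with entries in `S`. -/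
def V (S : Subgroup G) : ℕ → G → Prop
  | 0, x => x ∈ S
  | k + 1, x => ∃ a b, V S k a ∧ b ∈ S ∧ x = ⁅a, b⁆

theorem comm_mem {S : Subgroup G} {a b : G} (ha : a ∈ S) (hb : b ∈ S) : ⁅a, b⁆ ∈ S := by
  rw [commutatorElement_def]
  exact mul_mem (mul_mem (mul_mem ha hb) (inv_mem ha)) (inv_mem hb)

theorem V.mem {S : Subgroup G} {k : ℕ} {x : G} (h : V S k x) : x ∈ S := by
  induction k generalizing x with
  | zero => exact h
  | succ k ih => obtain ⟨a, b, ha, hb, rfl⟩ := h; exact comm_mem (ih ha) hb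

theorem V.of_succ {S : Subgroup G} {k : ℕ} {x : G} (h : V S (k + 1) x) : V S k x := by
  induction k generalizing x with
  | zero => exact h.mem
  | succ k ih => obtain ⟨a, b, ha, hb, rfl⟩ := h; exact ⟨a, b, ih ha, hb, rfl⟩

theorem V.comm {S : Subgroup G} {k : ℕ} {x y : G} (h : V S k x) (hy : y ∈ S) : V S k ⁅x, y⁆ :=
  V.of_succ ⟨x, y, h, hy, rfl⟩

theorem V.map {G' : Type*} [Group G'] (f : G →* G') {S : Subgroup G} {k : ℕ} {x : G}
    (h : V S k x) : V ⊤ k (f x) := by
  induction k generalizing x with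
  | zero => exact mem_top _
  | succ k ih =>
    obtain ⟨a, b, ha, -, rfl⟩ := h
    exact ⟨f a, f b, ih ha, mem_top _, map_commutatorElement f a b⟩

theorem V.top {S : Subgroup G} {k : ℕ} {x : G} (h : V S k x) : V ⊤ k x := h.map (MonoidHom.id G)

theorem V.lift {G' : Type*} [Group G'] (f : G →* G') {S : Subgroup G} {k : ℕ} {y : G'}
    (h : V (S.map f) k y) : ∃ x, V S k x ∧ f x = y := by
  induction k generalizing y with
  | zero => exact h
  | succ k ih =>
    obtain ⟨a, _, ha, ⟨b, hb, rfl⟩, rfl⟩ := h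
    obtain ⟨c, hc, rfl⟩ := ih ha
    exact ⟨⁅c, b⁆, ⟨c, b, hc, hb, rfl⟩, map_commutatorElement f c b⟩

theorem V.exists_fn {k : ℕ} {x : G} (h : V ⊤ k x) : ∃ f : Fin (k + 1) → G,
    x = ((List.ofFn f).tail).foldl (fun a b => a * b * a⁻¹ * b⁻¹) (f 0) := by
  have : ∃ (l : List G) (x0 : G), l.length = k ∧
      x = l.foldl (fun a b => a * b * a⁻¹ * b⁻¹) x0 := by
    induction k generalizing x with
    | zero => exact ⟨[], x, rfl, rfl⟩
    | succ k ih =>
      obtain ⟨a, b, ha, -, rfl⟩ := h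
      obtain ⟨l, x0, hl, rfl⟩ := ih ha
      exact ⟨l ++ [b], x0, by simp [hl], by rw [List.foldl_append]; rfl⟩
  obtain ⟨l, x0, rfl, rfl⟩ := this
  exact ⟨Fin.cons x0 l.get, by simp⟩

theorem foldl_mem (l : List G) {j : ℕ} {x : G} (hx : x ∈ (⊤ : Subgroup G).lowerCentralSeries j) :
    l.foldl (fun a b => a * b * a⁻¹ * b⁻¹) x ∈
      (⊤ : Subgroup G).lowerCentralSeries (j + l.length) := by
  induction l generalizing j x with
  | nil => exact hx
  | cons b l ih =>
    rw [List.length_cons, ← add_assoc, add_right_comm]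
    exact ih (comm_mem_lcs_left hx b)

/-- Iterated commutators `[y, a, ..., a]`. -/
def it (a y : G) (j : ℕ) : G := (fun c => ⁅c, a⁆)^[j] y

theorem it_succ (a y : G) (j : ℕ) : it a y (j + 1) = ⁅it a y j, a⁆ :=
  Function.iterate_succ_apply' _ _ _

theorem it_succ' (a y : G) (j : ℕ) : it a y (j + 1) = it a ⁅y, a⁆ j := rfl

theorem V_it (a y : G) (j : ℕ) : V ⊤ j (it a y j) := by
  induction j with
  | zero => exact mem_top _
  | succ j ih => exact ⟨_, a, ih, mem_top _, it_succ a y j⟩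

theorem map_it {G' : Type*} [Group G'] (f : G →* G') (a y : G) (j : ℕ) :
    f (it a y j) = it (f a) (f y) j := by
  induction j with
  | zero => rfl
  | succ j ih => rw [it_succ, it_succ, map_commutatorElement, ih]

theorem comm_mem_of_norm {N : Subgroup G} {a y : G} (ha : a ∈ normalizer (N : Set G))
    (hy : y ∈ N) : ⁅y, a⁆ ∈ N := by
  have := mul_mem hy (conj_mem_of_mem_normalizer ha (inv_mem hy))
  rwa [← mul_assoc, ← mul_assoc] at this

theorem it_mem {N : Subgroup G} {a y : G} (ha : a ∈ normalizer (N : Set G)) (hy : y ∈ N) (j : ℕ) :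
    it a y j ∈ N := by
  induction j with
  | zero => exact hy
  | succ j ih => rw [it_succ]; exact comm_mem_of_norm ha ih

theorem comm_eq_one_of_it {N : Subgroup G} {a y : G} (ha : a ∈ normalizer (N : Set G))
    (hc : (orderOf a).Coprime (Nat.card N)) (hy : y ∈ N) {j : ℕ} (h : it a y j = 1) :
    ⁅y, a⁆ = 1 := by
  induction j generalizing y with
  | zero => rw [show y = 1 from h, commutatorElement_one_left]
  | succ j ih =>
    have h1 := comm_mem_of_norm ha hy
    have h2 := commutatorElement_eq_one_iff_commute.1 (ih h1 h)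
    have h3 : (⁅y, a⁆ * a) ^ orderOf a = 1 := by
      rw [commutatorElement_def, inv_mul_cancel_right, conj_pow, pow_orderOf_eq_one]; simp
    rw [h2.mul_pow, pow_orderOf_eq_one, mul_one] at h3
    exact orderOf_eq_one_iff.1 (Nat.eq_one_of_dvd_coprimes hc (orderOf_dvd_of_pow_eq_one h3)
      (orderOf_dvd_natCard N h1))

theorem it_pow {A : Subgroup G} (hA : ∀ x ∈ A, ∀ y ∈ A, Commute x y) {a y : G}
    (ha : a ∈ normalizer (A : Set G)) (hy : y ∈ A) (n j : ℕ) : it a (y ^ n) j = it a y j ^ n := by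
  induction j with
  | zero => rfl
  | succ j ih =>
    rw [it_succ, it_succ, ih, CommCalc.comm_pow_left]
    exact hA _ (it_mem ha hy j) _ (comm_mem_of_norm ha (it_mem ha hy j))

/-- Values centralize the subgroups of coprime order that they normalize. -/
def Star (k : ℕ) (G : Type*) [Group G] : Prop :=
  ∀ x : G, V ⊤ k x → ∀ N : Subgroup G, x ∈ normalizer (N : Set G) →
    (orderOf x).Coprime (Nat.card N) → ∀ y ∈ N, Commute y x

theorem Star.subgroup {k : ℕ} [Finite G] (h : Star k G) (H : Subgroup G) : Star k H := by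
  intro x hx N hN hc y hy
  have := h x (hx.map H.subtype) (N.map H.subtype) (le_normalizer_map _ (mem_map_of_mem _ hN))
    (by rwa [orderOf_coe, card_map_subtype]) y (mem_map_of_mem _ hy)
  exact Subtype.ext this.eq

variable [Finite G]

theorem exists_lift {G' : Type*} [Group G'] {f : G →* G'} (hf : Function.Surjective f) {q : ℕ}
    [hq : Fact q.Prime] {W : Subgroup G'} (hW : IsPGroup q W) {a' : G'}
    (ha : a' ∈ normalizer (W : Set G')) {p : ℕ} (hp : p.Prime) (ho : ∃ k, orderOf a' = p ^ k) :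
    ∃ (U : Subgroup G) (a : G), IsPGroup q U ∧ U.map f = W ∧ a ∈ normalizer (U : Set G) ∧
      f a = a' ∧ ∃ k, orderOf a = p ^ k := by
  haveI : Finite G' := Finite.of_surjective f hf
  obtain ⟨U, hU⟩ := IsSylowIn.exists_in (p := q) (W.comap f)
  have h1 := hU.map f
  rw [map_comap_eq_self_of_surjective hf] at h1
  have h2 : U.map f = W := (h1.eq_of_le hW h1.le le_rfl).symm
  obtain ⟨g, rfl⟩ := hf a'
  obtain ⟨r, hr, hrg⟩ := hU.frattini_elem (g := g) (le_normalizer_comap f ha)
  obtain ⟨u, hu, hur⟩ : f r ∈ U.map f := h2 ▸ hr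
  have h3 : f (u⁻¹ * (r * g)) = f g := by rw [map_mul, map_mul, map_inv, hur]; group
  obtain ⟨a, ha1, ha2, ha3⟩ := exists_lift_isPiNum (π := {p}) f (u⁻¹ * (r * g))
    (by rw [h3]; exact (isPiNum_singleton_iff hp (orderOf_pos _).ne').2 ho)
  exact ⟨U, a, hU.isPGroup, h2, zpowers_le.2 (mul_mem (inv_mem (le_normalizer hu)) hrg) ha1,
    ha2.trans h3, (isPiNum_singleton_iff hp (orderOf_pos _).ne').1 ha3⟩

omit [Finite G] in
theorem coprime_of {G' : Type*} [Group G'] [Finite G'] {p q : ℕ} (hp : p.Prime) [hq : Fact q.Prime]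
    (hpq : p ≠ q) {x : G} (hx : ∃ k, orderOf x = p ^ k) {U : Subgroup G'} (hU : IsPGroup q U) :
    (orderOf x).Coprime (Nat.card U) := by
  obtain ⟨k, hk⟩ := hx
  obtain ⟨l, hl⟩ := IsPGroup.iff_card.1 hU
  rw [hk, hl]
  exact Nat.Coprime.pow _ _ ((Nat.coprime_primes hp hq.out).2 hpq)

theorem mem_pCore_of {r : ℕ} [Fact r.Prime] {x : G} (hx : x ∈ fittingSubgroup G)
    (ho : ∃ k, orderOf x = r ^ k) : x ∈ pCore r G :=
  le_pCore_of_le_fitting (zpowers_le.2 hx) (isPGroup_zpowers_iff.2 ho) (mem_zpowers x)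

/-- A normal subgroup that is a `q`-group modulo `F` and centralizes the other cores. -/
theorem le_fitting_of {q : ℕ} [hq : Fact q.Prime] (C : Subgroup G) [C.Normal]
    (h1 : IsPGroup q (C.map (QuotientGroup.mk' (fittingSubgroup G))))
    (h2 : ∀ (r s : ℕ) (x y : G), r.Prime → s.Prime → r ≠ s → r ≠ q → x ∈ pCore r G → y ∈ C →
      (∃ k, orderOf y = s ^ k) → Commute x y) : C ≤ fittingSubgroup G := by
  have key : ∀ (r s : ℕ) (x y : C), r.Prime → s.Prime → r ≠ s → r ≠ q → (∃ k, orderOf x = r ^ k) →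
      (∃ k, orderOf y = s ^ k) → Commute x y := fun r s x y hr hs hrs hrq hx hy => by
    haveI := Fact.mk hr
    rw [← orderOf_coe] at hx hy
    refine Subtype.ext (h2 r s x y hr hs hrs hrq (mem_pCore_of ?_ hx) y.2 hy).eq
    rw [← QuotientGroup.eq_one_iff, ← orderOf_eq_one_iff]
    exact Nat.eq_one_of_dvd_coprimes (coprime_of hr hrq hx h1)
      (orderOf_map_dvd (QuotientGroup.mk' _) (x : G)) (orderOf_dvd_natCard _ (mem_map_of_mem _ x.2))
  refine le_fitting (isNilpotent_of_forall_commute fun r s x y hr hs hrs hx hy => ?_)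
  by_cases hrq : r = q
  · exact (key s r y x hs hr hrs.symm (hrq ▸ hrs.symm) hy hx).symm
  · exact key r s x y hr hs hrs hrq hx hy

theorem isNilpotent_of_cores [Group.IsSolvable G]
    (h : ∀ (r s : ℕ) (x y : G), r.Prime → s.Prime → r ≠ s → x ∈ pCore r G →
      (∃ k, orderOf y = s ^ k) → Commute x y) : Group.IsNilpotent G := by
  rw [← fitting_eq_top_iff]
  by_contra hF
  haveI : Nontrivial (G ⧸ fittingSubgroup G) := QuotientGroup.nontrivial_iff.2 hF
  obtain ⟨q, hq, hne⟩ := exists_pCore_ne_bot (G := G ⧸ fittingSubgroup G)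
  haveI := Fact.mk hq
  have := le_fitting_of (q := q) ((pCore q _).comap (QuotientGroup.mk' (fittingSubgroup G)))
    ((pCore_isPGroup q).to_le (map_comap_le _ _)) fun r s x y hr hs hrs _ hx _ hy =>
      h r s x y hr hs hrs hx hy
  refine hne (eq_bot_iff.2 fun z hz => ?_)
  obtain ⟨z, rfl⟩ := QuotientGroup.mk'_surjective _ z
  exact (QuotientGroup.eq_one_iff z).2 (this hz)

theorem Star.mem_fitting {k q : ℕ} (h : Star k G) [hq : Fact q.Prime] {x : G} (hx : V ⊤ k x)
    (ho : ∃ k, orderOf x = q ^ k) (h1 : (x : G ⧸ fittingSubgroup G) ∈ pCore q _) :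
    x ∈ fittingSubgroup G := by
  refine le_fitting_of (q := q) ((pCore q _).comap (QuotientGroup.mk' (fittingSubgroup G)) ⊓
    centralizer (pPrimeCore q G : Set G))
    ((pCore_isPGroup q).to_le ((map_mono inf_le_left).trans (map_comap_le _ _)))
    (fun r s x y hr _ _ hrq hx hy _ => ?_) (mem_inf.2 ⟨h1, mem_centralizer_iff.2 fun y hy => ?_⟩)
  · haveI := Fact.mk hr
    obtain ⟨l, hl⟩ := IsPGroup.iff_card.1 (pCore_isPGroup (G := G) r)
    exact mem_centralizer_iff.1 (mem_inf.1 hy).2 x (le_pPrimeCore (by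
      rw [hl]; exact ((Nat.coprime_primes hr hq.out).2 hrq).pow_left _) hx)
  · obtain ⟨l, hl⟩ := ho
    exact h x hx _ (CommCalc.le_normalizer_of_normal' _ ⊤ (mem_top x))
      (hl ▸ (pPrimeCore_coprime q).symm.pow_left _) y hy

theorem lcs_le_ucs [Group.IsNilpotent G] (k : ℕ) : ∀ j : ℕ,
    (∀ q : ℕ, q.Prime → ∀ x, V (pCore q G) k x → x ∈ Subgroup.upperCentralSeries G j) →
      (⊤ : Subgroup G).lowerCentralSeries k ≤ Subgroup.upperCentralSeries G j := by
  have hF := fitting_eq_top_iff.2 ‹Group.IsNilpotent G›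
  induction k with
  | zero =>
    intro j h
    exact hF.ge.trans (fitting_le_of_forall_pCore_le fun q hq x hx => h q hq.out x hx)
  | succ k ih =>
    intro j h
    refine commutator_le.2 fun x hx y _ => Subgroup.mem_upperCentralSeries_succ_iff.1
      (ih (j + 1) (fun q hq x hx => Subgroup.mem_upperCentralSeries_succ_iff.2 fun y => ?_) hx) y
    refine mem_relCent_single.1 ((hF.ge.trans (fitting_le_of_forall_pCore_le
      fun r hr z hz => mem_relCent_single.2 ?_)) (mem_top y))
    by_cases hrq : q = r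
    · subst hrq; exact h q hq _ ⟨x, z, hx, hz, rfl⟩
    · haveI := Fact.mk hq
      rw [commutatorElement_eq_one_iff_commute.2 (commute_of_coprime_of_isNilpotent
        ((coprime_of hq hrq (orderOf_eq_pow_of_mem_isPGroup (pCore_isPGroup q) hx.mem)
          (pCore_isPGroup r)).coprime_dvd_right (orderOf_dvd_natCard _ hz)))]
      exact one_mem _

theorem Star.isNilpotent_lcs {k : ℕ} (h : Star k G) [Group.IsSolvable G] :
    Group.IsNilpotent ((⊤ : Subgroup G).lowerCentralSeries k) := by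
  set f := QuotientGroup.mk' (fittingSubgroup G)
  have hf : Function.Surjective f := QuotientGroup.mk'_surjective _
  haveI : Group.IsNilpotent (G ⧸ fittingSubgroup G) := by
    refine isNilpotent_of_cores fun r s x y hr hs hrs hx hy => ?_
    haveI := Fact.mk hr
    obtain ⟨U, a, h1, h2, h3, rfl, h4⟩ := exists_lift hf (pCore_isPGroup r) (a' := y)
      (CommCalc.le_normalizer_of_normal' _ ⊤ (mem_top y)) hs hy
    obtain ⟨u, hu, rfl⟩ : x ∈ U.map f := h2 ▸ hx
    have h5 := it_mem h3 hu k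
    have h6 := h.mem_fitting (V_it a u k) (orderOf_eq_pow_of_mem_isPGroup h1 h5)
      (h2 ▸ mem_map_of_mem f h5)
    refine commutatorElement_eq_one_iff_commute.1 (comm_eq_one_of_it (N := pCore r _)
      (CommCalc.le_normalizer_of_normal' _ ⊤ (mem_top _))
      (coprime_of hs hrs.symm hy (pCore_isPGroup r)) hx (j := k) ?_)
    rw [← map_it]
    exact (QuotientGroup.eq_one_iff _).2 h6
  have key := lcs_le_ucs (G := G ⧸ fittingSubgroup G) k 0 fun q hq x hx => by
    haveI := Fact.mk hq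
    obtain ⟨U, -, h1, h2, -⟩ := exists_lift hf (pCore_isPGroup q) (a' := 1) (one_mem _) hq
      ⟨0, by simp⟩
    obtain ⟨u, hu, rfl⟩ := V.lift f (h2.symm ▸ hx)
    exact (QuotientGroup.eq_one_iff _).2 (h.mem_fitting hu.top
      (orderOf_eq_pow_of_mem_isPGroup h1 hu.mem) hx.mem)
  refine isNilpotent_of_le fitting_isNilpotent fun x hx => ?_
  have h1 := mem_map_of_mem f hx
  rw [Subgroup.map_lowerCentralSeries, map_top_of_surjective f hf] at h1
  exact (QuotientGroup.eq_one_iff _).1 (key h1)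

theorem exists_invol {W : Subgroup G} (hW : IsPGroup 2 W) {a : G} (ha : a ∈ normalizer (W : Set G))
    (hc : (orderOf a).Coprime (Nat.card W)) (hn : a ∉ centralizer (W : Set G)) (k : ℕ)
    (P : G → Prop) (h1 : ∀ v ∈ W, P (it a v k)) (h2 : ∀ y, ∀ w ∈ W, P y → P ⁅y, w⁆) :
    ∃ t, P t ∧ orderOf t = 2 := by
  have pw : ∀ u ∈ W, u ≠ 1 → ∃ n, orderOf (u ^ n) = 2 := fun u hu hu1 => by
    obtain ⟨l, hl⟩ := orderOf_eq_pow_of_mem_isPGroup hW hu
    rcases l with _ | l
    · exact absurd (orderOf_eq_one_iff.1 hl) hu1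
    obtain ⟨t, ht, ht2⟩ := exists_involution_mem_zpowers (x := u) (hl ▸ dvd_pow_self 2 (by omega))
    obtain ⟨n, rfl⟩ := mem_powers_iff_mem_zpowers.2 ht
    exact ⟨n, ht2⟩
  by_cases hZ : ∃ v ∈ W ⊓ centralizer (W : Set G), ⁅v, a⁆ ≠ 1
  · obtain ⟨v, hv, hva⟩ := hZ
    have hv1 := (mem_inf.1 hv).1
    obtain ⟨n, hn⟩ := pw _ (it_mem ha hv1 k) fun h => hva (comm_eq_one_of_it ha hc hv1 h)
    refine ⟨_, h1 _ (pow_mem hv1 n), ?_⟩
    rwa [it_pow (A := W ⊓ centralizer (W : Set G))
      (fun x hx y hy => mem_centralizer_iff.1 (mem_inf.1 hy).2 x (mem_inf.1 hx).1)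
      (inf_normalizer_le_normalizer_inf
        (mem_inf.2 ⟨ha, FrobNPC.normalizer_le_normalizer_centralizer W ha⟩)) hv]
  push Not at hZ
  obtain ⟨v, hv, hva⟩ : ∃ v ∈ W, ⁅v, a⁆ ≠ 1 := by
    by_contra hcon
    push Not at hcon
    exact hn (mem_centralizer_iff.2 fun v hv => commutatorElement_eq_one_iff_mul_comm.1 (hcon v hv))
  have hu := it_mem ha hv k
  obtain ⟨w, hw, huw⟩ : ∃ w ∈ W, ⁅it a v k, w⁆ ≠ 1 := by
    by_contra hcon
    push Not at hcon
    exact hva (comm_eq_one_of_it ha hc hv (j := k + 1) (by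
      rw [it_succ]
      exact hZ _ (mem_inf.2 ⟨hu, mem_centralizer_iff.2 fun w hw =>
        (commutatorElement_eq_one_iff_mul_comm.1 (hcon w hw)).symm⟩)))
  set u := it a v k
  have hex : ∃ j, it w u (j + 2) = 1 := by
    haveI := hW.isNilpotent
    obtain ⟨c, hc⟩ := Subgroup.nilpotent_iff_lowerCentralSeries.1 (inferInstance : Group.IsNilpotent W)
    refine ⟨c, ?_⟩
    have : ∀ j, it (⟨w, hw⟩ : W) ⟨u, hu⟩ j ∈ (⊤ : Subgroup W).lowerCentralSeries j := fun j => by
      induction j with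
      | zero => exact mem_top _
      | succ j ih => rw [it_succ]; exact comm_mem_lcs_left ih _
    have h3 := lcs_le_of_le (show c ≤ c + 2 by omega) (this (c + 2))
    rw [hc, mem_bot] at h3
    have := map_it W.subtype ⟨w, hw⟩ ⟨u, hu⟩ (c + 2)
    rw [h3, map_one] at this
    exact this.symm
  classical
  have h3 := Nat.find_spec hex
  have h4 : it w u (Nat.find hex + 1) ≠ 1 := by
    rcases h : Nat.find hex with _ | j
    · exact huw
    · exact Nat.find_min hex (show j < Nat.find hex by omega)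
  set j := Nat.find hex
  have h5 : ∀ i, P (it w u i) := fun i => by
    induction i with
    | zero => exact h1 v hv
    | succ i ih => rw [it_succ]; exact h2 _ w hw ih
  obtain ⟨n, hn⟩ := pw _ (it_mem (le_normalizer hw) hu (j + 1)) h4
  refine ⟨_, h2 _ _ (pow_mem hw n) (h5 j), ?_⟩
  rw [CommCalc.comm_pow_right, ← it_succ, hn]
  rw [← it_succ]
  rw [it_succ] at h3
  exact (commutatorElement_eq_one_iff_commute.1 h3).symm

end basic

theorem Star.isSolvable.{u} (k : ℕ) (G : Type u) [Group G] [Finite G] :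
    Star k G → Group.IsSolvable G := by
  refine card_induction (P := fun X _ _ => Star k X → Group.IsSolvable X) ?_ G
  intro G _ _ ih h
  by_contra hns
  have hprop : ∀ H : Subgroup G, H ≠ ⊤ → Group.IsSolvable H := fun H hH =>
    ih H (card_lt_of_ne_top hH) (h.subgroup H)
  set R := solvableRadical G
  have hsup : ∀ H : Subgroup G, H ≠ ⊤ → H ⊔ R ≠ ⊤ := fun H hH h' => hns (isSolvable_top_iff.1
    (h' ▸ isSolvable_sup_of_normal (hprop H hH) solvableRadical_isSolvable))
  have hRF : R ≤ fittingSubgroup G := fun x hx => frattini_le_fitting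
    (PGrp.mem_frattini_iff.2 fun M hM => by
      by_contra hxM
      exact hsup M hM.1 (hM.2 _ (lt_of_le_not_ge le_sup_left fun h' => hxM (h' (mem_sup_right hx)))))
  set f := QuotientGroup.mk' R
  have hf : Function.Surjective f := QuotientGroup.mk'_surjective _
  have hO : pCore 2 (G ⧸ R) = ⊥ := le_bot_iff.1 ((le_solvableRadical
    (isSolvable_of_isPGroup (pCore_isPGroup 2))).trans solvableRadical_quotient_solvableRadical.le)
  have hn2 : ¬ HasNormalPComplement 2 (G ⧸ R) := fun h' => by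
    obtain ⟨N, hN, h1, l, h2⟩ := PCompl.hnpc_exists_normal h'
    exact hns (isSolvable_of_normal_of_quotient R solvableRadical_isSolvable
      (isSolvable_of_normal_of_quotient N (FT.feit_thompson (Nat.coprime_two_right.1 h1))
        (isSolvable_of_isPGroup (p := 2) (IsPGroup.of_card h2))))
  obtain ⟨W, a', q, l, hW, -, ha', hq, hq2, hao, hnc⟩ :=
    FrobNPC.exists_not_centralizes_of_not_hnpc hn2
  obtain ⟨U, a, hU, rfl, ha, rfl, -⟩ := exists_lift hf hW ha' hq ⟨l, hao⟩
  obtain ⟨_, ⟨t, htU, htV, rfl⟩, ht2⟩ := exists_invol hW ha' (coprime_of hq hq2 ⟨l, hao⟩ hW) hnc k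
    (fun y => ∃ x ∈ U, V ⊤ k x ∧ f x = y)
    (by rintro _ ⟨v, hv, rfl⟩; exact ⟨_, it_mem ha hv k, V_it a v k, map_it f a v k⟩)
    (by
      rintro _ _ ⟨w, hw, rfl⟩ ⟨x, hx, hxV, rfl⟩
      exact ⟨_, comm_mem hx hw, hxV.comm (mem_top w), map_commutatorElement f x w⟩)
  obtain ⟨y', hr, hr2, hinv⟩ := exists_inverted_of_notMem_pCore (t := f t)
    (ht2 ▸ pow_orderOf_eq_one _) (by
      rw [hO, mem_bot]; intro h'; rw [h', orderOf_one] at ht2; omega)
  haveI := Fact.mk hr
  have hY' : IsPGroup (orderOf y') (zpowers y') := isPGroup_zpowers_iff.2 ⟨1, (pow_one _).symm⟩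
  have htn : f t ∈ normalizer (zpowers y' : Set (G ⧸ R)) := mem_normalizer_of_conj_mem fun z hz => by
    rw [inverts_of_mem_zpowers hinv hz]; exact inv_mem hz
  have hnc' : ⁅y', f t⁆ ≠ 1 := fun h' => by
    have h1 := (commutatorElement_eq_one_iff_commute.1 h').symm.eq
    rw [h1, mul_inv_cancel_right, ← mul_eq_one_iff_eq_inv, ← sq] at hinv
    exact hr2 ((Nat.prime_dvd_prime_iff_eq hr Nat.prime_two).1 (orderOf_dvd_of_pow_eq_one hinv))
  obtain ⟨Y, s, hY, hYm, hs, hst, hso⟩ := exists_lift hf hY' htn Nat.prime_two ⟨1, ht2⟩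
  obtain ⟨y, hy, rfl⟩ : y' ∈ Y.map f := hYm ▸ mem_zpowers y'
  have hcent : pCore 2 G ≤ center G := by
    have h1 := it_mem hs hy k
    have h2 : it s y k ∈ centralizer (pCore 2 G : Set G) := mem_centralizer_iff.2 fun z hz =>
      h _ (V_it s y k) _ (CommCalc.le_normalizer_of_normal' _ ⊤ (mem_top _))
        (coprime_of hr hr2 (orderOf_eq_pow_of_mem_isPGroup hY h1) (pCore_isPGroup 2)) z hz
    refine centralizer_eq_top_iff_subset.1 ?_
    by_contra hne
    have h3 := le_solvableRadical (hprop _ hne) h2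
    refine hnc' (comm_eq_one_of_it htn (coprime_of Nat.prime_two (Ne.symm hr2) ⟨1, ht2⟩ hY')
      (mem_zpowers _) (j := k) ?_)
    rw [← hst, ← map_it]
    exact (QuotientGroup.eq_one_iff _).2 h3
  have hto := orderOf_eq_pow_of_mem_isPGroup hU htU
  obtain ⟨S, hsS, hS⟩ := IsSylowIn.exists_ge (p := 2) (H := (zpowers (f t)).comap f)
    (isPGroup_zpowers_iff.2 hso) (zpowers_le.2 (by rw [mem_comap, hst]; exact mem_zpowers _))
  obtain ⟨b, hb, hbt⟩ := hS.exists_conj_le (isPGroup_zpowers_iff.2 hto)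
    (zpowers_le.2 (mem_zpowers (f t)))
  have h1 : b * t * b⁻¹ ∈ S := hbt (conj_mem_map_conj (mem_zpowers t))
  have h2 : f (b * t * b⁻¹) = f t := by
    rw [map_mul, map_mul, map_inv, (commute_of_mem_zpowers hb (mem_zpowers _)).eq,
      mul_inv_cancel_right]
  have h3 : s⁻¹ * (b * t * b⁻¹) ∈ center G := hcent (mem_pCore_of
    (hRF (QuotientGroup.eq.1 (hst.trans h2.symm)))
    (orderOf_eq_pow_of_mem_isPGroup hS.isPGroup (mul_mem (inv_mem (hsS (mem_zpowers s))) h1)))
  have h4 : b * t * b⁻¹ ∈ normalizer (Y : Set G) := by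
    have := mul_mem hs (center_le_normalizer _ h3)
    rwa [mul_inv_cancel_left] at this
  have h5 := h _ (htV.map (MulAut.conj b).toMonoidHom) Y h4 (coprime_of Nat.prime_two (Ne.symm hr2)
    (orderOf_eq_pow_of_mem_isPGroup hS.isPGroup h1) hY) y hy
  refine hnc' (commutatorElement_eq_one_iff_commute.2 ?_)
  rw [← h2]
  exact h5.map f


/-- A criterion of Baumslag–Wiegold type for a term of the lower central series. Let G be a finite group and k ≥ 0; call an element a left-normed commutator value of length k + 1 when it has the form [[…[x₀, x₁], …], x_k] with k + 1 entries (for k = 0, any element), where [a, b] = aba⁻¹b⁻¹. Then the (k+1)-st term γ_{k+1}(G) of the lower central series (γ₁(G) = G) is nilpotent if and only if for every two such values x, y of coprime orders, either every prime dividing o(x)·o(y) divides o(xy), or o(x)·o(y) ≤ o(xy). -/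
theorem result {G : Type*} [Group G] [Finite G] (k : ℕ) :
    Group.IsNilpotent ↥((⊤ : Subgroup G).lowerCentralSeries k) ↔
      ∀ x y : G, (∃ f : Fin (k + 1) → G, x = ((List.ofFn f).tail).foldl (fun a b => a * b * a⁻¹ * b⁻¹) (f 0)) → (∃ f : Fin (k + 1) → G, y = ((List.ofFn f).tail).foldl (fun a b => a * b * a⁻¹ * b⁻¹) (f 0)) → (orderOf x).Coprime (orderOf y) →
        (∀ r : ℕ, r.Prime → r ∣ orderOf x * orderOf y → r ∣ orderOf (x * y)) ∨ orderOf x * orderOf y ≤ orderOf (x * y) := by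
  constructor
  · rintro hN x y ⟨f, rfl⟩ ⟨g, rfl⟩ hc
    right
    have key : ∀ f : Fin (k + 1) → G, ((List.ofFn f).tail).foldl (fun a b => a * b * a⁻¹ * b⁻¹)
        (f 0) ∈ (⊤ : Subgroup G).lowerCentralSeries k := fun f => by
      simpa using foldl_mem (List.ofFn f).tail (j := 0) (mem_top (f 0))
    exact ((commute_of_coprime_of_mem_isNilpotent hN (key f) (key g)
      hc).orderOf_mul_eq_mul_orderOf_of_coprime hc).ge
  · intro h
    have hS : Star k G := fun x hx N hN hc y hy => by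
      refine commutatorElement_eq_one_iff_commute.1 (comm_eq_one_of_it hN hc hy (j := k + 1) ?_)
      have h1 := hc.symm.coprime_dvd_left (orderOf_dvd_natCard N (it_mem hN hy (k + 1)))
      have h2 := h _ x (V_it x y (k + 1)).of_succ.exists_fn hx.exists_fn h1
      have h3 : orderOf (it x y (k + 1) * x) = orderOf x := by
        rw [it_succ, commutatorElement_def, inv_mul_cancel_right, orderOf_conj']
      rw [h3] at h2
      rw [← orderOf_eq_one_iff]
      rcases h2 with h2 | h2
      · by_contra hne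
        obtain ⟨r, hr, hd⟩ := Nat.exists_prime_and_dvd hne
        exact hr.one_lt.ne' (Nat.eq_one_of_dvd_coprimes h1 hd (h2 r hr (hd.mul_right _)))
      · have h4 := orderOf_pos x
        have h5 := orderOf_pos (it x y (k + 1))
        nlinarith
    haveI := Star.isSolvable k G hS
    exact hS.isNilpotent_lcs

end Cfsg.Agent.S3900
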