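import Cfsg.Statements.S3901
import Cfsg.Agent.Lib.CoreSimpleInd
import Cfsg.Agent.Lib.CharBurnside
import Cfsg.Agent.Lib.H5Kegel
import Cfsg.Agent.Lib.CoprimeAction
import Cfsg.Agent.Lib.ClassSize
import Cfsg.Agent.Lib.SylowIn
import Cfsg.Agent.Lib.FrobeniusPComplement
import Cfsg.Agent.Lib.CoreElements

set_option autoImplicit false
open Cfsg

namespace Cfsg.Agent.S3901

open Subgroup CfsgLib
open scoped Pointwise commutatorElement

theorem key {G : Type*} [Group G] [Finite G] {N : Subgroup G}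
    (h : ∀ x : G, x ∉ N → IsPrimePow (orderOf x)) {a b : G} (ha : a ∉ N) (hc : Commute a b)
    (hco : (orderOf a).Coprime (orderOf b)) : b = 1 := by
  have h1 : a * b ∉ N := fun h2 =>
    ha (zpowers_le.2 h2 (Frob.mem_zpowers_mul_left_of_coprime hc hco))
  have h2 := h _ h1
  rw [hc.orderOf_mul_eq_mul_orderOf_of_coprime hco] at h2
  rcases (hco.isPrimePow_dvd_mul h2).1 dvd_rfl with h3 | h3
  · rw [← orderOf_eq_one_iff]
    exact Nat.dvd_one.1 (Nat.dvd_of_mul_dvd_mul_left (orderOf_pos a) (by rwa [mul_one]))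
  · have : orderOf a = 1 :=
      Nat.dvd_one.1 (Nat.dvd_of_mul_dvd_mul_right (orderOf_pos b) (by rwa [one_mul]))
    exact absurd (orderOf_eq_one_iff.1 this ▸ N.one_mem) ha

theorem cop {G : Type*} [Group G] [Finite G] {p q : ℕ} (hp : p.Prime) (hq : q.Prime) (hpq : p ≠ q)
    {A B : Subgroup G} (hA : IsPGroup p A) (hB : IsPGroup q B) {a b : G} (ha : a ∈ A) (hb : b ∈ B) :
    (orderOf a).Coprime (orderOf b) := by
  haveI := Fact.mk hp
  haveI := Fact.mk hq
  obtain ⟨i, hi⟩ := IsPGroup.iff_orderOf.1 hA ⟨a, ha⟩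
  obtain ⟨j, hj⟩ := IsPGroup.iff_orderOf.1 hB ⟨b, hb⟩
  rw [orderOf_mk] at hi hj
  rw [hi, hj]
  exact Nat.coprime_pow_primes _ _ hp hq hpq

theorem result {G : Type*} [Group G] [Finite G] (N : Subgroup G) [N.Normal] (hN : N ≠ ⊥) (hns : ¬ Group.IsSolvable ↥N)
    (h : ∀ x : G, x ∉ N → IsPrimePow (orderOf x)) : Group.IsSolvable (G ⧸ N) := by
  by_contra hG
  obtain ⟨D, y, s, k, hD, hD0, hy, hs, hs2, hyo, hyc⟩ :=
    FrobNPC.exists_not_centralizes_of_not_hnpc (p := 2) fun h2 => hG (isSolvable_of_hnpc_two h2)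
  obtain ⟨q, hq, hqN, hq2, hqs⟩ : ∃ q : ℕ, q.Prime ∧ q ∣ Nat.card N ∧ q ≠ 2 ∧ q ≠ s := by
    by_contra hc
    push Not at hc
    exact hns (isSolvable_of_two_primes Nat.prime_two hs fun r hr hd => by
      by_cases h2 : r = 2
      exacts [Or.inl h2, Or.inr (hc r hr hd h2)])
  haveI := Fact.mk hq
  haveI := Fact.mk hs
  set f := QuotientGroup.mk' N with hf
  set K := D.comap f with hK
  have hNK : N ≤ K := fun n hn => by
    rw [hK, mem_comap, show f n = 1 from (QuotientGroup.eq_one_iff n).2 hn]; exact D.one_mem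
  obtain ⟨Q, hQ⟩ := IsSylowIn.exists_in (p := q) N
  set K1 := K ⊓ normalizer (Q : Set G) with hK1
  obtain ⟨U, hU⟩ := IsSylowIn.exists_in (p := 2) K1
  have hmap : K1.map f = D := by
    refine le_antisymm (map_le_iff_le_comap.2 inf_le_left) fun d hd => ?_
    obtain ⟨d, rfl⟩ := QuotientGroup.mk'_surjective N d
    obtain ⟨n, hn, hnd⟩ := hQ.frattini_elem (g := d) (by rw [normalizer_eq_top]; trivial)
    refine ⟨n * d, ⟨K.mul_mem (hNK hn) hd, hnd⟩, ?_⟩
    rw [map_mul, show f n = 1 from (QuotientGroup.eq_one_iff n).2 hn, one_mul]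
  have hUD : U.map f = D := by
    have := hU.map f
    rw [hmap] at this
    exact (this.eq_of_le hD this.le le_rfl).symm
  have hUN : ¬ U ≤ N := by
    intro hle
    apply hD0
    rw [← hUD, Subgroup.map_eq_bot_iff, hf, QuotientGroup.ker_mk']
    exact hle
  obtain ⟨y0, rfl⟩ := QuotientGroup.mk'_surjective N y
  obtain ⟨n, hn, hn1⟩ := hQ.frattini_elem (g := y0) (by rw [normalizer_eq_top]; trivial)
  have hyK : n * y0 ∈ normalizer (K : Set G) := by
    refine mul_mem (le_normalizer (hNK hn)) (mem_normalizer_of_conj_mem fun x hx => ?_)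
    rw [hK, mem_comap, map_mul, map_mul, map_inv]
    exact conj_mem_of_mem_normalizer hy hx
  have hyK1 : n * y0 ∈ normalizer (K1 : Set G) :=
    mem_normalizer_of_conj_mem fun x hx => ⟨conj_mem_of_mem_normalizer hyK hx.1,
      (normalizer (Q : Set G)).mul_mem ((normalizer (Q : Set G)).mul_mem hn1 hx.2)
        ((normalizer (Q : Set G)).inv_mem hn1)⟩
  obtain ⟨c, hc, hc1⟩ := hU.frattini_elem hyK1
  have hc2 : c * (n * y0) ∈ normalizer (Q : Set G) := mul_mem hc.2 hn1
  have hsd : s ∣ orderOf (c * (n * y0)) := by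
    by_contra hsd
    have h1 : (c * (n * y0)) ^ orderOf (c * (n * y0)) = 1 := pow_orderOf_eq_one _
    have h2 : ∀ m : ℕ, ∃ d ∈ D, f (c * (n * y0)) ^ m = d * f y0 ^ m := by
      intro m
      induction m with
      | zero => exact ⟨1, D.one_mem, by simp⟩
      | succ m ih =>
        obtain ⟨d, hd, he⟩ := ih
        refine ⟨f c * (f y0 * d * (f y0)⁻¹), D.mul_mem hc.1 (conj_mem_of_mem_normalizer hy hd), ?_⟩
        rw [pow_succ', he, map_mul, map_mul, show f n = 1 from (QuotientGroup.eq_one_iff n).2 hn,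
          pow_succ']
        group
    obtain ⟨d, hd, he⟩ := h2 (orderOf (c * (n * y0)))
    rw [← map_pow, h1, map_one, eq_comm, mul_eq_one_iff_eq_inv] at he
    have h3 : f y0 ^ orderOf (c * (n * y0)) ∈ D := by
      rw [← inv_mem_iff, ← he]; exact hd
    have h4 : f y0 ∈ D := by
      refine zpowers_le.2 h3 (mem_zpowers_pow_iff.2 ?_)
      rw [hyo]
      exact (Nat.Coprime.pow_left _ ((Nat.Prime.coprime_iff_not_dvd hs).2 hsd)).symm
    obtain ⟨i, hi⟩ := IsPGroup.iff_orderOf.1 hD ⟨_, h4⟩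
    rw [orderOf_mk, hyo] at hi
    have h5 : orderOf (f y0) = 1 := by
      rw [hyo]
      exact Nat.Coprime.eq_one_of_dvd
        (Nat.coprime_pow_primes k i hs Nat.prime_two hs2) hi.dvd
    rw [orderOf_eq_one_iff.1 h5] at hyc
    exact hyc (one_mem _)
  set w := c * (n * y0)
  set z := w ^ (orderOf w / s) with hz
  have hzo : orderOf z = s := orderOf_pow_orderOf_div (orderOf_pos w).ne' hsd
  have hzU : z ∈ normalizer (U : Set G) := pow_mem hc1 _
  have hzQ : z ∈ normalizer (Q : Set G) := pow_mem hc2 _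
  have hzp : IsPGroup s (zpowers z) := IsPGroup.of_card (n := 1) (by rw [Nat.card_zpowers, hzo, pow_one])
  have hz1 : z ≠ 1 := by
    intro h1
    rw [h1, orderOf_one] at hzo
    exact hs.ne_one hzo.symm
  have hzN : z ∉ N := by
    intro hzN
    apply hUN
    rw [← Cop.commutator_sup_centralizer (A := zpowers z) (G := U) (zpowers_le.2 hzU)
      (IsPGroup.coprime_card_of_ne s 2 hs2 _ _ hzp hU.isPGroup) (Or.inr (isSolvable_of_isPGroup hU.isPGroup))]
    refine sup_le ((commutator_mono le_top (zpowers_le.2 hzN)).trans (commutator_le_right _ _))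
      fun u hu => ?_
    by_contra huN
    exact hz1 (key h huN (hu.2 z (mem_zpowers z)).symm
      (cop Nat.prime_two hs hs2.symm hU.isPGroup hzp hu.1 (mem_zpowers z)))
  have hUQ : U ≤ normalizer (Q : Set G) := hU.le.trans inf_le_right
  have hnil : Group.IsNilpotent (U ⊔ Q : Subgroup G) := by
    refine H5.isNilpotent_of_fpf hs (t := z) (normalizer_inf_normalizer_le_normalizer_sup _ _ ⟨hzU, hzQ⟩) (hzo ▸ pow_orderOf_eq_one z)
      fun x hx hc => key h hzN hc ?_
    rw [hzo, Nat.Prime.coprime_iff_not_dvd hs]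
    intro hd
    have h1 : s ∣ Nat.card U * Nat.card Q := by
      rw [← card_sup_mul_card_inf hUQ]
      exact (hd.trans (orderOf_dvd_natCard _ hx)).mul_right _
    obtain ⟨i, hi⟩ := IsPGroup.iff_card.1 hU.isPGroup
    obtain ⟨j, hj⟩ := IsPGroup.iff_card.1 hQ.isPGroup
    rw [hi, hj] at h1
    rcases (Nat.Prime.dvd_mul hs).1 h1 with h2 | h2
    · exact hs2 ((Nat.prime_dvd_prime_iff_eq hs Nat.prime_two).1 (hs.dvd_of_dvd_pow h2))
    · exact hqs ((Nat.prime_dvd_prime_iff_eq hs hq).1 (hs.dvd_of_dvd_pow h2)).symm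
  obtain ⟨u, hu, huN⟩ := SetLike.not_le_iff_exists.1 hUN
  refine hQ.ne_bot hqN (eq_bot_iff.2 fun x hx => ?_)
  have hco := cop Nat.prime_two hq hq2.symm hU.isPGroup hQ.isPGroup hu hx
  exact key h huN (commute_of_coprime_of_mem_isNilpotent hnil (mem_sup_left hu) (mem_sup_right hx) hco) hco

end Cfsg.Agent.S3901
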