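import Cfsg.Statements.S3903
import Cfsg.Agent.Lib.CoreElements
import Cfsg.Agent.Lib.CoreSolvable
import Cfsg.Agent.Lib.SylowIn
import Cfsg.Agent.Lib.H5NilpotentMaximal

set_option autoImplicit false
open Cfsg

namespace Cfsg.Agent.S3903

open CfsgLib Subgroup

/-- Let N be a proper normal subgroup of the finite group G such that every element x of G outside N has prime power order and has centralizer C_G(x) a maximal subgroup of G. Then N is solvable. -/
theorem result {G : Type*} [Group G] [Finite G] (N : Subgroup G) [N.Normal] (hN : N ≠ ⊤)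
    (h : ∀ x : G, x ∉ N → IsPrimePow (orderOf x) ∧ IsCoatom (Subgroup.centralizer ({x} : Set G))) : Group.IsSolvable ↥N := by
  classical
  suffices Group.IsSolvable G from inferInstance
  have key : ∀ x : G, x ∉ N → ∀ p k : ℕ, p.Prime → 0 < k → orderOf x = p ^ k →
      IsPGroup p (centralizer ({x} : Set G)) := by
    intro x hx p k hp hk hxo
    apply isPGroup_of_forall_orderOf
    intro y hy
    obtain ⟨u, hu, v, hv, hy', hc, hu', hv'⟩ := exists_p_part hp y
    have hvx : Commute x v := by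
      obtain ⟨n, rfl⟩ := hv
      exact (Commute.zpow_left (mem_centralizer_singleton_iff.mp hy) n).symm
    have hcop : (orderOf x).Coprime (orderOf v) := hxo ▸ Nat.Coprime.pow_left k hv'.symm
    have h1 : x * v ∉ N := fun h => hx (zpowers_le.mpr h (mem_zpowers_mul_of_coprime hvx hcop))
    have h2 := (h _ h1).1
    rw [hvx.orderOf_mul_eq_mul_orderOf_of_coprime hcop] at h2
    have h3 : orderOf v = 1 := by
      rcases (hcop.isPrimePow_dvd_mul h2).mp dvd_rfl with h4 | h4
      · have := Nat.le_of_dvd (orderOf_pos x) h4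
        have h5 := orderOf_pos x
        have h6 := orderOf_pos v
        nlinarith
      · have := Nat.le_of_dvd (orderOf_pos v) h4
        have h5 : 1 < orderOf x := hxo ▸ Nat.one_lt_pow hk.ne' hp.one_lt
        have h6 := orderOf_pos v
        nlinarith
    rw [orderOf_eq_one_iff.mp h3, mul_one] at hy'
    exact hy' ▸ hu'
  by_cases hodd : ∃ x : G, x ∉ N ∧ Odd (orderOf x)
  · obtain ⟨x, hx, hxo⟩ := hodd
    obtain ⟨p, k, hp, hk, hpk⟩ := (isPrimePow_nat_iff _).mp (h x hx).1
    haveI : Fact p.Prime := ⟨hp⟩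
    have h1 := key x hx p k hp hk hpk.symm
    refine H5.isSolvable_of_nilpotent_coatom_odd (h x hx).2 h1.isNilpotent ?_
    obtain ⟨n, hn⟩ := IsPGroup.iff_card.mp h1
    rw [hn]
    exact ((Nat.odd_pow_iff hk.ne').mp (hpk ▸ hxo)).pow
  push Not at hodd
  have h2 : ∀ x : G, x ∉ N → IsPGroup 2 (centralizer ({x} : Set G)) := by
    intro x hx
    obtain ⟨p, k, hp, hk, hpk⟩ := (isPrimePow_nat_iff _).mp (h x hx).1
    have : p = 2 := by
      by_contra hp2
      exact hodd x hx (hpk ▸ (hp.odd_of_ne_two hp2).pow)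
    exact this ▸ key x hx p k hp hk hpk.symm
  by_cases hG : IsPGroup 2 G
  · exact isSolvable_of_isPGroup hG
  have h3 : ∀ x : G, x ∉ N → IsSylowIn 2 (centralizer ({x} : Set G)) ⊤ := by
    intro x hx
    obtain ⟨S, hS, hS'⟩ := IsSylowIn.exists_ge (h2 x hx) le_top
    rcases (h x hx).2.le_iff.mp hS with h4 | h4
    · exact absurd (IsPGroup.of_equiv (h4 ▸ hS'.isPGroup) topEquiv) hG
    · exact h4 ▸ hS'
  obtain ⟨x₀, hx₀⟩ : ∃ x : G, x ∉ N := by
    by_contra hc
    push Not at hc
    exact hN (eq_top_iff.mpr fun x _ => hc x)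
  set P := centralizer ({x₀} : Set G) with hP
  apply H5.isSolvable_of_abelian_coatom (h x₀ hx₀).2
  -- counting
  let Z : Set G := {z | z ∈ P ∧ z ∉ N ∧ P ≤ centralizer {z}}
  let W : Set G := {z | z ∈ P ∧ z ∉ N}
  have hZW : Z ⊆ W := fun z hz => ⟨hz.1, hz.2.1⟩
  have c1 : Nat.card ((N : Set G)ᶜ : Set G) ≤ Nat.card ((G ⧸ P) × Z) := by
    apply Nat.card_le_card_of_surjective
      (fun t : (G ⧸ P) × Z => (⟨t.1.out * t.2 * t.1.out⁻¹, fun hn => t.2.2.2.1 (by
        have := Normal.conj_mem inferInstance _ hn t.1.out⁻¹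
        simpa [mul_assoc] using this)⟩ : ((N : Set G)ᶜ : Set G)))
    rintro ⟨x, hx⟩
    obtain ⟨g, -, hg⟩ := (h3 x₀ hx₀).exists_conj_eq (h3 x hx)
    have hz : g * x * g⁻¹ ∈ Z := by
      refine ⟨?_, fun hn => hx ?_, ?_⟩
      · rw [hP, ← hg]
        exact conj_mem_map_conj (mem_centralizer_singleton_iff.mpr rfl)
      · have := Normal.conj_mem inferInstance _ hn g⁻¹
        simpa [mul_assoc] using this
      · rw [hP, ← hg]
        rintro _ ⟨y, hy, rfl⟩
        rw [mem_centralizer_singleton_iff]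
        have := mem_centralizer_singleton_iff.mp hy
        simp [mul_assoc, ← mul_assoc y x, this]
    refine ⟨(QuotientGroup.mk g⁻¹, ⟨_, hz⟩), Subtype.ext ?_⟩
    obtain ⟨s, hs⟩ := QuotientGroup.mk_out_eq_mul P g⁻¹
    simp only
    rw [hs]
    have := mem_centralizer_singleton_iff.mp (hz.2.2 s.2)
    rw [mul_assoc g⁻¹, this]
    group
  have c2 : P.index * W.ncard ≤ ((N : Set G)ᶜ : Set G).ncard := by
    have e1 : (N : Set G).ncard + ((N : Set G)ᶜ : Set G).ncard = Nat.card G :=
      Set.ncard_add_ncard_compl _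
    have e2 : ((P ⊓ N : Subgroup G) : Set G).ncard + W.ncard = (P : Set G).ncard := by
      rw [← Set.ncard_union_eq (Set.disjoint_left.mpr fun a ha hb => hb.2 ha.2)]
      congr 1
      ext a
      by_cases ha : a ∈ N <;> simp [W, ha]
    have e3 : P.index * (P : Set G).ncard = Nat.card G := P.index_mul_card
    have e4 : ((P ⊓ N : Subgroup G) : Set G).ncard * P.relIndex N = (N : Set G).ncard :=
      card_inf_mul_relIndex P N
    have e5 : P.relIndex N ≤ P.index := by
      rw [← relIndex_top_right]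
      exact relIndex_le_of_le_right le_top (by simpa using P.index_ne_zero_of_finite)
    have e6 := Nat.mul_le_mul_left ((P ⊓ N : Subgroup G) : Set G).ncard e5
    rw [← e2, mul_add] at e3
    linarith
  rw [Nat.card_prod] at c1
  have c3 : W.ncard ≤ Z.ncard :=
    Nat.le_of_mul_le_mul_left (c2.trans c1) (Nat.pos_of_ne_zero P.index_ne_zero_of_finite)
  have c4 : Z = W := Set.eq_of_subset_of_ncard_le hZW c3
  have c5 : ∀ a ∈ P, a ∉ N → P ≤ centralizer {a} := fun a ha ha' =>
    (show a ∈ Z from c4 ▸ ⟨ha, ha'⟩).2.2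
  have hx₀P : x₀ ∈ P := mem_centralizer_singleton_iff.mpr rfl
  refine ⟨⟨fun a b => Subtype.ext ?_⟩⟩
  simp only [coe_mul]
  by_cases hb : (b : G) ∈ N
  · have h4 : (b : G) * x₀ ∉ N := fun h5 => hx₀ (by simpa using N.mul_mem (N.inv_mem hb) h5)
    have h5 := mem_centralizer_singleton_iff.mp (c5 _ (P.mul_mem b.2 hx₀P) h4 a.2)
    rw [mul_assoc (b : G), ← mem_centralizer_singleton_iff.mp a.2, ← mul_assoc, ← mul_assoc] at h5
    exact mul_right_cancel h5
  · exact mem_centralizer_singleton_iff.mp (c5 _ b.2 hb a.2)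

end Cfsg.Agent.S3903
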