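import Cfsg.Statements.S3904
import Mathlib
import Cfsg.Agent.Lib.H5MaxCent
import Cfsg.Agent.Lib.CoreAbelianMax

set_option autoImplicit false
open Cfsg

namespace Cfsg.Agent.S3904
open Subgroup Cfsg CfsgLib

/-- Let G be a non-abelian finite group in which the centralizer of every non-central element is a maximal subgroup. Then G/Z(G) is either an elementary abelian p-group for some prime p, or a minimal non-abelian group (non-abelian with all proper subgroups abelian) of order p^a · q for distinct primes p, q with a normal Sylow p-subgroup. -/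
theorem result {G : Type*} [Group G] [Finite G] (hna : ¬ IsMulCommutative G)
    (h : ∀ x : G, x ∉ Subgroup.center G → IsCoatom (Subgroup.centralizer ({x} : Set G))) :
    (∃ p : ℕ, p.Prime ∧ Cfsg.IsElementaryAbelian p (⊤ : Subgroup (G ⧸ Subgroup.center G))) ∨
    (¬ IsMulCommutative (G ⧸ Subgroup.center G) ∧ (∀ H : Subgroup (G ⧸ Subgroup.center G), H ≠ ⊤ → IsMulCommutative ↥H) ∧
      ∃ p q a : ℕ, p.Prime ∧ q.Prime ∧ p ≠ q ∧ Nat.card (G ⧸ Subgroup.center G) = p ^ a * q ∧
        ∀ P : Subgroup (G ⧸ Subgroup.center G), Nat.card ↥P = p ^ a → P.Normal) := by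
  have h0 : centralizer ((⊤ : Subgroup G) : Set G) = center G := by rw [coe_top, centralizer_univ]
  refine (H5.maxCent_quotient (N := ⊤) (fun x _ hx => h x (h0 ▸ hx))
    ((QuotientGroup.mk' (center G)).comp (⊤ : Subgroup G).subtype)
    ((QuotientGroup.mk'_surjective _).comp fun g => ⟨⟨g, mem_top g⟩, rfl⟩)
    fun a => by rw [h0]; exact QuotientGroup.eq_one_iff (a : G)).imp_right ?_
  rintro ⟨K, Q, p, q, hp, hq, hpq, h1, h2, h3, h4⟩
  have h4 := h4 rfl
  have := h1.normal
  have := Fact.mk hq
  have := Fact.mk hp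
  obtain ⟨a, ha⟩ := (isPGroup_of_isElementaryAbelian h3).exists_card_eq
  have hi : K.index = p := h1.card_eq_index.symm.trans h2
  refine ⟨fun hc => ?_, fun H hH => ?_, q, p, a, hq, hp, hpq.symm, by rw [← h1.card_mul, ha, h2],
    fun P hP => ?_⟩
  · obtain ⟨⟨k, hk⟩, hk1⟩ := ne_bot_iff_exists_ne_one.mp h1.ker_ne_bot
    obtain ⟨⟨y, hy⟩, hy1⟩ := ne_bot_iff_exists_ne_one.mp h1.ne_bot
    exact hk1 (Subtype.ext (h1.fpf y hy (fun e => hy1 (Subtype.ext e)) k hk (hc.is_comm.comm y k)))
  · by_cases h5 : H ≤ K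
    · exact PGrp.isMulCommutative_of_le h5 h3.1
    have h6 := sup_eq_top_of_index_prime hp hi h5
    have h7 : (K ⊓ H).Normal := normal_of_le_normalizer_top (h6.ge.trans (sup_le
      (fun k hk => centralizer_le_normalizer _ fun y hy =>
        PGrp.isMulCommutative_iff_forall.mp h3.1 y hy.1 k hk)
      ((le_inf le_normalizer_of_normal le_normalizer).trans inf_normalizer_le_normalizer_inf)))
    have h8 := (h4.2.2 _ h7 inf_le_left).resolve_right fun e =>
      hH (by rw [← h6, sup_eq_right.mpr (inf_eq_left.mp e)])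
    have h9 := card_inf_mul_relIndex K H
    rw [h8, card_bot, one_mul, ← relIndex_sup_left, h6, relIndex_top_right, hi] at h9
    have := isCyclic_of_prime_card h9.symm
    infer_instance
  · rw [eq_of_le_of_card_le (le_of_coprime_index (N := K) (H := P) (by
      rw [hP, hi]; exact ((Nat.coprime_primes hq hp).mpr hpq.symm).pow_left a)) (by rw [ha, hP])]
    infer_instance

end Cfsg.Agent.S3904
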