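import Cfsg.Statements.S3905
import Mathlib
import Cfsg.Agent.Lib.H5MaxCent

set_option autoImplicit false
open Cfsg

namespace Cfsg.Agent.S3905
open Subgroup Cfsg CfsgLib

/-- Let N be a normal subgroup of the finite group G such that for every element x of N outside the center of N the centralizer C_G(x) is a maximal subgroup of G. Then N/Z(N) is either an elementary abelian p-group for some prime p, or a Frobenius group whose kernel is an elementary abelian normal subgroup and whose complement has prime order. -/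
theorem result {G : Type*} [Group G] [Finite G] (N : Subgroup G) [N.Normal]
    (h : ∀ x : G, x ∈ N → x ∉ Subgroup.centralizer (N : Set G) → IsCoatom (Subgroup.centralizer ({x} : Set G))) :
    (∃ p : ℕ, p.Prime ∧ Cfsg.IsElementaryAbelian p (⊤ : Subgroup (↥N ⧸ Subgroup.center ↥N))) ∨
    (∃ (Q K : Subgroup (↥N ⧸ Subgroup.center ↥N)) (p : ℕ), p.Prime ∧ Cfsg.IsFrobeniusComplement Q ∧ (Nat.card ↥Q).Prime ∧
      K.Normal ∧ (K : Set (↥N ⧸ Subgroup.center ↥N)) = Cfsg.frobeniusKernel Q ∧ Cfsg.IsElementaryAbelian p K) := by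
  refine (H5.maxCent_quotient h (QuotientGroup.mk' (center N)) (QuotientGroup.mk'_surjective _)
    fun a => (QuotientGroup.eq_one_iff a).trans ⟨fun ha g hg =>
      congrArg Subtype.val (mem_center_iff.mp ha ⟨g, hg⟩), fun ha =>
        mem_center_iff.mpr fun g => Subtype.ext (ha g g.2)⟩).imp_right ?_
  rintro ⟨K, Q, p, q, hp, hq, -, h1, h2, h3, -⟩
  exact ⟨Q, K, q, hq, h1.isFrobeniusComplement, h2 ▸ hp, h1.normal, h1.frobeniusKernel_eq.symm, h3⟩

end Cfsg.Agent.S3905
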