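import Cfsg.Statements.S3908
import Mathlib
import Cfsg.Agent.Lib.PGroupRankOne
import Cfsg.Agent.Lib.CoreElements
import Cfsg.Agent.Lib.ClassSize2

set_option autoImplicit false
open Cfsg

namespace Cfsg.Agent.S3908
open Subgroup Cfsg CfsgLib

/-- Let G be a finite group in which any two abelian subgroups of the same order are conjugate. Then a Sylow 2-subgroup of G is cyclic, elementary abelian or generalized quaternion, and for an odd prime p a Sylow p-subgroup of G is cyclic or has exponent dividing p. -/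
theorem result {G : Type*} [Group G] [Finite G] (hB : ∀ A B : Subgroup G, IsMulCommutative ↥A → IsMulCommutative ↥B → Nat.card ↥A = Nat.card ↥B → ∃ g : G, B = A.map (MulAut.conj g).toMonoidHom) :
    (∀ P : Sylow 2 G, IsCyclic ↥(P : Subgroup G) ∨ Cfsg.IsElementaryAbelian 2 (P : Subgroup G) ∨ ∃ k : ℕ, Nonempty (↥(P : Subgroup G) ≃* QuaternionGroup (2 ^ k))) ∧
    ∀ (p : ℕ) [Fact p.Prime], p ≠ 2 → ∀ P : Sylow p G, IsCyclic ↥(P : Subgroup G) ∨ ∀ x ∈ (P : Subgroup G), x ^ p = 1 := by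
  have key : ∀ (p : ℕ) [Fact p.Prime] (P : Sylow p G), (∀ x ∈ (P : Subgroup G), x ^ p = 1) ∨
      IsCyclic (P : Subgroup G) ∨ (p = 2 ∧ ∃ k : ℕ, 1 ≤ k ∧
        Nonempty ((P : Subgroup G) ≃* QuaternionGroup (2 ^ k))) := fun p hp P => by
    refine or_iff_not_imp_left.mpr fun h => PGrp.isCyclic_or_quaternion_of_no_card_sq P.isPGroup'
      fun E hE hc => ?_
    push Not at h
    obtain ⟨x, hx, hxp⟩ := h
    obtain ⟨k, hk⟩ := orderOf_eq_pow_of_mem_isPGroup P.isPGroup' hx
    obtain ⟨y, -, hy⟩ := Frob.exists_orderOf_eq_mem_zpowers (x := x) (d := p ^ 2) (by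
      rw [hk]
      refine pow_dvd_pow _ (not_lt.mp fun h => hxp (orderOf_dvd_iff_pow_eq_one.mp ?_))
      rw [hk]
      exact (pow_dvd_pow p (Nat.lt_succ_iff.mp h)).trans (pow_one p).dvd)
    have := hE.1
    obtain ⟨g, hg⟩ := hB (zpowers y) (E.map (P : Subgroup G).subtype) inferInstance inferInstance
      (by rw [Nat.card_zpowers, hy, card_map_subtype, hc])
    obtain ⟨e, he, h1⟩ : g * y * g⁻¹ ∈ E.map (P : Subgroup G).subtype :=
      hg ▸ conj_mem_map_conj (mem_zpowers y)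
    have h2 : (g * y * g⁻¹) ^ p = 1 := by
      rw [← h1, ← map_pow, hE.2 e he, map_one]
    rw [conj_pow, mul_inv_eq_one, mul_eq_left, ← orderOf_dvd_iff_pow_eq_one, hy] at h2
    have := Nat.le_of_dvd hp.out.pos h2
    nlinarith [hp.out.one_lt]
  refine ⟨fun P => ?_, fun p _ hp P => ?_⟩
  · rcases key 2 P with h | h | ⟨-, k, -, h⟩
    · refine Or.inr (Or.inl ⟨PGrp.isMulCommutative_iff_forall.mpr fun a ha b hb => ?_, h⟩)
      have e : ∀ x ∈ (P : Subgroup G), x⁻¹ = x := fun x hx =>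
        inv_eq_of_mul_eq_one_right (by rw [← sq, h x hx])
      rw [← e _ (mul_mem ha hb), mul_inv_rev, e a ha, e b hb]
    · exact Or.inl h
    · exact Or.inr (Or.inr ⟨k, h⟩)
  · rcases key p P with h | h | ⟨h, -⟩
    · exact Or.inr h
    · exact Or.inl h
    · exact absurd h hp

end Cfsg.Agent.S3908
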