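import Cfsg.Statements.S3910
import Mathlib
import Cfsg.Agent.Lib.PGroupMisc

set_option autoImplicit false
open Cfsg

namespace Cfsg.Agent.S3910

open CfsgLib.PGrp
open scoped commutatorElement

/-- A finite nilpotent group in which any two abelian subgroups of the same order are conjugate is cyclic. -/
theorem result {G : Type*} [Group G] [Finite G] (hB : ∀ A B : Subgroup G, IsMulCommutative ↥A → IsMulCommutative ↥B → Nat.card ↥A = Nat.card ↥B → ∃ g : G, B = A.map (MulAut.conj g).toMonoidHom) (hnil : Group.IsNilpotent G) : IsCyclic G := by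
  have key : ∀ (p : ℕ) [Fact p.Prime] (P : Sylow p G) (k : ℕ), k ≤ 2 → ∀ A B : Subgroup G,
      A ≤ P → Nat.card A = p ^ k → Nat.card B = p ^ k → IsMulCommutative A → IsMulCommutative B →
      A = B := by
    intro p hp P k hk A B hAP hA hB' hAc hBc
    obtain ⟨K, hKn, -, hK⟩ := exists_normal_le_card_eq_pow' (P : Subgroup G) P.isPGroup' k
      (hA ▸ Subgroup.card_le_of_le hAP)
    have hKc : IsMulCommutative K := by
      by_contra h
      have := three_le_of_not_isMulCommutative hK h
      omega
    have h1 : ∀ C : Subgroup G, Nat.card C = p ^ k → IsMulCommutative C → C = K := by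
      intro C hC hCc
      obtain ⟨g, hg⟩ := hB K C hKc hCc (hK.trans hC.symm)
      rw [hg]
      exact Subgroup.Normal.map_conj_eq K g
    rw [h1 A hA hAc, h1 B hB' hBc]
  have : IsZGroup G := by
    rw [isZGroup_iff]
    intro p hp P
    have := Fact.mk hp
    have key2 : ∀ k ≤ 2, ∀ a b : (P : Subgroup G), orderOf a = p ^ k → orderOf b = p ^ k →
        b ∈ Subgroup.zpowers a := by
      intro k hk a b ha hb
      have h1 := key p P k hk (Subgroup.zpowers (a : G)) (Subgroup.zpowers (b : G))
        (Subgroup.zpowers_le.2 a.2) (by rw [Nat.card_zpowers, Subgroup.orderOf_coe, ha])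
        (by rw [Nat.card_zpowers, Subgroup.orderOf_coe, hb]) inferInstance inferInstance
      obtain ⟨j, hj⟩ := Subgroup.mem_zpowers_iff.1 (h1 ▸ Subgroup.mem_zpowers (b : G))
      exact ⟨j, Subtype.ext hj⟩
    rcases isCyclic_or_quaternion_of_mem_zpowers P.isPGroup' (fun a b ha hb _ =>
      key2 1 (by omega) a b (by simpa using ha) (by simpa using hb)) with h | ⟨rfl, k, hk, ⟨e⟩⟩
    · exact h
    · exfalso
      obtain ⟨x, y, h, h1, h2⟩ := exists_isDQSDPair_of_mulEquiv_quaternionGroup hk e
      have hz : x ^ 2 ^ k ≠ 1 := by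
        intro h3
        have := h.pow_mem_center.1
        rw [Nat.add_sub_cancel, h3, orderOf_one] at this
        omega
      have hyx : y * x ∉ Subgroup.zpowers x := fun h' => h.2.2.2.1 (by
        simpa using mul_mem h' (inv_mem (Subgroup.mem_zpowers x)))
      have h3 : orderOf y = 2 ^ 2 := orderOf_eq_prime_pow (by rw [pow_one, h2]; exact hz)
        (h.pow_four_eq_one h.2.2.2.1)
      have h4 : orderOf (y * x) = 2 ^ 2 := orderOf_eq_prime_pow (by
        rw [pow_one, show (y * x) ^ 2 = y * x * y⁻¹ * y ^ 2 * x by simp only [sq]; group, h1, h2,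
          mul_assoc, ← ((Commute.refl x).pow_right _).eq, inv_mul_cancel_left]
        exact hz) (h.pow_four_eq_one hyx)
      have h5 := commute_of_mem_zpowers (Subgroup.mem_zpowers y) (key2 2 le_rfl _ _ h3 h4)
      exact h.not_commute (by simpa using (Commute.refl y).inv_right.mul_right h5)
  infer_instance

end Cfsg.Agent.S3910
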