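import Cfsg.Statements.S3915
import Cfsg.Agent.Lib.H8FT
import Cfsg.Agent.Lib.CoreComponents

set_option autoImplicit false
open Cfsg

namespace Cfsg.Agent.S3915

open Subgroup CfsgLib in
/-- Let G be a finite group in which, for every prime p, any two cyclic p-subgroups of the same order are conjugate. If the layer E(G), the subgroup generated by the components of G, is non-trivial, then E(G)/Z(E(G)) is a non-abelian simple group. -/
theorem result {G : Type*} [Group G] [Finite G] (hP : ∀ (p : ℕ), p.Prime → ∀ A B : Subgroup G, IsCyclic ↥A → IsCyclic ↥B → IsPGroup p ↥A → Nat.card ↥A = Nat.card ↥B → ∃ g : G, B = A.map (MulAut.conj g).toMonoidHom) (hE : Cfsg.layer G ≠ ⊥) :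
    IsSimpleGroup (↥(Cfsg.layer G) ⧸ Subgroup.center ↥(Cfsg.layer G)) ∧ ¬ IsMulCommutative (↥(Cfsg.layer G) ⧸ Subgroup.center ↥(Cfsg.layer G)) := by
  obtain ⟨K, hK⟩ : ∃ K : Subgroup G, IsComponent K := by
    by_contra h
    exact hE (layer_eq_bot_iff.2 fun K hK => h ⟨K, hK⟩)
  suffices layer G = K by
    rw [this]
    refine ⟨hK.2.2, fun h => isQuasisimple_not_isSolvable hK.2 ?_⟩
    exact isSolvable_of_normal_of_quotient (center K) isSolvable_of_isMulCommutative
      isSolvable_of_isMulCommutative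
  refine le_antisymm (layer_le_iff.2 fun L hL => by_contra fun hLK => ?_) (le_layer hK)
  have hc : ∀ {K L : Subgroup G}, IsComponent K → IsComponent L → K ≠ L →
      K ≤ centralizer (L : Set G) := fun hK hL h => FT.comm_eq_bot_iff.1
    ((isComponent_eq_or_commutator_eq_bot hK hL).resolve_left h)
  have hZ : ∀ {K : Subgroup G}, IsComponent K → ∀ {x : G}, x ∈ K → x ∈ centralizer (K : Set G) →
      x ∈ centralizer (layer G : Set G) := fun {K} hK x hx h => by
    rw [← FT.le_cent1_iff]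
    refine layer_le_iff.2 fun L hL => FT.le_cent1_iff.2 ?_
    by_cases e : K = L
    · exact e ▸ h
    · exact hc hK hL e hx
  -- 2-elements of `G` of equal order
  have hconj : ∀ x y : G, (∃ k, orderOf x = 2 ^ k) → orderOf x = orderOf y →
      ∃ g : G, y ∈ (zpowers x).map (MulAut.conj g).toMonoidHom := fun x y hx h => by
    obtain ⟨g, hg⟩ := hP 2 Nat.prime_two (zpowers x) (zpowers y) inferInstance inferInstance
      (isPGroup_zpowers_iff.2 hx) (by rw [Nat.card_zpowers, Nat.card_zpowers, h])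
    exact ⟨g, hg ▸ mem_zpowers y⟩
  have hn : (centralizer (layer G : Set G)).Normal := by
    have := layer_characteristic (G := G)
    infer_instance
  have hlt : ∀ x y : G, (∃ k, orderOf x = 2 ^ k) → (∃ k, orderOf y = 2 ^ k) →
      x ∉ centralizer (layer G : Set G) → y ^ 2 ∈ centralizer (layer G : Set G) →
      orderOf y ∣ orderOf x := by
    rintro x y ⟨a, ha⟩ ⟨b, hb⟩ hx hy
    rw [ha, hb]
    refine pow_dvd_pow 2 (le_of_not_gt fun h => hx ?_)
    obtain ⟨c, rfl⟩ := Nat.exists_eq_add_of_lt h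
    obtain ⟨g, hg⟩ := hconj (y ^ 2 ^ (c + 1)) x ⟨a, by
      rw [orderOf_pow_of_dvd (by positivity) (hb ▸ pow_dvd_pow 2 (by omega)), hb, add_assoc, pow_add,
        Nat.mul_div_cancel _ (by positivity)]⟩ (by
      rw [orderOf_pow_of_dvd (by positivity) (hb ▸ pow_dvd_pow 2 (by omega)), hb, add_assoc, pow_add,
        Nat.mul_div_cancel _ (by positivity), ha])
    refine (map_conj_eq_of_normal g _).le (map_mono (zpowers_le.2 ?_) hg)
    rw [pow_succ', pow_mul]
    exact pow_mem hy _
  have hex : ∀ {K : Subgroup G}, IsComponent K → ∃ x ∈ K, (∃ k, orderOf x = 2 ^ k) ∧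
      x ∉ centralizer (K : Set G) ∧ x ^ 2 ∈ centralizer (K : Set G) := fun {K} hK => by
    obtain ⟨t, ht⟩ := exists_prime_orderOf_dvd_card' (G := K ⧸ center K) 2
      (H8FT.two_dvd_of_not_solvable fun h => isQuasisimple_not_isSolvable hK.2
        (isSolvable_of_normal_of_quotient (center K) isSolvable_of_isMulCommutative h))
    obtain ⟨t₀, rfl⟩ := QuotientGroup.mk'_surjective _ t
    obtain ⟨u, -, h1, h2⟩ := exists_lift_isPiNum (π := {2}) _ t₀
      (by rw [ht]; exact isPiNum_prime Nat.prime_two rfl)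
    rw [← h1] at ht
    refine ⟨u, u.2, by
      simpa using (isPiNum_singleton_iff Nat.prime_two (orderOf_pos u).ne').1 h2, fun h => ?_, ?_⟩
    · have : QuotientGroup.mk' (center K) u = 1 := (QuotientGroup.eq_one_iff _).2
        (mem_center_iff.2 fun k => Subtype.ext (mem_centralizer_iff.1 h k k.2))
      simp [this] at ht
    · have : u ^ 2 ∈ center K := (QuotientGroup.eq_one_iff _).1
        ((map_pow (QuotientGroup.mk' _) u 2).trans (orderOf_dvd_iff_pow_eq_one.1 ht.dvd))
      exact mem_centralizer_iff.2 fun k hk => congrArg Subtype.val (mem_center_iff.1 this ⟨k, hk⟩)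
  have key : ∀ {K L M : Subgroup G}, IsComponent K → IsComponent L → IsComponent M → K ≠ L →
      ∀ x ∈ K, ∀ y ∈ L, x ∉ centralizer (K : Set G) → x * y ∈ M → M = K :=
    fun hK hL hM h x hx y hy h1 h2 => by_contra fun h3 =>
      h1 ((mul_mem_cancel_right (hc hL hK h.symm hy)).1 (hc hM hK h3 h2))
  have hKL : K ≠ L := fun h => hLK h.ge
  obtain ⟨x, hx, ⟨a, ha⟩, hx1, hx2⟩ := hex hK
  obtain ⟨y, hy, ⟨b, hb⟩, hy1, hy2⟩ := hex hL
  have hxy : Commute x y := (mem_centralizer_iff.1 (hc hK hL hKL hx) y hy).symm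
  have h1 : ∃ k, orderOf (x * y) = 2 ^ k := ((Nat.dvd_prime_pow Nat.prime_two).1
    (hxy.orderOf_mul_dvd_mul_orderOf.trans (by rw [ha, hb, ← pow_add]))).imp fun _ h => h.2
  obtain ⟨g, hg⟩ := hconj x (x * y) ⟨a, ha⟩ (Nat.dvd_antisymm
    (hlt _ _ h1 ⟨a, ha⟩ (fun h => hx1 ((mul_mem_cancel_right (hc hL hK hKL.symm hy)).1
      (FT.centralizer_antitone (le_layer hK) h))) (hZ hK (pow_mem hx 2) hx2))
    (hlt _ _ ⟨a, ha⟩ h1 (fun h => hx1 (FT.centralizer_antitone (le_layer hK) h))
      (hxy.mul_pow 2 ▸ mul_mem (hZ hK (pow_mem hx 2) hx2) (hZ hL (pow_mem hy 2) hy2))))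
  have h2 := map_mono (zpowers_le.2 hx) hg
  have hM := CfsgLib.isComponent_map_conj hK g
  exact hKL ((key hK hL hM hKL x hx y hy hx1 h2).symm.trans
    (key hL hK hM hKL.symm y hy x hx hy1 (hxy.eq ▸ h2)))

end Cfsg.Agent.S3915
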