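import Cfsg.Statements.S3917
import Mathlib
import Cfsg.Agent.Lib.PGroupMisc

set_option autoImplicit false
open Cfsg

namespace Cfsg.Agent.S3917

open CfsgLib.PGrp
open scoped commutatorElement

/-- Say that a group has self-centralizing non-cyclic subgroups when every non-cyclic subgroup H satisfies C_G(H) ≤ H. A finite abelian group with self-centralizing non-cyclic subgroups is cyclic or elementary abelian of order p² for a prime p. -/
theorem result {G : Type*} [CommGroup G] [Finite G] (hX : (∀ H : Subgroup G, ¬ IsCyclic ↥H → Subgroup.centralizer (H : Set G) ≤ H)) :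
    IsCyclic G ∨ ∃ p : ℕ, p.Prime ∧ Nat.card G = p ^ 2 ∧ Monoid.exponent G = p := by
  by_cases hc : IsCyclic G
  · exact Or.inl hc
  right
  have h1 : ¬ IsZGroup G := fun h => hc inferInstance
  rw [isZGroup_iff] at h1
  push Not at h1
  obtain ⟨p, hp, P, hP⟩ := h1
  have := Fact.mk hp
  obtain ⟨E, -, hE, hEc⟩ := exists_isElementaryAbelian_card_sq_le P.isPGroup' inferInstance hP
  have h2 := hX E (not_isCyclic_of_isElementaryAbelian hE (by
      rw [hEc, sq]; exact (Nat.lt_mul_iff_one_lt_left hp.pos).2 hp.one_lt))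
  have h3 : E = ⊤ := by
    rw [eq_top_iff]
    intro g _
    exact h2 fun a _ => mul_comm a g
  rw [h3, Subgroup.card_top] at hEc
  exact ⟨p, hp, hEc, (not_isCyclic_iff_exponent_eq_prime hp hEc).1 hc⟩

end Cfsg.Agent.S3917
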