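import Cfsg.Statements.S3918
import Mathlib
import Cfsg.Agent.Lib.TwoGroupMaxClass

set_option autoImplicit false
open Cfsg

namespace Cfsg.Agent.S3918

open CfsgLib.PGrp
open scoped commutatorElement

/-- Say that a group has self-centralizing non-cyclic subgroups when every non-cyclic subgroup H satisfies C_G(H) ≤ H. For an odd prime p, a finite non-abelian p-group has self-centralizing non-cyclic subgroups if and only if it has order p³. -/
theorem result {G : Type*} [Group G] [Finite G] {p : ℕ} [Fact p.Prime] (hp : p ≠ 2) (hG : IsPGroup p G) (hna : ¬ IsMulCommutative G) :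
    (∀ H : Subgroup G, ¬ IsCyclic ↥H → Subgroup.centralizer (H : Set G) ≤ H) ↔ Nat.card G = p ^ 3 := by
  have hp' : p.Prime := Fact.out
  obtain ⟨n, hn⟩ := hG.exists_card_eq
  constructor
  · intro h
    obtain ⟨E, hEn, hE, hc⟩ := exists_normal_card_sq_of_odd hG hp
      fun h => hna IsCyclic.isMulCommutative
    have h1 := h E (not_isCyclic_of_isElementaryAbelian hE (by
      rw [hc, sq]; exact (Nat.lt_mul_iff_one_lt_left hp'.pos).2 hp'.one_lt))
    have h2 : E.index ≤ p := (Subgroup.index_antitone h1).trans
      (index_centralizer_le_of_card_sq hG E hc)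
    have h3 : Nat.card G ≤ p ^ 3 := by
      rw [← E.index_mul_card, hc, pow_succ' p 2]
      exact Nat.mul_le_mul_right _ h2
    rw [hn] at h3 ⊢
    have h4 := (Nat.pow_le_pow_iff_right hp'.one_lt).1 h3
    congr 1
    by_contra h5
    apply hna
    have : n = 0 ∨ n = 1 ∨ n = 2 := by omega
    rcases this with rfl | rfl | rfl
    · have := isCyclic_of_card_dvd_prime (p := p) (α := G) (by simp [hn])
      infer_instance
    · have := isCyclic_of_card_dvd_prime (p := p) (α := G) (by simp [hn])
      infer_instance
    · exact IsPGroup.isMulCommutative_of_card_eq_prime_sq hn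
  · intro h H hH
    by_contra hC
    obtain ⟨c, hc, hcH⟩ := SetLike.not_le_iff_exists.1 hC
    obtain ⟨k, hk⟩ := (hG.to_subgroup H).exists_card_eq
    have h2 : 2 ≤ k := by
      by_contra h2
      apply hH
      apply isCyclic_of_card_dvd_prime (p := p)
      have : k = 0 ∨ k = 1 := by omega
      rcases this with rfl | rfl <;> simp [hk]
    have hlt : H < H ⊔ Subgroup.zpowers c := lt_of_le_of_ne le_sup_left
      fun h => hcH (h ▸ Subgroup.mem_sup_right (Subgroup.mem_zpowers c))
    have h3 := mul_card_le_card_of_lt (hG.to_subgroup _) hlt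
    have h4 := Subgroup.card_le_card_group (H ⊔ Subgroup.zpowers c)
    have h5 : k = 2 := by
      have := h3.trans h4
      rw [hk, h, ← pow_succ'] at this
      have := (Nat.pow_le_pow_iff_right hp'.one_lt).1 this
      omega
    subst h5
    have h6 : H ⊔ Subgroup.zpowers c = ⊤ := Subgroup.eq_top_of_le_card _ (by
      rw [h, pow_succ', ← hk]; exact h3)
    have h7 := isMulCommutative_sup (IsPGroup.isMulCommutative_of_card_eq_prime_sq hk)
      inferInstance (Subgroup.zpowers_le.2 hc)
    rw [h6] at h7
    exact hna (isMulCommutative_iff_forall'.2 fun a b =>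
      isMulCommutative_iff_forall.1 h7 a (Subgroup.mem_top _) b (Subgroup.mem_top _))

end Cfsg.Agent.S3918
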