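import Cfsg.Statements.S3919
import Mathlib
import Cfsg.Agent.Lib.TwoGroupMaxClass

set_option autoImplicit false
open Cfsg

namespace Cfsg.Agent.S3919

open CfsgLib.PGrp
open scoped commutatorElement

/-- Say that a group has self-centralizing non-cyclic subgroups when every non-cyclic subgroup H satisfies C_G(H) ≤ H. A finite non-abelian 2-group G of order 2^n has self-centralizing non-cyclic subgroups if and only if G has nilpotency class n − 1 (that is, G is dihedral, semidihedral or generalized quaternion). -/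
theorem result {G : Type*} [Group G] [Finite G] (hna : ¬ IsMulCommutative G) (n : ℕ) (hG : Nat.card G = 2 ^ n) :
    (∀ H : Subgroup G, ¬ IsCyclic ↥H → Subgroup.centralizer (H : Set G) ≤ H) ↔ (⊤ : Subgroup G).lowerCentralSeries (n - 2) ≠ ⊥ := by
  have hP : IsPGroup 2 G := IsPGroup.of_card hG
  have h3 : 3 ≤ n := by
    by_contra h5
    apply hna
    have : n = 0 ∨ n = 1 ∨ n = 2 := by omega
    rcases this with rfl | rfl | rfl
    · have := isCyclic_of_card_dvd_prime (p := 2) (α := G) (by simp [hG])
      infer_instance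
    · have := isCyclic_of_card_dvd_prime (p := 2) (α := G) (by simp [hG])
      infer_instance
    · exact IsPGroup.isMulCommutative_of_card_eq_prime_sq hG
  rw [← nilpotencyClass_eq_iff_lowerCentralSeries_ne_bot hG (by omega),
    ← isDQSD_iff_nilpotencyClass_eq hG h3]
  constructor
  · intro h
    rcases isCyclic_or_isDQSD_or_exists_normal_card_sq hP with h1 | h1 | ⟨E, hEn, hE, hc⟩
    · exact absurd IsCyclic.isMulCommutative hna
    · exact h1.2
    · have h1 := h E (not_isCyclic_of_isElementaryAbelian hE (by rw [hc]; norm_num))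
      have h2 : E.index ≤ 2 := (Subgroup.index_antitone h1).trans
        (index_centralizer_le_of_card_sq hP E hc)
      have h4 := E.index_mul_card
      have h5 : 2 ^ 3 ≤ 2 ^ n := Nat.pow_le_pow_right two_pos h3
      obtain ⟨x, y, h⟩ := isDQSD_of_card_eq_eight (G := G) (by rw [hc] at h4; omega) hna
      exact ⟨2, x, y, h⟩
  · rintro ⟨m, x, y, h⟩ H hH
    have h1 : ¬ H ≤ Subgroup.zpowers x := fun h => hH (Subgroup.isCyclic_of_le h)
    obtain ⟨g, hgH, hg⟩ := SetLike.not_le_iff_exists.1 h1
    have h2 : ¬ H ≤ Subgroup.zpowers g := fun h => hH (Subgroup.isCyclic_of_le h)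
    obtain ⟨k, hkH, hk⟩ := SetLike.not_le_iff_exists.1 h2
    obtain ⟨a, haH, hax, ha1⟩ : ∃ a ∈ H, a ∈ Subgroup.zpowers x ∧ a ≠ 1 := by
      by_cases hkx : k ∈ Subgroup.zpowers x
      · exact ⟨k, hkH, hkx, fun h => hk (h ▸ one_mem _)⟩
      · refine ⟨g * k, mul_mem hgH hkH, ?_, fun h => hk ?_⟩
        · rw [Subgroup.mul_mem_iff_of_index_two h.index_zpowers]
          simp [hg, hkx]
        · rw [eq_inv_of_mul_eq_one_right h]
          exact inv_mem (Subgroup.mem_zpowers g)
    refine (Subgroup.centralizer_le (s := {g}) (by simpa using hgH)).trans ?_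
    rw [h.centralizer_eq hg, h.center_eq]
    refine sup_le (Subgroup.zpowers_le.2 (Subgroup.zpowers_le.2 haH ?_)) (Subgroup.zpowers_le.2 hgH)
    refine mem_zpowers_of_orderOf_dvd (pow_mem (Subgroup.mem_zpowers x) _) hax ?_
    rw [h.pow_mem_center.1]
    exact hP.dvd_orderOf ha1

end Cfsg.Agent.S3919
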