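import Cfsg.Statements.S3920
import Cfsg.Agent.Lib.FrobZGroup

set_option autoImplicit false
open Cfsg

namespace Cfsg.Agent.S3920

open Subgroup CfsgLib
open scoped Pointwise commutatorElement



theorem result (n : ℕ) (hn : 3 ≤ n) : (∀ H : Subgroup (DihedralGroup n), ¬ IsCyclic ↥H → Subgroup.centralizer (H : Set (DihedralGroup n)) ≤ H) ↔ (Odd n ∨ ∃ k : ℕ, n = 2 ^ k) := by
  have : NeZero n := ⟨by omega⟩
  open DihedralGroup in
  constructor
  · intro h
    by_contra hc
    push Not at hc
    obtain ⟨m, hm⟩ := Nat.not_odd_iff_even.mp hc.1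
    obtain ⟨p, hp, hd, hp2⟩ : ∃ p, p.Prime ∧ p ∣ n ∧ p ≠ 2 := by
      by_contra h1
      push Not at h1
      exact hc.2 _ (Nat.eq_prime_pow_of_unique_prime_dvd (by omega) fun hp hd => h1 _ hp hd)
    obtain ⟨c, hc⟩ := hd
    have hodd : ∀ i : ZMod n, i + i = 0 → (p : ZMod n) * i = 0 → i = 0 := fun i h1 h2 => by
      obtain ⟨k, hk⟩ := hp.odd_of_ne_two hp2
      rw [hk] at h2
      push_cast at h2
      linear_combination h2 - k * h1
    let H : Subgroup (DihedralGroup n) :=
      { carrier := {x | ∃ i : ZMod n, (p : ZMod n) * i = 0 ∧ (x = r i ∨ x = sr i)}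
        one_mem' := ⟨0, mul_zero _, Or.inl rfl⟩
        mul_mem' := by
          rintro _ _ ⟨i, hi, rfl | rfl⟩ ⟨j, hj, rfl | rfl⟩
          · exact ⟨i + j, by linear_combination hi + hj, Or.inl rfl⟩
          · exact ⟨j - i, by linear_combination hj - hi, Or.inr rfl⟩
          · exact ⟨i + j, by linear_combination hi + hj, Or.inr rfl⟩
          · exact ⟨j - i, by linear_combination hj - hi, Or.inl rfl⟩
        inv_mem' := by
          rintro _ ⟨i, hi, rfl | rfl⟩
          · exact ⟨-i, by linear_combination -hi, Or.inl rfl⟩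
          · exact ⟨i, hi, Or.inr rfl⟩ }
    have hpc : (p : ZMod n) * c = 0 := by rw [← Nat.cast_mul, ← hc, ZMod.natCast_self]
    have hmm : (m : ZMod n) + m = 0 := by rw [← Nat.cast_add, ← hm, ZMod.natCast_self]
    have h1 := h H (fun hcyc => by
      have h2 := congrArg Subtype.val (hcyc.isMulCommutative.is_comm.comm
        (⟨r c, c, hpc, Or.inl rfl⟩ : H) ⟨sr 0, 0, mul_zero _, Or.inr rfl⟩)
      have h3 : (0 : ZMod n) - c = 0 + c := sr.inj h2
      have h4 := (ZMod.natCast_eq_zero_iff c n).mp (hodd c (by linear_combination -h3) hpc)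
      have h5 := Nat.le_of_dvd (Nat.pos_of_ne_zero (by rintro rfl; omega)) h4
      have := hp.two_le
      nlinarith) (show r m ∈ _ by
        rintro (i | i) -
        · rw [r_mul_r, r_mul_r, add_comm]
        · rw [r_mul_sr, sr_mul_r]
          congr 1
          linear_combination hmm)
    obtain ⟨i, hi, h2 | h2⟩ := h1
    · rw [← r.inj h2] at hi
      have := Nat.le_of_dvd (by omega) ((ZMod.natCast_eq_zero_iff m n).mp (hodd _ hmm hi))
      omega
    · cases h2
  · intro h H hH
    have hr : ∀ i : ZMod n, r i ∈ zpowers (r 1 : DihedralGroup n) := fun i =>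
      ⟨i.val, by simp⟩
    obtain ⟨a, ha⟩ : ∃ a, sr a ∈ H := by
      by_contra h1
      push Not at h1
      refine hH (Frob.isCyclic_of_le (K := zpowers (r 1)) ?_)
      rintro (i | i) hi
      exacts [hr i, absurd hi (h1 i)]
    obtain ⟨b, hb, hb0⟩ : ∃ b, r b ∈ H ∧ b ≠ 0 := by
      by_contra h1
      push Not at h1
      refine hH (Frob.isCyclic_of_le (K := zpowers (sr a)) ?_)
      rintro (i | i) hi
      · rw [h1 i hi]; exact one_mem _
      · rw [sub_eq_zero.mp (h1 _ (H.mul_mem ha hi))]; exact mem_zpowers _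
    have key : ∀ i : ZMod n, i + i = 0 → r i ∈ H := by
      intro i hi
      rcases h with ⟨k, hk⟩ | ⟨k, hk⟩
      · have h1 : ((2 * k + 1 : ℕ) : ZMod n) = 0 := by rw [← hk, ZMod.natCast_self]
        push_cast at h1
        rw [show i = 0 by linear_combination i * h1 - k * hi]
        exact one_mem _
      · refine zpowers_le.mpr hb (Frob.mem_zpowers_of_isCyclic (hr b) (hr i) ?_)
        have h1 := orderOf_dvd_of_mem_zpowers (hr b)
        rw [orderOf_r_one] at h1
        obtain ⟨j, -, hj⟩ := (Nat.dvd_prime_pow Nat.prime_two).mp (h1.trans hk.dvd)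
        cases j with
        | zero => exact absurd (r.inj (orderOf_eq_one_iff.mp hj)) hb0
        | succ j => rw [hj, pow_succ', pow_mul, sq, r_mul_r, hi]; exact one_pow _
    rintro (i | i) hg
    · have h1 : a + i = a - i := sr.inj (hg _ ha)
      exact key i (by linear_combination h1)
    · have h1 : i - a = a - i := r.inj (hg _ ha)
      have := H.mul_mem ha (key (i - a) (by linear_combination h1))
      rwa [sr_mul_r, add_sub_cancel] at this

end Cfsg.Agent.S3920
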