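import Cfsg.Statements.S3921
import Cfsg.Agent.Lib.BSW.MaxCl
import Cfsg.Agent.Lib.BSW.PSLCent
import Cfsg.Agent.Lib.CoreSubnormal
import Cfsg.Agent.Lib.H5Redundant

set_option autoImplicit false
open Cfsg

namespace Cfsg.Agent.S3921

section
open Subgroup CfsgLib CfsgLib.BSW CfsgLib.H5 CfsgLib.PGrp MatrixGroups

def SC (G : Type*) [Group G] : Prop :=
  ∀ H : Subgroup G, ¬ IsCyclic H → centralizer (H : Set G) ≤ H

variable {G : Type*} [Group G]

theorem SC.of_injective (h : SC G) {X : Type*} [Group X] (f : X →* G)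
    (hf : Function.Injective f) : SC X := by
  intro H hH c hc
  obtain ⟨x, hx, e⟩ := h (H.map f)
    (fun e => hH (isCyclic_of_injective (H.equivMapOfInjective f hf).toMonoidHom
      (H.equivMapOfInjective f hf).injective)) (x := f c)
    (mem_centralizer_iff.mpr (by
      rintro _ ⟨x, hx, rfl⟩
      rw [← map_mul, ← map_mul, mem_centralizer_iff.mp hc x hx]))
  exact hf e ▸ hx

theorem SC.mem (h : SC G) {t : G} (ht : t ∈ center G) {H : Subgroup G} (hH : ¬ IsCyclic H) :
    t ∈ H := h H hH (center_le_centralizer _ ht)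

theorem SC.card_cent [Finite G] (h : SC G) {t u : G} (htz : t ∈ center G) (ht : orderOf t = 2)
    (hu : orderOf u = 2) (hut : u ≠ t) : Nat.card (centralizer ({u} : Set G)) = 4 := by
  haveI : (zpowers t).Normal := ⟨fun x hx g => by
    rwa [mem_center_iff.mp (zpowers_le.mpr htz hx) g, mul_inv_cancel_right]⟩
  have hnc : ¬ IsCyclic (zpowers u ⊔ zpowers t : Subgroup G) := fun hc => by
    obtain ⟨g, hg⟩ := (Subgroup.isCyclic_iff_exists_zpowers_eq_top _).mp hc
    exact hut (eq_of_mem_zpowers_of_sq (hg ▸ mem_sup_left (mem_zpowers u))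
      (hg ▸ mem_sup_right (mem_zpowers t)) hu ht)
  have hle : zpowers u ⊔ zpowers t ≤ centralizer {u} :=
    sup_le (zpowers_le.mpr (self_mem_cent u)) (zpowers_le.mpr (center_le_centralizer _ htz))
  have hge : centralizer {u} ≤ zpowers u ⊔ zpowers t := fun g hg => h _ hnc (by
    refine (le_centralizer_iff (H := zpowers g)).mpr ?_ (mem_zpowers g)
    rw [centralizer_zpowers']
    exact sup_le (zpowers_le.mpr (mem_cent_comm hg))
      (zpowers_le.mpr (center_le_centralizer _ htz)))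
  rw [le_antisymm hge hle, card_sup_of_disjoint le_normalizer_of_normal, Nat.card_zpowers,
    Nat.card_zpowers, hu, ht]
  rw [eq_bot_iff]
  intro x hx
  by_contra h1
  have h2 : orderOf x = 2 := ((Nat.dvd_prime Nat.prime_two).mp
    (hu ▸ orderOf_dvd_of_mem_zpowers hx.1)).resolve_left (by simpa using h1)
  exact hut ((eq_of_mem_zpowers_of_sq (mem_zpowers u) hx.1 hu h2).trans
    (eq_of_mem_zpowers_of_sq hx.2 (mem_zpowers t) h2 ht))

theorem SC.two_elt [Finite G] (h : SC G) {t a b : G} (htz : t ∈ center G) (ht : orderOf t = 2)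
    (ha : a ^ 2 = 1) (hb : b ^ 2 = 1) : ∃ k, orderOf (a * b) = 2 ^ k := by
  refine exists_pow_of_forall_prime_eq Nat.prime_two (orderOf_pos _).ne' fun r hr hd => ?_
  by_contra hr2
  set w := (a * b) ^ (orderOf (a * b) / r) with hw
  have how : orderOf w = r := orderOf_pow_orderOf_div (orderOf_pos _).ne' hd
  have hi : a * w * a⁻¹ = w⁻¹ :=
    inverts_of_mem_zpowers (inverts_mul_left ha hb) (pow_mem (mem_zpowers _) _)
  have hne : w ≠ w⁻¹ := fun e => hr2 ((Nat.prime_dvd_prime_iff_eq hr Nat.prime_two).mp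
    (how ▸ orderOf_dvd_of_pow_eq_one (by rw [sq]; exact mul_eq_one_iff_eq_inv.mpr e)))
  have hN : zpowers a ≤ normalizer (zpowers w : Set G) := zpowers_le.mpr
    (mem_normalizer_of_conj_mem fun x hx => inverts_of_mem_zpowers hi hx ▸ inv_mem hx)
  have hD : t ∈ zpowers a ⊔ zpowers w := h.mem htz fun hc => hne (by
    have := (BSW.isMulCommutative_iff'.mp hc.isMulCommutative) a (mem_sup_left (mem_zpowers a)) w
      (mem_sup_right (mem_zpowers w))
    rw [← hi, this, mul_inv_cancel_right])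
  obtain ⟨c, ⟨i, rfl⟩, d, hd', e⟩ := (mem_sup_iff_of_le_normalizer hN).mp hD
  have ha' : a ^ (2 : ℤ) = 1 := by rw [zpow_ofNat, ha]
  rcases Int.even_or_odd i with ⟨j, rfl⟩ | ⟨j, rfl⟩
  · simp only [← two_mul, zpow_mul, ha', one_zpow, one_mul] at e
    have := orderOf_dvd_of_mem_zpowers hd'
    rw [e, ht, how] at this
    exact hr2 ((Nat.prime_dvd_prime_iff_eq Nat.prime_two hr).mp this).symm
  · simp only [zpow_add, zpow_mul, ha', one_zpow, one_mul, zpow_one] at e
    obtain ⟨m, rfl⟩ := hd'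
    apply hne
    have h1 := mem_center_iff.mp htz w
    rw [← hi, eq_mul_inv_iff_mul_eq]
    rw [← e, ← mul_assoc, mul_assoc a, (Commute.zpow_left (Commute.refl w) m).eq,
      ← mul_assoc] at h1
    exact mul_right_cancel h1

theorem SC.isPGroup [Finite G] (h : SC G) {t u : G} (htz : t ∈ center G) (ht : orderOf t = 2)
    (hu : orderOf u = 2) (hut : u ≠ t) : IsPGroup 2 G := by
  haveI := Fact.mk Nat.prime_two
  obtain ⟨S⟩ : Nonempty (Sylow 2 G) := inferInstance
  have hu2 : u ^ 2 = 1 := by rw [← hu, pow_orderOf_eq_one]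
  have hO : u ∈ pCore 2 G := baer_suzuki fun g => by
    have h2 : (g * u * g⁻¹) ^ 2 = 1 := by rw [conj_pow, hu2]; simp
    obtain ⟨k, hk⟩ := h.two_elt htz ht hu2 h2
    exact isPGroup_closure_of_involutions hu2 h2 hk
  have hOS : pCore 2 G ≤ S := (pCore_isPGroup 2).le_sylow_of_normal S
  have htS : t ∈ (S : Subgroup G) := mem_sylow_of_mem_center htz ⟨1, by simpa using ht⟩ S
  have htz' : (⟨t, htS⟩ : (S : Subgroup G)) ∈ center _ :=
    mem_center_iff.mpr fun g => Subtype.ext (mem_center_iff.mp htz g)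
  have h4 := (h.of_injective _ (S : Subgroup G).subtype_injective).card_cent
    (u := ⟨u, hOS hO⟩) htz' (by simpa using ht) (by simpa using hu) (by simpa using hut)
  obtain ⟨x, htx, hx⟩ : ∃ x : (S : Subgroup G), ⟨t, htS⟩ ∈ zpowers x ∧
      Nat.card (S : Subgroup G) = 2 * orderOf x := by
    by_cases hS : IsMulCommutative (S : Subgroup G)
    · refine ⟨_, mem_zpowers _, ?_⟩
      rw [show centralizer ({⟨u, hOS hO⟩} : Set (S : Subgroup G)) = ⊤ from
        eq_top_iff.mpr fun g _ => mem_cent.mpr (hS.is_comm.comm g _), card_top] at h4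
      rw [h4, ← orderOf_coe, ht]
    · obtain ⟨n, x, y, hxy⟩ := isDQSD_of_card_centralizer S.isPGroup' hS h4
      refine ⟨x, ?_, by rw [hxy.2.1, hxy.2.2.1, pow_succ']⟩
      rw [hxy.center_eq] at htz'
      exact zpowers_le.mpr (pow_mem (mem_zpowers x) _) htz'
  have hsub : {v | ∃ g, g * u * g⁻¹ = v} ⊆ (S : Subgroup G) \ (zpowers (x : G) : Set G) := by
    rintro _ ⟨g, rfl⟩
    refine ⟨hOS ((inferInstance : (pCore 2 G).Normal).conj_mem u hO g), fun e => hut ?_⟩
    have htx' : t ∈ zpowers (x : G) := by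
      obtain ⟨i, hi⟩ := htx
      exact ⟨i, by simpa using congrArg Subtype.val hi⟩
    have := eq_of_mem_zpowers_of_sq e htx' (by rw [orderOf_conj', hu]) ht
    rw [mul_inv_eq_iff_eq_mul, ← mem_center_iff.mp htz] at this
    exact mul_left_cancel this
  have h5 := Set.ncard_le_ncard hsub
  rw [ncard_class, Set.ncard_diff (zpowers_le.mpr x.2), ← Nat.card_coe_set_eq,
    ← Nat.card_coe_set_eq] at h5
  change _ ≤ Nat.card (S : Subgroup G) - Nat.card (zpowers (x : G)) at h5
  rw [Nat.card_zpowers, orderOf_coe] at h5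
  have h6 := (centralizer ({u} : Set G)).index_mul_card
  rw [h.card_cent htz ht hu hut] at h6
  have h7 := (S : Subgroup G).index_mul_card
  have h8 := S.not_dvd_index
  have h9 : (S : Subgroup G).index = 1 := by
    have h10 := orderOf_pos x
    by_contra h11
    have h12 : 3 ≤ (S : Subgroup G).index := by omega
    change cidx u * 4 = _ at h6
    rw [hx] at h7 h5
    have : 3 * (2 * orderOf x) ≤ Nat.card G := h7 ▸ Nat.mul_le_mul_right _ h12
    omega
  have := S.isPGroup'
  rw [index_eq_one.mp h9] at this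
  exact this.of_equiv topEquiv

theorem sc_psl {F : Type*} [Field F] [Fintype F]
    (h1 : ∃ p : ℕ, p.Prime ∧ Fintype.card F ∣ p ^ 2)
    (h2 : ∀ N, 4 ∣ N → N = Fintype.card F - 1 ∨ N = Fintype.card F + 1 → ∃ k, N = 2 ^ k) :
    SC (Matrix.ProjectiveSpecialLinearGroup (Fin 2) F) := by
  intro H hH x hx
  by_contra hxH
  have hle : H ≤ centralizer {x} := fun g hg => mem_cent.mpr (mem_centralizer_iff.mp hx g hg)
  obtain ⟨c, rfl⟩ := piP_surj x
  have hc : c ∉ center SL(2, F) := fun e => hxH (piP_eq_one.mpr e ▸ H.one_mem)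
  have huni : ∀ c' : SL(2, F), piP F c' = piP F c → c' 0 0 + c' 1 1 ≠ 2 := fun c' e h3 => by
    obtain ⟨p, hp, hq⟩ := h1
    haveI := Fact.mk hp
    have h4 := card_map_cent_dvd h3 (fun e' => hc (piP_eq_one.mp (e ▸ piP_eq_one.mpr e')))
    rw [← cent_piP (by rw [h3]; exact ne_or_eq _ _), e, Nat.card_eq_fintype_card (α := F)] at h4
    have h5 := card_lt_card_of_lt (hle.lt_of_ne fun e => hxH (e ▸ self_mem_cent _))
    have h6 := Nat.le_of_dvd (pow_pos hp.pos 2) (h4.trans hq)
    obtain ⟨i, hi, h7⟩ := (Nat.dvd_prime_pow hp).mp ((card_dvd_of_le hle).trans (h4.trans hq))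
    have h8 : i ≤ 1 := by
      by_contra h9
      obtain rfl : i = 2 := by omega
      omega
    exact hH (isCyclic_of_card_dvd_prime (p := p) (h7 ▸ (pow_dvd_pow p h8).trans (by simp)))
  have htr : (c 0 0 + c 1 1) ^ 2 ≠ 4 := fun e => by
    rcases mul_eq_zero.mp (by linear_combination e :
      (c 0 0 + c 1 1 - 2) * (c 0 0 + c 1 1 + 2) = 0) with e | e
    · exact huni c rfl (by linear_combination e)
    · exact huni (-c) (piP_neg c) (by rw [SL2_neg_apply, SL2_neg_apply]; linear_combination -e)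
  obtain ⟨hcyc, hN⟩ := SL2_centralizer htr
  haveI hTc : IsCyclic ((centralizer {c}).map (piP F)) :=
    isCyclic_of_surjective _ ((piP F).subgroupMap_surjective _)
  by_cases h0 : c 0 0 + c 1 1 ≠ 0 ∨ (2 : F) = 0
  · rw [cent_piP h0] at hle
    exact hH (isCyclic_of_le hle)
  push Not at h0
  have hcc := SL2_sq_of_trace_zero h0.1
  have ho : orderOf (piP F c) = 2 := orderOf_eq_two_iff'.mpr
    ⟨by rw [← map_mul, hcc, piP_neg, map_one], fun e => hc (piP_eq_one.mp e)⟩
  have ho4 : orderOf c = 2 ^ (1 + 1) := orderOf_eq_prime_pow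
    (fun e => hc (SL2_mem_center_of_sq h0.2 e))
    (by rw [show 2 ^ (1 + 1) = 2 * 2 from rfl, pow_mul, sq c, hcc, neg_sq, one_pow])
  obtain ⟨k, hk⟩ := h2 _ (ho4 ▸ Subgroup.orderOf_dvd_natCard _ (self_mem_cent c))
    (by rwa [← Nat.card_eq_fintype_card])
  haveI := Fact.mk Nat.prime_two
  have hT : IsPGroup 2 ((centralizer {c}).map (piP F)) := (IsPGroup.of_card hk).map _
  obtain ⟨g0, hg0⟩ := (Subgroup.isCyclic_iff_exists_zpowers_eq_top _).mp hTc
  have hinf : ∀ g ∈ centralizer {c}, piP F g ∈ H → piP F g = 1 := fun g hg hgH => by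
    by_contra hg1
    have hgT : piP F g ∈ (centralizer {c}).map (piP F) := ⟨g, hg, rfl⟩
    obtain ⟨j, hj⟩ := IsPGroup.iff_orderOf.mp hT ⟨_, hgT⟩
    rw [← orderOf_coe] at hj
    obtain ⟨m, hm⟩ := exists_pow_orderOf_eq_two hj hg1
    exact hxH (eq_of_mem_zpowers_of_sq (hg0 ▸ pow_mem hgT m)
      (hg0 ▸ ⟨c, self_mem_cent c, rfl⟩) hm ho ▸ pow_mem hgH m)
  have hneg : ∀ g, piP F g ∈ H → piP F g ≠ 1 → g * c * g⁻¹ = -c := fun g hg hg1 =>
    (piP_comm_iff.mp (mem_cent.mp (hle hg))).resolve_left fun e =>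
      hg1 (hinf g (mem_cent.mpr (mul_inv_eq_iff_eq_mul.mp e)) hg)
  by_cases hb : H = ⊥
  · exact hH (hb ▸ inferInstance)
  obtain ⟨⟨a, ha⟩, ha1⟩ := ne_bot_iff_exists_ne_one.mp hb
  refine hH ((Subgroup.isCyclic_iff_exists_zpowers_eq_top _).mpr
    ⟨a, le_antisymm (zpowers_le.mpr ha) fun b hb => ?_⟩)
  by_cases hb1 : b = 1
  · exact hb1 ▸ one_mem _
  obtain ⟨a, rfl⟩ := piP_surj a
  obtain ⟨b, rfl⟩ := piP_surj b
  have e1 := hneg a ha (by simpa using ha1)
  have e2 := hneg b hb hb1
  have := hinf (a⁻¹ * b) (mem_cent.mpr (by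
    rw [mul_assoc, mul_inv_eq_iff_eq_mul.mp e2, ← e1]; group))
    (by rw [map_mul, map_inv]; exact mul_mem (inv_mem ha) hb)
  rw [map_mul, map_inv, inv_mul_eq_one] at this
  exact this ▸ mem_zpowers _

end


/-- Say that a group has self-centralizing non-cyclic subgroups when every non-cyclic subgroup H satisfies C_G(H) ≤ H. A non-abelian finite simple group has self-centralizing non-cyclic subgroups if and only if it is isomorphic to PSL₂(q) with q = 4, q = 9, or q a prime of the form 2^k + 1 or 2^k − 1. -/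
theorem result {G : Type*} [Group G] [Finite G] [IsSimpleGroup G] (hna : ¬ IsMulCommutative G) :
    (∀ H : Subgroup G, ¬ IsCyclic ↥H → Subgroup.centralizer (H : Set G) ≤ H) ↔ ∃ (F : Type) (_ : Field F) (_ : Fintype F),
      (Fintype.card F = 4 ∨ Fintype.card F = 9 ∨ ((Fintype.card F).Prime ∧ ∃ k : ℕ, Fintype.card F = 2 ^ k + 1 ∨ Fintype.card F = 2 ^ k - 1)) ∧
      Nonempty (G ≃* Matrix.ProjectiveSpecialLinearGroup (Fin 2) F) := by
  open Subgroup CfsgLib CfsgLib.BSW in
  constructor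
  · intro h
    change SC G at h
    haveI := Fact.mk Nat.prime_two
    obtain ⟨S⟩ : Nonempty (Sylow 2 G) := inferInstance
    have hC : ∀ t : G, orderOf t = 2 → (S : Subgroup G) ≤ centralizer {t} →
        centralizer {t} = (S : Subgroup G) := fun t ht hS => by
      obtain ⟨u, hu, hu1, hut, hcm⟩ := exists_other_involution hna ht
      refine S.3 ((h.of_injective _ (centralizer ({t} : Set G)).subtype_injective).isPGroup
        (t := ⟨t, self_mem_cent t⟩) (u := ⟨u, mem_cent.mpr hcm⟩)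
        (mem_center_iff.mpr fun g => Subtype.ext (mem_cent.mp g.2)) (by simpa using ht)
        (by simpa using orderOf_eq_two_iff'.mpr ⟨hu, hu1⟩) (by simpa using hut)) hS
    obtain ⟨t, htS, ht, hSt⟩ := exists_central_of_sylow S
      (even_card_of_not_isSolvable (not_isSolvable_of_simple hna)).two_dvd
    obtain ⟨u, hu, hu1, hut, hcm⟩ := exists_other_involution hna ht
    exact psl_of_cent_eq_sylow hna S hC
      ((h.of_injective _ (S : Subgroup G).subtype_injective).card_cent (t := ⟨t, htS⟩)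
        (u := ⟨u, hC t ht hSt ▸ mem_cent.mpr hcm⟩)
        (mem_center_iff.mpr fun g => Subtype.ext (mem_cent.mp (hSt g.2))) (by simpa using ht)
        (by simpa using orderOf_eq_two_iff'.mpr ⟨hu, hu1⟩) (by simpa using hut))
  · rintro ⟨F, _, _, hF, ⟨e⟩⟩
    refine (sc_psl (F := F) ?_ fun N h4 hN => ?_).of_injective e.toMonoidHom e.injective
    · rcases hF with h | h | ⟨h, -⟩
      · exact ⟨2, Nat.prime_two, by rw [h]; norm_num⟩
      · exact ⟨3, Nat.prime_three, by rw [h]; norm_num⟩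
      · exact ⟨_, h, dvd_pow_self _ two_ne_zero⟩
    · rcases hF with h | h | ⟨h, k, hk⟩
      · omega
      · exact ⟨3, by omega⟩
      · have h2 := h.two_le
        rcases k with _ | _ | k
        · omega
        · exact ⟨2, by omega⟩
        · refine ⟨k + 1 + 1, ?_⟩
          rw [pow_succ, pow_succ] at hk ⊢
          omega

end Cfsg.Agent.S3921
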