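import Cfsg.Statements.S3927
import Cfsg.Agent.Lib.CoreFlavellZipper

set_option autoImplicit false
open Cfsg

namespace Cfsg.Agent.S3927

open Subgroup CfsgLib
open scoped Pointwise commutatorElement

universe u

theorem aux (k : ℕ) (Γ : Type u) [Group Γ] [Finite Γ] : ∀ a : Γ,
    normalClosure ((zpowers a : Subgroup Γ) : Set Γ) = ⊤ →
    zpowers a ⊔ closure (Set.range (fun x : Γ => x * a * x⁻¹ * a⁻¹)^[k]) = ⊤ := by
  refine card_induction (P := fun Γ _ _ => ∀ a : Γ,
    normalClosure ((zpowers a : Subgroup Γ) : Set Γ) = ⊤ →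
    zpowers a ⊔ closure (Set.range (fun x : Γ => x * a * x⁻¹ * a⁻¹)^[k]) = ⊤)
    (fun Γ _ _ ih a ha => ?_) Γ
  by_contra hne
  obtain ⟨M, hM, hEM⟩ := (eq_top_or_exists_le_coatom _).resolve_left hne
  have haM : zpowers a ≤ M := le_sup_left.trans hEM
  have huniq := unique_coatom_of_closed_le (zpowers a) ha hM (fun H h1 h2 h3 => by
    have haH : a ∈ H := h1 (mem_zpowers a)
    have h4 : (zpowers a).subgroupOf H = zpowers (⟨a, haH⟩ : H) := by
      apply map_injective H.subtype_injective
      rw [subgroupOf_map_subtype, inf_eq_left.mpr h1, MonoidHom.map_zpowers]; rfl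
    have h5 := congrArg (Subgroup.map H.subtype)
      (ih H (card_lt_of_ne_top h2) ⟨a, haH⟩ (h4 ▸ h3))
    rw [← MonoidHom.range_eq_map, range_subtype, Subgroup.map_sup, MonoidHom.map_zpowers,
      MonoidHom.map_closure] at h5
    refine h5.ge.trans (le_trans (sup_le_sup_left (Subgroup.closure_mono ?_) _) hEM)
    rintro _ ⟨_, ⟨x, rfl⟩, rfl⟩
    refine ⟨x, ?_⟩
    exact (Function.Semiconj.iterate_right (f := H.subtype)
      (ga := fun x : H => x * ⟨a, haH⟩ * x⁻¹ * (⟨a, haH⟩ : H)⁻¹)
      (gb := fun x : Γ => x * a * x⁻¹ * a⁻¹) (fun _ => rfl) k x).symm)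
  have hNM : normalizer (M : Set Γ) ≤ M := by
    rcases hM.le_iff.mp (le_normalizer (H := M)) with h1 | h1
    · have := normalizer_eq_top_iff.mp h1
      exact absurd (top_le_iff.mp (ha ▸ normalClosure_le_normal haM)) hM.1
    · exact h1.le
  have step : ∀ x, x * a * x⁻¹ * a⁻¹ ∈ M → x ∈ M := by
    intro x h1
    have h2 : x * a * x⁻¹ ∈ M := by
      have := M.mul_mem h1 (haM (mem_zpowers a))
      rwa [inv_mul_cancel_right] at this
    have h3 := huniq _ _ (isCoatom_map_conj' hM x⁻¹) hM (by
      rw [zpowers_le, mem_map_conj_iff, inv_inv]; exact h2) haM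
    have := hNM (mem_normalizer_of_map_conj_eq h3)
    rwa [inv_mem_iff] at this
  have key : ∀ n : ℕ, ∀ x, (fun x : Γ => x * a * x⁻¹ * a⁻¹)^[n] x ∈ M → x ∈ M := by
    intro n
    induction n with
    | zero => exact fun x hx => hx
    | succ n ih2 =>
      intro x h1
      rw [Function.iterate_succ_apply] at h1
      exact step x (ih2 _ h1)
  exact hM.1 (eq_top_iff.mpr fun x _ => key k x (hEM (mem_sup_right (subset_closure ⟨x, rfl⟩))))

theorem result {G : Type*} [Group G] [Finite G] (α : MulAut G) (hG : Subgroup.closure (Set.range (fun c : G => c * (α c)⁻¹)) = ⊤) (k : ℕ) (hk : 1 ≤ k) :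
    Subgroup.closure (Set.range ((fun c : G => c * (α c)⁻¹)^[k])) = ⊤ := by
  let φ : zpowers α →* MulAut G := (zpowers α).subtype
  let Γ := G ⋊[φ] zpowers α
  have : Finite Γ := Finite.of_equiv _ SemidirectProduct.equivProd.symm
  let a : Γ := SemidirectProduct.inr ⟨α, mem_zpowers α⟩
  have hf : ∀ x : Γ, x * a * x⁻¹ * a⁻¹ = SemidirectProduct.inl (x.left * (α x.left)⁻¹) := by
    intro x
    have h1 : SemidirectProduct.inr x.right * a = a * (SemidirectProduct.inr x.right : Γ) := by
      rw [← map_mul, ← map_mul, mul_comm']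
    have h2 : (SemidirectProduct.inl (α x.left) : Γ) = a * SemidirectProduct.inl x.left * a⁻¹ := by
      rw [← map_inv]
      exact SemidirectProduct.inl_aut (φ := φ) ⟨α, mem_zpowers α⟩ x.left
    rw [map_mul, map_inv, h2]
    conv_lhs => rw [← SemidirectProduct.inl_left_mul_inr_right x]
    rw [mul_assoc (SemidirectProduct.inl x.left), h1]
    simp only [mul_inv_rev, inv_inv, mul_assoc, mul_inv_cancel_left]
  have hsemi : Function.Semiconj (SemidirectProduct.inl : G →* Γ) (fun c : G => c * (α c)⁻¹)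
      (fun x : Γ => x * a * x⁻¹ * a⁻¹) := fun c => (hf (SemidirectProduct.inl c)).symm
  have hr : ∀ x : Γ, SemidirectProduct.inr x.right ∈ zpowers a := fun x => by
    obtain ⟨n, hn⟩ := x.right.2
    refine ⟨n, ?_⟩
    show a ^ n = _
    rw [← map_zpow]
    exact congrArg _ (Subtype.ext hn)
  have h1 := aux k Γ a (by
    rw [eq_top_iff]
    intro x _
    rw [← SemidirectProduct.inl_left_mul_inr_right x]
    refine mul_mem ?_ (subset_normalClosure (hr x))
    have : (⊤ : Subgroup G) ≤ (normalClosure ((zpowers a : Subgroup Γ) : Set Γ)).comap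
        SemidirectProduct.inl := by
      rw [← hG, closure_le]
      rintro _ ⟨c, rfl⟩
      show SemidirectProduct.inl (c * (α c)⁻¹) ∈ normalClosure _
      rw [hsemi c]
      exact mul_mem (normalClosure_normal.conj_mem _ (subset_normalClosure (mem_zpowers a)) _)
        (inv_mem (subset_normalClosure (mem_zpowers a)))
    exact this (mem_top _))
  set E := closure (Set.range ((fun c : G => c * (α c)⁻¹)^[k])) with hE
  obtain ⟨k, rfl⟩ := Nat.exists_eq_add_of_le' hk
  have h2 : closure (Set.range (fun x : Γ => x * a * x⁻¹ * a⁻¹)^[k + 1]) ≤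
      E.map SemidirectProduct.inl := by
    rw [closure_le]
    rintro _ ⟨x, rfl⟩
    refine ⟨_, subset_closure ⟨x.left, rfl⟩, ?_⟩
    rw [Function.iterate_succ_apply, Function.iterate_succ_apply, hsemi.iterate_right, hf]
  have h3 : zpowers a ≤ normalizer ((E.map SemidirectProduct.inl : Subgroup Γ) : Set Γ) := by
    rw [zpowers_le]
    apply mem_normalizer_of_conj_mem
    rintro _ ⟨e, he, rfl⟩
    refine ⟨α e, ?_, by
      rw [← map_inv]; exact SemidirectProduct.inl_aut (φ := φ) ⟨α, mem_zpowers α⟩ e⟩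
    have : E ≤ E.comap α.toMonoidHom := by
      rw [hE, closure_le]
      rintro _ ⟨c, rfl⟩
      refine subset_closure ⟨α c, ?_⟩
      exact (Function.Semiconj.iterate_right (f := α) (ga := fun c : G => c * (α c)⁻¹)
        (gb := fun c : G => c * (α c)⁻¹) (fun c => by simp) (k + 1) c).symm
    exact this he
  rw [eq_top_iff]
  intro g _
  obtain ⟨e', ⟨e, he, rfl⟩, _, ⟨n, rfl⟩, h4⟩ := (mem_sup_iff_of_le_normalizer' h3).mp
    (((h1.ge.trans (sup_le_sup_left h2 _)).trans (sup_comm _ _).le)
      (mem_top (SemidirectProduct.inl g)))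
  have h5 : (SemidirectProduct.inl e * SemidirectProduct.inr (⟨α, mem_zpowers α⟩ ^ n) : Γ) =
      SemidirectProduct.inl g := by rw [map_zpow]; exact h4
  have h6 : e = g := by
    have := congrArg SemidirectProduct.left h5
    rwa [SemidirectProduct.mul_left, SemidirectProduct.left_inl, SemidirectProduct.left_inr,
      map_one, mul_one, SemidirectProduct.left_inl] at this
  exact h6 ▸ he

end Cfsg.Agent.S3927
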