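import Cfsg.Statements.S3928
import Cfsg.Agent.S3927

set_option autoImplicit false
open Cfsg

namespace Cfsg.Agent.S3928

open Subgroup Finset

section

variable {H : Type*} [Group H] [Finite H]

/-- The size of the conjugacy class of `x`. -/
noncomputable def cl (x : H) : ℕ := (centralizer ({x} : Set H)).index

theorem index_le {A B : Subgroup H} (h : A ≤ B) : B.index ≤ A.index :=
  Nat.le_of_dvd (Nat.pos_of_ne_zero index_ne_zero_of_finite) (index_dvd_of_le h)

theorem cl_mul (x y : H) : cl (x * y) ≤ cl x * cl y :=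
  (index_le fun g hg => by
    simp only [Subgroup.mem_inf, mem_centralizer_singleton_iff] at hg ⊢
    rw [← mul_assoc, hg.1, mul_assoc, hg.2, mul_assoc]).trans index_inf_le

theorem cl_inv (x : H) : cl x⁻¹ ≤ cl x := index_le fun g hg => by
  rw [mem_centralizer_singleton_iff] at hg ⊢
  exact (Commute.inv_right hg).eq

omit [Finite H] in
theorem cl_one : cl (1 : H) = 1 := by
  rw [cl, index_eq_one, eq_top_iff]
  exact fun g _ => mem_centralizer_singleton_iff.2 (by simp)

theorem index_cent_le {S : Finset H} {b : ℕ} (h : ∀ s ∈ S, cl s ≤ b) :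
    (centralizer (closure (S : Set H) : Set H)).index ≤ b ^ S.card := by
  refine (index_le (A := ⨅ s : S, centralizer {(s : H)}) fun g hg => ?_).trans
    ((index_iInf_le _).trans ?_)
  · rw [centralizer_closure]
    exact fun s hs => (mem_centralizer_singleton_iff.1 (mem_iInf.1 hg ⟨s, hs⟩)).symm
  · simpa [cl] using prod_le_pow_card univ (fun s : S => cl (s : H)) b fun s _ => h s s.2

/-- If many elements lie in small classes, they generate a subgroup of elements in small
classes. -/
theorem cl_le_of_closure {c : ℕ} (hc : 1 ≤ c) (h : Nat.card H ≤ c * {x : H | cl x ≤ c}.ncard)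
    {x : H} (hx : x ∈ closure {x : H | cl x ≤ c}) : cl x ≤ c ^ (3 * c + 3) := by
  have h1 : (1 : H) ∈ {x : H | cl x ≤ c} := cl_one.trans_le hc
  have mono : ∀ {i j : ℕ} {y : H}, i ≤ j → cl y ≤ c ^ i → cl y ≤ c ^ j :=
    fun hij hy => hy.trans (Nat.pow_le_pow_right hc hij)
  have step : ∀ {i : ℕ} {y k : H}, cl y ≤ c ^ i → cl k ≤ c → cl (y * k) ≤ c ^ (i + 1) :=
    fun hy hk => (cl_mul _ _).trans (pow_succ c _ ▸ Nat.mul_le_mul hy hk)
  by_cases e : ∃ i ≤ 3 * c + 3, ∀ y k : H, cl y ≤ c ^ i → cl k ≤ c → cl (y * k) ≤ c ^ i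
  · obtain ⟨i, hi, e⟩ := e
    refine mono hi ?_
    induction hx using closure_induction_right with
    | one => exact cl_one.trans_le (Nat.one_le_pow _ _ hc)
    | mul_right y _ k hk ih => exact e y k ih hk
    | mul_inv_cancel y _ k hk ih => exact e y _ ih ((cl_inv k).trans hk)
  push Not at e
  have key : ∀ t ≤ c + 1, t * {x : H | cl x ≤ c}.ncard ≤ {x : H | cl x ≤ c ^ (3 * t)}.ncard := by
    intro t ht
    induction t with
    | zero => simp
    | succ t ih =>
      obtain ⟨y, k, hy, hk, h2⟩ := e (3 * t + 1) (by omega)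
      rw [add_one_mul]
      refine (Nat.add_le_add (ih (by omega))
        (Set.ncard_image_of_injective _ (mul_right_injective (y * k))).ge).trans ?_
      rw [← Set.ncard_union_eq (Set.disjoint_left.2 ?_)]
      · refine Set.ncard_le_ncard ?_
        rintro _ (hz | ⟨z, hz, rfl⟩)
        · exact mono (by omega) hz
        · exact step (step hy hk) hz
      · rintro _ hz ⟨z, hz', rfl⟩
        simpa [h2.not_ge] using step hz ((cl_inv z).trans hz')
  have h2 := (key _ le_rfl).trans ((Set.ncard_le_card _).trans h)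
  have h3 := (Set.ncard_pos).2 ⟨1, h1⟩
  nlinarith

variable (α : H →* H) (hα : ∀ x, α (α x) = x) {n : ℕ}
  (hn : Nat.card (α.eqLocus (MonoidHom.id H)) ≤ n)

include hα hn

theorem card_le_mul {A : Subgroup H} (hA : ∀ x ∈ A, α x ∈ A) :
    Nat.card A ≤ n * {x : H | x ∈ A ∧ α x = x⁻¹}.ncard := by
  classical
  have := Fintype.ofFinite H
  rw [Set.ncard_eq_toFinset_card', ← SetLike.coe_sort_coe, Nat.card_coe_set_eq,
    Set.ncard_eq_toFinset_card']
  refine card_le_mul_card_image_of_maps_to (f := fun c => c * (α c)⁻¹) (fun c hc => ?_) n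
    fun w _ => ?_
  · simp only [Set.mem_toFinset, SetLike.mem_coe, Set.mem_ofPred_eq] at hc ⊢
    exact ⟨mul_mem hc (inv_mem (hA c hc)), by simp [hα]⟩
  · rcases (filter (fun c => c * (α c)⁻¹ = w) (A : Set H).toFinset).eq_empty_or_nonempty with
      e | ⟨d, hd⟩
    · simp [e]
    refine le_trans ?_ hn
    rw [← Fintype.card_coe, ← Nat.card_eq_fintype_card]
    refine Nat.card_le_card_of_injective (fun c => ⟨d⁻¹ * c, ?_⟩) fun c c' e => by simpa using e
    have e := (mem_filter.1 c.2).2.trans (mem_filter.1 hd).2.symm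
    show α (d⁻¹ * c) = d⁻¹ * c
    rw [map_mul, map_inv, eq_inv_mul_iff_mul_eq, ← mul_assoc, ← e, inv_mul_cancel_right]

theorem card_le_small : Nat.card H ≤ 2 * n ^ 2 * {x : H | cl x ≤ 2 * n ^ 2}.ncard := by
  classical
  have := Fintype.ofFinite H
  have h1 := card_le_mul α hα hn (A := ⊤) fun _ _ => trivial
  rw [card_top, Set.ncard_eq_toFinset_card'] at h1
  rw [Set.ncard_eq_toFinset_card']
  set I := {x : H | x ∈ (⊤ : Subgroup H) ∧ α x = x⁻¹}.toFinset
  set K := {x : H | cl x ≤ 2 * n ^ 2}.toFinset with hK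
  have hI : ∀ x ∈ I, α x = x⁻¹ := fun x hx => (Set.mem_toFinset.1 hx).2
  have h2 : #(I ×ˢ I) ≤ ∑ w : H, Nat.card (centralizer ({w} : Set H)) := by
    rw [card_eq_sum_card_fiberwise (f := fun p : H × H => p.1 * p.2⁻¹) (t := univ)
      fun _ _ => mem_univ _]
    refine sum_le_sum fun w _ => ?_
    have key : ∀ p ∈ filter (fun p : H × H => p.1 * p.2⁻¹ = w) (I ×ˢ I),
        p.1 * α w * p.1⁻¹ = w⁻¹ := fun p hp => by
      obtain ⟨h3, rfl⟩ := mem_filter.1 hp
      simp [hI _ (mem_product.1 h3).1, hI _ (mem_product.1 h3).2]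
    rcases (filter (fun p : H × H => p.1 * p.2⁻¹ = w) (I ×ˢ I)).eq_empty_or_nonempty with
      e | ⟨d, hd⟩
    · simp [e]
    rw [← Fintype.card_coe, ← Nat.card_eq_fintype_card]
    refine Nat.card_le_card_of_injective (fun c => ⟨c.1.1 * d.1⁻¹, ?_⟩) fun c c' e => ?_
    · refine mem_centralizer_singleton_iff.2 (Commute.inv_right_iff.1 ?_).eq
      calc _ = c.1.1 * d.1⁻¹ * (d.1 * α w * d.1⁻¹) := by rw [key _ hd]
        _ = c.1.1 * α w * c.1.1⁻¹ * (c.1.1 * d.1⁻¹) := by group
        _ = _ := by rw [key _ c.2]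
    · have e1 : c.1.1 = c'.1.1 := by simpa using e
      have e2 := (mem_filter.1 c.2).2.trans (mem_filter.1 c'.2).2.symm
      exact Subtype.ext (Prod.ext e1 (by simpa [e1] using e2))
  have h3 : ∑ w : H, 2 * n ^ 2 * Nat.card (centralizer ({w} : Set H)) ≤
      ∑ w : H, ((if w ∈ K then 2 * n ^ 2 * Nat.card H else 0) + Nat.card H) :=
    sum_le_sum fun w _ => by
      split_ifs with e
      · exact le_add_right (Nat.mul_le_mul_left _ (card_le_card_group _))
      · rw [hK, Set.mem_toFinset, Set.mem_ofPred_eq, not_le] at e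
        rw [zero_add, ← (centralizer ({w} : Set H)).index_mul_card]
        exact Nat.mul_le_mul_right _ e.le
  rw [← mul_sum, sum_add_distrib, sum_ite_mem, univ_inter, sum_const, sum_const, card_univ,
    ← Nat.card_eq_fintype_card, smul_eq_mul, smul_eq_mul] at h3
  rw [card_product] at h2
  have h4 := Nat.mul_le_mul h1 h1
  have h5 : 0 < Nat.card H := Nat.card_pos
  refine Nat.le_of_mul_le_mul_left ?_ h5
  nlinarith [Nat.mul_le_mul_left (2 * n ^ 2) h2]

theorem exists_inverted {A : Subgroup H} (hA : ∀ x ∈ A, ∀ y ∈ A, x * y = y * x) :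
    ∃ W : Subgroup H, (∀ x ∈ W, α x = x⁻¹) ∧ W.index ≤ n * A.index ^ 2 := by
  let W : Subgroup H :=
    { carrier := {x | x ∈ A ⊓ A.comap α ∧ α x = x⁻¹}
      one_mem' := ⟨one_mem _, by simp⟩
      mul_mem' := fun {x y} hx hy => ⟨mul_mem hx.1 hy.1, by
        rw [map_mul, hx.2, hy.2, hA x hx.1.1 y hy.1.1, mul_inv_rev]⟩
      inv_mem' := fun hx => ⟨inv_mem hx.1, by rw [map_inv, hx.2]⟩ }
  refine ⟨W, fun x hx => hx.2, Nat.le_of_mul_le_mul_right ?_ (Nat.card_pos (α := W))⟩
  have h1 : Nat.card ↥(A ⊓ A.comap α) ≤ n * Nat.card W :=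
    card_le_mul α hα hn fun x hx => ⟨hx.2, show α (α x) ∈ A from (hα x).symm ▸ hx.1⟩
  have h2 : (A ⊓ A.comap α).index ≤ A.index ^ 2 := by
    simpa [index_comap_of_surjective A (Function.RightInverse.surjective hα), sq] using
      index_inf_le (H := A) (K := A.comap α)
  rw [index_mul_card, ← (A ⊓ A.comap α).index_mul_card]
  nlinarith [Nat.mul_le_mul h2 h1]

end

theorem rank_le {H : Type*} [Group H] [Finite H] {J : Finset H} (hJ : closure (J : Set H) = ⊤)
    (A : Subgroup H) : Group.rank A ≤ A.index * J.card :=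
  (rank_le_index_mul_rank A).trans (Nat.mul_le_mul_left _ (Group.rank_le hJ))

theorem exists_index_center (n m : ℕ) : ∃ b, ∀ (H : Type) [Group H] [Finite H] (α : H →* H),
    (∀ x, α (α x) = x) → Nat.card (α.eqLocus (MonoidHom.id H)) ≤ n → ∀ J : Finset H,
    closure (J : Set H) = ⊤ → J.card ≤ m → (∀ j ∈ J, Odd (orderOf j) ∧ α j = j⁻¹) →
    (center H).index ≤ b := by
  refine ⟨((n * (2 * n ^ 2 * ((2 * n ^ 2) ^ (3 * (2 * n ^ 2) + 3)) ^ (2 * n ^ 2 * m)) ^ 2) ^ 2) ^ m,
    fun H _ _ α hα hn J hJ hm hj => ?_⟩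
  classical
  have h0 : 1 ≤ n := Nat.card_pos.trans_le hn
  have h1 := card_le_small α hα hn
  set c := 2 * n ^ 2
  have hc : 0 < c := by positivity
  set N := closure {x : H | cl x ≤ c}
  have h2 : N.index ≤ c := by
    refine Nat.le_of_mul_le_mul_right ?_ (Nat.card_pos (α := N))
    rw [index_mul_card]
    exact h1.trans (Nat.mul_le_mul_left _ (Set.ncard_le_ncard subset_closure))
  obtain ⟨S, hS1, hS2⟩ := Group.rank_spec N
  have h3 : closure (S.image N.subtype : Set H) = N := by
    rw [coe_image, ← MonoidHom.map_closure, hS2, ← MonoidHom.range_eq_map, range_subtype]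
  have h4 := (index_cent_le (S := S.image N.subtype) (b := c ^ (3 * c + 3)) fun s hs => by
    obtain ⟨s, -, rfl⟩ := mem_image.1 hs
    exact cl_le_of_closure hc h1 s.2).trans (Nat.pow_le_pow_right (by positivity)
      (card_image_le.trans (hS1.le.trans ((rank_le hJ N).trans (Nat.mul_le_mul h2 hm)))))
  rw [h3] at h4
  obtain ⟨W, hW, h5⟩ := exists_inverted α hα hn (A := N ⊓ centralizer (N : Set H))
    fun x hx y hy => hy.2 x hx.1
  have h6 := h5.trans (Nat.mul_le_mul_left _ (Nat.pow_le_pow_left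
    (index_inf_le.trans (Nat.mul_le_mul h2 h4)) 2))
  have h7 := index_cent_le (S := J) (b := W.index ^ 2) fun s hs => by
    refine (index_le (A := W ⊓ W.comap (MulAut.conj s⁻¹).toMonoidHom) fun x hx => ?_).trans ?_
    · have e : α (s⁻¹ * x * s⁻¹⁻¹) = (s⁻¹ * x * s⁻¹⁻¹)⁻¹ := hW _ hx.2
      simp only [map_mul, map_inv, (hj s hs).2, hW x hx.1, inv_inv] at e
      have e1 : Commute x (s * s) := by
        rw [← Commute.inv_left_iff, commute_iff_eq, mul_assoc s,
          ← inv_mul_cancel_right (s * x⁻¹) s, e]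
        group
      obtain ⟨k, hk⟩ : s ∈ zpowers (s * s) := by
        obtain ⟨k, hk⟩ := (hj s hs).1
        exact ⟨(k + 1 : ℕ), by
          simp only [zpow_natCast, ← sq, ← pow_mul]
          rw [show 2 * (k + 1) = orderOf s + 1 by omega, pow_succ, pow_orderOf_eq_one, one_mul]⟩
      exact mem_centralizer_singleton_iff.2 (hk ▸ (e1.zpow_right k).eq)
    · exact index_inf_le.trans_eq (by
        rw [index_comap_of_surjective W (MulAut.conj s⁻¹).surjective, sq])
  rw [hJ, coe_top, centralizer_univ] at h7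
  exact h7.trans ((Nat.pow_le_pow_left (Nat.pow_le_pow_left h6 2) _).trans
    (Nat.pow_le_pow_right (by positivity) hm))

theorem card_le {H : Type*} [Group H] [Finite H] {J : Finset H} (hJ : closure (J : Set H) = ⊤)
    {b m e : ℕ} (hm : J.card ≤ m) (he : 0 < e) (hj : ∀ j ∈ J, j ^ e = 1)
    (hb : (center H).index ≤ b) : Nat.card H ≤ b * (b * e) ^ (b * m) := by
  have h0 : 0 < (center H).index := Nat.pos_of_ne_zero index_ne_zero_of_finite
  let : CommGroup (center H) := { mul_comm := mul_comm' }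
  have h1 : ∀ x : H, MonoidHom.transferCenterPow H x ^ e = 1 := fun x => by
    have hx : x ∈ closure (J : Set H) := hJ ▸ trivial
    induction hx using closure_induction with
    | mem x hx => rw [← map_pow, hj x hx, map_one]
    | one => simp
    | mul x y _ _ h1 h2 => rw [map_mul, mul_pow, h1, h2, one_mul]
    | inv x _ h1 => rw [map_inv, inv_pow, h1, inv_one]
  have h2 := Nat.le_of_dvd (by positivity) (card_dvd_exponent_pow_rank' (center H)
    (n := (center H).index * e) fun z => pow_mul z _ _ ▸ h1 z)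
  rw [← (center H).index_mul_card]
  exact Nat.mul_le_mul hb (h2.trans ((Nat.pow_le_pow_left (Nat.mul_le_mul_right _ hb) _).trans
    (Nat.pow_le_pow_right (Nat.mul_pos (h0.trans_le hb) he)
      ((rank_le hJ _).trans (Nat.mul_le_mul hb hm)))))

/-- There is a function f such that for every non-trivial finite group G and every automorphism α of G of order 2 with [G, α] = G (the elements g·α(g)⁻¹ generate G), the order of G is at most f(m), where m is the number of elements of odd order inverted by α. -/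
theorem result : ∃ f : ℕ → ℕ, ∀ (G : Type) [Group G] [Finite G] [Nontrivial G] (α : MulAut G), orderOf α = 2 →
    Subgroup.closure (Set.range (fun c : G => c * (α c)⁻¹)) = ⊤ →
      Nat.card G ≤ f (Nat.card {g : G // Odd (orderOf g) ∧ α g = g⁻¹}) := by
  choose b hb using exists_index_center
  refine ⟨fun m => b (m ^ m) m * (b (m ^ m) m * m.factorial) ^ (b (m ^ m) m * m) *
    (b (m ^ m) m * (b (m ^ m) m * m.factorial) ^ (b (m ^ m) m * m) * m.factorial) ^
      (b (m ^ m) m * (b (m ^ m) m * m.factorial) ^ (b (m ^ m) m * m) * m),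
    fun G _ _ _ α hα hG => ?_⟩
  classical
  have := Fintype.ofFinite G
  have h2 : ∀ x, α (α x) = x := fun x => by
    rw [← MulAut.mul_apply, ← sq, ← hα, pow_orderOf_eq_one, MulAut.one_apply]
  set J : Finset G := {g | Odd (orderOf g) ∧ α g = g⁻¹} with hJ
  have hm : Nat.card {g : G // Odd (orderOf g) ∧ α g = g⁻¹} = J.card := by
    rw [Nat.card_eq_fintype_card, Fintype.card_subtype]
  rw [hm]
  have hj : ∀ j, j ∈ J ↔ Odd (orderOf j) ∧ α j = j⁻¹ := by simp [hJ]
  have hit : ∀ (k : ℕ) (c : G), (fun c : G => c * (α c)⁻¹)^[k + 1] c = (c * (α c)⁻¹) ^ 2 ^ k := by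
    intro k c
    induction k with
    | zero => simp
    | succ k ih =>
      rw [Function.iterate_succ_apply', ih, map_pow, show α (c * (α c)⁻¹) = (c * (α c)⁻¹)⁻¹ by
        simp [h2], inv_pow, inv_inv, ← pow_add, ← two_mul, pow_succ']
  have h3 : Subgroup.closure (J : Set G) = ⊤ := by
    rw [eq_top_iff, ← S3927.result α hG (Nat.card G + 1) (by omega)]
    refine Subgroup.closure_mono ?_
    rintro _ ⟨c, rfl⟩
    rw [hit, mem_coe, hj]
    refine ⟨?_, by rw [map_pow, ← inv_pow]; simp [h2]⟩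
    obtain ⟨k, u, hu, e⟩ := Nat.exists_eq_two_pow_mul_odd (orderOf_pos (c * (α c)⁻¹)).ne'
    refine hu.of_dvd_nat (orderOf_dvd_of_pow_eq_one ?_)
    rw [← pow_mul, ← orderOf_dvd_iff_pow_eq_one, e]
    refine Nat.mul_dvd_mul_right (pow_dvd_pow _ (Nat.lt_two_pow_self.le.trans ?_)) _
    exact Nat.le_of_dvd Nat.card_pos ((Dvd.intro _ e.symm).trans (orderOf_dvd_natCard _))
  have h4 : ∀ j ∈ J, j ^ J.card.factorial = 1 := fun j h => by
    refine orderOf_dvd_iff_pow_eq_one.1 (Nat.dvd_factorial (orderOf_pos j) ?_)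
    rw [← Nat.card_zpowers, ← hm]
    refine Nat.card_le_card_of_injective (fun x => ⟨x.1, ((hj j).1 h).1.of_dvd_nat
      (orderOf_dvd_of_mem_zpowers x.2), ?_⟩) fun x y e => Subtype.ext (by simpa using e)
    obtain ⟨_, k, rfl⟩ := x
    simp [((hj j).1 h).2]
  let π := QuotientGroup.mk' (center G)
  let β : G ⧸ center G →* G ⧸ center G := QuotientGroup.map _ _ α.toMonoidHom fun z hz =>
    mem_center_iff.2 fun g => by
      simpa [h2] using congrArg α (mem_center_iff.1 hz (α g))
  have hβ : ∀ x, β (π x) = π (α x) := fun _ => rfl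
  have h5 : Subgroup.closure (J.image π : Set (G ⧸ center G)) = ⊤ := by
    rw [coe_image, ← MonoidHom.map_closure, h3, map_top_of_surjective _ (QuotientGroup.mk'_surjective _)]
  refine card_le h3 le_rfl (Nat.factorial_pos _) h4 (card_le h5 card_image_le (Nat.factorial_pos _)
    (fun j h => ?_) (hb _ _ _ β (fun x => ?_) ?_ _ h5 card_image_le fun j h => ?_))
  · obtain ⟨j, h', rfl⟩ := mem_image.1 h
    rw [← map_pow, h4 j h', map_one]
  · obtain ⟨x, rfl⟩ := QuotientGroup.mk'_surjective _ x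
    rw [hβ, hβ, h2]
  · rw [← hm, ← Nat.card_fun]
    refine Nat.card_le_card_of_injective (fun x j => ⟨x.1.out * j * x.1.out⁻¹,
      j.2.1.of_dvd_nat (orderOf_map_dvd (MulAut.conj x.1.out).toMonoidHom _), ?_⟩) fun x y e => Subtype.ext ?_
    · have e : π (α x.1.out) = π x.1.out := by
        rw [← hβ, show π x.1.out = x.1 from x.1.out_eq]; exact x.2
      obtain ⟨z, hz, e⟩ := (QuotientGroup.mk'_eq_mk' _).1 e.symm
      rw [map_mul, map_mul, map_inv, j.2.2, ← e, mul_assoc _ z, ← mem_center_iff.1 hz]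
      group
    · rw [← x.1.out_eq, ← y.1.out_eq]
      refine QuotientGroup.eq.2 (centralizer_univ.le ?_)
      rw [← coe_top, ← h3, centralizer_closure]
      intro j h
      have e1 : x.1.out * j * x.1.out⁻¹ = y.1.out * j * y.1.out⁻¹ :=
        congrArg Subtype.val (congrFun e ⟨j, (hj j).1 h⟩)
      rw [← mul_inv_cancel_right (_ * _ * j) y.1.out⁻¹, mul_assoc _ y.1.out, mul_assoc x.1.out⁻¹, ← e1]
      group
  · obtain ⟨j, h', rfl⟩ := mem_image.1 h
    exact ⟨((hj j).1 h').1.of_dvd_nat (orderOf_map_dvd π j), by rw [hβ, ((hj j).1 h').2, map_inv]⟩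

end Cfsg.Agent.S3928
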