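import Cfsg.Statements.S3929
import Cfsg.Agent.S3927
import Cfsg.Agent.Lib.Inv.Count

set_option autoImplicit false
open Cfsg

namespace Cfsg.Agent.S3929

open Subgroup CfsgLib CfsgLib.Inv

universe u

section

variable {G : Type*} [Group G] [Finite G]

/-- The inverted elements of odd order. -/
def J (α : MulAut G) : Set G := {g | Odd (orderOf g) ∧ α g = g⁻¹}

/-- The fixed points. -/
def C (α : MulAut G) : Subgroup G := α.toMonoidHom.eqLocus (MonoidHom.id G)

theorem eq_one_of_odd {x : G} (h : Odd (orderOf x)) (h' : x = x⁻¹) : x = 1 := by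
  obtain ⟨u, hu⟩ := exists_pow_of_odd h 1
  rw [← hu, pow_one, sq]
  nth_rewrite 2 [h']
  simp

theorem bridge [Nontrivial G] (α : MulAut G) (hα : ∀ x, α (α x) = x) (hO : pCore 2 G = ⊥)
    (hJ : closure (J α) = ⊤) {h : ℕ} (hh : 1 ≤ h) (hm : (J α).ncard ≤ 2 * h + 1) :
    ∃ k e, Adm (2 * h) k e ∧
      Nat.card G ≤ (2 * h + 1) ^ 2 * Nat.card (C α) ^ 4 * 2 ^ (k * (e + min h e)) := by
  let φ : zpowers α →* MulAut G := (zpowers α).subtype
  let Γ := G ⋊[φ] zpowers α
  have : Finite Γ := Finite.of_equiv _ SemidirectProduct.equivProd.symm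
  let a : Γ := SemidirectProduct.inr ⟨α, mem_zpowers α⟩
  let ι : G →* Γ := SemidirectProduct.inl
  have hι : Function.Injective ι := SemidirectProduct.inl_injective
  have h1 : α ≠ 1 := by
    rintro rfl
    have : closure (J (1 : MulAut G)) ≤ ⊥ := (closure_le _).2 fun x hx => eq_one_of_odd hx.1 hx.2
    rw [hJ] at this
    exact top_ne_bot (le_bot_iff.1 this)
  have h2 : α ^ 2 = 1 := MulEquiv.ext hα
  have h3 : ∀ x, a * ι x * a⁻¹ = ι (α x) := fun x => by
    rw [← map_inv]
    exact (SemidirectProduct.inl_aut (φ := φ) ⟨α, mem_zpowers α⟩ x).symm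
  have h4 : ι.range.index = 2 := by
    rw [SemidirectProduct.range_inl_eq_ker_rightHom, index_ker,
      MonoidHom.range_eq_top.2 SemidirectProduct.rightHom_surjective, card_top, Nat.card_zpowers,
      orderOf_eq_prime h2 h1]
  obtain ⟨k, e, h5, h6⟩ := main h4 (a := a) (by
      rw [SemidirectProduct.range_inl_eq_ker_rightHom]
      exact fun h => h1 (congrArg Subtype.val h)) (by
      rw [← map_mul, ← map_one SemidirectProduct.inr]
      exact congrArg _ (Subtype.ext ((sq α).symm.trans h2))) (by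
      rw [eq_bot_iff]
      rintro _ ⟨hx, x, rfl⟩
      rw [mem_bot.1 ((comap_pCore_le 2 hι).trans hO.le hx)]
      exact map_one ι) hh (by
      refine le_trans (Set.ncard_le_ncard ?_ (Set.toFinite _))
        ((Set.ncard_image_le (f := ι) (Set.toFinite _)).trans hm)
      intro x hx
      obtain ⟨u, hu⟩ := exists_pow_of_odd hx.1 1
      obtain ⟨y, rfl⟩ : x ∈ ι.range := hu ▸ pow_mem (sq_mem_of_index_two h4 x) u
      exact ⟨y, ⟨orderOf_injective ι hι y ▸ hx.1, hι (by rw [← h3, map_inv]; exact hx.2)⟩, rfl⟩) (by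
      rw [MonoidHom.range_eq_map, ← hJ, MonoidHom.map_closure]
      refine closure_mono ?_
      rintro _ ⟨x, hx, rfl⟩
      exact ⟨(orderOf_injective ι hι x).symm ▸ hx.1, by rw [h3, hx.2, map_inv]⟩)
  refine ⟨k, e, h5, ?_⟩
  rw [MonoidHom.range_eq_map, card_map_of_injective hι, card_top, ← MonoidHom.range_eq_map] at h6
  refine h6.trans (Nat.mul_le_mul_right _ (Nat.mul_le_mul_left _ (Nat.pow_le_pow_left ?_ _)))
  rw [← card_map_of_injective (K := C α) hι]
  refine card_le_of_le ?_
  rintro _ ⟨⟨x, rfl⟩, hx⟩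
  refine ⟨x, hι ?_, rfl⟩
  show ι (α x) = ι x
  rw [← h3, ← mem_centralizer_singleton_iff.1 hx, mul_inv_cancel_right]

theorem quot (N : Subgroup G) [hN : N.Characteristic] (α : MulAut G) (hα : ∀ x, α (α x) = x)
    (hJ : closure (J α) = ⊤) :
    ∃ β : MulAut (G ⧸ N), (∀ x, β (β x) = x) ∧ (J β).ncard ≤ (J α).ncard ∧ closure (J β) = ⊤ ∧
      Nat.card (C β) ≤ Nat.card (C α) := by
  let π := QuotientGroup.mk' N
  have hπ : Function.Surjective π := QuotientGroup.mk'_surjective N
  let β : MulAut (G ⧸ N) := QuotientGroup.congr N N α (characteristic_iff_map_eq.1 hN α)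
  have hβ : ∀ x, β (π x) = π (α x) := fun _ => rfl
  refine ⟨β, fun x => ?_, ?_, ?_, ?_⟩
  · obtain ⟨x, rfl⟩ := hπ x
    rw [hβ, hβ, hα]
  · refine le_trans (Set.ncard_le_ncard ?_ (Set.toFinite _))
      (Set.ncard_image_le (f := π) (Set.toFinite _))
    intro x hx
    obtain ⟨x, rfl⟩ := hπ x
    obtain ⟨s, hs⟩ := exists_odd_pow (x * (α x)⁻¹)
    obtain ⟨u, hu⟩ := exists_pow_of_odd hx.1 (s + 1)
    refine ⟨((x * (α x)⁻¹) ^ 2 ^ s) ^ u, ⟨odd_pow hs u, ?_⟩, ?_⟩
    · rw [map_pow, map_pow, ← inv_pow, ← inv_pow]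
      simp [hα]
    · rw [map_pow, map_pow, map_mul, map_inv, ← hβ, hx.2, inv_inv, ← sq, ← pow_mul _ 2, ← pow_succ',
        hu]
  · rw [eq_top_iff, ← map_top_of_surjective π hπ, ← hJ, MonoidHom.map_closure]
    refine closure_mono ?_
    rintro _ ⟨x, hx, rfl⟩
    exact ⟨hx.1.of_dvd_nat (orderOf_map_dvd π x), by rw [hβ, hx.2, map_inv]⟩
  · refine Nat.le_of_mul_le_mul_right ?_ (Nat.card_pos (α := N))
    rw [← card_comap_mk', card_eq_ncard, card_eq_ncard N]
    refine fib_le (fun g => g⁻¹ * α g) (fun g hg => QuotientGroup.eq.1 ?_) _ fun g₀ _ => ?_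
    · exact (show β (π g) = π g from hg).symm
    · refine ncard_le_card _ (fun g => g * g₀⁻¹) (fun g hg => ?_) fun y _ y' _ e => by simpa using e
      have e : g⁻¹ * α g = g₀⁻¹ * α g₀ := hg.2
      show α (g * g₀⁻¹) = g * g₀⁻¹
      rw [map_mul, map_inv, show α g * (α g₀)⁻¹ = g * (g⁻¹ * α g) * (α g₀)⁻¹ by group, e]
      group

theorem cent (α : MulAut G) (hJ : closure (J α) = ⊤) (hZ : center G = ⊥) :
    ∃ h, (J α).ncard = 2 * h + 1 ∧ Nat.card (C α) ≤ 2 ^ h * h.factorial := by
  classical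
  have hΩ : ∀ c ∈ C α, ∀ x ∈ J α \ {1}, c * x * c⁻¹ ∈ J α \ {1} := by
    intro c hc x hx
    refine ⟨⟨hx.1.1.of_dvd_nat (orderOf_map_dvd (MulAut.conj c).toMonoidHom x), ?_⟩,
      fun h => hx.2 (by simpa using h)⟩
    rw [map_mul, map_mul, map_inv, show α c = c from hc, hx.1.2, conj_inv]
  have := Fintype.ofFinite ↥(J α \ {1})
  let ι : Equiv.Perm ↥(J α \ {1}) := Function.Involutive.toPerm
    (fun x => ⟨x.1⁻¹, ⟨by rw [orderOf_inv]; exact x.2.1.1, by rw [map_inv, x.2.1.2]⟩,
      fun h => x.2.2 (inv_eq_one.1 h)⟩) fun x => Subtype.ext (inv_inv _)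
  have h1 : ι ^ 2 = 1 := Equiv.ext fun x => Subtype.ext (inv_inv _)
  have h2 := Equiv.Perm.cycleType_of_pow_prime_eq_one h1
  have h3 : ι.support = Finset.univ := Finset.eq_univ_of_forall fun x =>
    Equiv.Perm.mem_support.2 fun h => x.2.2 (eq_one_of_odd x.2.1.1 (congrArg Subtype.val h).symm)
  have h4 := ι.sum_cycleType
  have h5 := ι.nat_card_centralizer
  rw [h3, Finset.card_univ] at h4
  rw [h4, Nat.sub_self] at h5
  generalize ι.cycleType.card = h at h2
  rw [h2] at h4 h5
  refine ⟨h, ?_, ?_⟩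
  · rw [← Set.ncard_diff_singleton_add_one (show 1 ∈ J α by simp [J]), ← Nat.card_coe_set_eq,
      Nat.card_eq_fintype_card, ← h4]
    simp [mul_comm]
  · refine le_trans (Nat.card_le_card_of_injective (β := centralizer {ι})
      (fun c => ⟨conjPerm _ _ hΩ c, mem_centralizer_singleton_iff.2 (Equiv.ext fun x =>
        Subtype.ext conj_inv.symm)⟩) fun c d e => ?_) ?_
    · refine (injective_iff_map_eq_one (conjPerm _ _ hΩ)).2 (fun c hc => ?_)
        (congrArg Subtype.val e)
      refine Subtype.ext (mem_bot.1 (hZ.le (mem_center_iff.2 fun x => ?_)))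
      refine mem_centralizer_singleton_iff.1 (((closure_le _).2 fun x hx =>
        mem_centralizer_singleton_iff.2 ?_ : closure (J α) ≤ centralizer {(c : G)})
        (hJ.ge (mem_top x)))
      by_cases hx1 : x = 1
      · simp [hx1]
      · have := conjPerm_apply _ _ hΩ c ⟨x, hx, hx1⟩
        rw [hc] at this
        exact eq_mul_inv_iff_mul_eq.1 this
    · rw [h5, Multiset.toFinset_replicate]
      split_ifs with h0
      · simp [h0]
      · simp

end

theorem aux (G : Type u) [Group G] [Finite G] : ∀ α : MulAut G, (∀ x, α (α x) = x) →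
    closure (J α) = ⊤ → Nontrivial G → (fittingSubgroup G).index < (J α).ncard.factorial ^ 4 := by
  refine card_induction (P := fun G _ _ => ∀ α : MulAut G, (∀ x, α (α x) = x) →
    closure (J α) = ⊤ → Nontrivial G → (fittingSubgroup G).index < (J α).ncard.factorial ^ 4)
    (fun G _ _ ih α hα hJ _ => ?_) G
  have h0 : 1 < (J α).ncard := by
    by_contra h
    have h1 := (Set.ncard_le_one (Set.toFinite _)).1 (not_lt.1 h)
    have : closure (J α) ≤ ⊥ := (closure_le _).2 fun x hx => h1 x hx 1 (by simp [J])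
    rw [hJ] at this
    exact top_ne_bot (le_bot_iff.1 this)
  have h1 : 1 < (J α).ncard.factorial ^ 4 :=
    Nat.one_lt_pow (by norm_num) (Nat.one_lt_factorial.2 h0)
  by_cases hZ : center G = ⊥
  · obtain ⟨h, h2, h3⟩ := cent α hJ hZ
    have := pCore_characteristic (G := G) 2
    obtain ⟨β, hβ, h4, h5, h6⟩ := quot (pCore 2 G) α hα hJ
    refine lt_of_le_of_lt (Nat.le_of_dvd (Nat.pos_of_ne_zero index_ne_zero_of_finite)
      (index_dvd_of_le (pCore_le_fitting 2))) ?_
    rcases subsingleton_or_nontrivial (G ⧸ pCore 2 G) with h7 | h7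
    · rwa [index, Nat.card_unique]
    obtain ⟨k, e, h8, h9⟩ := bridge β hβ (pCore_quotient_pCore 2) h5 (h := h) (by omega)
      (h4.trans h2.le)
    rw [h2]
    exact lt_of_le_of_lt (h9.trans (Nat.mul_le_mul_right _ (Nat.mul_le_mul_left _
      (Nat.pow_le_pow_left (h6.trans h3) _)))) (num (by omega) h8)
  · obtain ⟨β, hβ, h4, h5, -⟩ := quot (center G) α hα hJ
    have h2 : (fittingSubgroup (G ⧸ center G)).comap (QuotientGroup.mk' _) ≤ fittingSubgroup G := by
      have := fitting_isNilpotent (G := G ⧸ center G)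
      refine le_fitting (Subgroup.isNilpotent_of_ker_le_center
        ((QuotientGroup.mk' _).subgroupComap (fittingSubgroup (G ⧸ center G))) fun x hx => ?_)
      have : (x : G) ∈ center G := (QuotientGroup.eq_one_iff _).1 (congrArg Subtype.val hx)
      exact mem_center_iff.2 fun y => Subtype.ext (mem_center_iff.1 this y)
    refine lt_of_le_of_lt (Nat.le_of_dvd (Nat.pos_of_ne_zero index_ne_zero_of_finite)
      (index_dvd_of_le h2)) ?_
    rw [index_comap_of_surjective _ (QuotientGroup.mk'_surjective _)]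
    rcases subsingleton_or_nontrivial (G ⧸ center G) with h7 | h7
    · rwa [Subsingleton.elim (fittingSubgroup _) ⊤, index_top]
    exact (ih _ (card_quotient_lt hZ) β hβ h5 h7).trans_le
      (Nat.pow_le_pow_left (Nat.factorial_le h4) _)

/-- Let G be a non-trivial finite group and α an automorphism of G of order 2 with [G, α] = G (the elements g·α(g)⁻¹ generate G), and let m be the number of elements of odd order inverted by α. Then the index of the Fitting subgroup of G is less than (m!)⁴. -/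
theorem result {G : Type*} [Group G] [Finite G] [Nontrivial G] (α : MulAut G) (hα : orderOf α = 2)
    (hG : Subgroup.closure (Set.range (fun c : G => c * (α c)⁻¹)) = ⊤) :
    (Cfsg.fittingSubgroup G).index < (Nat.card {g : G // Odd (orderOf g) ∧ α g = g⁻¹}).factorial ^ 4 := by
  have h2 : ∀ x, α (α x) = x := fun x => by
    rw [← MulAut.mul_apply, ← sq, ← hα, pow_orderOf_eq_one, MulAut.one_apply]
  have hit : ∀ (k : ℕ) (c : G), (fun c : G => c * (α c)⁻¹)^[k + 1] c = (c * (α c)⁻¹) ^ 2 ^ k := by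
    intro k c
    induction k with
    | zero => simp
    | succ k ih =>
      rw [Function.iterate_succ_apply', ih, map_pow, show α (c * (α c)⁻¹) = (c * (α c)⁻¹)⁻¹ by
        simp [h2], inv_pow, inv_inv, ← pow_add, ← two_mul, pow_succ']
  have h3 : Subgroup.closure (J α) = ⊤ := by
    rw [eq_top_iff, ← S3927.result α hG (Nat.card G + 1) (by omega)]
    refine Subgroup.closure_mono ?_
    rintro _ ⟨c, rfl⟩
    rw [hit]
    refine ⟨?_, by rw [map_pow, ← inv_pow]; simp [h2]⟩
    obtain ⟨k, u, hu, e⟩ := Nat.exists_eq_two_pow_mul_odd (orderOf_pos (c * (α c)⁻¹)).ne'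
    refine hu.of_dvd_nat (orderOf_dvd_of_pow_eq_one ?_)
    rw [← pow_mul, ← orderOf_dvd_iff_pow_eq_one, e]
    refine Nat.mul_dvd_mul_right (pow_dvd_pow _ (Nat.lt_two_pow_self.le.trans ?_)) _
    exact Nat.le_of_dvd Nat.card_pos ((Dvd.intro _ e.symm).trans (orderOf_dvd_natCard _))
  exact aux G α h2 h3 ‹_›

end Cfsg.Agent.S3929
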