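import Cfsg.Statements.S3933
import Cfsg.Agent.Lib.CoreSimpleInd
import Cfsg.Agent.Lib.H9SylowNum
import Cfsg.Agent.Lib.CharBurnside
import Cfsg.Agent.Lib.QBaer

set_option autoImplicit false
open Cfsg

namespace Cfsg.Agent.S3933

open Subgroup CfsgLib
open scoped Pointwise commutatorElement

theorem eq_top_of_trans {G : Type*} [Group G] [Finite G] [IsSimpleGroup G] {r q a : ℕ} [hr : Fact r.Prime]
    [hq : Fact q.Prime] (hrG : r ∣ Nat.card G) (hn : Nat.card (Sylow r G) = q ^ a) (H : Subgroup G)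
    (h1 : ¬ r ∣ H.index) (h2 : ¬ q ∣ H.index) : H = ⊤ := by
  obtain ⟨R, hR⟩ := Chr.exists_sylow_le_of_not_dvd_index h1
  have hcop : (normalizer ((R : Subgroup G) : Set G)).index.Coprime H.index := by
    rw [← H9.card_sylow_eq_index, hn]
    exact Nat.Coprime.pow_left _ ((Nat.Prime.coprime_iff_not_dvd hq.out).2 h2)
  have hle : normalClosure ((R : Subgroup G) : Set G) ≤ H := by
    rw [normalClosure, closure_le]
    intro x hx
    obtain ⟨y, hy, hxy⟩ := Group.mem_conjugatesOfSet_iff.1 hx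
    obtain ⟨g, rfl⟩ := isConj_iff.1 hxy
    obtain ⟨c, hc, d, hd, rfl⟩ := ClassCount.exists_mul_of_coprime_index hcop.symm g
    have := conj_mem_of_mem_normalizer hd hy
    have h3 := H.mul_mem (H.mul_mem hc (hR this)) (H.inv_mem hc)
    have e : c * d * y * (c * d)⁻¹ = c * (d * y * d⁻¹) * c⁻¹ := by group
    rw [e]
    exact h3
  rcases (normalClosure_normal (s := ((R : Subgroup G) : Set G))).eq_bot_or_eq_top with h | h
  · exact absurd (le_bot_iff.1 (le_normalClosure.trans h.le)) (R.ne_bot_of_dvd_card hrG)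
  · exact top_le_iff.1 (h.ge.trans hle)

theorem of_dvd {m n : ℕ} (h : n = 1 ∨ IsPrimePow n) (hd : m ∣ n) : m = 1 ∨ IsPrimePow m := by
  rcases h with rfl | h
  · exact Or.inl (Nat.dvd_one.1 hd)
  · by_cases hm : m = 1
    · exact Or.inl hm
    · exact Or.inr (h.dvd hd hm)

theorem result {G : Type*} [Group G] [Finite G] (h : ∀ (r : ℕ) [Fact r.Prime], Nat.card (Sylow r G) = 1 ∨ IsPrimePow (Nat.card (Sylow r G))) :
    Group.IsSolvable G := by
  refine isSolvable_of_simple_induction (P := fun X _ _ => ∀ (r : ℕ) [Fact r.Prime],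
    Nat.card (Sylow r X) = 1 ∨ IsPrimePow (Nat.card (Sylow r X))) ?_ ?_ ?_ G h
  · intro X _ _ N _ hX r _
    obtain ⟨P⟩ : Nonempty (Sylow r X) := inferInstance
    refine of_dvd (hX r) ?_
    haveI : (((P : Subgroup X) ⊓ N).subgroupOf (((P : Subgroup X) ⊔ N) ⊓
      normalizer (((P : Subgroup X) ⊓ N : Subgroup X) : Set X))).Normal :=
      normal_subgroupOf_of_le_normalizer inf_le_right
    rw [H9.card_sylow_product N P _ rfl]
    exact Dvd.dvd.mul_right (Dvd.intro_left _ rfl) _
  · intro X _ _ N _ hX r _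
    obtain ⟨P⟩ : Nonempty (Sylow r X) := inferInstance
    refine of_dvd (hX r) ?_
    rw [H9.card_sylow_eq_quotient_mul N P]
    exact Dvd.intro _ rfl
  · intro X _ _ _ hX
    by_contra hns
    have hnn : ∀ (r : ℕ) [Fact r.Prime], r ∣ Nat.card X → ∀ P : Sylow r X,
        normalizer ((P : Subgroup X) : Set X) ≠ ⊤ := by
      intro r _ hr P hP
      rcases (normalizer_eq_top_iff.1 hP).eq_bot_or_eq_top with h | h
      · exact P.ne_bot_of_dvd_card hr h
      · exact hns (isSolvable_of_isPGroup (p := r) ((P.2.to_le h.ge).of_equiv topEquiv))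
    have hq : ∀ r : ℕ, r.Prime → r ∣ Nat.card X → ∃ q a : ℕ, q.Prime ∧ q ∣ Nat.card X ∧ q ≠ r ∧
        Nat.card (Sylow r X) = q ^ a := by
      intro r hr hrd
      haveI := Fact.mk hr
      obtain ⟨P⟩ : Nonempty (Sylow r X) := inferInstance
      rcases hX r with h1 | h1
      · rw [H9.card_sylow_eq_index P, index_eq_one] at h1
        exact absurd h1 (hnn r hrd P)
      · obtain ⟨q, a, hq, ha, he⟩ := (isPrimePow_nat_iff _).1 h1
        have hd : q ∣ Nat.card (Sylow r X) := he ▸ dvd_pow_self q ha.ne'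
        refine ⟨q, a, hq, hd.trans ?_, ?_, he.symm⟩
        · rw [H9.card_sylow_eq_index P]; exact index_dvd_card _
        · rintro rfl
          exact not_dvd_card_sylow q X hd
    have hkey : ∀ r q a s u c : ℕ, r.Prime → q.Prime → s.Prime → u.Prime → r ∣ Nat.card X →
        s ∣ Nat.card X → Nat.card (Sylow r X) = q ^ a → Nat.card (Sylow s X) = u ^ c →
        u = r ∨ u = q := by
      intro r q a s u c hr hq hs hu hrd hsd h1 h2
      haveI := Fact.mk hr
      haveI := Fact.mk hq
      haveI := Fact.mk hs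
      by_contra hc
      push Not at hc
      obtain ⟨P⟩ : Nonempty (Sylow s X) := inferInstance
      refine hnn s hsd P (eq_top_of_trans hrd h1 _ ?_ ?_) <;> rw [← H9.card_sylow_eq_index P, h2]
      · exact fun hd => hc.1 ((Nat.prime_dvd_prime_iff_eq hr hu).1 (hr.dvd_of_dvd_pow hd)).symm
      · exact fun hd => hc.2 ((Nat.prime_dvd_prime_iff_eq hq hu).1 (hq.dvd_of_dvd_pow hd)).symm
    obtain ⟨r, hr, hrd⟩ := Nat.exists_prime_and_dvd (Finite.one_lt_card (α := X)).ne'
    obtain ⟨q, a, hq1, hqd, hqr, ha⟩ := hq r hr hrd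
    refine hns (isSolvable_of_two_primes hr hq1 fun s hs hsd => ?_)
    obtain ⟨u, c, hu, hud, hus, hc⟩ := hq s hs hsd
    obtain ⟨q', b, hq', -, hq'q, hb⟩ := hq q hq1 hqd
    have e1 : q' = r := (hkey r q a q q' b hr hq1 hq1 hq' hrd hqd ha hb).resolve_right hq'q
    subst e1
    rcases hkey q' q a s u c hr hq1 hs hu hrd hsd ha hc with rfl | rfl
    · rcases hkey s u c u q a hs hu hu hq1 hsd hrd hc ha with h | h
      · exact Or.inr h.symm
      · exact absurd h hqr
    · rcases hkey s u c u q' b hs hu hu hq' hsd hud hc hb with h | h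
      · exact Or.inl h.symm
      · exact absurd h hq'q

end Cfsg.Agent.S3933
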