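import Cfsg.Statements.S3937
import Cfsg.Agent.Lib.CoreSubnormal
import Cfsg.Agent.Lib.CoreFitting

set_option autoImplicit false
open Cfsg

namespace Cfsg.Agent.S3937

open Subgroup CfsgLib
open scoped Pointwise commutatorElement

theorem foldl_eq {α : Type*} (f : α → α → α) (g : α) (n : ℕ) (x : α) :
    (List.replicate n g).foldl f x = (fun a => f a g)^[n] x := by
  induction n generalizing x with
  | zero => rfl
  | succ n ih => rw [List.replicate_succ, List.foldl_cons, ih, Function.iterate_succ_apply]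

theorem subn {G : Type*} [Group G] [Finite G] (g : G)
    (h : ∀ x : G, ∃ n : ℕ, (fun a => a * g * a⁻¹ * g⁻¹)^[n] x = 1) (K : Subgroup G)
    (hK : zpowers g ≤ K) : SubnormalIn (zpowers g) K := by
  induction K using WellFoundedLT.induction with
  | _ K ih =>
    by_contra hn
    have ih' : ∀ L, zpowers g ≤ L → L < K → SubnormalIn (zpowers g) L :=
      fun L h1 h2 => ih L h2 h1
    obtain ⟨M, hM1, hM2⟩ := zipper_lemma (zpowers g) hK ih' hn
    have hgK : g ∈ K := hK (mem_zpowers g)
    have hlt : zpowers g < K := lt_of_le_of_ne hK fun h => hn (h ▸ SubnormalIn.refl _)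
    have hgM : zpowers g ≤ M := hM2 _ le_rfl hlt
    have hN : K ⊓ normalizer (M : Set G) ≤ M := by
      refine hM2 _ (le_inf hK (hgM.trans le_normalizer)) (lt_of_le_of_ne inf_le_left fun h2 => ?_)
      exact hn ((ih' M hgM hM1).trans (SubnormalIn.of_le_normalizer hM1.le (inf_eq_left.mp h2)))
    have step : ∀ x ∈ K, x * g * x⁻¹ * g⁻¹ ∈ M → x ∈ M := by
      intro x hx h1
      have h2 : x * g * x⁻¹ ∈ M := by
        have := M.mul_mem h1 (hgM (mem_zpowers g))
        rwa [inv_mul_cancel_right] at this
      have hxK := map_conj_eq_of_mem_normalizer (le_normalizer (K.inv_mem hx))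
      have h3 : M.map (MulAut.conj x⁻¹).toMonoidHom ≤ M := hM2 _ (by
        rw [zpowers_le, mem_map_conj_iff, inv_inv]; exact h2) (by
        rw [← hxK]
        exact (map_lt_map_iff_of_injective (MulAut.conj x⁻¹).injective).mpr hM1)
      have h4 : x⁻¹ ∈ normalizer (M : Set G) :=
        mem_normalizer_of_conj_mem fun y hy => h3 (conj_mem_map_conj hy)
      have := hN ⟨K.inv_mem hx, h4⟩
      rwa [inv_mem_iff] at this
    have key : ∀ n : ℕ, ∀ x ∈ K, (fun a => a * g * a⁻¹ * g⁻¹)^[n] x = 1 → x ∈ M := by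
      intro n
      induction n with
      | zero => intro x _ hx; rw [show x = 1 from hx]; exact M.one_mem
      | succ n ih2 =>
        intro x hx h1
        rw [Function.iterate_succ_apply] at h1
        exact step x hx (ih2 _ (K.mul_mem (K.mul_mem (K.mul_mem hx hgK) (K.inv_mem hx))
          (K.inv_mem hgK)) h1)
    exact hM1.not_ge fun x hx => let ⟨n, hn⟩ := h x; key n x hx hn

theorem result {G : Type*} [Group G] [Finite G] (g : G) :
    g ∈ Cfsg.fittingSubgroup G ↔ ∀ x : G, ∃ n : ℕ, (List.replicate n g).foldl (fun a b => a * b * a⁻¹ * b⁻¹) x = 1 := by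
  simp only [foldl_eq]
  constructor
  · intro hg x
    obtain ⟨n, hn⟩ := Subgroup.nilpotent_iff_lowerCentralSeries.mp (fitting_isNilpotent (G := G))
    set F := Cfsg.fittingSubgroup G
    have h1 : ∀ k : ℕ, (fun a => a * g * a⁻¹ * g⁻¹)^[k + 1] x ∈
        ((⊤ : Subgroup F).lowerCentralSeries k).map F.subtype := by
      intro k
      induction k with
      | zero =>
        exact ⟨⟨x * g * x⁻¹ * g⁻¹, F.mul_mem (Normal.conj_mem inferInstance g hg x) (F.inv_mem hg)⟩,
          mem_top _, rfl⟩
      | succ k ih =>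
        rw [Function.iterate_succ_apply']
        obtain ⟨y, hy, hy2⟩ := ih
        rw [← hy2]
        exact ⟨⁅y, ⟨g, hg⟩⁆, commutator_mem_commutator hy (mem_top _), rfl⟩
    refine ⟨n + 1, ?_⟩
    have := h1 n
    rwa [hn, Subgroup.map_bot, mem_bot] at this
  · intro h
    exact le_fitting_of_isSubnormal (subnormalIn_top_iff.mp (subn g h ⊤ le_top))
      (by open scoped IsMulCommutative in infer_instance)
      (mem_zpowers g)

end Cfsg.Agent.S3937
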