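import Cfsg.Statements.S3939
import Cfsg.Agent.Lib.CoreSubnormal
import Cfsg.Agent.Lib.CoreElements

set_option autoImplicit false
open Cfsg

namespace Cfsg.Agent.S3939

open Subgroup CfsgLib
open scoped Pointwise commutatorElement

theorem exists_central {G : Type*} [Group G] [Finite G] (g : G) (hg : g ≠ 1)
    (h : ∀ x : G, Group.IsNilpotent ↥(Subgroup.closure ({x, g} : Set G))) : center G ≠ ⊥ := by
  obtain ⟨p, hp, hd⟩ := Nat.exists_prime_and_dvd (mt orderOf_eq_one_iff.mp hg)
  have := Fact.mk hp
  set u := g ^ (orderOf g / p) with hu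
  have hou : orderOf u = p := orderOf_pow_orderOf_div (orderOf_pos g).ne' hd
  have hu2 : ∀ x : G, u ∈ closure ({x, g} : Set G) := fun x =>
    pow_mem (subset_closure (by simp)) _
  have hx2 : ∀ x : G, x ∈ closure ({x, g} : Set G) := fun x => subset_closure (by simp)
  have h1 : u ∈ Cfsg.fittingSubgroup G := mem_fitting_of_forall_conj fun x =>
    isNilpotent_of_le (h x) (by
      rw [closure_le]
      rintro y (rfl | rfl)
      · exact hu2 x
      · exact mul_mem (mul_mem (hx2 x) (hu2 x)) (inv_mem (hx2 x)))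
  have h2 : u ∈ Cfsg.pCore p G := le_pCore_of_le_fitting (A := zpowers u) (zpowers_le.mpr h1)
    (isPGroup_zpowers_iff.mpr ⟨1, by rw [hou, pow_one]⟩) (mem_zpowers u)
  set A : Set G := {y | (orderOf y).Coprime p}
  have h3 : u ∈ centralizer A := fun y hy =>
    (commute_of_coprime_of_mem_isNilpotent (h y) (hx2 y) (hu2 y) (by rw [hou]; exact hy)).eq
  have hAn : (centralizer A).Normal := ⟨fun z hz c y hy => by
    have := hz (c⁻¹ * y * c⁻¹⁻¹) (by
      show (orderOf _).Coprime p
      rw [show c⁻¹ * y * c⁻¹⁻¹ = MulAut.conj c⁻¹ y from rfl, MulEquiv.orderOf_eq]; exact hy)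
    calc y * (c * z * c⁻¹) = c * (c⁻¹ * y * c⁻¹⁻¹ * z) * c⁻¹ := by group
      _ = c * (z * (c⁻¹ * y * c⁻¹⁻¹)) * c⁻¹ := by rw [this]
      _ = _ := by group⟩
  obtain ⟨P⟩ : Nonempty (Sylow p G) := inferInstance
  have h4 : Cfsg.pCore p G ⊓ centralizer A ≠ ⊥ := fun h5 => by
    have : u ∈ (⊥ : Subgroup G) := h5 ▸ ⟨h2, h3⟩
    rw [mem_bot.mp this, orderOf_one] at hou
    exact hp.one_lt.ne hou
  have h5 := inf_centralizer_ne_bot_of_isNilpotent (H := (P : Subgroup G))
    (N := Cfsg.pCore p G ⊓ centralizer A) P.isPGroup'.isNilpotent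
    (inf_le_left.trans (pCore_le_sylow P)) le_normalizer_of_normal h4
  intro hZ
  apply h5
  rw [eq_bot_iff, ← hZ]
  rintro z ⟨⟨-, hz1⟩, hz2⟩
  have h6 : (⊤ : Subgroup G) ≤ centralizer {z} := by
    apply le_of_forall_sylow_le
    intro q hq _
    by_cases hpq : p = q
    · subst hpq
      refine ⟨P.subtype le_top, ?_⟩
      rw [Sylow.coe_subtype, subgroupOf_map_subtype]
      intro y hy
      rw [mem_centralizer_singleton_iff]
      exact hz2 y hy.1
    · refine ⟨default, fun y hy => ?_⟩
      rw [mem_centralizer_singleton_iff]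
      obtain ⟨k, hk⟩ := orderOf_eq_pow_of_mem_isPGroup ((default : Sylow q _).isPGroup'.map _) hy
      exact hz1 y (by
        show (orderOf _).Coprime p
        rw [hk]; exact Nat.Coprime.pow_left _ ((Nat.coprime_primes hq.out hp).mpr (Ne.symm hpq)))
  rw [mem_center_iff]
  intro y
  exact mem_centralizer_singleton_iff.mp (h6 (mem_top y))

universe u

theorem fwd (G : Type u) [Group G] [Finite G] : ∀ g : G,
    (∀ x : G, Group.IsNilpotent ↥(Subgroup.closure ({x, g} : Set G))) →
      ∃ n, g ∈ Subgroup.upperCentralSeries G n := by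
  refine card_induction (P := fun G _ _ => ∀ g : G,
    (∀ x : G, Group.IsNilpotent ↥(Subgroup.closure ({x, g} : Set G))) →
      ∃ n, g ∈ Subgroup.upperCentralSeries G n) (fun G _ _ ih => ?_) G
  · intro g h
    by_cases hg : g = 1
    · exact ⟨0, hg ▸ one_mem _⟩
    obtain ⟨n, hn⟩ := ih (G ⧸ center G) (card_quotient_lt (exists_central g hg h))
      (QuotientGroup.mk' _ g) (fun x => by
        obtain ⟨x, rfl⟩ := QuotientGroup.mk'_surjective _ x
        have := isNilpotent_map (h x) (QuotientGroup.mk' (center G))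
        rwa [MonoidHom.map_closure, Set.image_pair] at this)
    exact ⟨n + 1, by rw [← Subgroup.comap_upperCentralSeries_quotient_center]; exact hn⟩

theorem bwd (n : ℕ) : ∀ (G : Type u) [Group G] (g : G), g ∈ Subgroup.upperCentralSeries G n →
    ∀ x : G, Group.IsNilpotent ↥(Subgroup.closure ({x, g} : Set G)) := by
  induction n with
  | zero =>
    intro G _ g hg x
    rw [Subgroup.upperCentralSeries_zero, mem_bot] at hg
    subst hg
    have : closure ({x, 1} : Set G) ≤ zpowers x := by
      rw [closure_le]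
      rintro y (rfl | rfl)
      · exact mem_zpowers _
      · exact one_mem _
    exact isNilpotent_of_le (by open scoped IsMulCommutative in infer_instance) this
  | succ n ih =>
    intro G _ g hg x
    rw [← Subgroup.comap_upperCentralSeries_quotient_center] at hg
    have h1 := ih _ _ hg (QuotientGroup.mk' _ x)
    rw [← Set.image_pair, ← MonoidHom.map_closure] at h1
    refine Subgroup.isNilpotent_of_ker_le_center
      ((QuotientGroup.mk' (center G)).subgroupMap (closure {x, g})) ?_
    intro y hy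
    have h2 : (y : G) ∈ center G := by
      rw [← QuotientGroup.eq_one_iff]
      exact congrArg Subtype.val hy
    rw [mem_center_iff]
    intro z
    exact Subtype.ext (mem_center_iff.mp h2 z)

theorem result {G : Type*} [Group G] [Finite G] (g : G) :
    (∀ x : G, Group.IsNilpotent ↥(Subgroup.closure ({x, g} : Set G))) ↔ g ∈ ⨆ n : ℕ, Subgroup.upperCentralSeries G n := by
  rw [mem_iSup_of_directed (Subgroup.upperCentralSeries_mono G).directed_le]
  exact ⟨fwd G g, fun ⟨n, hn⟩ => bwd n G g hn⟩

end Cfsg.Agent.S3939
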