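import Cfsg.Statements.S3941
import Cfsg.Agent.Lib.CoreElements
import Cfsg.Agent.Lib.CoreSolvable

set_option autoImplicit false
open Cfsg

namespace Cfsg.Agent.S3941

open Subgroup CfsgLib
open scoped Pointwise commutatorElement

theorem closed_mul {H : Type*} [Group H] [Finite H] {p : ℕ} [Fact p.Prime] (h : Cfsg.IsPClosed p H)
    {a b : H} (ha : a ^ p = 1) (hb : b ^ p = 1) : ∃ k, orderOf (a * b) = p ^ k := by
  obtain ⟨P⟩ : Nonempty (Sylow p H) := inferInstance
  have := Sylow.unique_of_normal P (h P)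
  have key : ∀ a : H, a ^ p = 1 → a ∈ (P : Subgroup H) := fun a ha => by
    obtain ⟨k, -, hk⟩ := (Nat.dvd_prime_pow (m := 1) Fact.out).mp
      ((orderOf_dvd_of_pow_eq_one ha).trans (pow_one p).symm.dvd)
    obtain ⟨Q, hQ⟩ := exists_sylow_mem_of_orderOf hk
    rwa [Subsingleton.elim Q P] at hQ
  exact orderOf_eq_pow_of_mem_isPGroup P.isPGroup' (mul_mem (key a ha) (key b hb))

theorem result (n p : ℕ) (hn : 5 ≤ n) [Fact p.Prime] (hp : p ≠ 2) (hpn : p ≤ n)
    (h : ∀ H : Subgroup ↥(alternatingGroup (Fin n)), H ≠ ⊤ → p ∣ Nat.card ↥H → Cfsg.IsPClosed p ↥H) : n = p := by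
  by_contra hne
  have hpp : p.Prime := Fact.out
  obtain ⟨m, rfl⟩ : ∃ m, n = m + 1 := ⟨n - 1, by omega⟩
  set s : Finset (Fin (m + 1)) := Finset.univ.erase (Fin.last m) with hs
  have hsc : Nat.card s = m := by simp [hs]
  have : Nontrivial s := Finite.one_lt_card_iff_nontrivial.mp (by omega)
  have : Nontrivial (Fin (m + 1)) := Fin.nontrivial_iff_two_le.mpr (by omega)
  let e := MonoidHom.ofInjective (alternatingGroup.ofSubtype_injective (s := s))
  have h1 : 2 * Nat.card (alternatingGroup.ofSubtype s).range = m.factorial := by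
    rw [← Nat.card_congr e.toEquiv, two_mul_nat_card_alternatingGroup, Nat.card_perm, hsc]
  have h2 : p ∣ Nat.card (alternatingGroup.ofSubtype s).range :=
    ((Nat.coprime_primes hpp Nat.prime_two).mpr hp).dvd_of_dvd_mul_left
      (h1 ▸ hpp.dvd_factorial.mpr (by omega))
  have h3 := h (alternatingGroup.ofSubtype s).range (fun h3 => by
    rw [h3, card_top, two_mul_nat_card_alternatingGroup, Nat.card_perm, Nat.card_fin,
      Nat.factorial_succ] at h1
    have := Nat.factorial_pos m
    nlinarith) h2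
  by_cases h5 : 5 ≤ m
  · have := alternatingGroup.isSimpleGroup (α := s) (by omega)
    have := e.symm.isSimpleGroup
    obtain ⟨P⟩ : Nonempty (Sylow p (alternatingGroup.ofSubtype s).range) := inferInstance
    rcases (h3 P).eq_bot_or_eq_top with h4 | h4
    · exact P.not_dvd_index (by rwa [h4, index_bot])
    · obtain ⟨k, hk⟩ := P.isPGroup'.exists_card_eq
      rw [h4, card_top] at hk
      have h6 : 2 * 2 ∣ m.factorial := (Nat.dvd_factorial (by norm_num) (by omega : 4 ≤ m))
      rw [← h1, hk] at h6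
      exact hp ((Nat.prime_dvd_prime_iff_eq Nat.prime_two hpp).mp (Nat.prime_two.dvd_of_dvd_pow
        (Nat.dvd_of_mul_dvd_mul_left two_pos h6))).symm
  · obtain rfl : m = 4 := by omega
    obtain rfl : p = 3 := by
      have := hpp.two_le
      have h4 : p ≠ 4 := by rintro rfl; exact absurd hpp (by decide)
      omega
    let a : (alternatingGroup.ofSubtype s).range :=
      ⟨⟨Equiv.swap 0 1 * Equiv.swap 1 2, Equiv.Perm.mem_alternatingGroup.mpr (by decide)⟩,
        (alternatingGroup.mem_range_ofSubtype_iff _ _).mpr (by decide)⟩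
    let b : (alternatingGroup.ofSubtype s).range :=
      ⟨⟨Equiv.swap 1 2 * Equiv.swap 2 3, Equiv.Perm.mem_alternatingGroup.mpr (by decide)⟩,
        (alternatingGroup.mem_range_ofSubtype_iff _ _).mpr (by decide)⟩
    obtain ⟨k, hk⟩ := closed_mul h3 (a := a) (b := b) (Subtype.ext (Subtype.ext (by decide)))
      (Subtype.ext (Subtype.ext (by decide)))
    have h4 : orderOf (a * b) = 2 := orderOf_eq_prime (Subtype.ext (Subtype.ext (by decide)))
      (fun h => absurd (congrArg (fun t => (t.1.1 : Equiv.Perm (Fin 5))) h) (by decide))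
    rw [h4] at hk
    exact absurd (Nat.prime_two.dvd_of_dvd_pow hk.dvd) (by decide)

end Cfsg.Agent.S3941
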