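import Cfsg.Statements.S3947
import Cfsg.Agent.Lib.CoreFlavellZipper

set_option autoImplicit false
open Cfsg

namespace Cfsg.Agent.S3947

open Subgroup CfsgLib
open scoped Pointwise commutatorElement



theorem result {G : Type*} [Group G] [Finite G] (A : Subgroup G) (hA : Subgroup.normalClosure (A : Set G) = ⊤) (hAG : A ≠ ⊤) :
    sSup {H : Subgroup G | A ≤ H ∧ H ≠ ⊤ ∧ Subgroup.normalClosure ((A.subgroupOf H : Subgroup ↥H) : Set ↥H) = ⊤} = ⊤ ∨
      ∃! M : Subgroup G, IsCoatom M ∧ A ≤ M := by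
  rw [or_iff_not_imp_left]
  intro h
  obtain ⟨M, hM, h1⟩ := (eq_top_or_exists_le_coatom _).resolve_left h
  obtain ⟨L, hL, h2⟩ := (eq_top_or_exists_le_coatom _).resolve_left hAG
  exact ⟨L, ⟨hL, h2⟩, fun L' h3 => unique_coatom_of_closed_le A hA hM
    (fun H h4 h5 h6 => le_trans (le_sSup (by exact ⟨h4, h5, h6⟩)) h1) _ _ h3.1 hL h3.2 h2⟩

end Cfsg.Agent.S3947
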