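import Cfsg.Statements.S3949
import Cfsg.Agent.Lib.FrobeniusCount

set_option autoImplicit false
open Cfsg

namespace Cfsg.Agent.S3949

/-- Let G be a finite group and α an automorphism of G of order 2 such that the elements g·α(g)⁻¹ generate G. Let j be a positive integer such that 2^j divides the order of no element inverted by α. Then the set of values of the j-th iterate of the map c ↦ c·α(c)⁻¹ is exactly the set of elements of odd order inverted by α. -/
theorem result {G : Type*} [Group G] [Finite G] (α : MulAut G) (hα : orderOf α = 2) (hG : Subgroup.closure (Set.range (fun c : G => c * (α c)⁻¹)) = ⊤)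
    (j : ℕ) (hj : ∀ g : G, α g = g⁻¹ → ¬ 2 ^ j ∣ orderOf g) :
    Set.range ((fun c : G => c * (α c)⁻¹)^[j]) = {g : G | Odd (orderOf g) ∧ α g = g⁻¹} := by
  have hαα : ∀ g, α (α g) = g := by
    intro g
    have : α ^ 2 = 1 := hα ▸ pow_orderOf_eq_one α
    rw [← MulAut.mul_apply, ← sq, this, MulAut.one_apply]
  have hit : ∀ (k : ℕ) (g : G), α g = g⁻¹ → (fun c : G => c * (α c)⁻¹)^[k] g = g ^ 2 ^ k := by
    intro k
    induction k with
    | zero => intro g _; simp
    | succ k ih =>
      intro g hg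
      rw [Function.iterate_succ_apply, ih]
      · rw [hg, inv_inv, ← sq, ← pow_mul, pow_succ']
      · simp [hαα]
  obtain ⟨k, rfl⟩ : ∃ k, j = k + 1 := by
    rcases j with _ | k
    · exact absurd (by simp) (hj 1 (by simp))
    · exact ⟨k, rfl⟩
  ext g
  constructor
  · rintro ⟨c, rfl⟩
    have hc : α (c * (α c)⁻¹) = (c * (α c)⁻¹)⁻¹ := by simp [hαα]
    rw [Function.iterate_succ_apply, hit k _ hc]
    refine ⟨?_, by rw [map_pow, hc, inv_pow]⟩
    have h1 := hj _ hc
    set x := c * (α c)⁻¹
    rw [← Nat.not_even_iff_odd, even_iff_two_dvd]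
    intro h2
    apply h1
    rw [CfsgLib.H4.orderOf_eq_of_pow_prime_pow Nat.prime_two rfl h2, pow_succ]
    exact Nat.mul_dvd_mul_left _ h2
  · rintro ⟨h1, h2⟩
    obtain ⟨m, hm⟩ := exists_pow_eq_self_of_coprime (x := g) (n := 2 ^ (k + 1))
      (Nat.Coprime.pow_left _ (Nat.coprime_two_left.mpr h1))
    refine ⟨g ^ m, ?_⟩
    rw [hit _ _ (by rw [map_pow, h2, inv_pow]), ← pow_mul, mul_comm, pow_mul, hm]

end Cfsg.Agent.S3949
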