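import Cfsg.Statements.S3982
import Cfsg.Agent.Lib.SylowIn
import Cfsg.Agent.Lib.CoprimeSylow

set_option autoImplicit false
open Cfsg

namespace Cfsg.Agent.S3982

open CfsgLib Subgroup

/-- Let p be an odd prime and G a finite group of even order divisible by p in which the centralizer of every non-identity p-element has odd order. If some nontrivial p-subgroup of G has a normalizer of even order, then the normalizer of every Sylow p-subgroup of G has even order. -/
theorem result {G : Type*} [Group G] [Finite G] (p : ℕ) [Fact p.Prime] (hp2 : p ≠ 2) (hpG : p ∣ Nat.card G) (h2G : 2 ∣ Nat.card G) (hC : ∀ g : G, g ≠ 1 → (∃ k : ℕ, orderOf g = p ^ k) → Odd (Nat.card ↥(Subgroup.centralizer ({g} : Set G)))) (Q : Subgroup G) (hQ : IsPGroup p ↥Q) (hQ1 : Q ≠ ⊥) (hev : Even (Nat.card ↥(Subgroup.normalizer (Q : Set G)))) (P : Sylow p G) : Even (Nat.card ↥(Subgroup.normalizer ((P : Subgroup G) : Set G))) := by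
  have hp : p.Prime := Fact.out
  have : Fact (Nat.Prime 2) := ⟨Nat.prime_two⟩
  obtain ⟨⟨y, hyQ⟩, hy⟩ := exists_prime_orderOf_dvd_card' (G := normalizer (Q : Set G)) 2
    hev.two_dvd
  rw [orderOf_mk] at hy
  have hyy : y * y = 1 := by rw [← sq, ← hy, pow_orderOf_eq_one]
  have hyi : y⁻¹ = y := inv_eq_of_mul_eq_one_right hyy
  obtain ⟨R, ⟨hR, hQR, hyR⟩, hmax⟩ := Set.Finite.exists_maximal
    (s := {R : Subgroup G | IsPGroup p R ∧ Q ≤ R ∧ y ∈ normalizer (R : Set G)}) (Set.toFinite _)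
    ⟨Q, hQ, le_rfl, hyQ⟩
  have hfix : ∀ g ∈ R, y * g * y⁻¹ = g → g = 1 := by
    intro g hg h
    by_contra hne
    obtain ⟨k, hk⟩ := IsPGroup.iff_orderOf.mp hR ⟨g, hg⟩
    rw [orderOf_mk] at hk
    have h1 := hC g hne ⟨k, hk⟩
    have h2 : y ∈ centralizer ({g} : Set G) := by
      rw [mem_centralizer_singleton_iff, ← mul_inv_eq_iff_eq_mul, h]
    have h3 := orderOf_dvd_natCard (centralizer ({g} : Set G)) h2
    rw [hy] at h3
    exact (Nat.not_even_iff_odd.mpr h1) (even_iff_two_dvd.mpr h3)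
  have hinv : ∀ g ∈ R, y * g * y⁻¹ = g⁻¹ := by
    have hinj : Function.Injective (fun g : R => (⟨g⁻¹ * (y * g * y⁻¹),
        mul_mem (inv_mem g.2) (conj_mem_of_mem_normalizer hyR g.2)⟩ : R)) := by
      intro a b hab
      have h1 : (a : G)⁻¹ * (y * a * y⁻¹) = (b : G)⁻¹ * (y * b * y⁻¹) := congrArg Subtype.val hab
      have h2 := hfix ((a : G) * (b : G)⁻¹) (mul_mem a.2 (inv_mem b.2)) (by
        calc y * ((a : G) * (b : G)⁻¹) * y⁻¹
            = a * ((a : G)⁻¹ * (y * a * y⁻¹)) * (y * b * y⁻¹)⁻¹ := by group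
          _ = a * (b : G)⁻¹ := by rw [h1]; group)
      exact Subtype.ext (mul_inv_eq_one.mp h2)
    intro g hg
    obtain ⟨a, ha⟩ := Finite.injective_iff_surjective.mp hinj ⟨g, hg⟩
    have h1 : (a : G)⁻¹ * (y * a * y⁻¹) = g := congrArg Subtype.val ha
    rw [← h1, hyi]
    simp only [mul_inv_rev, inv_inv, hyi, ← mul_assoc, hyy, one_mul]
    simp only [mul_assoc, hyy, mul_one]
  have hR1 : R ≠ ⊥ := fun h => hQ1 (le_bot_iff.mp (h ▸ hQR))
  set C := centralizer (R : Set G) with hCdef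
  have hCodd : Odd (Nat.card C) := by
    obtain ⟨⟨g, hg⟩, hg1⟩ := ne_bot_iff_exists_ne_one.mp hR1
    obtain ⟨k, hk⟩ := IsPGroup.iff_orderOf.mp hR ⟨g, hg⟩
    rw [orderOf_mk] at hk
    exact (hC g (fun h => hg1 (Subtype.ext h)) ⟨k, hk⟩).of_dvd_nat
      (card_dvd_of_le (centralizer_le (Set.singleton_subset_iff.mpr hg)))
  obtain ⟨S, hS⟩ := hR.exists_le_sylow
  have hRS : R = S := by
    by_contra hne
    set T : Subgroup G := S ⊓ normalizer (R : Set G) with hT
    have hRT : R < T := lt_inf_normalizer_of_isPGroup S.isPGroup' (lt_of_le_of_ne hS hne)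
    have hTp : IsPGroup p T := S.isPGroup'.to_inf_left
    have hTC : T ≤ normalizer (C : Set G) := inf_le_right.trans (Cop.normalizer_le_normalizer_centralizer _)
    have hodd : Odd (Nat.card (T ⊔ C : Subgroup G)) := by
      refine Odd.of_dvd_nat ?_ (card_sup_dvd_mul hTC)
      obtain ⟨k, hk⟩ := hTp.exists_card_eq
      rw [hk]
      exact ((hp.odd_of_ne_two hp2).pow).mul hCodd
    have hyK : zpowers y ≤ normalizer ((T ⊔ C : Subgroup G) : Set G) := by
      refine zpowers_le_of_mem (mem_normalizer_of_conj_mem ?_)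
      have : T ⊔ C ≤ (T ⊔ C).comap (MulAut.conj y).toMonoidHom := by
        refine sup_le (fun t ht => ?_) (fun c hc => ?_)
        · change y * t * y⁻¹ ∈ T ⊔ C
          have : y * t * y⁻¹ = t * (t⁻¹ * (y * t * y⁻¹)) := by simp
          rw [this]
          refine mul_mem (mem_sup_left ht) (mem_sup_right ?_)
          intro r hr
          have h1 := hinv r hr
          have h2 := hinv _ (conj_mem_of_mem_normalizer ht.2 hr)
          have h3 : y * t * y⁻¹ * r * (y * t * y⁻¹)⁻¹ = t * r * t⁻¹ := by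
            have h4 : r = (y * r * y⁻¹)⁻¹ := by rw [h1, inv_inv]
            calc y * t * y⁻¹ * r * (y * t * y⁻¹)⁻¹
                = y * t * y⁻¹ * (y * r * y⁻¹)⁻¹ * (y * t * y⁻¹)⁻¹ := by rw [← h4]
              _ = (y * (t * r * t⁻¹) * y⁻¹)⁻¹ := by group
              _ = t * r * t⁻¹ := by rw [h2, inv_inv]
          calc r * (t⁻¹ * (y * t * y⁻¹)) = t⁻¹ * (t * r * t⁻¹) * (y * t * y⁻¹) := by group
            _ = t⁻¹ * (y * t * y⁻¹) * r := by rw [← h3]; group
        · exact mem_sup_right (conj_mem_of_mem_normalizer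
            (Cop.normalizer_le_normalizer_centralizer _ hyR) hc)
      exact fun g hg => this hg
    obtain ⟨U, hU, hyU, hRU⟩ := Cop.exists_invariant_sylowOf_ge (p := p) hyK (by
      rw [Nat.card_zpowers, hy]
      exact Nat.coprime_two_left.mpr hodd) (Or.inl inferInstance) hR (hRT.le.trans le_sup_left)
      (zpowers_le_of_mem hyR)
    obtain ⟨U', rfl⟩ := Cop.exists_sylow_of_isPiHallOf hU
    have h1 := hmax ⟨U'.isPGroup'.map _, hQR.trans hRU, hyU (mem_zpowers y)⟩ hRU
    have h2 := card_le_of_le h1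
    rw [card_map_subtype, U'.card_eq_multiplicity] at h2
    obtain ⟨k, hk⟩ := hTp.exists_card_eq
    have h3 : p ^ k ∣ Nat.card (T ⊔ C : Subgroup G) := hk ▸ card_dvd_of_le le_sup_left
    rw [hp.pow_dvd_iff_le_factorization Nat.card_pos.ne'] at h3
    have h4 := card_lt_card_of_lt hRT
    have h5 := Nat.pow_le_pow_right hp.pos h3
    omega
  obtain ⟨g, rfl⟩ := MulAction.exists_smul_eq G S P
  rw [sylow_coe_smul_eq_map, normalizer_map_conj, card_map_conj, even_iff_two_dvd, ← hy, ← hRS]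
  exact orderOf_dvd_natCard _ hyR

end Cfsg.Agent.S3982
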