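import Cfsg.Statements.S3983
import Cfsg.Agent.Lib.SylowIn

set_option autoImplicit false
open scoped Pointwise
open Cfsg

namespace Cfsg.Agent.S3983

open CfsgLib Subgroup

/-- Let P be a Sylow p-subgroup of the finite group G that meets each conjugate g P g⁻¹ with g outside N_G(P) trivially, and let U be a subgroup of G of order divisible by p. Then a Sylow p-subgroup Q of U has the same property inside U: Q meets each conjugate u Q u⁻¹ with u ∈ U outside N_U(Q) trivially. -/
theorem result {G : Type*} [Group G] [Finite G] (p : ℕ) [Fact p.Prime] (P : Sylow p G) (hTI : ∀ g : G, g ∉ Subgroup.normalizer ((P : Subgroup G) : Set G) → (P : Subgroup G) ⊓ (MulAut.conj g • (P : Subgroup G)) = ⊥) (U : Subgroup G) (hU : p ∣ Nat.card ↥U) (Q : Sylow p ↥U) : ∀ u : ↥U, u ∉ Subgroup.normalizer ((Q : Subgroup ↥U) : Set ↥U) → (Q : Subgroup ↥U) ⊓ (MulAut.conj u • (Q : Subgroup ↥U)) = ⊥ := by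
  intro u hu
  by_contra hne
  apply hu
  obtain ⟨P', hP'⟩ := (Q.isPGroup'.map U.subtype).exists_le_sylow
  obtain ⟨g, rfl⟩ := MulAction.exists_smul_eq G P P'
  have hQ : (Q : Subgroup U) = ((g • P : Sylow p G) : Subgroup G).comap U.subtype := by
    refine (Q.is_maximal' ((g • P).isPGroup'.comap_subtype) ?_).symm
    exact map_le_iff_le_comap.mp hP'
  obtain ⟨⟨x, hx1, hx2⟩, hx⟩ := (ne_bot_iff_exists_ne_one).mp hne
  have hmem : ∀ y : U, y ∈ (Q : Subgroup U) ↔ g⁻¹ * y * g ∈ (P : Subgroup G) := by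
    intro y
    rw [hQ, mem_comap, sylow_coe_smul_eq_map, mem_map_conj_iff]
    rfl
  have hN : g⁻¹ * u * g ∈ normalizer ((P : Subgroup G) : Set G) := by
    by_contra hN
    have h1 : g⁻¹ * x * g ∈ (P : Subgroup G) ⊓ (MulAut.conj (g⁻¹ * u * g) • (P : Subgroup G)) := by
      refine mem_inf.mpr ⟨(hmem x).mp hx1, ?_⟩
      have h2 := (hmem _).mp (mem_conj_smul_iff.mp hx2)
      rw [mem_conj_smul_iff]
      convert h2 using 1
      simp [mul_assoc]
    rw [hTI _ hN, mem_bot] at h1
    apply hx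
    have : (x : G) = 1 := by
      calc (x : G) = g * (g⁻¹ * x * g) * g⁻¹ := by group
        _ = 1 := by rw [h1]; group
    exact Subtype.ext (Subtype.ext this)
  apply mem_normalizer_of_conj_mem
  intro y hy
  rw [hmem] at hy ⊢
  convert conj_mem_of_mem_normalizer hN hy using 1
  simp [mul_assoc]

end Cfsg.Agent.S3983
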