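import Cfsg.Statements.S3984
import Cfsg.Agent.Lib.SylowIn
import Cfsg.Agent.Lib.SchurZassenhausConj
import Cfsg.Agent.Lib.CoreElements

set_option autoImplicit false
open scoped Pointwise
open Cfsg

namespace Cfsg.Agent.S3984

open CfsgLib Subgroup

/-- Let P be a Sylow p-subgroup of the finite group G that meets each conjugate g P g⁻¹ with g outside N_G(P) trivially, and let N be a normal subgroup of G of order prime to p. Then every Sylow p-subgroup Q of G ⧸ N meets each conjugate x Q x⁻¹ with x outside its normalizer trivially. -/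
theorem result {G : Type*} [Group G] [Finite G] (p : ℕ) [Fact p.Prime] (P : Sylow p G) (hTI : ∀ g : G, g ∉ Subgroup.normalizer ((P : Subgroup G) : Set G) → (P : Subgroup G) ⊓ (MulAut.conj g • (P : Subgroup G)) = ⊥) (N : Subgroup G) [N.Normal] (hN : (Nat.card ↥N).Coprime p) (Q : Sylow p (G ⧸ N)) : ∀ x : G ⧸ N, x ∉ Subgroup.normalizer ((Q : Subgroup (G ⧸ N)) : Set (G ⧸ N)) → (Q : Subgroup (G ⧸ N)) ⊓ (MulAut.conj x • (Q : Subgroup (G ⧸ N))) = ⊥ := by
  intro x hx
  by_contra hne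
  apply hx
  have hp : p.Prime := Fact.out
  obtain ⟨g, rfl⟩ := MulAction.exists_smul_eq (G ⧸ N)
    (P.mapSurjective (QuotientGroup.mk'_surjective N)) Q
  obtain ⟨g, rfl⟩ := QuotientGroup.mk'_surjective N g
  set π := QuotientGroup.mk' N with hπ
  obtain ⟨x, rfl⟩ : ∃ x', π x' = x := QuotientGroup.mk'_surjective N x
  have hmem : ∀ y : G ⧸ N, y ∈ ((π g • P.mapSurjective (QuotientGroup.mk'_surjective N) :
      Sylow p (G ⧸ N)) : Subgroup (G ⧸ N)) ↔ (π g)⁻¹ * y * π g ∈ (P : Subgroup G).map π := by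
    intro y
    rw [sylow_coe_smul_eq_map, mem_map_conj_iff]
    rfl
  obtain ⟨⟨y, hy1, hy2⟩, hy⟩ := (ne_bot_iff_exists_ne_one).mp hne
  obtain ⟨a, ha, ha'⟩ := (hmem y).mp hy1
  obtain ⟨b, hb, hb'⟩ := (hmem _).mp (mem_conj_smul_iff.mp hy2)
  set t := g⁻¹ * x * g with ht
  have h1 : π (t * b * t⁻¹) = π a := by
    rw [map_mul, map_mul, map_inv, hb', ha', ht, map_mul, map_mul, map_inv]
    group
  have h2 : zpowers (t * b * t⁻¹) ≤ N ⊔ P := by
    refine zpowers_le_of_mem ?_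
    have : t * b * t⁻¹ = (t * b * t⁻¹ * a⁻¹) * a := by simp
    rw [this]
    refine mul_mem (mem_sup_left ?_) (mem_sup_right ha)
    rw [← QuotientGroup.eq_one_iff]
    change π _ = 1
    rw [map_mul, h1, map_inv, mul_inv_cancel]
  have hpb : IsPGroup p (zpowers (t * b * t⁻¹)) := by
    obtain ⟨k, hk⟩ := IsPGroup.iff_orderOf.mp P.isPGroup' ⟨b, hb⟩
    refine isPGroup_zpowers_iff.mpr ⟨k, ?_⟩
    rw [← hk, ← orderOf_coe]
    exact (MulAut.conj t).orderOf_eq b
  obtain ⟨n, hn, hn'⟩ := Cop.exists_conj_le_of_le_sup (N := N) (K := P) le_normalizer_of_normal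
    h2 (by
      obtain ⟨k, hk⟩ := hpb.exists_card_eq
      rw [hk]
      exact Nat.Coprime.pow_left _ hN.symm) (Or.inl inferInstance)
  have h3 : n * (t * b * t⁻¹) * n⁻¹ ∈ (P : Subgroup G) := hn' ⟨_, mem_zpowers _, rfl⟩
  have hnt : n * t ∈ normalizer ((P : Subgroup G) : Set G) := by
    by_contra hc
    have h4 : n * (t * b * t⁻¹) * n⁻¹ ∈ (P : Subgroup G) ⊓ (MulAut.conj (n * t) • (P : Subgroup G)) := by
      refine mem_inf.mpr ⟨h3, ?_⟩
      rw [mem_conj_smul_iff]
      have : (n * t)⁻¹ * (n * (t * b * t⁻¹) * n⁻¹) * (n * t) = b := by group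
      rw [this]
      exact hb
    rw [hTI _ hc, mem_bot] at h4
    have h5 : b = 1 := by simpa using h4
    apply hy
    apply Subtype.ext
    rw [h5, map_one] at hb'
    calc y = π x * π g * ((π g)⁻¹ * ((π x)⁻¹ * y * π x) * π g) * (π x * π g)⁻¹ := by group
      _ = 1 := by rw [← hb']; group
  apply mem_normalizer_of_conj_mem
  intro z hz
  rw [hmem] at hz ⊢
  obtain ⟨c, hc, hc'⟩ := hz
  refine ⟨_, conj_mem_of_mem_normalizer hnt hc, ?_⟩
  have : π n = 1 := (QuotientGroup.eq_one_iff n).mpr hn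
  simp only [map_mul, map_inv, this, hc', ht]
  group

end Cfsg.Agent.S3984
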