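import Cfsg.Statements.S3985
import Cfsg.Agent.Lib.SylowIn
import Cfsg.Agent.Lib.CoprimePGroup
import Cfsg.Agent.Lib.CoreElements
import Cfsg.Agent.Lib.PGroupCyclicMax

set_option autoImplicit false
open scoped Pointwise
open Cfsg

namespace Cfsg.Agent.S3985

open CfsgLib Subgroup

/-- Let P be a cyclic Sylow p-subgroup of the finite group G. Then P meets each conjugate g P g⁻¹ with g outside N_G(P) trivially if and only if P is weakly self-centralizing: C_G(x) = C_G(P) for every non-identity x ∈ P. -/
theorem result {G : Type*} [Group G] [Finite G] (p : ℕ) [Fact p.Prime] (P : Sylow p G) (hcyc : IsCyclic ↥(P : Subgroup G)) : (∀ g : G, g ∉ Subgroup.normalizer ((P : Subgroup G) : Set G) → (P : Subgroup G) ⊓ (MulAut.conj g • (P : Subgroup G)) = ⊥) ↔ ∀ x : G, x ∈ (P : Subgroup G) → x ≠ 1 → Subgroup.centralizer ({x} : Set G) = Subgroup.centralizer ((P : Subgroup G) : Set G) := by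
  have hp : p.Prime := Fact.out
  have hab : IsMulCommutative (P : Subgroup G) := inferInstance
  have hPC : (P : Subgroup G) ≤ centralizer (P : Set G) := le_centralizer _
  constructor
  · intro hTI x hx hx1
    refine le_antisymm ?_ (centralizer_le (Set.singleton_subset_iff.mpr hx))
    have hN : centralizer ({x} : Set G) ≤ normalizer ((P : Subgroup G) : Set G) := by
      intro g hg
      by_contra hc
      have : x ∈ (P : Subgroup G) ⊓ (MulAut.conj g • (P : Subgroup G)) := by
        refine mem_inf.mpr ⟨hx, ?_⟩
        rw [mem_conj_smul_iff, mul_assoc, ← mem_centralizer_singleton_iff.mp hg,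
          inv_mul_cancel_left]
        exact hx
      rw [hTI g hc] at this
      exact hx1 this
    intro g hg
    obtain ⟨u, hu, v, hv, rfl, -, ⟨k, hk⟩, hvp⟩ := exists_p_part hp g
    have hu' := zpowers_le_of_mem hg hu
    have hv' := zpowers_le_of_mem hg hv
    refine mul_mem (hPC ?_) ?_
    · have h1 : IsPGroup p (zpowers u ⊔ (P : Subgroup G) : Subgroup G) :=
        IsPGroup.to_sup_of_normal_right' (isPGroup_zpowers_iff.mpr ⟨k, hk⟩) P.isPGroup'
          (zpowers_le_of_mem (hN hu'))
      have h2 := P.is_maximal' h1 le_sup_right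
      exact h2 ▸ mem_sup_left (mem_zpowers u)
    · have h1 := Cop.commutator_eq_bot_of_centralizes_omega_abelian (A := zpowers v) P.isPGroup' hab
        (zpowers_le_of_mem (hN hv')) (by rwa [Nat.card_zpowers]) (by
          intro y hy hyp
          have hyx : y ∈ zpowers x := by
            have h3 : zpowers y ≤ zpowers x := by
              refine PGrp.le_of_card_dvd_of_le_cyclic (zpowers_le_of_mem hy) (zpowers_le_of_mem hx) ?_
              rw [Nat.card_zpowers, Nat.card_zpowers]
              obtain ⟨j, hj⟩ := IsPGroup.iff_orderOf.mp P.isPGroup' ⟨x, hx⟩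
              rw [orderOf_mk] at hj
              refine (orderOf_dvd_of_pow_eq_one hyp).trans ?_
              rw [hj]
              refine dvd_pow_self p ?_
              rintro rfl
              exact hx1 (orderOf_eq_one_iff.mp hj)
            exact h3 (mem_zpowers y)
          obtain ⟨j, rfl⟩ := hyx
          rintro _ ⟨i, rfl⟩
          have : Commute v x := mem_centralizer_singleton_iff.mp hv'
          exact (this.zpow_zpow i j).eq)
      rw [commutator_eq_bot_iff_le_centralizer, le_centralizer_iff] at h1
      exact h1 (mem_zpowers v)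
  · intro h g hg
    by_contra hne
    apply hg
    obtain ⟨⟨x, hx1, hx2⟩, hx⟩ := (ne_bot_iff_exists_ne_one).mp hne
    have hx' : x ≠ 1 := fun h => hx (Subtype.ext h)
    have hx3 : g⁻¹ * x * g ∈ (P : Subgroup G) := mem_conj_smul_iff.mp hx2
    have h1 := h x hx1 hx'
    apply mem_normalizer_of_conj_mem
    intro y hy
    have h2 : g * y * g⁻¹ ∈ centralizer ({x} : Set G) := by
      rw [mem_centralizer_singleton_iff]
      have := hPC hy _ hx3
      calc g * y * g⁻¹ * x = g * (y * (g⁻¹ * x * g)) * g⁻¹ := by group
        _ = x * (g * y * g⁻¹) := by rw [← this]; group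
    rw [h1] at h2
    have hk : IsPGroup p (zpowers (g * y * g⁻¹)) := by
      obtain ⟨k, hk⟩ := IsPGroup.iff_orderOf.mp P.isPGroup' ⟨y, hy⟩
      refine isPGroup_zpowers_iff.mpr ⟨k, ?_⟩
      rw [← hk, ← orderOf_coe]
      exact (MulAut.conj g).orderOf_eq y
    have h3 : IsPGroup p (zpowers (g * y * g⁻¹) ⊔ (P : Subgroup G) : Subgroup G) :=
      IsPGroup.to_sup_of_normal_right' hk P.isPGroup'
        (zpowers_le_of_mem (centralizer_le_normalizer _ h2))
    have h4 := P.is_maximal' h3 le_sup_right
    exact h4 ▸ mem_sup_left (mem_zpowers _)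

end Cfsg.Agent.S3985
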