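import Cfsg.Statements.S3986
import Cfsg.Agent.Lib.CoreElements

set_option autoImplicit false
open Cfsg

namespace Cfsg.Agent.S3986

open CfsgLib Subgroup

/-- Let p be a prime and G a finite group. Then some Sylow p-subgroup of G is a direct factor of G (it is normal and has a normal complement) if and only if every element of p-power order commutes with every element whose order is a power of a prime other than p. -/
theorem result {G : Type*} [Group G] [Finite G] (p : ℕ) [Fact p.Prime] : (∃ (P : Sylow p G) (K : Subgroup G), (P : Subgroup G).Normal ∧ K.Normal ∧ (P : Subgroup G) ⊓ K = ⊥ ∧ (P : Subgroup G) ⊔ K = ⊤) ↔ ∀ x y : G, (∃ a : ℕ, orderOf x = p ^ a) → (∃ q b : ℕ, q.Prime ∧ q ≠ p ∧ orderOf y = q ^ b) → x * y = y * x := by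
  have hp : p.Prime := Fact.out
  constructor
  · rintro ⟨P, K, hP, hK, h1, h2⟩ x y ⟨a, ha⟩ ⟨q, b, hq, hqp, hb⟩
    have hx : x ∈ (P : Subgroup G) := mem_of_coprime_index (by
      rw [ha]
      exact Nat.Coprime.pow_left _ ((Nat.Prime.coprime_iff_not_dvd hp).mpr P.not_dvd_index))
    have hy : y ∈ K := mem_of_coprime_index (by
      have hc : IsComplement' (P : Subgroup G) K :=
        isComplement'_of_disjoint_and_mul_eq_univ (disjoint_iff.mpr h1) (by
          rw [← normal_mul, h2, coe_top])
      rw [hc.index_eq_card, hb, P.card_eq_multiplicity]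
      exact Nat.Coprime.pow _ _ ((Nat.coprime_primes hq hp).mpr hqp))
    exact (commute_of_normal_of_disjoint _ _ hP hK (disjoint_iff.mpr h1) x y hx hy).eq
  · intro h
    obtain ⟨P⟩ : Nonempty (Sylow p G) := inferInstance
    have hcent : ∀ (y : G) (q b : ℕ), q.Prime → q ≠ p → orderOf y = q ^ b →
        y ∈ centralizer ((P : Subgroup G) : Set G) := by
      intro y q b hq hqp hb x hx
      obtain ⟨k, hk⟩ := IsPGroup.iff_orderOf.mp P.isPGroup' ⟨x, hx⟩
      rw [orderOf_mk] at hk
      exact h x y ⟨k, hk⟩ ⟨q, b, hq, hqp, hb⟩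
    have hP : (P : Subgroup G).Normal := by
      rw [← normalizer_eq_top_iff, ← index_eq_one]
      apply Nat.eq_one_iff_not_exists_prime_dvd.mpr
      intro q hq hdvd
      have := Fact.mk hq
      by_cases hqp : q = p
      · subst hqp
        exact P.not_dvd_index (hdvd.trans (index_dvd_of_le le_normalizer))
      · obtain ⟨R⟩ : Nonempty (Sylow q G) := inferInstance
        refine R.not_dvd_index (hdvd.trans (index_dvd_of_le ?_))
        intro y hy
        obtain ⟨k, hk⟩ := IsPGroup.iff_orderOf.mp R.isPGroup' ⟨y, hy⟩
        rw [orderOf_mk] at hk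
        exact centralizer_le_normalizer _ (hcent y q k hq hqp hk)
    obtain ⟨K, hK⟩ := exists_right_complement'_of_coprime (N := (P : Subgroup G)) P.card_coprime_index
    have hKC : K ≤ centralizer ((P : Subgroup G) : Set G) := by
      refine le_of_forall_primePow_mem (fun y hy q b hq hb => ?_)
      by_cases hqp : q = p
      · subst hqp
        have h1 : orderOf y ∣ (P : Subgroup G).index := by
          rw [hK.symm.index_eq_card]
          exact orderOf_dvd_natCard K hy
        rcases b with _ | b
        · rw [orderOf_eq_one_iff.mp hb]; exact one_mem _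
        · exact absurd ((dvd_pow_self q b.succ_ne_zero).trans (hb ▸ h1)) P.not_dvd_index
      · exact hcent y q b hq hqp hb
    refine ⟨P, K, hP, ?_, hK.disjoint.eq_bot, hK.sup_eq_top⟩
    rw [← normalizer_eq_top_iff, eq_top_iff, ← hK.sup_eq_top]
    exact sup_le ((le_centralizer_iff.mp hKC).trans (centralizer_le_normalizer _)) le_normalizer

end Cfsg.Agent.S3986
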