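import Cfsg.Statements.S3987
import Cfsg.Agent.S3986

set_option autoImplicit false
open Cfsg

namespace Cfsg.Agent.S3987

open CfsgLib Subgroup

/-- Let p be a prime and G a finite group. Then some Sylow p-subgroup of G is a direct factor of G (normal with a normal complement) if and only if for every element x of p-power order and every element y whose order is a power of a prime other than p, the conjugacy class of x y has as many elements as the product of the sizes of the classes of x and of y. -/
theorem result {G : Type*} [Group G] [Finite G] (p : ℕ) [Fact p.Prime] : (∃ (P : Sylow p G) (K : Subgroup G), (P : Subgroup G).Normal ∧ K.Normal ∧ (P : Subgroup G) ⊓ K = ⊥ ∧ (P : Subgroup G) ⊔ K = ⊤) ↔ ∀ x y : G, (∃ a : ℕ, orderOf x = p ^ a) → (∃ q b : ℕ, q.Prime ∧ q ≠ p ∧ orderOf y = q ^ b) → (Subgroup.centralizer ({x * y} : Set G)).index = (Subgroup.centralizer ({x} : Set G)).index * (Subgroup.centralizer ({y} : Set G)).index := by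
  have hp : p.Prime := Fact.out
  constructor
  · intro hPK x y hx hy
    have hcomm := (Cfsg.Agent.S3986.result p).mp hPK
    have hxy : Commute x y := hcomm x y hx hy
    obtain ⟨a, ha⟩ := hx
    obtain ⟨q, b, hq, hqp, hb⟩ := hy
    have hcop : (orderOf x).Coprime (orderOf y) := by
      rw [ha, hb]
      exact Nat.Coprime.pow _ _ ((Nat.coprime_primes hp hq).mpr (Ne.symm hqp))
    have h1 : centralizer ({x * y} : Set G) = centralizer {x} ⊓ centralizer {y} := by
      apply le_antisymm
      · intro g hg
        have hg' : Commute g (x * y) := mem_centralizer_singleton_iff.mp hg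
        obtain ⟨i, hi⟩ := mem_zpowers_mul_of_coprime hxy hcop
        obtain ⟨j, hj⟩ := mem_zpowers_mul_of_coprime' hxy hcop
        refine mem_inf.mpr ⟨mem_centralizer_singleton_iff.mpr ?_,
          mem_centralizer_singleton_iff.mpr ?_⟩
        · have := hg'.zpow_right i
          simp only at hi
          rwa [hi] at this
        · have := hg'.zpow_right j
          simp only at hj
          rwa [hj] at this
      · rintro g ⟨h1, h2⟩
        exact mem_centralizer_singleton_iff.mpr
          (Commute.mul_right (mem_centralizer_singleton_iff.mp h1)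
            (mem_centralizer_singleton_iff.mp h2))
    rw [h1]
    suffices hc : (centralizer ({x} : Set G)).index.Coprime (centralizer ({y} : Set G)).index from
      le_antisymm index_inf_le (Nat.le_of_dvd (Nat.pos_of_ne_zero index_ne_zero_of_finite)
        (hc.mul_dvd_of_dvd_of_dvd (index_dvd_of_le inf_le_left) (index_dvd_of_le inf_le_right)))
    apply Nat.coprime_of_dvd
    intro r hr h2 h3
    have := Fact.mk hr
    obtain ⟨R⟩ : Nonempty (Sylow r G) := inferInstance
    by_cases hrp : r = p
    · subst hrp
      refine R.not_dvd_index (h3.trans (index_dvd_of_le ?_))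
      intro g hg
      obtain ⟨k, hk⟩ := IsPGroup.iff_orderOf.mp R.isPGroup' ⟨g, hg⟩
      rw [orderOf_mk] at hk
      exact mem_centralizer_singleton_iff.mpr (hcomm g y ⟨k, hk⟩ ⟨q, b, hq, hqp, hb⟩)
    · refine R.not_dvd_index (h2.trans (index_dvd_of_le ?_))
      intro g hg
      obtain ⟨k, hk⟩ := IsPGroup.iff_orderOf.mp R.isPGroup' ⟨g, hg⟩
      rw [orderOf_mk] at hk
      exact mem_centralizer_singleton_iff.mpr (hcomm x g ⟨a, ha⟩ ⟨r, k, hr, hrp, hk⟩).symm
  · intro h
    refine (Cfsg.Agent.S3986.result p).mpr (fun x y hx hy => ?_)
    have h1 := h x y hx hy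
    have h2 : centralizer ({x} : Set G) ⊓ centralizer {y} ≤ centralizer {x * y} := by
      rintro g ⟨h1, h2⟩
      exact mem_centralizer_singleton_iff.mpr
        (Commute.mul_right (mem_centralizer_singleton_iff.mp h1)
          (mem_centralizer_singleton_iff.mp h2))
    have h3 : centralizer ({x * y} : Set G) = centralizer {x} ⊓ centralizer {y} := by
      symm
      by_contra hne
      have := index_strictAnti (lt_of_le_of_ne h2 hne)
      have h4 := index_inf_le (H := centralizer ({x} : Set G)) (K := centralizer {y})
      omega
    have h4 : x * y ∈ centralizer ({x} : Set G) ⊓ centralizer {y} := by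
      rw [← h3, mem_centralizer_singleton_iff]
    have h5 := mem_centralizer_singleton_iff.mp h4.2
    rw [← mul_assoc] at h5
    exact mul_right_cancel h5

end Cfsg.Agent.S3987
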