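import Cfsg.Statements.S3989
import Cfsg.Agent.Lib.CorePiSep
import Cfsg.Agent.Lib.FrobeniusPComplement
import Cfsg.Agent.Lib.CoreElements

set_option autoImplicit false
open Cfsg

namespace Cfsg.Agent.S3989

open Subgroup CfsgLib
open scoped Pointwise commutatorElement

universe u

theorem aux (p : ℕ) [hp : Fact p.Prime] (G : Type u) [Group G] [Finite G] :
    (∀ x y : G, (∃ a : ℕ, orderOf x = p ^ a) → (∃ q b : ℕ, q.Prime ∧ q ≠ p ∧ orderOf y = q ^ b) →
      ∀ a b : G, IsConj (x * y) (a * x * a⁻¹ * (b * y * b⁻¹))) → IsPSolvable p G := by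
  refine card_induction (P := fun G _ _ => (∀ x y : G, (∃ a : ℕ, orderOf x = p ^ a) →
    (∃ q b : ℕ, q.Prime ∧ q ≠ p ∧ orderOf y = q ^ b) →
      ∀ a b : G, IsConj (x * y) (a * x * a⁻¹ * (b * y * b⁻¹))) → IsPSolvable p G)
    (fun G _ _ ih h => ?_) G
  rcases subsingleton_or_nontrivial G with h0 | h0
  · exact isPSolvable_of_isSolvable inferInstance
  obtain ⟨N, hN⟩ := exists_isMinNormal (G := G)
  haveI := hN.1
  refine isPSolvable_of_normal_of_quotient N ?_ (ih _ (card_quotient_lt hN.2.1) ?_)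
  · have hn : HasNormalPComplement p N := by
      by_contra hc
      obtain ⟨D, y, q, k, hD, -, hy, hq, hqp, hyo, hyc⟩ := FrobNPC.exists_not_centralizes_of_not_hnpc hc
      obtain ⟨d, hd, hdy⟩ : ∃ d ∈ D, d * y ≠ y * d := by
        by_contra hc
        push Not at hc
        exact hyc fun d hd => hc d hd
      have hxD : d * (y * d⁻¹ * y⁻¹) ∈ D := D.mul_mem hd (conj_mem_of_mem_normalizer hy (D.inv_mem hd))
      set x : N := d * (y * d⁻¹ * y⁻¹) with hx
      have hx1 : x ≠ 1 := by
        intro h1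
        apply hdy
        calc d * y = (d * (y * d⁻¹ * y⁻¹)) * (y * d) := by group
          _ = y * d := by rw [← hx, h1, one_mul]
      have hxo : ∃ a, orderOf (x : G) = p ^ a := by
        obtain ⟨a, ha⟩ := IsPGroup.iff_orderOf.1 hD ⟨x, hxD⟩
        exact ⟨a, (orderOf_coe x).trans (by rwa [orderOf_mk] at ha)⟩
      have hxy : IsConj (y : G) ((x : G) * y) := isConj_iff.2 ⟨d, by
        rw [hx]; push_cast; group⟩
      let S : Subgroup G :=
        { carrier := {g | ∀ z, IsConj (y : G) z → IsConj (y : G) (g * z)}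
          one_mem' := fun z hz => by rwa [one_mul]
          mul_mem' := fun {a b} ha hb z hz => by rw [mul_assoc]; exact ha _ (hb _ hz)
          inv_mem' := by
            intro a ha z hz
            have key : ∀ n : ℕ, IsConj (y : G) (a ^ n * z) := by
              intro n
              induction n with
              | zero => rwa [pow_zero, one_mul]
              | succ n ih => rw [pow_succ', mul_assoc]; exact ha _ ih
            have := key (orderOf a - 1)
            rwa [show a ^ (orderOf a - 1) = a⁻¹ from eq_inv_of_mul_eq_one_left (by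
              rw [← pow_succ, Nat.sub_add_cancel (orderOf_pos a), pow_orderOf_eq_one])] at this }
      haveI hS : S.Normal := ⟨fun g hg c z hz => by
        have h1 := hg (c⁻¹ * z * c⁻¹⁻¹) (hz.trans (isConj_iff.2 ⟨c⁻¹, rfl⟩))
        refine h1.trans (isConj_iff.2 ⟨c, by group⟩)⟩
      have hxS : (x : G) ∈ S := by
        intro z hz
        obtain ⟨b, rfl⟩ := isConj_iff.1 hz
        have := h x y hxo ⟨q, k, hq, hqp, by rw [orderOf_coe, hyo]⟩ 1 b
        rw [one_mul, inv_one, mul_one] at this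
        exact hxy.trans this
      rcases hN.inf_eq_bot_or_le S with h1 | h1
      · have : (x : G) ∈ N ⊓ S := ⟨x.2, hxS⟩
        rw [h1, mem_bot] at this
        exact hx1 (Subtype.ext this)
      · have := h1 (N.inv_mem y.2) y (IsConj.refl _)
        rw [inv_mul_cancel, isConj_one_left] at this
        have hy1 : y = 1 := Subtype.ext this
        exact hdy (by rw [hy1, mul_one, one_mul])
    obtain ⟨K, hK, h1, k, h2⟩ := PCompl.hnpc_exists_normal hn
    exact isPSolvable_of_normal_of_quotient K (isPSolvable_of_coprime h1)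
      (isPSolvable_of_isPGroup (IsPGroup.of_card h2))
  · rintro x y ⟨a, ha⟩ ⟨q, b, hq, hqp, hb⟩ c e
    obtain ⟨x, rfl⟩ := QuotientGroup.mk'_surjective N x
    obtain ⟨y, rfl⟩ := QuotientGroup.mk'_surjective N y
    obtain ⟨c, rfl⟩ := QuotientGroup.mk'_surjective N c
    obtain ⟨e, rfl⟩ := QuotientGroup.mk'_surjective N e
    obtain ⟨x', -, hx', hxo⟩ := exists_lift_isPiNum (QuotientGroup.mk' N) (π := {p}) x
      ((isPiNum_singleton_iff hp.out (orderOf_pos _).ne').2 ⟨a, ha⟩)
    obtain ⟨y', -, hy', hyo⟩ := exists_lift_isPiNum (QuotientGroup.mk' N) (π := {q}) y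
      ((isPiNum_singleton_iff hq (orderOf_pos _).ne').2 ⟨b, hb⟩)
    obtain ⟨b', hb'⟩ := (isPiNum_singleton_iff hq (orderOf_pos _).ne').1 hyo
    have := (QuotientGroup.mk' N).map_isConj (h x' y'
      ((isPiNum_singleton_iff hp.out (orderOf_pos _).ne').1 hxo) ⟨q, b', hq, hqp, hb'⟩ c e)
    simpa only [map_mul, map_inv, hx', hy'] using this

theorem result {G : Type*} [Group G] [Finite G] (p : ℕ) [Fact p.Prime] (h : ∀ x y : G, (∃ a : ℕ, orderOf x = p ^ a) → (∃ q b : ℕ, q.Prime ∧ q ≠ p ∧ orderOf y = q ^ b) → ∀ z : G, IsConj (x * y) z ↔ ∃ a b : G, z = a * x * a⁻¹ * (b * y * b⁻¹)) : Cfsg.IsPSolvable p G := by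
  exact aux p G fun x y hx hy a b => (h x y hx hy _).2 ⟨a, b, rfl⟩

end Cfsg.Agent.S3989
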