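import Cfsg.Statements.S4007
import Cfsg.Agent.Lib.E6.Main

set_option autoImplicit false
open Cfsg

namespace Cfsg.Agent.S4007

/-- A finite group G whose set of element orders is exactly {1, 2, 3, 4, 5, 6} satisfies one of: G has a normal elementary abelian 5-subgroup with quotient isomorphic to the dicyclic group of order 12 or to SL(2, 3); G has a normal elementary abelian 2-subgroup with quotient isomorphic to the alternating group of degree 5; G is isomorphic to the symmetric group of degree 5 or of degree 6. -/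
theorem result {G : Type*} [Group G] [Finite G] (h : Set.range (orderOf : G → ℕ) = {k : ℕ | 1 ≤ k ∧ k ≤ 6}) :
    (∃ (N : Subgroup G) (_ : N.Normal), Cfsg.IsElementaryAbelian 5 N ∧
        (Nonempty (G ⧸ N ≃* QuaternionGroup 3) ∨ Nonempty (G ⧸ N ≃* Matrix.SpecialLinearGroup (Fin 2) (ZMod 3)))) ∨
      (∃ (N : Subgroup G) (_ : N.Normal), Cfsg.IsElementaryAbelian 2 N ∧ Nonempty (G ⧸ N ≃* ↥(alternatingGroup (Fin 5)))) ∨
      Nonempty (G ≃* Equiv.Perm (Fin 5)) ∨ Nonempty (G ≃* Equiv.Perm (Fin 6)) := by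
  have h1 : ∀ k, 1 ≤ k → k ≤ 6 → ∃ g : G, orderOf g = k := fun k a b =>
    (h.ge ⟨a, b⟩ : k ∈ Set.range _)
  have h6 : CfsgLib.E6.O6 G := fun g => (h.le ⟨g, rfl⟩).2
  obtain ⟨w, hw⟩ := h1 6 (by norm_num) le_rfl
  by_cases hs : Group.IsSolvable G
  · obtain ⟨g, hg⟩ := h1 4 (by norm_num) (by norm_num)
    obtain ⟨x, hx⟩ := h1 5 (by norm_num) (by norm_num)
    exact Or.inl (CfsgLib.E6.Sv.solv h6 hg hx hw)
  rcases CfsgLib.E6.kn h6 (CfsgLib.E6.ak _) hs with ⟨f, hf, h2⟩ | ⟨-, ⟨⟨e⟩⟩ | h2⟩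
  · exact Or.inr (Or.inl ⟨f.ker, inferInstance,
      ⟨⟨⟨fun a b => Subtype.ext (CfsgLib.Cit.comm_of_sq h2 a.2 b.2)⟩⟩,
        fun a ha => by rw [pow_two, h2 a ha]⟩, ⟨QuotientGroup.quotientKerEquivOfSurjective f hf⟩⟩)
  · exact absurd ((e.orderOf_eq w).trans hw) (CfsgLib.E6.alt6_orderOf _)
  · exact Or.inr (Or.inr h2)

end Cfsg.Agent.S4007
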