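import Cfsg.Statements.S4009
import Mathlib
import Cfsg.Agent.Lib.H5MaxClass

set_option autoImplicit false
open Cfsg

namespace Cfsg.Agent.S4009
open Subgroup Cfsg CfsgLib CfsgLib.H5
open scoped commutatorElement

section aux
variable {G : Type*} [Group G] [Finite G] {p : ℕ} [hp : Fact p.Prime]

local notation "L" => Subgroup.lowerCentralSeries (⊤ : Subgroup G)

omit [Finite G] in
theorem comm_le_of_gen {A B M : Subgroup G} [M.Normal] {a b : G} (ha : a ∈ B) (hb : b ∈ B)
    (hgen : ∀ K : Subgroup G, A ≤ K → a ∈ K → b ∈ K → B ≤ K) (h1 : ⁅A, B⁆ ≤ M)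
    (hab : ⁅a, b⁆ ∈ M) : ⁅B, B⁆ ≤ M := by
  have sym : ∀ x y : G, ⁅x, y⁆ ∈ M → ⁅y, x⁆ ∈ M := fun x y h => by
    rw [← commutatorElement_inv]; exact inv_mem h
  have hA : ∀ t ∈ B, A ≤ CommCalc.relCent M {t} := fun t ht x hx =>
    mem_relCent_single.2 (sym _ _ (h1 (commutator_mem_commutator hx ht)))
  have h2 : B ≤ CommCalc.relCent M {a} := hgen _ (hA a ha)
    (mem_relCent_single.2 (by rw [commutatorElement_self]; exact one_mem _))
    (mem_relCent_single.2 hab)
  have h3 : B ≤ CommCalc.relCent M {b} := hgen _ (hA b hb)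
    (mem_relCent_single.2 (sym _ _ hab))
    (mem_relCent_single.2 (by rw [commutatorElement_self]; exact one_mem _))
  refine commutator_le.2 fun x hx y hy => ?_
  exact mem_relCent_single.1 (hgen _ (hA x hx)
    (mem_relCent_single.2 (sym _ _ (mem_relCent_single.1 (h2 hx))))
    (mem_relCent_single.2 (sym _ _ (mem_relCent_single.1 (h3 hx)))) hy)

theorem exists_gen_one (hG : IsPGroup p G) {A B : Subgroup G} (hAB : A ≤ B)
    (h : Nat.card B ≤ p * Nat.card A) :
    ∃ a ∈ B, ∀ K : Subgroup G, A ≤ K → a ∈ K → B ≤ K := by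
  by_cases hBA : B ≤ A
  · exact ⟨1, one_mem _, fun K hK _ => hBA.trans hK⟩
  · obtain ⟨a, haB, haA⟩ := SetLike.not_le_iff_exists.1 hBA
    exact ⟨a, haB, fun K hK haK => le_of_card_le_mul (hG.to_subgroup B) hAB h haB haA hK haK⟩

theorem exists_gen_two (hG : IsPGroup p G) {A B : Subgroup G} (hAB : A ≤ B)
    (h : Nat.card B ≤ p ^ 2 * Nat.card A) :
    ∃ a ∈ B, ∃ b ∈ B, ∀ K : Subgroup G, A ≤ K → a ∈ K → b ∈ K → B ≤ K := by
  by_cases hBA : B ≤ A
  · exact ⟨1, one_mem _, 1, one_mem _, fun K hK _ _ => hBA.trans hK⟩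
  · obtain ⟨a, haB, haA⟩ := SetLike.not_le_iff_exists.1 hBA
    have hle : A ⊔ zpowers a ≤ B := sup_le hAB (zpowers_le.2 haB)
    have hlt : A < A ⊔ zpowers a :=
      lt_of_le_not_ge le_sup_left fun h' => haA (h' (mem_sup_right (mem_zpowers a)))
    have h1 := PGrp.mul_card_le_card_of_lt (hG.to_subgroup _) hlt
    obtain ⟨b, hb, hK⟩ := exists_gen_one hG hle (h.trans (by
      rw [sq, mul_assoc]; exact Nat.mul_le_mul_left _ h1))
    exact ⟨a, haB, b, hb, fun K h1 h2 h3 => hK K (sup_le h1 (zpowers_le.2 h2)) h3⟩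

/-- The chain `N, [N,G], [N,G,G], ...`. -/
def chain (N : Subgroup G) : ℕ → Subgroup G
  | 0 => N
  | j + 1 => ⁅chain N j, ⊤⁆

omit [Finite G] in
theorem chain_normal (N : Subgroup G) [hN : N.Normal] (j : ℕ) : (chain N j).Normal := by
  induction j with
  | zero => exact hN
  | succ j ih => exact commutator_normal _ _

omit [Finite G] in
theorem chain_succ_le (N : Subgroup G) [N.Normal] (j : ℕ) : chain N (j + 1) ≤ chain N j := by
  haveI := chain_normal N j
  exact commutator_le_left _ _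

omit [Finite G] in
theorem chain_anti (N : Subgroup G) [N.Normal] {i j : ℕ} (h : i ≤ j) : chain N j ≤ chain N i :=
  antitone_nat_of_succ_le (chain_succ_le N) h

omit [Finite G] in
theorem chain_comm (N : Subgroup G) [N.Normal] (i j : ℕ) :
    ⁅chain N i, L j⁆ ≤ chain N (i + j + 1) :=
  CommCalc.commutator_chain_lowerCentralSeries (chain N) ⊤
    (fun i => haveI := chain_normal N i; CommCalc.le_normalizer_of_normal' _ _)
    (fun _ j => haveI := chain_normal N j; CommCalc.le_normalizer_of_normal' _ _)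
    (fun _ => le_rfl) j i

omit [Finite G] in
theorem chain_le_lcs {N : Subgroup G} {m : ℕ} (h : N ≤ L m) (j : ℕ) : chain N j ≤ L (m + j) := by
  induction j with
  | zero => exact h
  | succ j ih => exact commutator_mono ih le_rfl

theorem chain_card (hG : IsPGroup p G) (N : Subgroup G) [N.Normal] (i j : ℕ)
    (h : chain N (i + j) ≠ ⊥) :
    p ^ (j + 1) * Nat.card (chain N (i + j + 1)) ≤ Nat.card (chain N i) := by
  haveI := hG.isNilpotent
  have key : ∀ k, chain N k ≠ ⊥ → p * Nat.card (chain N (k + 1)) ≤ Nat.card (chain N k) :=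
    fun k hk => haveI := chain_normal N k
      PGrp.mul_card_le_card_of_lt (hG.to_subgroup _) (HallWielandt.commutator_top_lt _ hk)
  induction j with
  | zero => simpa using key i h
  | succ j ih =>
    have h' : chain N (i + j) ≠ ⊥ := fun h' =>
      h (le_bot_iff.1 (h' ▸ chain_anti N (by omega : i + j ≤ i + (j + 1))))
    calc p ^ (j + 1 + 1) * Nat.card (chain N (i + (j + 1) + 1))
        = p ^ (j + 1) * (p * Nat.card (chain N (i + (j + 1) + 1))) := by ring
      _ ≤ p ^ (j + 1) * Nat.card (chain N (i + j + 1)) := Nat.mul_le_mul_left _ (key _ h)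
      _ ≤ _ := ih h'

theorem card_ge_of_not_le (hG : IsPGroup p G) {A B : Subgroup G} {e : ℕ}
    (h : ¬ Nat.card B ≤ p ^ e * Nat.card A) : p ^ (e + 1) * Nat.card A ≤ Nat.card B := by
  obtain ⟨a, ha⟩ := IsPGroup.iff_card.1 (hG.to_subgroup A)
  obtain ⟨b, hb⟩ := IsPGroup.iff_card.1 (hG.to_subgroup B)
  rw [ha, hb, ← pow_add, Nat.pow_le_pow_iff_right hp.out.one_lt] at h ⊢
  omega

theorem card_of_big (hG : IsPGroup p G) (N : Subgroup G) [N.Normal] {m e : ℕ} (h : N ≤ L m)
    (hN : ⁅N, N⁆ ≠ ⊥) (he : p ^ (e + 1) * Nat.card (chain N 1) ≤ Nat.card N) :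
    p ^ (m + e + 1) * Nat.card ↥⁅N, N⁆ ≤ Nat.card N := by
  have h1 : ⁅N, N⁆ ≤ chain N (m + 1) := by
    have := chain_comm N 0 m
    rw [zero_add] at this
    exact (commutator_mono le_rfl h).trans this
  have h2 := card_le_of_le h1
  have h3 : p ^ m * Nat.card (chain N (m + 1)) ≤ Nat.card (chain N 1) := by
    rcases m with _ | m
    · simp
    · have := chain_card hG N 1 m fun h' => hN (le_bot_iff.1 (h' ▸ h1.trans
        (chain_anti N (by omega))))
      rwa [show 1 + m + 1 = m + 1 + 1 by omega] at this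
  calc p ^ (m + e + 1) * Nat.card ↥⁅N, N⁆
      ≤ p ^ (m + e + 1) * Nat.card (chain N (m + 1)) := Nat.mul_le_mul_left _ h2
    _ = p ^ (e + 1) * (p ^ m * Nat.card (chain N (m + 1))) := by ring
    _ ≤ p ^ (e + 1) * Nat.card (chain N 1) := Nat.mul_le_mul_left _ h3
    _ ≤ _ := he

theorem lemA (hG : IsPGroup p G) (N : Subgroup G) [N.Normal] {m : ℕ} (h : N ≤ L m)
    (hN : ⁅N, N⁆ ≠ ⊥) : p ^ (m + 2) * Nat.card ↥⁅N, N⁆ ≤ Nat.card N := by
  by_cases hc : Nat.card N ≤ p ^ 1 * Nat.card (chain N 1)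
  · rw [pow_one] at hc
    obtain ⟨a, ha, hK⟩ := exists_gen_one hG (chain_succ_le N 0) hc
    haveI := chain_normal N (1 + m + 1)
    have h1 : ⁅N, N⁆ ≤ chain N (1 + m + 1) :=
      comm_le_of_gen (A := chain N 1) ha (one_mem _) (fun K h1 h2 _ => hK K h1 h2)
        ((commutator_mono le_rfl h).trans (chain_comm N 1 m))
        (by rw [commutatorElement_one_right]; exact one_mem _)
    have h2 := chain_card hG N 0 (m + 1) fun h' => hN (le_bot_iff.1 (h' ▸ h1.trans
        (chain_anti N (by omega))))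
    rw [show 0 + (m + 1) + 1 = 1 + m + 1 by omega] at h2
    exact (Nat.mul_le_mul_left _ (card_le_of_le h1)).trans h2
  · exact card_of_big hG N h hN (card_ge_of_not_le hG hc)

theorem lemB (hG : IsPGroup p G) (N : Subgroup G) [N.Normal] {m : ℕ} (h : N ≤ L m)
    (hN : ⁅N, N⁆ ≠ ⊥) : p ^ (m + 3) * Nat.card ↥⁅N, N⁆ ≤ Nat.card N ∨
      ⁅⁅N, N⁆, ⁅N, N⁆⁆ ≤ L (4 * m + 4) := by
  by_cases hc : Nat.card N ≤ p ^ 2 * Nat.card (chain N 1)
  · right
    obtain ⟨a, ha, b, hb, hK⟩ := exists_gen_two hG (chain_succ_le N 0) hc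
    have hab : ⁅a, b⁆ ∈ chain N (m + 1) := by
      have := chain_comm N 0 m
      rw [zero_add] at this
      exact this (commutator_mem_commutator ha (h hb))
    haveI := chain_normal N (m + 2)
    haveI : (chain N (m + 2) ⊔ zpowers ⁅a, b⁆).Normal := by
      refine ⟨fun x hx g => ?_⟩
      have hx' : x ∈ chain N (m + 1) := (sup_le (chain_succ_le N _) (zpowers_le.2 hab)) hx
      have : g * x * g⁻¹ = ⁅x, g⁆⁻¹ * x := by rw [commutatorElement_def]; group
      rw [this]
      exact mul_mem (inv_mem (mem_sup_left (commutator_mem_commutator hx' (mem_top g)))) hx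
    have h1 : ⁅N, N⁆ ≤ chain N (m + 2) ⊔ zpowers ⁅a, b⁆ := by
      refine comm_le_of_gen (A := chain N 1) ha hb hK ?_ (mem_sup_right (mem_zpowers _))
      have := chain_comm N 1 m
      rw [show 1 + m + 1 = m + 2 by omega] at this
      exact ((commutator_mono le_rfl h).trans this).trans le_sup_left
    refine (commutator_mono h1 h1).trans ?_
    refine comm_le_of_gen (A := chain N (m + 2)) (mem_sup_right (mem_zpowers _)) (one_mem _)
      (fun K h1 h2 _ => sup_le h1 (zpowers_le.2 h2)) ?_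
      (by rw [commutatorElement_one_right]; exact one_mem _)
    have h2 := CommCalc.commutator_lcs_lcs_le (⊤ : Subgroup G) (m + (m + 2)) (m + (m + 1))
    rw [show m + (m + 2) + (m + (m + 1)) + 1 = 4 * m + 4 by omega] at h2
    exact (commutator_mono (chain_le_lcs h _)
      ((sup_le (chain_succ_le N _) (zpowers_le.2 hab)).trans (chain_le_lcs h _))).trans h2
  · exact Or.inl (card_of_big hG N h hN (card_ge_of_not_le hG hc))

omit [Finite G] in
theorem der_le (i : ℕ) : derivedSeries G i ≤ L (2 ^ i - 1) := by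
  induction i with
  | zero => exact le_top
  | succ i ih =>
    have h2 := CommCalc.commutator_lcs_lcs_le (⊤ : Subgroup G) (2 ^ i - 1) (2 ^ i - 1)
    have := Nat.one_le_two_pow (n := i)
    rw [show 2 ^ i - 1 + (2 ^ i - 1) + 1 = 2 ^ (i + 1) - 1 by omega] at h2
    exact (commutator_mono ih ih).trans h2

theorem main (hG : IsPGroup p G) (i : ℕ) (hi : derivedSeries G i ≠ ⊥) :
    p ^ (2 ^ i + 2 * i) * Nat.card (derivedSeries G i) ≤ p * Nat.card G ∨
    (p ^ (2 ^ i + 2 * i) * Nat.card (derivedSeries G i) ≤ p ^ 2 * Nat.card G ∧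
      derivedSeries G (i + 1) ≤ L (2 ^ (i + 1))) ∨
    (p ^ (2 ^ i + 2 * i) * Nat.card (derivedSeries G i) ≤ p ^ 3 * Nat.card G ∧
      derivedSeries G i ≤ L (2 ^ i)) := by
  induction i with
  | zero => left; simp
  | succ i ih =>
    have hi' : derivedSeries G i ≠ ⊥ := fun h => hi (by rw [derivedSeries_succ, h]; simp)
    have hi2 : ⁅derivedSeries G i, derivedSeries G i⁆ ≠ ⊥ := hi
    have hm := der_le (G := G) i
    obtain ⟨m, hm2⟩ : ∃ m, 2 ^ i = m + 1 := ⟨2 ^ i - 1, by have := Nat.one_le_two_pow (n := i); omega⟩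
    rw [hm2, add_tsub_cancel_right] at hm
    have hA := lemA hG _ hm hi2
    have e1 : 2 ^ (i + 1) = 2 * m + 2 := by omega
    have e2 : 2 ^ (i + 1 + 1) = 4 * m + 4 := by omega
    have good : ∀ c, p ^ (m + 3) * Nat.card ↥⁅derivedSeries G i, derivedSeries G i⁆ ≤
        Nat.card (derivedSeries G i) →
        p ^ (m + 1 + 2 * i) * Nat.card (derivedSeries G i) ≤ c →
        p ^ (2 * m + 2 + 2 * (i + 1)) * Nat.card (derivedSeries G (i + 1)) ≤ c := fun c h1 h2 =>
      calc _ = p ^ (m + 1 + 2 * i) *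
            (p ^ (m + 3) * Nat.card ↥⁅derivedSeries G i, derivedSeries G i⁆) := by
            rw [derivedSeries_succ]; ring
        _ ≤ p ^ (m + 1 + 2 * i) * Nat.card (derivedSeries G i) := Nat.mul_le_mul_left _ h1
        _ ≤ c := h2
    have bad : ∀ c, p ^ (m + 1 + 2 * i) * Nat.card (derivedSeries G i) ≤ c →
        p ^ (2 * m + 2 + 2 * (i + 1)) * Nat.card (derivedSeries G (i + 1)) ≤ p * c := fun c h2 =>
      calc _ = p * (p ^ (m + 1 + 2 * i) *
            (p ^ (m + 2) * Nat.card ↥⁅derivedSeries G i, derivedSeries G i⁆)) := by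
            rw [derivedSeries_succ]; ring
        _ ≤ p * (p ^ (m + 1 + 2 * i) * Nat.card (derivedSeries G i)) :=
            Nat.mul_le_mul_left _ (Nat.mul_le_mul_left _ hA)
        _ ≤ p * c := Nat.mul_le_mul_left _ h2
    rw [e2, e1]
    rw [e1, hm2] at ih
    rcases ih hi' with h | ⟨h, h'⟩ | ⟨h, h'⟩
    · rcases lemB hG _ hm hi2 with hB | hB
      · exact Or.inl (good _ hB h)
      · exact Or.inr (Or.inl ⟨(bad _ h).trans_eq (by ring), hB⟩)
    · exact Or.inr (Or.inr ⟨(bad _ h).trans_eq (by ring), h'⟩)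
    · refine Or.inr (Or.inr ⟨good _ (lemA hG _ h' hi2) h, ?_⟩)
      have h2 := CommCalc.commutator_lcs_lcs_le (⊤ : Subgroup G) (m + 1) (m + 1)
      exact ((commutator_mono h' h').trans h2).trans (lcs_le_of_le (by omega))

end aux


/-- Let P be a finite p-group of order p^n whose derived length is exactly k + 1 (the k-th derived subgroup is nontrivial and the (k+1)-st is trivial). Then n ≥ 2^k + 2k − 2. -/
theorem result {P : Type*} [Group P] [Finite P] (p : ℕ) [Fact p.Prime] (n k : ℕ) (hcard : Nat.card P = p ^ n) (hk : derivedSeries P k ≠ ⊥) (hk' : derivedSeries P (k + 1) = ⊥) : 2 ^ k + 2 * k ≤ n + 2 := by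
  have hp : p.Prime := Fact.out
  have hG : IsPGroup p P := IsPGroup.of_card hcard
  have h1 : p * Nat.card (⊥ : Subgroup P) ≤ Nat.card (derivedSeries P k) :=
    PGrp.mul_card_le_card_of_lt (hG.to_subgroup _) (bot_lt_iff_ne_bot.2 hk)
  rw [card_bot, mul_one] at h1
  have h2 : p ^ (2 ^ k + 2 * k) * Nat.card (derivedSeries P k) ≤ p ^ 3 * Nat.card P := by
    rcases main hG k hk with h | ⟨h, -⟩ | ⟨h, -⟩
    · refine h.trans (Nat.mul_le_mul_right _ ?_)
      exact Nat.le_self_pow (by norm_num) p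
    · exact h.trans (Nat.mul_le_mul_right _ (Nat.pow_le_pow_right hp.pos (by norm_num)))
    · exact h
  have h3 := (Nat.mul_le_mul_left _ h1).trans h2
  rw [hcard, ← pow_succ, ← pow_add, Nat.pow_le_pow_iff_right hp.one_lt] at h3
  omega

end Cfsg.Agent.S4009
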