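import Cfsg.Statements.S4010
import Mathlib
import Cfsg.Agent.Lib.H5DerLen
import Cfsg.Agent.Lib.FrobZGroup

set_option autoImplicit false
open Cfsg

namespace Cfsg.Agent.S4010
open Subgroup Cfsg CfsgLib Module

theorem derTriv.{u, v} {F : Type*} [Field F] {p : ℕ} [hp : Fact p.Prime] (hF : (p : F) ≠ 0) (k : ℕ) :
    H5.DerTriv.{u, v} F p k (2 ^ k) := by
  induction k with
  | zero =>
    intro P _ _ V _ _ _ ρ _ h g _
    have := finrank_zero_iff.mp (Nat.lt_one_iff.mp h)
    exact Subsingleton.elim _ _
  | succ k ih =>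
    refine ih.succ hF (pow_succ' 2 k ▸ Nat.mul_le_mul_right _ hp.out.two_le) ?_
    intro P _ _ V _ _ _ ρ hP hV hρ h
    cases k with
    | zero =>
      refine commutator_eq_bot_iff_le_centralizer.mpr fun a _ b _ => hρ (LinearMap.ext fun w => ?_)
      obtain ⟨v, hv⟩ := finrank_le_one_iff.mp (Nat.lt_succ_iff.mp hV)
      obtain ⟨c, rfl⟩ := hv w
      obtain ⟨x, hx⟩ := hv (ρ a v)
      obtain ⟨y, hy⟩ := hv (ρ b v)
      simp only [map_mul, Module.End.mul_apply, map_smul, ← hx, ← hy, smul_comm x y]
    | succ k =>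
      have := hP.isNilpotent
      obtain ⟨A, -, _, hA, hA'⟩ := PGrp.exists_scn_ge (⊥ : Subgroup P) inferInstance
      have : IsCyclic A := by_contra fun hc =>
        let ⟨E, _, h1, h2, h3⟩ := PGrp.exists_normal_card_sq_le hP A hA hc; h E h1 h2 h3
      have h1 : commutator P ≤ centralizer A := Frob.commutator_le_centralizer_of_isCyclic
        le_normalizer_of_normal le_normalizer_of_normal
      refine eq_bot_iff.mpr ((derivedSeries_antitone P (show 2 ≤ k + 1 + 1 by omega)).trans
        (commutator_eq_bot_iff_le_centralizer.mpr (h1.trans (centralizer_le (h1.trans hA'.le)))).le)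


/-- Let F be a field, n ≥ 1, and P a finite p-group (p a prime) admitting an injective homomorphism into the general linear group of degree n over F. Then the derived length of P is at most ⌊log₂ n⌋ + 1: that term of the derived series of P is trivial. -/
theorem result {P : Type*} [Group P] [Finite P] (p : ℕ) [Fact p.Prime] (hP : IsPGroup p P) (F : Type*) [Field F] (n : ℕ) (hn : 1 ≤ n) (ρ : P →* Matrix.GeneralLinearGroup (Fin n) F) (hρ : Function.Injective ρ) : derivedSeries P (Nat.log 2 n + 1) = ⊥ := by
  let σ : Representation F P (Fin n → F) :=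
    (Units.coeHom _).comp (Matrix.GeneralLinearGroup.toLin.toMonoidHom.comp ρ)
  have h1 : σ.ker = ⊥ := (MonoidHom.ker_eq_bot_iff σ).mpr
    (Units.val_injective.comp (Matrix.GeneralLinearGroup.toLin.injective.comp hρ))
  have h2 : finrank F (Fin n → F) < 2 ^ (Nat.log 2 n + 1) := by
    rw [finrank_fin_fun]; exact Nat.lt_pow_succ_log_self one_lt_two n
  rw [eq_bot_iff, ← h1]
  by_cases hF : (p : F) = 0
  · have := (CharP.charP_iff_prime_eq_zero Fact.out).mpr hF
    exact H5.derivedSeries_le_ker_of_charP hP σ h2.le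
  · exact derTriv hF _ P _ σ hP h2

end Cfsg.Agent.S4010
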