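import Cfsg.Statements.S4013
import Cfsg.Agent.Lib.FrobeniusCount

set_option autoImplicit false
open Cfsg

namespace Cfsg.Agent.S4013

open CfsgLib Subgroup

/-- Let G be a finite p-group (p prime) and N < M normal subgroups of G such that for some g ∈ M ∖ N the conjugacy class of g is exactly M ∖ N. Then p = 2 and N has index 2 in M. -/
theorem result {G : Type*} [Group G] [Finite G] (p : ℕ) [Fact p.Prime] (hG : IsPGroup p G) (N M : Subgroup G) [N.Normal] [M.Normal] (hNM : N < M) (g : G) (hgM : g ∈ M) (hgN : g ∉ N) (hcl : {h : G | IsConj g h} = (M : Set G) \ (N : Set G)) : p = 2 ∧ N.relIndex M = 2 := by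
  have hp : p.Prime := Fact.out
  have h1 := H4.ncard_conj_eq_index g
  rw [hcl, Set.ncard_diff hNM.le, ← Nat.card_coe_set_eq, ← Nat.card_coe_set_eq] at h1
  obtain ⟨c, hc⟩ := hG.index (centralizer ({g} : Set G))
  obtain ⟨a, ha⟩ := (hG.to_subgroup M).index (N.subgroupOf M)
  have h2 : N.relIndex M * Nat.card N = Nat.card M := by
    rw [← Nat.card_congr (subgroupOfEquivOfLe hNM.le).toEquiv]
    exact index_mul_card _
  have ha' : N.relIndex M = p ^ a := ha
  have ha0 : a ≠ 0 := by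
    rintro rfl
    rw [pow_zero, relIndex_eq_one] at ha'
    exact hgN (ha' hgM)
  have h3 : p ^ a - 1 ∣ p ^ c := by
    rw [← hc, ← h1]
    refine ⟨Nat.card N, ?_⟩
    rw [Nat.sub_mul, one_mul, ← ha', h2]
    rfl
  obtain ⟨d, -, hd⟩ := (Nat.dvd_prime_pow hp).mp h3
  have hpos : 1 ≤ p ^ a := Nat.one_le_pow _ _ hp.pos
  have hd0 : d = 0 := by
    by_contra hd0
    have h4 : p ∣ p ^ a - 1 := hd ▸ dvd_pow_self p hd0
    have h5 : p ∣ p ^ a := dvd_pow_self p ha0
    have := (Nat.dvd_sub_iff_right hpos h5).mp h4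
    exact hp.one_lt.ne' (Nat.dvd_one.mp this)
  rw [hd0, pow_zero] at hd
  have h6 : p ^ a = 2 := by omega
  refine ⟨?_, ha'.trans h6⟩
  exact (Nat.prime_dvd_prime_iff_eq hp Nat.prime_two).mp (h6 ▸ dvd_pow_self p ha0)

end Cfsg.Agent.S4013
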