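import Cfsg.Statements.S4014
import Mathlib
import Cfsg.Agent.Lib.H5DerLen

set_option autoImplicit false
open Cfsg

namespace Cfsg.Agent.S4014
open Subgroup Cfsg CfsgLib

theorem exists_wreath (p : ℕ) [hp : Fact p.Prime] (k : ℕ) :
    ∃ (W : Type) (_ : Group W) (_ : Finite W) (Λ : Type) (_ : Finite Λ) (_ : MulAction W Λ),
      FaithfulSMul W Λ ∧ IsPGroup p W ∧ Nat.card Λ = p ^ (k + 1) ∧ derivedSeries W k ≠ ⊥ := by
  have h0 : Nat.card (Multiplicative (ZMod p)) = p := by simp
  have h1 : IsPGroup p (Multiplicative (ZMod p)) := IsPGroup.of_card (h0.trans (pow_one p).symm)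
  induction k with
  | zero =>
    exact ⟨Multiplicative (ZMod p), inferInstance, inferInstance, Multiplicative (ZMod p),
      inferInstance, inferInstance, inferInstance, h1, by rw [h0, zero_add, pow_one], top_ne_bot⟩
  | succ k ih =>
    obtain ⟨W, _, _, Λ, _, _, _, h2, h3, h4⟩ := ih
    have : Nonempty Λ := (Nat.card_pos_iff.mp (h3 ▸ pow_pos hp.out.pos _)).1
    exact ⟨W ≀ᵣ Multiplicative (ZMod p), inferInstance, inferInstance, Λ × Multiplicative (ZMod p),
      inferInstance, inferInstance, inferInstance, H5.isPGroup_wreath h2 h1,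
      by rw [Nat.card_prod, h3, h0, ← pow_succ], H5.derivedSeries_wreath_ne_bot h4⟩


/-- Let p be a prime, n ≥ 1, and P a Sylow p-subgroup of the symmetric group on n letters. Then the derived length of P is exactly k = ⌊log_p n⌋ (the largest k with p^k ≤ n): the k-th derived subgroup of P is trivial and, when k ≥ 1, the (k−1)-st is not. -/
theorem result (p : ℕ) [Fact p.Prime] (n : ℕ) (hn : 1 ≤ n) (P : Sylow p (Equiv.Perm (Fin n))) : derivedSeries ↥(P : Subgroup (Equiv.Perm (Fin n))) (Nat.log p n) = ⊥ ∧ (1 ≤ Nat.log p n → derivedSeries ↥(P : Subgroup (Equiv.Perm (Fin n))) (Nat.log p n - 1) ≠ ⊥) := by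
  have hp : p.Prime := Fact.out
  refine ⟨eq_bot_iff.mpr fun x hx => Subtype.ext (Equiv.ext fun i =>
    H5.derivedSeries_le_of_index_lt _ _ P.isPGroup' (MulAction.stabilizer _ i) ?_ hx), fun h => ?_⟩
  · rw [MulAction.index_stabilizer]
    refine (Set.ncard_le_card _).trans_lt ?_
    rw [Nat.card_fin]
    exact Nat.lt_pow_succ_log_self hp.one_lt n
  · obtain ⟨W, _, _, Λ, _, _, _, h2, h3, h4⟩ := exists_wreath p (Nat.log p n - 1)
    rw [Nat.sub_add_cancel h] at h3
    have := Fintype.ofFinite Λ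
    obtain ⟨ι⟩ := Function.Embedding.nonempty_of_card_le (α := Λ) (β := Fin n) (by
      rw [← Nat.card_eq_fintype_card, h3, Fintype.card_fin]
      exact Nat.pow_log_le_self p (by omega))
    exact H5.derivedSeries_sylow_ne_bot h2
      ((Equiv.Perm.viaEmbeddingHom ι).comp (MulAction.toPermHom W Λ))
      ((Equiv.Perm.viaEmbeddingHom_injective ι).comp MulAction.toPerm_injective) h4 P

end Cfsg.Agent.S4014
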