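import Cfsg.Statements.S4015
import Mathlib
import Cfsg.Agent.Lib.H5DerLen

set_option autoImplicit false
open Cfsg

namespace Cfsg.Agent.S4015
open Subgroup Cfsg CfsgLib Module

theorem dvd_card_iff (p : ℕ) [hp : Fact p.Prime] (F : Type*) [Field F] [Fintype F]
    (hpq : ¬ p ∣ Fintype.card F) (d : ℕ) :
    p ∣ Nat.card (Matrix.GeneralLinearGroup (Fin d) F) ↔ orderOf (Fintype.card F : ZMod p) ≤ d := by
  have h0 : (Fintype.card F : ZMod p) ≠ 0 := mt (ZMod.natCast_eq_zero_iff _ _).mp hpq
  have h1 : 0 < orderOf (Fintype.card F : ZMod p) := (isOfFinOrder_iff_pow_eq_one.mpr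
    ⟨p - 1, Nat.sub_pos_of_lt hp.out.one_lt, ZMod.pow_card_sub_one_eq_one h0⟩).orderOf_pos
  have h2 : ∀ i : Fin d, p ∣ Fintype.card F ^ d - Fintype.card F ^ (i : ℕ) ↔
      orderOf (Fintype.card F : ZMod p) ∣ d - i := fun i => by
    rw [← ZMod.natCast_eq_zero_iff, Nat.cast_sub (Nat.pow_le_pow_right Fintype.card_pos i.2.le),
      sub_eq_zero, orderOf_dvd_iff_pow_eq_one, Nat.cast_pow, Nat.cast_pow]
    rw [← mul_eq_right₀ (pow_ne_zero (i : ℕ) h0), ← pow_add, Nat.sub_add_cancel i.2.le]
  rw [Matrix.card_GL_field, (Nat.prime_iff.mp hp.out).dvd_finsetProd_iff]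
  refine ⟨fun ⟨i, _, hi⟩ => (Nat.le_of_dvd (Nat.sub_pos_of_lt i.2) ((h2 i).mp hi)).trans
    (Nat.sub_le _ _), fun h => ⟨⟨d - orderOf (Fintype.card F : ZMod p), by omega⟩,
      Finset.mem_univ _, (h2 _).mpr ?_⟩⟩
  rw [Nat.sub_sub_self h]

theorem derTriv.{u} (p : ℕ) [hp : Fact p.Prime] (hp2 : p ≠ 2) (F : Type u) [Field F] [Fintype F]
    (hpq : ¬ p ∣ Fintype.card F) (k : ℕ) :
    H5.DerTriv.{u, u} F p k (orderOf (Fintype.card F : ZMod p) * p ^ k) := by
  induction k with
  | zero =>
    intro P _ _ V _ _ _ ρ hP h g _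
    obtain ⟨j, hj⟩ := hP g
    have h1 := orderOf_dvd_natCard
      ((Matrix.GeneralLinearGroup.toLin' (finBasis F V)).symm (ρ.toHomUnits g))
    rw [MulEquiv.orderOf_eq] at h1
    obtain ⟨i, -, hi⟩ := (Nat.dvd_prime_pow hp.out).mp (orderOf_dvd_of_pow_eq_one
      (show ρ.toHomUnits g ^ p ^ j = 1 by rw [← map_pow, hj, map_one]))
    obtain rfl : i = 0 := Nat.eq_zero_of_not_pos fun h0 => ((dvd_card_iff p F hpq _).mp
      ((dvd_pow_self p h0.ne').trans (hi ▸ h1))).not_gt (by simpa using h)
    rw [pow_zero, orderOf_eq_one_iff] at hi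
    exact congrArg Units.val hi
  | succ k ih =>
    refine ih.succ (fun h => hpq ?_) (by rw [pow_succ]; exact le_of_eq (by ring)) ?_
    · have := (CharP.charP_iff_prime_eq_zero hp.out).mpr h
      exact (prime_dvd_char_iff_dvd_card p).mp (ringChar.eq F p ▸ dvd_rfl)
    · intro P _ _ V _ _ _ ρ hP _ _ h
      have : IsCyclic P := by_contra fun hc =>
        let ⟨E, h1, h2, h3⟩ := PGrp.exists_normal_card_sq_of_odd hP hp2 hc; h E h1 h2 h3
      exact eq_bot_iff.mpr ((derivedSeries_antitone P (show 1 ≤ k + 1 by omega)).trans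
        (commutator_eq_bot_iff_le_centralizer.mpr fun a _ b _ => IsCyclic.commutative.1.1 b a).le)

theorem exists_wreath.{u} (p : ℕ) [hp : Fact p.Prime] (F : Type u) [Field F] [Fintype F]
    (hpq : ¬ p ∣ Fintype.card F) (k : ℕ) :
    ∃ (W : Type u) (_ : Group W) (_ : Finite W) (V : Type u) (_ : AddCommGroup V) (_ : Module F V)
      (_ : FiniteDimensional F V) (ρ : Representation F W V), Function.Injective ρ ∧ IsPGroup p W ∧
      finrank F V = orderOf (Fintype.card F : ZMod p) * p ^ k ∧ derivedSeries W k ≠ ⊥ := by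
  have h0 : Nat.card (Multiplicative (ZMod p)) = p := by simp
  have h1 : IsPGroup p (Multiplicative (ZMod p)) := IsPGroup.of_card (h0.trans (pow_one p).symm)
  induction k with
  | zero =>
    obtain ⟨g, hg⟩ := exists_prime_orderOf_dvd_card' p ((dvd_card_iff p F hpq _).mpr le_rfl)
    have := (Subgroup.nontrivial_iff_ne_bot _).mpr (mt zpowers_eq_bot.mp fun e : g = 1 =>
      hp.out.one_lt.ne' (by rw [← hg, e, orderOf_one]))
    exact ⟨zpowers g, inferInstance, inferInstance, _, inferInstance, inferInstance, inferInstance,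
      (Units.coeHom _).comp (Matrix.GeneralLinearGroup.toLin.toMonoidHom.comp (zpowers g).subtype),
      Units.val_injective.comp (Matrix.GeneralLinearGroup.toLin.injective.comp
        Subtype.val_injective), IsPGroup.of_card (n := 1) (by rw [Nat.card_zpowers, hg, pow_one]),
      by rw [finrank_fin_fun, pow_zero, mul_one], top_ne_bot⟩
  | succ k ih =>
    obtain ⟨W, _, _, V, _, _, _, ρ, hρ, h2, h3, h4⟩ := ih
    have : Nontrivial V := by
      by_contra! h
      exact h4 (eq_bot_iff.mpr fun x _ => hρ (Subsingleton.elim _ _))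
    obtain ⟨u, hu⟩ := exists_ne (0 : V)
    let σ : Representation F (W ≀ᵣ Multiplicative (ZMod p)) (Multiplicative (ZMod p) → V) :=
      { toFun := fun w => LinearMap.pi fun x => ρ (w.left x) ∘ₗ LinearMap.proj (w.right⁻¹ * x)
        map_one' := by ext; simp
        map_mul' := fun a b => by ext; simp [mul_assoc] }
    refine ⟨W ≀ᵣ Multiplicative (ZMod p), inferInstance, inferInstance, Multiplicative (ZMod p) → V,
      inferInstance, inferInstance, inferInstance, σ, (injective_iff_map_eq_one σ).mpr fun w hw => ?_,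
      H5.isPGroup_wreath h2 h1, by simp [finrank_pi_fintype, h3, pow_succ, mul_comm, mul_assoc],
      H5.derivedSeries_wreath_ne_bot h4⟩
    have h5 : ∀ (v : Multiplicative (ZMod p) → V) x, ρ (w.left x) (v (w.right⁻¹ * x)) = v x :=
      fun v x => congrFun (LinearMap.congr_fun hw v) x
    have h6 : w.left = 1 := funext fun x => hρ (by
      rw [Pi.one_apply, map_one]; exact LinearMap.ext fun v => h5 (fun _ => v) x)
    refine RegularWreathProduct.ext h6 (by_contra fun h => hu ?_)
    have := h5 (Pi.single 1 u) w.right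
    rwa [h6, inv_mul_cancel, Pi.single_eq_same, Pi.single_eq_of_ne (show w.right ≠ 1 from h), Pi.one_apply, map_one] at this


/-- Let p be an odd prime, F a finite field with q elements where p does not divide q, and e the multiplicative order of q modulo p. Let n ≥ e and write w = ⌊n/e⌋ and k = ⌊log_p w⌋. Then a Sylow p-subgroup of GL(n, F) has derived length exactly k + 1: its (k+1)-st derived subgroup is trivial and its k-th is not. -/
theorem result (p : ℕ) [Fact p.Prime] (hp : p ≠ 2) (F : Type*) [Field F] [Fintype F] (q : ℕ) (hq : Fintype.card F = q) (hpq : ¬ p ∣ q) (n : ℕ) (hn : orderOf (q : ZMod p) ≤ n) (P : Sylow p (Matrix.GeneralLinearGroup (Fin n) F)) : derivedSeries ↥(P : Subgroup (Matrix.GeneralLinearGroup (Fin n) F)) (Nat.log p (n / orderOf (q : ZMod p)) + 1) = ⊥ ∧ derivedSeries ↥(P : Subgroup (Matrix.GeneralLinearGroup (Fin n) F)) (Nat.log p (n / orderOf (q : ZMod p))) ≠ ⊥ := by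
  subst hq
  have h0 : 0 < orderOf (Fintype.card F : ZMod p) := Nat.pos_of_ne_zero fun h => by
    simpa [(Fact.out : p.Prime).one_lt.ne'] using (dvd_card_iff p F hpq 0).mpr h.le
  constructor
  · let σ : Representation F (P : Subgroup (Matrix.GeneralLinearGroup (Fin n) F)) (Fin n → F) :=
      (Units.coeHom _).comp (Matrix.GeneralLinearGroup.toLin.toMonoidHom.comp (Subgroup.subtype _))
    have h1 : σ.ker = ⊥ := (MonoidHom.ker_eq_bot_iff σ).mpr (Units.val_injective.comp
      (Matrix.GeneralLinearGroup.toLin.injective.comp Subtype.val_injective))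
    rw [eq_bot_iff, ← h1]
    refine derTriv p hp F hpq _ _ _ σ P.isPGroup' ?_
    rw [finrank_fin_fun, mul_comm, ← Nat.div_lt_iff_lt_mul h0]
    exact Nat.lt_pow_succ_log_self (Fact.out : p.Prime).one_lt _
  · obtain ⟨W, _, _, V, _, _, _, ρ, hρ, h2, h3, h4⟩ :=
      exists_wreath p F hpq (Nat.log p (n / orderOf (Fintype.card F : ZMod p)))
    have h5 : finrank F V ≤ n := by
      rw [h3, mul_comm, ← Nat.le_div_iff_mul_le h0]
      exact Nat.pow_log_le_self p (Nat.div_pos hn h0).ne'
    let b := finBasisOfFinrankEq F (V × (Fin (n - finrank F V) → F)) (n := n) (by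
      rw [finrank_prod, finrank_fin_fun, Nat.add_sub_cancel' h5])
    refine H5.derivedSeries_sylow_ne_bot h2
      ((Matrix.GeneralLinearGroup.toLin' b).symm.toMonoidHom.comp
        (ρ.prod (Representation.trivial F W _)).toHomUnits)
      ((Matrix.GeneralLinearGroup.toLin' b).symm.injective.comp fun x y h => hρ ?_) h4 P
    exact LinearMap.ext fun v => congrArg Prod.fst
      (LinearMap.congr_fun (congrArg Units.val h) (v, 0))

end Cfsg.Agent.S4015
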