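import Cfsg.Statements.S4021
import Cfsg.Agent.Lib.CG.Main
import Cfsg.Agent.S4020

set_option autoImplicit false
open Cfsg

namespace Cfsg.Agent.S4021

/-- Let G be a finite group in which any two subgroups of the same order are conjugate. Then G/O(G), O(G) the largest normal subgroup of odd order, is one of: a cyclic 2-group; the one-dimensional affine group over the field with 8 elements; the one-dimensional semi-affine group over the field with 8 or with 32 elements; PSL₂(8); the full automorphism group of PSL₂(32); the alternating group of degree 4 or 5; SL₂(3); or SL₂(5). -/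
theorem result {G : Type*} [Group G] [Finite G]
    (hC : ∀ H K : Subgroup G, Nat.card H = Nat.card K → ∃ g : G, K = H.map (MulAut.conj g).toMonoidHom) :
    (IsCyclic (G ⧸ Cfsg.oddCore G) ∧ IsPGroup 2 (G ⧸ Cfsg.oddCore G)) ∨
    Nonempty (G ⧸ Cfsg.oddCore G ≃* Cfsg.affineGroup (GaloisField 2 3)) ∨
    Nonempty (G ⧸ Cfsg.oddCore G ≃* Cfsg.semiaffineGroup (GaloisField 2 3)) ∨
    Nonempty (G ⧸ Cfsg.oddCore G ≃* Cfsg.semiaffineGroup (GaloisField 2 5)) ∨
    Nonempty (G ⧸ Cfsg.oddCore G ≃* Matrix.ProjectiveSpecialLinearGroup (Fin 2) (GaloisField 2 3)) ∨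
    Nonempty (G ⧸ Cfsg.oddCore G ≃* MulAut (Matrix.ProjectiveSpecialLinearGroup (Fin 2) (GaloisField 2 5))) ∨
    Nonempty (G ⧸ Cfsg.oddCore G ≃* alternatingGroup (Fin 4)) ∨
    Nonempty (G ⧸ Cfsg.oddCore G ≃* alternatingGroup (Fin 5)) ∨
    Nonempty (G ⧸ Cfsg.oddCore G ≃* Matrix.SpecialLinearGroup (Fin 2) (ZMod 3)) ∨
    Nonempty (G ⧸ Cfsg.oddCore G ≃* Matrix.SpecialLinearGroup (Fin 2) (ZMod 5)) := by
  have hC' : CfsgLib.CG.Conj (G ⧸ Cfsg.oddCore G) :=
    CfsgLib.CG.Conj.of_surjective hC _ (QuotientGroup.mk'_surjective _)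
  have hO : Cfsg.pPrimeCore 2 (G ⧸ Cfsg.oddCore G) = ⊥ := CfsgLib.pPrimeCore_quotient_pPrimeCore 2
  obtain ⟨S⟩ : Nonempty (Sylow 2 (G ⧸ Cfsg.oddCore G)) := inferInstance
  by_cases hc : IsCyclic (S : Subgroup (G ⧸ Cfsg.oddCore G))
  · exact Or.inl (CfsgLib.CG.cyclic_case hO S hc)
  right
  rcases Cfsg.Agent.S4020.result (fun p _ H K _ _ h => hC' H K h) S with h | h | ⟨⟨e⟩⟩
  · exact absurd h hc
  · have h2 := CfsgLib.CG.e2_of_sylow S fun x hx => (pow_two x).symm.trans (h.2 x hx)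
    obtain ⟨n, hn⟩ := IsPGroup.iff_card.1 S.2
    have hn2 : 2 ≤ n := by
      by_contra h3
      have : n < 2 := by omega
      apply hc
      interval_cases n
      · have := (Nat.card_eq_one_iff_unique.1 hn).1
        exact isCyclic_of_subsingleton
      · exact isCyclic_of_prime_card (p := 2) hn
    by_cases hN : (S : Subgroup (G ⧸ Cfsg.oddCore G)).Normal
    · rcases CfsgLib.CG.normal_case hC' hO h2 S hn hn2 with h | ⟨-, h | h⟩ | h
      · exact Or.inr (Or.inr (Or.inr (Or.inr (Or.inr (Or.inl h.2)))))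
      · exact Or.inl h
      · exact Or.inr (Or.inl h)
      · exact Or.inr (Or.inr (Or.inl h.2))
    · rcases CfsgLib.CG.rank_one_case hC' hO h2 S hN hn hn2 with h | h | h
      · exact Or.inr (Or.inr (Or.inr (Or.inr (Or.inr (Or.inr (Or.inl h.2))))))
      · exact Or.inr (Or.inr (Or.inr (Or.inl h.2)))
      · exact Or.inr (Or.inr (Or.inr (Or.inr (Or.inl h.2))))
  · rcases CfsgLib.CG.quat_case hC' hO S e with h | h
    · exact Or.inr (Or.inr (Or.inr (Or.inr (Or.inr (Or.inr (Or.inr (Or.inl h)))))))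
    · exact Or.inr (Or.inr (Or.inr (Or.inr (Or.inr (Or.inr (Or.inr (Or.inr h)))))))

end Cfsg.Agent.S4021
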