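import Cfsg.Statements.S4022
import Mathlib
import Cfsg.Agent.Lib.H5Cube
import Cfsg.Agent.Lib.Hall
import Cfsg.Agent.Lib.H5SylowIn
import Cfsg.Agent.Lib.CoreSolvable

set_option autoImplicit false
open Cfsg

namespace Cfsg.Agent.S4022
open Subgroup CfsgLib CfsgLib.H5

theorem map_map_conj {G G' : Type*} [Group G] [Group G'] (f : G →* G') (g : G) (H : Subgroup G) :
    (H.map (MulAut.conj g).toMonoidHom).map f = (H.map f).map (MulAut.conj (f g)).toMonoidHom := by
  rw [map_map, map_map]
  congr 1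
  ext x
  simp

theorem conjPSub_quotient {G : Type*} [Group G] [Finite G] {p : ℕ} [Fact p.Prime]
    (h : ConjPSub p G) (N : Subgroup G) [N.Normal] : ConjPSub p (G ⧸ N) := by
  intro H K hH hK hc
  have hsurj := QuotientGroup.mk'_surjective N
  have key : ∀ L : Subgroup (G ⧸ N), IsPGroup p L → ∃ S : Subgroup G, IsPGroup p S ∧
      S.map (QuotientGroup.mk' N) = L ∧
      Nat.card S = p ^ (Nat.card L * Nat.card N).factorization p := by
    intro L hL
    obtain ⟨S, hS⟩ := IsSylowIn.exists_in (p := p) (L.comap (QuotientGroup.mk' N))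
    have h2 := hS.map (QuotientGroup.mk' N)
    rw [map_comap_eq_self_of_surjective hsurj] at h2
    exact ⟨S, hS.isPGroup, (h2.eq_of_le hL h2.le le_rfl).symm, by
      rw [hS.card_eq_ordProj, card_comap_mk']⟩
  obtain ⟨S, hS, rfl, hSc⟩ := key H hH
  obtain ⟨T, hT, rfl, hTc⟩ := key K hK
  obtain ⟨g, rfl⟩ := h S T hS hT (by rw [hSc, hTc, hc])
  exact ⟨_, map_map_conj _ g S⟩

theorem aux.{u} (r : ℕ) (G : Type u) [Group G] [Finite G] : Group.IsSolvable G →
    (∀ p : ℕ, p.Prime → ConjPSub p G) →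
    (∀ p : ℕ, p.Prime → p ≠ r → ∀ P : Sylow p G, IsCyclic P) →
    ∀ H K : Subgroup G, Nat.card H = Nat.card K →
      ∃ g : G, K = H.map (MulAut.conj g).toMonoidHom := by
  refine card_induction (P := fun (G : Type u) [Group G] [Finite G] => Group.IsSolvable G →
    (∀ p : ℕ, p.Prime → ConjPSub p G) →
    (∀ p : ℕ, p.Prime → p ≠ r → ∀ P : Sylow p G, IsCyclic P) →
    ∀ H K : Subgroup G, Nat.card H = Nat.card K →
      ∃ g : G, K = H.map (MulAut.conj g).toMonoidHom) ?_ G
  intro G _ _ ih hs hD hcyc H K hHK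
  rcases subsingleton_or_nontrivial G with h0 | h0
  · exact ⟨1, Subsingleton.elim _ _⟩
  obtain ⟨N, hN⟩ := exists_isMinNormal (G := G)
  have hNn : N.Normal := hN.1
  obtain ⟨q, hq, hNq⟩ := hN.exists_isElementaryAbelian inferInstance
  have : Fact q.Prime := ⟨hq⟩
  have hNp : IsPGroup q N := isPGroup_of_isElementaryAbelian hNq
  have hsurj := QuotientGroup.mk'_surjective N
  have hquot : Nat.card (H.map (QuotientGroup.mk' N)) = Nat.card (K.map (QuotientGroup.mk' N)) →
      ∃ g : G, K ⊔ N = H.map (MulAut.conj g).toMonoidHom ⊔ N := by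
    intro hc
    obtain ⟨g, hg⟩ := ih (G ⧸ N) (card_quotient_lt hN.2.1) inferInstance
      (fun p hp => have : Fact p.Prime := ⟨hp⟩; conjPSub_quotient (hD p hp) N)
      (fun p hp hpr P => by
        have : Fact p.Prime := ⟨hp⟩
        obtain ⟨P, rfl⟩ := Sylow.mapSurjective_surjective hsurj p P
        have := hcyc p hp hpr P
        exact isCyclic_of_surjective _ ((QuotientGroup.mk' N).subgroupMap_surjective P)) _ _ hc
    obtain ⟨g, rfl⟩ := hsurj g
    rw [← map_map_conj] at hg
    refine ⟨g, ?_⟩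
    have := congrArg (comap (QuotientGroup.mk' N)) hg
    rwa [comap_map_eq, comap_map_eq, QuotientGroup.ker_mk'] at this
  have hNpos : 0 < Nat.card N := Nat.card_pos
  by_cases hqH : q ∣ Nat.card H
  swap
  · have hcop : ∀ L : Subgroup G, Nat.card L = Nat.card H → (Nat.card L).Coprime (Nat.card N) := by
      intro L hL
      obtain ⟨k, hk⟩ := IsPGroup.iff_card.mp hNp
      rw [hL, hk]
      exact ((Nat.Prime.coprime_iff_not_dvd hq).mpr hqH).symm.pow_right k
    have h1 : ∀ L : Subgroup G, Nat.card L = Nat.card H →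
        Nat.card (L.map (QuotientGroup.mk' N)) = Nat.card H := by
      intro L hL
      rw [← hL, ← card_map_mk'_mul_card_inf L N, inf_eq_bot_of_coprime (hcop L hL).symm,
        card_bot, mul_one]
    obtain ⟨g, hg⟩ := hquot ((h1 H rfl).trans (h1 K hHK.symm).symm)
    obtain ⟨n, -, hn⟩ := Cop.exists_conj_le_of_le_sup (N := N) (K := K)
      (B := H.map (MulAut.conj g).toMonoidHom) le_normalizer_of_normal
      (by rw [sup_comm, hg]; exact le_sup_left) (hcop _ (card_map_conj g H))
      (Or.inr inferInstance)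
    rw [← map_conj_mul] at hn
    exact ⟨n * g, (eq_of_le_of_card_le hn (by rw [card_map_conj, hHK])).symm⟩
  have hqN : q ∣ Nat.card N :=
    hNp.card_eq_or_dvd.resolve_left fun h => hN.2.1 (card_eq_one.mp h)
  by_cases hNc : Nat.card N = q
  · have h1 : ∀ L : Subgroup G, Nat.card L = Nat.card H → N ≤ L := by
      intro L hL
      obtain ⟨⟨x, hx⟩, hxo⟩ := exists_prime_orderOf_dvd_card' (G := L) q (hL ▸ hqH)
      rw [orderOf_mk] at hxo
      have hxN : x ∈ N := (hD q hq).mem_of_normal hqN (hxo ▸ pow_orderOf_eq_one x)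
      intro y hy
      exact zpowers_le.mpr hx (PGrp.mem_zpowers_of_card_eq_prime hNc hxN
        (fun h => hq.one_lt.ne (by simpa [h] using hxo)) hy)
    have h2 : ∀ L : Subgroup G, Nat.card L = Nat.card H →
        Nat.card (L.map (QuotientGroup.mk' N)) * Nat.card N = Nat.card H := by
      intro L hL
      rw [← hL, ← card_map_mk'_mul_card_inf L N, inf_of_le_left (h1 L hL)]
    obtain ⟨g, hg⟩ := hquot (Nat.eq_of_mul_eq_mul_right hNpos
      ((h2 H rfl).trans (h2 K hHK.symm).symm))
    rw [sup_of_le_left (h1 K hHK.symm), sup_of_le_left (h1 _ (card_map_conj g H))] at hg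
    exact ⟨g, hg⟩
  -- now `N` is a Sylow `r`-subgroup
  obtain ⟨k, hk⟩ := IsPGroup.iff_card.mp hNp
  have hk2 : 2 ≤ k := by
    rcases k with _ | _ | k
    · rw [hk] at hqN
      simp [hq.one_lt.ne'] at hqN
    · simp [hk] at hNc
    · omega
  have hqr : q = r := by
    by_contra h
    obtain ⟨S, hS⟩ := hNp.exists_le_sylow
    have := hcyc q hq h S
    have h1 : IsCyclic N := isCyclic_of_le hS
    refine PGrp.not_isCyclic_of_isElementaryAbelian hNq ?_ h1
    rw [hk]
    exact lt_of_lt_of_le (by nlinarith [hq.one_lt]) (Nat.pow_le_pow_right hq.pos hk2)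
  subst hqr
  have hall : ∀ x : G, ∀ j, orderOf x = q ^ j → x ∈ N := by
    intro x j hj
    refine (hD q hq).mem_of_normal hqN ?_
    by_contra h
    have h2 : 2 ≤ j := by
      by_contra h3
      refine h (orderOf_dvd_iff_pow_eq_one.mp (hj ▸ ?_))
      exact (pow_dvd_pow q (by omega)).trans (pow_one q).dvd
    have h3 : orderOf (x ^ q ^ (j - 2)) = q ^ 2 := by
      rw [orderOf_pow_of_dvd (pow_ne_zero _ hq.ne_zero) (hj ▸ pow_dvd_pow q (by omega)), hj,
        Nat.pow_div (by omega) hq.pos]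
      congr 1
      omega
    obtain ⟨E, hE⟩ := Sylow.exists_subgroup_card_pow_prime (G := N) q (n := 2)
      (hk ▸ pow_dvd_pow q hk2)
    obtain ⟨g, hg⟩ := hD q hq (zpowers (x ^ q ^ (j - 2))) (E.map N.subtype)
      (isPGroup_zpowers_iff.mpr ⟨2, h3⟩) ((hNp.to_subgroup E).map _)
      (by rw [Nat.card_zpowers, h3, card_map_subtype, hE])
    have h4 := orderOf_dvd_of_pow_eq_one (hNq.2 _ (map_subtype_le E
      (hg ▸ conj_mem_map_conj (mem_zpowers _))))
    rw [orderOf_conj', h3] at h4
    exact absurd (Nat.le_of_dvd hq.pos h4) (by nlinarith [hq.one_lt])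
  have hsyl : ∀ L : Subgroup G, IsSylowIn q (N ⊓ L) L := fun L =>
    IsSylowIn.of_maximal inf_le_right (hNp.to_le inf_le_left) fun T hT _ h2 x hx =>
      ⟨(orderOf_eq_pow_of_mem_isPGroup hT hx).elim (hall x), h2 hx⟩
  obtain ⟨g, hg⟩ := hD q hq (N ⊓ H) (N ⊓ K) (hsyl H).isPGroup (hsyl K).isPGroup
    (by rw [(hsyl H).card_eq_ordProj, (hsyl K).card_eq_ordProj, hHK])
  set H' := H.map (MulAut.conj g).toMonoidHom with hH'
  rw [map_conj_inf, map_conj_eq_of_normal, ← hH'] at hg
  have hH'K : Nat.card H' = Nat.card K := (card_map_conj g H).trans hHK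
  set U := N ⊓ K with hU
  set M := normalizer (U : Set G) with hM
  obtain ⟨L, hL⟩ := Hall.exists_isPiHallOf (M := M) inferInstance {q}ᶜ
  have hLq : (Nat.card L).Coprime q := coprime_iff_isPiSubgroup.mpr hL.2.1
  have key : ∀ X : Subgroup G, N ⊓ X = U → ∃ B : Subgroup G, ∃ m ∈ M, U ⊔ B = X ∧
      Nat.card B * Nat.card U = Nat.card X ∧ B.map (MulAut.conj m).toMonoidHom ≤ L := by
    intro X hX
    have h1 : (Nat.card N).Coprime (N.relIndex X) := by
      rw [hk, ← inf_relIndex_right]
      exact ((Nat.Prime.coprime_iff_not_dvd hq).mpr (hsyl X).not_dvd).pow_left k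
    obtain ⟨B, hB, -, hB2, hB3⟩ := Cop.exists_complement_of_le_normalizer (N := N) (H := X)
      le_normalizer_of_normal (Nat.Coprime.coprime_dvd_left (card_dvd_of_le inf_le_left) h1)
    have h2 : X ≤ M := by
      rw [hM, ← hX]
      exact fun x hx => mem_normalizer_of_conj_mem fun y hy =>
        mem_inf.mpr ⟨hNn.conj_mem _ hy.1 x, mul_mem (mul_mem hx (mem_inf.mp hy).2) (inv_mem hx)⟩
    obtain ⟨m, hm, hmB⟩ := Hall.exists_conj_le_hallOf (M := M) inferInstance (U := B)
      (coprime_iff_isPiSubgroup.mp (by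
        rw [hB3]; exact (Nat.Coprime.coprime_dvd_left hqN h1).symm)) (hB.trans h2) hL
    refine ⟨B, m, hm, hX ▸ hB2, ?_, hmB⟩
    rw [hB3, ← hX, mul_comm, card_inf_mul_relIndex]
  obtain ⟨A, a, ha, hA1, hA2, hA3⟩ := key H' hg.symm
  obtain ⟨B, b, hb, hB1, hB2, hB3⟩ := key K rfl
  have hLt : L ≠ ⊤ := by
    rintro rfl
    rw [card_top] at hLq
    exact (Nat.Prime.coprime_iff_not_dvd hq).mp hLq.symm (hqN.trans (card_subgroup_dvd_card N))
  have hLcyc : ∀ p : ℕ, p.Prime → ∀ P : Sylow p L, IsCyclic P := by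
    intro p hp P
    have : Fact p.Prime := ⟨hp⟩
    by_cases hpq : p = q
    · subst hpq
      have h1 : (P : Subgroup L) = ⊥ := eq_bot_of_isPGroup_of_coprime P.isPGroup'
        (Nat.Coprime.coprime_dvd_left (card_subgroup_dvd_card _) hLq)
      rw [h1]
      infer_instance
    · obtain ⟨S, hS⟩ := (P.isPGroup'.map L.subtype).exists_le_sylow
      have := hcyc p hp hpq S
      have h1 : IsCyclic ((P : Subgroup L).map L.subtype) := isCyclic_of_le hS
      exact isCyclic_of_surjective _
        ((P : Subgroup L).equivMapOfInjective _ (subtype_injective L)).symm.surjective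
  obtain ⟨l, hl⟩ := ih L (card_lt_of_ne_top hLt) inferInstance
    (fun p hp X Y hX hY hXY => by
      have : Fact p.Prime := ⟨hp⟩
      obtain ⟨S, hS⟩ := hY.exists_le_sylow
      have := hLcyc p hp S
      obtain ⟨c, -, hc⟩ := (IsSylowIn.sylow_top S).exists_conj_le hX le_top
      refine ⟨c, (eq_of_le_of_card_le (PGrp.le_of_card_dvd_of_le_cyclic hc hS ?_) ?_).symm⟩
      · rw [card_map_conj, hXY]
      · rw [card_map_conj, hXY])
    (fun p hp _ => hLcyc p hp) ((A.map (MulAut.conj a).toMonoidHom).subgroupOf L)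
    ((B.map (MulAut.conj b).toMonoidHom).subgroupOf L) (by
      rw [card_subgroupOf_of_le hA3, card_subgroupOf_of_le hB3, card_map_conj, card_map_conj]
      exact Nat.eq_of_mul_eq_mul_right Nat.card_pos (hA2.trans (hH'K.trans hB2.symm)))
  rw [Hall.map_conj_subgroupOf] at hl
  have h1 : B.map (MulAut.conj b).toMonoidHom =
      (A.map (MulAut.conj a).toMonoidHom).map (MulAut.conj (l : G)).toMonoidHom := by
    have := congrArg (map L.subtype) hl
    rwa [map_subgroupOf_eq_of_le hB3, map_subgroupOf_eq_of_le (Cop.map_conj_le_of_mem hA3 l.2)]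
      at this
  have h2 : B = A.map (MulAut.conj (b⁻¹ * l * a)).toMonoidHom := by
    rw [map_conj_mul, map_conj_mul, ← h1, map_conj_inv_map_conj]
  have h3 : b⁻¹ * l * a ∈ M := mul_mem (mul_mem (inv_mem hb) (hL.1 l.2)) ha
  refine ⟨b⁻¹ * l * a * g, ?_⟩
  rw [map_conj_mul, ← hH', ← hA1, Subgroup.map_sup, ← h2, map_conj_eq_of_mem_normalizer h3, hB1]


/-- Let G be a finite solvable group in which, for every prime p, any two p-subgroups of the same order are conjugate, and suppose the Sylow p-subgroups of G are cyclic for all primes p with at most one exception. Then any two subgroups of G of the same order are conjugate. -/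
theorem result {G : Type*} [Group G] [Finite G]
    [Group.IsSolvable G] (hD : ∀ p : ℕ, p.Prime → ∀ H K : Subgroup G, IsPGroup p H → IsPGroup p K → Nat.card H = Nat.card K →
      ∃ g : G, K = H.map (MulAut.conj g).toMonoidHom)
    (r : ℕ) (hcyc : ∀ p : ℕ, p.Prime → p ≠ r → ∀ P : Sylow p G, IsCyclic P) :
    ∀ H K : Subgroup G, Nat.card H = Nat.card K → ∃ g : G, K = H.map (MulAut.conj g).toMonoidHom := by
  exact aux r G inferInstance hD hcyc

end Cfsg.Agent.S4022
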