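import Cfsg.Statements.S4024
import Mathlib
import Cfsg.Agent.Lib.H5Cube
import Cfsg.Agent.Lib.CorePiSep
import Cfsg.Agent.Lib.H5SylowIn

set_option autoImplicit false
open Cfsg

namespace Cfsg.Agent.S4024
open Subgroup CfsgLib CfsgLib.H5

/-- Let p be an odd prime and G a finite group in which any two p-subgroups of the same order are conjugate, with Sylow p-subgroup P. If H is a normal p-solvable subgroup of G whose order is divisible by p, then P is abelian, and either P ≤ H or P is cyclic. -/
theorem result {G : Type*} [Group G] [Finite G]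
    {p : ℕ} [Fact p.Prime] (hp : p ≠ 2) (hC : ∀ H K : Subgroup G, IsPGroup p H → IsPGroup p K → Nat.card H = Nat.card K →
      ∃ g : G, K = H.map (MulAut.conj g).toMonoidHom) (P : Sylow p G)
    (H : Subgroup G) [H.Normal] (hsolv : Cfsg.IsPSolvable p H) (hdiv : p ∣ Nat.card H) :
    IsMulCommutative P ∧ ((P : Subgroup G) ≤ H ∨ IsCyclic P) := by
  have hpp : p.Prime := Fact.out
  have hC' : ConjPSub p G := hC
  rcases hC'.sylow_cases P with h | h | h | ⟨h1, h2, h3, h4⟩
  · exact ⟨inferInstance, Or.inr h⟩
  · exact ⟨h.1, Or.inl fun x hx => hC'.mem_of_normal hdiv (h.2 x hx)⟩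
  · exact absurd h.1 hp
  exfalso
  obtain ⟨z, hz⟩ := exists_cube h3 h2
  set K := (pPrimeCore p H).map H.subtype with hK
  have hKn : K.Normal := normal_of_le_normalizer_top
    (le_trans le_normalizer_of_normal (normalizer_le_normalizer_map_pPrimeCore p H))
  have hKp : (Nat.card K).Coprime p := map_pPrimeCore_coprime p H
  have hKH : K ≤ H := map_subtype_le _
  set f := QuotientGroup.mk' K with hf
  have hsurj := QuotientGroup.mk'_surjective K
  set H' := H.map f with hH'
  have hH'n : H'.Normal := Normal.map inferInstance f hsurj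
  have hs' : IsPSolvable p H' :=
    isPSolvable_of_surjective hsolv (f.subgroupMap H) (f.subgroupMap_surjective H)
  have hd' : p ∣ Nat.card H' := by
    have := card_map_mk'_mul_card_inf H K
    rw [inf_of_le_left hKH] at this
    exact hKp.symm.dvd_of_dvd_mul_right (this ▸ hdiv)
  have : Nontrivial H' := by
    rw [← Finite.one_lt_card_iff_nontrivial]
    exact lt_of_lt_of_le hpp.one_lt (Nat.le_of_dvd Nat.card_pos hd')
  have h5 : pCore p H' ≠ ⊥ := by
    refine (isPSolvable_core_ne_bot hs').resolve_right fun h0 => h0 ?_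
    set L := (pPrimeCore p H').map H'.subtype with hL
    have hLn : L.Normal := normal_of_le_normalizer_top
      (le_trans le_normalizer_of_normal (normalizer_le_normalizer_map_pPrimeCore p H'))
    have h6 : L.comap f ≤ K := by
      refine le_map_pPrimeCore ?_ le_normalizer_of_normal ?_
      · refine (comap_mono (map_subtype_le _)).trans ?_
        rw [hH', comap_map_eq, hf, QuotientGroup.ker_mk']
        exact sup_le le_rfl hKH
      · rw [hf, card_comap_mk']
        exact Nat.Coprime.mul_left (map_pPrimeCore_coprime p H') hKp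
    rw [← map_eq_bot_iff_of_injective _ (subtype_injective H'), ← hL, eq_bot_iff]
    intro y hy
    obtain ⟨x, rfl⟩ := hsurj y
    exact (QuotientGroup.eq_one_iff x).mpr (h6 hy)
  set O := (pCore p H').map H'.subtype with hO
  have hOn : O.Normal := normal_of_le_normalizer_top
    (le_trans le_normalizer_of_normal (normalizer_le_normalizer_map_pCore p H'))
  have hOp : IsPGroup p O := map_pCore_isPGroup p H'
  have hO0 : p ∣ Nat.card O := by
    refine (hOp.card_eq_or_dvd).resolve_left fun h0 => h5 ?_
    rwa [card_map_subtype, card_eq_one] at h0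
  have h6 : (P : Subgroup G) ≤ O.comap f := fun x hx => hC'.mem_of_normal
    (by rw [hf, card_comap_mk']; exact hO0.mul_right _) (h4 x hx)
  have h7 : (P : Subgroup G).map f = O := le_antisymm (map_le_iff_le_comap.mpr h6)
    ((le_pCore hOp).trans (pCore_le_sylow (P.mapSurjective hsurj)))
  have hKer : (Nat.card f.ker).Coprime p := by rwa [hf, QuotientGroup.ker_mk']
  have h8 := normalizer_map_le_of_coprime f hsurj hKer P.isPGroup'
  rw [h7, normalizer_eq_top] at h8
  obtain ⟨b, hb, hbz⟩ : ∃ b ∈ (P : Subgroup G), b ∉ zpowers z := by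
    by_contra h0
    push Not at h0
    exact h2 (PGrp.isMulCommutative_of_le h0 inferInstance)
  obtain ⟨g, hg⟩ := hC'.exists_conj_mem_zpowers
    (orderOf_eq_prime (h4 b hb) (fun h0 => hbz (h0 ▸ one_mem _))) hz.ord
  obtain ⟨n, hn, hng⟩ := h8 (mem_top (f g))
  have h9 : n * b * n⁻¹ = g * b * g⁻¹ := by
    rw [← mul_inv_eq_one]
    refine disjoint_def.mp (disjoint_of_isPGroup_of_coprime P.isPGroup' hKer)
      (mul_mem (conj_mem_of_mem_normalizer hn hb) (inv_mem (hz.zpowers_le' hg))) ?_
    simp [MonoidHom.mem_ker, hng]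
  exact hbz ((hz.conj_mem_zpowers_iff hn hb).mp (h9 ▸ hg))

end Cfsg.Agent.S4024
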