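import Cfsg.Statements.S4027
import Cfsg.Agent.Lib.H5Real

set_option autoImplicit false
open Cfsg

namespace Cfsg.Agent.S4027
open Subgroup CfsgLib CfsgLib.H5

/-- Let G be a finite group in which every element x of odd order satisfies N_G(⟨x⟩) = C_G(x). Then the Sylow 2-subgroups of G are normal. -/
theorem result {G : Type*} [Group G] [Finite G]
    (hirr : ∀ x : G, (∀ r : ℕ, r.Prime → r ∣ orderOf x → r ≠ 2) →
      Subgroup.normalizer ((Subgroup.zpowers x : Subgroup G) : Set G) ≤ Subgroup.centralizer {x}) (P : Sylow 2 G) :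
    (P : Subgroup G).Normal := by
  refine sylow_two_normal_of_not_real (fun y hy hy2 hc => hy2 ?_) P
  obtain ⟨g, hg⟩ := isConj_iff.mp hc
  have h1 := hirr y (fun r hr hd h => hy2 (h ▸ ((Nat.prime_dvd_prime_iff_eq hr hy).mp hd).symm))
    (mem_normalizer_zpowers_of_conj_mem (hg ▸ inv_mem (mem_zpowers y)))
  exact (Nat.prime_dvd_prime_iff_eq hy Nat.prime_two).mp
    (orderOf_dvd_of_pow_eq_one (sq_eq_one_of_inverts_of_centralizes hg h1))

end Cfsg.Agent.S4027
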