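import Cfsg.Statements.S4028
import Cfsg.Agent.Lib.H5Real
import Cfsg.Agent.Lib.PComplementMore
import Cfsg.Agent.Lib.SylowIn

set_option autoImplicit false
open Cfsg

namespace Cfsg.Agent.S4028
open Subgroup CfsgLib CfsgLib.H5

/-- Let G be a finite group with Sylow 2-subgroup P. Then N_G(⟨x⟩) = C_G(x) holds for every 2-element x of G if and only if N_P(⟨y⟩) = C_P(y) holds for every y ∈ P (computed inside P). -/
theorem result {G : Type*} [Group G] [Finite G] (P : Sylow 2 G) :
    (∀ x : G, (∀ r : ℕ, r.Prime → r ∣ orderOf x → r = 2) →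
      Subgroup.normalizer ((Subgroup.zpowers x : Subgroup G) : Set G) ≤ Subgroup.centralizer {x}) ↔
    (∀ y : ↥(P : Subgroup G), Subgroup.normalizer ((Subgroup.zpowers y : Subgroup ↥(P : Subgroup G)) : Set ↥(P : Subgroup G)) ≤
        Subgroup.centralizer {y}) := by
  constructor
  · intro h y g hg
    rw [mem_centralizer_singleton_iff]
    obtain ⟨k, hk⟩ := orderOf_eq_pow_of_mem_isPGroup P.isPGroup' y.2
    have h1 := h y (fun r hr hd => (Nat.prime_dvd_prime_iff_eq hr Nat.prime_two).mp
      (hr.dvd_of_dvd_pow (hk ▸ hd))) (mem_normalizer_zpowers_of_conj_mem (g := (g : G)) (by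
        obtain ⟨m, hm⟩ := conj_mem_of_mem_normalizer hg (mem_zpowers y)
        exact ⟨m, by simpa using congrArg Subtype.val hm⟩))
    exact Subtype.ext (mem_centralizer_singleton_iff.mp h1)
  · intro h x hx
    obtain ⟨n, hn⟩ := (isPiNum_singleton_iff Nat.prime_two (orderOf_pos x).ne').mp hx
    refine le_of_forall_primePow_mem fun g hg q k hq hk => ?_
    by_cases h2 : q = 2
    · subst h2
      have h3 : IsPGroup 2 (zpowers g ⊔ zpowers x : Subgroup G) :=
        (isPGroup_zpowers_iff.mpr ⟨k, hk⟩).to_sup_of_normal_right'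
          (isPGroup_zpowers_iff.mpr ⟨n, hn⟩) (zpowers_le.mpr hg)
      obtain ⟨c, -, hc⟩ := (IsSylowIn.sylow_top P).exists_conj_le h3 le_top
      have hgP : c * g * c⁻¹ ∈ (P : Subgroup G) :=
        hc (conj_mem_map_conj (mem_sup_left (mem_zpowers g)))
      have hxP : c * x * c⁻¹ ∈ (P : Subgroup G) :=
        hc (conj_mem_map_conj (mem_sup_right (mem_zpowers x)))
      have h4 := h ⟨_, hxP⟩ (mem_normalizer_zpowers_of_conj_mem (g := ⟨_, hgP⟩) (by
        obtain ⟨m, hm⟩ := conj_mem_of_mem_normalizer hg (mem_zpowers x)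
        refine ⟨m, Subtype.ext ?_⟩
        simp only [SubgroupClass.coe_zpow, coe_mul, coe_inv] at hm ⊢
        rw [conj_zpow, hm]
        group))
      have h5 := congrArg Subtype.val (mem_centralizer_singleton_iff.mp h4)
      simp only [coe_mul] at h5
      rw [mem_centralizer_singleton_iff]
      calc g * x = c⁻¹ * (c * g * c⁻¹ * (c * x * c⁻¹)) * c := by group
        _ = x * g := by rw [h5]; group
    · by_contra h0
      rw [← centralizer_zpowers_eq] at h0
      have h3 := PCompl.dvd_card_mulAut_of_not_mem_centralizer hg hq hk h0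
      rw [IsCyclic.card_mulAut, Nat.card_zpowers, hn] at h3
      rcases n with _ | n
      · simp at h3
        exact hq.one_lt.ne' h3
      · rw [Nat.totient_prime_pow_succ Nat.prime_two] at h3
        simp at h3
        exact h2 ((Nat.prime_dvd_prime_iff_eq hq Nat.prime_two).mp (hq.dvd_of_dvd_pow h3))

end Cfsg.Agent.S4028
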