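import Cfsg.Statements.S4029
import Mathlib
import Cfsg.Agent.Lib.H5Involutions
import Cfsg.Agent.Lib.BurnsideBasis
import Cfsg.Agent.Lib.ClassCount

set_option autoImplicit false
open Cfsg

namespace Cfsg.Agent.S4029
open Subgroup CfsgLib CfsgLib.H5

/-- Let P be a finite 2-group in which N_P(⟨y⟩) = C_P(y) for every y ∈ P. If s is the number of conjugacy classes of involutions of P, then #(P/Φ(P)) ≤ s + 1; in particular the subgroup generated by the involutions of P has order at least #(P/Φ(P)). -/
theorem result {P : Type*} [Group P] [Finite P] (hP : IsPGroup 2 P)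
    (hirr : ∀ y : P, Subgroup.normalizer ((Subgroup.zpowers y : Subgroup P) : Set P) ≤ Subgroup.centralizer {y}) :
    Nat.card (P ⧸ frattini P) ≤ Nat.card {c : ConjClasses P // ∃ y : P, ConjClasses.mk y = c ∧ orderOf y = 2} + 1 ∧
    Nat.card (P ⧸ frattini P) ≤ Nat.card (Subgroup.closure {y : P | orderOf y = 2}) := by
  classical
  have := Fintype.ofFinite P
  have hreal : ∀ x g : P, g * x * g⁻¹ = x⁻¹ → x ^ 2 = 1 := fun x g h =>
    sq_eq_one_of_inverts_of_centralizes h
      (hirr x (mem_normalizer_zpowers_of_conj_mem (h ▸ inv_mem (mem_zpowers x))))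
  set s := Nat.card {c : ConjClasses P // ∃ y : P, ConjClasses.mk y = c ∧ orderOf y = 2} with hs
  have hpos : 0 < Nat.card P := Nat.card_pos
  -- pairs with equal squares
  have h1 : (Finset.univ.filter fun q : P × P => q.1 ^ 2 = q.2 ^ 2).card =
      ∑ x ∈ Finset.univ.filter (fun x : P => x ^ 2 = 1), Nat.card (centralizer ({x} : Set P)) := by
    simp_rw [ClassCount.card_centralizer_eq_card_filter]
    rw [← Finset.card_sigma]
    symm
    refine Finset.card_bij (fun q _ => (q.1 * q.2, q.2)) ?_ ?_ ?_
    · rintro ⟨x, g⟩ hq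
      simp only [Finset.mem_sigma, Finset.mem_filter, Finset.mem_univ, true_and] at hq ⊢
      rw [hq.2.mul_pow, hq.1, one_mul]
    · rintro ⟨x, g⟩ _ ⟨x', g'⟩ _ h
      simp only [Prod.mk.injEq] at h
      obtain ⟨h1, rfl⟩ := h
      rw [mul_right_cancel h1]
    · rintro ⟨a, b⟩ hq
      simp only [Finset.mem_filter, Finset.mem_univ, true_and] at hq
      have h2 : b * (a * b⁻¹) * b⁻¹ = (a * b⁻¹)⁻¹ := by
        calc b * (a * b⁻¹) * b⁻¹ = b * a * (b ^ 2)⁻¹ := by rw [pow_two]; group
          _ = _ := by rw [← hq, pow_two]; group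
      have h3 := hreal _ _ h2
      refine ⟨⟨a * b⁻¹, b⟩, ?_, by simp⟩
      simp only [Finset.mem_sigma, Finset.mem_filter, Finset.mem_univ, true_and]
      rw [inv_eq_self_of_sq h3, mul_inv_eq_iff_eq_mul] at h2
      exact ⟨h3, h2.symm⟩
  have h2 : ∑ x ∈ Finset.univ.filter (fun x : P => x ^ 2 = 1),
      Nat.card (centralizer ({x} : Set P)) = (s + 1) * Nat.card P := by
    have h3 : Finset.univ.filter (fun x : P => x ^ 2 = 1) =
        insert 1 (Finset.univ.filter fun x : P => orderOf x = 2) := by
      ext x
      simp only [Finset.mem_filter, Finset.mem_univ, true_and, Finset.mem_insert]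
      constructor
      · intro h
        by_cases h1 : x = 1
        · exact Or.inl h1
        · exact Or.inr (orderOf_eq_prime h h1)
      · rintro (rfl | h)
        · simp
        · exact h ▸ pow_orderOf_eq_one x
    rw [h3, Finset.sum_insert (by simp), add_mul, one_mul, add_comm]
    congr 1
    · have := Fintype.ofFinite (ConjClasses P)
      rw [← Finset.sum_fiberwise_of_maps_to (g := ConjClasses.mk) (t := Finset.univ.filter
        fun c : ConjClasses P => ∃ y : P, ConjClasses.mk y = c ∧ orderOf y = 2)
        (fun x hx => Finset.mem_filter.mpr ⟨Finset.mem_univ _, x, rfl, (Finset.mem_filter.mp hx).2⟩),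
        Finset.sum_congr rfl (g := fun _ => Nat.card P), Finset.sum_const, smul_eq_mul, hs,
        @Nat.card_eq_fintype_card {c : ConjClasses P // _}, Fintype.card_subtype]
      rintro c hc
      obtain ⟨-, y, rfl, hy⟩ := Finset.mem_filter.mp hc
      rw [Finset.sum_congr rfl (g := fun _ => Nat.card (centralizer ({y} : Set P))),
        Finset.sum_const, smul_eq_mul, ← index_mul_card (centralizer ({y} : Set P)),
        ClassCount.index_centralizer_eq_ncard, ← Set.ncard_coe_finset]
      · congr 2
        ext x
        simp only [Finset.coe_filter, Finset.mem_filter, Finset.mem_univ, true_and,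
          Set.mem_setOf_eq, ConjClasses.mk_eq_mk_iff_isConj]
        refine ⟨fun h => h.2.symm, fun h => ⟨?_, h.symm⟩⟩
        obtain ⟨g, rfl⟩ := isConj_iff.mp h
        rw [orderOf_conj', hy]
      · intro x hx
        obtain ⟨g, rfl⟩ := isConj_iff.mp
          (ConjClasses.mk_eq_mk_iff_isConj.mp (Finset.mem_filter.mp hx).2).symm
        have h4 := index_mul_card (centralizer ({g * y * g⁻¹} : Set P))
        rw [ClassCount.index_centralizer_conj, ← index_mul_card (centralizer ({y} : Set P))] at h4
        exact Nat.eq_of_mul_eq_mul_left (Nat.pos_of_ne_zero FiniteIndex.index_ne_zero) h4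
    · rw [show centralizer ({1} : Set P) = ⊤ from eq_top_iff.mpr fun x _ =>
        mem_centralizer_singleton_iff.mpr (by simp), card_top]
  have h3 : Nat.card P ^ 2 ≤ Nat.card (frattini P) *
      (Finset.univ.filter fun q : P × P => q.1 ^ 2 = q.2 ^ 2).card := by
    set T := Finset.univ.filter fun c : P => c ∈ frattini P with hT
    have hmaps : ∀ x : P, x ^ 2 ∈ T := fun x =>
      Finset.mem_filter.mpr ⟨Finset.mem_univ _, BurnsideBasis.pow_mem_frattini hP x⟩
    have h4 : Nat.card P = ∑ c ∈ T, (Finset.univ.filter fun x : P => x ^ 2 = c).card := by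
      rw [Nat.card_eq_fintype_card, ← Finset.card_univ]
      exact Finset.card_eq_sum_card_fiberwise fun x _ => hmaps x
    have h5 : (Finset.univ.filter fun q : P × P => q.1 ^ 2 = q.2 ^ 2).card =
        ∑ c ∈ T, (Finset.univ.filter fun x : P => x ^ 2 = c).card ^ 2 := by
      rw [Finset.card_eq_sum_card_fiberwise (f := fun q : P × P => q.1 ^ 2) (t := T)
        fun q _ => hmaps q.1]
      refine Finset.sum_congr rfl fun c _ => ?_
      rw [pow_two, ← Finset.card_product]
      congr 1
      ext ⟨a, b⟩
      simp only [Finset.mem_filter, Finset.mem_univ, true_and, Finset.mem_product]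
      constructor
      · rintro ⟨h1, h2⟩
        exact ⟨h2, h1 ▸ h2⟩
      · rintro ⟨h1, h2⟩
        exact ⟨h1.trans h2.symm, h1⟩
    have h6 : Nat.card (frattini P) = T.card := by
      rw [Nat.card_eq_fintype_card, Fintype.card_subtype]
    rw [h4, h5, h6]
    exact sq_sum_le_card_mul_sum_sq
  have h4 : Nat.card (P ⧸ frattini P) ≤ s + 1 := by
    rw [h1, h2, pow_two, ← mul_assoc] at h3
    have h5 := Nat.le_of_mul_le_mul_right h3 hpos
    rw [card_eq_card_quotient_mul_card_subgroup (frattini P), mul_comm] at h5
    exact Nat.le_of_mul_le_mul_left h5 Nat.card_pos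
  refine ⟨h4, h4.trans ?_⟩
  have h5 : s + 1 = Nat.card (Option
      {c : ConjClasses P // ∃ y : P, ConjClasses.mk y = c ∧ orderOf y = 2}) := by
    rw [Finite.card_option]
  rw [h5]
  refine Nat.card_le_card_of_injective (fun o => o.elim 1 fun c =>
    ⟨c.2.choose, subset_closure c.2.choose_spec.2⟩) ?_
  rintro (_ | c) (_ | d) h
  · rfl
  · have := d.2.choose_spec.2
    rw [← show (1 : P) = d.2.choose from congrArg Subtype.val h] at this
    simp at this
  · have := c.2.choose_spec.2
    rw [show c.2.choose = (1 : P) from congrArg Subtype.val h] at this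
    simp at this
  · have h6 : c.2.choose = d.2.choose := congrArg Subtype.val h
    rw [Subtype.ext (c.2.choose_spec.1.symm.trans (h6 ▸ d.2.choose_spec.1))]

end Cfsg.Agent.S4029
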