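import Cfsg.Statements.S4033
import Mathlib
import Cfsg.Agent.Lib.H5TwoClsB

set_option autoImplicit false
open Cfsg

namespace Cfsg.Agent.S4033
open Subgroup CfsgLib CfsgLib.H5 CfsgLib.H5.TwoCls

/-- Let G be a finite group and p a prime, and suppose the conjugacy classes of p-regular elements of G (elements of order prime to p) have exactly two distinct sizes. Then either G has an abelian p-complement (an abelian subgroup of order prime to p and p-power index), or there are a prime q ≠ p, a Sylow p-subgroup P, a Sylow q-subgroup Q and a central subgroup A such that PQ is a normal subgroup of order #P·#Q and G is the internal direct product PQ × A. -/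
theorem result {G : Type*} [Group G] [Finite G] {p : ℕ} (hp : p.Prime)
    (h2 : Set.ncard (Set.range fun x : {x : G // (orderOf x).Coprime p} => (ConjClasses.mk (x : G)).carrier.ncard) = 2) :
    (∃ H : Subgroup G, IsMulCommutative H ∧ ¬ p ∣ Nat.card H ∧ ∃ k : ℕ, H.index = p ^ k) ∨
    (∃ (q : ℕ) (_ : Fact q.Prime) (P : Sylow p G) (Q : Sylow q G) (A : Subgroup G), q ≠ p ∧
        A ≤ Subgroup.center G ∧ Nat.card ↥((P : Subgroup G) ⊔ (Q : Subgroup G)) = Nat.card P * Nat.card Q ∧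
        ((P : Subgroup G) ⊔ (Q : Subgroup G)).Normal ∧
        ((P : Subgroup G) ⊔ (Q : Subgroup G)) ⊓ A = ⊥ ∧ ((P : Subgroup G) ⊔ (Q : Subgroup G)) ⊔ A = ⊤) := by
  have := Fact.mk hp
  obtain ⟨m, hm⟩ : ∃ m, ∀ x : G, (orderOf x).Coprime p → x ∉ center G →
      (centralizer ({x} : Set G)).index = m := by
    obtain ⟨a, b, -, hab⟩ := Set.ncard_eq_two.1 h2
    have h1 : ∀ x : G, (orderOf x).Coprime p → (centralizer ({x} : Set G)).index = a ∨
        (centralizer ({x} : Set G)).index = b := fun x hx => by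
      rw [Frob.index_centralizer_eq_card_carrier]
      exact hab.le ⟨⟨x, hx⟩, rfl⟩
    have h3 := h1 1 (by simp)
    rw [Frob.index_centralizer_eq_one_iff.2 (one_mem _)] at h3
    rcases h3 with rfl | rfl
    exacts [⟨b, fun x hx hxZ => (h1 x hx).resolve_left
      (mt Frob.index_centralizer_eq_one_iff.1 hxZ)⟩, ⟨a, fun x hx hxZ => (h1 x hx).resolve_right
      (mt Frob.index_centralizer_eq_one_iff.1 hxZ)⟩]
  have H := oneSize_reg hm
  have hreg : ∀ {r : ℕ}, r.Prime → r ≠ p → ∀ {x : G} {k : ℕ}, orderOf x = r ^ k →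
      x ∈ {x : G | (orderOf x).Coprime p} := fun hr hrp x k hk => by
    show (orderOf x).Coprime p
    rw [hk]; exact ((Nat.coprime_primes hr hp).2 hrp).pow_left k
  by_cases h1 : ∃ q : ℕ, q.Prime ∧ q ≠ p ∧ ∀ (x : G) (r k : ℕ), r.Prime → r ≠ p → r ≠ q →
      orderOf x = r ^ k → x ∈ center G
  · obtain ⟨q, hq, hqp, h⟩ := h1
    have := Fact.mk hq
    obtain ⟨P, Q, A, h3⟩ := exists_decomp hqp h
    exact Or.inr ⟨q, this, P, Q, A, hqp, h3⟩
  push Not at h1
  obtain ⟨q, hq1, hq⟩ := Nat.exists_infinite_primes (p + 1)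
  obtain ⟨x, s, i, hs, hsp, -, hi, hxZ⟩ := h1 q hq (by omega)
  obtain ⟨y, r, j, hr, hrp, hrs, hj, hyZ⟩ := h1 s hs hsp
  have hx := hreg hs hsp hi
  obtain ⟨z, hz, ⟨k, hk⟩, hzZ⟩ := H.exists_primePow hx hxZ (hreg hr hrp hj) hyZ hr hj
  have h3 := fun y hy hyx => H.le_of_two hs hr hrs.symm hx hxZ hi (hreg hr hrp hk) hzZ hk hz
    (y := y) hy hyx
  have hm0 : m ≠ 0 := H.idx x hx hxZ ▸ index_ne_zero_of_finite
  have h4 : ∀ t : ℕ, t.Prime → t ∣ m → t = p := by
    have h5 : ∀ t : ℕ, t.Prime → t ∣ m → ∃ w : G, ∃ l, orderOf w = t ^ l ∧ w ∉ center G :=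
      fun t ht hd => by
        obtain ⟨w, -, ⟨l, hl⟩, hw⟩ := exists_primePow_notMem_of_dvd_relIndex (C := center G)
          (N := ⊤) ht (by
            rw [relIndex_top_right]
            exact hd.trans (H.idx x hx hxZ ▸ index_dvd_of_le (center_le_centralizer _)))
        exact ⟨w, l, hl, hw⟩
    intro t ht hd
    by_contra htp
    obtain ⟨w, l, hl, hwZ⟩ := h5 t ht hd
    obtain ⟨v, u, n, hu, hup, hut, hn, hvZ⟩ := h1 t ht htp
    refine false_of_one_prime hp hu ht hup htp hut H hvZ hn hd fun c hc hcm => ?_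
    by_contra! hne
    obtain ⟨w', l', hl', hwZ'⟩ := h5 c hc hcm
    obtain ⟨w'', hw1, ⟨l'', hl''⟩, hw2⟩ := H.exists_primePow (hreg ht htp hl) hwZ
      (hreg hc hne.1 hl') hwZ' hc hl'
    exact (H.not_dvd ht hc hne.2.symm (hreg ht htp hl) hwZ hl (hreg hc hne.1 hl'') hw2 hl''
      hw1).elim (· hd) (· hcm)
  obtain ⟨A, hA⟩ := H.exists_subgroup h3
  refine Or.inl ⟨A, PGrp.isMulCommutative_iff_forall.mpr fun a ha b hb =>
    mem_centralizer_singleton_iff.1 (h3 b ((hA b).1 hb).2 ((hA b).1 hb).1 ((hA a).1 ha).1),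
    fun hd => ?_, exists_pow_of_forall_prime hp index_ne_zero_of_finite fun t ht hd => ?_⟩
  · obtain ⟨a, ha⟩ := exists_prime_orderOf_dvd_card' p hd
    have h5 : (orderOf (a : G)).Coprime p := ((hA a).1 a.2).2
    rw [Subgroup.orderOf_coe, ha, Nat.coprime_self] at h5
    exact hp.one_lt.ne' h5
  · rw [← relIndex_mul_index (fun a ha => ((hA a).1 ha).1 : A ≤ centralizer {x}),
      H.idx x hx hxZ] at hd
    refine (ht.dvd_mul.1 hd).elim (fun h => ?_) (h4 t ht)
    by_contra htp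
    obtain ⟨w, hw, ⟨l, hl⟩, hwA⟩ := exists_primePow_notMem_of_dvd_relIndex ht h
    exact hwA ((hA w).2 ⟨hw, hreg ht htp hl⟩)

end Cfsg.Agent.S4033
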