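import Cfsg.Statements.S4036
import Cfsg.Agent.Lib.CoreBasic

set_option autoImplicit false
open Cfsg

namespace Cfsg.Agent.S4036
open Subgroup CfsgLib

/-- Let P be a finite abelian p-group and K a group of automorphisms of P (a subgroup of Aut P) whose order is divisible by p. If all non-identity elements of K have the same fixed-point subgroup on P, then K has no non-trivial normal subgroup of order prime to p. -/
theorem result {P : Type*} [CommGroup P] [Finite P] {p : ℕ}
    [Fact p.Prime] (hP : IsPGroup p P) (K : Subgroup (MulAut P)) (hK : p ∣ Nat.card K)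
    (hfix : ∀ x y : MulAut P, x ∈ K → y ∈ K → x ≠ 1 → y ≠ 1 → ∀ v : P, x v = v ↔ y v = v) :
    ∀ N : Subgroup ↥K, N.Normal → ¬ p ∣ Nat.card N → N = ⊥ := by
  classical
  intro N hN hp
  by_contra hne
  have := Fintype.ofFinite N
  have := Fintype.ofFinite P
  let τ : P →* P := ∏ n : N, ((n : K) : MulAut P).toMonoidHom
  have hτ : ∀ v, τ v = ∏ n : N, ((n : K) : MulAut P) v := fun v => by
    simp [τ]
  have h1 : ∀ (x : K) v, τ ((x : MulAut P) v) = (x : MulAut P) (τ v) := by
    intro x v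
    rw [hτ, hτ, map_prod]
    refine Fintype.prod_equiv (MulAut.conjNormal x⁻¹).toEquiv _ _ fun n => ?_
    simp
  have h2 : ∀ (n : N) v, τ (((n : K) : MulAut P) v) = τ v := by
    intro n v
    rw [hτ, hτ]
    refine Fintype.prod_equiv (Equiv.mulRight n) _ _ fun m => ?_
    simp
  obtain ⟨n, hn⟩ : ∃ n : N, ((n : K) : MulAut P) ≠ 1 := by
    obtain ⟨⟨n, hn⟩, hn1⟩ := ne_bot_iff_exists_ne_one.mp hne
    exact ⟨⟨n, hn⟩, fun h => hn1 (Subtype.ext (Subtype.ext h))⟩
  have h3 : τ.ker ≠ ⊥ := by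
    intro h
    exact hn (MulEquiv.ext fun v => (MonoidHom.ker_eq_bot_iff τ).mp h (h2 n v))
  obtain ⟨x, hx⟩ := exists_prime_orderOf_dvd_card' (G := K) p hK
  have hx1 : (x : MulAut P) ≠ 1 := by
    intro h
    rw [show x = 1 from Subtype.ext h, orderOf_one] at hx
    exact (Fact.out : p.Prime).one_lt.ne hx
  let σ : Equiv.Perm τ.ker := (MulAut.toPerm P x).subtypePerm (p := fun v => v ∈ τ.ker) fun v => by
    change τ ((x : MulAut P) v) = 1 ↔ τ v = 1
    rw [h1, map_eq_one_iff _ (x : MulAut P).injective]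
  have hσ : σ ^ p ^ 1 = 1 := by
    rw [pow_one, Equiv.Perm.subtypePerm_pow]
    ext v
    have : (MulAut.toPerm P x) ^ p = 1 := by
      rw [← map_pow, ← coe_pow, ← hx, pow_orderOf_eq_one, coe_one, map_one]
    simp [this]
  have hd : p ∣ Fintype.card τ.ker := by
    rw [← Nat.card_eq_fintype_card]
    exact ((hP.to_subgroup τ.ker).card_eq_or_dvd).resolve_left (by rwa [card_eq_one])
  obtain ⟨⟨w, hw⟩, hw1, hw2⟩ := Equiv.Perm.exists_fixed_point_of_prime' hd hσ (a := 1)
    (Subtype.ext (map_one (x : MulAut P)))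
  have hw3 : (x : MulAut P) w = w := congrArg Subtype.val hw1
  have hw4 : τ w = w ^ Nat.card N := by
    rw [hτ, Finset.prod_congr rfl (g := fun _ => w)]
    · simp
    · intro m _
      by_cases hm : ((m : K) : MulAut P) = 1
      · rw [hm]; rfl
      · exact (hfix _ _ x.2 (m : K).2 hx1 hm w).mp hw3
  refine hw2 (Subtype.ext ?_)
  obtain ⟨k, hk⟩ := hP w
  rw [MonoidHom.mem_ker, hw4] at hw
  have := pow_gcd_eq_one.mpr ⟨hw, hk⟩
  rwa [((Nat.Prime.coprime_iff_not_dvd Fact.out).mpr hp).symm.pow_right k, pow_one] at this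

end Cfsg.Agent.S4036
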