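import Cfsg.Statements.S4043
import Mathlib
import Cfsg.Agent.Lib.H5Involutions
import Cfsg.Agent.Lib.SchurZassenhausConj
import Cfsg.Agent.Lib.SylowIn
import Cfsg.Agent.Lib.CoreFitting
import Cfsg.Agent.Lib.CoreSolvable

set_option autoImplicit false
open Cfsg

namespace Cfsg.Agent.S4043
open Subgroup CfsgLib CfsgLib.H5 CfsgLib.PCompl CfsgLib.PRes

theorem aux {G : Type*} [Group G] [Finite G] {p : ℕ}
    [Fact p.Prime] {N : Subgroup G} [hNn : N.Normal] (hN : IsPGroup p N) {A : Subgroup G}
    (hA : A.IsComplement' N)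
    (hC : ∀ n : G, n ∈ N → (∀ a : G, a ∈ A → a * n * a⁻¹ = n) → n = 1) :
    normalizer (((pResidual p A).map A.subtype : Subgroup G) : Set G) ≤ A := by
  set K := (pResidual p A).map A.subtype with hK
  have hKA : K ≤ A := map_subtype_le _
  have hAK : A ≤ normalizer (K : Set G) := by
    have := @pResidual_characteristic A _ p
    exact le_normalizer.trans (normalizer_le_normalizer_map_subtype_of_characteristic A _)
  have h1 : N ⊓ centralizer (K : Set G) = ⊥ := by
    obtain ⟨S, hS⟩ := IsSylowIn.exists_in (p := p) A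
    by_contra h0
    set U := N ⊓ centralizer (K : Set G) with hU
    have hUp : IsPGroup p U := hN.to_le inf_le_left
    have hSU : S ≤ normalizer (U : Set G) := fun s hs => mem_normalizer_of_conj_mem fun u hu =>
      ⟨hNn.conj_mem _ hu.1 s, conj_mem_of_mem_normalizer
        (normalizer_le_normalizer_centralizer' K (hAK (hS.le hs))) hu.2⟩
    have h2 := inf_centralizer_ne_bot_of_isNilpotent (H := S ⊔ U) (N := U)
      (hS.isPGroup.to_sup_of_normal_right' hUp hSU).isNilpotent le_sup_right
      (sup_le hSU le_normalizer) h0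
    obtain ⟨⟨u, hu, huc⟩, hu1⟩ := ne_bot_iff_exists_ne_one.mp h2
    refine hu1 (Subtype.ext (hC u hu.1 fun a ha => ?_))
    have h3 : K ⊔ S = A := by
      obtain ⟨k, hk⟩ := exists_index_pResidual_eq_pow (G := A) (p := p)
      exact hS.sup_eq_of_relIndex_eq_pow hKA ((relIndex_map_subtype A _).trans hk)
    have h4 : A ≤ centralizer ({u} : Set G) := by
      rw [← h3]
      exact sup_le (fun x hx => mem_centralizer_singleton_iff.mpr (hu.2 x hx))
        (fun x hx => mem_centralizer_singleton_iff.mpr (huc x (mem_sup_left hx)))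
    rw [mem_centralizer_singleton_iff.mp (h4 ha), mul_inv_cancel_right]
  intro g hg
  obtain ⟨⟨⟨a, ha⟩, ⟨n, hn⟩⟩, rfl⟩ := hA.2 g
  have h2 : n ∈ normalizer (K : Set G) := by
    simpa using mul_mem (inv_mem (hAK ha)) hg
  have h3 : n ∈ N ⊓ centralizer (K : Set G) := by
    refine ⟨hn, fun k hk => ?_⟩
    have h4 : n * k * n⁻¹ * k⁻¹ = 1 := by
      refine disjoint_def.mp hA.disjoint
        (hKA (mul_mem (conj_mem_of_mem_normalizer h2 hk) (inv_mem hk))) ?_
      rw [show n * k * n⁻¹ * k⁻¹ = n * (k * n⁻¹ * k⁻¹) by group]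
      exact mul_mem hn (hNn.conj_mem _ (inv_mem hn) k)
    calc k * n = (n * k * n⁻¹ * k⁻¹) * (k * n) := by rw [h4, one_mul]
      _ = n * k := by group
  rw [h1, mem_bot] at h3
  simpa [h3] using ha


/-- Let G be a finite group that is the semidirect product of a normal p-subgroup N by a subgroup A, and also of N by a subgroup A₁, where p is a prime and A and A₁ both have normal p-complements. If C_N(A) = C_N(A₁) = 1, then A₁ is conjugate to A by an element of N. -/
theorem result {G : Type*} [Group G] [Finite G] {p : ℕ}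
    [Fact p.Prime] (N : Subgroup G) [N.Normal] (hN : IsPGroup p N) (A A₁ : Subgroup G)
    (hA : A.IsComplement' N) (hA₁ : A₁.IsComplement' N)
    (hAp : Cfsg.HasNormalPComplement p A) (hA₁p : Cfsg.HasNormalPComplement p A₁)
    (hC : ∀ n : G, n ∈ N → (∀ a : G, a ∈ A → a * n * a⁻¹ = n) → n = 1)
    (hC₁ : ∀ n : G, n ∈ N → (∀ a : G, a ∈ A₁ → a * n * a⁻¹ = n) → n = 1) :
    ∃ n : G, n ∈ N ∧ A₁ = A.map (MulAut.conj n).toMonoidHom := by
  set K := (pResidual p A).map A.subtype with hK
  set K₁ := (pResidual p A₁).map A₁.subtype with hK₁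
  have hsurj := QuotientGroup.mk'_surjective N
  have key : ∀ B : Subgroup G, B.IsComplement' N →
      N ⊔ (pResidual p B).map B.subtype = (pResidual p (G ⧸ N)).comap (QuotientGroup.mk' N) := by
    intro B hB
    have h1 : Function.Surjective ((QuotientGroup.mk' N).comp B.subtype) := by
      intro y
      obtain ⟨g, rfl⟩ := hsurj y
      obtain ⟨⟨b, n⟩, rfl⟩ := hB.2 g
      exact ⟨b, by simp⟩
    rw [← map_pResidual_of_surjective _ h1, ← map_map, comap_map_eq, QuotientGroup.ker_mk',
      sup_comm]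
  have hcop : ∀ B : Subgroup G, HasNormalPComplement p B →
      (Nat.card ((pResidual p B).map B.subtype)).Coprime (Nat.card N) := by
    intro B hB
    obtain ⟨k, hk⟩ := IsPGroup.iff_card.mp hN
    rw [card_map_subtype, hk]
    exact (hnpc_iff_coprime_pResidual.mp hB).pow_right k
  have hsup : N ⊔ K = N ⊔ K₁ := (key A hA).trans (key A₁ hA₁).symm
  obtain ⟨n, hn, hnK⟩ := Cop.exists_conj_le_of_le_sup (N := N) (K := K₁) (B := K)
    le_normalizer_of_normal (hsup ▸ le_sup_right) (hcop A hAp)
    (Or.inr (isSolvable_of_isPGroup hN))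
  have hcard : Nat.card K₁ = Nat.card K := by
    have h1 := card_sup_of_disjoint (H := K) (N := N) le_normalizer_of_normal
      (disjoint_iff.mp (disjoint_of_coprime_natCard (hcop A hAp)))
    have h2 := card_sup_of_disjoint (H := K₁) (N := N) le_normalizer_of_normal
      (disjoint_iff.mp (disjoint_of_coprime_natCard (hcop A₁ hA₁p)))
    rw [sup_comm, hsup, sup_comm, h2] at h1
    exact Nat.eq_of_mul_eq_mul_right Nat.card_pos h1
  have h1 : K.map (MulAut.conj n).toMonoidHom = K₁ :=
    eq_of_le_of_card_le hnK (by rw [card_map_conj, hcard])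
  refine ⟨n, hn, (eq_of_le_of_card_le (le_trans ?_ (aux hN hA₁ hC₁)) ?_).symm⟩
  · rw [← hK₁, ← h1, normalizer_map_conj]
    refine map_mono ?_
    have := @pResidual_characteristic A _ p
    exact le_normalizer.trans (normalizer_le_normalizer_map_subtype_of_characteristic A _)
  · rw [card_map_conj, ← hA.index_eq_card, ← hA₁.index_eq_card]

end Cfsg.Agent.S4043
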