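import Cfsg.Statements.S4044
import Cfsg.Agent.Lib.HallNumB

set_option autoImplicit false
open Cfsg

namespace Cfsg.Agent.S4044

open CfsgLib CfsgLib.H4

/-- For an integer m ≥ 2 the following are equivalent: (a) every finite group whose order n is divisible by m with gcd(m, n/m) = 1 has a subgroup of order m; (b) m is a prime power, or m ≡ 2 (mod 4), or m ∈ {12, 24, 60}. -/
theorem result (m : ℕ) (hm : 2 ≤ m) :
    (∀ (G : Type) [Group G] [Finite G], m ∣ Nat.card G → m.Coprime (Nat.card G / m) →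
        ∃ H : Subgroup G, Nat.card H = m) ↔
    (IsPrimePow m ∨ m % 4 = 2 ∨ m = 12 ∨ m = 24 ∨ m = 60) := by
  constructor
  · intro h
    by_contra hn
    push Not at hn
    obtain ⟨G, _, _, h1, h2, h3⟩ := exists_no_hall hm hn.1 hn.2.1 hn.2.2.1 hn.2.2.2.1 hn.2.2.2.2
    obtain ⟨H, hH⟩ := h G h1 h2
    exact h3 H hH
  · rintro h G _ _ ⟨n, hn⟩ hc
    rw [hn, Nat.mul_div_cancel_left _ (by omega)] at hc
    rcases h with ⟨p, k, hp, -, rfl⟩ | h | rfl | rfl | rfl
    · have : Fact p.Prime := ⟨hp.nat_prime⟩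
      exact Sylow.exists_subgroup_card_pow_prime p ⟨n, hn⟩
    · refine Hall.exists_subgroup_card_eq_of_coprime (solvable_of_not_four_dvd ?_) hc hn
      rw [hn]
      exact not_dvd_of_coprime (d := 2) hc Nat.prime_two (by omega) (by omega) (by omega) ⟨1, rfl⟩
    · exact hall_twelve hn hc
    · exact hall_twenty_four hn hc
    · exact hall_sixty G hn hc

end Cfsg.Agent.S4044
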