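import Cfsg.Statements.S4045
import Cfsg.Agent.Lib.GOA.Real
import Cfsg.Agent.Lib.GOB.Main

set_option autoImplicit false
open Cfsg

namespace Cfsg.Agent.S4045



/-- Let π be a set of odd primes and G a finite group of order prime to 3 that is π-homogeneous: N_G(H)/C_G(H) is a π-group for every nontrivial π-subgroup H of G. Then the π'-elements of G (elements whose order is divisible by no prime of π) form a subgroup. -/
theorem result {G : Type*} [Group G] [Finite G] (π : Set ℕ)
    (hodd : ∀ p ∈ π, p.Prime ∧ p ≠ 2) (h3 : ¬ 3 ∣ Nat.card G)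
    (hhom : (∀ H : Subgroup G, H ≠ ⊥ → (∀ p : ℕ, p.Prime → p ∣ Nat.card ↥H → p ∈ π) →
        ∀ p : ℕ, p.Prime → p ∣ (Subgroup.centralizer (H : Set G)).relIndex (Subgroup.normalizer (H : Set G)) → p ∈ π)) :
    (∃ K : Subgroup G, ∀ x : G, x ∈ K ↔ ∀ p : ℕ, p.Prime → p ∣ orderOf x → p ∉ π) := by
  exact CfsgLib.GO.piClosed_of_kg (CfsgLib.GO.kg_of_not_three_dvd h3) π hodd h3 hhom

end Cfsg.Agent.S4045
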