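import Cfsg.Statements.S4049
import Cfsg.Agent.Lib.H5Real
import Cfsg.Agent.Lib.CoprimeAction

set_option autoImplicit false
open Cfsg

namespace Cfsg.Agent.S4049
open Subgroup CfsgLib CfsgLib.H5

/-- Let G be a finite group such that N_G(H)/C_G(H) has odd order for every nontrivial subgroup H of odd order. Then the Sylow 2-subgroups of G are normal. -/
theorem result {G : Type*} [Group G] [Finite G]
    (hhom : ∀ H : Subgroup G, H ≠ ⊥ → ¬ 2 ∣ Nat.card ↥H →
        ¬ 2 ∣ (Subgroup.centralizer (H : Set G)).relIndex (Subgroup.normalizer (H : Set G))) (P : Sylow 2 G) :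
    (P : Subgroup G).Normal := by
  refine sylow_two_normal_of_not_real (fun y hy hy2 hc => hy2 ?_) P
  obtain ⟨g, hg⟩ := isConj_iff.mp hc
  by_contra h0
  refine hhom (zpowers y) ?_ ?_ (prime_dvd_relIndex_of_pow_mem Nat.prime_two
    (Cop.normalizer_le_normalizer_centralizer _)
    (mem_normalizer_zpowers_of_conj_mem (hg ▸ inv_mem (mem_zpowers y))) (fun h1 => h0 ?_) ?_)
  · rw [Ne, zpowers_eq_bot]
    rintro rfl
    simp [Nat.not_prime_one] at hy
  · rw [Nat.card_zpowers]
    exact fun h => hy2 ((Nat.prime_dvd_prime_iff_eq Nat.prime_two hy).mp h).symm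
  · rw [centralizer_zpowers_eq] at h1
    exact (Nat.prime_dvd_prime_iff_eq hy Nat.prime_two).mp
      (orderOf_dvd_of_pow_eq_one (sq_eq_one_of_inverts_of_centralizes hg h1))
  · rw [centralizer_zpowers_eq]
    exact sq_mem_centralizer_of_inverts hg

end Cfsg.Agent.S4049
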