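import Cfsg.Statements.S4056
import Cfsg.Agent.Lib.CoreSolvable
import Cfsg.Agent.Lib.CommCalc
import Cfsg.Agent.Lib.BurnsideBasis
import Cfsg.Agent.Lib.CoreFitting

set_option autoImplicit false
open Cfsg

namespace Cfsg.Agent.S4056
open Subgroup CfsgLib 
open scoped commutatorElement

/-- In a finite 2-group of nilpotency class at most 2 and exponent dividing 4, the Frattini subgroup lies in the centre and is elementary abelian. -/
theorem result {P : Type*} [Group P] [Finite P] (hP : IsPGroup 2 P)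
    (hcl : Group.nilpotencyClass P ≤ 2) (hexp : Monoid.exponent P ∣ 4) :
    frattini P ≤ Subgroup.center P ∧ Cfsg.IsElementaryAbelian 2 (frattini P) := by
  have hnil : Group.IsNilpotent P := hP.isNilpotent
  have hc : ∀ x y : P, ⁅x, y⁆ ∈ center P := by
    intro x y
    have h1 := Subgroup.lowerCentralSeries_eq_bot_iff_nilpotencyClass_le.mpr hcl
    rw [mem_center_iff]
    intro z
    have h2 : ⁅⁅x, y⁆, z⁆ ∈ (⊤ : Subgroup P).lowerCentralSeries 2 :=
      commutator_mem_commutator (commutator_mem_commutator (mem_top x) (mem_top y)) (mem_top z)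
    rw [h1, mem_bot, commutatorElement_eq_one_iff_mul_comm] at h2
    exact h2.symm
  have hc' : ∀ x y z : P, Commute z ⁅x, y⁆ := fun x y z => mem_center_iff.mp (hc x y) z
  have h4 : ∀ x : P, x ^ 4 = 1 := Monoid.exponent_dvd_iff_forall_pow_eq_one.mp hexp
  have h2 : ∀ x y : P, ⁅x, y⁆ ^ 2 = 1 := by
    intro x y
    have h := CommCalc.mul_pow_of_class_two (hc' y x y) (hc' y x x) 4
    rw [h4, h4, h4, one_mul, one_mul, show Nat.choose 4 2 = 4 + 2 by decide, pow_add, h4,
      one_mul] at h
    exact h.symm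
  obtain ⟨N, -, hN⟩ := exists_normal_pow_eq_one (center P) 2
  have h5 : frattini P ≤ N := by
    rw [BurnsideBasis.frattini_le_iff hP]
    refine ⟨commutator_le.mpr fun x _ y _ => (hN _).mpr ⟨hc x y, h2 x y⟩, fun x => (hN _).mpr ⟨?_, ?_⟩⟩
    · rw [mem_center_iff]
      intro y
      exact (commutatorElement_eq_one_iff_mul_comm.mp
        ((CommCalc.comm_pow_left (hc' x y x) 2).trans (h2 x y))).symm
    · rw [← pow_mul, h4]
  have h6 : frattini P ≤ center P := fun x hx => ((hN x).mp (h5 hx)).1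
  exact ⟨h6, ⟨⟨fun a b => Subtype.ext (mem_center_iff.mp (h6 b.2) a)⟩⟩,
    fun x hx => ((hN x).mp (h5 hx)).2⟩

end Cfsg.Agent.S4056
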