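import Cfsg.Statements.S4057
import Mathlib
import Cfsg.Agent.Lib.H5Gen

set_option autoImplicit false
open Cfsg

namespace Cfsg.Agent.S4057
open Subgroup CfsgLib
open scoped commutatorElement


/-- Let p be an odd prime and P a finite p-group in which every normal abelian subgroup can be generated by k elements. Then every subgroup of P can be generated by at most ⌊k(k+4)/4⌋ elements. -/
theorem result {P : Type*} [Group P] [Finite P] {p : ℕ} [Fact p.Prime]
    (hp : p ≠ 2) (hP : IsPGroup p P) (k : ℕ)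
    (hab : ∀ A : Subgroup P, A.Normal → IsMulCommutative A → ∃ S : Finset P, S.card ≤ k ∧ Subgroup.closure (S : Set P) = A) :
    ∀ H : Subgroup P, ∃ S : Finset P, S.card ≤ k * (k + 4) / 4 ∧ Subgroup.closure (S : Set P) = H := by
  classical
  intro H
  obtain ⟨A, ⟨hAn, hA⟩, hmax⟩ := exists_maximal_of_wellFoundedGT
    (fun A : Subgroup P => A.Normal ∧ Cfsg.IsElementaryAbelian p A)
    ⟨⊥, inferInstance, inferInstance, fun a ha => by rw [mem_bot.1 ha, one_pow]⟩
  have hAc := PGrp.isMulCommutative_iff_forall.1 hA.1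
  obtain ⟨a, ha⟩ := IsPGroup.iff_card.1 (hP.to_subgroup A)
  have hak : a ≤ k := by
    obtain ⟨S, hS, hSA⟩ := hab A hAn hA.1
    have hsub : ∀ x ∈ S, x ∈ A := fun x hx => hSA ▸ subset_closure hx
    letI : CommGroup A := { (inferInstance : Group A) with mul_comm := fun x y => hA.1.1.1 x y }
    refine le_trans (BurnsideBasis.elemAb_le_card_of_closure_eq_top (Q := A)
      (fun x => Subtype.ext (hA.2 x x.2)) ha (S.subtype (· ∈ A)) ?_)
      (le_trans ?_ hS)
    · apply map_injective A.subtype_injective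
      rw [MonoidHom.map_closure, ← MonoidHom.range_eq_map, range_subtype]
      conv_rhs => rw [← hSA]
      congr 1
      ext x
      constructor
      · rintro ⟨y, hy, rfl⟩
        simpa using hy
      · intro hx
        exact ⟨⟨x, hsub x hx⟩, by simpa using hx, rfl⟩
    · rw [Finset.card_subtype]
      exact Finset.card_filter_le _ _
  set Γ := A ⊔ H with hΓ
  obtain ⟨d, hd, hd4, -⟩ := H5.Gen.core (hP.to_subgroup Γ) a (A.subgroupOf Γ) inferInstance
    (fun x hx y hy => Subtype.ext (hAc x hx y hy)) (by rw [card_subgroupOf_of_le le_sup_left, ha])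
  set F := (frattini H).map H.subtype with hF
  set C := centralizer (A : Set P) with hC
  have hAC : A ≤ C := fun x hx y hy => hAc y hy x hx
  have h1 : (F ⊔ C).relIndex H ≤ p ^ d := by
    refine le_trans (relIndex_le_of_le_right (le_sup_right : H ≤ Γ) index_ne_zero_of_finite) ?_
    rw [← hd]
    refine Nat.le_of_dvd (Nat.pos_of_ne_zero index_ne_zero_of_finite) (index_dvd_of_le
      (sup_le (commutator_le.2 fun x _ y _ => ?_) fun x hx => mem_sup_right fun w hw => ?_))
    · obtain ⟨a₁, ha₁, h₁, hh₁, e₁⟩ := (mem_sup_iff_of_le_normalizer' le_normalizer_of_normal).1 x.2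
      obtain ⟨a₂, ha₂, h₂, hh₂, e₂⟩ := (mem_sup_iff_of_le_normalizer' le_normalizer_of_normal).1 y.2
      have e1 : ⁅h₁, h₂⁆ ∈ F := ⟨⁅⟨h₁, hh₁⟩, ⟨h₂, hh₂⟩⁆,
        BurnsideBasis.commutatorElement_mem_frattini (hP.to_subgroup H) _ _, rfl⟩
      have e2 : ⁅h₁, h₂⁆⁻¹ * ⁅(x : P), (y : P)⁆ ∈ A := by
        rw [← QuotientGroup.eq]
        have f1 : ((a₁ : P) : P ⧸ A) = 1 := (QuotientGroup.eq_one_iff _).2 ha₁
        have f2 : ((a₂ : P) : P ⧸ A) = 1 := (QuotientGroup.eq_one_iff _).2 ha₂
        simp [← e₁, ← e₂, commutatorElement_def, f1, f2]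
      have := mul_mem (mem_sup_left e1 : _ ∈ F ⊔ C) (mem_sup_right (hAC e2))
      rw [mul_inv_cancel_left] at this
      exact this
    · exact congrArg Subtype.val (hx ⟨w, mem_sup_left hw⟩ hw)
  have hFH : F ≤ H := map_subtype_le _
  have hHF : H ≤ normalizer (F : Set P) :=
    le_normalizer.trans (normalizer_le_normalizer_map_subtype_of_characteristic H _)
  set D := C ⊓ H with hD
  have h2 : (F ⊔ C) ⊓ H = D ⊔ F := by
    refine le_antisymm (fun x hx => ?_) (sup_le (inf_le_inf_right _ le_sup_right)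
      (le_inf le_sup_left hFH))
    obtain ⟨f, hf, c, hc, rfl⟩ := (mem_sup_iff_of_le_normalizer le_normalizer_of_normal).1 hx.1
    exact mul_mem (mem_sup_right hf) (mem_sup_left ⟨hc, (mul_mem_cancel_left (hFH hf)).1 hx.2⟩)
  have h3 : (frattini D).index ≤ p ^ a := by
    have hmem : ∀ x : D, x ^ p = 1 → (x : P) ∈ A := fun x hx =>
      FT.mem_of_max_normal_elemAb hp hP hA (fun B h1 h2 h3 => le_antisymm (hmax ⟨h1, h2⟩ h3) h3)
        x.2.1 (congrArg Subtype.val hx)
    refine le_trans (H5.Gen.pc_index hp D (hP.to_subgroup D) (fun x hx => mem_center_iff.2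
      fun g => Subtype.ext (g.2.1 _ (hmem x hx)).symm) (A.subgroupOf D) fun x =>
        ⟨fun hx => Subtype.ext (hA.2 _ hx), hmem x⟩) ?_
    rw [card_subgroupOf_eq_card_inf, ← ha]
    exact card_le_of_le inf_le_left
  have h4 : F.relIndex D ≤ (frattini D).index := by
    refine Nat.le_of_dvd (Nat.pos_of_ne_zero index_ne_zero_of_finite) (index_dvd_of_le ?_)
    intro x hx
    exact ⟨_, BurnsideBasis.map_frattini_le (hP.to_subgroup H)
      (inclusion (inf_le_right : D ≤ H)) ⟨x, hx, rfl⟩, rfl⟩
  obtain ⟨r, hr⟩ := (hP.to_subgroup H).index (frattini H)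
  have h5 : F.relIndex H = p ^ r := by
    rw [← hr, relIndex, subgroupOf, comap_map_eq_self_of_injective H.subtype_injective]
  have h6 : p ^ r ≤ p ^ (a + d) := by
    rw [← h5, ← relIndex_mul_relIndex F ((F ⊔ C) ⊓ H) H (le_inf le_sup_left hFH) inf_le_right,
      inf_relIndex_right, h2, relIndex_sup_of_le_normalizer (inf_le_right.trans hHF), pow_add]
    exact Nat.mul_le_mul (h4.trans h3) h1
  rw [Nat.pow_le_pow_iff_right (Fact.out : p.Prime).one_lt] at h6
  obtain ⟨x, hx⟩ := BurnsideBasis.exists_generators (hP.to_subgroup H) hr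
  refine ⟨Finset.univ.image fun i => (x i : P), Finset.card_image_le.trans ?_, ?_⟩
  · rw [Finset.card_univ, Fintype.card_fin, Nat.le_div_iff_mul_le (by norm_num)]
    nlinarith
  · have := congrArg (Subgroup.map H.subtype) hx
    rw [MonoidHom.map_closure, ← MonoidHom.range_eq_map, range_subtype, ← Set.range_comp] at this
    rw [Finset.coe_image, Finset.coe_univ, Set.image_univ]
    exact this

end Cfsg.Agent.S4057
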