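import Cfsg.Statements.S4065
import Mathlib
import Cfsg.Agent.Lib.H5SL2Even

set_option autoImplicit false
open Cfsg

namespace Cfsg.Agent.S4065
open Subgroup CfsgLib CfsgLib.H5

/-- Let F be a finite field with 2ⁿ elements, n ≥ 2. In PSL₂(F) the centralizer of every element meets each of its conjugates by elements outside its normalizer trivially. -/
theorem result (n : ℕ) (hn : 2 ≤ n)
    (x : Matrix.ProjectiveSpecialLinearGroup (Fin 2) (GaloisField 2 n)) :
    Cfsg.IsTISubset (Subgroup.centralizer ({x} : Set (Matrix.ProjectiveSpecialLinearGroup (Fin 2) (GaloisField 2 n))) :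
      Set (Matrix.ProjectiveSpecialLinearGroup (Fin 2) (GaloisField 2 n))) := by
  intro g hg y hy hgy
  by_contra hy1
  refine hg (mem_normalizer_of_conj_mem fun c hc => ?_)
  by_cases hx : x = 1
  · exact mem_centralizer_singleton_iff.mpr (by rw [hx, mul_one, one_mul])
  have h1 := mem_centralizer_singleton_iff.mp hy
  have h2 := mem_centralizer_singleton_iff.mp hgy
  have h3 := PSL2_commute_trans hx h1.symm (mem_centralizer_singleton_iff.mp hc).symm
  refine mem_centralizer_singleton_iff.mpr (PSL2_commute_trans (x := g * y * g⁻¹)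
    (fun h => hy1 (conj_eq_one_iff.mp h)) ?_ h2)
  rw [conj_mul, conj_mul, h3]

end Cfsg.Agent.S4065
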