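import Cfsg.Statements.S4066
import Cfsg.Agent.Lib.H5NilpotentMaximal
import Cfsg.Agent.Lib.CoreSubnormal

set_option autoImplicit false
open Cfsg

namespace Cfsg.Agent.S4066
open Subgroup CfsgLib CfsgLib.H5

/-- Let G be a finite group in which the centralizer of every element meets each of its conjugates by elements outside its normalizer trivially. Then any two distinct Sylow p-subgroups of G, for any prime p, intersect trivially. -/
theorem result {G : Type*} [Group G] [Finite G] (hTI : ∀ x : G, Cfsg.IsTISubset (Subgroup.centralizer ({x} : Set G) : Set G))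
    {p : ℕ} [Fact p.Prime] (P Q : Sylow p G) (hPQ : P ≠ Q) : (P : Subgroup G) ⊓ (Q : Subgroup G) = ⊥ := by
  by_contra h
  obtain ⟨⟨d, hdP, hdQ⟩, hd⟩ := ne_bot_iff_exists_ne_one.mp h
  have hd1 : d ≠ 1 := fun h => hd (Subtype.ext h)
  have : Nontrivial (P : Subgroup G) := nontrivial_of_ne ⟨d, hdP⟩ 1 fun h => hd1 (congrArg Subtype.val h)
  have := P.isPGroup'.center_nontrivial
  obtain ⟨⟨⟨z, hzP⟩, hz⟩, hz1⟩ := exists_ne (1 : center (P : Subgroup G))
  have hz2 : z ≠ 1 := fun h => hz1 (Subtype.ext (Subtype.ext h))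
  set C := centralizer ({z} : Set G) with hC
  have hPC : (P : Subgroup G) ≤ C := fun x hx => mem_centralizer_singleton_iff.mpr
    (congrArg Subtype.val (mem_center_iff.mp hz ⟨x, hx⟩))
  have hnil : Group.IsNilpotent C := by
    rw [← fitting_eq_top_iff, eq_top_iff]
    rintro ⟨x, hx⟩ -
    refine mem_fitting_of_forall_conj fun ⟨g, hg⟩ => ?_
    have h1 : g ∈ normalizer ((centralizer ({x} : Set G) : Subgroup G) : Set G) := by
      by_contra h0
      have h2 : z ∈ centralizer ({x} : Set G) :=
        mem_centralizer_singleton_iff.mpr (mem_centralizer_singleton_iff.mp hx).symm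
      refine hz2 (hTI x g h0 z h2 ?_)
      rwa [mem_centralizer_singleton_iff.mp hg, mul_inv_cancel_right]
    have h2 := mem_centralizer_singleton_iff.mp
      (conj_mem_of_mem_normalizer h1 (mem_centralizer_singleton_iff.mpr (rfl : x * x = x * x)))
    have : IsMulCommutative (closure {(⟨x, hx⟩ : C), ⟨g, hg⟩ * ⟨x, hx⟩ * ⟨g, hg⟩⁻¹}) := by
      refine isMulCommutative_closure ?_
      rintro a (rfl | rfl) b (rfl | rfl)
      · rfl
      · exact Subtype.ext h2.symm
      · exact Subtype.ext h2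
      · rfl
    exact ⟨⟨1, upperCentralSeries_one_eq_top_iff.mpr this⟩⟩
  obtain ⟨g, rfl⟩ := MulAction.exists_smul_eq G P Q
  rw [sylow_coe_smul_eq_map] at hdQ
  have h1 : g⁻¹ ∈ normalizer (C : Set G) := by
    by_contra h0
    exact hd1 (hTI z g⁻¹ h0 d (hPC hdP) (by rw [inv_inv]; exact hPC (mem_map_conj_iff.mp hdQ)))
  have h2 : ((g • P : Sylow p G) : Subgroup G) ≤ C := by
    rw [sylow_coe_smul_eq_map, ← map_conj_eq_of_mem_normalizer (inv_mem_iff.mp h1)]
    exact map_mono hPC
  exact hPQ (Sylow.ext ((g • P).is_maximal' P.isPGroup' (le_of_isSylowIn_of_isNilpotent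
    (IsSylowIn.of_sylow P hPC) hnil (g • P).isPGroup' h2)))

end Cfsg.Agent.S4066
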