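import Cfsg.Statements.S4067
import Mathlib
import Cfsg.Agent.Lib.H5CycExt
import Cfsg.Agent.Lib.H8ClassBound
import Cfsg.Agent.Lib.CommCalc
import Cfsg.Agent.Lib.PGroupBasic
import Cfsg.Agent.Lib.ClassSize
import Cfsg.Agent.Lib.CoprimeAction
import Cfsg.Agent.Lib.PGroupMaxClass

set_option autoImplicit false
open Cfsg

namespace Cfsg.Agent.S4067
open Subgroup Cfsg CfsgLib
open scoped commutatorElement IsMulCommutative

theorem mul_card_orbits_le {A X : Type*} [Group A] [MulAction A X] [Fintype X] (w : X → ℕ) (n : ℕ)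
    (h : ∀ x : X, ∃ s : Finset X, (∀ y ∈ s, y ∈ MulAction.orbit A x) ∧ n ≤ ∑ y ∈ s, w y) :
    n * Nat.card (MulAction.orbitRel.Quotient A X) ≤ ∑ x, w x := by
  classical
  have := Fintype.ofFinite (MulAction.orbitRel.Quotient A X)
  rw [← Finset.sum_fiberwise (g := fun x => (Quotient.mk'' x : MulAction.orbitRel.Quotient A X)),
    Nat.card_eq_fintype_card, mul_comm, ← smul_eq_mul, ← Finset.card_univ, ← Finset.sum_const]
  refine Finset.sum_le_sum fun q _ => ?_
  obtain ⟨x, rfl⟩ := Quotient.mk''_surjective q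
  obtain ⟨s, h1, h2⟩ := h x
  exact h2.trans (Finset.sum_le_sum_of_subset fun y hy => Finset.mem_filter.mpr
    ⟨Finset.mem_univ _, Quotient.sound' (h1 y hy)⟩)

theorem exists_pair {G : Type*} [Group G] [Finite G] {p : ℕ} (hp : p.Prime)
    (h1 : commutator G ≤ center G) (h2 : Nat.card (commutator G) = p)
    (h3 : p * p ≤ (center G).index) {u : G} (hu : u ∉ center G) :
    ∃ y ∉ center G, ∃ a ∉ commutator G, a ∈ centralizer ({y} : Set G) ∧
      a ∈ centralizer (centralizer ({y} : Set G) : Set G) ∧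
      ∀ x ∉ centralizer ({y} : Set G), (x * a) ^ p = x ^ p := by
  have hc : ∀ a b : G, ⁅a, b⁆ ∈ commutator G := fun a b =>
    commutator_mem_commutator (mem_top a) (mem_top b)
  have hc1 : ∀ a b c : G, Commute ⁅a, b⁆ c := fun a b c => (mem_center_iff.mp (h1 (hc a b)) c).symm
  have hc2 : ∀ c ∈ commutator G, c ^ p = 1 := fun c hc =>
    orderOf_dvd_iff_pow_eq_one.mp (h2 ▸ orderOf_dvd_natCard _ hc)
  have hc3 : ∀ x : G, x ^ p ∈ center G := fun x => mem_center_iff.mpr fun g => by
    rw [← commutatorElement_eq_one_iff_mul_comm, CommCalc.comm_pow_right (hc1 _ _ _).symm,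
      hc2 _ (hc _ _)]
  by_cases h4 : ∀ a ∈ center G, a ^ p = 1 → a ∈ commutator G
  swap
  · push Not at h4
    obtain ⟨a, ha, ha1, ha2⟩ := h4
    exact ⟨u, hu, a, ha2, center_le_centralizer _ ha, center_le_centralizer _ ha, fun x _ => by
      rw [Commute.mul_pow (mem_center_iff.mp ha x), ha1, mul_one]⟩
  suffices ∃ a ∉ center G, ∀ x ∉ centralizer ({a} : Set G), (x * a) ^ p = x ^ p by
    obtain ⟨a, ha, h⟩ := this
    exact ⟨a, ha, a, mt (@h1 a) ha, mem_centralizer_singleton_iff.mpr rfl,
      fun g hg => mem_centralizer_singleton_iff.mp hg, h⟩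
  rcases hp.eq_two_or_odd' with rfl | hodd
  · have h5 : ∀ c ∈ commutator G, ∀ d ∈ commutator G, c ≠ 1 → d ≠ 1 → c = d := by
      intro c hc d hd hc1 hd1
      obtain ⟨y, -, hy⟩ := (Nat.card_eq_two_iff' (1 : commutator G)).mp h2
      exact congrArg Subtype.val ((hy ⟨c, hc⟩ fun e => hc1 (congrArg Subtype.val e)).trans
        (hy ⟨d, hd⟩ fun e => hd1 (congrArg Subtype.val e)).symm)
    obtain ⟨v, hv⟩ := not_forall.mp (mt mem_center_iff.mpr hu)
    have hc0 : ⁅v, u⁆ ≠ 1 := mt commutatorElement_eq_one_iff_mul_comm.mp hv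
    have h6 : (powMonoidHom 2 : center G →* center G).range.index = 2 := by
      rw [Subgroup.index_range, ← card_map_subtype,
        show (powMonoidHom 2 : center G →* center G).ker.map (center G).subtype = commutator G from
          le_antisymm (by rintro _ ⟨a, ha, rfl⟩; exact h4 a a.2 (congrArg Subtype.val ha))
            fun c hc => ⟨⟨c, h1 hc⟩, Subtype.ext (hc2 c hc), rfl⟩, h2]
    obtain ⟨t, ht, z, hz⟩ : ∃ t ∉ center G, (⟨t ^ 2, hc3 t⟩ * ⟨⁅v, u⁆, h1 (hc v u)⟩ : center G) ∈
        (powMonoidHom 2 : center G →* center G).range := by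
      by_contra! h7
      have e1 := h7 u hu
      have e2 := h7 v fun h => hv (mem_center_iff.mp h u).symm
      have e3 := h7 (u * v) fun h => hv (mul_left_cancel (a := u)
        ((mem_center_iff.mp h u).trans (mul_assoc _ _ _)).symm)
      rw [show (⟨(u * v) ^ 2, hc3 _⟩ : center G) =
        ⟨u ^ 2, hc3 u⟩ * ⟨v ^ 2, hc3 v⟩ * ⟨⁅v, u⁆, h1 (hc v u)⟩ from Subtype.ext (by
          simpa using PGrp.mul_pow_eq_of_commute_commutator (hc1 v u u) (hc1 v u v) 2)] at e3
      simp only [mul_mem_iff_of_index_two h6] at e1 e2 e3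
      tauto
    refine ⟨t * (z : G)⁻¹, mt (mul_mem_cancel_right (inv_mem z.2)).mp ht, fun x hx => ?_⟩
    have e : (z : G) ^ 2 = t ^ 2 * ⁅v, u⁆ := congrArg Subtype.val hz
    rw [PGrp.mul_pow_eq_of_commute_commutator (hc1 _ _ _) (hc1 _ _ _),
      h5 _ (hc _ _) _ (hc v u) (fun h => hx (mem_centralizer_singleton_iff.mpr
        (commutatorElement_eq_one_iff_mul_comm.mp h).symm)) hc0,
      Commute.mul_pow (mem_center_iff.mp (inv_mem z.2) t), inv_pow, e, mul_inv_rev,
      (hc1 v u _).inv_left.eq, Nat.choose_self, pow_one, mul_inv_cancel_left, inv_mul_cancel_right]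
  · let φ : G →* G := MonoidHom.mk' (· ^ p) fun a b =>
      PGrp.mul_pow_prime_eq_of_odd hodd (hc1 _ _ _) (hc1 _ _ _) (hc2 _ (hc _ _))
    obtain ⟨a, ha, ha1⟩ : ∃ a ∈ φ.ker, a ∉ center G := by
      by_contra! h5
      have h6 : φ.range ≤ center G := by rintro _ ⟨x, rfl⟩; exact hc3 x
      have h7 := card_le_of_le (fun a ha => h4 a (h5 a ha) ha : φ.ker ≤ commutator G)
      rw [← Subgroup.index_range, h2] at h7
      have := h3.trans ((index_antitone h6).trans h7)
      nlinarith [hp.two_le]
    exact ⟨a, ha1, fun x _ => (map_mul φ x a).trans (by rw [MonoidHom.mem_ker.mp ha, mul_one]; rfl)⟩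


/-- Let G be a finite non-abelian group and p the least prime dividing its order. Then the automorphism group of G has at most #G/p orbits on G. -/
theorem result {G : Type*} [Group G] [Finite G] (hna : ¬ IsMulCommutative G) :
    Nat.card (MulAction.orbitRel.Quotient (MulAut G) G) ≤ Nat.card G / (Nat.card G).minFac := by
  classical
  obtain ⟨u, hu⟩ : ∃ u, u ∉ center G := by
    by_contra! h
    exact hna ⟨⟨fun a b => mem_center_iff.mp (h b) a⟩⟩
  have hp : (Nat.card G).minFac.Prime := Nat.minFac_prime fun h => by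
    have := (Nat.card_eq_one_iff_unique.mp h).1
    exact hu (Subsingleton.elim 1 u ▸ one_mem _)
  set p := (Nat.card G).minFac
  have hge : ∀ d : ℕ, d ∣ Nat.card G → d ≠ 1 → p ≤ d := fun d hd hd1 =>
    Nat.minFac_le_of_dvd (by have := Nat.pos_of_dvd_of_pos hd Nat.card_pos; omega) hd
  have hp' : ∀ r : ℕ, r.Prime → r ∣ Nat.card G → p ≤ r := fun r hr hd => hge r hd hr.one_lt.ne'
  rw [Nat.le_div_iff_mul_le hp.pos, mul_comm]
  by_cases h : Nat.card G < p * Nat.card (ConjClasses G)
  swap
  · refine (Nat.mul_le_mul_left p (Nat.card_le_card_of_surjective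
      (Quotient.map' id fun a b h => ?_) fun q => ?_)).trans (not_lt.mp h)
    · obtain ⟨c, hc⟩ := isConj_iff.mp (IsConj.symm h)
      exact ⟨MulAut.conj c, hc⟩
    · obtain ⟨x, rfl⟩ := Quotient.mk''_surjective q
      exact ⟨Quotient.mk'' x, rfl⟩
  have h0 := ClBound.card_commutator_le_of_lt hp.one_lt.le hp' h
  have h1 := ClBound.commutator_le_center_of_card_le hp' h0
  have hc : ∀ a b : G, ⁅a, b⁆ ∈ commutator G := fun a b =>
    commutator_mem_commutator (mem_top a) (mem_top b)
  have h2 : Nat.card (commutator G) = p := h0.antisymm (hge _ (card_subgroup_dvd_card _) fun e =>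
    hu (mem_center_iff.mpr fun g => commutatorElement_eq_one_iff_mul_comm.mp
      ((card_eq_one.mp e).le (hc g u))))
  have h3 : ∀ x ∉ center G, (centralizer ({x} : Set G)).index = p := fun x hx =>
    le_antisymm (by
      rw [← h2, ← relIndex_top_right]; exact PGrp.relIndex_centralizer_le_card fun g _ => hc x g)
      (hge _ (index_dvd_card _) (mt Frob.index_centralizer_eq_one_iff.mp hx))
  have h4 : ∀ x ∉ center G, p ≤ (center G).relIndex (centralizer {x}) := fun x hx =>
    hge _ ((relIndex_dvd_card _ _).trans (card_subgroup_dvd_card _)) fun e =>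
      hx (relIndex_eq_one.mp e (mem_centralizer_singleton_iff.mpr rfl))
  obtain ⟨y, hy, a, ha1, ha2, ha3, ha4⟩ := exists_pair hp h1 h2 (by
    rw [← relIndex_mul_index (center_le_centralizer {u}), h3 u hu]
    exact Nat.mul_le_mul_right p (h4 u hu)) hu
  set M := centralizer ({y} : Set G)
  have hZM : center G ≤ M := center_le_centralizer _
  have hM : M.Normal := normal_of_le_normalizer_top
    (Cop.le_normalizer_of_commutator_le (G := ⊤) (h1.trans hZM) le_top)
  have h5 : ∀ x ∉ center G, ∀ c ∈ commutator G, IsConj x (x * c) := fun x hx c hc' => by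
    have : {y | IsConj x y} = (fun c => x * c) '' (commutator G) :=
      Set.eq_of_subset_of_ncard_le (fun y hy => by
        obtain ⟨g, rfl⟩ := isConj_iff.mp hy
        exact ⟨⁅x⁻¹, g⁆, hc _ _, by simp [commutatorElement_def, mul_assoc]⟩) (by
        rw [Set.ncard_image_of_injective _ (mul_right_injective x),
          ← Frob.index_centralizer_eq_ncard, h3 x hx, ← h2]; rfl)
    exact this.ge ⟨c, hc', rfl⟩
  have := Fintype.ofFinite G
  have h6 := mul_card_orbits_le (A := MulAut G) (X := G)
    (fun x => 1 + (if x ∈ M then p - 1 else 0) + if x ∈ center G then p * (p - 1) else 0) (p * p)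
    fun x => by
      by_cases hx : x ∈ center G
      · refine ⟨{x}, by simp, ?_⟩
        obtain ⟨k, hk⟩ := Nat.exists_eq_succ_of_ne_zero hp.ne_zero
        simp only [Finset.sum_singleton, hx, hZM hx, if_true, hk, Nat.succ_sub_one]
        nlinarith
      have h7 : ∀ (U : Subgroup G) (k : ℕ), (∀ c ∈ U, x * c ∈ MulAction.orbit (MulAut G) x) →
          (∀ c ∈ U, k ≤ 1 + (if x * c ∈ M then p - 1 else 0)) → p * p ≤ Nat.card U * k →
          ∃ s : Finset G, (∀ y ∈ s, y ∈ MulAction.orbit (MulAut G) x) ∧ p * p ≤ ∑ x ∈ s,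
            (1 + (if x ∈ M then p - 1 else 0) + if x ∈ center G then p * (p - 1) else 0) := by
        intro U k h1 h2 h3
        refine ⟨(U : Set G).toFinset.image (x * ·), fun y hy => ?_, h3.trans ?_⟩
        · obtain ⟨c, hc, rfl⟩ := Finset.mem_image.mp hy
          exact h1 c (Set.mem_toFinset.mp hc)
        · rw [Finset.sum_image fun _ _ _ _ => mul_left_cancel, ← SetLike.coe_sort_coe,
            Nat.card_eq_card_toFinset, ← smul_eq_mul]
          exact Finset.card_nsmul_le_sum _ _ _ fun c hc =>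
            (h2 c (Set.mem_toFinset.mp hc)).trans (Nat.le_add_right _ _)
      by_cases hxM : x ∈ M
      · refine h7 (commutator G) p (fun c hc => ?_) (fun c hc => ?_) (by rw [h2])
        · obtain ⟨g, hg⟩ := isConj_iff.mp (h5 x hx c hc)
          exact ⟨MulAut.conj g, hg⟩
        · rw [if_pos (mul_mem hxM (hZM (h1 hc)))]; omega
      · obtain ⟨α, hα1, hα2⟩ := H5.exists_mulAut_of_index_prime hp (h3 y hy) hxM ha2 ha3 (ha4 x hxM)
        refine h7 (zpowers a ⊔ commutator G) 1 (fun c hc => ?_) (fun c _ => Nat.le_add_right _ _) ?_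
        · obtain ⟨b, hb, c, hc', rfl⟩ := mem_sup_of_normal_right.mp hc
          obtain ⟨n, rfl⟩ := mem_powers_iff_mem_zpowers.mpr hb
          obtain ⟨g, hg⟩ := isConj_iff.mp (h5 x hx c hc')
          have h8 : ∀ n : ℕ, (α ^ n) (x * c) = x * (a ^ n * c) := fun n => by
            induction n with
            | zero => simp
            | succ n ih =>
              rw [pow_succ', MulAut.mul_apply, ih, map_mul, hα2,
                hα1 _ (mul_mem (pow_mem ha2 n) (hZM (h1 hc'))), pow_succ']
              group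
          exact ⟨α ^ n * MulAut.conj g, (congrArg (α ^ n) hg).trans (h8 n)⟩
        · rw [mul_one, ← card_mul_relIndex (le_sup_right : commutator G ≤ zpowers a ⊔ _), h2]
          exact Nat.mul_le_mul_left p (hge _ ((relIndex_dvd_card _ _).trans
            (card_subgroup_dvd_card _)) fun e =>
              ha1 (relIndex_eq_one.mp e (mem_sup_left (mem_zpowers a))))
  have h7 : ∀ (U : Subgroup G) [DecidablePred (· ∈ U)] (k : ℕ),
      ∑ x : G, (if x ∈ U then k else 0) = Nat.card U * k := by
    intro U _ k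
    rw [← Finset.sum_filter, Finset.sum_const, smul_eq_mul, Nat.card_eq_fintype_card,
      Fintype.card_subtype]
  rw [Finset.sum_add_distrib, Finset.sum_add_distrib, h7, h7, Finset.sum_const, smul_eq_mul,
    mul_one, Finset.card_univ, ← Nat.card_eq_fintype_card] at h6
  have h8 := M.card_mul_index
  have h9 := (Nat.mul_le_mul_left _ (h4 y hy)).trans (card_mul_relIndex hZM).le
  rw [h3 y hy] at h8
  rw [← h8] at h6 ⊢
  refine Nat.le_of_mul_le_mul_left ?_ hp.pos
  rw [← mul_assoc]
  refine h6.trans ?_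
  obtain ⟨k, hk⟩ := Nat.exists_eq_add_of_le hp.two_le
  rw [hk] at h9 ⊢
  rw [show 2 + k - 1 = 1 + k by omega]
  nlinarith [Nat.mul_le_mul_right (1 + k) h9, Nat.zero_le (Nat.card M * k * k),
    Nat.zero_le (Nat.card M * k)]

end Cfsg.Agent.S4067
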