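import Cfsg.Statements.S4069
import Cfsg.Agent.Lib.SW.Red
-- import your own Cfsg.Agent.* helpers here

set_option autoImplicit false
open Cfsg

namespace Cfsg.Agent.S4069

/-- Let G be a finite non-solvable group whose Sylow subgroups of odd order are cyclic and whose Sylow 2-subgroups contain a cyclic subgroup of index at most 2. Then G has a normal subgroup G₀ of index at most 2 that is an internal direct product X × L of normal subgroups, where X has odd order and is an extension of a cyclic group by a cyclic group, L is isomorphic to PSL₂(p) or SL₂(p) for some prime p ≥ 5, and the orders of X and L are coprime. -/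
theorem result {G : Type*} [Group G] [Finite G] (hns : ¬ Group.IsSolvable G)
    (hodd : ∀ p : ℕ, p.Prime → p ≠ 2 → ∀ P : Sylow p G, IsCyclic P)
    (h2 : ∀ S : Sylow 2 G, ∃ C : Subgroup ↥(S : Subgroup G), IsCyclic C ∧ C.index ∣ 2) :
    ∃ G₀ : Subgroup G, G₀.Normal ∧ G₀.index ∣ 2 ∧
      ∃ X L : Subgroup ↥G₀, X.Normal ∧ L.Normal ∧ X ⊓ L = ⊥ ∧ X ⊔ L = ⊤ ∧ (Nat.card X).Coprime (Nat.card L) ∧
        Odd (Nat.card X) ∧ (∃ (C : Subgroup ↥X) (_ : C.Normal), IsCyclic C ∧ IsCyclic (↥X ⧸ C)) ∧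
        ∃ (p : ℕ) (_ : Fact p.Prime), 5 ≤ p ∧
          (Nonempty (↥L ≃* Matrix.ProjectiveSpecialLinearGroup (Fin 2) (ZMod p)) ∨
           Nonempty (↥L ≃* Matrix.SpecialLinearGroup (Fin 2) (ZMod p))) := by
  obtain ⟨X, L, hX, hL, hi, h1, -, h3, h4, p, hp, h5, h6⟩ := CfsgLib.SW.main hns
    (CfsgLib.SW.OC.of_sylow hodd) (CfsgLib.SW.C2.of_sylow fun S => by
      obtain ⟨C, hC, hi⟩ := h2 S
      obtain ⟨x, rfl⟩ := CfsgLib.FT.U4.exists_zpowers_eq hC
      refine ⟨x, ?_⟩
      rwa [Subgroup.relIndex, ← Subgroup.comap_subtype, show Subgroup.zpowers (x : G) =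
        (Subgroup.zpowers x).map (S : Subgroup G).subtype from
        (MonoidHom.map_zpowers (S : Subgroup G).subtype x).symm,
        Subgroup.comap_map_eq_self_of_injective (Subgroup.subtype_injective _)])
  have eX := Subgroup.subgroupOfEquivOfLe (le_sup_left : X ≤ X ⊔ L)
  have eL := Subgroup.subgroupOfEquivOfLe (le_sup_right : L ≤ X ⊔ L)
  have := (CfsgLib.SW.OC.of_sylow hodd).zgroup h4
  have : IsZGroup (X.subgroupOf (X ⊔ L)) := IsZGroup.of_injective (f := eX.toMonoidHom) eX.injective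
  refine ⟨X ⊔ L, inferInstance, hi, X.subgroupOf _, L.subgroupOf _, inferInstance, inferInstance,
    ?_, ?_, ?_, ?_, ⟨commutator _, inferInstance, IsZGroup.isCyclic_commutator _,
      IsZGroup.isCyclic_abelianization⟩, p, hp, h5,
    h6.imp (fun ⟨e⟩ => ⟨eL.trans e⟩) fun ⟨e⟩ => ⟨eL.trans e⟩⟩
  · rw [← Subgroup.comap_subtype, ← Subgroup.comap_subtype, ← Subgroup.comap_inf, h1]
    simp
  · rw [← Subgroup.subgroupOf_sup le_sup_left le_sup_right, Subgroup.subgroupOf_self]
  · rwa [Nat.card_congr eX.toEquiv, Nat.card_congr eL.toEquiv]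
  · rwa [Nat.card_congr eX.toEquiv]

end Cfsg.Agent.S4069
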