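import Cfsg.Statements.S4070
import Cfsg.Agent.Lib.SLin.Odd

set_option autoImplicit false
open Cfsg CfsgLib.SLin

namespace Cfsg.Agent.S4070

/-- Let G be a finite solvable group acting faithfully by additive automorphisms on a finite vector space V over the field with p elements, completely reducibly (every G-invariant subspace has a G-invariant complement). Then some vector v ∈ V has stabilizer C_G(v) of derived length at most 9; and if both #G and p are odd, some vector has abelian stabilizer. -/
theorem result {G V : Type*} [Group G] [Finite G] [Group.IsSolvable G]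
    {p : ℕ} [Fact p.Prime] [AddCommGroup V] [Module (ZMod p) V] [Finite V] [DistribMulAction G V] [FaithfulSMul G V]
    (hcr : ∀ W : Submodule (ZMod p) V, (∀ (g : G) (w : V), w ∈ W → g • w ∈ W) →
      ∃ W' : Submodule (ZMod p) V, (∀ (g : G) (w : V), w ∈ W' → g • w ∈ W') ∧ IsCompl W W') :
    (∃ v : V, derivedSeries ↥(MulAction.stabilizer G v) 9 = ⊥) ∧
    (Odd (Nat.card G) → p ≠ 2 → ∃ v : V, IsMulCommutative ↥(MulAction.stabilizer G v)) := by
  let φ : G →* MulAut (Multiplicative V) :=
    { toFun := fun g => AddEquiv.toMultiplicative (DistribMulAction.toAddEquiv V g)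
      map_one' := MulEquiv.ext fun v => one_smul G (Multiplicative.toAdd v)
      map_mul' := fun a b => MulEquiv.ext fun v => mul_smul a b (Multiplicative.toAdd v) }
  have hφ : φ.ker = ⊥ := by
    rw [eq_bot_iff]
    intro g hg
    exact eq_of_smul_eq_smul (α := V) fun v =>
      (mem_ker_iff.1 hg (Multiplicative.ofAdd v)).trans (one_smul G v).symm
  have h : CR φ := by
    intro W hW
    obtain ⟨W', h1, h2⟩ := hcr (AddSubgroup.toZModSubmodule p (Subgroup.toAddSubgroup' W))
      (fun g w hw => hW g w hw)
    refine ⟨AddSubgroup.toSubgroup W'.toAddSubgroup, fun g w hw => h1 g w hw, ?_, ?_⟩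
    · rw [Subgroup.disjoint_def]
      intro x hx hx'
      exact Submodule.disjoint_def.1 h2.disjoint x hx hx'
    · rw [codisjoint_iff, eq_top_iff]
      intro v _
      have h3 : Multiplicative.toAdd v ∈ _ ⊔ W' := h2.sup_eq_top ▸ Submodule.mem_top
      obtain ⟨y, hy, z, hz, e⟩ := Submodule.mem_sup.1 h3
      exact Subgroup.mem_sup.2 ⟨Multiplicative.ofAdd y, hy, Multiplicative.ofAdd z, hz, e⟩
  have := Group.isSolvable_of_surjective φ.rangeRestrict_surjective
  have key : ∀ a, Prof φ 1 a → ∃ v : V, ds (MulAction.stabilizer G v) a = ⊥ := by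
    rintro a ⟨y, -, h1⟩
    exact ⟨Multiplicative.toAdd (y 0), eq_bot_iff.2 (hφ ▸ h1 0 _ fun g hg => hg)⟩
  refine ⟨?_, fun hG hp => ?_⟩
  · obtain ⟨v, hv⟩ := key 9 (prof_nine _ _ _ h.range).of_range
    exact ⟨v, derivedSeries_eq_bot_of_ds hv⟩
  · have hV : Odd (Nat.card (Multiplicative V)) := by
      change Odd (Nat.card V)
      rw [Module.natCard_eq_pow_finrank (K := ZMod p), Nat.card_zmod]
      exact ((Fact.out : p.Prime).odd_of_ne_two hp).pow
    obtain ⟨v, hv⟩ := key 1 (prof_odd _ _ _ h.range hV
      (Odd.of_dvd_nat hG (Subgroup.card_range_dvd φ))).of_range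
    exact ⟨v, Subgroup.le_centralizer_iff_isMulCommutative.1
      (Subgroup.commutator_eq_bot_iff_le_centralizer.1 hv)⟩

end Cfsg.Agent.S4070
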