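import Cfsg.Statements.S4071
import Mathlib
import Cfsg.Agent.Lib.H5Misc
import Cfsg.Agent.Lib.H5Real
import Cfsg.Agent.Lib.CoprimeAction
import Cfsg.Agent.Lib.FrobTI
import Cfsg.Agent.Lib.PGroupBasic
import Cfsg.Agent.Lib.PResidual
import Cfsg.Agent.Lib.BurnsideBasis

set_option autoImplicit false
open Cfsg

namespace Cfsg.Agent.S4071
open Subgroup Cfsg CfsgLib CfsgLib.H5

theorem key {G : Type*} [Group G] [Finite G]
    (hS : ∀ H : Subgroup G, ¬ IsMulCommutative H → normalizer (H : Set G) = H)
    {H : Subgroup G} (hH : IsMulCommutative H) {g : G} (hg : g ∈ normalizer (H : Set G))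
    (hcop : (Nat.card (zpowers g)).Coprime (Nat.card H)) (hne : ⁅H, zpowers g⁆ ≠ ⊥) {c : G}
    (h1 : c ∈ centralizer (H : Set G)) (h2 : c * g = g * c)
    (h3 : (orderOf c).Coprime (Nat.card (zpowers g))) : c = 1 := by
  have hg' := zpowers_le.mpr hg
  have hB := Cop.commutator_le_left_of_le_normalizer hg'
  have hgB : zpowers g ≤ normalizer ((⁅H, zpowers g⁆ : Subgroup G) : Set G) :=
    Cop.le_normalizer_of_commutator_le le_rfl hB
  have hc : c ∈ centralizer (zpowers g : Set G) := by
    rw [centralizer_zpowers_eq, mem_centralizer_singleton_iff, h2]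
  have h4 := hS (⁅H, zpowers g⁆ ⊔ zpowers g) fun h => hne
    (Cop.commutator_eq_bot_of_commutator_commutator_eq_bot hg' hcop
      (commutator_eq_bot_iff_le_centralizer.mpr fun a ha y hy =>
        PGrp.isMulCommutative_iff_forall.mp h _ (mem_sup_right hy) _ (mem_sup_left ha)))
  have h5 : c ∈ ⁅H, zpowers g⁆ ⊔ zpowers g := by
    rw [← h4]
    refine centralizer_le_normalizer _ fun y hy => ?_
    have : ⁅H, zpowers g⁆ ⊔ zpowers g ≤ centralizer {c} := sup_le
      (fun a ha => mem_centralizer_singleton_iff.mpr (h1 a (hB ha)))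
      fun a ha => mem_centralizer_singleton_iff.mpr (hc a ha)
    exact mem_centralizer_singleton_iff.mp (this hy)
  have h6 := Frob.mem_of_coprime_relIndex (sup_le le_normalizer hgB) h5 (by
    rw [sup_comm, relIndex_sup_of_le_normalizer hgB]
    exact h3.coprime_dvd_right (relIndex_dvd_card _ _))
  exact mem_bot.mp (Cop.commutator_inf_centralizer_eq_bot hg' hcop hH ▸ mem_inf.mpr ⟨h6, hc⟩)


/-- Let G be a finite solvable non-nilpotent group. Every non-abelian subgroup of G is self-normalizing if and only if G is a semidirect product ⟨x⟩ ⋉ A in which ⟨x⟩ is a p-group for some prime p, A is a normal abelian subgroup of order prime to p, x^p is central in G, and x acts fixed-point-freely on A (no non-identity element of A commutes with x). -/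
theorem result {G : Type*} [Group G] [Finite G]
    [Group.IsSolvable G] (hnn : ¬ Group.IsNilpotent G) :
    (∀ H : Subgroup G, ¬ IsMulCommutative H → Subgroup.normalizer (H : Set G) = H) ↔
    ∃ (x : G) (A : Subgroup G) (p : ℕ), p.Prime ∧ A.Normal ∧ IsMulCommutative A ∧ (∃ k : ℕ, orderOf x = p ^ k) ∧
      ¬ p ∣ Nat.card A ∧ (Subgroup.zpowers x).IsComplement' A ∧ x ^ p ∈ Subgroup.center G ∧
      ∀ a : G, a ∈ A → a ≠ 1 → x * a * x⁻¹ ≠ a := by
  constructor
  · intro hS
    have hnt : Nontrivial G := by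
      by_contra h
      rw [not_nontrivial_iff_subsingleton] at h
      exact hnn inferInstance
    obtain ⟨M, hM, -, hp⟩ := exists_normal_prime_index_ge (L := (⊥ : Subgroup G)) bot_ne_top
    have hMc : IsMulCommutative M := by
      by_contra h
      have := hS M h
      rw [normalizer_eq_top] at this
      rw [← this, index_top] at hp
      exact Nat.not_prime_one hp
    have hMc' := PGrp.isMulCommutative_iff_forall.mp hMc
    set p := M.index with hpM
    have := Fact.mk hp
    obtain ⟨x, hxM, k, hk⟩ : ∃ x, x ∉ M ∧ ∃ k, orderOf x = p ^ k := by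
      obtain ⟨y, -, hy⟩ := SetLike.exists_of_lt (lt_top_iff_ne_top.mpr
        (index_eq_one.not.mp hp.one_lt.ne'))
      obtain ⟨u, -, v, -, rfl, -, hu, hv⟩ := exists_p_part hp y
      exact ⟨u, fun h => hy (M.mul_mem h (mem_of_coprime_index hv)), hu⟩
    set A := pPrimeCore p G with hA
    have hAc : (Nat.card A).Coprime p := pPrimeCore_coprime p
    have hAM : A ≤ M := le_of_coprime_index hAc
    have hmem : ∀ g : G, (orderOf g).Coprime p → g ∈ A := fun g hg =>
      le_pPrimeCore_of_isSubnormal (A := zpowers g) (IsSubnormal.trans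
        (zpowers_le.mpr (mem_of_coprime_index hg))
        (Normal.isSubnormal (H := (zpowers g).subgroupOf M) (normal_of_isMulCommutative _))
          hM.isSubnormal)
        (by rwa [Nat.card_zpowers]) (mem_zpowers g)
    have hxp : x ^ p ∈ M := pow_index_mem M x
    have hcop : (Nat.card (zpowers x)).Coprime (Nat.card A) := by
      rw [Nat.card_zpowers, hk]; exact hAc.symm.pow_left k
    have hMx : M ⊔ zpowers x = ⊤ := (BurnsideBasis.isCoatom_of_index_prime hp).2 _
      (lt_of_le_of_ne le_sup_left fun h => hxM (h ▸ mem_sup_right (mem_zpowers x)))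
    have hne : ⁅A, zpowers x⁆ ≠ ⊥ := fun h => hnn (isNilpotent_of_forall_commute (by
      have key : ∀ g : G, (orderOf g).Coprime p → ∀ y, Commute y g := fun g hg y => by
        have : M ⊔ zpowers x ≤ centralizer {g} := sup_le
          (fun m hm => mem_centralizer_singleton_iff.mpr (hMc' m hm g (hAM (hmem g hg))))
          ((Cop.commutator_eq_bot_iff_le_centralizer'.mp h).trans
            (centralizer_le (by simpa using hmem g hg)))
        exact mem_centralizer_singleton_iff.mp (this (hMx ▸ mem_top y))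
      rintro q r a b hq hr hqr ⟨i, hi⟩ ⟨j, hj⟩
      by_cases h : q = p
      · exact key b (hj ▸ ((Nat.coprime_primes hr hp).mpr (h ▸ hqr.symm)).pow_left j) a
      · exact (key a (hi ▸ ((Nat.coprime_primes hq hp).mpr h).pow_left i) b).symm))
    have hAab : IsMulCommutative A := PGrp.isMulCommutative_of_le hAM hMc
    have htop : A ⊔ zpowers x = ⊤ := by
      have h1 := hS (A ⊔ zpowers x) fun h => hne (commutator_eq_bot_iff_le_centralizer.mpr
        fun a ha y hy => PGrp.isMulCommutative_iff_forall.mp h _ (mem_sup_right hy) _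
          (mem_sup_left ha))
      have hq : IsPGroup p (G ⧸ A) := PRes.isPGroup_quotient_of_pResidual_le
        (PRes.pResidual_le_iff.mpr hmem)
      have := hq.isNilpotent
      have h2 : ((zpowers x).map (QuotientGroup.mk' A)).comap (QuotientGroup.mk' A) =
        A ⊔ zpowers x := by rw [comap_map_eq, QuotientGroup.ker_mk', sup_comm]
      rw [← h2] at h1 ⊢
      rw [normalizerCondition_iff_only_full_group_self_normalizing.mp
        Group.normalizerCondition_of_isNilpotent _
        (normalizer_eq_self_of_comap (QuotientGroup.mk'_surjective A) h1), comap_top]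
    refine ⟨x, A, p, hp, inferInstance, hAab, ⟨k, hk⟩, hp.coprime_iff_not_dvd.mp hAc.symm,
      isComplement'_of_disjoint_and_mul_eq_univ (disjoint_iff.mpr
        (inf_eq_bot_of_coprime hcop)) (by rw [← mul_normal, sup_comm, htop, coe_top]), ?_,
      fun a ha ha1 h => ha1 (key hS hAab (by rw [normalizer_eq_top]; trivial) hcop hne
        (fun b hb => PGrp.isMulCommutative_iff_forall.mp hAab b hb a ha)
        (mul_inv_eq_iff_eq_mul.mp h).symm
        (hcop.symm.coprime_dvd_left (orderOf_dvd_natCard _ ha)))⟩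
    have : M ⊔ zpowers x ≤ centralizer {x ^ p} := sup_le
      (fun m hm => mem_centralizer_singleton_iff.mpr (hMc' m hm _ hxp))
      (zpowers_le.mpr (mem_centralizer_singleton_iff.mpr (Commute.self_pow x p)))
    exact mem_center_iff.mpr fun g => mem_centralizer_singleton_iff.mp (this (hMx ▸ mem_top g))
  · rintro ⟨x, A, p, hp, hA, hAc, ⟨k, hk⟩, hpA, hc, hxp, hfpf⟩ H hH
    have hAc' := PGrp.isMulCommutative_iff_forall.mp hAc
    obtain ⟨y, hy, a, ha, j, hj, rfl⟩ : ∃ y ∈ H, ∃ a ∈ A, ∃ j : ℕ, ¬ p ∣ j ∧ y = x ^ j * a := by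
      by_contra hne
      push Not at hne
      have h1 : ∀ y ∈ H, ∃ z ∈ center G, ∃ a ∈ A, y = z * a := fun y hy => by
        obtain ⟨⟨⟨_, hz⟩, a⟩, h⟩ := hc.2 y
        obtain ⟨j, rfl⟩ := mem_powers_iff_mem_zpowers.mpr hz
        obtain ⟨i, rfl⟩ : p ∣ j := by
          by_contra hj
          exact hne y hy a a.2 j hj h.symm
        exact ⟨_, by simpa [pow_mul] using pow_mem hxp i, a, a.2, h.symm⟩
      refine hH (PGrp.isMulCommutative_iff_forall.mpr fun u hu v hv => ?_)
      obtain ⟨z, hz, a, ha, rfl⟩ := h1 u hu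
      obtain ⟨w, hw, b, hb, rfl⟩ := h1 v hv
      rw [mul_assoc, ← mul_assoc a, mem_center_iff.mp hw a, mul_assoc w, hAc' a ha b hb,
        ← mul_assoc, ← mul_assoc, mem_center_iff.mp hw z, mul_assoc w z b, ← mem_center_iff.mp hz b]
      group
    obtain ⟨m, hm⟩ := exists_pow_eq_self_of_coprime (x := x) (n := j)
      (hk ▸ ((hp.coprime_iff_not_dvd.mpr hj).symm.pow_right k))
    have hxy : x ∈ A ⊔ zpowers (x ^ j * a) := by
      have := pow_mem ((mul_mem_cancel_right (mem_sup_left ha)).mp
        (mem_sup_right (mem_zpowers (x ^ j * a)))) m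
      rwa [hm] at this
    have hf : ∀ b ∈ A, x ^ j * a * b = b * (x ^ j * a) → b = 1 := fun b hb h => by
      by_contra hb1
      rw [mul_assoc, hAc' a ha b hb, ← mul_assoc, ← mul_assoc, mul_left_inj] at h
      refine hfpf b hb hb1 (mul_inv_eq_iff_eq_mul.mpr ?_)
      rw [← hm]
      exact Commute.pow_left h m
    generalize x ^ j * a = y at hy hxy hf
    refine le_antisymm (fun g hg => ?_) le_normalizer
    have htop : A ⊔ zpowers y = ⊤ := by
      rw [eq_top_iff, ← hc.sup_eq_top]
      exact sup_le (zpowers_le.mpr hxy) le_sup_left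
    obtain ⟨b, hb, w, hw, rfl⟩ := mem_sup_of_normal_left.mp (htop ▸ mem_top g)
    have hwH : w ∈ H := zpowers_le.mpr hy hw
    have hbN : b ∈ normalizer (H : Set G) := (mul_mem_cancel_right (le_normalizer hwH)).mp hg
    obtain ⟨c, hc', h⟩ := Frob.exists_conj_eq_mul_of_fpf (K := H ⊓ A) (h := y)
      (fun k hk => ⟨H.mul_mem (H.mul_mem hy hk.1) (H.inv_mem hy), hA.conj_mem _ hk.2 y⟩)
      (fun k hk => hf k hk.2) (k := b * y * b⁻¹ * y⁻¹)
      ⟨H.mul_mem (conj_mem_of_mem_normalizer hbN hy) (H.inv_mem hy), by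
        rw [show b * y * b⁻¹ * y⁻¹ = b * (y * b⁻¹ * y⁻¹) by group]
        exact A.mul_mem hb (hA.conj_mem _ (A.inv_mem hb) y)⟩
    have h1 := hf (b⁻¹ * c) (A.mul_mem (A.inv_mem hb) hc'.2) (by
      calc y * (b⁻¹ * c) = b⁻¹ * (b * y * b⁻¹ * y⁻¹ * y) * c := by group
        _ = _ := by rw [← h]; group)
    rw [inv_mul_eq_one] at h1
    exact H.mul_mem (h1 ▸ hc'.1) hwH

end Cfsg.Agent.S4071
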