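import Cfsg.Statements.S4072
import Mathlib
import Cfsg.Agent.S4071
import Cfsg.Agent.Lib.FrobeniusPComplement

set_option autoImplicit false
open Cfsg

namespace Cfsg.Agent.S4072
open Subgroup Cfsg CfsgLib CfsgLib.H5

/-- A finite group in which every non-abelian subgroup is self-normalizing is solvable or simple. -/
theorem result {G : Type*} [Group G] [Finite G] (hS : ∀ H : Subgroup G, ¬ IsMulCommutative H → Subgroup.normalizer (H : Set G) = H) :
    Group.IsSolvable G ∨ IsSimpleGroup G := by
  rcases subsingleton_or_nontrivial G with h | h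
  · exact Or.inl inferInstance
  refine or_iff_not_imp_left.mpr fun hns => ⟨fun L hL => ?_⟩
  by_contra hne
  push Not at hne
  obtain ⟨N, hN, hLN, hN1, hsim, hmax⟩ := exists_maximal_normal_ge hne.2
  have hab : ∀ K : Subgroup G, K.Normal → K ≠ ⊤ → IsMulCommutative K := fun K hK h1 => by
    by_contra h2
    exact h1 ((hS K h2).symm.trans (normalizer_eq_top K))
  have hNc := hab N hN hN1
  have hq : ¬ Group.IsSolvable (G ⧸ N) := fun h =>
    hns (isSolvable_of_normal_of_quotient N isSolvable_of_isMulCommutative h)
  rcases hmax (centralizer N) inferInstance (le_centralizer N) with hC | hC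
  · obtain ⟨p, hp, hd⟩ := Nat.exists_prime_and_dvd (Finite.one_lt_card (α := G ⧸ N)).ne'
    have := Fact.mk hp
    obtain ⟨y, hy⟩ := exists_prime_orderOf_dvd_card' p hd
    have hs := QuotientGroup.mk'_surjective N
    obtain ⟨x, rfl⟩ := hs y
    have hx : x ∉ N := fun h => hp.one_lt.ne (by
      rw [← hy, QuotientGroup.mk'_apply, (QuotientGroup.eq_one_iff x).mpr h, orderOf_one])
    have h1 := normalizer_eq_self_of_comap hs (hS ((zpowers (QuotientGroup.mk' N x)).comap _)
      fun h => hx (hC ▸ fun n hn => PGrp.isMulCommutative_iff_forall.mp h _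
        (QuotientGroup.le_comap_mk' N _ hn) _ (mem_zpowers _)))
    obtain ⟨P, hP⟩ := exists_sylow_mem_of_orderOf (k := 1) (hy.trans (pow_one p).symm)
    have h2 : zpowers (QuotientGroup.mk' N x) = P := by
      by_contra h2
      have := lt_inf_normalizer_of_isPGroup P.isPGroup' (lt_of_le_of_ne (zpowers_le.mpr hP) h2)
      rw [h1] at this
      exact this.not_ge inf_le_right
    obtain ⟨K, hK, h3, k, h4⟩ := PCompl.hnpc_exists_normal
      (PCompl.hnpc_of_normalizer_le_centralizer P (by rw [← h2, h1]; exact le_centralizer _))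
    rcases hK.eq_bot_or_eq_top with rfl | rfl
    · exact hq (isSolvable_of_isPGroup (IsPGroup.of_card (index_bot.symm.trans h4)))
    · exact hp.coprime_iff_not_dvd.mp h3.symm (by simpa using hd)
  · have hZ : N ≤ center G := centralizer_eq_top_iff_subset.mp hC
    obtain ⟨p, hp, hd⟩ := Nat.exists_prime_and_dvd (n := Nat.card L) (card_eq_one.not.mpr hne.1)
    have := Fact.mk hp
    obtain ⟨⟨z, hz⟩, hzo⟩ := exists_prime_orderOf_dvd_card' p hd
    replace hzo : orderOf z = p := by simpa using hzo
    have hzZ := mem_center_iff.mp (hZ (hLN hz))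
    obtain ⟨K, hK, h3, k, h4⟩ := PCompl.hnpc_exists_normal (FrobNPC.hnpc_of_primePow_centralizes
      (p := p) (G := G) fun H hH _ g hg q j hq hqp hj => by
        have hcop : (Nat.card (zpowers g)).Coprime p := by
          rw [Nat.card_zpowers, hj]; exact ((Nat.coprime_primes hq hp).mpr hqp).pow_left j
        by_cases hc : IsMulCommutative H
        · obtain ⟨i, hi⟩ := hH.exists_card_eq
          by_contra hne
          refine hp.one_lt.ne' (hzo ▸ orderOf_eq_one_iff.mpr (Cfsg.Agent.S4071.key hS hc hg
            (hi ▸ hcop.pow_right i) (fun h => hne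
              (Cop.commutator_eq_bot_iff_le_centralizer'.mp h (mem_zpowers g)))
            (fun y _ => hzZ y) (hzZ g).symm (hzo ▸ hcop.symm)))
        · rw [hS H hc] at hg
          obtain ⟨i, hi⟩ := orderOf_eq_pow_of_mem_isPGroup hH hg
          have h5 := hcop.pow_right i
          rw [Nat.card_zpowers, ← hi, Nat.coprime_self, orderOf_eq_one_iff] at h5
          exact h5 ▸ one_mem _)
    have := hab K hK (by
      rintro rfl
      exact hp.coprime_iff_not_dvd.mp h3.symm (by simpa using hd.trans L.card_subgroup_dvd_card))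
    exact hns (isSolvable_of_normal_of_quotient K isSolvable_of_isMulCommutative
      (isSolvable_of_isPGroup (IsPGroup.of_card h4)))

end Cfsg.Agent.S4072
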