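import Cfsg.Statements.S4074


set_option autoImplicit false
open Cfsg

namespace Cfsg.Agent.S4074
open Subgroup DihedralGroup

/-- For n > 2, every non-abelian subgroup of the dihedral group of order 2n is self-normalizing if and only if n = 4 or n is odd. -/
theorem result (n : ℕ) (hn : 2 < n) :
    (∀ H : Subgroup (DihedralGroup n), ¬ IsMulCommutative H → Subgroup.normalizer (H : Set (DihedralGroup n)) = H) ↔
    (n = 4 ∨ Odd n) := by
  constructor
  · intro h
    by_contra h0
    push Not at h0
    obtain ⟨h4, hev⟩ := h0
    have h2 : 2 ∣ n := even_iff_two_dvd.mp (Nat.not_odd_iff_even.mp hev)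
    let φ := ZMod.castHom h2 (ZMod 2)
    have hsub : ∀ a b : ZMod 2, a - b = b + a := by decide
    let f : DihedralGroup n →* Multiplicative (ZMod 2) := MonoidHom.mk'
      (fun x => match x with
        | r i => Multiplicative.ofAdd (φ i)
        | sr i => Multiplicative.ofAdd (φ i))
      (by
        rintro (a | a) (b | b) <;> simp [hsub, ofAdd_add])
    have h1 := h f.ker fun hc => by
      have ha : (r 2 : DihedralGroup n) ∈ f.ker := by
        change Multiplicative.ofAdd (φ 2) = 1
        rw [map_ofNat]; rfl
      have hb : (sr 0 : DihedralGroup n) ∈ f.ker := by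
        change Multiplicative.ofAdd (φ 0) = 1
        rw [map_zero]; rfl
      have h3 := congrArg Subtype.val (hc.is_comm.comm ⟨_, ha⟩ ⟨_, hb⟩)
      simp only [coe_mul, r_mul_sr, sr_mul_r, sr.injEq] at h3
      have h5 : ((4 : ℕ) : ZMod n) = 0 := by
        push_cast
        linear_combination -h3
      rw [ZMod.natCast_eq_zero_iff] at h5
      have := Nat.le_of_dvd (by norm_num) h5
      interval_cases n <;> simp_all
    rw [normalizer_eq_top] at h1
    have h3 : (r 1 : DihedralGroup n) ∈ f.ker := h1 ▸ mem_top _
    change Multiplicative.ofAdd (φ 1) = 1 at h3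
    rw [map_one] at h3
    exact absurd h3 (by decide)
  · intro h H hH
    obtain ⟨a, ha, b, hb, hab⟩ : ∃ a ∈ H, ∃ b ∈ H, a * b ≠ b * a := by
      by_contra h0
      push Not at h0
      exact hH ⟨⟨fun a b => Subtype.ext (h0 a a.2 b b.2)⟩⟩
    obtain ⟨i, hi⟩ : ∃ i, sr i ∈ H := by
      rcases a with a | a
      · rcases b with b | b
        · exact absurd (by rw [r_mul_r, r_mul_r, add_comm]) hab
        · exact ⟨b, hb⟩
      · exact ⟨a, ha⟩
    have key : ∀ j, r j ∈ normalizer (H : Set (DihedralGroup n)) → r j ∈ H := by
      intro j hj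
      rcases h with rfl | ⟨m, hm⟩
      · have h1 : ∀ a b : DihedralGroup 4, a * b ≠ b * a → (a = r 1 ∨ a⁻¹ = r 1 ∨ b = r 1 ∨
            b⁻¹ = r 1 ∨ a * b = r 1 ∨ (a * b)⁻¹ = r 1) := by decide
        have h2 : r 1 ∈ H := by
          rcases h1 a b hab with h | h | h | h | h | h <;> rw [← h]
          · exact ha
          · exact inv_mem ha
          · exact hb
          · exact inv_mem hb
          · exact mul_mem ha hb
          · exact inv_mem (mul_mem ha hb)
        have := pow_mem h2 j.val
        rwa [r_one_pow, ZMod.natCast_zmod_val] at this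
      · have h1 := mul_mem ((mem_normalizer_iff.mp hj _).mp hi) hi
        have h2 := pow_mem h1 (m + 1)
        have h3 : ((2 * m + 1 : ℕ) : ZMod n) = 0 := by rw [← hm, ZMod.natCast_self]
        simp only [inv_r, r_mul_sr, sr_mul_r, sr_mul_sr, r_pow] at h2
        convert h2 using 2
        push_cast at h3 ⊢
        linear_combination (-j) * h3
    refine le_antisymm ?_ le_normalizer
    rintro (j | j) hj
    · exact key j hj
    · have h1 := key _ (mul_mem (le_normalizer hi) hj)
      have h2 := mul_mem hi h1
      simpa using h2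

end Cfsg.Agent.S4074
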