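import Cfsg.Statements.S4075
import Cfsg.Agent.Lib.CoreElements
import Cfsg.Agent.Lib.CoreFitting

set_option autoImplicit false
open Cfsg

namespace Cfsg.Agent.S4075
open Subgroup CfsgLib 

/-- Let G be a finite nilpotent group. Every non-abelian subgroup of G is self-normalizing if and only if G is abelian or G is a minimal non-abelian p-group for some prime p (non-abelian of prime-power order with every proper subgroup abelian). -/
theorem result {G : Type*} [Group G] [Finite G]
    [Group.IsNilpotent G] :
    (∀ H : Subgroup G, ¬ IsMulCommutative H → Subgroup.normalizer (H : Set G) = H) ↔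
    (IsMulCommutative G ∨ (IsPrimePow (Nat.card G) ∧ ¬ IsMulCommutative G ∧ ∀ H : Subgroup G, H ≠ ⊤ → IsMulCommutative H)) := by
  constructor
  · intro h
    by_cases hG : IsMulCommutative G
    · exact Or.inl hG
    have h1 : ∀ H : Subgroup G, H ≠ ⊤ → IsMulCommutative H := by
      intro H hH
      by_contra h0
      exact (Group.normalizerCondition_of_isNilpotent H hH.lt_top).ne (h H h0).symm
    refine Or.inr ⟨?_, hG, h1⟩
    by_contra h0
    refine hG ⟨⟨fun a b => (mem_center_iff.mp (?_ : b ∈ center G) a)⟩⟩
    refine le_of_forall_primePow_mem (H := ⊤) (fun x _ p k hp hk => ?_) (mem_top b)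
    rw [mem_center_iff]
    intro c
    refine mem_centralizer_singleton_iff.mp (le_of_forall_primePow_mem (H := ⊤)
      (fun y _ q l hq hl => ?_) (mem_top c))
    rw [mem_centralizer_singleton_iff]
    by_cases hpq : q = p
    · subst hpq
      have : Fact q.Prime := ⟨hq⟩
      obtain ⟨P, hxP⟩ := exists_sylow_mem_of_orderOf hk
      obtain ⟨Q, hyQ⟩ := exists_sylow_mem_of_orderOf hl
      have hPn : (P : Subgroup G).Normal := inferInstance
      have := Sylow.unique_of_normal P hPn
      obtain rfl : Q = P := Subsingleton.elim _ _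
      have hc := h1 Q fun ht => by
        obtain ⟨n, hn⟩ := IsPGroup.iff_card.mp Q.isPGroup'
        rw [ht, card_top] at hn
        rcases n with _ | n
        · have : Subsingleton G := (Nat.card_eq_one_iff_unique.mp (by simpa using hn)).1
          exact hG ⟨⟨fun a b => Subsingleton.elim _ _⟩⟩
        · exact h0 ⟨q, n + 1, hq.prime, n.succ_pos, hn.symm⟩
      exact congrArg Subtype.val (hc.is_comm.comm ⟨y, hyQ⟩ ⟨x, hxP⟩)
    · refine commute_of_coprime_of_isNilpotent ?_
      rw [hk, hl]
      exact Nat.Coprime.pow _ _ ((Nat.coprime_primes hq hp).mpr hpq)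
  · rintro (h | ⟨-, -, h⟩) H hH
    · exact absurd (inferInstanceAs (IsMulCommutative H)) hH
    · by_cases ht : H = ⊤
      · subst ht
        exact normalizer_eq_top ⊤
      · exact absurd (h H ht) hH

end Cfsg.Agent.S4075
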