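import Cfsg.Statements.S4079
import Mathlib
import Cfsg.Agent.Lib.H5Blackburn

set_option autoImplicit false
open Cfsg

namespace Cfsg.Agent.S4079
open Subgroup Cfsg CfsgLib CfsgLib.FT CfsgLib.H5
open scoped commutatorElement

theorem isMetacyclic_of_surjective {G H : Type*} [Group G] [Group H] (h : IsMetacyclic G)
    (f : G →* H) (hf : Function.Surjective f) : IsMetacyclic H := by
  obtain ⟨N, hN, h1, h2⟩ := h
  have := hN.map f hf
  refine ⟨N.map f, this, isCyclic_of_surjective _ (f.subgroupMap_surjective N),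
    isCyclic_of_surjective (QuotientGroup.map N (N.map f) f (le_comap_map f N)) fun q => ?_⟩
  obtain ⟨x, rfl⟩ := QuotientGroup.mk_surjective q
  obtain ⟨y, rfl⟩ := hf x
  exact ⟨y, rfl⟩

theorem chain_three {G : Type*} [Group G] {s u v w t : G} (hu : s * u * s⁻¹ = v * u)
    (hv : s * v * s⁻¹ = w * v) (hw : s * w * s⁻¹ = t * w) (h1 : Commute s t) (h2 : Commute t w)
    (h3 : Commute t v) (h4 : Commute w v) (k : ℕ) :
    s ^ k * u * (s ^ k)⁻¹ = t ^ k.choose 3 * w ^ k.choose 2 * v ^ k * u := by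
  induction k with
  | zero => simp
  | succ k ih =>
    have h5 := conj_pow_eq_of_chain hv hw h1 h2 k
    have h6 : s ^ (k + 1) * u * (s ^ (k + 1))⁻¹ =
        (s ^ k * v * (s ^ k)⁻¹) * (s ^ k * u * (s ^ k)⁻¹) := by
      rw [pow_succ, mul_inv_rev, mul_assoc (s ^ k), mul_assoc (s ^ k), ← mul_assoc (s * u), hu]
      group
    rw [h6, h5, ih, Nat.choose_succ_succ' k 2, Nat.choose_succ_succ' k 1, Nat.choose_one_right,
      pow_add, pow_add, pow_succ' v]
    simp only [mul_assoc]
    rw [(h3.pow_left _).symm.left_comm, (h4.pow_left _).symm.left_comm,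
      ((h2.pow_pow _ _).symm).left_comm]

section
variable {G : Type*} [Group G] [Finite G] {p : ℕ} [hp : Fact p.Prime]

theorem exists_H (hp2 : p ≠ 2) (hG : IsPGroup p G) (R : Subgroup G) [hRn : R.Normal]
    (hmc : IsMetacyclic R) (hc : ¬ IsCyclic R)
    (hnc : ∀ C ≤ R, IsCyclic C → Nat.card R ≠ p * Nat.card C) :
    ∃ H : Subgroup G, H.Normal ∧ Nat.card H = p ^ 4 ∧
      ∀ x, x ∈ H ↔ x ∈ R ∧ x ^ p ∈ omegaOne p R := by
  obtain ⟨hY, hYc⟩ := ohm1_metacyclic_p2Elem hp2 (hG.to_subgroup R) hmc hc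
  have hYn := PGrp.normal_omegaOne (p := p) R
  set Y := omegaOne p R with hYdef
  have hYR : Y ≤ R := PGrp.omegaOne_le R
  have hQ := hG.to_quotient Y
  have hn := hRn.map _ (QuotientGroup.mk'_surjective Y)
  have h1 : ¬ IsCyclic (R.map (QuotientGroup.mk' Y)) := by
    intro h
    obtain ⟨g', hg⟩ := (Subgroup.isCyclic_iff_exists_zpowers_eq_top _).1 h
    obtain ⟨g, hgR, rfl⟩ : g' ∈ R.map (QuotientGroup.mk' Y) := hg ▸ mem_zpowers g'
    have h2 : zpowers g ⊔ Y = R := by
      have := congrArg (comap (QuotientGroup.mk' Y)) hg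
      rwa [← MonoidHom.map_zpowers, comap_map_eq, comap_map_eq, QuotientGroup.ker_mk',
        sup_eq_left.2 hYR] at this
    by_cases hg1 : g = 1
    · rw [hg1, zpowers_one_eq_bot, bot_sup_eq] at h2
      obtain ⟨C, hC1, hC2⟩ := exists_le_card_eq_pow (k := 1) (hG.to_subgroup R)
        (h2 ▸ hYc ▸ Nat.pow_le_pow_right hp.out.pos (by omega))
      rw [pow_one] at hC2
      exact hnc C hC1 (isCyclic_of_card_le_prime (hG.to_subgroup C) hC2.le)
        (by rw [← h2, hYc, hC2, sq])
    · have h3 := card_sup_mul_card_inf (H := zpowers g) (N := Y) le_normalizer_of_normal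
      have h4 : zpowers g ⊓ Y = omegaOne p (zpowers g) :=
        le_antisymm (le_omegaOne inf_le_left fun x hx => hY.2 x hx.2)
          (le_inf (PGrp.omegaOne_le _) (omegaOne_mono (zpowers_le.2 hgR)))
      rw [h2, h4, card_omegaOne_of_isCyclic (hG.to_subgroup _) inferInstance
        (zpowers_ne_bot.2 hg1), hYc] at h3
      exact hnc _ (zpowers_le.2 hgR) inferInstance
        (Nat.eq_of_mul_eq_mul_right hp.out.pos (h3.trans (by ring)))
  obtain ⟨h5, h6⟩ := ohm1_metacyclic_p2Elem hp2 (hQ.to_subgroup _)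
    (isMetacyclic_of_surjective hmc _ ((QuotientGroup.mk' Y).subgroupMap_surjective R)) h1
  refine ⟨(omegaOne p (R.map (QuotientGroup.mk' Y))).comap (QuotientGroup.mk' Y),
    (PGrp.normal_omegaOne _).comap _, by rw [card_comap_mk', h6, hYc, ← pow_add], fun x =>
    ⟨fun hx => ⟨?_, (QuotientGroup.eq_one_iff _).1 (h5.2 _ hx)⟩, fun hx =>
      mem_omegaOne ⟨x, hx.1, rfl⟩ ((QuotientGroup.eq_one_iff _).2 hx.2)⟩⟩
  have : x ∈ (R.map (QuotientGroup.mk' Y)).comap (QuotientGroup.mk' Y) :=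
    comap_mono (PGrp.omegaOne_le _) hx
  rwa [comap_map_eq, QuotientGroup.ker_mk', sup_eq_left.2 hYR] at this

theorem forward (hp2 : p ≠ 2) (hG : IsPGroup p G) (R : Subgroup G) [hRn : R.Normal]
    (hRi : R.index ≤ p) (hmc : IsMetacyclic R) (hc : ¬ IsCyclic R)
    (hnc : ∀ C ≤ R, IsCyclic C → Nat.card R ≠ p * Nat.card C) {s : G} (hsp : s ^ p = 1)
    (hs : s ∉ centralizer ((omegaOne p R : Subgroup G) : Set G)) :
    p = 3 ∧ Nat.card (centralizer ({s} : Set G)) = p ^ 2 := by
  obtain ⟨hY, hYc⟩ := ohm1_metacyclic_p2Elem hp2 (hG.to_subgroup R) hmc hc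
  obtain ⟨H, hHn, hHc, hH⟩ := exists_H hp2 hG R hmc hc hnc
  have hYn := PGrp.normal_omegaOne (p := p) R
  set Y := omegaOne p R with hYdef
  have hYR : Y ≤ R := PGrp.omegaOne_le R
  have hHR : H ≤ R := fun x hx => ((hH x).1 hx).1
  have hYH : Y ≤ H := fun y hy => (hH y).2 ⟨hYR hy, pow_mem hy p⟩
  obtain ⟨Z, hZn, hZY, hZ⟩ := PGrp.exists_normal_le_card_eq_pow hG Y 1
    (hYc ▸ Nat.pow_le_pow_right hp.out.pos (by omega))
  rw [pow_one] at hZ
  have hZc := PGrp.le_center_of_card_eq_prime hG Z hZ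
  obtain ⟨V, hVn, hYV, hVH, hV⟩ := PGrp.exists_normal_card_eq_pow_between hG Y H hYH 3
    (hYc ▸ Nat.pow_le_pow_right hp.out.pos (by omega))
    (hHc ▸ Nat.pow_le_pow_right hp.out.pos (by omega))
  have hH' : ⁅H, H⁆ ≤ Y := commutator_le.2 fun x hx y hy =>
    commutator_mem_of_card_le_sq hG Y hYH (by rw [hHc, hYc, ← pow_add]) hx hy
  have hH'c : (⊤ : Subgroup G) ≤ centralizer ((⁅H, H⁆ : Subgroup G) : Set G) :=
    le_centralizer_of_card_le_prime (hG.to_subgroup ⊤) (hG.to_subgroup _) le_normalizer_of_normal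
      (card_le_of_isCyclic_of_pow_eq_one (isCyclic_commutator_of_metacyclic (hG.to_subgroup H)
        (PGrp.isMetacyclic_of_injective hmc _ (inclusion_injective hHR)))
        fun x hx => hY.2 x (hH' hx))
  have hcomm : ∀ x ∈ H, ∀ y ∈ H, ∀ g : G, Commute ⁅x, y⁆ g := fun x hx y hy g =>
    mem_centralizer_iff.1 (hH'c (mem_top g)) _ (commutator_mem_commutator hx hy)
  obtain ⟨hpow, -⟩ := exists_omega_of_class_two hp2 H fun x hx y hy =>
    ⟨mem_centralizer_iff.2 fun g _ => (hcomm x hx y hy g).symm,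
      hY.2 _ (hH' (commutator_mem_commutator hx hy))⟩
  have hsurj : ∀ y ∈ Y, ∃ u ∈ H, u ^ p = y := by
    let φ : H →* G := MonoidHom.mk' (fun x => (x : G) ^ p) fun a b => hpow a a.2 b b.2
    have h1 : φ.range ≤ Y := by rintro _ ⟨x, rfl⟩; exact ((hH x).1 x.2).2
    have h2 : Nat.card φ.ker ≤ p ^ 2 := by
      rw [← card_map_subtype, ← hYc]
      refine card_le_of_le ?_
      rintro _ ⟨x, hx, rfl⟩
      exact mem_omegaOne (hHR x.2) hx
    have h3 := φ.ker.card_mul_index
    rw [index_ker, hHc] at h3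
    have h4 := eq_of_le_of_card_le h1 (by
      rw [hYc]
      refine Nat.le_of_mul_le_mul_left ?_ (pow_pos hp.out.pos 2)
      rw [← pow_add]
      exact h3.ge.trans (Nat.mul_le_mul_right _ h2))
    intro y hy
    obtain ⟨u, hu⟩ : y ∈ φ.range := h4 ▸ hy
    exact ⟨u, u.2, hu⟩
  have hHY : ∀ y ∈ Y, ∀ h ∈ H, Commute y h := fun y hy h hh => by
    obtain ⟨u, hu, rfl⟩ := hsurj y hy
    rw [← commutatorElement_eq_one_iff_commute, CommCalc.comm_pow_left (hcomm u hu h hh u).symm]
    exact hY.2 _ (hH' (commutator_mem_commutator hu hh))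
  have hcd : ∀ b : G, s * b * s⁻¹ = ⁅s, b⁆ * b := fun b => by simp [commutatorElement_def]
  have hinv : ∀ {N : Subgroup G} {b : G}, ⁅b, s⁆ ∈ N ↔ ⁅s, b⁆ ∈ N := fun {N b} => by
    rw [← commutatorElement_inv, inv_mem_iff]
  obtain ⟨u, hu, huY⟩ : ∃ u ∈ H, ⁅s, u⁆ ∉ Y := by
    by_contra hcon
    push Not at hcon
    refine hs (mem_centralizer_iff.2 fun y hy => ?_)
    obtain ⟨u, hu, rfl⟩ := hsurj y hy
    have h1 := hpow _ (hYH (hcon u hu)) u hu
    rw [← hcd, conj_pow, hY.2 _ (hcon u hu), one_mul] at h1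
    exact (mul_inv_eq_iff_eq_mul.1 h1).symm
  have hv : ⁅s, u⁆ ∈ V := hinv.1 (commutator_mem_of_card_le_prime hG V H hVH
    (by rw [hHc, hV, ← pow_succ']) hu s)
  have hVY : ∀ v ∈ V, ⁅s, v⁆ ∈ Y := fun v hv => hinv.1 (commutator_mem_of_card_le_prime hG Y V hYV
    (by rw [hYc, hV, ← pow_succ']) hv s)
  have hYZ : ∀ v ∈ Y, ⁅s, v⁆ ∈ Z := fun v hv => hinv.1 (commutator_mem_of_card_le_prime hG Z Y hZY
    (by rw [hYc, hZ, sq]) hv s)
  have hw := hVY _ hv
  have ht := hYZ _ hw
  have h1 := chain_three (hcd u) (hcd _) (hcd _) (mem_center_iff.1 (hZc ht) s)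
    (mem_center_iff.1 (hZc ht) _).symm (mem_center_iff.1 (hZc ht) _).symm (hHY _ hw _ (hVH hv)) p
  have h2 : ⁅s, ⁅s, u⁆⁆ ^ p.choose 2 = 1 := by
    obtain ⟨k, hk⟩ := hp.out.dvd_choose_self two_ne_zero (lt_of_le_of_ne hp.out.two_le hp2.symm)
    rw [hk, pow_mul, hY.2 _ hw, one_pow]
  rw [hsp, h2, one_mul, inv_one, mul_one, mul_one, right_eq_mul] at h1
  have h3 : ⁅s, ⁅s, ⁅s, u⁆⁆⁆ ^ p.choose 3 ≠ 1 := fun h => by
    rw [h, one_mul] at h1
    exact huY (mem_omegaOne (hHR (hVH hv)) h1)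
  refine ⟨?_, le_antisymm ?_ (PGrp.sq_le_card_centralizer hG (hYc ▸ card_le_card_group Y) s)⟩
  · by_contra h
    have h4 := hp.out.two_le
    obtain ⟨k, hk⟩ := hp.out.dvd_choose_self three_ne_zero (by omega : 3 < p)
    exact h3 (by rw [hk, pow_mul, hY.2 _ (hZY ht), one_pow])
  have hkey : R ⊓ centralizer {s} ≤ Z := by
    intro c₀ hc₀
    by_contra hc₀Z
    obtain ⟨k, hk1, hk2⟩ := PGrp.exists_pow_not_mem_pow_prime_mem hG Z hc₀Z
    set c := c₀ ^ p ^ k with hcdef
    have hc : c ∈ R ⊓ centralizer {s} := pow_mem hc₀ _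
    have hcH : c ∈ H := (hH c).2 ⟨hc.1, hZY hk2⟩
    have hcY : c ∉ Y := by
      intro hcY
      have h1 := PGrp.mul_card_le_card_of_lt (hG.to_subgroup (Y ⊓ centralizer {s}))
        (lt_of_le_not_ge (le_inf hZY (hZc.trans (center_le_centralizer _)))
          fun h' => hk1 (h' (mem_inf.2 ⟨hcY, hc.2⟩)))
      have h2 := eq_of_le_of_card_le (inf_le_left : Y ⊓ centralizer {s} ≤ Y)
        (by rw [hYc, sq]; rwa [hZ] at h1)
      refine hs (mem_centralizer_iff.2 fun y hy => ?_)
      rw [← h2] at hy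
      exact mem_centralizer_singleton_iff.1 (mem_inf.1 hy).2
    have hmem : ∀ (N : Subgroup G) [N.Normal] (g : G), g ∈ CommCalc.relCent N {s} ↔ ⁅s, g⁆ ∈ N :=
      fun N _ g => by
        rw [CommCalc.mem_relCent, ← hinv]
        exact ⟨fun h => h.2 s rfl, fun h => ⟨le_normalizer_of_normal (mem_top g), by
          rintro _ rfl; exact h⟩⟩
    have h4 : Y < H ⊓ CommCalc.relCent Z {s} := lt_of_le_not_ge
      (le_inf hYH fun y hy => (hmem Z y).2 (hYZ y hy)) fun h => hcY (h (mem_inf.2 ⟨hcH,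
        (hmem Z c).2 (by
          rw [commutatorElement_eq_one_iff_mul_comm.2 (mem_centralizer_singleton_iff.1 hc.2).symm]
          exact one_mem Z)⟩))
    have h5 : H ⊓ CommCalc.relCent Y {s} < H := lt_of_le_not_ge inf_le_left
      fun h => huY ((hmem Y u).1 (h hu).2)
    have h6 := PGrp.mul_card_le_card_of_lt (hG.to_subgroup _) h4
    have h7 := PGrp.mul_card_le_card_of_lt (hG.to_subgroup _) h5
    rw [hHc, pow_succ' p 3] at h7
    have h8 := eq_of_le_of_card_le (show H ⊓ CommCalc.relCent Z {s} ≤ H ⊓ CommCalc.relCent Y {s} from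
      inf_le_inf_left _ fun g hg => (hmem Y g).2 (hZY ((hmem Z g).1 hg)))
      ((Nat.le_of_mul_le_mul_left h7 hp.out.pos).trans (by rwa [hYc, ← pow_succ'] at h6))
    have h9 : ⁅s, u⁆ ∈ H ⊓ CommCalc.relCent Z {s} := h8 ▸ mem_inf.2 ⟨hVH hv, (hmem Y _).2 hw⟩
    apply h3
    rw [commutatorElement_eq_one_iff_mul_comm.2 (mem_center_iff.1 (hZc ((hmem Z _).1 h9.2)) s),
      one_pow]
  refine (card_le_index_mul_card_inf _ R).trans ?_
  rw [sq]
  exact Nat.mul_le_mul hRi (hZ ▸ card_le_of_le hkey)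

theorem le_commutator_of_maxClass {n : ℕ} (hG : Nat.card G = p ^ n)
    (h : (⊤ : Subgroup G).lowerCentralSeries (n - 2) ≠ ⊥) (C : Subgroup G) [C.Normal] {k : ℕ}
    (hC : Nat.card C = p ^ k) (hk : k + 2 ≤ n) : C ≤ _root_.commutator G := by
  have hP : IsPGroup p G := IsPGroup.of_card hG
  have h1 : Nat.card (G ⧸ C) = p ^ (n - k) := by
    have := card_eq_card_quotient_mul_card_subgroup C
    rw [hG, hC, show n = (n - k) + k by omega, pow_add] at this
    exact (Nat.eq_of_mul_eq_mul_right (pow_pos hp.out.pos k) this).symm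
  have h2 := PGrp.lowerCentralSeries_eq_bot_of_card h1 (by omega)
  have h3 : (⊤ : Subgroup G).lowerCentralSeries (n - k - 1) ≤ C := by
    rw [← map_top_of_surjective _ (QuotientGroup.mk'_surjective C), ← Subgroup.map_lowerCentralSeries,
      Subgroup.map_eq_bot_iff, QuotientGroup.ker_mk'] at h2
    exact h2
  have h4 : C = (⊤ : Subgroup G).lowerCentralSeries (n - k - 1) := by
    refine (eq_of_le_of_card_le h3 ?_).symm
    rcases Nat.eq_zero_or_pos k with rfl | hk0
    · rw [hC]; exact Nat.card_pos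
    · have := PGrp.pow_mul_card_lowerCentralSeries_le hP (n - k - 1) (k - 1)
        (by rwa [show n - k - 1 + (k - 1) = n - 2 by omega])
      rw [show k - 1 + 1 = k by omega] at this
      rw [hC]
      exact le_trans (Nat.le_mul_of_pos_right _ Nat.card_pos) this
  rw [h4]
  exact Subgroup.lowerCentralSeries_antitone ⊤ (show 1 ≤ n - k - 1 by omega)

theorem backward (hp2 : p ≠ 2) {m : ℕ} (hG : Nat.card G = p ^ (m + 1)) (R : Subgroup G)
    [hRn : R.Normal] (hRi : R.index = p) (hmc : IsMetacyclic R) (hc : ¬ IsCyclic R)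
    (hnc : ∀ C ≤ R, IsCyclic C → Nat.card R ≠ p * Nat.card C) {s : G} (hsp : s ^ p = 1)
    (hsR : s ∉ R) (hcl : Group.nilpotencyClass G = m) :
    s ∉ centralizer ((omegaOne p R : Subgroup G) : Set G) := by
  have hP : IsPGroup p G := IsPGroup.of_card hG
  obtain ⟨hY, hYc⟩ := ohm1_metacyclic_p2Elem hp2 (hP.to_subgroup R) hmc hc
  obtain ⟨H, -, hHc, hH⟩ := exists_H hp2 hP R hmc hc hnc
  have hm : 4 ≤ m := by
    have h1 := card_le_of_le (show H ≤ R from fun x hx => ((hH x).1 hx).1)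
    have h2 := R.card_mul_index
    rw [hRi, hG, pow_succ] at h2
    rw [hHc, Nat.eq_of_mul_eq_mul_right hp.out.pos h2] at h1
    exact (Nat.pow_le_pow_iff_right hp.out.one_lt).1 h1
  have hr : PRankLE p 2 G := by
    by_contra hr
    obtain ⟨C, -, h1, h2, h3⟩ := rank3_normal_abelem_p3 hp2 (hP.to_subgroup ⊤)
      (fun h' => hr (pRankLE_top.1 h'))
    have := normal_of_le_normalizer_top h1
    have h4 := (le_commutator_of_maxClass hG
      ((PGrp.nilpotencyClass_eq_iff_lowerCentralSeries_ne_bot hG (by omega)).1 hcl) C h3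
      (by omega)).trans (PGrp.commutator_le_of_index_eq_prime R hRi)
    have h5 := card_le_of_le (le_omegaOne h4 h2.2)
    rw [h3, hYc] at h5
    exact absurd ((Nat.pow_le_pow_iff_right hp.out.one_lt).1 h5) (by omega)
  exact fun h => hsR (PGrp.omegaOne_le R (mem_of_rank_two hr hY hYc h hsp))

end

/-- Let p be an odd prime and L a finite metacyclic p-group with no cyclic subgroup of index p, and let a be an automorphism of L of order p. Then a moves some element of order p of L if and only if p = 3 and the semidirect product L ⋊ ⟨a⟩ (of order 3·#L) has maximal class, i.e. nilpotency class m where #L = 3^m. -/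
theorem result {L : Type*} [Group L] [Finite L] {p : ℕ} [Fact p.Prime]
    (hp : p ≠ 2) (hL : IsPGroup p L) (hmc : Cfsg.IsMetacyclic L) (hnc : ∀ C : Subgroup L, IsCyclic C → C.index ≠ p)
    (a : MulAut L) (ha : orderOf a = p) (m : ℕ) (hm : Nat.card L = p ^ m) :
    (∃ x : L, orderOf x = p ∧ a x ≠ x) ↔
    (p = 3 ∧ Group.nilpotencyClass (SemidirectProduct L ↥(Subgroup.zpowers a) (Subgroup.zpowers a).subtype) = m) := by
  have hpp := (Fact.out : p.Prime)
  have hcyc : ¬ IsCyclic L := by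
    intro h
    rcases subsingleton_or_nontrivial L with h0 | h0
    · have : a = 1 := MulEquiv.ext fun x => Subsingleton.elim _ _
      rw [this, orderOf_one] at ha
      exact hpp.one_lt.ne ha
    · obtain ⟨C, hC⟩ := (eq_top_or_exists_le_coatom (⊥ : Subgroup L)).resolve_left bot_ne_top
      exact hnc C inferInstance ((PGrp.isCoatom_iff_index_eq hL).1 hC.1)
  set G := SemidirectProduct L ↥(Subgroup.zpowers a) (Subgroup.zpowers a).subtype
  have hfin : Finite G := Finite.of_equiv _ SemidirectProduct.equivProd.symm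
  have hG : Nat.card G = p ^ (m + 1) := by
    rw [SemidirectProduct.card, hm, Nat.card_zpowers, ha, pow_succ]
  have hP : IsPGroup p G := IsPGroup.of_card hG
  let R : Subgroup G := (SemidirectProduct.inl : L →* G).range
  have hRn : R.Normal := by
    simp only [R]; rw [SemidirectProduct.range_inl_eq_ker_rightHom]; infer_instance
  let e : L ≃* R := MonoidHom.ofInjective SemidirectProduct.inl_injective
  have hRc : Nat.card R = p ^ m := by rw [← Nat.card_congr e.toEquiv, hm]
  have hRi : R.index = p := by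
    have := R.card_mul_index
    rw [hRc, hG, pow_succ] at this
    exact Nat.eq_of_mul_eq_mul_left (pow_pos hpp.pos m) this
  have hRm : IsMetacyclic R := isMetacyclic_of_surjective hmc e.toMonoidHom e.surjective
  have hRcyc : ¬ IsCyclic R := fun h => hcyc (isCyclic_of_surjective e.symm e.symm.surjective)
  have hRnc : ∀ C ≤ R, IsCyclic C → Nat.card R ≠ p * Nat.card C := by
    intro C hC h1 h2
    have h3 : (C.comap (SemidirectProduct.inl : L →* G)).map SemidirectProduct.inl = C :=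
      map_comap_eq_self hC
    have e2 := (C.comap (SemidirectProduct.inl : L →* G)).equivMapOfInjective
      (SemidirectProduct.inl : L →* G) SemidirectProduct.inl_injective
    rw [h3] at e2
    refine hnc _ (isCyclic_of_surjective e2.symm e2.symm.surjective) ?_
    have h4 := (C.comap (SemidirectProduct.inl : L →* G)).card_mul_index
    rw [Nat.card_congr e2.toEquiv, Nat.card_congr e.toEquiv, h2, mul_comm] at h4
    exact Nat.eq_of_mul_eq_mul_right Nat.card_pos h4
  let s : G := SemidirectProduct.inr ⟨a, mem_zpowers a⟩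
  have hsp : s ^ p = 1 := by
    simp only [s]
    rw [← map_pow, show (⟨a, mem_zpowers a⟩ : zpowers a) ^ p = 1 from
      Subtype.ext (by simp [← ha]), map_one]
  have hsR : s ∉ R := by
    rintro ⟨x, hx⟩
    have := congrArg (fun g : G => (g.right : MulAut L)) hx
    simp only [s, SemidirectProduct.right_inl, SemidirectProduct.right_inr, OneMemClass.coe_one] at this
    rw [← this, orderOf_one] at ha
    exact hpp.one_lt.ne ha
  have hconj : ∀ x : L, (SemidirectProduct.inl x : G) * s = s * SemidirectProduct.inl x ↔ a x = x := by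
    intro x
    have h1 : (SemidirectProduct.inl (a x) : G) = s * SemidirectProduct.inl x * s⁻¹ := by
      simpa [s] using SemidirectProduct.inl_aut (φ := (zpowers a).subtype) ⟨a, mem_zpowers a⟩ x
    have hinj : Function.Injective (SemidirectProduct.inl : L →* G) :=
      SemidirectProduct.inl_injective
    rw [← hinj.eq_iff, h1, mul_inv_eq_iff_eq_mul, eq_comm]
  have key : (∃ x : L, orderOf x = p ∧ a x ≠ x) ↔
      s ∉ centralizer ((omegaOne p R : Subgroup G) : Set G) := by
    constructor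
    · rintro ⟨x, hx1, hx2⟩ h
      exact hx2 ((hconj x).1 (mem_centralizer_iff.1 h _ (mem_omegaOne ⟨x, rfl⟩
        (by rw [← map_pow, ← hx1, pow_orderOf_eq_one, map_one]))))
    · intro h
      by_contra hcon
      push Not at hcon
      refine h (le_centralizer_comm (A := omegaOne p R) (B := zpowers s)
        (omegaOne_le_iff.2 ?_) (mem_zpowers s))
      rintro _ ⟨x, rfl⟩ hx
      rw [← map_pow, ← map_one (SemidirectProduct.inl : L →* G),
        SemidirectProduct.inl_injective.eq_iff] at hx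
      have h1 : a x = x := by
        by_cases hx1 : x = 1
        · rw [hx1, map_one]
        · exact hcon x (orderOf_eq_prime hx hx1)
      refine mem_centralizer_iff.2 ?_
      rintro _ ⟨k, rfl⟩
      exact (Commute.zpow_right ((hconj x).2 h1) k).symm
  rw [key]
  exact ⟨fun h => ⟨(forward hp hP R hRi.le hRm hRcyc hRnc hsp h).1,
    PGrp.nilpotencyClass_eq_of_card_centralizer hG (forward hp hP R hRi.le hRm hRcyc hRnc hsp h).2⟩,
    fun h => backward hp hG R hRi hRm hRcyc hRnc hsp hsR h.2⟩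

end Cfsg.Agent.S4079
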