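import Cfsg.Statements.S4080
import Mathlib


set_option autoImplicit false
open Cfsg

namespace Cfsg.Agent.S4080

theorem nil_aux {A : Type*} [Ring A] {p : ℕ} (hpp : p.Prime) (hp1 : (p : A) * p = 0) {N : A}
    (h1 : (1 + N) ^ p = 1) : IsNilpotent N := by
  obtain ⟨S, hS⟩ := (Commute.one_left N).exists_add_pow_prime_eq hpp
  rw [h1, one_pow, add_assoc, left_eq_add, add_eq_zero_iff_eq_neg] at hS
  refine ⟨p * 2, ?_⟩
  rw [pow_mul, hS, neg_sq, mul_one, mul_assoc, (Nat.cast_commute p _).mul_pow, pow_two, hp1,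
    zero_mul]

theorem ring_aux {A : Type*} [Ring A] {p : ℕ} (hpp : p.Prime) (hp : 3 < p)
    (hp1 : (p : A) * p = 0) {N M : A} (h1 : (1 + N) ^ p = 1) (h3 : N ^ 2 = p * M) :
    (p : A) * N = 0 := by
  have h4 : (p : A) * N ^ 2 = 0 := by
    rw [h3, ← mul_assoc, hp1, zero_mul]
  have h5 : N ^ 4 = 0 := by
    rw [show 4 = 2 * 2 from rfl, pow_mul, h3, (Nat.cast_commute p _).mul_pow, pow_two, hp1,
      zero_mul]
  have h6 : ∀ n : ℕ, (1 + N) ^ n =
      1 + n * N + (n.choose 2 : ℕ) * N ^ 2 + (n.choose 3 : ℕ) * N ^ 3 := by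
    intro n
    induction n with
    | zero => simp
    | succ n ih =>
      rw [pow_succ, ih, Nat.choose_succ_succ' n 1, Nat.choose_succ_succ' n 2, Nat.choose_one_right]
      push_cast
      have : (n.choose 3 : A) * N ^ 4 = 0 := by rw [h5, mul_zero]
      rw [← sub_eq_zero, ← this]
      noncomm_ring
  have h := h6 p
  obtain ⟨c, hc⟩ := hpp.dvd_choose_self two_ne_zero (by omega : 2 < p)
  obtain ⟨e, he⟩ := hpp.dvd_choose_self three_ne_zero hp
  rw [h1, hc, he, mul_comm p c, mul_comm p e, Nat.cast_mul, Nat.cast_mul, mul_assoc, mul_assoc,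
    h4, pow_succ N 2, ← mul_assoc _ (N ^ 2), h4] at h
  simpa using h

theorem end_aux {R : Type*} [CommRing R] {p : ℕ} (hpp : p.Prime) (hp : 3 < p)
    (hp0 : (p : R) * p = 0) (hnil : ∀ t : R, IsNilpotent t → ∃ s : R, t = p * s)
    (f : Module.End R (R × R)) (hf : (1 + f) ^ p = 1) : (p : Module.End R (R × R)) * f = 0 := by
  let Ψ := LinearMap.toMatrixAlgEquiv (Module.Basis.finTwoProd R)
  have hp1 : (p : Module.End R (R × R)) * p = 0 := by
    have := congrArg (algebraMap R (Module.End R (R × R))) hp0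
    rwa [map_mul, map_natCast, map_zero] at this
  have h2 : IsNilpotent (Ψ f) := (nil_aux hpp hp1 hf).map Ψ
  obtain ⟨t, ht⟩ := hnil _ (Matrix.isNilpotent_trace_of_isNilpotent h2)
  obtain ⟨d, hd⟩ := hnil (Ψ f).det (by
    obtain ⟨k, hk⟩ := h2
    exact ⟨k, by rw [← Matrix.det_pow, hk, Matrix.det_zero]⟩)
  refine ring_aux hpp hp hp1 hf (M := t • f - d • 1) ?_
  have h : ∀ N : Matrix (Fin 2) (Fin 2) R, N ^ 2 = N.trace • N - N.det • 1 := by
    intro N
    ext i j
    fin_cases i <;> fin_cases j <;>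
      simp [pow_two, Matrix.mul_apply, Matrix.trace_fin_two, Matrix.det_fin_two] <;> ring
  have h' : f ^ 2 = (Ψ f).trace • f - (Ψ f).det • 1 := by
    apply Ψ.injective
    rw [map_pow, map_sub, map_smul, map_smul, map_one]
    exact h _
  rw [h', ht, hd, mul_smul, mul_smul, Nat.cast_smul_eq_nsmul, Nat.cast_smul_eq_nsmul,
    nsmul_eq_mul, nsmul_eq_mul, mul_sub]


/-- Let p > 3 be a prime and L the direct product of two cyclic groups of order p². Every automorphism of L of order p fixes every element of order p of L. -/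
theorem result {p : ℕ} [Fact p.Prime] (hp : 3 < p)
    (a : MulAut (Multiplicative (ZMod (p ^ 2) × ZMod (p ^ 2)))) (ha : orderOf a = p)
    (x : Multiplicative (ZMod (p ^ 2) × ZMod (p ^ 2))) (hx : orderOf x = p) : a x = x := by
  have hpp : p.Prime := Fact.out
  have : NeZero (p ^ 2) := ⟨pow_ne_zero 2 hpp.ne_zero⟩
  have : Fact (1 < p ^ 2) := ⟨Nat.one_lt_pow two_ne_zero hpp.one_lt⟩
  have hp0 : (p : ZMod (p ^ 2)) * p = 0 := by
    rw [← Nat.cast_mul, ZMod.natCast_eq_zero_iff]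
    exact (pow_two p).dvd
  have hnil : ∀ t : ZMod (p ^ 2), IsNilpotent t → ∃ s : ZMod (p ^ 2), t = (p : ZMod (p ^ 2)) * s := by
    rintro t ⟨k, hk⟩
    rw [← ZMod.natCast_zmod_val t, ← Nat.cast_pow, ZMod.natCast_eq_zero_iff] at hk
    obtain ⟨s, hs⟩ := hpp.dvd_of_dvd_pow ((dvd_pow_self p two_ne_zero).trans hk)
    exact ⟨s, by rw [← ZMod.natCast_zmod_val t, hs, Nat.cast_mul]⟩
  have hann : ∀ t : ZMod (p ^ 2), (p : ZMod (p ^ 2)) * t = 0 → ∃ s : ZMod (p ^ 2), t = (p : ZMod (p ^ 2)) * s := by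
    intro t ht
    rw [← ZMod.natCast_zmod_val t, ← Nat.cast_mul, ZMod.natCast_eq_zero_iff] at ht
    obtain ⟨s, hs⟩ := Nat.dvd_of_mul_dvd_mul_left hpp.pos ((pow_two p).symm.dvd.trans ht)
    exact ⟨s, by rw [← ZMod.natCast_zmod_val t, hs, Nat.cast_mul]⟩
  let Φ : MulAut (Multiplicative (ZMod (p ^ 2) × ZMod (p ^ 2))) →*
      Module.End (ZMod (p ^ 2)) (ZMod (p ^ 2) × ZMod (p ^ 2)) :=
    { toFun := fun a => (AddMonoidHom.toMultiplicative.symm a.toMonoidHom).toZModLinearMap (p ^ 2)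
      map_one' := by ext <;> rfl
      map_mul' := fun a b => by ext <;> rfl }
  have h1 : a ^ p = 1 := orderOf_dvd_iff_pow_eq_one.mp ha.dvd
  have h8 := end_aux hpp hp hp0 hnil (Φ a - 1) (by rw [add_sub_cancel, ← map_pow, h1, map_one])
  have h9 : p • x.toAdd = 0 := by
    have : x ^ p = 1 := orderOf_dvd_iff_pow_eq_one.mp hx.dvd
    rw [← toAdd_pow, this, toAdd_one]
  obtain ⟨u, hu⟩ := hann x.toAdd.1 (by simpa using congrArg Prod.fst h9)
  obtain ⟨v, hv⟩ := hann x.toAdd.2 (by simpa using congrArg Prod.snd h9)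
  have h10 : x.toAdd = p • (u, v) := Prod.ext (by simpa using hu) (by simpa using hv)
  have h11 : (Φ a - 1) x.toAdd = 0 := by
    rw [h10, map_nsmul]
    have := LinearMap.congr_fun h8 (u, v)
    simpa using this
  rw [LinearMap.sub_apply, sub_eq_zero] at h11
  exact h11

end Cfsg.Agent.S4080
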