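import Cfsg.Statements.S4081
import Mathlib
import Cfsg.Agent.Lib.H5AutOrbits
import Cfsg.Agent.Lib.CoreSolvable
import Cfsg.Agent.Lib.CoreElements
import Cfsg.Agent.Lib.FrobFPFStruct
import Cfsg.Agent.Lib.CharFrobenius
import Cfsg.Agent.Lib.PGroupBasic

set_option autoImplicit false
open Cfsg

namespace Cfsg.Agent.S4081
open Subgroup Cfsg CfsgLib CfsgLib.H5 Polynomial

theorem forward {G : Type*} [Group G] [Finite G] {p q : ℕ} [hp : Fact p.Prime] [hq : Fact q.Prime]
    (hpq : p ≠ q) (hqG : q ∣ Nat.card G)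
    (hord : ∀ x : G, orderOf x = 1 ∨ orderOf x = p ∨ orderOf x = q)
    (horb : ∀ x y : G, orderOf x = orderOf y → ∃ α : MulAut G, α x = y) (h : pCore p G ≠ ⊥) :
    ∃ n, 1 ≤ n ∧ Nat.card G = p ^ n * q ∧
      (∀ P : Sylow p G, (P : Subgroup G).Normal ∧ Cfsg.IsElementaryAbelian p (P : Subgroup G)) ∧
      orderOf (p : ZMod q) = q - 1 ∧
      ∀ x y : G, orderOf x = q → orderOf y = p → x * y * x⁻¹ ≠ y := by
  classical
  have hcop : p.Coprime q := (Nat.coprime_primes hp.out hq.out).mpr hpq
  have hfpf : ∀ x y : G, orderOf x = q → orderOf y = p → x * y * x⁻¹ ≠ y := fun x y hx hy h => by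
    have h1 := Commute.orderOf_mul_eq_mul_orderOf_of_coprime (mul_inv_eq_iff_eq_mul.mp h)
      (by rw [hx, hy]; exact hcop.symm)
    have h2 := hp.out.two_le
    have h3 := hq.out.two_le
    rw [hx, hy] at h1
    rcases hord (x * y) with h | h | h <;> nlinarith
  have hprime : ∀ {r s : ℕ}, r.Prime → s.Prime → r ≠ s → ∀ k, r ^ k ≠ s := fun hr hs hrs k h =>
    hrs (hs.pow_eq_iff.mp h).1
  have hVp : IsPGroup p (pCore p G) := pCore_isPGroup p
  have hVch : (pCore p G).Characteristic := pCore_characteristic p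
  have hPV : ∀ P : Sylow p G, pCore p G ≤ P := pCore_le_sylow
  generalize pCore p G = V at *
  have hVα : ∀ (α : MulAut G), ∀ v ∈ V, α v ∈ V := fun α v hv =>
    (characteristic_iff_le_comap.mp hVch α) hv
  have hpo : ∀ {P : Subgroup G}, IsPGroup p P → ∀ v ∈ P, v ≠ 1 → orderOf v = p := by
    intro P hP v hv hv1
    obtain ⟨k, hk⟩ := orderOf_eq_pow_of_mem_isPGroup hP hv
    rcases hord v with h | h | h
    · exact absurd (orderOf_eq_one_iff.mp h) hv1
    · exact h
    · exact absurd (hk.symm.trans h) (hprime hp.out hq.out hpq k)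
  have := hVp.isNilpotent
  have := (nontrivial_iff_ne_bot V).mpr h
  obtain ⟨z, -, hz1, hz⟩ := PGrp.exists_ne_one_mem_center_of_normal (⊤ : Subgroup V) top_ne_bot
  have hzo := hpo hVp z z.2 (by simpa using hz1)
  have hVc : IsMulCommutative V := PGrp.isMulCommutative_iff_forall.mpr fun a ha b hb => by
    by_cases ha1 : a = 1
    · simp [ha1]
    obtain ⟨α, rfl⟩ := horb z a (hzo.trans (hpo hVp a ha ha1).symm)
    have := congrArg (fun y : V => α y) (mem_center_iff.mp hz ⟨α⁻¹ b, hVα _ b hb⟩)
    simpa using this.symm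
  have hVe : ∀ v ∈ V, v ^ p = 1 := fun v hv => by
    by_cases h1 : v = 1
    · simp [h1]
    · rw [← hpo hVp v hv h1, pow_orderOf_eq_one]
  have hPV' : ∀ P : Sylow p G, (P : Subgroup G) = V := fun P => le_antisymm (fun v hv => by
    by_cases h1 : v = 1
    · exact h1 ▸ V.one_mem
    obtain ⟨α, rfl⟩ := horb z v (hzo.trans (hpo P.isPGroup' v hv h1).symm)
    exact hVα α _ z.2) (hPV P)
  obtain ⟨P⟩ : Nonempty (Sylow p G) := inferInstance
  obtain ⟨Q⟩ : Nonempty (Sylow q G) := inferInstance
  have hqo : ∀ v ∈ (Q : Subgroup G), v ≠ 1 → orderOf v = q := by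
    intro v hv hv1
    obtain ⟨k, hk⟩ := orderOf_eq_pow_of_mem_isPGroup Q.isPGroup' hv
    rcases hord v with h | h | h
    · exact absurd (orderOf_eq_one_iff.mp h) hv1
    · exact absurd (hk.symm.trans h) (hprime hq.out hp.out hpq.symm k)
    · exact h
  have hQ : Frob.HasFPF (Q : Subgroup G) := Frob.hasFPF_of_fpf (K := V)
    (by rw [normalizer_eq_top]; exact le_top) h fun x hx hx1 v hv hxv => by
      by_contra hv1
      exact hfpf x v (hqo x hx hx1) (hpo hVp v hv hv1) (mul_inv_eq_iff_eq_mul.mpr hxv)
  have hQc : Nat.card (Q : Subgroup G) = q := by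
    have := Q.isPGroup'.isNilpotent
    have : Nontrivial (Q : Subgroup G) := Finite.one_lt_card_iff_nontrivial.mp
      (hq.out.one_lt.trans_le (Nat.le_of_dvd Nat.card_pos (Q.dvd_card_of_dvd_card hqG)))
    obtain ⟨y, -, hy1, hy⟩ :=
      PGrp.exists_ne_one_mem_center_of_normal (⊤ : Subgroup (Q : Subgroup G)) top_ne_bot
    have hQe : ∀ v : (Q : Subgroup G), v ^ q = 1 := fun v => by
      by_cases h1 : v = 1
      · simp [h1]
      · have := hqo v v.2 (by simpa using h1)
        exact orderOf_dvd_iff_pow_eq_one.mp (by rw [← Subgroup.orderOf_coe, this])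
    have : zpowers y = ⊤ := eq_top_iff.mpr fun v _ =>
      hQ.mem_zpowers_of_commute hq.out (hQe v) (hQe y) hy1 (mem_center_iff.mp hy v)
    rw [← card_top, ← this, Nat.card_zpowers, orderOf_eq_prime (hQe y) hy1]
  obtain ⟨n, hn⟩ := hVp.exists_card_eq
  have hVi : V.index = q := by
    have h1 := Nat.eq_prime_pow_of_unique_prime_dvd (n := V.index) (p := q) index_ne_zero_of_finite
      (fun {r} hr hd => by
        have := Fact.mk hr
        obtain ⟨c, hc⟩ := exists_prime_orderOf_dvd_card' (G := G) r (hd.trans V.index_dvd_card)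
        rcases hc ▸ hord c with h | h | h
        · exact absurd h hr.one_lt.ne'
        · exact absurd (h ▸ hd) (hPV' P ▸ P.not_dvd_index)
        · exact h)
    generalize V.index.primeFactorsList.length = m at h1
    have h2 := Q.pow_dvd_card_of_pow_dvd_card (h1 ▸ V.index_dvd_card)
    have h3 : q ∣ q ^ m := by
      rw [← V.card_mul_index, hn, h1] at hqG
      exact (hcop.symm.pow_right n).dvd_of_dvd_mul_left hqG
    rw [h1]
    exact Nat.dvd_antisymm (h2.trans hQc.dvd) h3
  have hG : Nat.card G = p ^ n * q := by rw [← V.card_mul_index, hn, hVi]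
  refine ⟨n, ?_, hG, fun P => by rw [hPV' P]; exact ⟨inferInstance, hVc, hVe⟩, ?_, hfpf⟩
  · by_contra h0
    obtain rfl : n = 0 := by omega
    exact h (card_eq_one.mp hn)
  obtain ⟨x, hx⟩ := exists_prime_orderOf_dvd_card' (G := G) q hqG
  have hc : V.IsComplement' (zpowers x) := isComplement'_of_coprime
    (by rw [hn, Nat.card_zpowers, hx, hG])
    (by rw [hn, Nat.card_zpowers, hx]; exact hcop.pow_left n)
  letI : CommGroup V := { (inferInstance : Group V) with mul_comm := fun a b => mul_comm' a b }
  obtain ⟨_⟩ := BurnsideBasis.nonempty_elemAbModule (Q := V) (p := p)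
    fun v => Subtype.ext (hVe v v.2)
  let τ : G →* Module.End (ZMod p) (Additive V) :=
    LinearEquiv.automorphismGroup.toLinearMapMonoidHom.comp
      ((BurnsideBasis.elemAbAutEquiv p V).toMonoidHom.comp MulAut.conjNormal)
  let ρ : MulAut G → Module.End (ZMod p) (Additive V) := fun α =>
    AddMonoidHom.toZModLinearMap p (MonoidHom.toAdditive
      ((α.toMonoidHom.comp V.subtype).codRestrict V fun v => hVα α v v.2))
  have hρi : ∀ α, Function.Injective (ρ α) := fun α a b hab =>
    Additive.toMul.injective (Subtype.ext (α.injective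
      (congrArg (fun a => (Additive.toMul a).1) hab)))
  have hρ : ∀ (α : MulAut G) (k : ℕ), ∀ v ∈ V, α x = v * x ^ k → ρ α * τ x = τ x ^ k * ρ α := by
    intro α k v hv hα
    rw [← map_pow]
    ext w
    show α (x * (Additive.toMul w).1 * x⁻¹) = x ^ k * α (Additive.toMul w).1 * (x ^ k)⁻¹
    have h1 : x ^ k * α (Additive.toMul w).1 * (x ^ k)⁻¹ ∈ V :=
      (inferInstance : V.Normal).conj_mem _ (hVα α _ (Additive.toMul w).2) _
    have h2 := PGrp.isMulCommutative_iff_forall.mp hVc v hv _ h1
    rw [map_mul, map_mul, map_inv, hα]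
    calc _ = v * (x ^ k * α (Additive.toMul w).1 * (x ^ k)⁻¹) * v⁻¹ := by group
      _ = _ := by rw [h2]; group
  have hirr := irreducible_minpoly_of_aeval (aeval_eq_zero_or_injective_of_transitive (T := τ x)
    fun u v hu hv => by
      obtain ⟨α, hα⟩ := horb (Additive.toMul u).1 (Additive.toMul v).1
        ((hpo hVp _ (Additive.toMul u).2 fun h => hu (Additive.toMul.injective
          (Subtype.ext h))).trans (hpo hVp _ (Additive.toMul v).2 fun h => hv
            (Additive.toMul.injective (Subtype.ext h))).symm)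
      obtain ⟨⟨w, _, hy⟩, h1⟩ := hc.2 (α x)
      obtain ⟨k, rfl⟩ := mem_powers_iff_mem_zpowers.mpr hy
      exact ⟨ρ α, k, hρi α, Additive.toMul.injective (Subtype.ext hα), hρ α k w w.2 h1.symm⟩)
  have hτo : orderOf (τ x) = q := orderOf_eq_prime
    (by rw [← map_pow, ← hx, pow_orderOf_eq_one, map_one]) fun h1 => hfpf x z hx hzo
      (congrArg (fun S : Module.End (ZMod p) (Additive V) =>
        (Additive.toMul (S (Additive.ofMul z))).1) h1)
  have htop : zpowers (ZMod.unitOfCoprime p hcop) = ⊤ := eq_top_iff.mpr fun u _ => by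
    have h1 : (orderOf x).Coprime (u : ZMod q).val := hx ▸ (ZMod.val_coe_unit_coprime u).symm
    obtain ⟨α, hα⟩ := horb x (x ^ (u : ZMod q).val) h1.orderOf_pow.symm
    obtain ⟨j, hj⟩ := exists_pow_eq_pow_card_pow hirr (hρi α)
      (hρ α _ 1 V.one_mem (by rw [hα, one_mul]))
    rw [(orderOf_pos_iff.mp (hτo ▸ hq.out.pos)).pow_eq_pow_iff_modEq, hτo, ← ZMod.natCast_eq_natCast_iff, Nat.card_zmod] at hj
    refine ⟨j, Units.ext ?_⟩
    simpa using hj.symm
  rwa [← card_eq_iff_eq_top, Nat.card_zpowers, ← orderOf_units, ZMod.coe_unitOfCoprime,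
    Nat.card_eq_fintype_card, ZMod.card_units] at htop


/-- Let G be a finite group whose order is not a prime power. Then the automorphism group of G has exactly three orbits on G if and only if there are distinct primes p, q with #G = pⁿ·q (n ≥ 1) such that G has a normal elementary abelian Sylow p-subgroup P, p is a primitive root modulo q (the multiplicative order of p mod q is q − 1), and every element of order q of G acts on P without non-identity fixed points. -/
theorem result {G : Type*} [Group G] [Finite G] (hnpp : ¬ IsPrimePow (Nat.card G)) (hnt : Nat.card G ≠ 1) :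
    Nat.card (MulAction.orbitRel.Quotient (MulAut G) G) = 3 ↔
    ∃ (p q n : ℕ) (_ : Fact p.Prime) (_ : Fact q.Prime), p ≠ q ∧ 1 ≤ n ∧ Nat.card G = p ^ n * q ∧
      (∀ P : Sylow p G, (P : Subgroup G).Normal ∧ Cfsg.IsElementaryAbelian p (P : Subgroup G)) ∧
      orderOf (p : ZMod q) = q - 1 ∧
      ∀ x y : G, orderOf x = q → orderOf y = p → x * y * x⁻¹ ≠ y := by
  classical
  constructor
  · intro h3
    obtain ⟨p, hp, hpG⟩ := Nat.exists_prime_and_dvd hnt
    obtain ⟨q, ⟨hq, hqG⟩, hqp⟩ : ∃ q, (q.Prime ∧ q ∣ Nat.card G) ∧ q ≠ p := by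
      by_contra hc
      push Not at hc
      exact hnpp (isPrimePow_iff_unique_prime_dvd.mpr ⟨p, ⟨hp, hpG⟩, hc⟩)
    have := Fact.mk hp
    have := Fact.mk hq
    obtain ⟨a, ha⟩ := exists_prime_orderOf_dvd_card' p hpG
    obtain ⟨b, hb⟩ := exists_prime_orderOf_dvd_card' q hqG
    have hinj : ∀ x ∈ ({1, a, b} : Finset G), ∀ y ∈ ({1, a, b} : Finset G),
        orderOf x = orderOf y → x = y := by
      have := hp.one_lt
      have := hq.one_lt
      simp only [Finset.mem_insert, Finset.mem_singleton]
      rintro x (rfl | rfl | rfl) y (rfl | rfl | rfl) h <;>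
        first | rfl | (simp only [orderOf_one, ha, hb] at h; omega)
    have hall := exists_smul_eq_of_card_orbits_le (A := MulAut G) ({1, a, b} : Finset G)
      (fun x hx y hy α h => hinj x hx y hy (by rw [← h]; exact (α.orderOf_eq x).symm)) (by
        rw [h3, Finset.card_eq_three.mpr ⟨1, a, b, ?_, ?_, ?_, rfl⟩]
        · rintro rfl; exact hp.one_lt.ne (by simpa using ha)
        · rintro rfl; exact hq.one_lt.ne (by simpa using hb)
        · rintro rfl; exact hqp (hb.symm.trans ha))
    have hord : ∀ x : G, orderOf x = 1 ∨ orderOf x = p ∨ orderOf x = q := fun x => by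
      obtain ⟨y, hy, α, rfl⟩ := hall x
      have : orderOf (α • y) = orderOf y := α.orderOf_eq y
      simp only [Finset.mem_insert, Finset.mem_singleton] at hy
      rcases hy with rfl | rfl | rfl <;> simp [this, ha, hb]
    have horb : ∀ x y : G, orderOf x = orderOf y → ∃ α : MulAut G, α x = y := fun x y h => by
      obtain ⟨x, hx, α, rfl⟩ := hall x
      obtain ⟨y, hy, β, rfl⟩ := hall y
      obtain rfl := hinj x hx y hy (((α.orderOf_eq x).symm.trans h).trans (β.orderOf_eq y))
      exact ⟨β * α⁻¹, by simp⟩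
    have hpr : ∀ r : ℕ, r.Prime → r ∣ Nat.card G → r = p ∨ r = q := fun r hr h => by
      have := Fact.mk hr
      obtain ⟨c, hc⟩ := exists_prime_orderOf_dvd_card' r h
      exact (hc ▸ hord c).resolve_left hr.one_lt.ne'
    have := isSolvable_of_two_primes hp hq hpr
    have := Finite.one_lt_card_iff_nontrivial.mp (lt_of_le_of_ne Nat.card_pos hnt.symm)
    obtain ⟨r, hr, h⟩ := exists_pCore_ne_bot (G := G)
    have := Fact.mk hr
    have hrG : r ∣ Nat.card G := by
      obtain ⟨k, hk⟩ := (pCore_isPGroup (G := G) r).exists_card_eq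
      refine dvd_trans ?_ (card_subgroup_dvd_card (pCore r G))
      rcases k with _ | k
      · exact absurd (card_eq_one.mp hk) h
      · rw [hk]; exact dvd_pow_self r (by omega)
    rcases hpr r hr hrG with rfl | rfl
    · obtain ⟨n, h⟩ := forward hqp.symm hqG hord horb h
      exact ⟨r, q, n, inferInstance, inferInstance, hqp.symm, h⟩
    · obtain ⟨n, h⟩ := forward hqp hpG (fun x => by have := hord x; tauto) horb h
      exact ⟨r, p, n, inferInstance, inferInstance, hqp, h⟩
  · rintro ⟨p, q, n, hp, hq, hpq, hn, hG, hP, hord, hfpf⟩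
    obtain ⟨P⟩ : Nonempty (Sylow p G) := inferInstance
    obtain ⟨hVn, hVc, hVp⟩ := hP P
    set V := (P : Subgroup G) with hV
    have hcop : p.Coprime q := (Nat.coprime_primes hp.out hq.out).mpr hpq
    have hVcard : Nat.card V = p ^ n := by
      rw [hV, P.card_eq_multiplicity, hG, Nat.factorization_mul (pow_ne_zero _ hp.out.ne_zero)
        hq.out.ne_zero]
      simp [hp.out.factorization_pow, hq.out.factorization, hpq.symm]
    have hVi : V.index = q := Nat.eq_of_mul_eq_mul_left (pow_pos hp.out.pos n)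
      (by rw [← hG, ← hVcard, card_mul_index])
    have hout : ∀ g, g ∉ V → orderOf g = q := fun g hg => by
      have h1 : g ^ q ∈ V := hVi ▸ pow_index_mem V g
      refine orderOf_eq_prime ?_ (by rintro rfl; exact hg V.one_mem)
      by_contra h2
      have h3 : g ^ p ≠ 1 := fun h3 => hg (mem_of_coprime_index
        (hVi ▸ hcop.coprime_dvd_left (orderOf_dvd_of_pow_eq_one h3)))
      refine hfpf (g ^ p) (g ^ q) (orderOf_eq_prime ?_ h3) (orderOf_eq_prime (hVp _ h1) h2) ?_
      · rw [← pow_mul, mul_comm, pow_mul, hVp _ h1]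
      · rw [(Commute.pow_pow_self g p q).eq]; simp
    obtain ⟨x, hx⟩ := exists_prime_orderOf_dvd_card' (G := G) q (hG ▸ dvd_mul_left _ _)
    obtain ⟨⟨u, hu⟩, hu'⟩ := exists_prime_orderOf_dvd_card' (G := V) p
      (hVcard ▸ dvd_pow_self p (by omega))
    replace hu' : orderOf u = p := by simpa using hu'
    have hu1 : u ≠ 1 := by rintro rfl; exact hp.out.one_lt.ne (by simpa using hu')
    have hx1 : x ≠ 1 := by rintro rfl; exact hq.out.one_lt.ne (by simpa using hx)
    have hs3 : ({1, u, x} : Finset G).card = 3 := Finset.card_eq_three.mpr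
      ⟨1, u, x, hu1.symm, hx1.symm, by rintro rfl; exact hpq (hu'.symm.trans hx), rfl⟩
    have hc : V.IsComplement' (zpowers x) := isComplement'_of_coprime
      (by rw [hVcard, Nat.card_zpowers, hx, hG])
      (by rw [hVcard, Nat.card_zpowers, hx]; exact hcop.pow_left n)
    letI : CommGroup V := { (inferInstance : Group V) with mul_comm := fun a b => mul_comm' a b }
    obtain ⟨_⟩ := BurnsideBasis.nonempty_elemAbModule (Q := V) (p := p)
      fun v => Subtype.ext (hVp v v.2)
    let τ : G →* Module.End (ZMod p) (Additive V) :=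
      LinearEquiv.automorphismGroup.toLinearMapMonoidHom.comp
        ((BurnsideBasis.elemAbAutEquiv p V).toMonoidHom.comp MulAut.conjNormal)
    have hτ : ∀ g (v : V), τ g (Additive.ofMul v) = Additive.ofMul (MulAut.conjNormal g v) :=
      fun _ _ => rfl
    have hirr : Irreducible (cyclotomic q (ZMod p)) :=
      ZMod.irreducible_of_dvd_cyclotomic_of_natDegree
        ((Nat.prime_dvd_prime_iff_eq hp.out hq.out).not.mpr hpq) dvd_rfl (by
          rw [natDegree_cyclotomic, Nat.totient_prime hq.out, ← hord, ← orderOf_units,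
            ZMod.coe_unitOfCoprime])
    have hΦ : aeval (τ x) (cyclotomic q (ZMod p)) = 0 := by
      have h1 := congrArg (aeval (τ x)) (cyclotomic_prime_mul_X_sub_one (ZMod p) q)
      rw [mul_comm] at h1
      simp only [map_mul, map_sub, aeval_X, map_one, map_pow] at h1
      rw [← map_pow, ← hx, pow_orderOf_eq_one, map_one, sub_self, hx] at h1
      ext w
      have h2 := congrArg (fun S : Module.End (ZMod p) (Additive V) => S w) h1
      simp only [Module.End.mul_apply, LinearMap.sub_apply, Module.End.one_apply,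
        LinearMap.zero_apply, sub_eq_zero] at h2
      generalize aeval (τ x) (cyclotomic q (ZMod p)) w = z at h2
      by_contra h3
      refine hfpf x (Additive.toMul z).1 hx (orderOf_eq_prime (hVp _ (Additive.toMul z).2) ?_)
        (congrArg (fun a => (Additive.toMul a).1) h2)
      exact h3
    refine le_antisymm (hs3 ▸ card_orbits_le_card _ fun g => ?_)
      (hs3 ▸ card_le_card_orbits _ ?_)
    · by_cases hg1 : g = 1
      · exact ⟨1, by simp, 1, by simp [hg1]⟩
      by_cases hg : g ∈ V
      · obtain ⟨B, hB, hB'⟩ := exists_addEquiv_apply_eq_of_irreducible hirr hΦ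
          (u := Additive.ofMul ⟨u, hu⟩) (v := Additive.ofMul ⟨g, hg⟩)
          (fun h => hu1 (congrArg (fun a => (Additive.toMul a).1) h))
          (fun h => hg1 (congrArg (fun a => (Additive.toMul a).1) h))
        obtain ⟨α, hα, -⟩ := exists_mulAut_of_isComplement'_zpowers hc
          (MulEquiv.toAdditive.symm B) (k := 1) (by simp)
          (fun v => by rw [pow_one]; exact hB' (Additive.ofMul v))
        exact ⟨u, by simp, α, (hα ⟨u, hu⟩).trans (congrArg (fun a => (Additive.toMul a).1) hB)⟩
      · refine ⟨x, by simp, ?_⟩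
        obtain ⟨Q, hQ⟩ := exists_sylow_mem_of_orderOf (p := q) (k := 1) (x := x) (by simp [hx])
        obtain ⟨Q', hQ'⟩ := exists_sylow_mem_of_orderOf (p := q) (k := 1) (x := g)
          (by simp [hout g hg])
        obtain ⟨c, rfl⟩ := MulAction.exists_smul_eq G Q Q'
        have hQc : Nat.card (Q : Subgroup G) = q := by
          rw [Q.card_eq_multiplicity, hG, Nat.factorization_mul (pow_ne_zero _ hp.out.ne_zero)
            hq.out.ne_zero]
          simp [hp.out.factorization_pow, hq.out.factorization, hpq]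
        have hQx : zpowers x = Q := eq_of_le_of_card_ge (zpowers_le.mpr hQ)
          (by rw [hQc, Nat.card_zpowers, hx])
        have h1 : c⁻¹ * g * c ∈ zpowers x := by
          rw [hQx]
          exact (chr_mem_conj_smul_iff _ _ _).mp hQ'
        obtain ⟨k, hk⟩ := mem_powers_iff_mem_zpowers.mpr h1
        simp only at hk
        have hk0 : (k : ZMod q) ≠ 0 := fun h => hg1 (by
          rw [ZMod.natCast_eq_zero_iff, ← hx, orderOf_dvd_iff_pow_eq_one, hk] at h
          calc g = c * (c⁻¹ * g * c) * c⁻¹ := by group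
            _ = 1 := by rw [h]; simp)
        have htop : zpowers (ZMod.unitOfCoprime p hcop) = ⊤ := by
          rw [← card_eq_iff_eq_top, Nat.card_zpowers, ← orderOf_units, ZMod.coe_unitOfCoprime,
            hord, Nat.card_eq_fintype_card, ZMod.card_units]
        obtain ⟨j, hj⟩ := mem_powers_iff_mem_zpowers.mpr (htop ▸ mem_top (Units.mk0 _ hk0))
        have hj' : x ^ p ^ j = x ^ k := by
          rw [pow_eq_pow_iff_modEq, hx, ← ZMod.natCast_eq_natCast_iff]
          simpa using congrArg Units.val hj
        obtain ⟨B, hB⟩ := exists_addEquiv_semiconj_of_irreducible (p := p) hirr hΦ j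
        obtain ⟨α, -, hα⟩ := exists_mulAut_of_isComplement'_zpowers hc
          (MulEquiv.toAdditive.symm B) (k := p ^ j) (hx ▸ hcop.symm.pow_right j)
          (fun v => by have := hB (Additive.ofMul v); rw [← map_pow] at this; exact this)
        refine ⟨MulAut.conj c * α, ?_⟩
        show c * α x * c⁻¹ = g
        rw [hα, hj', hk]; group
    · have := hp.out.one_lt
      have := hq.out.one_lt
      simp only [Finset.mem_insert, Finset.mem_singleton]
      intro a ha b hb α h
      have h1 : orderOf a = orderOf b := by rw [← h]; exact (α.orderOf_eq a).symm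
      rcases ha with rfl | rfl | rfl <;> rcases hb with rfl | rfl | rfl <;>
        first | rfl | (simp only [orderOf_one, hu', hx] at h1; omega)

end Cfsg.Agent.S4081
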