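import Cfsg.Statements.S4082
import Mathlib
import Cfsg.Agent.Lib.H5PByCyc

set_option autoImplicit false
open Cfsg

namespace Cfsg.Agent.S4082
open Subgroup CfsgLib CfsgLib.FT.BGN CfsgLib.FT.U4

theorem sq_of_dih {G : Type*} [Group G] {p m : ℕ} [Fact p.Prime] (hp : p ≠ 2) {H T : Subgroup G}
    (e : H ≃* DihedralGroup m) (hT : IsPGroup p T) (hle : T ≤ H) {x : G} (hx : x ∈ H)
    (hc : x ∉ 𝐂(T)) : x * x = 1 := by
  have key : ∀ g : H, ∀ i, e g = DihedralGroup.sr i → (g : G) * g = 1 := fun g i h => by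
    have : e (g * g) = e 1 := by rw [map_mul, h, map_one]; simp
    simpa using congrArg Subtype.val (e.injective this)
  rcases h : e ⟨x, hx⟩ with i | i
  · refine absurd (mem_cent.2 fun a ha => ?_) hc
    rcases h' : e ⟨a, hle ha⟩ with j | j
    · have : e (⟨a, hle ha⟩ * ⟨x, hx⟩) = e (⟨x, hx⟩ * ⟨a, hle ha⟩) := by
        rw [map_mul, map_mul, h, h']; simp [add_comm]
      simpa using congrArg Subtype.val (e.injective this)
    · have h1 := key _ j h'
      obtain ⟨k, hk⟩ := orderOf_eq_pow_of_mem_isPGroup hT ha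
      have h2 : orderOf a ∣ 2 := orderOf_dvd_of_pow_eq_one (by rwa [pow_two])
      have h3 : orderOf a = 1 := Nat.eq_one_of_dvd_coprimes
        (((Nat.coprime_primes Fact.out Nat.prime_two).2 hp).pow_left k) (hk ▸ dvd_rfl) h2
      rw [orderOf_eq_one_iff.1 h3, one_mul, mul_one]
  · exact key _ i h

theorem inv_of_sq {G : Type*} [Group G] {T : Subgroup G}
    (h : ∀ x ∈ 𝐍(T), x ∉ 𝐂(T) → x * x = 1) {x c : G} (hx : x ∈ 𝐍(T)) (hx' : x ∉ 𝐂(T))
    (hc : c ∈ 𝐂(T)) : x * c * x⁻¹ = c⁻¹ := by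
  have h1 := h (x * c) (mul_mem hx (cent_le_norm T hc))
    (fun h1 => hx' ((Subgroup.mul_mem_cancel_right _ hc).1 h1))
  have h2 := h x hx hx'
  calc x * c * x⁻¹ = (x * c * (x * c)) * c⁻¹ * (x * x)⁻¹ := by group
    _ = c⁻¹ := by rw [h1, h2]; group


/-- Let p be an odd prime and G a finite group with Sylow p-subgroup P. Say that G has restricted p-by-cyclic subgroups when every subgroup H of G whose Sylow p-subgroup is normal in H with cyclic quotient is itself cyclic or dihedral of order 2pⁿ for some n. Then G has restricted p-by-cyclic subgroups if and only if P is cyclic and one of the following holds: (1) N_G(P) = C_G(P); or (2) N_G(P)/C_G(P) has order 2 and, for the subgroup Q of order p of P, the centralizer C_G(Q) is abelian and every element of N_G(Q) outside C_G(Q) is an involution inverting every element of C_G(Q). -/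
theorem result {G : Type*} [Group G] [Finite G] {p : ℕ}
    [Fact p.Prime] (hp : p ≠ 2) (P : Sylow p G) :
    (∀ H : Subgroup G, (∀ S : Sylow p ↥H, (S : Subgroup ↥H).Normal) →
        (∀ (S : Sylow p ↥H) [(S : Subgroup ↥H).Normal], IsCyclic (↥H ⧸ (S : Subgroup ↥H))) →
        IsCyclic H ∨ (∃ n : ℕ, Nonempty (H ≃* DihedralGroup (p ^ n)))) ↔
    (IsCyclic P ∧
      (Subgroup.normalizer ((P : Subgroup G) : Set G) = Subgroup.centralizer ((P : Subgroup G) : Set G) ∨
       ((Subgroup.centralizer ((P : Subgroup G) : Set G)).relIndex (Subgroup.normalizer ((P : Subgroup G) : Set G)) = 2 ∧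
        ∀ Q : Subgroup G, Q ≤ P → Nat.card Q = p →
          IsMulCommutative ↥(Subgroup.centralizer (Q : Set G)) ∧
          ∀ x : G, x ∈ Subgroup.normalizer (Q : Set G) → x ∉ Subgroup.centralizer (Q : Set G) →
            orderOf x = 2 ∧ ∀ c : G, c ∈ Subgroup.centralizer (Q : Set G) → x * c * x⁻¹ = c⁻¹))) := by
  have hP := P.isPGroup'
  have hodd : ∀ {T : Subgroup G}, IsPGroup p T → ∀ a ∈ T, a * a = 1 → a = 1 := by
    intro T hT a ha h1
    obtain ⟨k, hk⟩ := orderOf_eq_pow_of_mem_isPGroup hT ha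
    have h2 : orderOf a ∣ 2 := orderOf_dvd_of_pow_eq_one (by rwa [pow_two])
    exact orderOf_eq_one_iff.1 (Nat.eq_one_of_dvd_coprimes
      (((Nat.coprime_primes Fact.out Nat.prime_two).2 hp).pow_left k) (hk ▸ dvd_rfl) h2)
  constructor
  · intro h
    have h' : ∀ (T : Subgroup G) (x : G), IsPGroup p T → x ∈ 𝐍(T) → IsCyclic ↥(T ⊔ zpowers x) ∨
        ∃ n : ℕ, Nonempty (↥(T ⊔ zpowers x) ≃* DihedralGroup (p ^ n)) := fun T x hT hx =>
      h _ (H5.pByCyc_of_sup hT hx).1 (H5.pByCyc_of_sup hT hx).2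
    have hsq : ∀ T : Subgroup G, IsPGroup p T → ∀ x ∈ 𝐍(T), x ∉ 𝐂(T) → x * x = 1 := by
      intro T hT x hx hx'
      rcases h' T x hT hx with h1 | ⟨n, ⟨e⟩⟩
      · exact absurd (mem_cent.2 fun a ha => mem_cent.1
          (le_cent_of_isCyclic h1 (mem_sup_right (mem_zpowers x))) a (mem_sup_left ha)) hx'
      · exact sq_of_dih hp e hT le_sup_left (mem_sup_right (mem_zpowers x)) hx'
    have hc : IsCyclic P := by
      have h1 := h' P 1 hP (one_mem _)
      rw [zpowers_one_eq_bot, sup_bot_eq] at h1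
      rcases h1 with h1 | ⟨n, ⟨e⟩⟩
      · exact h1
      · have h2 : e.symm (DihedralGroup.sr 0) = 1 := Subtype.ext (hodd hP _ (e.symm _).2 (by
          rw [← coe_mul, ← map_mul]; simp [← DihedralGroup.one_def]))
        rw [MulEquiv.symm_apply_eq, map_one] at h2
        exact absurd h2 (by rw [DihedralGroup.one_def]; simp only [reduceCtorEq, not_false_eq_true])
    refine ⟨hc, or_iff_not_imp_left.2 fun hne => ?_⟩
    obtain ⟨a, ha, ha'⟩ := SetLike.exists_of_lt
      (lt_of_le_of_ne (cent_le_norm (P : Subgroup G)) (Ne.symm hne))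
    have hPc : (P : Subgroup G) ≤ 𝐂((P : Subgroup G)) := le_cent_of_isCyclic hc
    refine ⟨?_, fun Q hQ hcQ => ?_⟩
    · refine index_eq_two_iff.2 ⟨⟨a, ha⟩, fun b => ?_⟩
      simp only [mem_subgroupOf, coe_mul]
      by_cases hb : (b : G) ∈ 𝐂((P : Subgroup G))
      · exact Or.inr ⟨hb, fun h1 => ha' ((Subgroup.mul_mem_cancel_left _ hb).1 h1)⟩
      · refine Or.inl ⟨mem_cent.2 fun g hg => ?_, hb⟩
        have h1 := inv_of_sq (hsq _ hP) ha ha' (hPc hg)
        have h2 := inv_of_sq (hsq _ hP) b.2 hb (hPc hg)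
        calc g * (b * a) = ((b : G) * g * (b : G)⁻¹)⁻¹ * (b * a) := by
              rw [h2, inv_inv]
          _ = b * (a * g * a⁻¹) * a := by rw [h1]; group
          _ = b * a * g := by group
    · have hQp : IsPGroup p Q := hP.to_le hQ
      have haQ : a ∈ 𝐍(Q) := mem_normalizer_of_conj_mem fun g hg => by
        rw [inv_of_sq (hsq _ hP) ha ha' (hPc (hQ hg))]; exact inv_mem hg
      have haQ' : a ∉ 𝐂(Q) := by
        intro h1
        obtain ⟨g, hg, hg1⟩ := exists_ne_one (ne_bot_of_card_prime (X := Q) (hcQ ▸ Fact.out))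
        refine hg1 (hodd hQp g hg ?_)
        have h2 := inv_of_sq (hsq _ hP) ha ha' (hPc (hQ hg))
        rw [← mem_cent.1 h1 g hg, mul_inv_cancel_right] at h2
        exact mul_eq_one_iff_eq_inv.2 h2
      refine ⟨⟨⟨fun c d => Subtype.ext ?_⟩⟩, fun x hx hx' => ⟨orderOf_eq_prime
        (by rw [pow_two, hsq Q hQp x hx hx']) (fun e => hx' (e ▸ one_mem _)),
        fun c hc => inv_of_sq (hsq Q hQp) hx hx' hc⟩⟩
      have h1 := inv_of_sq (hsq Q hQp) haQ haQ' c.2
      have h2 := inv_of_sq (hsq Q hQp) haQ haQ' d.2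
      have h3 := inv_of_sq (hsq Q hQp) haQ haQ' (c * d).2
      rw [coe_mul, coe_mul, ← inv_inj, ← coe_mul, ← h3, mul_inv_rev, ← h1, ← h2, coe_mul]
      group
  · rintro ⟨hc, h⟩ H h1 h2
    obtain ⟨T, x, hT, hx, hcop, rfl⟩ := H5.exists_sup_of_pByCyc h1 h2
    obtain ⟨g, -, hg⟩ := (IsSylowIn.sylow_top P).exists_conj_le hT le_top
    have hTc : IsCyclic T := isCyclic_conj.1 (isCyclic_of_le' hc hg)
    by_cases hxc : x ∈ 𝐂(T)
    · refine Or.inl (isCyclic_sup hTc inferInstance (zpowers_le.2 hxc) ?_)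
      obtain ⟨k, hk⟩ := IsPGroup.iff_card.1 hT
      rw [hk, Nat.card_zpowers]
      exact hcop.symm.pow_left k
    rcases h with h | ⟨-, h⟩
    · exact absurd (PCompl.hnpc_mem_centralizer
        (PCompl.hnpc_of_normalizer_le_centralizer P h.le) hT hx hcop) hxc
    have hT1 : g •ᶜ T ≠ ⊥ := by
      rw [Ne, conj_eq_bot_iff]
      rintro rfl
      exact hxc (mem_cent.2 fun a ha => by rw [mem_bot.1 ha]; simp)
    have hT' : IsPGroup p ↥(g •ᶜ T) := hT.map _
    obtain ⟨Q, hQ, hcQ⟩ := exists_card_prime (H := g •ᶜ T) (Fact.out : p.Prime)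
      (hT'.card_eq_or_dvd.resolve_left fun h0 => hT1 (card_eq_one.1 h0))
    obtain ⟨h3, h4⟩ := h Q (hQ.trans hg) hcQ
    have hTQ : g •ᶜ T ≤ 𝐂(Q) := (le_cent_of_isCyclic (isCyclic_conj.2 hTc)).trans (centralizer_le hQ)
    have hx1 : g * x * g⁻¹ ∈ 𝐍(Q) := norm_le_norm_of_le_cyclic (isCyclic_conj.2 hTc) hQ
      (by rw [normalizer_map_conj]; exact conj_mem_map_conj hx)
    have hx2 : g * x * g⁻¹ ∉ 𝐂(Q) := fun h5 => hxc (mem_cent.2 fun a ha => by
      have := congrArg Subtype.val (h3.is_comm.comm ⟨_, hTQ (conj_mem_map_conj ha)⟩ ⟨_, h5⟩)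
      simpa using this)
    obtain ⟨h5, h6⟩ := h4 _ hx1 hx2
    rw [orderOf_conj] at h5
    obtain ⟨a, rfl⟩ := exists_zpowers_eq hTc
    obtain ⟨n, hn⟩ := orderOf_eq_pow_of_mem_isPGroup hT (mem_zpowers a)
    refine Or.inr ⟨n, hn ▸ H5.nonempty_dihedral_sup (fun h7 => hxc (le_cent_of_isCyclic hTc h7))
      (by rw [← pow_two, ← h5, pow_orderOf_eq_one]) ?_⟩
    have h7 := h6 _ (hTQ (conj_mem_map_conj (mem_zpowers a)))
    calc x * a * x⁻¹ = g⁻¹ * (g * x * g⁻¹ * (g * a * g⁻¹) * (g * x * g⁻¹)⁻¹) * g := by group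
      _ = a⁻¹ := by rw [h7]; group

end Cfsg.Agent.S4082
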