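import Cfsg.Statements.S4083
import Mathlib
import Cfsg.Agent.Lib.H5PByCyc

set_option autoImplicit false
open Cfsg

namespace Cfsg.Agent.S4083
open Subgroup CfsgLib CfsgLib.FT.BGN CfsgLib.FT.U4

variable {G : Type*} [Group G]

theorem eq_one_of_odd {T : Subgroup G} (hT : IsPGroup 2 T) {x : G} (hx : x ∈ T)
    (ho : (orderOf x).Coprime 2) : x = 1 := by
  obtain ⟨k, hk⟩ := orderOf_eq_pow_of_mem_isPGroup hT hx
  exact orderOf_eq_one_iff.1 (Nat.eq_one_of_dvd_coprimes (ho.pow_right k) dvd_rfl (hk ▸ dvd_rfl))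

theorem cent_of_cyclic [Finite G] {T : Subgroup G} (hT : IsPGroup 2 T) (hc : IsCyclic T) {x : G}
    (hx : x ∈ 𝐍(T)) (ho : (orderOf x).Coprime 2) : x ∈ 𝐂(T) := by
  obtain ⟨k, hk⟩ := IsPGroup.iff_card.1 hT
  have h1 : Nat.card ↥(zpowers x ⊔ T) ∣ orderOf x * Nat.card T := by
    rw [← Nat.card_zpowers]; exact card_sup_dvd_mul (zpowers_le.2 hx)
  have hS : IsSylowIn 2 T (zpowers x ⊔ T) := by
    refine ⟨le_sup_right, hT, fun h2 => ?_⟩
    rw [← card_mul_relIndex (le_sup_right : T ≤ zpowers x ⊔ T), mul_comm] at h1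
    exact absurd (Nat.eq_one_of_dvd_coprimes ho
      (h2.trans (Nat.dvd_of_mul_dvd_mul_right Nat.card_pos h1)) dvd_rfl) (by decide)
  obtain ⟨S, hS'⟩ := hS.exists_sylow
  refine PCompl.hnpc_mem_centralizer_of_le (H := zpowers x ⊔ T)
    (PCompl.hnpc_two_of_isCyclic S ?_) le_sup_right hT (mem_sup_left (mem_zpowers x)) hx ho
  rw [hS']
  exact (subgroupOfEquivOfLe (le_sup_right : T ≤ zpowers x ⊔ T)).isCyclic.2 hc

theorem dih_struct {P : Subgroup G} {m : ℕ} (e : P ≃* DihedralGroup m) :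
    ∃ A : Subgroup G, IsCyclic A ∧ (∀ g ∈ P, g ∉ A → g * g = 1 ∧ ∀ c ∈ A, g * c * g⁻¹ = c⁻¹) ∧
      ∀ g ∈ P, ∀ h ∈ P, g ∉ A → h ∉ A → g * h ∈ A := by
  have hr : ∀ (g : P) i, e g = DihedralGroup.r i →
      (g : G) ∈ zpowers ((e.symm (DihedralGroup.r 1) : P) : G) := by
    intro g i h
    obtain ⟨j, rfl⟩ := ZMod.intCast_surjective i
    refine ⟨j, ?_⟩
    have : e.symm (DihedralGroup.r 1) ^ j = g := by
      rw [← map_zpow, MulEquiv.symm_apply_eq, h]; simp
    simpa using congrArg Subtype.val this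
  refine ⟨zpowers ((e.symm (DihedralGroup.r 1) : P) : G), inferInstance, fun g hg hg' => ?_,
    fun g hg h hh hg' hh' => ?_⟩
  · rcases h : e ⟨g, hg⟩ with i | i
    · exact absurd (hr _ i h) hg'
    constructor
    · have : e (⟨g, hg⟩ * ⟨g, hg⟩) = e 1 := by rw [map_mul, h, map_one]; simp
      simpa using congrArg Subtype.val (e.injective this)
    · rintro _ ⟨j, rfl⟩
      have : e (⟨g, hg⟩ * e.symm (DihedralGroup.r 1) * ⟨g, hg⟩⁻¹) =
          e (e.symm (DihedralGroup.r 1))⁻¹ := by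
        simp [h]
      have h2 := congrArg Subtype.val (e.injective this)
      simp only [coe_mul, InvMemClass.coe_inv] at h2
      simp only
      rw [← conj_zpow, h2, inv_zpow]
  · rcases h1 : e ⟨g, hg⟩ with i | i
    · exact absurd (hr _ i h1) hg'
    rcases h2 : e ⟨h, hh⟩ with j | j
    · exact absurd (hr _ j h2) hh'
    exact hr (⟨g, hg⟩ * ⟨h, hh⟩) (j - i) (by rw [map_mul, h1, h2]; simp)

theorem card_four [Finite G] {a b : G} (ha : orderOf a = 2) (hb : b ∉ zpowers a) (hb2 : b * b = 1)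
    (hr : b * a * b⁻¹ = a⁻¹) : Nat.card ↥(zpowers a ⊔ zpowers b) = 4 ∧
      ∀ k ∈ zpowers a ⊔ zpowers b, k ^ 2 = 1 := by
  obtain ⟨e⟩ := H5.nonempty_dihedral_sup hb hb2 hr
  rw [ha] at e
  refine ⟨by rw [Nat.card_congr e.toEquiv, DihedralGroup.nat_card], fun k hk => ?_⟩
  have h1 : ∀ d : DihedralGroup 2, d ^ 2 = 1 := by decide
  have : e (⟨k, hk⟩ ^ 2) = e 1 := by rw [map_pow, h1, map_one]
  simpa using congrArg Subtype.val (e.injective this)

theorem main [Finite G] {T A : Subgroup G} (hT : IsPGroup 2 T) (hA : IsCyclic A) (hAT : A ≤ T)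
    (h1 : ∀ g ∈ T, g ∉ A → g * g = 1 ∧ ∀ c ∈ A, g * c * g⁻¹ = c⁻¹)
    (h2 : ∀ g ∈ T, ∀ h ∈ T, g ∉ A → h ∉ A → g * h ∈ A)
    (hK : ∀ K ≤ T, Nat.card K = 4 → (∀ k ∈ K, k ^ 2 = 1) → 𝐂(K) = K) (hnc : ¬ IsCyclic T) {x : G}
    (hx : x ∈ 𝐍(T)) (ho : (orderOf x).Coprime 2) :
    (∃ n : ℕ, Nonempty (↥(T ⊔ zpowers x) ≃* DihedralGroup (2 ^ n))) ∨
      Nonempty (↥(T ⊔ zpowers x) ≃* alternatingGroup (Fin 4)) := by
  obtain ⟨a, rfl⟩ := exists_zpowers_eq hA
  obtain ⟨b, hb, hb'⟩ := SetLike.exists_of_lt (lt_of_le_of_ne hAT fun e => hnc (e ▸ hA))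
  obtain ⟨hb2, hinv⟩ := h1 b hb hb'
  have hTe : T = zpowers a ⊔ zpowers b := by
    refine le_antisymm (fun g hg => ?_) (sup_le hAT (zpowers_le.2 hb))
    by_cases h3 : g ∈ zpowers a
    · exact mem_sup_left h3
    · simpa using mul_mem (mem_sup_left (T := zpowers b) (h2 g hg b hb h3 hb'))
        (mem_sup_right (inv_mem (mem_zpowers b)))
  obtain ⟨n, hn⟩ := orderOf_eq_pow_of_mem_isPGroup hT (hAT (mem_zpowers a))
  by_cases hx1 : x = 1
  · refine Or.inl ⟨n, ?_⟩
    rw [hx1, zpowers_one_eq_bot, sup_bot_eq, hTe, ← hn]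
    exact H5.nonempty_dihedral_sup hb' hb2 (hinv a (mem_zpowers a))
  have ha1 : a ≠ 1 := by
    rintro rfl
    refine hnc ?_
    rw [hTe, zpowers_one_eq_bot, bot_sup_eq]
    infer_instance
  have hcent : ∀ y ∈ 𝐂(T), (orderOf y).Coprime 2 → y = 1 := by
    intro y hy hyo
    obtain ⟨z, hz⟩ := exists_prime_orderOf_dvd_card' (G := zpowers a) 2 (by
      rw [Nat.card_zpowers, hn]
      refine dvd_pow_self 2 fun h0 => ha1 ?_
      rwa [h0, pow_zero, orderOf_eq_one_iff] at hn)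
    rw [← orderOf_coe] at hz
    have hle : zpowers (z : G) ⊔ zpowers b ≤ T := sup_le (zpowers_le.2 (hAT z.2)) (zpowers_le.2 hb)
    obtain ⟨h3, h4⟩ := card_four hz (fun h3 => hb' (zpowers_le.2 z.2 h3)) hb2 (hinv z z.2)
    refine eq_one_of_odd hT (hle ?_) hyo
    rw [← hK _ hle h3 h4]
    exact centralizer_le hle hy
  by_cases ha2 : a * a = 1
  · right
    have hoa : orderOf a = 2 := orderOf_eq_prime (by rwa [pow_two]) ha1
    have hc4 : Nat.card T = 4 := hTe ▸ (card_four hoa hb' hb2 (hinv a (mem_zpowers a))).1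
    have h24 : x ^ 24 = 1 := by
      refine hcent _ ?_ (Nat.Coprime.coprime_dvd_left (orderOf_pow_dvd _) ho)
      have h3 : (MulAut.toPerm T (T.normalizerMonoidHom ⟨x, hx⟩)) ^ 24 = 1 := by
        have : Nat.card (Equiv.Perm T) = 24 := by rw [Nat.card_perm, hc4]; rfl
        rw [← this, pow_card_eq_one']
      rw [← map_pow, ← map_pow] at h3
      refine mem_cent.2 fun g hg => ?_
      have h4 := congrArg Subtype.val (Equiv.congr_fun h3 ⟨g, hg⟩)
      have h5 : x ^ 24 * g * (x ^ 24)⁻¹ = g := h4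
      rw [← h5, inv_mul_cancel_right, h5]
    have h3 : orderOf x = 3 := by
      have h4 : orderOf x ∣ 3 * 2 ^ 3 := orderOf_dvd_of_pow_eq_one h24
      exact ((Nat.dvd_prime Nat.prime_three).1 ((ho.pow_right 3).dvd_of_dvd_mul_right h4)).resolve_left
        fun h5 => hx1 (orderOf_eq_one_iff.1 h5)
    have hd : zpowers x ⊓ T = ⊥ := eq_bot_of_forall fun g hg => eq_one_of_odd hT hg.2
      (Nat.Coprime.coprime_dvd_left (orderOf_dvd_of_mem_zpowers hg.1) ho)
    refine H5.nonempty_alt4 ?_ ((zpowers x).subgroupOf _) ?_ fun hN => hx1 (hcent x ?_ ho)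
    · rw [sup_comm, card_sup_of_disjoint (zpowers_le.2 hx) hd, Nat.card_zpowers, h3, hc4]
    · rw [card_subgroupOf_of_le le_sup_right, Nat.card_zpowers, h3]
    · exact le_cent_of_inf_eq_bot (zpowers_le.2 hx)
        (le_sup_left.trans ((normal_subgroupOf_iff_le_normalizer le_sup_right).1 hN)) hd
        (mem_zpowers x)
  · refine absurd (hcent x ?_ ho) hx1
    have h3 : x * a * x⁻¹ ∈ zpowers a := by
      by_contra h3
      refine ha2 ?_
      have := (h1 _ (conj_mem_of_mem_normalizer hx (hAT (mem_zpowers a))) h3).1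
      calc a * a = x⁻¹ * (x * a * x⁻¹ * (x * a * x⁻¹)) * x := by group
        _ = 1 := by rw [this]; group
    have h4 : x ∈ 𝐍(zpowers a) := mem_normalizer_of_conj_mem fun g hg => by
      have h5 : x •ᶜ zpowers a ≤ zpowers a := by rw [← zpowers_conj]; exact zpowers_le.2 h3
      exact h5 (conj_mem_map_conj hg)
    have h5 := cent_of_cyclic (hT.to_le hAT) hA h4 ho
    have h6 : x * b * x⁻¹ * b⁻¹ ∈ zpowers a := h2 _ (conj_mem_of_mem_normalizer hx hb) _
      (inv_mem hb) (fun h6 => hb' (by simpa [mul_assoc] using conj_mem_of_mem_normalizer' h4 h6))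
      (fun h6 => hb' (inv_mem_iff.1 h6))
    set c := x * b * x⁻¹ * b⁻¹ with hc
    have h7 : ∀ j : ℕ, x ^ j * b * (x ^ j)⁻¹ = c ^ j * b := by
      intro j
      induction j with
      | zero => simp
      | succ j ih =>
        have h8 : x * c ^ j * x⁻¹ = c ^ j := by
          rw [← mem_cent.1 h5 _ (pow_mem h6 j), mul_inv_cancel_right]
        calc x ^ (j + 1) * b * (x ^ (j + 1))⁻¹ = x * (x ^ j * b * (x ^ j)⁻¹) * x⁻¹ := by group
          _ = (x * c ^ j * x⁻¹) * (x * b * x⁻¹ * b⁻¹) * b := by rw [ih]; group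
          _ = c ^ (j + 1) * b := by rw [h8, ← hc, pow_succ]
    have h8 := h7 (orderOf x)
    rw [pow_orderOf_eq_one, one_mul, inv_one, mul_one, right_eq_mul] at h8
    have h9 : c = 1 := eq_one_of_odd hT (hAT h6)
      (Nat.Coprime.coprime_dvd_left (orderOf_dvd_of_pow_eq_one h8) ho)
    rw [hTe, cent_sup, cent_zpowers b]
    refine ⟨h5, mem_cent1_of_conj_eq ?_⟩
    rw [hc, mul_inv_eq_one] at h9
    exact h9


/-- Let G be a finite group with Sylow 2-subgroup P. Every subgroup H of G whose Sylow 2-subgroup is normal in H with cyclic quotient is cyclic, dihedral of 2-power order, or isomorphic to the alternating group of degree 4, if and only if either P is cyclic, or P is dihedral (of order at least 4) and every elementary abelian subgroup K of order 4 of P satisfies C_G(K) = K. -/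
theorem result {G : Type*} [Group G] [Finite G] (P : Sylow 2 G) :
    (∀ H : Subgroup G, (∀ S : Sylow 2 ↥H, (S : Subgroup ↥H).Normal) →
        (∀ (S : Sylow 2 ↥H) [(S : Subgroup ↥H).Normal], IsCyclic (↥H ⧸ (S : Subgroup ↥H))) →
        IsCyclic H ∨ (∃ n : ℕ, Nonempty (H ≃* DihedralGroup (2 ^ n))) ∨ Nonempty (H ≃* alternatingGroup (Fin 4))) ↔
    (IsCyclic P ∨
      ((∃ n : ℕ, 1 ≤ n ∧ Nonempty ((P : Subgroup G) ≃* DihedralGroup (2 ^ n))) ∧
        ∀ K : Subgroup G, K ≤ P → Nat.card K = 4 → (∀ k ∈ K, k ^ 2 = 1) → Subgroup.centralizer (K : Set G) = K)) := by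
  have hP := P.isPGroup'
  constructor
  · intro h
    have h' : ∀ (T : Subgroup G) (x : G), IsPGroup 2 T → x ∈ 𝐍(T) → IsCyclic ↥(T ⊔ zpowers x) ∨
        (∃ n : ℕ, Nonempty (↥(T ⊔ zpowers x) ≃* DihedralGroup (2 ^ n))) ∨
        Nonempty (↥(T ⊔ zpowers x) ≃* alternatingGroup (Fin 4)) := fun T x hT hx =>
      h _ (H5.pByCyc_of_sup hT hx).1 (H5.pByCyc_of_sup hT hx).2
    have h12 : Nat.card (alternatingGroup (Fin 4)) = 12 := by
      have := two_mul_nat_card_alternatingGroup (α := Fin 4)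
      rw [Nat.card_perm] at this
      simp [Nat.factorial] at this ⊢
      omega
    have h1 := h' P 1 hP (one_mem _)
    rw [zpowers_one_eq_bot, sup_bot_eq] at h1
    rcases h1 with h1 | ⟨n, ⟨e⟩⟩ | ⟨⟨e⟩⟩
    · exact Or.inl h1
    · rcases Nat.eq_zero_or_pos n with rfl | hn
      · exact Or.inl (isCyclic_of_prime_card (p := 2)
          (by rw [Nat.card_congr e.toEquiv, DihedralGroup.nat_card]; rfl))
      refine Or.inr ⟨⟨n, hn, ⟨e⟩⟩, fun K hK hc4 hk2 => ?_⟩
      have hKc : K ≤ 𝐂(K) := fun a ha => mem_cent.2 fun b hb => by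
        have h1 := hk2 _ (mul_mem hb ha)
        have h2 := hk2 _ ha
        have h3 := hk2 _ hb
        rw [pow_two] at h1 h2 h3
        calc b * a = (b * a)⁻¹ := eq_inv_of_mul_eq_one_left h1
          _ = a * b := by
            rw [mul_inv_rev, ← eq_inv_of_mul_eq_one_left h2, ← eq_inv_of_mul_eq_one_left h3]
      refine le_antisymm (fun c hc => ?_) hKc
      have hcomm : K ⊔ zpowers c ≤ 𝐂(K ⊔ zpowers c) := by
        rw [cent_sup, cent_zpowers]
        exact sup_le (le_inf hKc fun k hk => mem_cent1.2 (mem_cent.1 hc k hk))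
          (zpowers_le.2 ⟨hc, self_mem_cent1 c⟩)
      have hcomm' : ∀ {X : Type} [Group X] (e : ↥(K ⊔ zpowers c) ≃* X) (u v : X), u * v = v * u := by
        intro X _ e u v
        obtain ⟨u, rfl⟩ := e.surjective u
        obtain ⟨v, rfl⟩ := e.surjective v
        rw [← map_mul, ← map_mul]
        exact congrArg e (Subtype.ext (mem_cent.1 (hcomm v.2) u u.2))
      rcases h' K c (hP.to_le hK) (cent_le_norm K hc) with h2 | ⟨m, ⟨e'⟩⟩ | ⟨⟨e'⟩⟩
      · obtain ⟨g, rfl⟩ := exists_zpowers_eq (isCyclic_of_le' h2 (le_sup_left : K ≤ _))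
        rw [Nat.card_zpowers] at hc4
        have := orderOf_dvd_of_pow_eq_one (hk2 g (mem_zpowers g))
        rw [hc4] at this
        exact absurd this (by decide)
      · have h2 := hcomm' e' (DihedralGroup.sr 0) (DihedralGroup.r 1)
        simp only [DihedralGroup.sr_mul_r, DihedralGroup.r_mul_sr, DihedralGroup.sr.injEq] at h2
        have h3 : ((2 : ℕ) : ZMod (2 ^ m)) = 0 := by push_cast; linear_combination h2
        have h4 := Nat.le_of_dvd two_pos ((ZMod.natCast_eq_zero_iff _ _).1 h3)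
        have h5 : K = K ⊔ zpowers c := eq_of_le_of_card_le le_sup_left (by
          rw [Nat.card_congr e'.toEquiv, DihedralGroup.nat_card, hc4]; omega)
        rw [h5]
        exact mem_sup_right (mem_zpowers c)
      · have h2 := hcomm' e' ⟨Equiv.swap 0 1 * Equiv.swap 1 2, Equiv.Perm.mem_alternatingGroup.2 (by decide)⟩
          ⟨Equiv.swap 0 1 * Equiv.swap 1 3, Equiv.Perm.mem_alternatingGroup.2 (by decide)⟩
        exact absurd (congrArg Subtype.val h2) (by decide)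
    · obtain ⟨k, hk⟩ := IsPGroup.iff_card.1 hP
      rw [Nat.card_congr e.toEquiv, h12] at hk
      have : 3 ∣ 2 ^ k := hk ▸ by decide
      exact absurd (Nat.prime_three.dvd_of_dvd_pow this) (by decide)
  · intro h H h1 h2
    obtain ⟨T, x, hT, hx, hcop, rfl⟩ := H5.exists_sup_of_pByCyc h1 h2
    obtain ⟨g, -, hg⟩ := (IsSylowIn.sylow_top P).exists_conj_le hT le_top
    by_cases hTc : IsCyclic T
    · refine Or.inl (isCyclic_sup hTc inferInstance
        (zpowers_le.2 (cent_of_cyclic hT hTc hx hcop)) ?_)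
      obtain ⟨k, hk⟩ := IsPGroup.iff_card.1 hT
      rw [hk, Nat.card_zpowers]
      exact hcop.symm.pow_left k
    rcases h with h | ⟨⟨n, -, ⟨e⟩⟩, hK⟩
    · exact absurd (isCyclic_conj.1 (isCyclic_of_le' h hg)) hTc
    obtain ⟨A, hA, h3, h4⟩ := dih_struct e
    have hmem : ∀ a ∈ T, a ∉ T ⊓ (g⁻¹ •ᶜ A) → g * a * g⁻¹ ∉ A := fun a ha ha' h5 =>
      ha' ⟨ha, mem_map_conj_iff.2 (by simpa using h5)⟩
    refine Or.inr (main (A := T ⊓ (g⁻¹ •ᶜ A)) hT
      (isCyclic_of_le' (isCyclic_conj.2 hA) inf_le_right) inf_le_left (fun a ha ha' => ?_)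
      (fun a ha b hb ha' hb' => ⟨mul_mem ha hb, mem_map_conj_iff.2 ?_⟩) (fun K hKT hc4 hk2 => ?_)
      hTc hx hcop)
    · obtain ⟨h5, h6⟩ := h3 _ (hg (conj_mem_map_conj ha)) (hmem a ha ha')
      refine ⟨?_, fun c hc => ?_⟩
      · calc a * a = g⁻¹ * (g * a * g⁻¹ * (g * a * g⁻¹)) * g := by group
          _ = 1 := by rw [h5]; group
      have h7 := h6 _ (mem_map_conj_iff.1 hc.2)
      calc a * c * a⁻¹ = g⁻¹ * (g * a * g⁻¹ * (g⁻¹⁻¹ * c * g⁻¹) * (g * a * g⁻¹)⁻¹) * g := by group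
        _ = c⁻¹ := by rw [h7]; group
    · have h5 := h4 _ (hg (conj_mem_map_conj ha)) _ (hg (conj_mem_map_conj hb)) (hmem a ha ha')
        (hmem b hb hb')
      simpa [mul_assoc] using h5
    · have h5 := hK (g •ᶜ K) ((map_mono hKT).trans hg) (by rw [card_map_conj, hc4]) (by
        rintro _ ⟨k, hk, rfl⟩
        rw [← map_pow, hk2 k hk, map_one])
      rwa [centralizer_map_conj, conj_inj] at h5

end Cfsg.Agent.S4083
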