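import Cfsg.Statements.S4084
import Mathlib


set_option autoImplicit false
open Cfsg

namespace Cfsg.Agent.S4084
open Subgroup

theorem aux {G H : Type*} [Group G] [Finite G] [Group H] [Finite H] (e : G ≃ H)
    (he : ∀ x y : G, Commute x y ↔ Commute (e x) (e y))
    {p q : ℕ} (hp : p.Prime) (hq : q.Prime) (hpq : p ≠ q) :
    (∃ g : G, orderOf g = p * q) → (∃ h : H, orderOf h = p * q) := by
  rintro ⟨g, hg⟩
  set A := centralizer ((centralizer ({g} : Set G) : Subgroup G) : Set G) with hA
  set B := centralizer ((centralizer ({e g} : Set H) : Subgroup H) : Set H) with hB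
  have h1 : ∀ x, x ∈ A ↔ e x ∈ B := by
    intro x
    constructor
    · intro h y hy
      obtain ⟨y, rfl⟩ := e.surjective y
      exact (he _ _).mp (h y (mem_centralizer_singleton_iff.mpr
        ((he _ _).mpr (mem_centralizer_singleton_iff.mp hy))))
    · intro h y hy
      exact (he _ _).mpr (h (e y) (mem_centralizer_singleton_iff.mpr
        ((he _ _).mp (mem_centralizer_singleton_iff.mp hy))))
  have h2 : Nat.card A = Nat.card B := Nat.card_congr (e.subtypeEquiv h1)
  have h3 : g ∈ A := fun y hy => mem_centralizer_singleton_iff.mp hy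
  have h4 : p * q ∣ Nat.card B := by
    rw [← h2, ← hg]
    exact orderOf_dvd_natCard A h3
  have : Fact p.Prime := ⟨hp⟩
  have : Fact q.Prime := ⟨hq⟩
  obtain ⟨⟨x, hx⟩, hxo⟩ := exists_prime_orderOf_dvd_card' (G := B) p ((dvd_mul_right p q).trans h4)
  obtain ⟨⟨y, hy⟩, hyo⟩ := exists_prime_orderOf_dvd_card' (G := B) q ((dvd_mul_left q p).trans h4)
  rw [orderOf_mk] at hxo hyo
  have h5 : Commute x y := hy x (mem_centralizer_singleton_iff.mpr
    (hx (e g) (mem_centralizer_singleton_iff.mpr rfl)).symm)
  refine ⟨x * y, ?_⟩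
  rw [h5.orderOf_mul_eq_mul_orderOf_of_coprime, hxo, hyo]
  rw [hxo, hyo]
  exact (Nat.coprime_primes hp hq).mpr hpq


/-- Let G and H be finite groups whose commuting graphs are isomorphic: there is a bijection e : G → H with x, y commuting exactly when e(x), e(y) commute. Then G and H have the same prime graph: for distinct primes p, q, G has an element of order pq if and only if H does (and #G = #H, so the prime divisors agree). -/
theorem result {G H : Type*} [Group G] [Finite G] [Group H] [Finite H] (e : G ≃ H)
    (he : ∀ x y : G, Commute x y ↔ Commute (e x) (e y))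
    {p q : ℕ} (hp : p.Prime) (hq : q.Prime) (hpq : p ≠ q) :
    (∃ g : G, orderOf g = p * q) ↔ (∃ h : H, orderOf h = p * q) := by
  exact ⟨aux e he hp hq hpq, aux e.symm (fun x y => by
    rw [he, e.apply_symm_apply, e.apply_symm_apply]) hp hq hpq⟩

end Cfsg.Agent.S4084
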