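import Cfsg.Statements.S4085
import Mathlib
import Cfsg.Agent.Lib.FT.U4

set_option autoImplicit false
open Cfsg

namespace Cfsg.Agent.S4085
open Subgroup

def R {G : Type*} [Group G] (x y : G) : Prop := x ∈ zpowers y ∨ y ∈ zpowers x

theorem R.symm {G : Type*} [Group G] {x y : G} (h : R x y) : R y x := Or.symm h

theorem R.dvd {G : Type*} [Group G] {x y : G} (h : R x y) :
    orderOf x ∣ orderOf y ∨ orderOf y ∣ orderOf x :=
  h.imp orderOf_dvd_of_mem_zpowers orderOf_dvd_of_mem_zpowers

theorem zpowers_eq {G : Type*} [Group G] [Finite G] {x y : G} (h : x ∈ zpowers y)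
    (ho : orderOf y ≤ orderOf x) : zpowers x = zpowers y :=
  CfsgLib.eq_of_le_of_card_le (zpowers_le.2 h) (by rwa [Nat.card_zpowers, Nat.card_zpowers])

theorem ncard_order {G : Type*} [Group G] [Finite G] (a : G) {d : ℕ} (hd : d ∣ orderOf a) :
    {g | g ∈ zpowers a ∧ orderOf g = d}.ncard = d.totient := by
  classical
  have := Fintype.ofFinite (zpowers a)
  rw [← IsCyclic.card_orderOf_eq_totient (α := zpowers a)
    (by rwa [← Nat.card_eq_fintype_card, Nat.card_zpowers]), ← Set.ncard_coe_finset,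
    ← Set.ncard_image_of_injective _ Subtype.val_injective]
  congr 1
  ext g
  simp only [Set.mem_setOf_eq, Finset.coe_filter, Finset.mem_univ, true_and, Set.mem_image]
  exact ⟨fun h => ⟨⟨g, h.1⟩, by rw [← orderOf_coe]; exact h.2, rfl⟩,
    fun ⟨c, hc, h⟩ => h ▸ ⟨c.2, by rw [orderOf_coe]; exact hc⟩⟩

theorem exists_order {G : Type*} [Group G] [Finite G] (a : G) {d : ℕ} (hd : d ∣ orderOf a) :
    ∃ g ∈ zpowers a, orderOf g = d := by
  have h := ncard_order a hd
  have h0 : 0 < d := Nat.pos_of_dvd_of_pos hd (orderOf_pos a)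
  obtain ⟨g, hg⟩ := Set.nonempty_of_ncard_ne_zero (h ▸ (Nat.totient_pos.2 h0).ne')
  exact ⟨g, hg⟩

theorem mem_of_dvd {G : Type*} [Group G] [Finite G] {a x y : G} (hx : x ∈ zpowers a)
    (hy : y ∈ zpowers a) (h : orderOf x ∣ orderOf y) : x ∈ zpowers y := by
  obtain ⟨g, hg, ho⟩ := exists_order y h
  have := CfsgLib.FT.U4.eq_of_le_cyclic (C := zpowers a) inferInstance (zpowers_le.2 hx)
    (zpowers_le.2 (zpowers_le.2 hy hg)) (by rw [Nat.card_zpowers, Nat.card_zpowers, ho])
  exact zpowers_le.2 hg (this ▸ mem_zpowers x)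

theorem aux {G H : Type*} [Group G] [Finite G] [Group H] [Finite H] (e : G ≃ H)
    (he : ∀ x y : G, R x y ↔ R (e x) (e y)) (h1 : e 1 = 1) {p q : ℕ} (hp : p.Prime) (hq : q.Prime)
    (hpq : p < q) {g : G} (hg : orderOf g = p * q) : ∃ h : H, orderOf h = p * q := by
  obtain ⟨a, ha, hmax⟩ := Set.exists_max_image {a : G | p * q ∣ orderOf a} orderOf
    (Set.toFinite _) ⟨g, hg ▸ dvd_rfl⟩
  replace ha : p * q ∣ orderOf a := ha
  obtain ⟨a₀, ha₀, hmax₀⟩ := Set.exists_max_image {c : G | zpowers c = zpowers a}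
    (fun c => orderOf (e c)) (Set.toFinite _) ⟨a, rfl⟩
  have ho : ∀ c, zpowers c = zpowers a → orderOf c = orderOf a := fun c hc => by
    rw [← Nat.card_zpowers, hc, Nat.card_zpowers]
  have hN : ∀ y, R y a₀ ↔ y ∈ zpowers a := by
    intro y
    have h2 : zpowers a₀ = zpowers a := ha₀
    refine ⟨fun h => h.elim (fun h => h2 ▸ h) fun h => ?_, fun h => Or.inl (h2 ▸ h)⟩
    have h3 := hmax y (ha.trans (ho a₀ h2 ▸ orderOf_dvd_of_mem_zpowers h))
    rw [← h2, zpowers_eq h (ho a₀ h2 ▸ h3)]
    exact mem_zpowers y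
  set b := e a₀ with hb
  have hgen : ∀ c, zpowers c = zpowers a → e c ∈ zpowers b := by
    intro c hc
    rcases (he _ _).1 ((hN c).2 (hc ▸ mem_zpowers c)) with h | h
    · exact h
    · rw [zpowers_eq h (hmax₀ c hc)]; exact mem_zpowers _
  have hsub : ∀ h ∈ zpowers b, e.symm h ∈ zpowers a := fun h hh =>
    (hN _).1 ((he _ _).2 (Or.inl (by simpa using hh)))
  have hside : ∀ y ∈ zpowers a, ∀ z ∈ zpowers a, ¬ R y z → (e y ∈ zpowers b → e z ∈ zpowers b) := by
    intro y hy z hz hyz h
    rcases (he _ _).1 ((hN z).2 hz) with h' | h'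
    · exact h'
    · exact absurd ((he _ _).2 (Or.inl (zpowers_le.2 h' h))) hyz
  obtain ⟨x, hx, hxo⟩ := exists_order a ((dvd_mul_right p q).trans ha)
  obtain ⟨x', hx', hxo'⟩ := exists_order a ((dvd_mul_left q p).trans ha)
  have hpp : ∀ {s t i : ℕ} {y z : G}, s.Prime → t.Prime → s ≠ t → i ≠ 0 → orderOf y = s ^ i →
      orderOf z = t → ¬ R y z := by
    intro s t i y z hs ht hst hi hy hz h
    rcases h.dvd with h | h <;> rw [hy, hz] at h
    · exact hst ((Nat.prime_dvd_prime_iff_eq hs ht).1 ((dvd_pow_self s hi).trans h))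
    · exact hst ((Nat.prime_dvd_prime_iff_eq ht hs).1 (ht.dvd_of_dvd_pow h)).symm
  have hiff : ∀ y ∈ zpowers a, ∀ z ∈ zpowers a, ¬ R y z → (e y ∈ zpowers b ↔ e z ∈ zpowers b) :=
    fun y hy z hz h => ⟨hside y hy z hz h, hside z hz y hy fun h' => h h'.symm⟩
  have hpow : ∀ y ∈ zpowers a, ∀ s i : ℕ, s.Prime → i ≠ 0 → orderOf y = s ^ i →
      (e y ∈ zpowers b ↔ e x ∈ zpowers b) := by
    intro y hy s i hs hi h
    by_cases hsp : s = p
    · subst hsp
      exact (hiff y hy x' hx' (hpp hs hq hpq.ne hi h hxo')).trans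
        (hiff x' hx' x hx (hpp hq hs hpq.ne' one_ne_zero (by rw [hxo', pow_one]) hxo))
    · exact hiff y hy x hx (hpp hs hp hsp hi h hxo)
  have hmid : ∀ y ∈ zpowers a, y ≠ 1 → zpowers y ≠ zpowers a →
      (e y ∈ zpowers b ↔ e x ∈ zpowers b) := by
    intro y hy hy1 hy2
    have h2 : ¬ orderOf a ∣ orderOf y := fun h =>
      hy2 (zpowers_eq hy (Nat.le_of_dvd (orderOf_pos y) h))
    obtain ⟨s, i, hs, h3, h4⟩ : ∃ s i : ℕ, s.Prime ∧ s ^ i ∣ orderOf a ∧ ¬ s ^ i ∣ orderOf y := by
      by_contra hc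
      push Not at hc
      exact h2 ((Nat.dvd_iff_prime_pow_dvd_dvd _ _).2 fun s i hs h => hc s i hs h)
    have hi : i ≠ 0 := by rintro rfl; simp at h4
    by_cases h5 : orderOf y ∣ s ^ i
    · obtain ⟨j, -, hj⟩ := (Nat.dvd_prime_pow hs).1 h5
      refine hpow y hy s j hs ?_ hj
      rintro rfl
      exact hy1 (by simpa using hj)
    · obtain ⟨z, hz, hzo⟩ := exists_order a h3
      refine (hiff y hy z hz fun h => ?_).trans (hpow z hz s i hs hi hzo)
      rcases h.dvd with h | h <;> rw [hzo] at h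
      · exact h5 h
      · exact h4 h
  by_cases hA : e x ∈ zpowers b
  · have h2 : orderOf a ≤ orderOf b := by
      rw [← Nat.card_zpowers, ← Nat.card_zpowers]
      refine Nat.card_le_card_of_injective (fun y => ⟨e y, ?_⟩)
        fun y z h => Subtype.ext (e.injective (congrArg Subtype.val h))
      by_cases h3 : (y : G) = 1
      · rw [h3, h1]; exact one_mem _
      by_cases h4 : zpowers (y : G) = zpowers a
      · exact hgen y h4
      · exact (hmid y y.2 h3 h4).2 hA
    have h3 : orderOf b ≤ orderOf a := by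
      rw [← Nat.card_zpowers, ← Nat.card_zpowers]
      exact Nat.card_le_card_of_injective (fun y => ⟨e.symm y, hsub y y.2⟩)
        fun y z h => Subtype.ext (e.symm.injective (congrArg Subtype.val h))
    obtain ⟨h, -, hh⟩ := exists_order b (le_antisymm h2 h3 ▸ ha)
    exact ⟨h, hh⟩
  exfalso
  have hp1 := hp.two_le
  -- `orderOf b > φ(n) ≥ 2 (p - 1)`
  have h2 : 2 * (p - 1) < orderOf b := by
    have h3 : (p - 1) * (q - 1) ≤ (orderOf a).totient := by
      rw [← Nat.totient_prime hp, ← Nat.totient_prime hq,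
        ← Nat.totient_mul ((Nat.coprime_primes hp hq).2 hpq.ne)]
      exact Nat.le_of_dvd (Nat.totient_pos.2 (orderOf_pos a)) (Nat.totient_dvd_of_dvd ha)
    have h4 : (p - 1) * 2 ≤ (p - 1) * (q - 1) := Nat.mul_le_mul_left _ (by omega)
    have h5 : (orderOf a).totient < orderOf b := by
      rw [← ncard_order a dvd_rfl, ← Nat.card_zpowers b, ← Set.ncard_image_of_injective _ e.injective,
        ← SetLike.coe_sort_coe, Nat.card_coe_set_eq]
      refine Set.ncard_lt_ncard (t := (zpowers b : Set H)) ⟨?_, fun h => ?_⟩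
        (Set.toFinite (zpowers b : Set H))
      · rintro _ ⟨c, hc, rfl⟩
        exact hgen c (zpowers_eq hc.1 hc.2.ge)
      · obtain ⟨c, hc, h6⟩ := h (one_mem (zpowers b))
        rw [← h1, e.apply_eq_iff_eq] at h6
        have h7 := hc.2
        rw [h6, orderOf_one] at h7
        have h8 : p * q ∣ 1 := h7 ▸ ha
        exact hp.one_lt.ne' (Nat.dvd_one.1 ((dvd_mul_right p q).trans h8))
    omega
  -- `⟨b⟩` is a clique
  have hcl : ∀ u ∈ zpowers b, ∀ v ∈ zpowers b, R u v := by
    intro u hu v hv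
    have key : ∀ w ∈ zpowers b, e.symm w = 1 ∨ zpowers (e.symm w) = zpowers a := fun w hw => by
      by_contra hc
      push Not at hc
      exact hA ((hmid _ (hsub w hw) hc.1 hc.2).1 (by simpa using hw))
    have : R (e.symm u) (e.symm v) := by
      rcases key v hv with h | h
      · exact Or.inr (h ▸ one_mem _)
      · exact Or.inl (h ▸ hsub u hu)
    simpa using (he _ _).1 this
  have h3 : orderOf b ≤ 2 * (orderOf b).totient := by
    obtain ⟨r, hr, hrd⟩ := Nat.exists_prime_and_dvd (n := orderOf b) (by omega)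
    have h4 := Nat.eq_prime_pow_of_unique_prime_dvd (n := orderOf b) (p := r) (orderOf_pos b).ne'
      fun {s} hs hsd => by
        obtain ⟨u, hu, huo⟩ := exists_order b hrd
        obtain ⟨v, hv, hvo⟩ := exists_order b hsd
        rcases (hcl u hu v hv).dvd with h | h <;> rw [huo, hvo] at h
        · exact ((Nat.prime_dvd_prime_iff_eq hr hs).1 h).symm
        · exact (Nat.prime_dvd_prime_iff_eq hs hr).1 h
    generalize (orderOf b).primeFactorsList.length = k at h4
    rcases k with _ | k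
    · rw [pow_zero] at h4; omega
    · rw [h4, Nat.totient_prime_pow_succ hr, pow_succ]
      have := hr.two_le
      calc r ^ k * r ≤ r ^ k * (2 * (r - 1)) := Nat.mul_le_mul_left _ (by omega)
        _ = _ := by ring
  have h4 : b ∈ zpowers (e x) := ((he _ _).1 ((hN x).2 hx)).resolve_left hA
  have h5 : (orderOf (e x)).totient ≤ p - 1 := by
    rw [← Nat.totient_prime hp, ← ncard_order a ((dvd_mul_right p q).trans ha),
      ← ncard_order (e x) dvd_rfl, ← Set.ncard_image_of_injective _ e.symm.injective]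
    refine Set.ncard_le_ncard ?_
    rintro _ ⟨h, hh, rfl⟩
    have h6 := zpowers_eq hh.1 hh.2.ge
    have htw : ∀ z, R (e.symm h) z ↔ R x z := fun z => by
      rw [he, he, e.apply_symm_apply]
      unfold R
      rw [h6, ← zpowers_le, h6, zpowers_le]
    have h7 : e.symm h ∈ zpowers a := (hN _).1 ((htw _).2 ((hN x).2 hx))
    refine ⟨h7, ?_⟩
    have h8 : ∀ s : ℕ, s.Prime → s ∣ orderOf (e.symm h) → s = p := fun s hs hd => by
      obtain ⟨z, hz, hzo⟩ := exists_order _ hd
      by_contra hne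
      exact hpp hp hs (Ne.symm hne) one_ne_zero (by rw [hxo, pow_one]) hzo ((htw z).1 (Or.inr hz))
    have h9 := Nat.eq_prime_pow_of_unique_prime_dvd (orderOf_pos (e.symm h)).ne'
      fun {s} hs hsd => h8 s hs hsd
    generalize (orderOf (e.symm h)).primeFactorsList.length = k at h9
    have hk : k ≠ 0 := by
      rintro rfl
      rw [pow_zero, orderOf_eq_one_iff] at h9
      exact hpp hp hq hpq.ne one_ne_zero (by rw [hxo, pow_one]) hxo'
        ((htw x').1 (Or.inl (h9 ▸ one_mem _)))
    obtain ⟨w, hw, hwo⟩ := exists_order a ha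
    have h10 : R x w := Or.inl (mem_of_dvd hx hw (by rw [hxo, hwo]; exact dvd_mul_right p q))
    rcases ((htw w).2 h10).dvd with h | h <;> rw [h9, hwo] at h
    · obtain ⟨k, rfl⟩ := Nat.exists_eq_succ_of_ne_zero hk
      rw [pow_succ'] at h
      have h11 := Nat.dvd_of_mul_dvd_mul_left hp.pos h
      rcases k with _ | k
      · rw [h9]; simp
      · exact absurd ((Nat.prime_dvd_prime_iff_eq hp hq).1
          ((dvd_pow_self p k.succ_ne_zero).trans h11)) hpq.ne
    · exact absurd ((Nat.prime_dvd_prime_iff_eq hq hp).1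
        (hq.dvd_of_dvd_pow ((dvd_mul_left q p).trans h))) hpq.ne'
  have h6 : (orderOf b).totient ≤ (orderOf (e x)).totient :=
    Nat.le_of_dvd (Nat.totient_pos.2 (orderOf_pos _))
      (Nat.totient_dvd_of_dvd (orderOf_dvd_of_mem_zpowers h4))
  omega

theorem aux2 {G H : Type*} [Group G] [Finite G] [Group H] [Finite H] (e : G ≃ H)
    (he : ∀ x y : G, R x y ↔ R (e x) (e y)) {p q : ℕ} (hp : p.Prime) (hq : q.Prime)
    (hpq : p ≠ q) {g : G} (hg : orderOf g = p * q) : ∃ h : H, orderOf h = p * q := by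
  classical
  have h1 : ∀ u : H, R (e 1) u := fun u => by
    simpa using (he 1 (e.symm u)).1 (Or.inl (one_mem _))
  have h2 : ∀ u : H, R 1 u := fun u => Or.inl (one_mem _)
  have he' : ∀ x y : G, R x y ↔ R ((e.trans (Equiv.swap (e 1) 1)) x)
      ((e.trans (Equiv.swap (e 1) 1)) y) := by
    intro x y
    rw [he]
    simp only [Equiv.trans_apply, Equiv.swap_apply_def]
    split_ifs with h3 h4 h5 h6 h7 h8 h9 h10
    all_goals first
      | rfl
      | (refine iff_of_true ?_ ?_ <;> (try simp only [*]) <;>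
          first | exact h1 _ | exact h2 _ | exact (h1 _).symm | exact (h2 _).symm)
  rcases lt_or_gt_of_ne hpq with h | h
  · exact aux _ he' (by simp) hp hq h hg
  · rw [mul_comm] at hg ⊢
    exact aux _ he' (by simp) hq hp h hg


/-- Let G and H be finite groups whose power graphs are isomorphic: there is a bijection e : G → H such that, for all x, y, one of x, y is a power of the other exactly when one of e(x), e(y) is a power of the other. Then G and H have the same prime graph: for distinct primes p, q, G has an element of order pq if and only if H does. -/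
theorem result {G H : Type*} [Group G] [Finite G] [Group H] [Finite H] (e : G ≃ H)
    (he : ∀ x y : G, (x ∈ Subgroup.zpowers y ∨ y ∈ Subgroup.zpowers x) ↔
      (e x ∈ Subgroup.zpowers (e y) ∨ e y ∈ Subgroup.zpowers (e x)))
    {p q : ℕ} (hp : p.Prime) (hq : q.Prime) (hpq : p ≠ q) :
    (∃ g : G, orderOf g = p * q) ↔ (∃ h : H, orderOf h = p * q) := by
  refine ⟨fun ⟨g, hg⟩ => aux2 e he hp hq hpq hg, fun ⟨g, hg⟩ => aux2 e.symm (fun x y => ?_) hp hq hpq hg⟩
  simpa [R] using (he (e.symm x) (e.symm y)).symm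

end Cfsg.Agent.S4085
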