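import Cfsg.Statements.S4086
import Cfsg.Agent.Lib.ClassSize2
import Cfsg.Agent.Lib.PGroupCyclicMax

set_option autoImplicit false
open Cfsg

namespace Cfsg.Agent.S4086

open Subgroup CfsgLib CfsgLib.Frob

/-- For a finite group G the following are equivalent: every non-identity element has prime-power order; whenever two elements generate a cyclic subgroup, one of them is a power of the other (the enhanced power graph of G coincides with its power graph). -/
theorem result {G : Type*} [Group G] [Finite G] :
    (∀ g : G, g ≠ 1 → IsPrimePow (orderOf g)) ↔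
    (∀ x y : G, IsCyclic ↥(Subgroup.closure ({x, y} : Set G)) → (x ∈ Subgroup.zpowers y ∨ y ∈ Subgroup.zpowers x)) := by
  constructor
  · intro h x y hc
    have hx : x ∈ closure ({x, y} : Set G) := subset_closure (by simp)
    have hy : y ∈ closure ({x, y} : Set G) := subset_closure (by simp)
    obtain ⟨g, hg⟩ := IsCyclic.exists_generator (α := closure ({x, y} : Set G))
    have h1 : ∀ z ∈ closure ({x, y} : Set G), orderOf z ∣ orderOf (g : G) := fun z hz => by
      have := orderOf_dvd_of_mem_zpowers (hg ⟨z, hz⟩)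
      rwa [orderOf_mk, ← orderOf_coe] at this
    by_cases hg1 : (g : G) = 1
    · left
      have := h1 x hx
      rw [hg1, orderOf_one, Nat.dvd_one, orderOf_eq_one_iff] at this
      rw [this]; exact one_mem _
    · obtain ⟨p, k, hp, -, e⟩ := (isPrimePow_nat_iff _).mp (h g hg1)
      obtain ⟨a, -, ha⟩ := (Nat.dvd_prime_pow hp).mp (e ▸ h1 x hx)
      obtain ⟨b, -, hb⟩ := (Nat.dvd_prime_pow hp).mp (e ▸ h1 y hy)
      rcases le_total a b with hab | hab
      · exact Or.inl (PGrp.mem_zpowers_of_orderOf_dvd hx hy (ha ▸ hb ▸ pow_dvd_pow p hab))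
      · exact Or.inr (PGrp.mem_zpowers_of_orderOf_dvd hy hx (ha ▸ hb ▸ pow_dvd_pow p hab))
  · intro h g hg
    rw [isPrimePow_iff_unique_prime_dvd]
    obtain ⟨p, hp, hd, x, hx, hxp⟩ := exists_orderOf_prime_mem_zpowers hg
    refine ⟨p, ⟨hp, hd⟩, fun q ⟨hq, hqd⟩ => ?_⟩
    obtain ⟨y, hy, hyq⟩ := exists_orderOf_eq_mem_zpowers hqd
    have hc : IsCyclic (closure ({x, y} : Set G)) :=
      isCyclic_of_le (H' := zpowers g) (by
        rw [closure_le]
        rintro z (rfl | rfl)
        · exact hx
        · exact hy)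
    rcases h x y hc with h1 | h1
    · have := orderOf_dvd_of_mem_zpowers h1
      rw [hxp, hyq] at this
      exact ((Nat.prime_dvd_prime_iff_eq hp hq).mp this).symm
    · have := orderOf_dvd_of_mem_zpowers h1
      rw [hxp, hyq] at this
      exact (Nat.prime_dvd_prime_iff_eq hq hp).mp this

end Cfsg.Agent.S4086
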