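import Cfsg.Statements.S4087
import Cfsg.Agent.Lib.CIT.Eppo

set_option autoImplicit false
open Cfsg

namespace Cfsg.Agent.S4087

open CfsgLib.Cit in
open Subgroup CfsgLib in
/-- Let G be a finite group in which every non-identity element has prime-power order (its prime graph has no edges). Then the order of G has at most four distinct prime divisors; and if it has exactly four, then either G is isomorphic to PSL(3,4), or G has a normal 2-subgroup N with G/N isomorphic to the Suzuki group over the field with 8 or with 32 elements. -/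
theorem result {G : Type*} [Group G] [Finite G] (h : ∀ g : G, g ≠ 1 → IsPrimePow (orderOf g)) :
    (Nat.card G).primeFactors.card ≤ 4 ∧
    ((Nat.card G).primeFactors.card = 4 →
      (∃ (F : Type) (_ : Field F) (_ : Fintype F), Fintype.card F = 4 ∧
        Nonempty (G ≃* Matrix.ProjectiveSpecialLinearGroup (Fin 3) F)) ∨
      (∃ (N : Subgroup G) (_ : N.Normal), IsPGroup 2 ↥N ∧
        ∃ (F : Type) (_ : Field F) (_ : Fintype F),
          (Fintype.card F = 8 ∧ Nonempty (G ⧸ N ≃* ↥(Cfsg.Lie.Sz F 4))) ∨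
          (Fintype.card F = 32 ∧ Nonempty (G ⧸ N ≃* ↥(Cfsg.Lie.Sz F 8))))) := by
  have small : (∃ a b, ∀ r : ℕ, r.Prime → r ∣ Nat.card G → r = 2 ∨ r = a ∨ r = b) →
      (Nat.card G).primeFactors.card ≤ 3 := fun ⟨a, b, e⟩ =>
    (Finset.card_le_card (t := {2, a, b}) fun r hr => by
      simpa using e r (Nat.prime_of_mem_primeFactors hr) (Nat.dvd_of_mem_primeFactors hr)).trans
      Finset.card_le_three
  suffices key : (Nat.card G).primeFactors.card ≤ 3 ∨ (Nat.card G).primeFactors.card ≤ 4 ∧ _ from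
    key.elim (fun e => ⟨by omega, fun e' => by omega⟩) fun e => ⟨e.1, fun _ => e.2⟩
  have hE : H5.Eppo G := h
  by_cases hs : Group.IsSolvable G
  · exact Or.inl ((hE.card_primeFactors_le_two hs).trans (by norm_num))
  have hG := cit_of_eppo hE
  rcases hG.structure hs with ⟨X, _, f, hf, hk, K, t, hZ⟩ | ⟨h0, P, L, q, hA⟩
  · haveI := Finite.of_surjective f hf
    have h1 := isPGroup_of_sq hk
    have e := QuotientGroup.quotientKerEquivOfSurjective f hf
    have h2 : ∀ r : ℕ, r.Prime → r ∣ Nat.card G → r = 2 ∨ r ∣ Nat.card X := fun r hr h2 => by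
      obtain ⟨n, hn⟩ := h1.exists_card_eq
      rw [Subgroup.card_eq_card_quotient_mul_card_subgroup f.ker, hn, Nat.card_congr e.toEquiv] at h2
      exact (hr.dvd_mul.mp h2).symm.imp_left fun e =>
        (Nat.prime_dvd_prime_iff_eq hr Nat.prime_two).mp (hr.dvd_of_dvd_pow e)
    have hX := hE.of_surjective f hf
    rcases hZ.zt with ⟨n, -, -, -, -, -, ⟨e'⟩⟩ | ⟨-, -, h3, F, _, _, m, h4, h5, h6, ⟨e'⟩⟩
    · obtain ⟨a, b, h3⟩ := eppo_psl (hX.of_surjective e'.toMonoidHom e'.surjective)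
      exact Or.inl (small ⟨a, b, fun r hr h4 => (h2 r hr h4).elim Or.inl fun h5 =>
        h3 r hr (Nat.card_congr e'.toEquiv ▸ h5)⟩)
    have h7 := eppo_sz h5 (hX.of_surjective e'.toMonoidHom e'.surjective)
    have h8 : Nat.card X = (2 ^ (2 * m + 1)) ^ 2 * ((2 ^ (2 * m + 1)) ^ 2 + 1) *
        (2 ^ (2 * m + 1) - 1) := by
      rw [hZ.ro.card_G, hZ.Dg_eq, h3, ← h6, Nat.add_sub_cancel]
      ring
    have h9 : (Nat.card G).primeFactors ⊆ insert 2 (Nat.card X).primeFactors := fun r hr => by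
      have h10 := Nat.prime_of_mem_primeFactors hr
      rw [Finset.mem_insert, Nat.mem_primeFactors]
      exact (h2 r h10 (Nat.dvd_of_mem_primeFactors hr)).imp_right fun e =>
        ⟨h10, e, Nat.card_pos.ne'⟩
    refine Or.inr ⟨(Finset.card_le_card h9).trans ?_, Or.inr ⟨f.ker, inferInstance, h1, F,
      inferInstance, inferInstance, ?_⟩⟩
    · rw [h8]
      interval_cases m <;> simp [Nat.primeFactors]
    · interval_cases m
      exacts [Or.inl ⟨h5, ⟨e.trans e'⟩⟩, Or.inr ⟨h5, ⟨e.trans e'⟩⟩]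
  rcases hA.l.two_le.eq_or_lt with rfl | hq
  · obtain ⟨N, hN, -, F, _, _, ⟨e⟩, h1⟩ := hA.two hG h0
    obtain ⟨a, b, h2⟩ := eppo_psl ((hE.of_injective N.subtype N.subtype_injective).of_surjective
      e.toMonoidHom e.surjective)
    refine Or.inl (small ⟨a, b, fun r hr h3 => ?_⟩)
    rw [← N.card_mul_index, Nat.card_congr e.toEquiv] at h3
    refine (hr.dvd_mul.mp h3).elim (h2 r hr) fun h4 => Or.inl ?_
    rcases h1 with rfl | h1
    · exact absurd (Subgroup.index_top (G := G) ▸ h4) hr.not_dvd_one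
    · exact (Nat.prime_dvd_prime_iff_eq hr Nat.prime_two).mp (h1.1 ▸ h4)
  · obtain ⟨h1, h2⟩ := Big.iso ⟨hA, hG, hq, hA.syl_top hG h0 hq⟩ h0 hE
    exact Or.inr ⟨h1 ▸ L34.primes_le, Or.inl h2⟩

end Cfsg.Agent.S4087
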