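import Cfsg.Statements.S4089
import Cfsg.Agent.Lib.CoreSubnormal
import Cfsg.Agent.Lib.SylowIn

set_option autoImplicit false
open Cfsg

namespace Cfsg.Agent.S4089

open Subgroup CfsgLib
open scoped Pointwise commutatorElement

theorem sn_iff {G : Type*} [Group G] [Finite G] {p : ℕ} [Fact p.Prime] {H : Subgroup G}
    (hH : IsPGroup p H) (g : G) : (H.subgroupOf (H ⊔ zpowers g)).IsSubnormal ↔
      ∃ R : Subgroup G, IsPGroup p R ∧ H ≤ R ∧ g ∈ normalizer (R : Set G) := by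
  constructor
  · intro h
    refine ⟨(Cfsg.pCore p ↥(H ⊔ zpowers g)).map (H ⊔ zpowers g).subtype, map_pCore_isPGroup p _,
      fun x hx => ⟨⟨x, mem_sup_left hx⟩, le_pCore_of_isSubnormal h hH.comap_subtype hx, rfl⟩,
      normalizer_le_normalizer_map_pCore p _ (le_normalizer (mem_sup_right (mem_zpowers g)))⟩
  · rintro ⟨R, h1, h2, h3⟩
    exact (((SubnormalIn.of_isNilpotent h1.isNilpotent h2).trans
      (SubnormalIn.of_le_normalizer le_normalizer le_rfl)).mono le_sup_left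
      (sup_le (h2.trans le_normalizer) (zpowers_le.mpr h3))).2

theorem exists_radical {G : Type*} [Group G] [Finite G] {p : ℕ} [Fact p.Prime] {R : Subgroup G}
    (hR : IsPGroup p R) : ∃ T : Subgroup G, R ≤ T ∧ normalizer (R : Set G) ≤ normalizer (T : Set G) ∧
      (Cfsg.pCore p (normalizer (T : Set G))).map (normalizer (T : Set G)).subtype = T := by
  obtain ⟨T, h1, h2⟩ := exists_maximal_ge_of_wellFoundedGT (fun T : Subgroup G =>
    IsPGroup p T ∧ normalizer (R : Set G) ≤ normalizer (T : Set G)) R ⟨hR, le_rfl⟩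
  have h3 : T ≤ (Cfsg.pCore p (normalizer (T : Set G))).map (normalizer (T : Set G)).subtype :=
    le_map_pCore le_normalizer le_rfl h2.1.1
  exact ⟨T, h1, h2.1.2, le_antisymm (h2.2 ⟨map_pCore_isPGroup p _,
    (h2.1.2.trans le_normalizer).trans (normalizer_le_normalizer_map_pCore p _)⟩ h3) h3⟩

theorem result {G : Type*} [Group G] [Finite G] (p : ℕ) [Fact p.Prime]
    (H : Subgroup G) (hH : IsPGroup p H) :
    {g : G | ((H).subgroupOf (H ⊔ Subgroup.zpowers g)).IsSubnormal} =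
      {g : G | ∃ R : Subgroup G, H ≤ R ∧ (Cfsg.pCore p (Subgroup.normalizer (R : Set G))).map (Subgroup.normalizer (R : Set G)).subtype = R ∧ g ∈ Subgroup.normalizer (R : Set G)} ∧
    ∀ g : G, (((H).subgroupOf (H ⊔ Subgroup.zpowers g)).IsSubnormal ↔
      (((sInf {K : Subgroup G | ∃ Q : Sylow p G, H ≤ (Q : Subgroup G) ∧ K = (Q : Subgroup G)})).subgroupOf ((sInf {K : Subgroup G | ∃ Q : Sylow p G, H ≤ (Q : Subgroup G) ∧ K = (Q : Subgroup G)}) ⊔ Subgroup.zpowers g)).IsSubnormal) := by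
  constructor
  · ext g
    simp only [Set.mem_setOf_eq, sn_iff hH]
    constructor
    · rintro ⟨R, h1, h2, h3⟩
      obtain ⟨T, h4, h5, h6⟩ := exists_radical h1
      exact ⟨T, h2.trans h4, h6, h5 h3⟩
    · rintro ⟨R, h1, h2, h3⟩
      exact ⟨R, h2 ▸ map_pCore_isPGroup p _, h1, h3⟩
  · intro g
    obtain ⟨Q, hQ⟩ := hH.exists_le_sylow
    rw [sn_iff hH, sn_iff (Q.isPGroup'.to_le (sInf_le (by exact ⟨Q, hQ, rfl⟩)))]
    constructor
    · rintro ⟨R, h1, h2, h3⟩
      obtain ⟨Q', hQ'⟩ := h1.exists_le_sylow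
      refine ⟨sInf {K : Subgroup G | ∃ Q : Sylow p G, R ≤ (Q : Subgroup G) ∧ K = (Q : Subgroup G)},
        Q'.isPGroup'.to_le (sInf_le ⟨Q', hQ', rfl⟩),
        sInf_le_sInf fun K ⟨Q, h4, h5⟩ => ⟨Q, h2.trans h4, h5⟩, ?_⟩
      apply mem_normalizer_of_conj_mem
      intro x hx
      rw [mem_sInf] at hx ⊢
      rintro _ ⟨S, hS, rfl⟩
      have := hx _ ⟨g⁻¹ • S, by
        rw [sylow_coe_smul_eq_map, ← map_conj_eq_of_mem_normalizer (inv_mem h3)]
        exact map_mono hS, rfl⟩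
      rwa [sylow_coe_smul_eq_map, mem_map_conj_iff, inv_inv] at this
    · rintro ⟨R, h1, h2, h3⟩
      exact ⟨R, h1, le_trans (le_sInf (by rintro _ ⟨Q, h4, rfl⟩; exact h4)) h2, h3⟩

end Cfsg.Agent.S4089
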