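import Cfsg.Statements.S4088
import Cfsg.Agent.S4089
import Cfsg.Agent.Lib.FrobeniusCount

set_option autoImplicit false
open Cfsg

namespace Cfsg.Agent.S4088

open Subgroup CfsgLib
open scoped Pointwise commutatorElement

open Classical in
theorem cone {α : Type*} (A : Finset α) {u : α} (hu : u ∈ A) (c : Finset α → Prop)
    [DecidablePred c] (h : ∀ S, c (insert u S) ↔ c S) :
    ∑ S ∈ A.powerset, (-1 : ℤ) ^ S.card * (if c S then 1 else 0) = 0 := by
  rw [← Finset.insert_erase hu, Finset.sum_powerset_insert (Finset.notMem_erase u A),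
    ← Finset.sum_add_distrib]
  refine Finset.sum_eq_zero fun S hS => ?_
  rw [Finset.card_insert_of_notMem fun h1 =>
    Finset.notMem_erase u A (Finset.mem_powerset.mp hS h1), if_congr (h S) rfl rfl]
  ring

section

variable {G : Type*} [Group G] [Fintype G] {p : ℕ} [Fact p.Prime]

def SN (p : ℕ) (K : Subgroup G) (g : G) : Prop :=
  ∃ R : Subgroup G, IsPGroup p R ∧ K ≤ R ∧ g ∈ normalizer (R : Set G)

open Classical in
theorem count_conj {T Y : Subgroup G} (hT : IsSylowIn p T Y) (K : Subgroup G) :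
    (∑ x : G, if x ∈ Y ∧ T.map (MulAut.conj x).toMonoidHom = K then (1 : ℤ) else 0) =
      if IsSylowIn p K Y then ∑ x : G, if x ∈ Y ⊓ normalizer (K : Set G) then (1 : ℤ) else 0
      else 0 := by
  split_ifs with h
  · obtain ⟨y, hy, rfl⟩ := h.exists_conj_eq hT
    refine (Fintype.sum_equiv (Equiv.mulRight y) _ _ fun x => ?_).symm
    refine if_congr ?_ rfl rfl
    rw [Equiv.coe_mulRight, mem_inf, Y.mul_mem_cancel_right hy, map_conj_mul,
      map_conj_eq_iff_mem_normalizer]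
  · refine Finset.sum_eq_zero fun x _ => if_neg ?_
    rintro ⟨h1, rfl⟩
    exact h (hT.map_conj_of_mem_normalizer (le_normalizer h1))

open Classical in
theorem sum_lam {T Y : Subgroup G} (hT : IsSylowIn p T Y) (K : Subgroup G) (A : Finset G)
    (hA : ∀ u, u ∈ A ↔ u ∈ Y ⊓ normalizer (K : Set G) ∧ u ∉ K) :
    ∑ S ∈ A.powerset, (-1 : ℤ) ^ S.card * (∑ x : G,
      if x ∈ Y ∧ K ⊔ closure (S : Set G) ≤ T.map (MulAut.conj x).toMonoidHom then 1 else 0) =
    ∑ x : G, if x ∈ Y ∧ T.map (MulAut.conj x).toMonoidHom = K then (1 : ℤ) else 0 := by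
  simp only [Finset.mul_sum]
  rw [Finset.sum_comm]
  refine Finset.sum_congr rfl fun x _ => ?_
  by_cases h1 : x ∈ Y ∧ K ≤ T.map (MulAut.conj x).toMonoidHom
  · have hT' := hT.map_conj_of_mem_normalizer (le_normalizer h1.1)
    rcases h1.2.eq_or_lt with h2 | h2
    · rw [if_pos ⟨h1.1, h2.symm⟩, Finset.sum_eq_single ∅]
      · rw [if_pos ⟨h1.1, by simpa using h1.2⟩]; simp
      · intro S hS h0
        obtain ⟨u, hu⟩ := Finset.nonempty_iff_ne_empty.mpr h0
        rw [if_neg, mul_zero]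
        exact fun h3 => ((hA u).mp (Finset.mem_powerset.mp hS hu)).2
          (h2.ge (h3.2 (mem_sup_right (subset_closure hu))))
      · simp
    · obtain ⟨u, hu1, hu2⟩ := SetLike.exists_of_lt (lt_inf_normalizer_of_isPGroup hT'.isPGroup h2)
      rw [if_neg fun h => h2.ne h.2.symm]
      refine cone A ((hA u).mpr ⟨⟨hT'.le hu1.1, hu1.2⟩, hu2⟩)
        (fun S => x ∈ Y ∧ K ⊔ closure (S : Set G) ≤ T.map (MulAut.conj x).toMonoidHom)
        fun S => and_congr_right fun _ => ?_
      simp only [sup_le_iff, closure_le, Finset.coe_insert, Set.insert_subset_iff]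
      exact ⟨fun h => ⟨h.1, h.2.2⟩, fun h => ⟨h.1, hu1.1, h.2⟩⟩
  · rw [if_neg fun h => h1 ⟨h.1, h.2.ge⟩]
    exact Finset.sum_eq_zero fun S _ => by
      rw [if_neg fun h => h1 ⟨h.1, le_sup_left.trans h.2⟩, mul_zero]

open Classical in
theorem sum_sn {Y K : Subgroup G} (hK : K ≤ Y) (A : Finset G)
    (hA : ∀ u, u ∈ A ↔ u ∈ Y ⊓ normalizer (K : Set G) ∧ u ∉ K) :
    ∑ S ∈ A.powerset, (-1 : ℤ) ^ S.card * (∑ x : G,
      if x ∈ Y ∧ SN p (K ⊔ closure (S : Set G)) x then 1 else 0) =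
    ∑ S ∈ A.powerset, (-1 : ℤ) ^ S.card * (∑ x : G,
      if x ∈ Y ⊓ normalizer (K : Set G) ∧ SN p (K ⊔ closure (S : Set G)) x then 1 else 0) := by
  simp only [Finset.mul_sum]
  rw [Finset.sum_comm, Finset.sum_comm (s := A.powerset)]
  refine Finset.sum_congr rfl fun g _ => ?_
  by_cases h1 : g ∈ normalizer (K : Set G)
  · simp [h1]
  simp only [mem_inf, h1, and_false, false_and, if_false, mul_zero, Finset.sum_const_zero]
  by_cases h2 : g ∈ Y ∧ SN p K g
  · obtain ⟨h2, R, h3, h4, h5⟩ := h2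
    set R₀ := sInf {R : Subgroup G | K ≤ R ∧ g ∈ normalizer (R : Set G)}
    have h6 : g ∈ normalizer (R₀ : Set G) := mem_normalizer_of_conj_mem fun x hx => by
      rw [mem_sInf] at hx ⊢
      exact fun R hR => conj_mem_of_mem_normalizer hR.2 (hx R hR)
    have h7 : K < R₀ := lt_of_le_of_ne (le_sInf fun R hR => hR.1) fun h => h1 (h ▸ h6)
    obtain ⟨u, hu1, hu2⟩ := SetLike.exists_of_lt
      (lt_inf_normalizer_of_isPGroup (h3.to_le (sInf_le (by exact ⟨h4, h5⟩))) h7)
    refine cone A ((hA u).mpr ⟨⟨sInf_le (s := {R : Subgroup G | K ≤ R ∧ g ∈ normalizer (R : Set G)})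
      ⟨hK, le_normalizer h2⟩ hu1.1, hu1.2⟩, hu2⟩)
      (fun S => g ∈ Y ∧ SN p (K ⊔ closure (S : Set G)) g) fun S => and_congr_right fun _ => ?_
    simp only [SN, sup_le_iff, closure_le, Finset.coe_insert, Set.insert_subset_iff]
    exact ⟨fun ⟨R, h8, h9, h10⟩ => ⟨R, h8, ⟨h9.1, h9.2.2⟩, h10⟩, fun ⟨R, h8, h9, h10⟩ =>
      ⟨R, h8, ⟨h9.1, sInf_le (s := {R : Subgroup G | K ≤ R ∧ g ∈ normalizer (R : Set G)})
        ⟨h9.1, h10⟩ hu1.1, h9.2⟩, h10⟩⟩
  · exact Finset.sum_eq_zero fun S _ => by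
      rw [if_neg fun ⟨h, R, h3, h4, h5⟩ => h2 ⟨h, R, h3, le_sup_left.trans h4, h5⟩, mul_zero]

open Classical in
theorem main (Y : Subgroup G) : ∀ T K : Subgroup G, IsSylowIn p T Y → K ≤ Y →
    (∑ x : G, if x ∈ Y ∧ SN p K x then (1 : ℤ) else 0) =
      ∑ x : G, if x ∈ Y ∧ K ≤ T.map (MulAut.conj x).toMonoidHom then 1 else 0 := by
  induction Y using WellFoundedLT.induction with
  | _ Y ih =>
  intro T K hT
  induction K using WellFoundedGT.induction with
  | _ K ih2 =>
  intro hK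
  by_cases h1 : Y ≤ normalizer (K : Set G)
  · refine Finset.sum_congr rfl fun x _ => if_congr (and_congr_right fun hx => ⟨?_, fun h => ?_⟩)
      rfl rfl
    · rintro ⟨R, h2, h3, -⟩
      obtain ⟨y, hy, h4⟩ := (hT.map_conj_of_mem_normalizer (le_normalizer hx)).exists_conj_le
        (h2.to_le h3) hK
      rwa [map_conj_eq_of_mem_normalizer (h1 hy)] at h4
    · exact ⟨K, (hT.isPGroup.map _).to_le h, le_rfl, h1 hx⟩
  set Y' := Y ⊓ normalizer (K : Set G) with hY'
  have h2 : Y' < Y := lt_of_le_of_ne inf_le_left fun h => h1 (inf_eq_left.mp h)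
  obtain ⟨T', hT'⟩ := IsSylowIn.exists_in (p := p) Y'
  set A : Finset G := Finset.univ.filter fun u => u ∈ Y' ∧ u ∉ K
  have hA : ∀ u, u ∈ A ↔ u ∈ Y' ∧ u ∉ K := fun u => by simp [A]
  have hKY' : K ≤ Y' := le_inf hK le_normalizer
  have hS : ∀ S ∈ A.powerset, K ⊔ closure (S : Set G) ≤ Y' := fun S hS =>
    sup_le hKY' ((closure_le _).mpr fun u hu => ((hA u).mp (Finset.mem_powerset.mp hS hu)).1)
  have e1 := sum_sn (p := p) hK A hA
  have e2 := sum_lam hT K A hA
  have e3 := sum_lam hT' K A (by simpa only [hY', inf_assoc, inf_idem] using hA)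
  rw [count_conj hT] at e2
  rw [count_conj hT', hY', inf_assoc, inf_idem, ← hY'] at e3
  have e4 : IsSylowIn p K Y' ↔ IsSylowIn p K Y := ⟨fun h => IsSylowIn.of_maximal hK h.isPGroup
    fun R h3 h4 h5 => by_contra fun h6 => (lt_inf_normalizer_of_isPGroup h3
      (lt_of_le_not_ge h4 h6)).ne (h.eq_of_le (h3.to_le inf_le_left)
        (le_inf h4 le_normalizer) (inf_le_inf_right _ h5)).symm,
    fun h => h.mono hKY' inf_le_left⟩
  rw [e4, ← e2] at e3
  have e5 := e1.trans ((Finset.sum_congr rfl fun S h => by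
    rw [ih Y' h2 T' _ hT' (hS S h)]).trans e3)
  rw [← Finset.add_sum_erase _ _ (Finset.empty_mem_powerset A),
    ← Finset.add_sum_erase _ _ (Finset.empty_mem_powerset A),
    Finset.sum_congr (s₁ := A.powerset.erase ∅) rfl (g := fun S => (-1 : ℤ) ^ S.card * (∑ x : G,
      if x ∈ Y ∧ K ⊔ closure (S : Set G) ≤ T.map (MulAut.conj x).toMonoidHom then 1 else 0))
      fun S h => ?_] at e5
  · simpa only [Finset.card_empty, pow_zero, one_mul, Finset.coe_empty, Subgroup.closure_empty,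
      sup_bot_eq] using add_right_cancel e5
  · obtain ⟨h3, h4⟩ := Finset.mem_erase.mp h
    obtain ⟨u, hu⟩ := Finset.nonempty_iff_ne_empty.mpr h3
    rw [ih2 _ (lt_of_le_not_ge le_sup_left fun h5 => ((hA u).mp (Finset.mem_powerset.mp h4 hu)).2
      (h5 (mem_sup_right (subset_closure hu)))) ((hS S h4).trans inf_le_left)]

end

theorem result {G : Type*} [Group G] [Finite G] (p : ℕ) [Fact p.Prime]
    (hp : p ∣ Nat.card G) (H : Subgroup G) (hH : IsPGroup p H) (P : Sylow p G) :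
    Nat.card {g : G // ((H).subgroupOf (H ⊔ Subgroup.zpowers g)).IsSubnormal} =
        Nat.card {Q : Sylow p G // H ≤ (Q : Subgroup G)} * Nat.card (Subgroup.normalizer ((P : Subgroup G) : Set G)) ∧
    Nat.card {g : G // ((H).subgroupOf (H ⊔ Subgroup.zpowers g)).IsSubnormal} =
        Nat.card {K : Subgroup G // K ≤ (P : Subgroup G) ∧ ∃ g : G, K = H.map (MulAut.conj g).toMonoidHom} *
          Nat.card (Subgroup.normalizer (H : Set G)) := by
  classical
  have := Fintype.ofFinite G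
  have h1 : Nat.card {g : G // ((H).subgroupOf (H ⊔ Subgroup.zpowers g)).IsSubnormal} =
      {x : G | H ≤ (P : Subgroup G).map (MulAut.conj x).toMonoidHom}.ncard := by
    have := main (p := p) ⊤ P H (IsSylowIn.sylow_top P) le_top
    simp only [mem_top, true_and, Finset.sum_boole, Nat.cast_inj] at this
    rw [Nat.card_congr (Equiv.subtypeEquivRight (S4089.sn_iff hH)), Nat.card_eq_fintype_card,
      Fintype.card_subtype, Set.ncard_eq_toFinset_card', Set.toFinset_setOf, ← this]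
    congr
  rw [h1]
  constructor
  · refine H4.ncard_eq_mul_of_fibers _ (fun x => x • P) {Q : Sylow p G | H ≤ (Q : Subgroup G)}
      (Set.toFinite _) _ (fun x hx => hx) fun Q hQ => ?_
    obtain ⟨y, rfl⟩ := MulAction.exists_smul_eq G P Q
    rw [← Set.ncard_image_of_injective _ (mul_right_injective y⁻¹)]
    refine congrArg Set.ncard (?_ : _ = (normalizer ((P : Subgroup G) : Set G) : Set G))
    ext z
    constructor
    · rintro ⟨x, ⟨-, hx⟩, rfl⟩
      exact Sylow.smul_eq_iff_mem_normalizer.mp (by rw [mul_smul, hx, inv_smul_smul])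
    · intro hz
      have h2 : (y * z) • P = y • P := by
        rw [mul_smul, Sylow.smul_eq_iff_mem_normalizer.mpr hz]
      exact ⟨y * z, ⟨show H ≤ ((y * z) • P : Sylow p G) from h2 ▸ hQ, h2⟩, by simp⟩
  · have hle : ∀ x : G, H ≤ (P : Subgroup G).map (MulAut.conj x).toMonoidHom ↔
        H.map (MulAut.conj x⁻¹).toMonoidHom ≤ P := fun x =>
      ⟨fun h => (map_mono h).trans (map_conj_inv_map_conj x _).le,
        fun h => (map_conj_map_conj_inv x _).ge.trans (map_mono h)⟩
    refine H4.ncard_eq_mul_of_fibers _ (fun x => H.map (MulAut.conj x⁻¹).toMonoidHom)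
      {K : Subgroup G | K ≤ (P : Subgroup G) ∧ ∃ g : G, K = H.map (MulAut.conj g).toMonoidHom}
      (Set.toFinite _) _ (fun x hx => ⟨(hle x).mp hx, _, rfl⟩) ?_
    rintro _ ⟨hK, y, rfl⟩
    rw [← Set.ncard_image_of_injective _ (mul_left_injective y)]
    refine congrArg Set.ncard (?_ : _ = (normalizer (H : Set G) : Set G))
    ext z
    constructor
    · rintro ⟨x, ⟨-, hx⟩, rfl⟩
      exact mem_normalizer_of_map_conj_eq (by rw [map_conj_mul, ← hx, map_conj_map_conj_inv])
    · intro hz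
      have h2 : H.map (MulAut.conj (z * y⁻¹)⁻¹).toMonoidHom = H.map (MulAut.conj y).toMonoidHom := by
        rw [mul_inv_rev, inv_inv, map_conj_mul, map_conj_eq_of_mem_normalizer (inv_mem hz)]
      exact ⟨z * y⁻¹, ⟨(hle _).mpr (h2 ▸ hK), h2⟩, by simp⟩

end Cfsg.Agent.S4088
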