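import Cfsg.Statements.S4090
import Cfsg.Agent.S4088
import Cfsg.Agent.Lib.ClassSize

set_option autoImplicit false
open scoped BigOperators
open Cfsg

namespace Cfsg.Agent.S4090

open Subgroup CfsgLib
open scoped Pointwise commutatorElement

section

variable {G : Type*} [Group G] [Finite G] {p : ℕ} [hp : Fact p.Prime]

/-- number of `x` with `H ^ x ≤ Q` -/
noncomputable def cnt (H Q : Subgroup G) : ℕ := {x : G | ∀ h ∈ H, x⁻¹ * h * x ∈ Q}.ncard

theorem sup_eq_of_pow (P : Sylow p G) {K L : Subgroup G} [L.Normal] (h : K ≤ L) {m : ℕ}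
    (hm : K.relIndex L = p ^ m) : (P : Subgroup G) ⊔ K = ↑P ⊔ L := by
  refine le_antisymm (sup_le_sup_left h _) (sup_le le_sup_left ?_)
  rw [← (IsSylowIn.sylow_inf_normal P L).sup_eq_of_relIndex_eq_pow h hm]
  exact sup_le le_sup_right (inf_le_left.trans le_sup_left)

theorem mem_of_coprime {P K L : Subgroup G} (hP : IsPGroup p P) [K.Normal] (h : K ≤ L)
    (hc : (K.relIndex L).Coprime p) {g : G} (h1 : g ∈ P ⊔ K) (h2 : g ∈ L) : g ∈ K := by
  obtain ⟨a, ha, k, hk, rfl⟩ := (mem_sup_iff_of_le_normalizer le_normalizer_of_normal).mp h1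
  rw [L.mul_mem_cancel_right (h hk)] at h2
  obtain ⟨j, hj⟩ := IsPGroup.iff_orderOf.mp hP ⟨a, ha⟩
  rw [← orderOf_coe] at hj
  obtain ⟨m, hm⟩ := exists_pow_eq_self_of_coprime (x := a) (hj ▸ hc.pow_right j)
  exact mul_mem (hm ▸ pow_mem (K.pow_relIndex_mem h2) m) hk

theorem step (P : Sylow p G) {H K L : Subgroup G} (hH : IsPGroup p H) [hK : K.Normal]
    [hL : L.Normal] (h : K ≤ L) (hc : (K.relIndex L).Coprime p) :
    cnt H (P ⊔ K) * Nat.card L =
      cnt H (P ⊔ L) * {u : G | u ∈ L ∧ ∀ h ∈ H, h * u * h⁻¹ * u⁻¹ ∈ K}.ncard := by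
  let S : Set (G × G) := {z | z.2 ∈ L ∧ ∀ h ∈ H, (z.1 * z.2)⁻¹ * h * (z.1 * z.2) ∈ ↑P ⊔ K}
  have h1 : S.ncard = cnt H (P ⊔ K) * Nat.card L := by
    refine H4.ncard_eq_mul_of_fibers S (fun z => z.1 * z.2) _ (Set.toFinite _) _
      (fun z hz => hz.2) fun x hx => ?_
    rw [← Set.ncard_congr (s := (L : Set G)) (fun v _ => (x * v⁻¹, v))]
    · rfl
    · intro v hv
      exact ⟨⟨hv, by simpa using hx⟩, by simp⟩
    · exact fun a b _ _ h => congrArg Prod.snd h
    · rintro ⟨a, b⟩ ⟨h1, rfl⟩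
      exact ⟨b, h1.1, by simp⟩
  rw [← h1]
  refine H4.ncard_eq_mul_of_fibers S (fun z => z.1) _ (Set.toFinite _) _ ?_ fun y hy => ?_
  · rintro ⟨y, v⟩ ⟨h2, h3⟩ g hg
    have h4 : v ∈ (P : Subgroup G) ⊔ L := mem_sup_right h2
    have := mul_mem (mul_mem h4 (sup_le_sup_left h _ (h3 g hg))) (inv_mem h4)
    simpa [mul_assoc] using this
  obtain ⟨v, hv, hyv⟩ : ∃ v ∈ L, ∀ h ∈ H, (y * v)⁻¹ * h * (y * v) ∈ (P : Subgroup G) := by
    obtain ⟨g, hg, h2⟩ := (IsSylowIn.of_sylow P (le_sup_left : _ ≤ ↑P ⊔ L)).exists_conj_le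
      (hH.map (MulAut.conj y⁻¹).toMonoidHom) (by
        rintro _ ⟨g, hg, rfl⟩
        simpa using hy g hg)
    obtain ⟨a, ha, v, hv, rfl⟩ := (mem_sup_iff_of_le_normalizer le_normalizer_of_normal).mp hg
    refine ⟨v⁻¹, inv_mem hv, fun g hg => ?_⟩
    have h3 := h2 (conj_mem_map_conj (conj_mem_map_conj hg))
    have := mul_mem (mul_mem (inv_mem ha) h3) ha
    simpa [mul_assoc] using this
  set x := y * v with hx
  have key : ∀ w ∈ L, (∀ h ∈ H, (x * w)⁻¹ * h * (x * w) ∈ ↑P ⊔ K) ↔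
      ∀ h ∈ H, h * (x * w⁻¹ * x⁻¹) * h⁻¹ * (x * w⁻¹ * x⁻¹)⁻¹ ∈ K := by
    intro w hw
    have h2 : ∀ g ∈ H, g * (x * w⁻¹ * x⁻¹) * g⁻¹ * (x * w⁻¹ * x⁻¹)⁻¹ =
        x * ((x⁻¹ * g * x) * ((x * w)⁻¹ * g⁻¹ * (x * w))) * x⁻¹ := fun g _ => by group
    have h3 : ∀ g ∈ H, (x⁻¹ * g * x) * ((x * w)⁻¹ * g⁻¹ * (x * w)) ∈ L := fun g _ => by
      have := mul_mem (hL.conj_mem _ (inv_mem hw) (x⁻¹ * g * x)) hw
      simpa [mul_assoc] using this
    constructor
    · intro h4 g hg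
      rw [h2 g hg]
      exact hK.conj_mem _ (mem_of_coprime P.2 h hc
        (mul_mem (mem_sup_left (hyv g hg)) (h4 _ (inv_mem hg))) (h3 g hg)) x
    · intro h4 g hg
      have h5 := h4 _ (inv_mem hg)
      rw [h2 _ (inv_mem hg), hK.mem_comm_iff, inv_mul_cancel_left, inv_inv] at h5
      exact (Subgroup.mul_mem_cancel_left _ (mem_sup_left (hyv _ (inv_mem hg)))).mp (mem_sup_right h5)
  refine Set.ncard_congr (fun z _ => x * (v⁻¹ * z.2)⁻¹ * x⁻¹) ?_ ?_ ?_
  · rintro ⟨a, b⟩ ⟨⟨h2, h3⟩, rfl⟩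
    have h4 : v⁻¹ * b ∈ L := mul_mem (inv_mem hv) h2
    exact ⟨hL.conj_mem _ (inv_mem h4) x, (key _ h4).mp (by simpa [hx, mul_assoc] using h3)⟩
  · rintro ⟨a, b⟩ ⟨c, d⟩ ⟨-, rfl⟩ ⟨-, rfl⟩ h2
    simpa using h2
  · rintro u ⟨h2, h3⟩
    have h4 : x⁻¹ * u⁻¹ * x ∈ L := by simpa using hL.conj_mem _ (inv_mem h2) x⁻¹
    refine ⟨(y, v * (x⁻¹ * u⁻¹ * x)), ⟨⟨mul_mem hv h4, ?_⟩, rfl⟩, by group⟩
    have := (key _ h4).mpr (by simpa [mul_assoc] using h3)
    simpa [hx, mul_assoc] using this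

omit hp in
theorem card_dvd {H K L : Subgroup G} [hK : K.Normal] (h : K ≤ L) :
    Nat.card K ∣ {u : G | u ∈ L ∧ ∀ h ∈ H, h * u * h⁻¹ * u⁻¹ ∈ K}.ncard := by
  refine Frob.card_dvd_ncard_of_free (A := K) _ ?_ fun x _ u h => Subtype.ext (mul_eq_right.mp h)
  rintro k u ⟨h1, h2⟩
  refine ⟨mul_mem (h k.2) h1, fun g hg => ?_⟩
  have := mul_mem (mul_mem (hK.conj_mem _ k.2 g) (h2 g hg)) (inv_mem k.2)
  simpa [Subgroup.smul_def, mul_assoc] using this

theorem card_eq_cnt {H : Subgroup G} (hH : IsPGroup p H) (P : Sylow p G) :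
    Nat.card {g : G // ((H).subgroupOf (H ⊔ Subgroup.zpowers g)).IsSubnormal} = cnt H P := by
  classical
  have := Fintype.ofFinite G
  have h1 : Nat.card {g : G // ((H).subgroupOf (H ⊔ Subgroup.zpowers g)).IsSubnormal} =
      {x : G | H ≤ (P : Subgroup G).map (MulAut.conj x).toMonoidHom}.ncard := by
    have := S4088.main (p := p) ⊤ P H (IsSylowIn.sylow_top P) le_top
    simp only [mem_top, true_and, Finset.sum_boole, Nat.cast_inj] at this
    rw [Nat.card_congr (Equiv.subtypeEquivRight (S4089.sn_iff hH)), Nat.card_eq_fintype_card,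
      Fintype.card_subtype, Set.ncard_eq_toFinset_card', Set.toFinset_setOf, ← this]
    congr
  rw [h1, cnt]
  congr 1
  ext x
  exact forall₂_congr fun h _ => mem_map_conj_iff

end


theorem result {G : Type*} [Group G] [Finite G] (p : ℕ) [Fact p.Prime]
    (hG : Cfsg.IsPSolvable p G) (H : Subgroup G) (hH : IsPGroup p H) (P : Sylow p G)
    (n : ℕ) (M : Fin (n + 1) → Subgroup G) (h0 : M 0 = ⊥) (hn : M (Fin.last n) = ⊤) (hmono : Monotone M)
    (hnormal : ∀ i, (M i).Normal)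
    (hfac : ∀ i : Fin n, (∃ m : ℕ, (M i.castSucc).relIndex (M i.succ) = p ^ m) ∨ ((M i.castSucc).relIndex (M i.succ)).Coprime p) :
    Nat.card {g : G // ((H).subgroupOf (H ⊔ Subgroup.zpowers g)).IsSubnormal} =
      Nat.card (P : Subgroup G) *
        ∏ i : Fin n, (if ((M i.castSucc).relIndex (M i.succ)).Coprime p then
          Nat.card {u : G // u ∈ M i.succ ∧ ∀ h ∈ H, h * u * h⁻¹ * u⁻¹ ∈ M i.castSucc} / Nat.card (M i.castSucc)
          else 1) := by
  have hp : p.Prime := Fact.out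
  rw [card_eq_cnt hH P]
  let f : Fin n → ℕ := fun i => if ((M i.castSucc).relIndex (M i.succ)).Coprime p then
    Nat.card {u : G // u ∈ M i.succ ∧ ∀ h ∈ H, h * u * h⁻¹ * u⁻¹ ∈ M i.castSucc} /
      Nat.card (M i.castSucc) else 1
  have h1 : ∀ i : Fin n, cnt H (P ⊔ M i.castSucc) * Nat.card ↥((P : Subgroup G) ⊔ M i.succ) =
      cnt H (P ⊔ M i.succ) * Nat.card ↥((P : Subgroup G) ⊔ M i.castSucc) * f i := by
    intro i
    haveI := hnormal i.castSucc
    haveI := hnormal i.succ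
    have hle : M i.castSucc ≤ M i.succ := hmono i.castSucc_le_succ
    by_cases hc : ((M i.castSucc).relIndex (M i.succ)).Coprime p
    · have h2 := step P hH hle hc
      obtain ⟨c, hc'⟩ := card_dvd (H := H) hle
      have h3 : f i = c := by
        show (if _ then _ else _) = c
        rw [if_pos hc]
        exact Nat.div_eq_of_eq_mul_right Nat.card_pos hc'
      have h4 := card_sup_mul_card_inf (H := (P : Subgroup G)) (N := M i.succ)
        le_normalizer_of_normal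
      have h5 := card_sup_mul_card_inf (H := (P : Subgroup G)) (N := M i.castSucc)
        le_normalizer_of_normal
      have h6 : (P : Subgroup G) ⊓ M i.succ = ↑P ⊓ M i.castSucc :=
        le_antisymm (fun g hg => ⟨hg.1, mem_of_coprime P.2 hle hc (mem_sup_left hg.1) hg.2⟩)
          (inf_le_inf_left _ hle)
      refine Nat.eq_of_mul_eq_mul_right (Nat.card_pos (α := ↥((P : Subgroup G) ⊓ M i.succ))) ?_
      rw [mul_assoc, h4, mul_left_comm, h2, h6, h3, hc', mul_right_comm _ c, mul_assoc _ _ (Nat.card _),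
        h5]
      ring
    · obtain ⟨m, hm⟩ := (hfac i).resolve_right hc
      have h3 : f i = 1 := if_neg hc
      rw [h3, sup_eq_of_pow P hle hm, mul_one]
  have h2 : ∀ i : Fin (n + 1), cnt H P * Nat.card ↥((P : Subgroup G) ⊔ M i) =
      cnt H (P ⊔ M i) * Nat.card P * ∏ j : Fin n, if j.castSucc < i then f j else 1 := by
    intro i
    induction i using Fin.induction with
    | zero => simp [h0]
    | succ i ih =>
      have h3 : (∏ j : Fin n, if j.castSucc < i.succ then f j else 1) =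
          (∏ j : Fin n, if j.castSucc < i.castSucc then f j else 1) * f i := by
        rw [← Finset.prod_ite_eq_of_mem' Finset.univ i f (Finset.mem_univ _),
          ← Finset.prod_mul_distrib]
        refine Finset.prod_congr rfl fun j _ => ?_
        rcases lt_trichotomy j i with h | rfl | h
        · simp [h, h.ne, h.le, Fin.castSucc_lt_succ_iff]
        · simp
        · simp [h.not_gt, h.ne', Fin.castSucc_lt_succ_iff, h.not_ge]
      refine Nat.eq_of_mul_eq_mul_right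
        (Nat.card_pos (α := ↥((P : Subgroup G) ⊔ M i.castSucc))) ?_
      rw [mul_right_comm, ih, h3]
      linear_combination (Nat.card P * ∏ j : Fin n, if j.castSucc < i.castSucc then f j else 1) * h1 i
  have h3 := h2 (Fin.last n)
  simp only [hn, sup_top_eq, Fin.castSucc_lt_last, if_true, card_top] at h3
  have h4 : cnt H (⊤ : Subgroup G) = Nat.card G := by simp [cnt, Set.ncard_univ]
  rw [h4, mul_comm, mul_assoc] at h3
  exact Nat.eq_of_mul_eq_mul_left Nat.card_pos h3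

end Cfsg.Agent.S4090
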