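import Cfsg.Statements.S4091
import Cfsg.Agent.S4090
import Cfsg.Agent.Lib.CoreNavarroRizo

set_option autoImplicit false
open Cfsg

namespace Cfsg.Agent.S4091

open Subgroup CfsgLib
open scoped Pointwise commutatorElement

open S4090

section

variable {G : Type*} [Group G] [Fintype G] {p : ℕ} [hp : Fact p.Prime]

omit hp in
theorem ncard_eq (H K L : Subgroup G) [K.Normal] (h : K ≤ L) :
    {u : G | u ∈ L ∧ ∀ h ∈ H, h * u * h⁻¹ * u⁻¹ ∈ K}.ncard =
      Nat.card ↥(L.map (QuotientGroup.mk' K) ⊓
        centralizer (H.map (QuotientGroup.mk' K) : Set (G ⧸ K))) * Nat.card K := by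
  rw [← card_comap_mk', ← Nat.card_coe_set_eq, comap_inf,
    comap_map_eq_self (by rwa [QuotientGroup.ker_mk'])]
  refine Nat.card_congr (Equiv.subtypeEquivRight fun u => and_congr_right fun _ => ?_)
  have key : ∀ h : G, h * u * h⁻¹ * u⁻¹ ∈ K ↔
      QuotientGroup.mk' K h * QuotientGroup.mk' K u =
        QuotientGroup.mk' K u * QuotientGroup.mk' K h := fun h => by
    rw [← commutatorElement_eq_one_iff_mul_comm, ← map_commutatorElement, QuotientGroup.mk'_apply,
      QuotientGroup.eq_one_iff, commutatorElement_def]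
  exact ⟨by rintro h _ ⟨g, hg, rfl⟩; exact (key g).mp (h g hg),
    fun h g hg => (key g).mpr (h _ ⟨g, hg, rfl⟩)⟩

open Classical in
theorem ineq (hG : IsPSolvable p G) (P : Sylow p G) :
    ∏ x : P, cnt (zpowers (x : G)) P ^ p ≤
      cnt (P : Subgroup G) P ^ ((p - 1) * Fintype.card P) * Nat.card G ^ Fintype.card P := by
  obtain ⟨n, M, h0, hn, hmono, hnormal, hfac⟩ := hG
  have hpN : p * Fintype.card P = (p - 1) * Fintype.card P + Fintype.card P := by
    rw [← Nat.succ_mul, Nat.succ_eq_add_one, Nat.sub_add_cancel hp.out.one_lt.le]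
  have key : ∀ i, ∏ x : P, cnt (zpowers (x : G)) (P ⊔ M i) ^ p ≤
      cnt (P : Subgroup G) (P ⊔ M i) ^ ((p - 1) * Fintype.card P) *
        Nat.card G ^ Fintype.card P := by
    intro i
    induction i using Fin.reverseInduction with
    | last =>
      have : ∀ H : Subgroup G, cnt H ⊤ = Nat.card G := fun H => by simp [cnt, Set.ncard_univ]
      simp only [hn, sup_top_eq, this, Finset.prod_const, Finset.card_univ, ← pow_mul, ← pow_add,
        hpN, le_refl]
    | cast i ih =>
      haveI := hnormal i.castSucc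
      haveI := hnormal i.succ
      have hle : M i.castSucc ≤ M i.succ := hmono i.castSucc_le_succ
      rcases hfac i with ⟨m, hm⟩ | hc
      · rwa [sup_eq_of_pow P hle hm]
      generalize M i.castSucc = K at *
      generalize M i.succ = L at *
      have h1 := prod_card_inf_centralizer_le P.2
        ((QuotientGroup.mk' K).comp (P : Subgroup G).subtype) (L.map (QuotientGroup.mk' K))
        (by haveI := (inferInstance : L.Normal).map _ (QuotientGroup.mk'_surjective K)
            exact le_normalizer_of_normal)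
        (by rw [card_map_mk'_eq_relIndex]; exact hp.out.coprime_iff_not_dvd.mp hc.symm)
      rw [MonoidHom.range_comp, range_subtype] at h1
      have h2 := step P P.2 hle hc
      have h3 : ∀ x : P, cnt (zpowers (x : G)) (P ⊔ K) * Nat.card L =
          cnt (zpowers (x : G)) (P ⊔ L) * (Nat.card ↥(L.map (QuotientGroup.mk' K) ⊓ centralizer
            {(QuotientGroup.mk' K).comp (P : Subgroup G).subtype x}) * Nat.card K) := fun x => by
        rw [step P (P.2.to_le (zpowers_le.mpr x.2)) hle hc, ncard_eq _ _ _ hle,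
          MonoidHom.map_zpowers, zpowers_eq_closure (QuotientGroup.mk' K x), centralizer_closure]
        rfl
      rw [ncard_eq _ _ _ hle] at h2
      have h4 : Nat.card L = Nat.card (L.map (QuotientGroup.mk' K)) * Nat.card K := by
        rw [card_map_mk'_eq_relIndex, mul_comm, card_mul_relIndex hle]
      refine Nat.le_of_mul_le_mul_right ?_ (pow_pos (Nat.card_pos (α := L)) (p * Fintype.card P))
      rw [pow_mul, ← Finset.card_univ, ← Finset.prod_const, ← Finset.prod_mul_distrib]
      simp only [← mul_pow, h3]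
      simp only [mul_pow, Finset.prod_mul_distrib, Finset.prod_const, Finset.card_univ, ← pow_mul]
      refine (Nat.mul_le_mul ih (Nat.mul_le_mul_right _ h1)).trans_eq ?_
      rw [hpN, pow_add (Nat.card L), mul_mul_mul_comm _ _ (Nat.card L ^ _), ← mul_pow _ (Nat.card L),
        h2, h4]
      simp only [mul_pow, pow_add]
      ring
  simpa only [h0, sup_bot_eq] using key 0

open Classical in
theorem sum_le (P : Sylow p G) :
    Nat.card G * ∑ x : P, (cnt (zpowers (x : G)) P : ℝ)⁻¹ ≤
      Nat.card {g : G // ∃ k : ℕ, orderOf g = p ^ k} := by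
  have h1 : ∀ y : G, cnt (zpowers y) P = (Finset.univ.filter fun g => g⁻¹ * y * g ∈ P).card := by
    intro y
    rw [← Set.ncard_coe_finset, cnt]
    congr 1
    ext g
    simp only [Set.mem_setOf_eq, Finset.coe_filter, Finset.mem_univ, true_and]
    refine ⟨fun h => h y (mem_zpowers y), ?_⟩
    rintro h _ ⟨n, rfl⟩
    have := (P : Subgroup G).zpow_mem h n
    have h3 := conj_zpow (i := n) (a := g⁻¹) (b := y)
    rw [inv_inv] at h3
    exact h3 ▸ this
  have h2 : ∀ g y : G, cnt (zpowers (g⁻¹ * y * g)) P = cnt (zpowers y) P := fun g y => by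
    rw [h1, h1]
    exact Finset.card_bijective (g * ·) (Group.mulLeft_bijective g) fun a => by simp [mul_assoc]
  calc Nat.card G * ∑ x : P, (cnt (zpowers (x : G)) P : ℝ)⁻¹
      = ∑ g : G, ∑ y : G, if g⁻¹ * y * g ∈ P then (cnt (zpowers y) P : ℝ)⁻¹ else 0 := by
        rw [Nat.card_eq_fintype_card, ← Finset.card_univ, ← nsmul_eq_mul, ← Finset.sum_const]
        refine Finset.sum_congr rfl fun g _ => ?_
        rw [← Finset.sum_subtype (Finset.univ.filter (· ∈ P)) (fun x => by simp only [Finset.mem_filter, Finset.mem_univ, true_and]; rfl)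
          fun x => (cnt (zpowers x) P : ℝ)⁻¹, Finset.sum_filter]
        refine (Fintype.sum_equiv (MulAut.conj g⁻¹).toEquiv _ _ fun y => ?_).symm
        rw [← h2 g y]
        simp
    _ ≤ ∑ y : G, if ∃ k : ℕ, orderOf y = p ^ k then 1 else 0 := by
        rw [Finset.sum_comm]
        refine Finset.sum_le_sum fun y _ => ?_
        rw [← Finset.sum_filter, Finset.sum_const, nsmul_eq_mul, ← h1]
        split_ifs with h
        · exact mul_inv_le_one
        · rw [h1, Finset.filter_eq_empty_iff.mpr]
          · simp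
          · intro g _ hg
            obtain ⟨k, hk⟩ := IsPGroup.iff_orderOf.mp P.2 ⟨_, hg⟩
            rw [← orderOf_coe] at hk
            exact h ⟨k, ((MulAut.conj g⁻¹).orderOf_eq y).symm.trans (by simpa using hk)⟩
    _ = _ := by rw [Finset.sum_boole, Nat.card_eq_fintype_card, Fintype.card_subtype]

end


theorem result {G : Type*} [Group G] [Finite G] (p : ℕ) [Fact p.Prime]
    (hG : Cfsg.IsPSolvable p G) (P : Sylow p G) :
    Nat.card (P : Subgroup G) ^ p * Nat.card (Sylow p G) ^ (p - 1) ≤ Nat.card {g : G // ∃ k : ℕ, orderOf g = p ^ k} ^ p := by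
  classical
  have hp : p.Prime := Fact.out
  have := Fintype.ofFinite G
  have h1 := ineq hG P
  have h2 := sum_le P
  have h3 : Nat.card (Sylow p G) * cnt (P : Subgroup G) P = Nat.card G := by
    rw [P.card_eq_index_normalizer, ← index_mul_card (normalizer ((P : Subgroup G) : Set G)), cnt,
      ← Nat.card_coe_set_eq]
    congr 1
    refine Nat.card_congr (Equiv.subtypeEquivRight fun g => ⟨fun h => ?_, fun h x hx => ?_⟩)
    · rw [← inv_mem_iff]
      exact mem_normalizer_fintype fun x hx => by rw [inv_inv]; exact h x hx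
    · simpa using conj_mem_of_mem_normalizer (inv_mem h) hx
  have hpos : ∀ x : P, 0 < cnt (zpowers (x : G)) P := fun x =>
    (Set.ncard_pos (Set.toFinite _)).mpr ⟨1, fun h hh => by simpa using zpowers_le.mpr x.2 hh⟩
  have hN : 0 < Fintype.card P := Fintype.card_pos
  rw [Nat.card_eq_fintype_card (α := (P : Subgroup G))]
  change Fintype.card P ^ p * _ ≤ _
  set N := Fintype.card P with hNd
  generalize Nat.card {g : G // ∃ k : ℕ, orderOf g = p ^ k} = u at h2
  generalize Nat.card (Sylow p G) = n at h3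
  generalize cnt (P : Subgroup G) P = c at h1 h3
  have hg : 0 < Nat.card G := Nat.card_pos
  generalize Nat.card G = g at h1 h2 h3 hg
  have h4 := Real.geom_mean_le_arith_mean_weighted Finset.univ (fun _ : P => (N : ℝ)⁻¹)
    (fun x => (cnt (zpowers (x : G)) P : ℝ)⁻¹) (fun _ _ => by positivity)
    (by rw [Finset.sum_const, Finset.card_univ, nsmul_eq_mul]
        exact mul_inv_cancel₀ (Nat.cast_pos.mpr hN).ne')
    (fun _ _ => by positivity)
  rw [Real.finsetProd_rpow _ _ (fun _ _ => by positivity), ← Finset.mul_sum,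
    Finset.prod_inv_distrib, ← Nat.cast_prod] at h4
  rw [Finset.prod_pow] at h1
  have hS : 0 < ∏ x : P, cnt (zpowers (x : G)) P := Finset.prod_pos fun x _ => hpos x
  generalize ∏ x : P, cnt (zpowers (x : G)) P = S at h1 h4 hS
  generalize ∑ x : P, (cnt (zpowers (x : G)) P : ℝ)⁻¹ = T at h2 h4
  have h5 : (g * N) ^ N ≤ u ^ N * S := by
    have h6 : (g * N : ℝ) * (S : ℝ)⁻¹ ^ (N : ℝ)⁻¹ ≤ u := by
      refine le_trans (mul_le_mul_of_nonneg_left h4 (by positivity)) (le_of_eq_of_le ?_ h2)
      field_simp
    have h7 := pow_le_pow_left₀ (by positivity) h6 N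
    rw [mul_pow, Real.rpow_inv_natCast_pow (by positivity) hN.ne',
      mul_inv_le_iff₀ (by positivity)] at h7
    exact_mod_cast h7
  have h6 := (Nat.pow_le_pow_left h5 p).trans
    ((mul_pow _ _ _).le.trans (Nat.mul_le_mul_left _ h1))
  obtain ⟨q, rfl⟩ : ∃ q, p = q + 1 := ⟨p - 1, (Nat.sub_add_cancel hp.one_lt.le).symm⟩
  subst h3
  rw [Nat.add_sub_cancel] at h6 ⊢
  rw [← Nat.pow_le_pow_iff_left hN.ne']
  refine Nat.le_of_mul_le_mul_right (le_of_eq_of_le ?_ (h6.trans_eq ?_))
    (mul_pos (pow_pos (Nat.pos_of_mul_pos_left hg) (q * N)) (pow_pos hg N))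
  · ring
  · ring

end Cfsg.Agent.S4091
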