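import Cfsg.Statements.S4092
import Cfsg.Agent.Lib.ClassSize2
import Cfsg.Agent.Lib.PGroupBasic

set_option autoImplicit false
open Cfsg

namespace Cfsg.Agent.S4092

open Subgroup CfsgLib CfsgLib.Frob

theorem union_bound {ι α : Type*} [Finite α] (F : Finset ι) (A : ι → Set α) (s d : ℕ)
    (h1 : ∀ i ∈ F, (A i).ncard = s) (h2 : ∀ i ∈ F, ∀ j ∈ F, i ≠ j → (A i ∩ A j).ncard ≤ d) :
    2 * F.card * s + d * F.card ≤ 2 * (⋃ i ∈ F, A i).ncard + d * F.card * F.card := by
  classical
  induction F using Finset.induction_on with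
  | empty => simp
  | insert a F ha ih =>
    have ih' := ih (fun i hi => h1 i (Finset.mem_insert_of_mem hi)) fun i hi j hj =>
      h2 i (Finset.mem_insert_of_mem hi) j (Finset.mem_insert_of_mem hj)
    rw [Finset.set_biUnion_insert, Finset.card_insert_of_notMem ha]
    have h3 := Set.ncard_union_add_ncard_inter (A a) (⋃ i ∈ F, A i)
    have h4 : (A a ∩ ⋃ i ∈ F, A i).ncard ≤ F.card * d := by
      rw [Set.inter_iUnion₂]
      refine (Finset.set_ncard_biUnion_le _ _).trans ?_
      exact Finset.sum_le_card_nsmul _ _ _ fun i hi => h2 a (Finset.mem_insert_self _ _) i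
        (Finset.mem_insert_of_mem hi) (fun e => ha (e ▸ hi))
    rw [h1 a (Finset.mem_insert_self _ _)] at h3
    nlinarith

variable {G : Type*} [Group G] [Finite G] {p : ℕ} [Fact p.Prime]

theorem card_eq (P Q : Sylow p G) : Nat.card (Q : Subgroup G) = Nat.card (P : Subgroup G) :=
  Q.card_eq_multiplicity.trans P.card_eq_multiplicity.symm

theorem relIndex_eq_pow {P Q : Sylow p G} (h : P ≠ Q) :
    ∃ k, 1 ≤ k ∧ (Q : Subgroup G).relIndex P = p ^ k := by
  obtain ⟨k, hk⟩ := P.2.index ((Q : Subgroup G).subgroupOf P)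
  refine ⟨k, Nat.pos_of_ne_zero ?_, hk⟩
  rintro rfl
  exact h (Sylow.ext (P.3 Q.2 (relIndex_eq_one.mp hk)).symm)

omit [Fact p.Prime] in
theorem exists_family (P Q : Sylow p G) (h : P ≠ Q) :
    ∃ F : Finset (Sylow p G), F.card = (Q : Subgroup G).relIndex P + 1 ∧
      ∀ R ∈ F, R = P ∨ ∃ x ∈ (P : Subgroup G), R = x • Q := by
  classical
  have h1 : (MulAction.orbit (P : Subgroup G) Q).ncard = (Q : Subgroup G).relIndex P := by
    rw [← MulAction.index_stabilizer, ← inf_relIndex_right, inf_comm,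
      ← IsPGroup.inf_normalizer_sylow P.2, inf_comm, inf_relIndex_right,
      ← Sylow.stabilizer_eq_normalizer]
    rfl
  have h2 : P ∉ MulAction.orbit (P : Subgroup G) Q := by
    rintro ⟨x, hx⟩
    have hx' : (x : G) • Q = P := hx
    rw [smul_eq_iff_eq_inv_smul, Sylow.smul_eq_iff_mem_normalizer.mpr
      (le_normalizer ((P : Subgroup G).inv_mem x.2))] at hx'
    exact h hx'.symm
  refine ⟨(Set.toFinite (insert P (MulAction.orbit (P : Subgroup G) Q))).toFinset, ?_, ?_⟩
  · rw [← Set.ncard_eq_toFinset_card, Set.ncard_insert_of_notMem h2, h1]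
  · intro R hR
    rcases (Set.Finite.mem_toFinset _).mp hR with e | ⟨x, e⟩
    · exact Or.inl e
    · exact Or.inr ⟨x, x.2, e.symm⟩

/-- Let G be a finite group, p a prime and P a Sylow p-subgroup of G that is not normal in G. Then G has at least p·#P elements of p-power order (the identity included). -/
theorem result {G : Type*} [Group G] [Finite G] (p : ℕ) [Fact p.Prime]
    (P : Sylow p G) (hP : ¬ (P : Subgroup G).Normal) :
    p * Nat.card (P : Subgroup G) ≤ Nat.card {g : G // ∃ k : ℕ, orderOf g = p ^ k} := by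
  have hp : p.Prime := Fact.out
  set U : Set G := {g : G | ∃ k : ℕ, orderOf g = p ^ k} with hU
  change _ ≤ U.ncard
  have hsub : ∀ R : Sylow p G, ((R : Subgroup G) : Set G) ⊆ U := fun R x hx =>
    orderOf_eq_pow_of_mem_isPGroup R.2 hx
  by_cases hA : ∃ P₁ P₂ : Sylow p G, (P₂ : Subgroup G).relIndex P₁ = p
  · obtain ⟨P₁, P₂, h⟩ := hA
    have hne : P₁ ≠ P₂ := by
      rintro rfl
      rw [relIndex_self] at h
      exact hp.one_lt.ne h
    obtain ⟨F, hF, hF'⟩ := exists_family P₁ P₂ hne
    set D : Subgroup G := (P₂ : Subgroup G) ⊓ P₁ with hD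
    have hc : Nat.card D * p = Nat.card (P : Subgroup G) := by
      rw [← card_eq P P₁, ← card_inf_mul_relIndex (P₂ : Subgroup G) P₁, h]
    have hn : (P₁ : Subgroup G) ≤ normalizer (D : Set G) := by
      have : (D.subgroupOf P₁).Normal := PGrp.normal_of_index_eq_prime P₁.2 (by
        rw [hD, inf_subgroupOf_right]; exact h)
      exact le_normalizer_of_normal_subgroupOf inf_le_right
    have hDF : ∀ R ∈ F, D ≤ R := fun R hR => by
      rcases hF' R hR with rfl | ⟨x, hx, rfl⟩
      · exact inf_le_right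
      · intro y hy
        exact mem_conj_smul_iff.mpr (conj_mem_of_mem_normalizer' (hn hx) hy).1
    have hb := union_bound F (fun R => ((R : Subgroup G) : Set G) \ D)
      (Nat.card (P : Subgroup G) - Nat.card D) 0 (fun R hR => by
        rw [Set.ncard_sdiff (hDF R hR), ← card_eq P R]; rfl) fun R hR R' hR' hne => by
        obtain ⟨k, hk, e⟩ := relIndex_eq_pow hne
        have h1 := card_inf_mul_relIndex (R' : Subgroup G) R
        rw [e, card_eq P R, ← hc] at h1
        have h2 : D = (R' : Subgroup G) ⊓ R := by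
          refine eq_of_le_of_card_le (le_inf (hDF R' hR') (hDF R hR)) ?_
          have : p ≤ p ^ k := le_self_pow₀ hp.one_le (by omega)
          refine Nat.le_of_mul_le_mul_right ?_ hp.pos
          rw [← h1]
          exact Nat.mul_le_mul_left _ this
        rw [Nat.le_zero, Set.ncard_eq_zero, Set.eq_empty_iff_forall_notMem]
        rintro x ⟨⟨h3, h4⟩, h5, -⟩
        exact h4 (h2 ▸ ⟨h5, h3⟩)
    have h3 : (⋃ R ∈ F, ((R : Subgroup G) : Set G) \ D).ncard + Nat.card D ≤ U.ncard := by
      change _ + (D : Set G).ncard ≤ _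
      rw [← Set.ncard_union_eq]
      · refine Set.ncard_le_ncard (Set.union_subset ?_ fun x hx => hsub P₁ hx.2)
        exact Set.iUnion₂_subset fun R _ => Set.sdiff_subset.trans (hsub R)
      · exact Set.disjoint_left.mpr fun x hx hxD => by
          obtain ⟨R, -, hR⟩ := Set.mem_iUnion₂.mp hx
          exact hR.2 hxD
    rw [hF, h, ← hc] at hb
    rw [← hc]
    obtain ⟨m, rfl⟩ : ∃ m, p = m + 1 := ⟨p - 1, by have := hp.pos; omega⟩
    rw [mul_add (Nat.card D), mul_one, Nat.add_sub_cancel] at hb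
    nlinarith
  · push Not at hA
    obtain ⟨Q, hQ⟩ : ∃ Q : Sylow p G, P ≠ Q := by
      by_contra h
      push Not at h
      have : Subsingleton (Sylow p G) := ⟨fun a b => (h a).symm.trans (h b)⟩
      exact hP P.normal_of_subsingleton
    have h2 : ∀ R R' : Sylow p G, R ≠ R' → ∃ k, (R' : Subgroup G).relIndex R = p ^ 2 * p ^ k := by
      intro R R' hne
      obtain ⟨k, hk, e⟩ := relIndex_eq_pow hne
      have : k ≠ 1 := by
        rintro rfl
        exact hA R R' (by rw [e, pow_one])
      exact ⟨k - 2, by rw [e, ← pow_add]; congr 1; omega⟩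
    obtain ⟨F, hF, -⟩ := exists_family P Q hQ
    obtain ⟨k, hk⟩ := h2 P Q hQ
    obtain ⟨F', -, hF'⟩ := Finset.exists_subset_card_eq (s := F) (n := p ^ 2) (by
      rw [hF, hk]
      have : 0 < p ^ k := pow_pos hp.pos k
      nlinarith)
    obtain ⟨d, hd⟩ : p ^ 2 ∣ Nat.card (P : Subgroup G) :=
      (Dvd.intro _ hk.symm).trans (relIndex_dvd_card _ _)
    have hb := union_bound F' (fun R => ((R : Subgroup G) : Set G)) _ d
      (fun R _ => card_eq P R) fun R _ R' _ hne => by
        obtain ⟨j, hj⟩ := h2 R' R hne.symm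
        have h1 := card_inf_mul_relIndex (R : Subgroup G) R'
        rw [hj, card_eq P R', hd] at h1
        change Nat.card ((R : Subgroup G) ⊓ R' : Subgroup G) ≤ d
        have : 0 < p ^ j := pow_pos hp.pos j
        refine Nat.le_of_mul_le_mul_left ?_ (pow_pos hp.pos 2)
        nlinarith
    have h3 : (⋃ R ∈ F', ((R : Subgroup G) : Set G)).ncard ≤ U.ncard :=
      Set.ncard_le_ncard (Set.iUnion₂_subset fun R _ => hsub R)
    rw [hF', hd] at hb
    rw [hd]
    have h4 : 2 * p ≤ p ^ 2 + 1 := by nlinarith [sq_nonneg ((p : ℤ) - 1)]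
    nlinarith [Nat.mul_le_mul_left (p ^ 2 * d) h4]

end Cfsg.Agent.S4092
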