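import Cfsg.Statements.S4093
import Cfsg.Agent.Lib.ClassSize2

set_option autoImplicit false
open scoped BigOperators
open Cfsg

namespace Cfsg.Agent.S4093

open Subgroup CfsgLib CfsgLib.Frob

/-- Let G be a finite group with a normal subgroup N complementing a Sylow p-subgroup P (a normal p-complement). Then the number of elements of G of p-power order equals the sum over x ∈ P of the index of C_N(x) in N. -/
theorem result {G : Type*} [Group G] [Finite G] (p : ℕ) [Fact p.Prime]
    (P : Sylow p G) (N : Subgroup G) [N.Normal] (hNP : N.IsComplement' (P : Subgroup G)) :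
    Nat.card {g : G // ∃ k : ℕ, orderOf g = p ^ k} =
      ∑ᶠ x : (P : Subgroup G), Nat.card N / Nat.card ↥(N ⊓ Subgroup.centralizer ({(x : G)} : Set G)) := by
  classical
  have := Fintype.ofFinite (P : Subgroup G)
  let f : (Σ x : (P : Subgroup G), {y : G | ∃ n ∈ N, n * x * n⁻¹ = y}) →
      {g : G // ∃ k : ℕ, orderOf g = p ^ k} := fun z => ⟨z.2, by
    obtain ⟨n, -, e⟩ := z.2.2
    rw [← e]
    obtain ⟨k, hk⟩ := orderOf_eq_pow_of_mem_isPGroup P.2 z.1.2
    exact ⟨k, ((MulAut.conj n).orderOf_eq _).trans hk⟩⟩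
  have hf : Function.Bijective f := by
    constructor
    · rintro ⟨x, y, n, hn, rfl⟩ ⟨x', y', n', hn', rfl⟩ e
      have e' : n * x * n⁻¹ = n' * x' * n'⁻¹ := congrArg Subtype.val e
      have h1 : (x' : G)⁻¹ * x ∈ N := by
        have h2 : (x' : G)⁻¹ * x = (x' : G)⁻¹ * (n⁻¹ * n') * x' * (n'⁻¹ * n) := by
          calc (x' : G)⁻¹ * x = (x' : G)⁻¹ * n⁻¹ * (n * x * n⁻¹) * n := by group
            _ = _ := by rw [e']; group
        rw [h2]
        exact N.mul_mem (‹N.Normal›.conj_mem' _ (N.mul_mem (N.inv_mem hn) hn') _)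
          (N.mul_mem (N.inv_mem hn') hn)
      have h3 : x = x' := Subtype.ext (inv_mul_eq_one.mp (disjoint_def.mp hNP.disjoint h1
        ((P : Subgroup G).mul_mem ((P : Subgroup G).inv_mem x'.2) x.2))).symm
      subst h3
      simp [e']
    · rintro ⟨g, k, hk⟩
      obtain ⟨Q, hQ⟩ := exists_sylow_mem_of_orderOf hk
      obtain ⟨y, rfl⟩ := MulAction.exists_smul_eq G P Q
      obtain ⟨⟨n, u⟩, rfl⟩ := hNP.2 y
      have h1 : (n * u : G)⁻¹ * g * (n * u) ∈ (P : Subgroup G) := mem_conj_smul_iff.mp hQ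
      refine ⟨⟨⟨(n : G)⁻¹ * g * n, ?_⟩, g, n, n.2, by group⟩, rfl⟩
      have := (P : Subgroup G).mul_mem ((P : Subgroup G).mul_mem u.2 h1)
        ((P : Subgroup G).inv_mem u.2)
      convert this using 1
      group
  rw [← Nat.card_congr (Equiv.ofBijective f hf), Nat.card_sigma, finsum_eq_sum_of_fintype]
  refine Finset.sum_congr rfl fun x _ => ?_
  rw [Nat.card_coe_set_eq, ncard_conj_subgroup, ← card_inf_mul_relIndex
    (centralizer ({(x : G)} : Set G)) N, inf_comm, Nat.mul_div_cancel_left _ Nat.card_pos]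

end Cfsg.Agent.S4093
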