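import Cfsg.Statements.S4097
import Cfsg.Agent.Lib.FT.BG10T2
import Cfsg.Agent.Lib.CharFrobenius

set_option autoImplicit false
open Cfsg

namespace Cfsg.Agent.S4097

open Subgroup CfsgLib
open scoped Pointwise

universe u

theorem aux (n : ℕ) : ∀ (G : Type u) [Group G] [Finite G], Nat.card G = n →
    ∀ A : Subgroup G, Group.IsSolvable A →
    (∀ S : Subgroup G, A ≤ S → Group.IsSolvable S → ∀ a ∈ A, ∀ s ∈ S, a * s = s * a) →
    A ≤ center G := by
  induction n using Nat.strong_induction_on with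
  | _ n ih =>
  intro G _ _ hn A hA hc
  -- proper overgroups centralize `A`
  have h1 : ∀ L : Subgroup G, A ≤ L → L ≠ ⊤ → L ≤ centralizer (A : Set G) := by
    intro L hAL hL l hl a ha
    have hlt : Nat.card L < n := by
      rw [← hn, ← card_top (G := G)]
      exact lt_of_le_of_ne (card_le_of_le le_top) fun e => hL (eq_of_le_of_card_ge le_top e.ge)
    have h := ih _ hlt L rfl (A.subgroupOf L)
      (isSolvable_comap_of_injective hA L.subtype L.subtype_injective) (fun S h1 h2 x hx s hs => by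
        have h3 : A ≤ S.map L.subtype := fun y hy => ⟨⟨y, hAL hy⟩, h1 hy, rfl⟩
        exact Subtype.ext (hc _ h3 (Cop.solvable_map h2 _) x hx s ⟨s, hs, rfl⟩))
    exact (congrArg Subtype.val (mem_center_iff.1 (h (show (⟨a, hAL ha⟩ : L) ∈ A.subgroupOf L
      from ha)) ⟨l, hl⟩)).symm
  -- normal solvable subgroups
  by_cases h2 : ∃ N : Subgroup G, N.Normal ∧ N ≠ ⊥ ∧ Group.IsSolvable N
  · obtain ⟨N, hN, h0, hs⟩ := h2
    have hlt : Nat.card (G ⧸ N) < n := by
      rw [← hn, card_eq_card_quotient_mul_card_subgroup N]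
      exact lt_mul_of_one_lt_right Nat.card_pos ((one_lt_card_iff_ne_bot N).2 h0)
    have h := ih _ hlt (G ⧸ N) rfl (A.map (QuotientGroup.mk' N)) (Cop.solvable_map hA _)
      (fun S h1 h2 x hx s hs' => by
        obtain ⟨a, ha, rfl⟩ := hx
        obtain ⟨t, rfl⟩ := QuotientGroup.mk'_surjective N s
        rw [← map_mul, ← map_mul,
          hc _ (map_le_iff_le_comap.1 h1) (isSolvable_comap_mk' hs h2) a ha t hs'])
    intro a ha
    rw [mem_center_iff]
    intro g
    have h3 : Group.IsSolvable ↥(A.map (QuotientGroup.mk' N) ⊔ zpowers (QuotientGroup.mk' N g)) := by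
      refine isSolvable_sup ?_ (Cop.solvable_map hA _) inferInstance
      refine le_trans ?_ (centralizer_le_normalizer _)
      exact fun x hx y _ => mem_center_iff.1 (h hx) y
    exact (hc _ (map_le_iff_le_comap.1 le_sup_left) (isSolvable_comap_mk' hs h3) a ha g
      (mem_sup_right (mem_zpowers _))).symm
  push Not at h2
  by_contra hne
  have h0 : A ≠ ⊥ := by rintro rfl; exact hne bot_le
  set C := centralizer (A : Set G) with hC
  have hCt : C ≠ ⊤ := fun e => hne fun a ha => mem_center_iff.2 fun g =>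
    (((e.ge (mem_top g) : g ∈ C)) a ha).symm
  have hAC : A ≤ C := fun x hx a ha => hc A le_rfl hA a ha x hx
  have h3 : ∀ U : Subgroup G, U ≤ C → U ≠ ⊥ → Group.IsSolvable U → normalizer (U : Set G) ≤ C :=
    fun U hU h0 hs => h1 _ ((le_centralizer_iff.1 hU).trans (centralizer_le_normalizer _))
      fun e => h2 U (normalizer_eq_top_iff.1 e) h0 hs
  obtain ⟨p, hp, hpA⟩ := Nat.exists_prime_and_dvd (fun e => h0 (card_eq_one.1 e) : Nat.card A ≠ 1)
  have : Fact p.Prime := ⟨hp⟩
  obtain ⟨⟨a, ha⟩, hao⟩ := exists_prime_orderOf_dvd_card' p hpA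
  rw [orderOf_mk] at hao
  have ha1 : a ≠ 1 := by rintro rfl; rw [orderOf_one] at hao; exact hp.one_lt.ne hao
  have hzp : ∀ {x : G}, x ≠ 1 → zpowers x ≠ ⊥ := fun h e => h (zpowers_eq_bot.1 e)
  have hcz : ∀ {x y : G}, x * y = y * x → y ∈ normalizer (zpowers x : Set G) := fun {x y} h =>
    centralizer_le_normalizer _ (by
      intro z hz
      obtain ⟨k, rfl⟩ := mem_zpowers_iff.1 hz
      exact (Commute.zpow_left h k).eq)
  have hTI : ∀ g : G, g ∉ C → C ⊓ (MulAut.conj g • C) = ⊥ := by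
    intro g hg
    by_contra hD
    set D := C ⊓ (MulAut.conj g • C) with hDdef
    have hm : ∀ {x : G}, x ∈ MulAut.conj g • C ↔ g⁻¹ * x * g ∈ C := fun {x} => by
      rw [mem_pointwise_smul_iff_inv_smul_mem]; simp
    have h4 : ∀ U : Subgroup G, U ≤ D → U ≠ ⊥ → Group.IsSolvable U →
        normalizer (U : Set G) ≤ D := by
      intro U hU hU0 hs
      refine le_inf (h3 U (hU.trans inf_le_left) hU0 hs) fun x hx => hm.2 ?_
      have h5 := h3 (U.map (MulAut.conj g⁻¹).toMonoidHom) (by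
        rintro _ ⟨y, hy, rfl⟩
        simpa using hm.1 (hU hy).2) (fun e => hU0 ((map_eq_bot_iff_of_injective _
          (MulAut.conj g⁻¹).injective).1 e)) (Cop.solvable_map hs _)
      refine h5 ?_
      have := le_normalizer_map (H := U) (MulAut.conj g⁻¹).toMonoidHom ⟨x, hx, rfl⟩
      simpa using this
    obtain ⟨⟨d, hd⟩, hd1⟩ := (ne_bot_iff_exists_ne_one).1 hD
    have hd1' : d ≠ 1 := fun e => hd1 (Subtype.ext e)
    have h5 := h4 (zpowers d) (zpowers_le_of_mem hd) (hzp hd1') inferInstance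
    have haD : a ∈ D := h5 (hcz (hd.1 a ha).symm)
    have hb : ∀ x ∈ D, g * a * g⁻¹ * x = x * (g * a * g⁻¹) := fun x hx => by
      have := hm.1 hx.2 a ha
      calc g * a * g⁻¹ * x = g * (a * (g⁻¹ * x * g)) * g⁻¹ := by group
        _ = _ := by rw [this]; group
    have hpa : IsPGroup p (zpowers a) :=
      IsPGroup.of_card (n := 1) (by rw [Nat.card_zpowers, hao, pow_one])
    obtain ⟨P, hP1, hP2⟩ := IsSylowIn.exists_ge hpa (zpowers_le_of_mem haD)
    have hP0 : P ≠ ⊥ := fun e => hzp ha1 (eq_bot_iff.2 (e ▸ hP1))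
    have hN := h4 P hP2.le hP0 (Cop.solvable_of_isPGroup hP2.isPGroup)
    obtain ⟨Q, rfl⟩ := IsSylowIn.top_iff.1 (FT.sylow_of_norm' hP2 le_top (inf_le_right.trans hN))
    obtain ⟨m, hm1, hm2⟩ := Q.conj_eq_normalizer_conj_of_mem_centralizer a g⁻¹
      (fun x hx => ((hP2.le hx).1 a ha).symm)
      (fun x hx => by rw [inv_inv]; exact (hb x (hP2.le hx)).symm)
    have h6 : a * m = m * a := (hN hm1).1 a ha
    rw [inv_inv, mul_assoc m⁻¹, h6, inv_mul_cancel_left] at hm2
    exact hg (h3 (zpowers a) (zpowers_le_of_mem (hAC ha)) (hzp ha1) inferInstance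
      (hcz (mul_inv_eq_iff_eq_mul.1 hm2).symm))
  have hC0 : C ≠ ⊥ := fun e => h0 (eq_bot_iff.2 (e ▸ hAC))
  obtain ⟨K, hK, hK1, hK2⟩ := frobenius_kernel (H := C) ⟨hC0, hCt, hTI⟩
  have hF : Frob.IsFrobeniusKernel K := Frob.isFrobeniusKernel_iff.2 ⟨C, ⟨hC0, hCt, hTI⟩, hK1.symm⟩
  have := H5.isNilpotent_of_isFrobeniusKernel hF
  refine h2 K hK (fun e => hCt ?_) inferInstance
  rw [e] at hK2
  exact isComplement'_bot_left.1 hK2

/-- Let A be a solvable subgroup of a finite group G such that A lies in the centre of every solvable subgroup of G containing A. Then A lies in the centre of G. -/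
theorem result {G : Type*} [Group G] [Finite G]
    (A : Subgroup G) (hA : Group.IsSolvable A)
    (hc : ∀ S : Subgroup G, A ≤ S → Group.IsSolvable S → ∀ a ∈ A, ∀ s ∈ S, a * s = s * a) : A ≤ Subgroup.center G :=
  aux _ G rfl A hA hc

end Cfsg.Agent.S4097
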