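import Cfsg.Statements.S4106
import Cfsg.Agent.Lib.H8PiClasses

set_option autoImplicit false
open Cfsg

namespace Cfsg.Agent.S4106

open CfsgLib CfsgLib.PiCl Subgroup

/-- Let G be a finite group, π a set of primes and m the π-part of the order of G. Then the number of conjugacy classes of G consisting of π-elements (elements whose order is divisible only by primes in π) is at most m. -/
theorem result {G : Type*} [Group G] [Finite G]
    (π : Set ℕ) (hπ : ∀ q ∈ π, q.Prime)
    (m : ℕ) (hm : m ∣ Nat.card G) (hmπ : ∀ q : ℕ, q.Prime → q ∣ m → q ∈ π)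
    (hm' : ∀ q ∈ π, ¬ q ∣ Nat.card G / m) :
    Nat.card {C : ConjClasses G // ∀ q : ℕ, q.Prime → (∃ g : G, ConjClasses.mk g = C ∧ q ∣ orderOf g) → q ∈ π} ≤ m := by
  classical
  have hm0 : m ≠ 0 := fun h => Nat.card_pos.ne' (Nat.eq_zero_of_zero_dvd (h ▸ hm))
  have h1 : Nat.card {C : ConjClasses G // ∀ q : ℕ, q.Prime →
      (∃ g : G, ConjClasses.mk g = C ∧ q ∣ orderOf g) → q ∈ π} ≤
      (piClasses (m.primeFactors : Set ℕ) G).ncard := by
    apply Set.ncard_le_ncard (s := {C : ConjClasses G | _})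
    intro C hC
    obtain ⟨x, rfl⟩ := ConjClasses.mk_surjective C
    refine mk_mem_piClasses.mpr fun q hq hd => ?_
    have h2 := hC q hq ⟨x, rfl, hd⟩
    have h3 : q ∣ m * (Nat.card G / m) := by
      rw [Nat.mul_div_cancel' hm]; exact hd.trans (orderOf_dvd_natCard x)
    exact Nat.mem_primeFactors.mpr ⟨hq, (hq.dvd_mul.mp h3).resolve_right (hm' q h2), hm0⟩
  refine h1.trans ((ncard_piClasses_le_prod _ (fun r hr => Nat.prime_of_mem_primeFactors hr)
    m.factorization G fun r hr => ?_).trans ?_)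
  · have hr' := Nat.mem_primeFactors.mp hr
    have h0 : Nat.card G / m ≠ 0 := fun h => hm' r (hmπ r hr'.1 hr'.2.1) (h ▸ dvd_zero r)
    rw [← Nat.mul_div_cancel' hm, Nat.factorization_mul hm0 h0, Finsupp.add_apply,
      Nat.factorization_eq_zero_of_not_dvd (hm' r (hmπ r hr'.1 hr'.2.1)), add_zero]
  · exact (Nat.prod_factorization_pow_eq_self hm0).le

end Cfsg.Agent.S4106
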