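import Cfsg.Statements.S4107
import Mathlib
import Cfsg.Agent.Lib.CoreFitting
import Cfsg.Agent.Lib.CoreElements

set_option autoImplicit false
open Cfsg

namespace Cfsg.Agent.S4107
open Subgroup Cfsg CfsgLib

/-- Let G be a finite group and N a proper non-trivial normal subgroup such that for every x outside N all elements of the coset xN have the same order as x. Then N ≤ F(G) or F(G) ≤ N, where F(G) is the Fitting subgroup; and if N is properly contained in F(G) then F(G) has prime-power order. -/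
theorem result {G : Type*} [Group G] [Finite G] (N : Subgroup G) [N.Normal] (hN1 : N ≠ ⊥) (hN2 : N ≠ ⊤)
    (heq : ∀ x : G, x ∉ N → ∀ n ∈ N, orderOf (x * n) = orderOf x) :
    (N ≤ Cfsg.fittingSubgroup G ∨ Cfsg.fittingSubgroup G ≤ N) ∧
    (N < Cfsg.fittingSubgroup G → IsPrimePow (Nat.card (Cfsg.fittingSubgroup G))) := by
  have key : ∀ x ∈ fittingSubgroup G, x ∉ N → ∀ n ∈ N, n ∈ fittingSubgroup G →
      (orderOf x).Coprime (orderOf n) → n = 1 := fun x hx hxN n hn hnF hc => by
    have h1 := (commute_of_coprime_of_mem_isNilpotent fitting_isNilpotent hx hnF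
      hc).orderOf_mul_eq_mul_orderOf_of_coprime hc
    rw [heq x hxN n hn] at h1
    exact orderOf_eq_one_iff.mp ((Nat.mul_eq_left (orderOf_pos x).ne').mp h1.symm)
  have main : ¬ fittingSubgroup G ≤ N → ∃ p : ℕ, p.Prime ∧ IsPGroup p N := fun h => by
    obtain ⟨x, hx, p, k, hp, hk, hxN⟩ : ∃ x ∈ fittingSubgroup G, ∃ p k : ℕ, p.Prime ∧
        orderOf x = p ^ k ∧ x ∉ N := by
      by_contra hc
      push Not at hc
      exact h (le_of_forall_primePow_mem hc)
    refine ⟨p, hp, isPGroup_of_forall_orderOf fun n hn => ?_⟩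
    obtain ⟨u, hu, v, hv, rfl, -, hup, hvc⟩ := exists_p_part hp n
    have hvN : v ∈ N := zpowers_le.mpr hn hv
    have h1 : (x * v) ^ p ^ k = 1 := by rw [← hk, ← heq x hxN v hvN, pow_orderOf_eq_one]
    have h2 : v ^ p ^ k ∈ fittingSubgroup G := by
      rw [← QuotientGroup.eq_one_iff]
      have := congrArg (QuotientGroup.mk' (fittingSubgroup G)) h1
      rwa [map_pow, map_mul, QuotientGroup.mk'_apply, (QuotientGroup.eq_one_iff x).mpr hx, one_mul,
        map_one] at this
    have h3 := key x hx hxN _ (N.pow_mem hvN _) h2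
      (hk ▸ ((hvc.coprime_dvd_left (orderOf_pow_dvd _)).symm.pow_left k))
    have h4 : v = 1 := orderOf_eq_one_iff.mp
      ((hvc.pow_right k).eq_one_of_dvd (orderOf_dvd_of_pow_eq_one h3))
    rwa [h4, mul_one]
  refine ⟨or_iff_not_imp_right.mpr fun h => ?_, fun h => ?_⟩
  · obtain ⟨p, hp, hN⟩ := main h
    have := Fact.mk hp
    exact le_fitting hN.isNilpotent
  · obtain ⟨p, hp, hN⟩ := main h.not_ge
    have := Fact.mk hp
    obtain ⟨⟨n, hn⟩, hn1⟩ := ne_bot_iff_exists_ne_one.mp hN1
    obtain ⟨j, hj⟩ := orderOf_eq_pow_of_mem_isPGroup hN hn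
    have hF : IsPGroup p (fittingSubgroup G) := isPGroup_of_forall_orderOf fun y hy => by
      obtain ⟨u, hu, v, hv, rfl, -, hup, hvc⟩ := exists_p_part hp y
      by_cases hvN : v ∈ N
      · obtain ⟨i, hi⟩ := orderOf_eq_pow_of_mem_isPGroup hN hvN
        have h4 := hvc.pow_right i
        rw [← hi, Nat.coprime_self, orderOf_eq_one_iff] at h4
        rwa [h4, mul_one]
      · exact absurd (Subtype.ext (key v (zpowers_le.mpr hy hv) hvN n hn (h.le hn)
          (hj ▸ hvc.pow_right j))) hn1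
    obtain ⟨m, hm⟩ := hF.exists_card_eq
    refine ⟨p, m, hp.prime, Nat.pos_of_ne_zero ?_, hm.symm⟩
    rintro rfl
    exact (bot_le.trans_lt h).ne' (card_eq_one.mp hm)

end Cfsg.Agent.S4107
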