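import Cfsg.Statements.S4108
import Cfsg.Agent.Lib.FrobTransport

set_option autoImplicit false
open Cfsg

namespace Cfsg.Agent.S4108



/-- Let G be a finite group, p a prime and N a proper non-trivial normal p-subgroup such that for every x outside N all elements of the coset xN have the same order as x. Then every non-trivial subgroup H of G of order prime to p acts fixed-point-freely on N: NH is a Frobenius group with complement H and kernel N. -/
theorem result {G : Type*} [Group G] [Finite G] (N : Subgroup G) [N.Normal] (hN1 : N ≠ ⊥) (hN2 : N ≠ ⊤)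
    (heq : ∀ x : G, x ∉ N → ∀ n ∈ N, orderOf (x * n) = orderOf x)
    (p : ℕ) [Fact p.Prime] (hNp : IsPGroup p N) :
    ∀ H : Subgroup G, H ≠ ⊥ → (Nat.card H).Coprime p →
      Cfsg.IsFrobeniusComplement (H.subgroupOf (N ⊔ H)) ∧ Cfsg.frobeniusKernel (H.subgroupOf (N ⊔ H)) = (N.subgroupOf (N ⊔ H) : Set ↥(N ⊔ H)) := by
  have _ := hN2
  intro H hH hcop
  have hp : p.Prime := Fact.out
  have hord : ∀ k ∈ N, ∃ i, orderOf k = p ^ i := fun k hk => by
    obtain ⟨i, hi⟩ := IsPGroup.iff_orderOf.mp hNp ⟨k, hk⟩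
    exact ⟨i, by rw [← hi, Subgroup.orderOf_mk]⟩
  refine CfsgLib.Frob.isFrobeniusPair_iff.mp (CfsgLib.Frob.isFrobeniusPair_subgroupOf rfl
    Subgroup.le_normalizer_of_normal hN1 hH fun h hh h1 k hk hc => ?_)
  have hhp : (orderOf h).Coprime p := Nat.Coprime.coprime_dvd_left (H.orderOf_dvd_natCard hh) hcop
  have hhN : h ∉ N := fun hN => by
    obtain ⟨i, hi⟩ := hord h hN
    have : (orderOf h).Coprime (orderOf h) := by
      nth_rewrite 2 [hi]
      exact hhp.pow_right i
    exact h1 (orderOf_eq_one_iff.mp ((Nat.coprime_self _).mp this))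
  obtain ⟨i, hi⟩ := hord k hk
  have h2 := heq h hhN k hk
  rw [Commute.orderOf_mul_eq_mul_orderOf_of_coprime hc (by rw [hi]; exact hhp.pow_right i)] at h2
  have h3 : 0 < orderOf h := orderOf_pos h
  exact orderOf_eq_one_iff.mp (Nat.eq_of_mul_eq_mul_left h3 (by rw [h2, mul_one]))

end Cfsg.Agent.S4108
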