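import Cfsg.Statements.S4112
import Cfsg.Agent.Lib.ClassSize2

set_option autoImplicit false
open Cfsg

namespace Cfsg.Agent.S4112

open Subgroup CfsgLib CfsgLib.Frob

/-- Let G be a finite group and M ≤ N non-trivial proper normal subgroups such that for every g outside N the conjugacy class of g is a union of cosets of M (equivalently gm is conjugate to g for every m ∈ M). Then (1) and (2) below are equivalent, and they imply (3): (1) every g outside N acts fixed-point-freely on M, that is C_G(x) ≤ N for every x ∈ M, x ≠ 1; (2) the index of N in G is coprime to the order of M; (3) there is a subgroup H of G with HN = G and H ∩ M = 1. -/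
theorem result {G : Type*} [Group G] [Finite G] (N M : Subgroup G) [N.Normal] [M.Normal] (hMN : M ≤ N) (hM1 : M ≠ ⊥) (hN2 : N ≠ ⊤)
    (hcam : ∀ g : G, g ∉ N → ∀ m ∈ M, ∃ x : G, x * g * x⁻¹ = g * m) :
    ((∀ x ∈ M, x ≠ 1 → Subgroup.centralizer ({x} : Set G) ≤ N) ↔ N.index.Coprime (Nat.card M)) ∧
    ((∀ x ∈ M, x ≠ 1 → Subgroup.centralizer ({x} : Set G) ≤ N) → ∃ H : Subgroup G, H ⊔ N = ⊤ ∧ H ⊓ M = ⊥) := by
  have _ := hMN
  have _ := hM1
  have _ := hN2
  have h12 : (∀ x ∈ M, x ≠ 1 → centralizer ({x} : Set G) ≤ N) → N.index.Coprime (Nat.card M) := by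
    intro h
    have h1 : N.index ∣ Nat.card M - 1 := by
      rw [← ncard_diff_one]
      refine dvd_ncard_of_dvd_index_centralizer _
        (fun g x hx => ⟨‹M.Normal›.conj_mem x hx.1 g, ?_⟩)
        fun x hx => index_dvd_of_le (h x hx.1 hx.2)
      simpa using hx.2
    refine Nat.Coprime.coprime_dvd_left h1 ?_
    have : 0 < Nat.card M := Nat.card_pos
    exact (Nat.coprime_self_sub_left this).mpr (Nat.coprime_one_left _)
  refine ⟨⟨h12, fun hcop x hx hx1 g hg => ?_⟩, fun h => ?_⟩
  · by_contra hgN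
    obtain ⟨p, hp, -, y, hy, hyp⟩ := exists_orderOf_prime_mem_zpowers hx1
    have hyM : y ∈ M := zpowers_le.mpr hx hy
    have hpM : p ∣ Nat.card M := hyp ▸ M.orderOf_dvd_natCard hyM
    obtain ⟨u, hu, v, hv, e, -, ⟨k, hk⟩, hvp⟩ := exists_p_part hp g
    have huN : u ∈ N := mem_of_coprime_index (by
      rw [hk]; exact (Nat.Coprime.coprime_dvd_right hpM hcop).symm.pow_left k)
    have hvN : v ∉ N := fun h => hgN (e ▸ N.mul_mem huN h)
    have hc : Commute v y := mem_centralizer_singleton_iff.mp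
      (centralizer_le_centralizer_of_mem_zpowers hy (zpowers_le.mpr hg hv))
    obtain ⟨z, hz⟩ := hcam v hvN y hyM
    have h1 : orderOf (v * y) = orderOf v := by
      rw [← hz]; exact (MulAut.conj z).orderOf_eq v
    rw [hc.orderOf_mul_eq_mul_orderOf_of_coprime (hyp ▸ hvp), hyp] at h1
    exact hp.one_lt.ne' (Nat.eq_of_mul_eq_mul_left (orderOf_pos v) (by rw [h1, mul_one]))
  · obtain ⟨H, h1, h2⟩ := exists_supplement_primes_dvd_index N
    refine ⟨H, h1, ?_⟩
    refine disjoint_iff.mp (disjoint_of_coprime_natCard (Nat.coprime_of_dvd fun q hq hqH hqM => ?_))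
    exact hq.one_lt.ne' (Nat.eq_one_of_dvd_coprimes (h12 h) (h2 q hq hqH) hqM)

end Cfsg.Agent.S4112
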