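import Cfsg.Statements.S4115
import Cfsg.Agent.Lib.FrobTI

set_option autoImplicit false
universe u
open Cfsg

namespace Cfsg.Agent.S4115

open CfsgLib CfsgLib.Frob Subgroup in

/-- Let G be a finite group and H a subgroup that meets each of its conjugates by elements outside N_G(H) trivially and whose order is coprime to its index in N_G(H). Then H has a normal complement in N_G(H) if and only if H has a normal complement in G. Moreover, if H is not normal in G and has a normal complement in N_G(H), then H is isomorphic to a Frobenius complement of some finite Frobenius group. -/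
theorem result {G : Type u} [Group G] [Finite G] (H : Subgroup G)
    (hTI : Cfsg.IsTISubset (H : Set G)) (hHall : (Nat.card H).Coprime (H.subgroupOf (Subgroup.normalizer (H : Set G))).index) :
    ((∃ K : Subgroup (Subgroup.normalizer (H : Set G)), K.Normal ∧ K.IsComplement' (H.subgroupOf (Subgroup.normalizer (H : Set G)))) ↔
      (∃ N : Subgroup G, N.Normal ∧ N.IsComplement' H)) ∧
    (¬ H.Normal → (∃ K : Subgroup (Subgroup.normalizer (H : Set G)), K.Normal ∧ K.IsComplement' (H.subgroupOf (Subgroup.normalizer (H : Set G)))) →
      ∃ (F : Type u) (_ : Group F) (_ : Finite F) (C : Subgroup F), Cfsg.IsFrobeniusComplement C ∧ Nonempty (H ≃* C)) := by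
  have hH : (Nat.card H).Coprime (H.relIndex (normalizer (H : Set G))) := hHall
  have h1 : (∃ K : Subgroup (normalizer (H : Set G)), K.Normal ∧
      K.IsComplement' (H.subgroupOf (normalizer (H : Set G)))) →
      ∃ N : Subgroup G, N.Normal ∧ N.IsComplement' H := by
    rintro ⟨K, hK, hc⟩
    have hn : normalizer (H : Set G) ≤
        normalizer ((K.map (normalizer (H : Set G)).subtype : Subgroup G) : Set G) := by
      intro g hg
      refine mem_normalizer_of_conj_mem ?_
      rintro _ ⟨k, hk, rfl⟩
      exact ⟨_, hK.conj_mem k hk ⟨g, hg⟩, rfl⟩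
    obtain ⟨M, hM, e1, e2⟩ := hTI.exists_normal hH (map_subtype_le K) hn (by
      rw [relIndex, subgroupOf, comap_map_eq_self_of_injective (subtype_injective _),
        hc.symm.index_eq_card, card_subgroupOf_of_le le_normalizer])
    refine ⟨M, hM, isComplement'_of_disjoint_and_mul_eq_univ ?_ ?_⟩
    · rw [disjoint_def]
      intro x hxM hxH
      have h2 : x ∈ M ⊓ normalizer (H : Set G) := ⟨hxM, le_normalizer hxH⟩
      rw [e1] at h2
      obtain ⟨k, hk, rfl⟩ := h2
      have := disjoint_def.mp hc.disjoint hk hxH
      simp [this]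
    · rw [← normal_mul, ← coe_top]
      congr 1
      rw [eq_top_iff, ← e2]
      refine sup_le le_sup_left fun g hg => ?_
      obtain ⟨⟨k, h⟩, e⟩ := hc.2 ⟨g, hg⟩
      have e' : ((k : normalizer (H : Set G)) : G) * ((h : normalizer (H : Set G)) : G) = g :=
        congrArg Subtype.val e
      rw [← e']
      refine mul_mem (mem_sup_left ?_) (mem_sup_right h.2)
      have : ((k : normalizer (H : Set G)) : G) ∈ M ⊓ normalizer (H : Set G) := by
        rw [e1]; exact ⟨k, k.2, rfl⟩
      exact this.1
  refine ⟨⟨h1, ?_⟩, fun hnn hK => ?_⟩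
  · rintro ⟨N, hN, hc⟩
    refine ⟨N.subgroupOf _, inferInstance, isComplement'_of_disjoint_and_mul_eq_univ ?_ ?_⟩
    · rw [disjoint_def]
      intro x hx1 hx2
      exact Subtype.ext (disjoint_def.mp hc.disjoint hx1 hx2)
    · rw [Set.eq_univ_iff_forall]
      intro g
      obtain ⟨⟨k, h⟩, e⟩ := hc.2 (g : G)
      have e' : (k : G) * h = g := e
      have hk : (k : G) ∈ normalizer (H : Set G) := by
        have := (normalizer (H : Set G)).mul_mem g.2 ((normalizer (H : Set G)).inv_mem
          (le_normalizer h.2))
        rw [← e'] at this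
        simpa using this
      exact ⟨⟨k, hk⟩, k.2, ⟨h, le_normalizer h.2⟩, h.2, Subtype.ext e'⟩
  · obtain ⟨N, hN, hc⟩ := h1 hK
    have h2 : HasFPF H := hTI.hasFPF (K := N) le_normalizer_of_normal
      (by rw [← hc.index_eq_card]; exact hTI.coprime_index hH) fun hle => hnn (by
        refine normal_of_le_normalizer_top ?_
        rw [← hc.sup_eq_top]
        exact sup_le hle le_normalizer)
    have : Nontrivial H := by
      rw [nontrivial_iff_ne_bot]
      rintro rfl
      exact hnn inferInstance
    exact h2.exists_isFrobeniusComplement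

end Cfsg.Agent.S4115
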