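import Cfsg.Statements.S4116
import Cfsg.Agent.Lib.FrobTI

set_option autoImplicit false
open Cfsg

namespace Cfsg.Agent.S4116

open CfsgLib CfsgLib.Frob Subgroup in

/-- Let G be a finite group with a subgroup H whose order is coprime to its index (a Hall subgroup) and which meets each of its conjugates by elements outside N_G(H) trivially. Then every subgroup of G whose order is divisible only by primes dividing the order of H lies in a conjugate of H. -/
theorem result {G : Type*} [Group G] [Finite G] (H : Subgroup G)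
    (hHall : (Nat.card H).Coprime H.index) (hTI : Cfsg.IsTISubset (H : Set G))
    (K : Subgroup G) (hK : ∀ q : ℕ, q.Prime → q ∣ Nat.card K → q ∣ Nat.card H) :
    ∃ g : G, K ≤ H.map (MulAut.conj g).toMonoidHom := by
  have hrel : (Nat.card H).Coprime (H.relIndex (normalizer (H : Set G))) :=
    hHall.coprime_dvd_right (relIndex_dvd_index_of_le le_normalizer)
  have hN : ∀ x ∈ K, ∀ g : G, g⁻¹ * x * g ∈ normalizer (H : Set G) → g⁻¹ * x * g ∈ H := by
    intro x hx g hg
    refine mem_of_coprime_relIndex le_rfl hg (Nat.coprime_of_dvd fun q hq h1 h2 => ?_)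
    have h3 : orderOf (g⁻¹ * x * g) = orderOf x := by simpa using orderOf_conj_eq g⁻¹ x
    rw [h3] at h1
    exact hq.one_lt.ne' (Nat.eq_one_of_dvd_coprimes hrel
      (hK q hq (h1.trans (K.orderOf_dvd_natCard hx))) h2)
  have hA : ∀ x ∈ K, x ≠ 1 → ∃ g : G, g⁻¹ * x * g ∈ H := by
    intro x hx hx1
    obtain ⟨p, hp, hpx, u, hu, hup⟩ := exists_orderOf_prime_mem_zpowers hx1
    have := Fact.mk hp
    have hpH : p ∣ Nat.card H := hK p hp (hpx.trans (K.orderOf_dvd_natCard hx))
    obtain ⟨S, hS⟩ := IsSylowIn.exists_in (p := p) H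
    have hST : IsSylowIn p S ⊤ := by
      refine ⟨le_top, hS.isPGroup, ?_⟩
      rw [← relIndex_mul_relIndex S H _ hS.le le_top, hp.dvd_mul, not_or, relIndex_top_right]
      exact ⟨hS.not_dvd, fun h => hp.one_lt.ne' (Nat.eq_one_of_dvd_coprimes hHall hpH h)⟩
    obtain ⟨g, -, hg⟩ := hST.exists_conj_le (Q := zpowers u)
      (isPGroup_zpowers_iff.mpr ⟨1, by simpa using hup⟩) le_top
    have h1 : g * u * g⁻¹ ∈ H := hS.le (hg (conj_mem_map_conj (mem_zpowers u)))
    refine ⟨g⁻¹, hN x hx _ (hTI.mem_normalizer h1 ?_ ?_)⟩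
    · have : u ≠ 1 := by rintro rfl; exact hp.one_lt.ne (by simpa using hup)
      simpa using this
    · have hc : x * u = u * x := commute_of_mem_zpowers (mem_zpowers x) hu
      convert h1 using 1
      calc _ = g * (x * u) * x⁻¹ * g⁻¹ := by group
        _ = _ := by rw [hc]; group
  by_contra hcon
  push Not at hcon
  have hF : ∀ g : G, ∀ x ∈ K, x ≠ 1 → g⁻¹ * x * g ∈ H → Cfsg.IsFrobeniusComplement
      ((H.map (MulAut.conj g).toMonoidHom).subgroupOf K) := by
    intro g x hx hx1 hg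
    refine isFrobeniusComplement_iff.mpr ⟨?_, fun e => hcon g (subgroupOf_eq_top.mp e), ?_⟩
    · exact ne_bot_iff_exists_ne_one.mpr ⟨⟨⟨x, hx⟩, mem_map_conj_iff.mpr hg⟩, fun e =>
        hx1 (congrArg Subtype.val (congrArg Subtype.val e))⟩
    · intro k hk h hh hc
      by_contra h1
      refine hk (mem_map_conj_iff.mpr (hN k k.2 g (hTI.mem_normalizer (mem_map_conj_iff.mp hh)
        ?_ ?_)))
      · intro e
        refine h1 (Subtype.ext ?_)
        calc (h : G) = g * (g⁻¹ * h * g) * g⁻¹ := by group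
          _ = 1 := by rw [show g⁻¹ * (h : G) * g = 1 from e]; group
      · have := mem_map_conj_iff.mp hc
        convert this using 1
        simp only [coe_subtype, coe_mul, coe_inv]
        group
  have hcard : ∀ L : Subgroup K, Cfsg.IsFrobeniusComplement L →
      2 * (Cfsg.frobeniusKernel L).ncard ≤ Nat.card K ∧ 2 ≤ (Cfsg.frobeniusKernel L).ncard := by
    intro L hL
    rw [← Nat.card_coe_set_eq, hL.card_frobeniusKernel, ← L.card_mul_index]
    have h1 : 1 < Nat.card L := L.one_lt_card_iff_ne_bot.mpr hL.ne_bot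
    have h2 : 1 < L.index := one_lt_index_of_ne_top hL.ne_top
    exact ⟨Nat.mul_le_mul_right _ h1, h2⟩
  have hK1 : K ≠ ⊥ := by
    rintro rfl
    exact hcon 1 bot_le
  obtain ⟨⟨x, hx⟩, hx1⟩ := ne_bot_iff_exists_ne_one.mp hK1
  obtain ⟨g, hg⟩ := hA x hx (by simpa using hx1)
  have hL := hF g x hx (by simpa using hx1) hg
  obtain ⟨y, hy, hy1⟩ := Set.exists_ne_of_one_lt_ncard (hcard _ hL).2 1
  have hy1' : (y : G) ≠ 1 := by simpa using hy1
  obtain ⟨g', hg'⟩ := hA y y.2 hy1'
  have hL' := hF g' y y.2 hy1' hg'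
  set F := Cfsg.frobeniusKernel ((H.map (MulAut.conj g).toMonoidHom).subgroupOf K)
  set F' := Cfsg.frobeniusKernel ((H.map (MulAut.conj g').toMonoidHom).subgroupOf K)
  have h1 : (F ∪ F').ncard < Nat.card K := by
    have h2 := Set.ncard_union_add_ncard_inter F F'
    have h3 : 0 < (F ∩ F').ncard := (Set.ncard_pos).mpr
      ⟨1, one_mem_frobeniusKernel _, one_mem_frobeniusKernel _⟩
    have h4 : 2 * F.ncard ≤ Nat.card K := (hcard _ hL).1
    have h5 : 2 * F'.ncard ≤ Nat.card K := (hcard _ hL').1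
    omega
  obtain ⟨z, hz⟩ : ∃ z, z ∉ F ∪ F' := by
    by_contra h
    push Not at h
    rw [Set.eq_univ_iff_forall.mpr h, Set.ncard_univ] at h1
    exact lt_irrefl _ h1
  rw [Set.mem_union, not_or] at hz
  obtain ⟨hz1, a, ha⟩ := not_mem_frobeniusKernel_iff.mp hz.1
  obtain ⟨-, b, hb⟩ := not_mem_frobeniusKernel_iff.mp hz.2
  have ha' : g⁻¹ * (a * z * (a : G)⁻¹) * g ∈ H := mem_map_conj_iff.mp ha
  have hb' : g'⁻¹ * (b * z * (b : G)⁻¹) * g' ∈ H := mem_map_conj_iff.mp hb
  have hn : g'⁻¹ * b * (a : G)⁻¹ * g ∈ normalizer (H : Set G) := by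
    refine hTI.mem_normalizer ha' (fun e => hz1 (Subtype.ext ?_)) (by convert hb' using 1; group)
    calc (z : G) = (a : G)⁻¹ * g * (g⁻¹ * (a * z * (a : G)⁻¹) * g) * g⁻¹ * a := by group
      _ = 1 := by rw [e]; group
  rcases mem_frobeniusKernel_iff.mp hy with h | h
  · exact hy1 h
  · refine h (a * b⁻¹) (mem_map_conj_iff.mpr ?_)
    have := conj_mem_of_mem_normalizer' hn hg'
    convert this using 1
    simp only [coe_subtype, coe_mul, coe_inv]
    group

end Cfsg.Agent.S4116
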