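import Cfsg.Statements.S4117
import Cfsg.Agent.Lib.FrobZGroup
import Cfsg.Agent.Lib.CoprimeAut

set_option autoImplicit false
open Cfsg

namespace Cfsg.Agent.S4117

open CfsgLib CfsgLib.Frob CfsgLib.CopAut Subgroup in

/-- Let A be a finite group acting on the finite group G by automorphisms with the orders of A and G coprime, and suppose every Sylow subgroup of G is cyclic. Then the fixed-point subgroup C_G(A) is a Hall subgroup of G (its order is coprime to its index), the subgroup [G, A] generated by the elements g⁻¹·a(g) is cyclic and normal with [G, A] ∩ C_G(A) = 1 and [G, A]·C_G(A) = G. -/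
theorem result {G A : Type*} [Group G] [Finite G] [Group A] [Finite A]
    [MulDistribMulAction A G] (hcop : (Nat.card A).Coprime (Nat.card G))
    (hcyc : ∀ (p : ℕ) [Fact p.Prime] (P : Sylow p G), IsCyclic (P : Subgroup G)) :
    (Nat.card (MulAction.fixedPoints A G : Set G)).Coprime (Nat.card G / Nat.card (MulAction.fixedPoints A G : Set G)) ∧
    IsCyclic (Subgroup.closure {y : G | ∃ (a : A) (g : G), y = g⁻¹ * a • g}) ∧
    (Subgroup.closure {y : G | ∃ (a : A) (g : G), y = g⁻¹ * a • g}).Normal ∧
    (Subgroup.closure {y : G | ∃ (a : A) (g : G), y = g⁻¹ * a • g} : Set G) ∩ MulAction.fixedPoints A G = {1} ∧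
    Subgroup.closure {y : G | ∃ (a : A) (g : G), y = g⁻¹ * a • g} ⊔ Subgroup.closure (MulAction.fixedPoints A G) = ⊤ := by
  have hZ : IsZGroup G := ⟨fun p hp P => by have := Fact.mk hp; exact hcyc p P⟩
  set φ : A →* MulAut G := MulDistribMulAction.toMulAut A G with hφ
  have := finite_semidirect (φ := φ)
  have hZ' : IsZGroup (L φ ⊤) := IsZGroup.of_surjective
    (f := ((⊤ : Subgroup G).equivMapOfInjective _ SemidirectProduct.inl_injective).toMonoidHom)
    (MulEquiv.surjective _)
  have hn : R φ ⊤ ≤ normalizer (L φ ⊤ : Set (G ⋊[φ] A)) := R_top_le_normalizer_iff.mpr inv_top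
  have hc := coprime_R_L_top (φ := φ) hcop
  have e1 : (MulAction.fixedPoints A G : Set G) = fixed φ := by
    ext g; simp [mem_fixed, hφ]
  have e2 : closure {y : G | ∃ (a : A) (g : G), y = g⁻¹ * a • g} = comm φ ⊤ := by
    refine le_antisymm ((closure_le _).mpr ?_) (comm_le_iff.mpr fun a h _ => subset_closure ⟨a, h, rfl⟩)
    rintro _ ⟨a, g, rfl⟩
    exact inv_mul_mem_comm a (mem_top g)
  rw [e1, e2, closure_eq]
  refine ⟨?_, ?_, comm_top_normal, ?_, comm_top_sup_fixed hcop (Or.inr inferInstance)⟩
  · have h1 := coprime_relIndex_centralizer_of_isZGroup hn hc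
    have h2 := card_mul_relIndex (inf_le_left : L φ ⊤ ⊓ centralizer (R φ ⊤ : Set (G ⋊[φ] A)) ≤ _)
    rw [L_inf_centralizer, top_inf_eq, card_L] at h1 h2
    rw [card_L_top] at h2
    change (Nat.card (fixed φ)).Coprime (Nat.card G / Nat.card (fixed φ))
    rw [← h2, Nat.mul_div_cancel_left _ Nat.card_pos]
    exact h1
  · have h1 := isCyclic_commutator_of_isZGroup hn
    rw [commutator_L_R] at h1
    exact isCyclic_of_surjective _
      ((comm φ ⊤).equivMapOfInjective _ (SemidirectProduct.inl_injective (φ := φ))).symm.surjective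
  · have h1 := commutator_inf_centralizer_of_isZGroup hn hc
    have h2 : comm φ ⊤ ⊓ fixed φ = ⊥ := by
      rw [← L_inj (φ := φ), ← L_inf_centralizer, ← commutator_L_R (φ := φ), h1, L_bot]
    rw [← coe_inf, h2, coe_bot]

end Cfsg.Agent.S4117
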