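import Cfsg.Statements.S4118
import Cfsg.Agent.Lib.FrobZass

set_option autoImplicit false
open Cfsg

namespace Cfsg.Agent.S4118

open CfsgLib CfsgLib.Frob Subgroup

theorem exists_perfect_le {G : Type*} [Group G] [Finite G] (K : Subgroup G)
    (h : ¬ Group.IsSolvable K) : ∃ D : Subgroup G, D ≤ K ∧ D ≠ ⊥ ∧ ⁅D, D⁆ = D := by
  induction K using WellFoundedLT.induction with
  | ind K ih =>
    by_cases e : ⁅K, K⁆ = K
    · refine ⟨K, le_rfl, ?_, e⟩
      rintro rfl
      exact h inferInstance
    · have hle : ⁅K, K⁆ ≤ K := Cop.commutator_le_left_of_le_normalizer le_normalizer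
      obtain ⟨D, h1, h2⟩ := ih _ (lt_of_le_of_ne hle e) (fun hs => h (by
        rw [← map_subtype_commutator, isSolvable_map_subtype_iff] at hs
        have : IsMulCommutative (K ⧸ commutator K) :=
          inferInstanceAs (IsMulCommutative (Abelianization K))
        exact isSolvable_of_normal_of_quotient _ hs isSolvable_of_isMulCommutative))
      exact ⟨D, h1.trans hle, h2⟩

theorem le_centralizer_of_perfect {G : Type*} [Group G] [Finite G] {H D : Subgroup G}
    (hF : HasFPF H) (hs : Group.IsSolvable H) (hD : D ≤ normalizer (H : Set G))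
    (hcop : (Nat.card D).Coprime (Nat.card H)) (hp : ⁅D, D⁆ = D) :
    H ≤ centralizer (D : Set G) := by
  refine Cop.le_of_forall_invariant_sylowOf_le hD hcop (Or.inr hs) fun q hq P hqH hP hDP => ?_
  have hPq := isPGroup_of_isPiHallOf hP
  rw [le_centralizer_iff]
  by_cases hq2 : q = 2
  · subst hq2
    have hr : Group.rank P ≤ 2 := by
      have h1 := (hF.of_le hP.1).rank_le_two (P := ⊤) (hPq.to_subgroup ⊤)
      rwa [Group.rank_congr topEquiv] at h1
    have h3 : IsPGroup 3 (conjOn hDP).range := by
      rw [isPGroup_iff_isPiSubgroup]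
      intro r hr' hd
      have hr2 : r ≠ 2 := by
        rintro rfl
        exact absurd (Nat.eq_one_of_dvd_coprimes hcop (hd.trans (card_range_dvd _)) hqH) (by norm_num)
      obtain ⟨i, h1, h2, h3⟩ := PCompl.exists_dvd_pow_sub_one_of_dvd_card_mulAut hPq hr' hr2
        (hd.trans (card_subgroup_dvd_card _))
      have : i ≤ 2 := h2.trans hr
      interval_cases i
      · exact absurd (Nat.dvd_one.mp h3) hr'.one_lt.ne'
      · exact (Nat.prime_dvd_prime_iff_eq hr' Nat.prime_three).mp h3
    have h4 : (conjOn hDP).range = ⊥ := by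
      refine eq_bot_of_le_commutator_of_isNilpotent h3.isNilpotent le_rfl ?_
      rw [MonoidHom.range_eq_map, ← map_commutator]
      refine map_mono ?_
      rw [← map_le_map_iff_of_injective D.subtype_injective, map_commutator,
        ← MonoidHom.range_eq_map, range_subtype, hp]
    intro d hd x hx
    have h5 : conjOn hDP ⟨d, hd⟩ = 1 := mem_bot.mp (h4 ▸ ⟨⟨d, hd⟩, rfl⟩)
    have h6 := coe_conjOn_apply hDP ⟨d, hd⟩ ⟨x, hx⟩
    rw [h5] at h6
    exact eq_mul_inv_iff_mul_eq.mp h6
  · have h1 := (hF.of_le hP.1).isCyclic_of_isPGroup hq2 (P := ⊤) (hPq.to_subgroup ⊤)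
    have : IsCyclic P := isCyclic_of_surjective topEquiv topEquiv.surjective
    rw [← hp]
    exact commutator_le_centralizer_of_isCyclic hDP hDP

/-- Let G be a finite group and H a non-normal subgroup meeting each of its conjugates by elements outside N_G(H) trivially, with the order of H coprime to its index in N_G(H); let π be the set of primes dividing the order of H and suppose G is π-separable (it has a chain of normal subgroups from 1 to G each of whose factors has order divisible only by primes in π or coprime to the order of H). Let O be the largest normal subgroup of G of order coprime to the order of H. Then G = O·N_G(H), O·H is normal in G, and G is solvable if and only if O is solvable and H has no subgroup isomorphic to SL₂(5). -/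
theorem result {G : Type*} [Group G] [Finite G] (H : Subgroup G)
    (hTI : Cfsg.IsTISubset (H : Set G)) (hnn : ¬ H.Normal)
    (hHall : (Nat.card H).Coprime (H.subgroupOf (Subgroup.normalizer (H : Set G))).index)
    (hsep : ∃ (n : ℕ) (M : Fin (n + 1) → Subgroup G), M 0 = ⊥ ∧ M (Fin.last n) = ⊤ ∧ Monotone M ∧ (∀ i, (M i).Normal) ∧
      ∀ i : Fin n, (∀ q : ℕ, q.Prime → q ∣ (M i.castSucc).relIndex (M i.succ) → q ∣ Nat.card H) ∨
        ((M i.castSucc).relIndex (M i.succ)).Coprime (Nat.card H))
    (O : Subgroup G) (hO : O = sSup {K : Subgroup G | K.Normal ∧ (Nat.card K).Coprime (Nat.card H)}) :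
    O ⊔ Subgroup.normalizer (H : Set G) = ⊤ ∧ (O ⊔ H).Normal ∧
    (Group.IsSolvable G ↔ Group.IsSolvable O ∧
      ∀ K : Subgroup G, K ≤ H → ¬ Nonempty (K ≃* Matrix.SpecialLinearGroup (Fin 2) (ZMod 5))) := by
  have hH : (Nat.card H).Coprime (H.relIndex (normalizer (H : Set G))) := hHall
  have hsep' : PiSep {p | p ∣ Nat.card H} G := by
    obtain ⟨n, M, h0, h1, hm, hn, hf⟩ := hsep
    refine piSep_iff_chain.mpr ⟨n, M, h0, h1, hm, hn, fun i => (hf i).imp id fun h q hq h3 h4 => ?_⟩
    exact hq.one_lt.ne' (Nat.eq_one_of_dvd_coprimes h h3 h4)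
  have hO' : O = Cfsg.piCore {p | p ∣ Nat.card H}ᶜ G := by
    rw [hO, Cfsg.piCore]
    congr 1
    ext K
    refine and_congr_right fun _ => ⟨fun h p hp h1 h2 => ?_, fun h => Nat.coprime_of_dvd h⟩
    exact hp.one_lt.ne' (Nat.eq_one_of_dvd_coprimes h h1 h2)
  clear hO
  subst hO'
  set π : Set ℕ := {p | p ∣ Nat.card H} with hπ
  have h1 := hTI.piCore_sup_normalizer hH hsep'
  have hF : HasFPF H := hTI.hasFPF (K := Cfsg.piCore πᶜ G)
    le_normalizer_of_normal (Nat.coprime_of_dvd fun q hq h3 h4 =>
      piCore_isPiSubgroup _ q hq h4 h3) fun hle => hnn (by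
        refine normal_of_le_normalizer_top ?_
        rw [← h1]
        exact sup_le hle le_rfl)
  refine ⟨h1, ?_, fun hs => ⟨inferInstance, fun K _ ⟨e⟩ => ?_⟩, fun ⟨hs, hK⟩ => ?_⟩
  · refine normal_of_le_normalizer_top ?_
    rw [← h1]
    refine sup_le (le_sup_left.trans le_normalizer) fun g hg => ?_
    rw [← map_conj_eq_iff_mem_normalizer, Subgroup.map_sup, map_conj_eq_of_normal,
      map_conj_eq_of_mem_normalizer hg]
  · exact sl25_not_isSolvable (isSolvable_of_equiv e inferInstance)
  · have hHs : Group.IsSolvable H := by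
      by_contra hns
      obtain ⟨F, hFi, -⟩ := hF.exists_sl25 hns
      exact hK (H.subtype.comp F).range (by rintro _ ⟨M, rfl⟩; exact (F M).2)
        ⟨(MonoidHom.ofInjective (f := H.subtype.comp F) (H.subtype_injective.comp hFi)).symm⟩
    obtain ⟨Q, q1, -, q3, q4⟩ := Cop.exists_complement_of_le_normalizer (N := H)
      (H := normalizer (H : Set G)) le_rfl (by rwa [inf_eq_left.mpr le_normalizer])
    rw [inf_eq_left.mpr le_normalizer] at q3
    have hQ : Group.IsSolvable Q := by
      by_contra hns
      obtain ⟨D, d1, d2, d3⟩ := exists_perfect_le Q hns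
      have hcop : (Nat.card D).Coprime (Nat.card H) :=
        (q4 ▸ hH.symm).coprime_dvd_left (card_dvd_of_le d1)
      have h2 := le_centralizer_of_perfect hF hHs (d1.trans q1) hcop d3
      have hHall' : Cfsg.IsPiHall π (H.map (QuotientGroup.mk' (Cfsg.piCore πᶜ G))) :=
        Hall.isPiHall_map_of_surjective (Hall.isPiHall_of_coprime (hTI.coprime_index hH))
          (QuotientGroup.mk'_surjective _)
      have h3 : D.map (QuotientGroup.mk' (Cfsg.piCore πᶜ G)) ≤ Cfsg.piCore π _ := by
        refine le_trans ?_ ((hsep'.quotient _).centralizer_piCore_le (piCore_quotient_piCore πᶜ))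
        rintro _ ⟨d, hd, rfl⟩ y hy
        obtain ⟨x, hx, rfl⟩ := Hall.piCore_le_hall hHall' hy
        rw [← map_mul, ← map_mul, h2 hx d hd]
      have h4 : D.map (QuotientGroup.mk' (Cfsg.piCore πᶜ G)) = ⊥ := by
        rw [← card_eq_one]
        refine IsPiNum.eq_one (π := π) (isPiSubgroup_of_le (piCore_isPiSubgroup π) h3) ?_
        exact fun p hp h5 h6 => hp.one_lt.ne'
          (Nat.eq_one_of_dvd_coprimes hcop (h5.trans (card_map_dvd _ _)) h6)
      rw [Subgroup.map_eq_bot_iff, QuotientGroup.ker_mk'] at h4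
      have := isSolvable_of_le hs h4
      exact (Group.IsSolvable.commutator_lt_of_ne_bot (G := D) (H := ⊤) (by
        rwa [Ne, ← map_eq_bot_iff_of_injective _ D.subtype_injective, ← MonoidHom.range_eq_map,
          range_subtype])).ne (by
        rw [← map_subtype_inj, map_commutator, ← MonoidHom.range_eq_map, range_subtype, d3])
    have h5 : Group.IsSolvable (normalizer (H : Set G)) := by
      rw [← q3, sup_comm]; exact isSolvable_sup q1 hQ hHs
    rw [← isSolvable_top_iff, ← h1, sup_comm]
    exact isSolvable_sup_of_normal h5 hs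

end Cfsg.Agent.S4118
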