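import Cfsg.Statements.S4120
import Cfsg.Agent.Lib.H8FrobAct

set_option autoImplicit false
open Cfsg

namespace Cfsg.Agent.S4120

open Subgroup CfsgLib in
/-- Let the finite group A act faithfully on the finite group G by automorphisms, and suppose A is a Frobenius group with kernel F and complement H such that F fixes only the identity of G. If the fixed-point subgroup C_G(H) is nilpotent, then G is nilpotent. -/
theorem result {G A : Type*} [Group G] [Finite G] [Group A] [Finite A] [MulDistribMulAction A G] [FaithfulSMul A G]
    (Fk Hc : Subgroup A) [Fk.Normal] (hHc : Cfsg.IsFrobeniusComplement Hc) (hker : Cfsg.frobeniusKernel Hc = (Fk : Set A))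
    (hCF : ∀ g : G, (∀ f ∈ Fk, f • g = g) → g = 1) (hnil : Group.IsNilpotent (Subgroup.closure {g : G | ∀ h ∈ Hc, h • g = g})) : Group.IsNilpotent G := by
  let φ := MulDistribMulAction.toMulAut A G
  have hfin := CopAut.finite_semidirect (φ := φ)
  have c := H8Fpf.fcfg_of_action φ Fk Hc hHc hker hCF
  have := c.nilpotent (isNilpotent_of_le (isNilpotent_map hnil SemidirectProduct.inl) (by
    rintro _ ⟨⟨x, -, rfl⟩, hx⟩
    exact mem_map_of_mem _ (subset_closure (CopAut.inl_mem_centralizer_R_iff.1 hx))))
  exact isNilpotent_of_injective ((SemidirectProduct.inl : G →* G ⋊[φ] A).codRestrict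
    (CopAut.L φ ⊤) fun g => mem_map_of_mem _ trivial) fun x y e =>
      SemidirectProduct.inl_injective (congrArg Subtype.val e)

end Cfsg.Agent.S4120
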