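import Cfsg.Statements.S4122
import Cfsg.Agent.Lib.H8FrobAct

set_option autoImplicit false
open Cfsg

namespace Cfsg.Agent.S4122

open Subgroup CfsgLib in
/-- Let the finite group A act faithfully on the finite group G by automorphisms, A a Frobenius group with kernel F and complement H such that F fixes only the identity of G. Then G is generated by the images under elements of F of the fixed-point subgroup C_G(H). -/
theorem result {G A : Type*} [Group G] [Finite G] [Group A] [Finite A] [MulDistribMulAction A G] [FaithfulSMul A G]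
    (Fk Hc : Subgroup A) [Fk.Normal] (hHc : Cfsg.IsFrobeniusComplement Hc) (hker : Cfsg.frobeniusKernel Hc = (Fk : Set A))
    (hCF : ∀ g : G, (∀ f ∈ Fk, f • g = g) → g = 1) : Subgroup.closure {x : G | ∃ f ∈ Fk, ∃ c : G, (∀ h ∈ Hc, h • c = c) ∧ x = f • c} = ⊤ := by
  let φ := MulDistribMulAction.toMulAut A G
  have hfin := CopAut.finite_semidirect (φ := φ)
  have c := H8Fpf.fcfg_of_action φ Fk Hc hHc hker hCF
  have key : ∀ (a : A) (S : Set G), (∀ x ∈ S, a • x ∈ S) → ∀ x ∈ closure S, φ a x ∈ closure S :=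
    fun a S hS => (closure_le ((closure S).comap (φ a).toMonoidHom)).2 fun x hx =>
      subset_closure (hS x hx)
  refine top_le_iff.1 ((CopAut.L_le_L (φ := φ)).1 (c.le_of_cent
    (CopAut.R_le_normalizer_iff.2 fun a ha => key a _ ?_)
    (CopAut.R_le_normalizer_iff.2 fun a ha => key a _ ?_) ?_))
  · rintro _ ⟨f, hf, x, hx, rfl⟩
    exact ⟨a * f, mul_mem ha hf, x, hx, (mul_smul a f x).symm⟩
  · rintro _ ⟨f, hf, x, hx, rfl⟩
    exact ⟨a * f * a⁻¹, Normal.conj_mem ‹_› f hf a, x, hx, by
      rw [mul_smul, mul_smul, hx _ (inv_mem ha)]⟩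
  · rintro _ ⟨⟨x, -, rfl⟩, hx⟩
    exact mem_map_of_mem _ (subset_closure
      ⟨1, one_mem _, x, CopAut.inl_mem_centralizer_R_iff.1 hx, (one_smul A x).symm⟩)

end Cfsg.Agent.S4122
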