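import Cfsg.Statements.S4123
import Cfsg.Agent.Lib.H8FrobBase

set_option autoImplicit false
open Cfsg

namespace Cfsg.Agent.S4123

open Subgroup CfsgLib in
/-- Let the finite group A act faithfully on the finite group G by automorphisms, A a Frobenius group with kernel F and complement H such that F fixes only the identity of G. Then for every prime p there is exactly one A-invariant Sylow p-subgroup of G. -/
theorem result {G A : Type*} [Group G] [Finite G] [Group A] [Finite A] [MulDistribMulAction A G] [FaithfulSMul A G]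
    (Fk Hc : Subgroup A) [Fk.Normal] (hHc : Cfsg.IsFrobeniusComplement Hc) (hker : Cfsg.frobeniusKernel Hc = (Fk : Set A))
    (hCF : ∀ g : G, (∀ f ∈ Fk, f • g = g) → g = 1) (p : ℕ) [Fact p.Prime] : ∃! P : Sylow p G, ∀ (a : A) (x : G), x ∈ (P : Subgroup G) → a • x ∈ (P : Subgroup G) := by
  let φ := MulDistribMulAction.toMulAut A G
  have hfin := CopAut.finite_semidirect (φ := φ)
  have c := H8Fpf.fcfg_of_action φ Fk Hc hHc hker hCF
  have key : ∀ S : Sylow p G, IsSylowIn p (CopAut.L φ S) (CopAut.L φ ⊤) := fun S =>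
    (IsSylowIn.sylow_top S).map _
  obtain ⟨P, hP, hF⟩ := c.exists_sylow p
  obtain ⟨P, -, rfl⟩ := CopAut.exists_L_eq hP.le
  obtain ⟨S⟩ : Nonempty (Sylow p G) := inferInstance
  obtain ⟨S, rfl⟩ := IsSylowIn.top_iff.1 ((IsSylowIn.sylow_top S).of_card_le
    (hP.isPGroup.of_equiv (P.equivMapOfInjective _ SemidirectProduct.inl_injective).symm) le_top
    (by rw [← CopAut.card_L (φ := φ), ← CopAut.card_L (φ := φ) P, hP.card_eq (key S)]))
  refine ⟨S, fun a => (CopAut.R_top_le_normalizer_iff (φ := φ)).1 ?_ a, fun T hT => ?_⟩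
  · rintro _ ⟨a, -, rfl⟩
    exact c.norm_sylow hP hF (CopAut.R_top_le_normalizer_iff.2 CopAut.inv_top (mem_map_of_mem _ trivial))
      (H1.map_normalizer_le' (le_normalizer_of_normal (K := ⊤)) _ (mem_map_of_mem _ trivial))
  · exact Sylow.ext (CopAut.L_inj.1 (c.sylow_unique (key T) hP
      (CopAut.R_le_normalizer_iff.2 fun a _ => hT a) hF))

end Cfsg.Agent.S4123
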