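import Cfsg.Statements.S4125
import Cfsg.Agent.Lib.QBaer

set_option autoImplicit false
open Cfsg

namespace Cfsg.Agent.S4125

open Subgroup Cfsg CfsgLib CfsgLib.Chr
open scoped commutatorElement

/-- Let G be a finite group and q a prime dividing its order such that every element of q-power order has a conjugacy class of prime-power size. Then G is q-solvable of q-length 1: there are normal subgroups K ≤ L of G with K of order prime to q, L/K a q-group and L of index prime to q. Moreover there is a prime p such that every element of q-power order has a class of p-power size (one prime serving for all of them), and for a Sylow q-subgroup Q: if p = q then Q is normal with a normal complement (a direct factor), while if p ≠ q then Q is abelian, the product of Q with the largest normal p-subgroup O_p(G) is normal in G, and G/O_{q'}(G) is solvable, where O_{q'}(G) is the largest normal subgroup of order prime to q. -/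
theorem result {G : Type*} [Group G] [Finite G] (q : ℕ) [Fact q.Prime] (hq : q ∣ Nat.card G)
    (hBaer : ∀ x : G, (∃ k : ℕ, orderOf x = q ^ k) → ∃ (r : ℕ) (a : ℕ), r.Prime ∧ (Subgroup.centralizer ({x} : Set G)).index = r ^ a) (Q : Sylow q G) :
    (∃ K L : Subgroup G, K.Normal ∧ L.Normal ∧ K ≤ L ∧ (Nat.card K).Coprime q ∧ (∃ m : ℕ, K.relIndex L = q ^ m) ∧ L.index.Coprime q) ∧
    ∃ p : ℕ, p.Prime ∧ (∀ x : G, (∃ k : ℕ, orderOf x = q ^ k) → ∃ a : ℕ, (Subgroup.centralizer ({x} : Set G)).index = p ^ a) ∧
      (p = q → (Q : Subgroup G).Normal ∧ ∃ N : Subgroup G, N.Normal ∧ N.IsComplement' (Q : Subgroup G)) ∧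
      (p ≠ q → IsMulCommutative (Q : Subgroup G) ∧ (Cfsg.pCore p G ⊔ (Q : Subgroup G)).Normal ∧
        ∀ _h : (Cfsg.pPrimeCore q G).Normal, Group.IsSolvable (G ⧸ Cfsg.pPrimeCore q G)) := by
  have hqp : q.Prime := Fact.out
  obtain ⟨p, hp, hall⟩ := exists_prime_of_qBaer hBaer
  have : Fact p.Prime := ⟨hp⟩
  have hQel : ∀ x ∈ (Q : Subgroup G), ∃ k, orderOf x = q ^ k := fun x hx =>
    orderOf_eq_pow_of_mem_isPGroup Q.isPGroup' hx
  have hc : p = q → (Q : Subgroup G).Normal ∧
      ∃ N : Subgroup G, N.Normal ∧ N.IsComplement' (Q : Subgroup G) := by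
    rintro rfl
    have hQ : (Q : Subgroup G) = pCore p G := le_antisymm
      (fun z hz => mem_pCore_of_index_pow (hQel z hz) (hall z (hQel z hz))) (pCore_le_sylow Q)
    have hQn : (Q : Subgroup G).Normal := by rw [hQ]; infer_instance
    refine ⟨hQn, ?_⟩
    obtain ⟨N, hN⟩ := exists_left_complement'_of_coprime Q.card_coprime_index
    refine ⟨N, ?_, hN⟩
    by_cases hQb : (Q : Subgroup G) = ⊥
    · rw [hQb, isComplement'_bot_right] at hN
      rw [hN]; infer_instance
    obtain ⟨k, hk⟩ := centralizer_index_pow_of_normal_sylow Q ⊥ bot_le (by simpa using hQb)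
      (fun u hu _ => hall u (hQel u hu))
    have hNC : N ≤ centralizer ((Q : Subgroup G) : Set G) := by
      apply le_of_coprime_index
      rw [hk, ← hN.index_eq_card]
      exact Nat.Coprime.pow_right _ ((Nat.Prime.coprime_iff_not_dvd hp).2 Q.not_dvd_index).symm
    apply normal_of_le_normalizer_top
    rw [← hN.sup_eq_top, sup_le_iff]
    refine ⟨le_normalizer, fun u hu => mem_normalizer_of_conj_mem fun n hn => ?_⟩
    rw [hNC hn u hu, mul_inv_cancel_right]; exact hn
  have hd : p ≠ q → IsMulCommutative (Q : Subgroup G) ∧ (pCore p G ⊔ (Q : Subgroup G)).Normal := by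
    intro hpq
    let f := QuotientGroup.mk' (pCore p G)
    have hf : Function.Surjective f := QuotientGroup.mk'_surjective _
    have h1 : ∀ x ∈ (Q : Subgroup G), f x ∈ fittingSubgroup (G ⧸ pCore p G) ⊓
        centralizer (fittingSubgroup (G ⧸ pCore p G) : Set (G ⧸ pCore p G)) := by
      intro x hx
      apply mem_fitting_inf_centralizer_of_class_prime_pow (pCore_quotient_pCore p)
      obtain ⟨a, ha⟩ := hall x (hQel x hx)
      have := CfsgLib.Frob.index_centralizer_map_dvd f hf x
      rw [ha] at this
      obtain ⟨b, -, hb⟩ := (Nat.dvd_prime_pow hp).1 this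
      exact ⟨b, hb⟩
    constructor
    · rw [CfsgLib.PGrp.isMulCommutative_iff_forall]
      intro a ha b hb
      have h2 : ⁅a, b⁆ ∈ pCore p G := by
        rw [← QuotientGroup.ker_mk' (pCore p G), MonoidHom.mem_ker, map_commutatorElement,
          commutatorElement_eq_one_iff_mul_comm]
        exact (h1 b hb).2 _ (h1 a ha).1
      have h3 : ⁅a, b⁆ ∈ (Q : Subgroup G) :=
        mul_mem (mul_mem (mul_mem ha hb) (inv_mem ha)) (inv_mem hb)
      have h4 := IsPGroup.disjoint_of_ne p q hpq _ _ (pCore_isPGroup p) Q.isPGroup'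
      exact commutatorElement_eq_one_iff_mul_comm.1 (disjoint_def.1 h4 h2 h3)
    · have h2 : (Q : Subgroup G).map f = pCore q (G ⧸ pCore p G) := by
        refine le_antisymm (le_pCore_of_le_fitting ?_ (Q.isPGroup'.map f))
          (pCore_le_sylow (Q.mapSurjective hf))
        rintro _ ⟨x, hx, rfl⟩
        exact (h1 x hx).1
      have h3 : pCore p G ⊔ (Q : Subgroup G) = ((Q : Subgroup G).map f).comap f := by
        rw [comap_map_eq, QuotientGroup.ker_mk', sup_comm]
      rw [h3, h2]
      infer_instance
  have hL : (pPrimeCore q G ⊔ (Q : Subgroup G)).Normal := by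
    by_cases hpq : p = q
    · have := (hc hpq).1
      infer_instance
    · have := (hd hpq).2
      have h1 : pCore p G ≤ pPrimeCore q G := by
        apply le_pPrimeCore
        obtain ⟨k, hk⟩ := (pCore_isPGroup (G := G) p).exists_card_eq
        rw [hk]
        exact Nat.Coprime.pow_left _ ((Nat.coprime_primes hp hqp).2 hpq)
      have h2 : pPrimeCore q G ⊔ (Q : Subgroup G) =
          pPrimeCore q G ⊔ (pCore p G ⊔ (Q : Subgroup G)) := by
        rw [← sup_assoc, sup_eq_left.2 h1]
      rw [h2]; infer_instance
  refine ⟨⟨pPrimeCore q G, pPrimeCore q G ⊔ (Q : Subgroup G), inferInstance, hL, le_sup_left,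
    pPrimeCore_coprime q, ?_, ?_⟩, p, hp, hall, hc, fun hpq => ⟨(hd hpq).1, (hd hpq).2, fun _ => ?_⟩⟩
  · rw [relIndex_sup_left]
    exact Q.isPGroup'.index _
  · exact ((Nat.Prime.coprime_iff_not_dvd hqp).2
      (fun h => Q.not_dvd_index (h.trans (index_dvd_of_le le_sup_right)))).symm
  · by_contra hns
    obtain ⟨D, hDn, hDb, hD⟩ := exists_perfect_normal_of_not_isSolvable hns
    let f := QuotientGroup.mk' (pPrimeCore q G)
    have hf : Function.Surjective f := QuotientGroup.mk'_surjective _
    let Q' : Sylow q (G ⧸ pPrimeCore q G) := Q.mapSurjective hf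
    have hQ' : (Q' : Subgroup (G ⧸ pPrimeCore q G)) = (Q : Subgroup G).map f := rfl
    have hQ'n : (Q' : Subgroup (G ⧸ pPrimeCore q G)).Normal := by
      have := hL.map f hf
      rwa [Subgroup.map_sup, (Subgroup.map_eq_bot_iff _).2 (QuotientGroup.ker_mk' _).ge, bot_sup_eq] at this
    have hQ'c : IsMulCommutative (Q' : Subgroup (G ⧸ pPrimeCore q G)) := by
      have := (hd hpq).1
      rw [hQ']; infer_instance
    have hDC := le_centralizer_of_perfect (p := p) (q := q) (Q := Q') hD le_normalizer_of_normal
      Q'.isPGroup' hQ'c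
      (fun h => Q'.not_dvd_index ((h.trans (CfsgLib.Frob.relIndex_normal_dvd_index _ D)).trans
        (index_dvd_of_le (le_centralizer _))))
      (by
        rintro _ ⟨x, hx, rfl⟩
        obtain ⟨a, ha⟩ := hall x (hQel x hx)
        have := (CfsgLib.Frob.relIndex_normal_dvd_index _ D).trans
          (CfsgLib.Frob.index_centralizer_map_dvd f hf x)
        rw [ha] at this
        obtain ⟨b, -, hb⟩ := (Nat.dvd_prime_pow hp).1 this
        exact ⟨b, hb⟩)
    have hperf : commutator D = ⊤ := by
      apply map_injective (subtype_injective D)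
      rw [map_subtype_commutator, hD, ← MonoidHom.range_eq_map, range_subtype]
    obtain ⟨R⟩ : Nonempty (Sylow q D) := inferInstance
    have hR : (R : Subgroup D) ≤ center D := by
      intro x hx
      have h1 : (x : G ⧸ pPrimeCore q G) ∈ (Q' : Subgroup (G ⧸ pPrimeCore q G)) := by
        obtain ⟨S, hS⟩ := (R.isPGroup'.map D.subtype).exists_le_sylow
        have := Sylow.unique_of_normal Q' hQ'n
        rw [Subsingleton.elim Q' S]
        exact hS ⟨x, hx, rfl⟩
      rw [mem_center_iff]
      intro d
      exact Subtype.ext (hDC d.2 _ h1).symm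
    have h2 := le_pPrimeCore (N := D)
      ((Nat.Prime.coprime_iff_not_dvd hqp).2
        (not_dvd_card_of_perfect_of_central_sylow hperf R hR)).symm
    rw [pPrimeCore_quotient_pPrimeCore, le_bot_iff] at h2
    exact hDb h2

end Cfsg.Agent.S4125
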