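import Cfsg.Statements.S4130
import Cfsg.Agent.Lib.H8SqClass
import Cfsg.Agent.Lib.FusionControl
import Cfsg.Agent.Lib.CommCalc
import Cfsg.Agent.Lib.ClassCount
import Cfsg.Agent.Lib.FrobTwo
import Cfsg.Agent.Lib.H8ClassBound
import Cfsg.Agent.Lib.CoprimeAction

set_option autoImplicit false
open Cfsg

namespace Cfsg.Agent.S4130

open CfsgLib Subgroup CfsgLib.PCompl CfsgLib.PRes CfsgLib.SqClass
open scoped commutatorElement

universe u

theorem not_sq {n p : ℕ} (hp : p.Prime) (h : Squarefree n) : ¬ p ^ 2 ∣ n := fun hd =>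
  hp.ne_one (Nat.isUnit_iff.mp (h p (by rwa [← pow_two])))

theorem sylow_normal {q : ℕ} [hq : Fact q.Prime] (G : Type u) [Group G] [Finite G] :
    (∀ x : G, Squarefree (centralizer ({x} : Set G)).index) →
      (∀ r : ℕ, r.Prime → r ∣ Nat.card G → r ≤ q) → ∀ Q : Sylow q G, (Q : Subgroup G).Normal := by
  revert G
  refine card_induction fun G _ _ IH h hmax Q => ?_
  by_cases hG : IsPGroup q G
  · rw [(Q.3 (hG.to_subgroup ⊤) le_top).symm]
    infer_instance
  have h1 : Nat.card G ≠ 1 := fun h1 => hG (IsPGroup.of_card (n := 0) h1)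
  have hp := Nat.minFac_prime h1
  set p := (Nat.card G).minFac with hpdef
  haveI : Fact p.Prime := ⟨hp⟩
  have hpq : q ≠ p := by
    intro he
    apply hG
    refine IsPGroup.of_card (Nat.eq_prime_pow_of_unique_prime_dvd Nat.card_pos.ne'
      fun {r} hr hd => le_antisymm (hmax r hr hd) (he ▸ Nat.minFac_le_of_dvd hr.two_le hd))
  have h2 := hnpc_of_not_sq_dvd_class (p := p) G
    (fun r hr hd => Nat.minFac_le_of_dvd hr.two_le hd) fun x => not_sq hp (h x)
  haveI := pResidual_normal (G := G) (p := p)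
  have h3 : pResidual p G ≠ ⊤ := fun h3 => hnpc_iff_not_dvd_pResidual.mp h2 (by
    rw [h3, card_top]; exact Nat.minFac_dvd _)
  have h4 : (Q : Subgroup G) ≤ pResidual p G := le_pResidual_of_isPGroup hpq Q.isPGroup'
  have h5 := IH _ (card_lt_of_ne_top h3)
    (fun x => (h x).squarefree_of_dvd (Frob.index_centralizer_normal_dvd _ x))
    (fun r hr hd => hmax r hr (hd.trans (card_subgroup_dvd_card _))) (Q.subtype h4)
  haveI := Sylow.characteristic_of_normal _ h5
  rw [← map_subgroupOf_eq_of_le h4, ← Sylow.coe_subtype Q h4]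
  infer_instance

section
variable {G : Type*} [Group G] [Finite G]

theorem eq_zpowers {q : ℕ} [hq : Fact q.Prime] {L : Subgroup G} (hL : IsPGroup q L)
    (h : Nat.card L ≤ q) {c : G} (hc : c ∈ L) (hc1 : c ≠ 1) : L = zpowers c := by
  symm
  apply eq_of_le_of_card_le (zpowers_le.mpr hc)
  obtain ⟨k, hk⟩ := orderOf_eq_pow_of_mem_isPGroup hL hc
  rw [Nat.card_zpowers, hk]
  refine h.trans (Nat.le_self_pow (fun h0 => hc1 ?_) q)
  rwa [h0, pow_zero, orderOf_eq_one_iff] at hk

theorem card_commutator_le {q : ℕ} [hq : Fact q.Prime] {Q A M : Subgroup G} [Q.Normal]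
    (hab : IsMulCommutative Q) (hcop : (Nat.card A).Coprime (Nat.card Q)) (hMQ : M ≤ Q)
    (hMA : M ≤ centralizer (A : Set G)) (hM : M.relIndex Q ≤ q) :
    Nat.card (⁅Q, A⁆ : Subgroup G) ≤ q := by
  have h1 := Cop.commutator_inf_centralizer_eq_bot (A := A) (G := Q) le_normalizer_of_normal
    hcop hab
  have h2 : ⁅Q, A⁆ ≤ Q := commutator_le_left Q A
  have h3 := card_sup_of_disjoint (H := ⁅Q, A⁆) (N := M)
    ((h2.trans ((le_centralizer_iff_isMulCommutative.mpr hab).trans
      (centralizer_le hMQ))).trans (centralizer_le_normalizer _))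
    (eq_bot_iff.mpr ((inf_le_inf_left _ hMA).trans h1.le))
  have h4 : Nat.card (⁅Q, A⁆ ⊔ M : Subgroup G) ≤ Nat.card Q :=
    card_le_of_le (sup_le h2 hMQ)
  rw [h3, ← card_mul_relIndex hMQ, mul_comm] at h4
  exact (Nat.le_of_mul_le_mul_left h4 Nat.card_pos).trans hM

theorem card_commutator_top_le {q : ℕ} [hq : Fact q.Prime] (Q : Subgroup G) [Q.Normal]
    (hQ : IsPGroup q Q) (hi : ¬ q ∣ Q.index)
    (h : ∀ x : G, (centralizer ({x} : Set G)).relIndex Q ∣ q) :
    Nat.card (⁅Q, ⊤⁆ : Subgroup G) ≤ q := by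
  obtain ⟨n, hn⟩ := IsPGroup.iff_card.mp hQ
  obtain ⟨H, hH⟩ := exists_right_complement'_of_coprime (N := Q) (by
    rw [hn]
    exact Nat.Coprime.pow_left n ((Nat.Prime.coprime_iff_not_dvd hq.out).mpr hi))
  have hcop : ∀ A : Subgroup G, A ≤ H → (Nat.card A).Coprime (Nat.card Q) := fun A hA => by
    refine Nat.Coprime.coprime_dvd_left (card_dvd_of_le hA) ?_
    rw [hn, ← hH.symm.index_eq_card]
    exact Nat.Coprime.pow_right n ((Nat.Prime.coprime_iff_not_dvd hq.out).mpr hi).symm
  have hle : ∀ x : G, (Q ⊓ centralizer ({x} : Set G)).relIndex Q ≤ q := fun x => by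
    rw [inf_relIndex_left]
    exact Nat.le_of_dvd hq.out.pos (h x)
  by_cases hHC : H ≤ centralizer (Q : Set G)
  · have h1 : ⁅Q, ⊤⁆ ≤ (commutator Q).map Q.subtype := by
      rw [commutator_le]
      intro a ha g _
      obtain ⟨⟨b, x⟩, rfl⟩ := hH.2 g
      refine ⟨⁅⟨a, ha⟩, b⁆, commutator_mem_commutator (mem_top _) (mem_top _), ?_⟩
      have := hHC x.2 a⁻¹ (Q.inv_mem ha)
      simp only [commutatorElement_def, coe_subtype, coe_mul, coe_inv, mul_inv_rev]
      rw [← mul_assoc a, mul_assoc _ (x : G), ← this]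
      group
    refine (card_le_of_le h1).trans ?_
    rw [card_map_subtype]
    refine ClBound.card_commutator_le_of_lt hq.out.one_le (fun r hr hd => ?_) ?_
    · rw [hn] at hd
      exact ((Nat.prime_dvd_prime_iff_eq hr hq.out).mp (hr.dvd_of_dvd_pow hd)).ge
    · haveI := Fintype.ofFinite Q
      apply Nat.lt_of_mul_lt_mul_right (a := Nat.card Q)
      rw [mul_assoc, ClassCount.card_conjClasses_mul_card, Finset.mul_sum]
      have e : Nat.card Q * Nat.card Q = ∑ _x : Q, Nat.card Q := by
        rw [Finset.sum_const, Finset.card_univ, smul_eq_mul, Nat.card_eq_fintype_card]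
      rw [e]
      refine Finset.sum_lt_sum (fun x _ => ?_) ⟨1, Finset.mem_univ _, ?_⟩
      · rw [← (centralizer ({x} : Set Q)).index_mul_card, Frob.index_centralizer_subtype]
        exact Nat.mul_le_mul_right _ (Nat.le_of_dvd hq.out.pos (h x))
      · rw [Frob.centralizer_singleton_eq_top_iff.mpr (one_mem _), card_top]
        exact (Nat.lt_mul_iff_one_lt_left Nat.card_pos).mpr hq.out.one_lt
  obtain ⟨x₀, hx₀, hx₀C⟩ := SetLike.not_le_iff_exists.mp hHC
  have hidx : ∀ x : G, x ∉ centralizer (Q : Set G) →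
      (Q ⊓ centralizer ({x} : Set G)).relIndex Q = q := fun x hx => by
    rw [inf_relIndex_left]
    refine ((Nat.dvd_prime hq.out).mp (h x)).resolve_left fun h1 => hx fun y hy => ?_
    exact mem_centralizer_singleton_iff.mp (relIndex_eq_one.mp h1 hy)
  have hab : IsMulCommutative Q := by
    set M := Q ⊓ centralizer ({x₀} : Set G) with hM
    have hMn : (M.subgroupOf Q).Normal := PGrp.normal_of_index_eq_prime hQ (hidx x₀ hx₀C)
    have h1 : M ≤ centralizer (M : Set G) := by
      intro a ha y hy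
      have hc : Commute x₀ y := (mem_centralizer_singleton_iff.mp hy.2).symm
      have h2 := Frob.centralizer_mul_of_coprime hc (Nat.Coprime.coprime_dvd_left
        (H.orderOf_dvd_natCard hx₀) (Nat.Coprime.coprime_dvd_right (Q.orderOf_dvd_natCard hy.1)
          (hcop H le_rfl)))
      have h3 := hle (x₀ * y)
      rw [h2, ← inf_assoc, ← hM, ← relIndex_mul_relIndex _ M Q inf_le_left inf_le_left,
        hidx x₀ hx₀C, inf_relIndex_left] at h3
      have h4 : (centralizer ({y} : Set G)).relIndex M = 1 := by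
        have h5 : (centralizer ({y} : Set G)).relIndex M ≠ 0 := index_ne_zero_of_finite
        have := hq.out.pos
        nlinarith [Nat.pos_of_ne_zero h5]
      exact (mem_centralizer_singleton_iff.mp (relIndex_eq_one.mp h4 ha)).symm
    have hMA : ⁅M, zpowers x₀⁆ = ⊥ := by
      rw [commutator_eq_bot_iff_le_centralizer, H1.centralizer_zpowers_eq]
      exact inf_le_right
    have h2 : ⁅Q, M⁆ ≤ M := by
      rw [commutator_le]
      intro a ha m hm
      exact PGrp.commutator_le_of_index_eq_prime (M.subgroupOf Q) (hidx x₀ hx₀C)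
        (commutator_mem_commutator (mem_top (⟨a, ha⟩ : Q)) (mem_top ⟨m, hm.1⟩))
    have h3 : ⁅⁅zpowers x₀, Q⁆, M⁆ ≤ ⊥ := CommCalc.three_subgroups_normal
      ((commutator_mono h2 le_rfl).trans hMA.le) (by rw [hMA, commutator_bot_left])
    have h4 := Cop.commutator_sup_centralizer (A := zpowers x₀) (G := Q) le_normalizer_of_normal
      (hcop _ (zpowers_le.mpr hx₀)) (Or.inr (isSolvable_of_isPGroup hQ))
    rw [H1.centralizer_zpowers_eq, ← hM] at h4
    have h5 : Q ≤ centralizer (M : Set G) := by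
      rw [← h4]
      refine sup_le ?_ h1
      rw [← commutator_eq_bot_iff_le_centralizer, commutator_comm Q]
      exact le_bot_iff.mp h3
    haveI : IsCyclic (Q ⧸ M.subgroupOf Q) := isCyclic_of_prime_card (p := q) (hidx x₀ hx₀C)
    refine MonoidHom.isMulCommutative_of_isCyclic_of_ker_le_center
      (QuotientGroup.mk' (M.subgroupOf Q)) ?_
    rw [QuotientGroup.ker_mk']
    intro m hm
    rw [mem_center_iff]
    exact fun g => Subtype.ext (h5 g.2 m hm).symm
  have hc : ∀ a ∈ Q, ∀ b ∈ Q, a * b = b * a := PGrp.isMulCommutative_iff_forall.mp hab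
  have hL : ∀ x ∈ H, Nat.card (⁅Q, zpowers x⁆ : Subgroup G) ≤ q := fun x hx =>
    card_commutator_le hab (hcop _ (zpowers_le.mpr hx)) inf_le_left
      (by rw [H1.centralizer_zpowers_eq]; exact inf_le_right) (hle x)
  have hLp : ∀ A : Subgroup G, IsPGroup q (⁅Q, A⁆ : Subgroup G) := fun A =>
    hQ.to_le (commutator_le_left Q A)
  have hmem : ∀ x : G, ∀ a ∈ Q, ⁅a, x⁆ ∈ ⁅Q, zpowers x⁆ := fun x a ha =>
    commutator_mem_commutator ha (mem_zpowers x)
  have hne : ∀ a x : G, a ∉ centralizer ({x} : Set G) → ⁅a, x⁆ ≠ 1 := fun a x ha h1 =>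
    ha (mem_centralizer_singleton_iff.mpr (commutatorElement_eq_one_iff_mul_comm.mp h1))
  have key : ∀ x ∈ H, ⁅Q, zpowers x⁆ ≤ ⁅Q, zpowers x₀⁆ := by
    intro x hx
    by_cases hxC : x ∈ centralizer (Q : Set G)
    · rw [commutator_comm, commutator_eq_bot_iff_le_centralizer.mpr (zpowers_le.mpr hxC)]
      exact bot_le
    have hcard : Nat.card (Q ⊓ centralizer ({x} : Set G) : Subgroup G) =
        Nat.card (Q ⊓ centralizer ({x₀} : Set G) : Subgroup G) := by
      apply Nat.eq_of_mul_eq_mul_right hq.out.pos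
      conv_lhs => rw [← hidx x hxC, card_mul_relIndex inf_le_left]
      conv_rhs => rw [← hidx x₀ hx₀C, card_mul_relIndex inf_le_left]
    by_cases he : Q ⊓ centralizer ({x} : Set G) = Q ⊓ centralizer ({x₀} : Set G)
    · set M := Q ⊓ centralizer ({x₀} : Set G) with hM
      have h1 : Nat.card (⁅Q, H ⊓ centralizer (M : Set G)⁆ : Subgroup G) ≤ q :=
        card_commutator_le hab (hcop _ inf_le_left) inf_le_left
          (le_centralizer_iff.mp inf_le_right) (hle x₀)
      obtain ⟨a, ha, ha'⟩ : ∃ a ∈ Q, a ∉ centralizer ({x₀} : Set G) := by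
        by_contra hc
        push Not at hc
        exact hx₀C fun y hy => mem_centralizer_singleton_iff.mp (hc y hy)
      have h2 := eq_zpowers (hLp _) h1 (commutator_mem_commutator ha
        (show x₀ ∈ H ⊓ centralizer (M : Set G) from
          ⟨hx₀, fun m hm => mem_centralizer_singleton_iff.mp hm.2⟩)) (hne a x₀ ha')
      refine (commutator_mono le_rfl (zpowers_le.mpr
        (show x ∈ H ⊓ centralizer (M : Set G) from ⟨hx, fun m hm => ?_⟩))).trans
        (h2.le.trans (zpowers_le.mpr (hmem x₀ a ha)))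
      exact mem_centralizer_singleton_iff.mp (he.ge hm).2
    · obtain ⟨v, hv, hv'⟩ := SetLike.not_le_iff_exists.mp
        fun h1 => he (eq_of_le_of_card_le h1 hcard.ge)
      obtain ⟨w, hw, hw'⟩ := SetLike.not_le_iff_exists.mp
        fun h1 => he (eq_of_le_of_card_le h1 hcard.le).symm
      have hv1 := mem_centralizer_singleton_iff.mp hv.2
      have hw1 := mem_centralizer_singleton_iff.mp hw.2
      have hv2 := hne v x₀ fun h1 => hv' ⟨hv.1, h1⟩
      have hw2 := hne w x fun h1 => hw' ⟨hw.1, h1⟩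
      have e1 : ⁅v, x₀ * x⁆ = ⁅v, x₀⁆ := by
        simp only [commutatorElement_def, mul_inv_rev]
        rw [show v * (x₀ * x) * v⁻¹ * (x⁻¹ * x₀⁻¹) = v * x₀ * (v⁻¹ * (v * x) * v⁻¹ * x⁻¹) * x₀⁻¹ by
          group, hv1]
        group
      have e2 : ⁅w, x₀ * x⁆ = x₀ * ⁅w, x⁆ * x₀⁻¹ := by
        simp only [commutatorElement_def, mul_inv_rev]
        rw [← mul_assoc w, hw1]
        group
      have h1 := eq_zpowers (hLp _) (hL _ (H.mul_mem hx₀ hx)) (e1 ▸ hmem _ v hv.1) hv2
      have h2 : x₀ * ⁅w, x⁆ * x₀⁻¹ ∈ ⁅Q, zpowers x₀⁆ :=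
        zpowers_le.mpr (hmem x₀ v hv.1) (h1 ▸ e2 ▸ hmem _ w hw.1)
      have h3 : x₀ ∈ normalizer ((⁅Q, zpowers x₀⁆ : Subgroup G) : Set G) := by
        apply mem_normalizer_of_map_conj_eq
        rw [map_commutator, map_conj_eq_of_normal,
          map_conj_eq_of_mem_normalizer (le_normalizer (mem_zpowers x₀))]
      rw [eq_zpowers (hLp _) (hL x hx) (hmem x w hw.1) hw2, zpowers_le]
      simpa [mul_assoc] using conj_mem_of_mem_normalizer' h3 h2
  refine (card_le_of_le ?_).trans (hL x₀ hx₀)
  rw [commutator_le]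
  intro a ha g _
  obtain ⟨⟨b, x⟩, rfl⟩ := hH.2 g
  have h1 : ⁅a, (b : G) * x⁆ = ⁅a, (x : G)⁆ := by
    have h2 : (x : G) * a⁻¹ * (x : G)⁻¹ ∈ Q := Normal.conj_mem inferInstance _ (Q.inv_mem ha) _
    simp only [commutatorElement_def, mul_inv_rev]
    calc a * (b * x) * a⁻¹ * ((x : G)⁻¹ * (b : G)⁻¹)
        = a * (b * (x * a⁻¹ * (x : G)⁻¹)) * (b : G)⁻¹ := by group
      _ = _ := by rw [hc b b.2 _ h2]; group
  simp only
  rw [h1]
  exact key x x.2 (hmem x a ha)

end

theorem main (G : Type u) [Group G] [Finite G] :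
    (∀ x : G, Squarefree (centralizer ({x} : Set G)).index) →
      IsCyclic (commutator G) ∧ Squarefree (Nat.card (commutator G)) := by
  revert G
  refine card_induction fun G _ _ IH h => ?_
  by_cases h1 : Nat.card G = 1
  · haveI := (Nat.card_eq_one_iff_unique.mp h1).1
    exact ⟨isCyclic_of_subsingleton, by rw [Nat.card_of_subsingleton 1]; exact squarefree_one⟩
  have hne : (Nat.card G).primeFactors.Nonempty :=
    Nat.nonempty_primeFactors.mpr (lt_of_le_of_ne Nat.card_pos (Ne.symm h1))
  have hq' := Finset.max'_mem _ hne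
  set q := (Nat.card G).primeFactors.max' hne with hqdef
  have hq := Nat.prime_of_mem_primeFactors hq'
  haveI : Fact q.Prime := ⟨hq⟩
  obtain ⟨Q⟩ : Nonempty (Sylow q G) := inferInstance
  haveI hQn := sylow_normal G h (fun r hr hd => Finset.le_max' _ r
    (Nat.mem_primeFactors.mpr ⟨hr, hd, Nat.card_pos.ne'⟩)) Q
  have hQ1 : (Q : Subgroup G) ≠ ⊥ := Q.ne_bot_of_dvd_card (Nat.dvd_of_mem_primeFactors hq')
  have h2 := card_commutator_top_le (Q : Subgroup G) Q.isPGroup' Q.not_dvd_index fun x =>
    relIndex_dvd_of_not_sq_dvd Q.isPGroup' fun hd =>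
      not_sq hq (h x) (hd.trans (Frob.relIndex_normal_dvd_index _ _))
  set D := commutator G ⊓ (Q : Subgroup G) with hD
  have h3 : D ≤ ⁅(Q : Subgroup G), ⊤⁆ := Fusion.commutator_inf_sylow_le Q fun x hx g _ => by
    rw [commutator_comm]
    exact commutator_mem_commutator (mem_top g) hx
  have h4 : Nat.card D ∣ q := by
    obtain ⟨k, hk⟩ := IsPGroup.iff_card.mp (Q.isPGroup'.to_inf_right (H := commutator G))
    have h5 := (card_le_of_le h3).trans h2
    rw [hD, hk] at h5 ⊢
    have : k ≤ 1 := (Nat.pow_le_pow_iff_right hq.one_lt).mp (by simpa using h5)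
    simpa using pow_dvd_pow q this
  obtain ⟨h5, h6⟩ := IH (G ⧸ (Q : Subgroup G)) (card_quotient_lt hQ1) fun x => by
    obtain ⟨x, rfl⟩ := QuotientGroup.mk_surjective x
    exact (h x).squarefree_of_dvd (Frob.index_centralizer_mk_dvd _ x)
  have h7 : (commutator G).map (QuotientGroup.mk' (Q : Subgroup G)) = commutator _ := by
    rw [commutator_def, map_commutator,
      map_top_of_surjective _ (QuotientGroup.mk'_surjective _), commutator_def]
  have h8 := card_map_mk'_mul_card_inf (commutator G) (Q : Subgroup G)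
  rw [h7, inf_comm] at h8
  have h9 : Squarefree (Nat.card (commutator G)) := by
    rw [← h8]
    refine (Nat.squarefree_mul (Nat.Coprime.coprime_dvd_right h4 ?_)).mpr
      ⟨h6, hq.squarefree.squarefree_of_dvd h4⟩
    exact ((Nat.Prime.coprime_iff_not_dvd hq).mpr fun hd =>
      Q.not_dvd_index (hd.trans (card_subgroup_dvd_card _))).symm
  refine ⟨?_, h9⟩
  haveI : IsCyclic D := by
    rcases (Nat.dvd_prime hq).mp h4 with h | h
    · haveI := (Nat.card_eq_one_iff_unique.mp h).1
      exact isCyclic_of_subsingleton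
    · exact isCyclic_of_prime_card h
  have h10 : commutator G ≤ centralizer (D : Set G) := by
    rw [_root_.commutator_def, commutator_le]
    intro a _ b _ d hd
    exact (Frob.commutator_commute_of_isCyclic D a b hd).symm
  haveI := IsZGroup.of_squarefree h9
  rw [← h7] at h5
  haveI := NilHall.isNilpotent_of_isMulCommutative (G := commutator G)
    (MonoidHom.isMulCommutative_of_isCyclic_of_ker_le_center
      ((QuotientGroup.mk' (Q : Subgroup G)).subgroupMap (commutator G)) fun x hx => by
        have h11 : (x : G) ∈ (Q : Subgroup G) :=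
          (QuotientGroup.eq_one_iff _).mp (congrArg Subtype.val (MonoidHom.mem_ker.mp hx))
        rw [mem_center_iff]
        exact fun g => Subtype.ext (h10 g.2 x ⟨x.2, h11⟩).symm)
  infer_instance

theorem supersolvable {G : Type*} [Group G] [Finite G] {z : G} (hz : zpowers z = commutator G) :
    IsSupersolvable G := by
  obtain ⟨n, ⟨e⟩⟩ := Finite.exists_equiv_fin G
  let f : ℕ → G := fun i => if h : i - 1 < n ∧ i ≠ 0 then e.symm ⟨i - 1, h.1⟩ else z
  let H : ℕ → Subgroup G := fun i => Nat.rec ⊥ (fun j K => K ⊔ zpowers (f j)) i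
  have hs : ∀ i, H (i + 1) = H i ⊔ zpowers (f i) := fun i => rfl
  have hmono : Monotone H := monotone_nat_of_le_succ fun i => le_sup_left
  have h1 : H 1 = commutator G := by
    rw [← hz]
    simp [H, f]
  refine ⟨n + 1, fun i => H i, rfl, ?_, fun i => ?_, fun i => ⟨f i, rfl⟩⟩
  · rw [eq_top_iff]
    intro g _
    refine hmono (show (e g : ℕ) + 1 + 1 ≤ n + 1 from by have := (e g).2; omega) ?_
    rw [hs (e g + 1)]
    apply mem_sup_right
    have : f (e g + 1) = g := by simp [f]
    rw [this]
    exact mem_zpowers g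
  · rcases i with ⟨_ | i, hi⟩
    · exact normal_bot
    · exact Normal.of_commutator_le _ (h1 ▸ hmono (Nat.succ_le_succ (Nat.zero_le i)))

/-- Let G be a finite group all of whose conjugacy class sizes are square-free. Then G is supersolvable, G/F(G) and the derived subgroup G′ are cyclic of square-free order (F(G) the Fitting subgroup, which is normal), F(G) has nilpotency class at most 2, and G is metabelian. -/
theorem result {G : Type*} [Group G] [Finite G]
    (h : ∀ x : G, Squarefree (Subgroup.centralizer ({x} : Set G)).index) :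
    Cfsg.IsSupersolvable G ∧ (Cfsg.fittingSubgroup G).Normal ∧
    (∀ _h : (Cfsg.fittingSubgroup G).Normal, IsCyclic (G ⧸ Cfsg.fittingSubgroup G) ∧ Squarefree (Cfsg.fittingSubgroup G).index) ∧
    IsCyclic (commutator G) ∧ Squarefree (Nat.card (commutator G)) ∧
    Subgroup.upperCentralSeries ↥(Cfsg.fittingSubgroup G) 2 = ⊤ ∧ commutator ↥(commutator G) = ⊥ := by
  obtain ⟨h1, h2⟩ := main G h
  obtain ⟨⟨z, hz'⟩, hz⟩ := IsCyclic.exists_generator (α := commutator G)
  have hzp : zpowers z = commutator G := by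
    refine le_antisymm (zpowers_le.mpr hz') fun x hx => ?_
    obtain ⟨n, hn⟩ := hz ⟨x, hx⟩
    exact ⟨n, congrArg Subtype.val hn⟩
  have hcomm : IsMulCommutative (commutator G) := inferInstance
  have hC : centralizer ({z} : Set G) ≤ fittingSubgroup G := by
    have e : centralizer ({z} : Set G) = centralizer (commutator G : Set G) := by
      rw [← hzp, H1.centralizer_zpowers_eq]
    rw [e]
    apply le_fitting
    apply ClBound.isNilpotent_of_commutator_le_center
    refine commutator_le.mpr fun a _ b _ => ?_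
    rw [mem_center_iff]
    exact fun g => Subtype.ext (g.2 _ (commutator_mem_commutator (mem_top (a : G))
      (mem_top (b : G)))).symm
  have hF : Squarefree (fittingSubgroup G).index :=
    (h z).squarefree_of_dvd (index_dvd_of_le hC)
  refine ⟨supersolvable hzp, fittingSubgroup_normal, fun hn => ⟨?_, hF⟩, h1, h2, ?_, ?_⟩
  · haveI := IsZGroup.of_squarefree (G := G ⧸ fittingSubgroup G) hF
    haveI := NilHall.isNilpotent_of_isMulCommutative (G := G ⧸ fittingSubgroup G)
      (Normal.quotient_commutative_iff_commutator_le.mpr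
        (le_fitting (NilHall.isNilpotent_of_isMulCommutative hcomm)))
    infer_instance
  · set F := fittingSubgroup G with hFdef
    haveI : Group.IsNilpotent F := fitting_isNilpotent
    have h3 : (commutator G).subgroupOf F ≤ center F := by
      apply le_of_forall_primePow_mem
      intro x hx p k hp hk
      by_cases hx1 : x = 1
      · exact hx1 ▸ one_mem _
      have h4 : orderOf x = p := by
        have h5 : p ^ k ∣ Nat.card (commutator G) := by
          rw [← hk, ← orderOf_coe]
          exact (commutator G).orderOf_dvd_natCard hx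
        have h6 : k < 2 := by
          by_contra h6
          exact not_sq hp h2 ((pow_dvd_pow p (not_lt.mp h6)).trans h5)
        have h7 : k ≠ 0 := fun h7 => hx1 (by rwa [h7, pow_zero, orderOf_eq_one_iff] at hk)
        rw [hk, show k = 1 by omega, pow_one]
      haveI : (zpowers x).Normal := by
        refine ⟨?_⟩
        rintro _ ⟨n, rfl⟩ g
        obtain ⟨m, hm⟩ := hzp.ge hx
        obtain ⟨l, hl⟩ := hzp.ge (Normal.conj_mem inferInstance z hz' (g : G))
        refine ⟨l * n, Subtype.ext ?_⟩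
        simp only [coe_mul, coe_inv, SubgroupClass.coe_zpow, coe_subtype] at hm hl ⊢
        rw [← conj_zpow, ← hm, ← conj_zpow, ← hl, ← zpow_mul, ← zpow_mul, ← zpow_mul]
        congr 1
        ring
      obtain ⟨y, hy, hy1, hy2⟩ := PGrp.exists_ne_one_mem_center_of_normal (zpowers x)
        (by simpa using hx1)
      haveI : Fact p.Prime := ⟨hp⟩
      have h5 := eq_zpowers (isPGroup_zpowers_iff.mpr ⟨k, hk⟩)
        (by rw [Nat.card_zpowers, h4]) hy hy1
      exact zpowers_le.mpr hy2 (h5 ▸ mem_zpowers x)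
    rw [eq_top_iff]
    intro a _
    rw [Subgroup.mem_upperCentralSeries_succ_iff]
    intro b
    rw [Subgroup.upperCentralSeries_one]
    exact h3 (commutator_mem_commutator (mem_top (a : G)) (mem_top (b : G)))
  · refine commutator_eq_bot_iff_le_centralizer.mpr fun a _ b _ => ?_
    exact hcomm.is_comm.comm b a

end Cfsg.Agent.S4130
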