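import Cfsg.Statements.S4134
import Mathlib
import Cfsg.Agent.Lib.H5Ito
import Cfsg.Agent.Lib.MannIsaacs
import Cfsg.Agent.Lib.PComplement
import Cfsg.Agent.Lib.CommCalc

set_option autoImplicit false
open Cfsg

namespace Cfsg.Agent.S4134
open Subgroup Cfsg CfsgLib
open scoped commutatorElement

/-- Let G be a finite group whose conjugacy classes have exactly two sizes, 1 and n > 1. Then n is a power of a prime p and G is the direct product of a p-group and an abelian group of order prime to p: its Sylow p-subgroup P is normal with an abelian normal complement centralizing it; moreover P has an abelian normal subgroup A with P/A of exponent dividing p. -/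
theorem result {G : Type*} [Group G] [Finite G] (n : ℕ) (hn : 1 < n)
    (h : ∀ x : G, (Subgroup.centralizer ({x} : Set G)).index = 1 ∨ (Subgroup.centralizer ({x} : Set G)).index = n) (hex : ∃ x : G, (Subgroup.centralizer ({x} : Set G)).index = n) :
    ∃ (p : ℕ) (_ : Fact p.Prime) (a : ℕ), n = p ^ a ∧ ∀ P : Sylow p G, (P : Subgroup G).Normal ∧
      (∃ N : Subgroup G, N.Normal ∧ N.IsComplement' (P : Subgroup G) ∧ IsMulCommutative N ∧
        ∀ x ∈ N, ∀ y ∈ (P : Subgroup G), x * y = y * x) ∧
      ∃ A : Subgroup (P : Subgroup G), A.Normal ∧ IsMulCommutative A ∧ ∀ y : (P : Subgroup G), y ^ p ∈ A := by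
  obtain ⟨p, hp, hG⟩ := H5.isPGroup_quotient_center_of_two_class_sizes hn h
  have := Fact.mk hp
  obtain ⟨k, hk⟩ := hG.exists_card_eq
  obtain ⟨x, hx⟩ := hex
  obtain ⟨a, -, ha⟩ := (Nat.dvd_prime_pow hp).mp
    (hx.symm.dvd.trans ((index_dvd_of_le (center_le_centralizer _)).trans hk.dvd))
  have := hG.isNilpotent
  have hnil : Group.IsNilpotent G :=
    Subgroup.isNilpotent_of_ker_le_center (QuotientGroup.mk' (center G)) (QuotientGroup.ker_mk' _).le
  refine ⟨p, inferInstance, a, ha, fun P => ⟨inferInstance, ?_, ?_⟩⟩
  · have h1 : pResidual p G ≤ center G := PRes.pResidual_le_of_isPGroup_quotient hG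
    exact ⟨pResidual p G, PRes.pResidual_normal, PCompl.hnpc_isComplement'
      PCompl.hnpc_of_isNilpotent P, PGrp.isMulCommutative_of_le h1 inferInstance,
      fun x hx y _ => (mem_center_iff.mp (h1 hx) y).symm⟩
  · obtain ⟨A, -, hAn, hA, hCA⟩ := PGrp.exists_scn_ge (⊥ : Subgroup G) inferInstance
    have h1 : ∀ t ∈ A, ∀ g : G, ⁅t, g⁆ ∈ center G := fun t ht g => by
      rcases h g with h2 | h2
      · rw [commutatorElement_eq_one_iff_mul_comm.mpr
          (mem_center_iff.mp (Frob.index_centralizer_eq_one_iff.mp h2) t)]
        exact one_mem _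
      · have := MannIsaacs.index_centralizer_commutator_lt A hA (h2 ▸ hn) ht
        exact Frob.index_centralizer_eq_one_iff.mp ((h _).resolve_right (by omega))
    have h2 : ∀ t ∈ A, ∀ g : G, ⁅t, g⁆ ^ p = 1 := fun t ht => by
      have h3 : ∀ (g : G) (m : ℕ), ⁅t ^ m, g⁆ = ⁅t, g⁆ ^ m := fun g m =>
        CommCalc.comm_pow_left (mem_center_iff.mp (h1 t ht g) t) m
      have h4 : t ^ p ∈ center G := by
        by_contra hne
        have h5 : ∀ j : ℕ, t ^ p ^ j ∉ center G := fun j => by
          induction j with
          | zero => exact fun h => hne (pow_mem (by simpa using h) p)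
          | succ j ih =>
            intro h6
            have h7 := H5.centralizer_eq_of_le_of_index (Frob.centralizer_le_centralizer_pow t p)
              (by rw [(h _).resolve_left (mt Frob.index_centralizer_eq_one_iff.mp hne),
                (h _).resolve_left (mt Frob.index_centralizer_eq_one_iff.mp
                  fun h => hne (pow_mem h p))]) index_ne_zero_of_finite
            refine ih (mem_center_iff.mpr fun g => ?_)
            have h8 : g ^ p ^ j ∈ centralizer ({t ^ p} : Set G) := by
              rw [mem_centralizer_singleton_iff, eq_comm, ← commutatorElement_eq_one_iff_mul_comm,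
                h3, CommCalc.comm_pow_right (mem_center_iff.mp (h1 t ht g) g), ← pow_mul,
                ← pow_succ, ← h3, commutatorElement_eq_one_iff_mul_comm]
              exact (mem_center_iff.mp h6 g).symm
            rw [← h7, mem_centralizer_singleton_iff, eq_comm,
              ← commutatorElement_eq_one_iff_mul_comm,
              CommCalc.comm_pow_right (mem_center_iff.mp (h1 t ht g) g), ← h3,
              commutatorElement_eq_one_iff_mul_comm] at h8
            exact h8.symm
        obtain ⟨j, hj⟩ := hG (t : G ⧸ center G)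
        exact h5 j ((QuotientGroup.eq_one_iff _).mp hj)
      intro g
      rw [← h3, commutatorElement_eq_one_iff_mul_comm]
      exact (mem_center_iff.mp h4 g).symm
    refine ⟨A.subgroupOf P, inferInstance, PGrp.isMulCommutative_iff_forall.mpr fun a ha b hb =>
      Subtype.ext (PGrp.isMulCommutative_iff_forall.mp hA a ha b hb), fun y => ?_⟩
    rw [mem_subgroupOf, ← hCA]
    intro t ht
    rw [← commutatorElement_eq_one_iff_mul_comm, SubgroupClass.coe_pow,
      CommCalc.comm_pow_right (mem_center_iff.mp (h1 t ht y) y), h2 t ht]

end Cfsg.Agent.S4134
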