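import Cfsg.Statements.S4135
import Mathlib
import Cfsg.Agent.Lib.H5TwoClsA
import Cfsg.Agent.Lib.CharFrobenius
import Cfsg.Agent.Lib.H5SylowIn

set_option autoImplicit false
open Cfsg

namespace Cfsg.Agent.S4135
open Subgroup CfsgLib CfsgLib.H5 CfsgLib.H5.TwoCls

/-- Let G be a finite group, r a prime and R a Sylow r-subgroup of G that is not central, N a normal subgroup of G containing R, and m a natural number such that every element of N has a conjugacy class in G of size 1 or m. Then N is nilpotent. -/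
theorem result {G : Type*} [Group G] [Finite G] (r : ℕ) [Fact r.Prime]
    (R : Sylow r G) (hR : ¬ (R : Subgroup G) ≤ Subgroup.center G) (N : Subgroup G) [N.Normal] (hRN : (R : Subgroup G) ≤ N)
    (m : ℕ) (h : ∀ x ∈ N, (Subgroup.centralizer ({x} : Set G)).index = 1 ∨ (Subgroup.centralizer ({x} : Set G)).index = m) : Group.IsNilpotent N := by
  have hr : r.Prime := Fact.out
  have H : OneSize (N : Set G) m :=
    ⟨fun g x hx => Normal.conj_mem inferInstance x hx g, one_mem N,
      fun x hx y hy => zpowers_le.2 hx hy, fun x hx y hy _ => mul_mem hx hy,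
      fun x hx hxZ => (h x hx).resolve_left (mt Frob.index_centralizer_eq_one_iff.1 hxZ)⟩
  by_cases hq : ∃ x ∈ N, x ∉ center G ∧ ∃ q i : ℕ, q.Prime ∧ q ≠ r ∧ orderOf x = q ^ i
  · obtain ⟨x, hx, hxZ, q, i, hq, hqr, hi⟩ := hq
    obtain ⟨y, hy, hyZ⟩ := SetLike.not_le_iff_exists.1 hR
    obtain ⟨j, hj⟩ := IsPGroup.iff_orderOf.1 R.2 ⟨y, hy⟩
    rw [← Subgroup.orderOf_coe] at hj
    obtain ⟨z, hz, ⟨k, hk⟩, hzZ⟩ := H.exists_primePow hx hxZ (hRN hy) hyZ hr hj
    have hzN : z ∈ N := by
      obtain ⟨g, -, hg⟩ := (IsSylowIn.sylow_top R).exists_conj_le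
        (isPGroup_zpowers_iff.2 ⟨k, hk⟩) le_top
      simpa [mul_assoc] using Normal.conj_mem inferInstance _
        (hRN (hg (mem_map_of_mem _ (mem_zpowers z)))) g⁻¹
    have h1 := fun y hy hyx => H.le_of_two hq hr hqr hx hxZ hi hzN hzZ hk hz (y := y) hy hyx
    obtain ⟨s, w, l, hs, hsm, hw, hl, hwx⟩ : ∃ (s : ℕ) (w : G) (l : ℕ), s.Prime ∧ ¬ s ∣ m ∧
        w ∈ N ∧ orderOf w = s ^ l ∧ centralizer ({w} : Set G) = centralizer {x} := by
      rcases H.not_dvd hq hr hqr hx hxZ hi hzN hzZ hk hz with h2 | h2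
      exacts [⟨q, x, i, hq, h2, hx, hi, rfl⟩,
        ⟨r, z, k, hr, h2, hzN, hk, (H.eq_of_le hx hxZ hzN hzZ (h1 z hzN hz)).symm⟩]
    have := Fact.mk hs
    have h2 : (centralizer ({w} : Set G)).subgroupOf N = ⊤ := by
      refine eq_top_of_forall_conj_mem _ fun n => ?_
      by_cases hn : (n : G) ∈ center G
      · exact ⟨1, by simpa [mem_subgroupOf] using center_le_centralizer _ hn⟩
      obtain ⟨P, hP⟩ := H5.exists_sylow_le_of_not_dvd_index (p := s)
        (N := centralizer ({(n : G)} : Set G)) (by rw [H.idx n n.2 hn]; exact hsm)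
      obtain ⟨g, hg, hg1⟩ := (IsSylowIn.sylow_inf_normal P N).exists_conj_le
        (isPGroup_zpowers_iff.2 ⟨l, hl⟩) (zpowers_le.2 hw)
      have h3 : g * w * g⁻¹ * n = n * (g * w * g⁻¹) :=
        mem_centralizer_singleton_iff.1 (hP (hg1 (mem_map_of_mem _ (mem_zpowers w))).1)
      refine ⟨⟨g, hg⟩, mem_centralizer_singleton_iff.2 ?_⟩
      show g⁻¹ * n * g * w = w * (g⁻¹ * n * g)
      calc g⁻¹ * n * g * w = g⁻¹ * (n * (g * w * g⁻¹)) * g := by group
        _ = _ := by rw [← h3]; group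
    rw [subgroupOf_eq_top, hwx] at h2
    have : IsMulCommutative N := PGrp.isMulCommutative_iff_forall.mpr fun a ha b hb =>
      mem_centralizer_singleton_iff.1 (h1 b hb (h2 hb) (h2 ha))
    open scoped IsMulCommutative in infer_instance
  · push Not at hq
    have h1 : IsPGroup r (N.map (QuotientGroup.mk' (center G))) := by
      rintro ⟨_, y, hy, rfl⟩
      obtain ⟨u, -, v, hv, rfl, -, ⟨k, hk⟩, hco⟩ := exists_p_part hr y
      have h2 : v ∈ center G := mem_of_forall_primePow_mem fun t ht q i hq1 hi => by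
        by_contra htZ
        by_cases hqr : q = r
        · subst hqr
          have h3 : orderOf t ∣ orderOf v := orderOf_dvd_of_mem_zpowers ht
          have h4 : orderOf t = 1 := Nat.eq_one_of_dvd_coprimes (hco.pow_right i) h3 hi.dvd
          exact htZ (orderOf_eq_one_iff.1 h4 ▸ one_mem _)
        · exact hq t (zpowers_le.2 (zpowers_le.2 hy hv) ht) htZ q i hq1 hqr hi
      refine ⟨k, Subtype.ext ?_⟩
      show QuotientGroup.mk' (center G) (u * v) ^ r ^ k = 1
      rw [map_mul, show QuotientGroup.mk' (center G) v = 1 from (QuotientGroup.eq_one_iff v).2 h2,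
        mul_one, ← map_pow, ← hk, pow_orderOf_eq_one, map_one]
    have := h1.isNilpotent
    refine Subgroup.isNilpotent_of_ker_le_center ((QuotientGroup.mk' (center G)).subgroupMap N)
      (fun x hx => ?_)
    have h2 : (x : G) ∈ center G := (QuotientGroup.eq_one_iff _).1 (congrArg Subtype.val hx)
    exact mem_center_iff.2 fun g => Subtype.ext (mem_center_iff.1 h2 g)

end Cfsg.Agent.S4135
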