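import Cfsg.Statements.S4138
import Mathlib
import Cfsg.Agent.Lib.H5ClassGraph
import Cfsg.Agent.Lib.CoprimeAction
import Cfsg.Agent.Lib.H5Ito

set_option autoImplicit false
open Cfsg

namespace Cfsg.Agent.S4138
open Subgroup Cfsg CfsgLib
open scoped commutatorElement

variable {G : Type*} [Group G] [Finite G]

theorem index_lt_of_decomp {t l : G} {T C : Subgroup G} (ht : t ∈ T) (ht1 : t ≠ 1)
    (hCT : C ≤ normalizer (T : Set G)) (hd : C ⊓ T = ⊥) (hl : C ⊔ T ≤ centralizer {l}) :
    (centralizer ({t * l} : Set G)).index < C.index := by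
  have h1 := SqClass.ncard_conj_le (C ⊔ T) ((fun s => s * l) '' ((T : Set G) \ {1})) (by
    rintro c hc _ ⟨s, hs, rfl⟩
    refine ⟨c * s * c⁻¹, ⟨conj_mem_of_mem_normalizer (sup_le hCT le_normalizer hc) hs.1,
      fun h => hs.2 (by simpa using h)⟩, ?_⟩
    have := mem_centralizer_singleton_iff.mp (hl hc)
    calc c * s * c⁻¹ * l = c * s * c⁻¹ * (l * c) * c⁻¹ := by group
      _ = _ := by rw [← this]; group)
  rw [Set.ncard_image_of_injective _ (mul_left_injective l), Frob.ncard_diff_one] at h1
  have h2 : C.index = (C ⊔ T).index * Nat.card T := by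
    have h3 := (C ⊔ T).index_mul_card
    rw [card_sup_of_disjoint hCT hd, ← C.index_mul_card, mul_comm (Nat.card C), ← mul_assoc] at h3
    exact (Nat.eq_of_mul_eq_mul_right Nat.card_pos h3).symm
  rw [Frob.index_centralizer_eq_ncard, h2]
  refine (Set.ncard_le_ncard ?_).trans_lt (h1.trans_lt (Nat.mul_lt_mul_of_pos_left
    (Nat.sub_one_lt Nat.card_pos.ne') (Nat.pos_of_ne_zero index_ne_zero_of_finite)))
  intro y hy
  obtain ⟨g, rfl⟩ := isConj_iff.mp hy
  exact ⟨g, t * l, ⟨t, ⟨ht, ht1⟩, rfl⟩, rfl⟩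

theorem class_sizes {m n : ℕ} (hmn : n < m) (hn : 1 < n) (hcop : m.Coprime n)
    (htop : ∀ z : G, (centralizer ({z} : Set G)).index ≤ m)
    (hsecond : ∀ z : G, (centralizer ({z} : Set G)).index < m →
      (centralizer ({z} : Set G)).index ≤ n) {x y : G}
    (hx : (centralizer ({x} : Set G)).index = n) (hy : (centralizer ({y} : Set G)).index = m)
    (g : G) : g ∈ center G ∨ (centralizer ({g} : Set G)).index = n ∨
      (centralizer ({g} : Set G)).index = m := by
  set π := {p | p ∣ n}
  have hnπ : IsPiNum π n := fun p _ h => h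
  have hmπ : IsPiNum πᶜ m := fun p hp h h' =>
    hp.one_lt.ne' (Nat.eq_one_of_dvd_coprimes hcop h h')
  have hle : ∀ z : G, (centralizer ({z} : Set G)).index ≠ m →
      (centralizer ({z} : Set G)).index ≤ n := fun z h => hsecond z ((htop z).lt_of_ne h)
  have hn' : ∀ z : G, n ∣ (centralizer ({z} : Set G)).index →
      (centralizer ({z} : Set G)).index = n := fun z h =>
    le_antisymm (hle z fun h' => hn.ne' (Nat.eq_one_of_dvd_coprimes hcop (h' ▸ h) dvd_rfl))
      (Nat.le_of_dvd (Nat.pos_of_ne_zero index_ne_zero_of_finite) h)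
  have hm' : ∀ z : G, m ∣ (centralizer ({z} : Set G)).index →
      (centralizer ({z} : Set G)).index = m := fun z h =>
    le_antisymm (htop z) (Nat.le_of_dvd (Nat.pos_of_ne_zero index_ne_zero_of_finite) h)
  have h0 : ∀ z : G, (centralizer ({z} : Set G)).index = n → ∀ u ∈ zpowers z,
      IsPiNum π (orderOf u) → u ∈ center G := fun z hz u hu huo =>
    H5.mem_center_of_coprime_max (y := y) (hy ▸ htop) (by rw [hz, hy]; exact hcop.symm) hu
      (hy ▸ huo.coprime_compl hmπ)
  obtain ⟨u, hu, x, -, rfl, -, huo, hxo⟩ := exists_pi_part π x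
  have hu0 := h0 _ hx u hu huo
  rw [H5.centralizer_mul_of_mem_center hu0] at hx
  clear hu hu0 huo u
  have h2 : ∀ w ∈ centralizer ({x} : Set G), IsPiNum π (orderOf w) → w ∈ center G := by
    intro w hw hwo
    have hc : Commute x w := (mem_centralizer_singleton_iff.mp hw).symm
    have hco := (hwo.coprime_compl hxo).symm
    exact h0 _ (hn' _ (hx ▸ H5.index_dvd_index_mul_left hc hco)) w
      (mem_zpowers_mul_of_coprime' hc hco) hwo
  obtain ⟨S, hS, hS1, hS2⟩ := H5.exists_normal_of_coprime_index (a := x) (b := y)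
    (by rw [hx, hy]; exact hcop.symm) (hy ▸ htop _)
  rw [hy] at hS1
  have hSx : S ≤ centralizer {x} :=
    H5.le_of_normal_of_coprime_index (hx ▸ hcop.coprime_dvd_left hS1)
  set L := S ⊔ zpowers x
  have hLn : L.Normal := PGrp.normal_sup_zpowers_of_central_mod S fun a => by
    rw [← commutatorElement_inv]; exact inv_mem (hS2 a)
  have hLπ : IsPiNum πᶜ (Nat.card L) := by
    have h3 : Nat.card L ∣ Nat.card (zpowers x) * Nat.card S := by
      rw [show L = zpowers x ⊔ S from sup_comm _ _]; exact card_sup_dvd_mul le_normalizer_of_normal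
    rw [Nat.card_zpowers] at h3
    exact (hxo.mul (hmπ.of_dvd hS1)).of_dvd h3
  have hLx : L ≤ centralizer {x} :=
    sup_le hSx (zpowers_le.mpr (mem_centralizer_singleton_iff.mpr rfl))
  set A := L ⊓ centralizer (L : Set G)
  have hxA : x ∈ A := ⟨mem_sup_right (mem_zpowers x), fun c hc =>
    mem_centralizer_singleton_iff.mp (hLx hc)⟩
  have hAn : A.Normal := inferInstance
  have hAc : ∀ a ∈ A, ∀ b ∈ A, a * b = b * a := fun a ha b hb => hb.2 a ha.1
  have hAc' : IsMulCommutative A := PGrp.isMulCommutative_iff_forall.mpr hAc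
  have hAπ : IsPiNum πᶜ (Nat.card A) := hLπ.of_dvd (card_dvd_of_le inf_le_left)
  have h3 : ∀ w ∉ center G, ∀ p k : ℕ, p.Prime → p ∈ π → orderOf w = p ^ k →
      (centralizer ({w} : Set G)).index = m := by
    intro w hw p k hp hpπ hk
    have := Fact.mk hp
    have hwo : IsPiNum π (orderOf w) := hk ▸ (isPiNum_prime hp hpπ).pow k
    have hco : (Nat.card (zpowers w)).Coprime (Nat.card A) :=
      Nat.card_zpowers w ▸ hwo.coprime_compl hAπ
    obtain ⟨t, ht, l, hl, htl⟩ := Cop.exists_commutator_mul_centralizer le_normalizer_of_normal hco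
      (Or.inl inferInstance) hxA
    have hT := Cop.commutator_inf_centralizer_eq_bot le_normalizer_of_normal hco hAc'
    have hTA : ⁅A, zpowers w⁆ ≤ A := commutator_le_left _ _
    have hc : Commute l w := (hl.2 w (mem_zpowers w)).symm
    have hco' : (orderOf l).Coprime (orderOf w) :=
      (hwo.coprime_compl (hAπ.of_dvd (orderOf_dvd_natCard A hl.1))).symm
    have ht1 : t ≠ 1 := fun h => hw (h2 w (by
      rw [← htl, h, one_mul]; exact mem_centralizer_singleton_iff.mpr hc.symm) hwo)
    have hC := Frob.centralizer_mul_of_coprime hc hco'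
    have hCw : centralizer ({l * w} : Set G) ≤ centralizer (zpowers w) := fun c hc v hv =>
      (mem_centralizer_singleton_iff.mp
        (Frob.centralizer_le_centralizer_of_mem_zpowers hv (hC.le hc).2)).symm
    have hCT : centralizer ({l * w} : Set G) ≤ normalizer ((⁅A, zpowers w⁆ : Subgroup G) : Set G) :=
      Cop.le_normalizer_commutator le_normalizer_of_normal (hCw.trans (centralizer_le_normalizer _))
    have h4 := index_lt_of_decomp ht ht1 hCT
      (eq_bot_iff.mpr fun c hc => hT.le ⟨hc.2, hCw hc.1⟩) (sup_le (hC.le.trans inf_le_left)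
        fun c hc => mem_centralizer_singleton_iff.mpr (hAc c (hTA hc) l hl.1))
    rw [htl, hx] at h4
    have h5 : (centralizer ({l * w} : Set G)).index = m := by_contra fun h => (hle _ h).not_gt h4
    have h6 : ∀ g : G, ⁅g, x⁆ ∈ ⁅A, zpowers w⁆ := fun g => by
      obtain ⟨c, hc, d, hd, rfl⟩ := ClassCount.exists_mul_of_coprime_index
        (K := centralizer {l * w}) (H := centralizer {x}) (by rwa [h5, hx]) g
      have e1 := mem_centralizer_singleton_iff.mp hd
      have e2 := mem_centralizer_singleton_iff.mp (hC.le hc).1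
      have : ⁅c * d, x⁆ = c * t * c⁻¹ * t⁻¹ := by
        calc _ = c * (d * x) * d⁻¹ * c⁻¹ * x⁻¹ := by rw [commutatorElement_def]; group
          _ = c * (t * l) * c⁻¹ * (t * l)⁻¹ := by rw [e1, htl]; group
          _ = c * t * c⁻¹ * (c * l) * c⁻¹ * l⁻¹ * t⁻¹ := by group
          _ = _ := by rw [e2]; group
      rw [this]
      exact mul_mem (conj_mem_of_mem_normalizer (hCT hc) ht) (inv_mem ht)
    have h7 : ∀ g : G, ⁅g, x⁆ ∈ ⁅A, zpowers w⁆.normalCore := fun g b => by
      rw [show b * ⁅g, x⁆ * b⁻¹ = ⁅b * g, x⁆ * ⁅b, x⁆⁻¹ by rw [CommCalc.comm_mul_left]; group]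
      exact mul_mem (h6 _) (inv_mem (h6 _))
    have h8 : t ∈ ⁅A, zpowers w⁆.normalCore := by
      obtain ⟨a, ha, c, hc, e⟩ := Cop.exists_mul_centralizer_of_commutator_mem
        (A := zpowers w) (N := ⁅A, zpowers w⁆.normalCore) le_normalizer_of_normal
        (hco.coprime_dvd_right (card_dvd_of_le ((normalCore_le _).trans hTA)))
        (Or.inl inferInstance) (g := t) fun v hv => by
          rw [eq_mul_inv_of_mul_eq htl, CommCalc.comm_mul_left,
            commutatorElement_eq_one_iff_mul_comm.mpr (inv_mem (mem_inf.mp hl).2 v hv).symm, mul_one,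
            mul_inv_cancel, one_mul, ← commutatorElement_inv]
          exact inv_mem (h7 v)
      have : c = 1 := hT.le ⟨(mul_mem_cancel_left (normalCore_le _ ha)).mp (e ▸ ht), hc⟩
      rwa [← e, this, mul_one]
    have h9 : p ∣ (centralizer ({t} : Set G)).index := by
      by_contra h
      obtain ⟨g, hg⟩ := Chr.exists_conj_mem_of_not_dvd_index h ⟨k, hk⟩
      have e := mem_centralizer_singleton_iff.mp hg
      have : g⁻¹ * t * g⁻¹⁻¹ = 1 := hT.le ⟨h8 g⁻¹, by
        rw [zpowers_eq_closure, centralizer_closure]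
        refine mem_centralizer_singleton_iff.mpr ?_
        calc _ = g⁻¹ * (t * (g * w * g⁻¹)) * g := by group
          _ = _ := by rw [← e]; group⟩
      exact ht1 (conj_eq_one_iff.mp this)
    obtain ⟨S', hS', hS1', hS2'⟩ := H5.exists_normal_of_coprime_index (a := l⁻¹) (b := x)
      (hx ▸ hcop.coprime_dvd_left (h5 ▸ index_dvd_of_le ((hC.le.trans inf_le_left).trans
        (Frob.centralizer_le_centralizer_of_mem_zpowers (inv_mem (mem_zpowers l))))))
      (by
        rw [← htl, hAc t (hTA ht) l hl.1, inv_mul_cancel_left, ← hAc t (hTA ht) l hl.1, htl, hx]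
        exact hle _ fun h => hmπ p hp (h ▸ h9) hpπ)
    have h10 : l⁻¹ ∈ center G := mem_center_iff.mpr fun g =>
      commutatorElement_eq_one_iff_mul_comm.mp (orderOf_eq_one_iff.mp (IsPiNum.eq_one
        (hnπ.of_dvd ((orderOf_dvd_natCard S' (hS2' g)).trans (hx ▸ hS1')))
        (hAπ.of_dvd (orderOf_dvd_natCard A (commutator_le_right ⊤ A
          (commutator_mem_commutator (mem_top g) (inv_mem hl.1)))))))
    rwa [H5.centralizer_mul_of_mem_center (inv_mem_iff.mp h10)] at h5
  have h4 : ∀ k w : G, Commute k w → IsPiNum πᶜ (orderOf k) → w ∉ center G → ∀ p j : ℕ, p.Prime →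
      p ∈ π → orderOf w = p ^ j → centralizer ({w} : Set G) ≤ centralizer {k} := by
    intro k w hc hko hw p j hp hpπ hj
    have hco : (orderOf k).Coprime (orderOf w) :=
      (IsPiNum.coprime_compl (hj ▸ (isPiNum_prime hp hpπ).pow j) hko).symm
    have h5 := h3 w hw p j hp hpπ hj
    have hC := Frob.centralizer_mul_of_coprime hc hco
    rw [← H5.centralizer_eq_of_le_of_index (hC.le.trans inf_le_right)
      (h5.trans (hm' _ (h5 ▸ H5.index_dvd_index_mul_right hc hco)).symm) index_ne_zero_of_finite]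
    exact hC.le.trans inf_le_left
  have h5 : ∀ k ∈ centralizer ({x} : Set G), IsPiNum πᶜ (orderOf k) →
      (centralizer ({k} : Set G)).index ≠ m := by
    intro k hk hko h
    obtain ⟨p, hp, hpn⟩ := Nat.exists_prime_and_dvd hn.ne'
    have := Fact.mk hp
    obtain ⟨Q, hQ⟩ := Chr.exists_sylow_le_of_not_dvd_index (H := centralizer {k})
      fun h' => hmπ p hp (h ▸ h') hpn
    refine Q.not_dvd_index ((hx ▸ hpn : p ∣ (centralizer ({x} : Set G)).index).trans
      (index_dvd_of_le fun w hw => center_le_centralizer _ (by_contra fun hw1 => ?_)))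
    obtain ⟨j, hj⟩ := orderOf_eq_pow_of_mem_isPGroup Q.isPGroup' hw
    have h6 := H5.centralizer_eq_of_le_of_index (h4 k w
      (mem_centralizer_singleton_iff.mp (hQ hw)).symm hko hw1 p j hp hpn hj)
      (h.trans (h3 w hw1 p j hp hpn hj).symm) index_ne_zero_of_finite
    exact hw1 (h2 w (mem_centralizer_singleton_iff.mpr (mem_centralizer_singleton_iff.mp
      (h6.ge (mem_centralizer_singleton_iff.mpr
        (mem_centralizer_singleton_iff.mp hk).symm))).symm) (hj ▸ (isPiNum_prime hp hpn).pow j))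
  have h6 : ∀ k w : G, Commute k w → IsPiNum πᶜ (orderOf k) → w ∉ center G → ∀ p j : ℕ, p.Prime →
      p ∈ π → orderOf w = p ^ j → k ∈ center G := by
    intro k w hc hko hw p j hp hpπ hj
    refine mem_of_forall_primePow_mem fun h hh q i hq hi => ?_
    have hho : IsPiNum πᶜ (orderOf h) := hko.of_dvd (orderOf_dvd_of_mem_zpowers hh)
    by_cases hi0 : i = 0
    · rw [orderOf_eq_one_iff.mp (hi.trans (by rw [hi0, pow_zero]))]; exact one_mem _
    have h7 : (centralizer ({h} : Set G)).index.Coprime (centralizer ({x} : Set G)).index :=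
      hx ▸ hcop.coprime_dvd_left (h3 w hw p j hp hpπ hj ▸ index_dvd_of_le
        ((h4 k w hc hko hw p j hp hpπ hj).trans
          (Frob.centralizer_le_centralizer_of_mem_zpowers hh)))
    have h8 : Commute h x := H5.commute_of_coprime_index hq hi
      (fun hd => hho q hq (hi ▸ dvd_pow_self q hi0) (show q ∣ n from hx ▸ hd)) le_rfl h7
    obtain ⟨S', hS', hS1', hS2'⟩ := H5.exists_normal_of_coprime_index h7 (hx ▸ hle _ (h5 _
      (mul_mem (mem_centralizer_singleton_iff.mpr h8) (mem_centralizer_singleton_iff.mpr rfl))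
      ((hho.mul hxo).of_dvd h8.orderOf_mul_dvd_mul_orderOf)))
    exact H5.mem_center_of_commutator_mem hS2' (H5.le_of_normal_of_coprime_index
      (h7.symm.coprime_dvd_left hS1')) ((hnπ.of_dvd (hx ▸ hS1')).coprime_compl hho).symm
  obtain ⟨u, hu, v, -, rfl, huv, huo, hvo⟩ := exists_pi_part π g
  by_cases hu0 : u ∈ center G
  · rw [H5.centralizer_mul_of_mem_center hu0, mul_mem_cancel_left hu0]
    refine or_iff_not_imp_left.mpr fun hv => Or.inl (hn' _ ?_)
    have h7 : IsPiNum πᶜ ((center G).relIndex (centralizer {v})) := fun p hp hd hpπ => by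
      obtain ⟨w, hw, ⟨j, hj⟩, hw1⟩ := H5.exists_primePow_notMem_of_dvd_relIndex hp hd
      exact hv (h6 v w (mem_centralizer_singleton_iff.mp hw).symm hvo hw1 p j hp hpπ hj)
    refine (hnπ.coprime_compl h7).dvd_of_dvd_mul_left ?_
    rw [relIndex_mul_index (center_le_centralizer _), ← hx]
    exact index_dvd_of_le (center_le_centralizer _)
  · refine Or.inr (Or.inr (hm' _ (by_contra fun h => hu0 (mem_of_forall_primePow_mem
      fun w hw p j hp hj => by_contra fun hw1 => h ?_))))
    have hj0 : j ≠ 0 := by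
      rintro rfl
      exact hw1 (orderOf_eq_one_iff.mp (hj.trans (pow_zero _)) ▸ one_mem _)
    rw [← h3 w hw1 p j hp (huo p hp ((hj ▸ dvd_pow_self p hj0 : p ∣ orderOf w).trans
      (orderOf_dvd_of_mem_zpowers hw))) hj]
    exact index_dvd_of_le (Frob.centralizer_le_centralizer_of_mem_zpowers (zpowers_le.mpr hu hw))


/-- Let G be a finite group whose two largest conjugacy class sizes m > n > 1 are coprime, and let x, y ∈ G have classes of sizes n and m respectively. Then C_G(x) and C_G(y) are abelian, and G/Z(G) is a Frobenius group with kernel C_G(x)/Z(G) and complement C_G(y)/Z(G). -/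
theorem result {G : Type*} [Group G] [Finite G] (m n : ℕ) (hmn : n < m) (hn : 1 < n)
    (hcop : m.Coprime n) (htop : ∀ z : G, (Subgroup.centralizer ({z} : Set G)).index ≤ m) (hsecond : ∀ z : G, (Subgroup.centralizer ({z} : Set G)).index < m → (Subgroup.centralizer ({z} : Set G)).index ≤ n)
    (x y : G) (hx : (Subgroup.centralizer ({x} : Set G)).index = n) (hy : (Subgroup.centralizer ({y} : Set G)).index = m) :
    IsMulCommutative (Subgroup.centralizer ({x} : Set G)) ∧ IsMulCommutative (Subgroup.centralizer ({y} : Set G)) ∧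
    Cfsg.IsFrobeniusComplement ((Subgroup.centralizer ({y} : Set G)).map (QuotientGroup.mk' (Subgroup.center G))) ∧
    Cfsg.frobeniusKernel ((Subgroup.centralizer ({y} : Set G)).map (QuotientGroup.mk' (Subgroup.center G))) =
      ((Subgroup.centralizer ({x} : Set G)).map (QuotientGroup.mk' (Subgroup.center G)) : Set (G ⧸ Subgroup.center G)) := by
  have hs := class_sizes hmn hn hcop htop hsecond hx hy
  have hnπ : IsPiNum {p | p ∣ n} n := fun p _ h => h
  have hmπ : IsPiNum {p | p ∣ n}ᶜ m := fun p hp h h' =>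
    hp.one_lt.ne' (Nat.eq_one_of_dvd_coprimes hcop h h')
  obtain ⟨hK, h1, h2, h3, h4⟩ := H5.quasiFrobenius_of_class_sizes (π := {p | p ∣ n}) (x := x)
    (y := y) (fun g => by
      rcases hs g with h | h | h
      · rw [Frob.index_centralizer_eq_one_iff.mpr h]; exact Or.inl (isPiNum_one _)
      · exact Or.inl (h ▸ hnπ)
      · exact Or.inr (h ▸ hmπ)) (hy ▸ htop) (hy ▸ hmπ) (hx ▸ hnπ)
    fun h => hn.ne' (hx ▸ Frob.index_centralizer_eq_one_iff.mpr h)
  have hyK : y ∉ centralizer ({x} : Set G) := fun h => hmn.not_ge (Nat.le_of_dvd (by omega) (by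
    rw [← hx, ← hy]
    exact index_dvd_of_le fun c hc => mem_centralizer_singleton_iff.mpr
      (PGrp.isMulCommutative_iff_forall.mp h1 c hc y h)))
  have hZ : ∀ (z a : G), QuotientGroup.mk' (center G) a ∈
      (centralizer ({z} : Set G)).map (QuotientGroup.mk' (center G)) →
      a ∈ centralizer ({z} : Set G) := fun z a h => by
    rwa [← mem_comap, comap_map_eq, QuotientGroup.ker_mk',
      sup_eq_left.mpr (center_le_centralizer _)] at h
  have h5 := h2.isFrobeniusPair (H := (centralizer {y}).map (QuotientGroup.mk' (center G)))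
    (isComplement'_of_disjoint_and_mul_eq_univ (disjoint_def.mpr fun {a} ha hb => by
      obtain ⟨a, rfl⟩ := QuotientGroup.mk'_surjective _ a
      exact (QuotientGroup.eq_one_iff a).mpr ((h4 y hyK).2 ⟨hZ _ a hb, hZ _ a ha⟩))
      (Set.eq_univ_of_forall fun a => by
        obtain ⟨a, rfl⟩ := QuotientGroup.mk'_surjective _ a
        obtain ⟨c, hc, d, hd, rfl⟩ := ClassCount.exists_mul_of_coprime_index
          (K := centralizer {x}) (H := centralizer {y}) (by rw [hx, hy]; exact hcop.symm) a
        exact ⟨_, mem_map_of_mem _ hc, _, mem_map_of_mem _ hd, (map_mul _ c d).symm⟩))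
  refine ⟨h1, PGrp.isMulCommutative_iff_forall.mpr fun a ha b hb => ?_, h5.isFrobeniusComplement,
    h5.frobeniusKernel_eq⟩
  by_cases ha0 : a ∈ center G
  · exact (mem_center_iff.mp ha0 b).symm
  have h6 : centralizer ({a} : Set G) ≤ centralizer {y} := fun c hc =>
    hZ _ _ (h5.isFrobeniusComplement.mem_of_commute (mem_map_of_mem _ ha)
      (mt (QuotientGroup.eq_one_iff a).mp ha0)
      (by rw [← map_mul, ← map_mul, mem_centralizer_singleton_iff.mp hc]))
  have h7 : (centralizer ({a} : Set G)).index = m :=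
    ((hs a).resolve_left ha0).resolve_left fun h => hn.ne' (hnπ.eq_one
      (h ▸ (h4 a fun h' => ha0 ((h4 y hyK).2 ⟨ha, h'⟩)).1))
  exact (mem_centralizer_singleton_iff.mp ((H5.centralizer_eq_of_le_of_index h6
    (hy.trans h7.symm) index_ne_zero_of_finite).ge hb)).symm

end Cfsg.Agent.S4138
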