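import Cfsg.Statements.S4139
import Mathlib
import Cfsg.Agent.Lib.QBaer
import Cfsg.Agent.Lib.PComplement
import Cfsg.Agent.Lib.ClassSize

set_option autoImplicit false
open Cfsg

namespace Cfsg.Agent.S4139
open Subgroup Cfsg CfsgLib
open scoped commutatorElement

theorem key {G : Type*} [Group G] [Finite G] (p : ℕ) [hp : Fact p.Prime] :
    ∃ m, ¬ p ∣ m ∧ {x : G | ∃ a, (centralizer ({x} : Set G)).index = p ^ a}.ncard =
      Nat.card (centralizer (pResidual p G : Set G)) * m := by
  have := PRes.pResidual_normal (G := G) (p := p)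
  set N := pResidual p G with hN
  set Z := centralizer (N : Set G) with hZ
  set S := {x : G | ∃ a, (centralizer ({x} : Set G)).index = p ^ a} with hS
  have hrel : ∀ x ∈ S, ∃ a, (centralizer ({x} : Set G)).relIndex N = p ^ a := by
    rintro x ⟨a, ha⟩
    obtain ⟨b, -, hb⟩ := (Nat.dvd_prime_pow hp.out).mp (ha ▸ Frob.relIndex_normal_dvd_index
      (centralizer ({x} : Set G)) N)
    exact ⟨b, hb⟩
  have hmul : ∀ x ∈ S, ∀ z ∈ Z, x * z ∈ S := by
    intro x hx z hz
    obtain ⟨a, ha⟩ := hrel x hx
    obtain ⟨b, hb⟩ := PRes.exists_index_pResidual_eq_pow (G := G) (p := p)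
    have : centralizer ({x} : Set G) ⊓ N ≤ centralizer ({x * z} : Set G) := fun g hg =>
      mem_centralizer_singleton_iff.mpr (Commute.mul_right (mem_centralizer_singleton_iff.mp hg.1)
        (hz g hg.2)).eq
    obtain ⟨c, -, hc⟩ := (Nat.dvd_prime_pow hp.out (m := a + b)).mp ((index_dvd_of_le this).trans (by
      rw [← relIndex_mul_index inf_le_right, inf_relIndex_right, ha, hb, pow_add]))
    exact ⟨c, hc⟩
  set T : Set (G ⧸ Z) := QuotientGroup.mk '' S with hT
  have h1 : S = QuotientGroup.mk ⁻¹' T := by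
    refine (Set.subset_preimage_image _ _).antisymm ?_
    rintro y ⟨x, hx, hxy⟩
    simpa using hmul x hx _ (QuotientGroup.eq.mp hxy)
  have h1T : (1 : G ⧸ Z) ∈ T := ⟨1, ⟨0, by simp⟩, rfl⟩
  refine ⟨T.ncard, fun hd => ?_, by rw [h1]; exact QuotientGroup.card_preimage_mk Z T⟩
  let φ : N →* ConjAct (G ⧸ Z) :=
    ConjAct.toConjAct.toMonoidHom.comp ((QuotientGroup.mk' Z).comp N.subtype)
  letI := MulAction.compHom (G ⧸ Z) φ
  have hsm : ∀ (n : N) (x : G), n • (x : G ⧸ Z) = ((n * x * (n : G)⁻¹ : G) : G ⧸ Z) :=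
    fun n x => rfl
  have h2 : p ∣ (T \ {1}).ncard := by
    refine Frob.dvd_ncard_of_dvd_index_stabilizer (A := N) _ ?_ ?_
    · rintro n _ ⟨⟨x, ⟨a, ha⟩, rfl⟩, hx1⟩
      refine ⟨⟨_, ⟨a, by rw [Frob.index_centralizer_conj, ha]⟩, (hsm n x).symm⟩, fun h => hx1 ?_⟩
      rw [Set.mem_singleton_iff, hsm, QuotientGroup.eq_one_iff] at h
      exact (QuotientGroup.eq_one_iff x).mpr (by simpa [mul_assoc] using
        (Normal.conj_mem inferInstance _ h (n : G)⁻¹))
    · rintro _ ⟨⟨x, hx, rfl⟩, hx1⟩
      obtain ⟨a, ha⟩ := hrel x hx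
      have hle : (centralizer ({x} : Set G)).subgroupOf N ≤
          MulAction.stabilizer N (x : G ⧸ Z) := fun n hn => by
        rw [MulAction.mem_stabilizer_iff, hsm, show (n : G) * x = x * n from
          mem_centralizer_singleton_iff.mp hn, mul_inv_cancel_right]
      obtain ⟨c, -, hc⟩ := (Nat.dvd_prime_pow hp.out).mp ((index_dvd_of_le hle).trans ha.dvd)
      rcases c with _ | c
      swap
      · exact hc ▸ dvd_pow_self p (by omega)
      refine absurd ((QuotientGroup.eq_one_iff x).mpr ?_) hx1
      have h3 : ∀ n : N, x⁻¹ * (n * x * (n : G)⁻¹) ∈ Z := fun n => QuotientGroup.eq.mp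
        ((hsm n x).symm.trans (MulAction.mem_stabilizer_iff.mp
          (index_eq_one.mp hc ▸ mem_top n))).symm
      have h4 : ((centralizer ({x} : Set G)).subgroupOf N).Normal := ⟨fun c hc g => by
        have h5 := mem_centralizer_singleton_iff.mp hc
        have h6 := h3 g⁻¹ c c.2
        refine mem_centralizer_singleton_iff.mpr ?_
        simp only [coe_mul, coe_inv, inv_inv, coe_subtype] at h5 h6 ⊢
        calc _ = g * (c * x) * (x⁻¹ * ((g : G)⁻¹ * x * g)) * (g : G)⁻¹ := by group
          _ = g * x * (c * (x⁻¹ * ((g : G)⁻¹ * x * g))) * (g : G)⁻¹ := by rw [h5]; group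
          _ = _ := by rw [h6]; group
      ⟩
      have h5 := PRes.pResidual_le_of_index_eq_pow (N := (centralizer ({x} : Set G)).subgroupOf N) ha
      rw [PRes.pResidual_pResidual] at h5
      exact fun n hn => mem_centralizer_singleton_iff.mp (h5 (mem_top ⟨n, hn⟩))
  rw [← Set.ncard_diff_singleton_add_one h1T] at hd
  exact hp.out.one_lt.ne' (Nat.dvd_one.mp ((Nat.dvd_add_right h2).mp hd))

/-- Let G and H be finite groups such that for every natural number k, G and H have the same number of conjugacy classes of size k. If H is nilpotent then G is nilpotent. -/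
theorem result {G H : Type*} [Group G] [Finite G] [Group H] [Finite H]
    (hH : Group.IsNilpotent H)
    (h : ∀ k : ℕ, Nat.card {C : ConjClasses G // Nat.card C.carrier = k} = Nat.card {C : ConjClasses H // Nat.card C.carrier = k}) :
    Group.IsNilpotent G := by
  let e : ConjClasses G ≃ ConjClasses H := Equiv.ofFiberEquiv
    (f := fun C : ConjClasses G => Nat.card C.carrier)
    (g := fun C : ConjClasses H => Nat.card C.carrier) fun k => (Finite.card_eq.mp (h k)).some
  have he : ∀ C, Nat.card (e C).carrier = Nat.card C.carrier := fun C =>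
    Equiv.ofFiberEquiv_map (f := fun C : ConjClasses G => Nat.card C.carrier)
      (g := fun C : ConjClasses H => Nat.card C.carrier) _ C
  let f : G ≃ H := Equiv.ofFiberEquiv (f := fun x : G => e (ConjClasses.mk x))
    (g := ConjClasses.mk) fun D => (Finite.card_eq.mp (by
      obtain ⟨C, rfl⟩ := e.surjective D
      simp only [EmbeddingLike.apply_eq_iff_eq, ← ConjClasses.mem_carrier_iff_mk_eq]
      exact (he C).symm)).some
  have hf : ∀ x, (centralizer ({f x} : Set H)).index = (centralizer ({x} : Set G)).index := by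
    intro x
    have : ConjClasses.mk (f x) = e (ConjClasses.mk x) := Equiv.ofFiberEquiv_map _ x
    rw [Frob.index_centralizer_eq_card_carrier, Frob.index_centralizer_eq_card_carrier, this, he]
  refine ((Group.isNilpotent_of_finite_tfae (G := G)).out 3 0 rfl rfl).mp
    (show ∀ (p : ℕ) (_ : Fact p.Prime) (P : Sylow p G), (P : Subgroup G).Normal from ?_)
  intro p hp P
  obtain ⟨m, hm, h1⟩ := key (G := G) p
  obtain ⟨n, hn, h2⟩ := key (G := H) p
  have h3 : {x : G | ∃ a, (centralizer ({x} : Set G)).index = p ^ a}.ncard =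
      {x : H | ∃ a, (centralizer ({x} : Set H)).index = p ^ a}.ncard :=
    Nat.card_congr (f.subtypeEquiv fun x => by simp only [Set.mem_setOf_eq, hf])
  obtain ⟨Q⟩ : Nonempty (Sylow p H) := inferInstance
  have h4 : (Q : Subgroup H) ≤ centralizer (pResidual p H : Set H) := by
    rw [le_centralizer_iff]
    exact PRes.pResidual_le_iff.mpr fun g hg x hx => by
      obtain ⟨k, hk⟩ := orderOf_eq_pow_of_mem_isPGroup Q.isPGroup' hx
      exact (commute_of_coprime_of_isNilpotent (hk ▸ hg.symm.pow_left k)).eq
  have h5 : ¬ p ∣ (centralizer (pResidual p G : Set G)).index := by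
    intro hd
    have h6 := (centralizer (pResidual p G : Set G)).card_mul_index
    have h7 := (centralizer (pResidual p H : Set H)).card_mul_index
    have h8 : (centralizer (pResidual p G : Set G)).index * n =
        (centralizer (pResidual p H : Set H)).index * m := by
      refine Nat.eq_of_mul_eq_mul_left (Nat.mul_pos (Nat.card_pos (α := centralizer
        (pResidual p G : Set G))) (Nat.card_pos (α := centralizer (pResidual p H : Set H)))) ?_
      rw [mul_mul_mul_comm, h6, ← h2, ← h3, h1, Nat.card_congr f, ← h7]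
      ring
    exact hp.out.not_dvd_mul (fun h => Q.not_dvd_index (h.trans (index_dvd_of_le h4))) hm
      (h8 ▸ hd.mul_right n)
  obtain ⟨R, hR⟩ := Chr.exists_sylow_le_of_not_dvd_index h5
  have hRn : (R : Subgroup G).Normal := normal_of_le_normalizer_top (by
    rw [← PRes.pResidual_sup_sylow R]
    exact sup_le ((le_centralizer_iff.mp hR).trans (centralizer_le_normalizer _)) le_normalizer)
  have := Sylow.unique_of_normal R hRn
  rwa [Subsingleton.elim P R]

end Cfsg.Agent.S4139
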