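import Cfsg.Statements.S4140
import Mathlib
import Cfsg.Agent.Lib.CoreTate
import Cfsg.Agent.Lib.ClassSize2
import Cfsg.Agent.Lib.ClassCount
import Cfsg.Agent.Lib.SubgroupCount
import Cfsg.Agent.Lib.FrobFPFStruct
import Cfsg.Agent.Lib.CommCalc
import Cfsg.Agent.Lib.CoreFitting
import Cfsg.Agent.Lib.FT.Wielandt
import Cfsg.Agent.Lib.H5Kegel
import Cfsg.Agent.Lib.CoprimeSylow

set_option autoImplicit false
open Cfsg

namespace Cfsg.Agent.S4140
open Subgroup Cfsg CfsgLib
open scoped commutatorElement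

section
variable {G : Type*} [Group G] [Finite G] {N : Subgroup G} [N.Normal]
  (hcam : ∀ g : G, g ∉ N → ∀ n ∈ N, ∃ x : G, x * g * x⁻¹ = g * n)
include hcam

omit [Finite G] [N.Normal] in
theorem orderOf_dvd_of_comm {g n : G} (hg : g ∉ N) (hn : n ∈ N) (hc : g * n = n * g) :
    orderOf n ∣ orderOf g := by
  obtain ⟨x, hx⟩ := hcam g hg n hn
  have := congrArg (· ^ orderOf g) hx
  simp only [conj_pow, pow_orderOf_eq_one, mul_one, mul_inv_cancel, Commute.mul_pow hc,
    one_mul] at this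
  exact orderOf_dvd_of_pow_eq_one this.symm

omit [Finite G] [N.Normal] in
theorem fpf {g : G} (hg : g ∉ N) {K : Subgroup G} (hK : K ≤ N)
    (h : (orderOf g).Coprime (Nat.card K)) : ∀ k ∈ K, g * k = k * g → k = 1 := fun k hk hc =>
  orderOf_eq_one_iff.mp (Nat.eq_one_of_dvd_coprimes h
    (orderOf_dvd_of_comm hcam hg (hK hk) hc) (orderOf_dvd_natCard K hk))

theorem exists_top {p : ℕ} [hp : Fact p.Prime] (P : Sylow p G) (h : p ∣ N.index) :
    ∃ g ∈ (P : Subgroup G), g ∉ N ∧ g ^ p ∈ N ∧ (∀ y ∈ (P : Subgroup G), ⁅y, g⁆ ∈ N) ∧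
      ∀ a ∈ (P : Subgroup G) ⊓ N, ∃ y ∈ (P : Subgroup G), ⁅y, g⁆ = a := by
  obtain ⟨g, -, hg1, hg2, hg3⟩ := PGrp.exists_central_mod_pow_mem P.isPGroup' (N.subgroupOf P) ⊤
    fun h1 => P.not_dvd_index (h.trans (index_dvd_of_le (subgroupOf_eq_top.mp (top_le_iff.mp h1))))
  have h1 : ∀ y ∈ (P : Subgroup G), ⁅y, (g : G)⁆ ∈ N := fun y hy => by
    rw [← commutatorElement_inv]; exact inv_mem (hg3 ⟨y, hy⟩)
  refine ⟨g, g.2, hg1, hg2, h1, fun a ha => ?_⟩
  have h2 : Nat.card N ∣ (centralizer ({(g : G)} : Set G)).index := by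
    rw [Frob.index_centralizer_eq_ncard]
    refine (card_dvd_of_le (H4.le_stabilizer_set_iff.mpr fun k hk x hx => ?_)).trans
      (H4.card_stabilizer_dvd_ncard _)
    obtain ⟨c, rfl⟩ := isConj_iff.mp hx
    obtain ⟨d, hd⟩ := hcam g hg1 _ (‹N.Normal›.conj_mem' k hk (c * g))
    refine isConj_iff.mpr ⟨c * d, ?_⟩
    calc _ = c * (d * g * d⁻¹) * c⁻¹ := by group
      _ = _ := by rw [hd]; group
  have h3 : Nat.card (centralizer ({(g : G)} : Set G) ⊓ P : Subgroup G) *
      Nat.card ((P : Subgroup G) ⊓ N : Subgroup G) ∣ Nat.card (P : Subgroup G) := by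
    obtain ⟨i, hi⟩ := (P.isPGroup'.to_inf_right (H := centralizer {(g : G)})).exists_card_eq
    obtain ⟨j, hj⟩ := (P.isPGroup'.to_inf_left (K := N)).exists_card_eq
    have := Nat.mul_dvd_mul (card_dvd_of_le (inf_le_left : centralizer {(g : G)} ⊓ P ≤ _))
      ((card_dvd_of_le (inf_le_right : (P : Subgroup G) ⊓ N ≤ _)).trans h2)
    rw [card_mul_index, hi, hj, ← pow_add] at this
    rw [hi, hj, ← pow_add]
    exact P.pow_dvd_card_of_pow_dvd_card this
  rw [← ClassCount.card_mul_relIndex_inf (centralizer {(g : G)}) P,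
    Nat.mul_dvd_mul_iff_left Nat.card_pos, ← Frob.ncard_conj_subgroup] at h3
  have h4 : {y : G | ∃ x ∈ (P : Subgroup G), x * g * x⁻¹ = y} =
      (fun s => s * (g : G)) '' ((P : Subgroup G) ⊓ N : Subgroup G) :=
    Set.eq_of_subset_of_ncard_le (by
      rintro _ ⟨y, hy, rfl⟩
      exact ⟨⁅y, (g : G)⁆, mem_inf.mpr ⟨mul_mem (mul_mem (mul_mem hy g.2) (inv_mem hy))
        (inv_mem g.2), h1 y hy⟩, by simp [commutatorElement_def]⟩) (by
      rw [Set.ncard_image_of_injective _ (mul_left_injective _)]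
      exact Nat.le_of_dvd ((Set.ncard_pos).mpr ⟨_, 1, one_mem _, rfl⟩) h3)
  obtain ⟨y, hy, e⟩ := h4.ge ⟨a, ha, rfl⟩
  exact ⟨y, hy, by rw [commutatorElement_def, e, mul_inv_cancel_right]⟩

theorem exists_compl {p : ℕ} [hp : Fact p.Prime] (h : p ∣ N.index) :
    ∃ K : Subgroup G, K.Normal ∧ K ≤ N ∧ (Nat.card K).Coprime p ∧ ∃ k, K.relIndex N = p ^ k := by
  obtain ⟨P⟩ : Nonempty (Sylow p G) := inferInstance
  obtain ⟨g, hg, -, -, -, h1⟩ := exists_top hcam P h
  have h2 := hnpc_of_inf_le_frattini P (M := N) le_normalizer_of_normal fun a ha => by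
    obtain ⟨y, hy, rfl⟩ := h1 a ⟨ha.2, ha.1⟩
    exact ⟨⁅⟨y, hy⟩, ⟨g, hg⟩⁆, PGrp.commutator_le_frattini P.isPGroup'
      (commutator_mem_commutator (mem_top _) (mem_top _)), rfl⟩
  have := PRes.pResidual_characteristic (p := p) (G := N)
  refine ⟨(pResidual p N).map N.subtype, inferInstance, map_subtype_le _, ?_, ?_⟩
  · rw [card_subtype]; exact PCompl.hnpc_iff_coprime_pResidual.mp h2
  · rw [relIndex, subgroupOf, comap_map_eq_self_of_injective N.subtype_injective]
    exact PRes.exists_index_pResidual_eq_pow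

theorem inf_eq_bot_of_centralizes {p : ℕ} [hp : Fact p.Prime] (P : Sylow p G) (h : p ∣ N.index)
    {K : Subgroup G} (hK : K ≠ ⊥) (hKN : K ≤ N) (hc : (Nat.card K).Coprime p)
    (hP : (P : Subgroup G) ≤ normalizer (K : Set G))
    (hA : (P : Subgroup G) ⊓ N ≤ centralizer (K : Set G)) : (P : Subgroup G) ⊓ N = ⊥ := by
  obtain ⟨g, hg, hg1, hg2, hg3, hg4⟩ := exists_top hcam P h
  have := (nontrivial_iff_ne_bot K).mpr hK
  set φ := Frob.conjOn hP
  have h1 : ∀ y : (P : Subgroup G), (y : G) ∉ N → ∀ k : K, φ y k = k → k = 1 := fun y hy k hk => by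
    obtain ⟨i, hi⟩ := orderOf_eq_pow_of_mem_isPGroup P.isPGroup' y.2
    exact Subtype.ext (fpf hcam hy hKN (hi ▸ hc.symm.pow_left i) k k.2
      (mul_inv_eq_iff_eq_mul.mp (congrArg Subtype.val hk)))
  have h2 : ∀ y : (P : Subgroup G), φ y = 1 ↔ (y : G) ∈ N := fun y =>
    ⟨fun h => by_contra fun hy => by
      obtain ⟨k, hk⟩ := exists_ne (1 : K)
      exact hk (h1 y hy k (by rw [h]; rfl)), fun hy => MulEquiv.ext fun k => Subtype.ext
        (mul_inv_eq_iff_eq_mul.mpr (hA ⟨y.2, hy⟩ k k.2).symm)⟩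
  have h3 : Frob.HasFPF φ.range := Frob.IsFPF.hasFPF (φ := φ.range.subtype) (by
    rintro ⟨_, y, rfl⟩ hy k hk
    exact h1 y (fun h => hy (Subtype.ext ((h2 y).mpr h))) k hk)
  have := P.isPGroup'.isNilpotent
  refine eq_bot_of_le_commutator_of_isNilpotent this inf_le_left fun a ha => ?_
  obtain ⟨y, hy, rfl⟩ := hg4 a ha
  by_cases hyN : y ∈ N
  · exact commutator_mem_commutator ⟨hy, hyN⟩ hg
  obtain ⟨i, hi1, hi2⟩ := PGrp.exists_pow_not_mem_pow_prime_mem P.isPGroup' (N.subgroupOf P)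
    (x := ⟨y, hy⟩) hyN
  obtain ⟨j, hj⟩ := h3.mem_zpowers_of_commute hp.out (x := φ.rangeRestrict ⟨g, hg⟩)
    (y := φ.rangeRestrict (⟨y, hy⟩ ^ p ^ i))
    (by rw [← map_pow]; exact Subtype.ext ((h2 _).mpr hg2))
    (by rw [← map_pow]; exact Subtype.ext ((h2 _).mpr hi2))
    (fun h => hi1 ((h2 ((⟨y, hy⟩ : (P : Subgroup G)) ^ p ^ i)).mp (congrArg Subtype.val h :))) (by
      rw [← commutatorElement_eq_one_iff_commute, ← commutatorElement_inv, inv_eq_one,
        ← map_commutatorElement]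
      exact Subtype.ext ((h2 _).mpr (hg3 _ (pow_mem hy _))))
  simp only at hj
  rw [← map_zpow, ← inv_mul_eq_one, ← map_inv, ← map_mul] at hj
  have h4 : ((y ^ p ^ i) ^ j)⁻¹ * g ∈ N := (h2 _).mp (congrArg Subtype.val hj)
  rw [← mul_inv_cancel_left ((y ^ p ^ i) ^ j) g, CommCalc.comm_mul_right,
    (((Commute.refl y).pow_right _).zpow_right j).commutator_eq, one_mul]
  have h5 : (y ^ p ^ i) ^ j ∈ (P : Subgroup G) := zpow_mem (pow_mem hy _) _
  refine conj_mem_of_mem_normalizer (normalizer_commutator_ge_right _ _ h5) ?_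
  rw [Subgroup.commutator_comm]
  exact commutator_mem_commutator hy (mem_inf.mpr ⟨mul_mem (inv_mem h5) hg, h4⟩)

end


/-- Let G be a finite group and N a proper non-trivial normal subgroup such that for every g outside N the conjugacy class of g is a union of cosets of N (equivalently gn is conjugate to g for every n ∈ N). Then either every element of G outside N acts fixed-point-freely on N (C_G(x) ≤ N for all x ∈ N, x ≠ 1, so G is a Frobenius group with kernel N), or N has prime-power order, or G/N has prime-power order. -/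
theorem result {G : Type*} [Group G] [Finite G] (N : Subgroup G) [N.Normal] (hN1 : N ≠ ⊥) (hN2 : N ≠ ⊤)
    (hcam : ∀ g : G, g ∉ N → ∀ n ∈ N, ∃ x : G, x * g * x⁻¹ = g * n) :
    (∀ x ∈ N, x ≠ 1 → Subgroup.centralizer ({x} : Set G) ≤ N) ∨ IsPrimePow (Nat.card N) ∨ IsPrimePow N.index := by
  by_contra! h0
  obtain ⟨⟨x, hx, hx1, hxN⟩, h1, h2⟩ := h0
  obtain ⟨g, hg, p, k, hp, hk, hgN⟩ : ∃ g ∈ centralizer ({x} : Set G), ∃ p k : ℕ, p.Prime ∧
      orderOf g = p ^ k ∧ g ∉ N := by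
    by_contra! h
    exact hxN (le_of_forall_primePow_mem h)
  have := Fact.mk hp
  have hpN : p ∣ Nat.card N := by
    have h3 := hk ▸ orderOf_dvd_of_comm hcam hgN hx (mem_centralizer_singleton_iff.mp hg)
    obtain ⟨i, -, hi⟩ := (Nat.dvd_prime_pow hp).mp h3
    refine (hi ▸ dvd_pow_self p ?_ : p ∣ orderOf x).trans (orderOf_dvd_natCard N hx)
    rintro rfl
    exact hx1 (orderOf_eq_one_iff.mp hi)
  have hpi : p ∣ N.index := by_contra fun h => hgN (mem_of_coprime_index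
    (hk ▸ (hp.coprime_iff_not_dvd.mpr h).pow_left k))
  obtain ⟨q, hq, hqi, hqp⟩ : ∃ q : ℕ, q.Prime ∧ q ∣ N.index ∧ q ≠ p := by
    by_contra! h
    exact h2 (isPrimePow_iff_unique_prime_dvd.mpr ⟨p, ⟨hp, hpi⟩, fun q hq => h q hq.1 hq.2⟩)
  obtain ⟨K, hKn, hKN, hK, i, hi⟩ := exists_compl hcam hpi
  have hK1 : K ≠ ⊥ := by
    rintro rfl
    rw [relIndex_bot_left] at hi
    refine h1 (hi ▸ hp.isPrimePow.pow ?_)
    rintro rfl
    exact hN1 (card_eq_one.mp hi)
  have h3 : ∀ P : Sylow p G, (P : Subgroup G) ⊓ N ≠ ⊥ := fun P =>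
    (IsSylowIn.sylow_inf_normal P N).ne_bot hpN
  by_cases h4 : (Nat.card K).Coprime N.index
  · have h5 : (Nat.card K).Coprime K.index := by
      rw [← relIndex_mul_index hKN, hi]; exact (hK.pow_right i).mul_right h4
    obtain ⟨X, hX⟩ := exists_right_complement'_of_coprime h5
    have h6 : Nat.card X = K.index := hX.symm.index_eq_card.symm
    have := Fact.mk hq
    obtain ⟨⟨h, hh⟩, hho⟩ := exists_prime_orderOf_dvd_card' q
      (h6 ▸ hqi.trans (index_dvd_of_le hKN) : q ∣ Nat.card X)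
    rw [orderOf_mk] at hho
    have hh1 : h ≠ 1 := by rintro rfl; exact hq.one_lt.ne (orderOf_one.symm.trans hho)
    have h7 : ∀ y ∈ zpowers h, y ≠ 1 → y ∉ N := fun y hy hy1 hyN =>
      hy1 (disjoint_def.mp hX.disjoint (Cop.le_of_coprime_relIndex (zpowers_le.mpr hyN)
        le_normalizer_of_normal (by
          rw [hi, Nat.card_zpowers]
          exact (((Nat.coprime_primes hq hp).mpr hqp).coprime_dvd_left
            (hho ▸ orderOf_dvd_of_mem_zpowers hy)).pow_right i) (mem_zpowers y))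
        (zpowers_le.mpr hh hy))
    have h8 : Nat.card (X ⊓ N : Subgroup G) ∣ p ^ i := by
      have h9 := card_dvd_of_le (sup_le inf_le_right hKN : X ⊓ N ⊔ K ≤ N)
      rwa [card_sup_of_disjoint le_normalizer_of_normal (eq_bot_iff.mpr fun y hy =>
        disjoint_def.mp hX.disjoint (mem_inf.mp hy).2 (mem_inf.mp (mem_inf.mp hy).1).1), ← card_mul_relIndex hKN, hi, mul_comm,
        Nat.mul_dvd_mul_iff_left Nat.card_pos] at h9
    have h9 : ∀ L : Subgroup G, L ≤ X → (Nat.card L).Coprime (Nat.card K) := fun L hL =>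
      (h6 ▸ h5.symm).coprime_dvd_left (card_dvd_of_le hL)
    have h10 := fpf hcam (h7 h (mem_zpowers h) hh1) hKN
      (Nat.card_zpowers h ▸ h9 _ (zpowers_le.mpr hh))
    have := H5.isNilpotent_of_fpf hq (le_normalizer_of_normal (mem_top h))
      (hho ▸ pow_orderOf_eq_one h) h10
    have h11 := FT.Frobenius_Wielandt_cent (K := X ⊓ N) (R := zpowers h) (M := K)
      (zpowers_le.mpr (inf_normalizer_le_normalizer_inf
        ⟨le_normalizer hh, le_normalizer_of_normal (mem_top h)⟩))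
      (fun y hy hy1 => FT.semiregular_of_fpf (fpf hcam (h7 y hy hy1) inf_le_right
        (((((Nat.coprime_primes hq hp).mpr hqp).pow_right i).coprime_dvd_right h8).coprime_dvd_left
          (hho ▸ orderOf_dvd_of_mem_zpowers hy))))
      le_normalizer_of_normal le_normalizer_of_normal inferInstance (h9 _ inf_le_left)
      (h9 _ (zpowers_le.mpr hh)) (mt zpowers_eq_bot.mp hh1)
      (eq_bot_iff.mpr fun y hy => h10 y hy.1 (hy.2 h (mem_zpowers h)))
    obtain ⟨j, -, hj⟩ := (Nat.dvd_prime_pow hp).mp h8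
    obtain ⟨P, hP⟩ := (IsPGroup.of_card hj).exists_le_sylow
    refine h3 P (inf_eq_bot_of_centralizes hcam P hpi hK1 hKN hK le_normalizer_of_normal
      fun b hb => h11 ?_)
    obtain ⟨⟨⟨c, hc⟩, ⟨a, ha⟩⟩, rfl⟩ := hX.2 b
    have ha' : a ∈ X ⊓ N := mem_inf.mpr ⟨ha, (mul_mem_cancel_left (hKN hc)).mp (mem_inf.mp hb).2⟩
    obtain ⟨l, hl⟩ := orderOf_eq_pow_of_mem_isPGroup P.isPGroup'
      ((mul_mem_cancel_right (hP ha')).mp (mem_inf.mp hb).1)
    have : c = 1 := orderOf_eq_one_iff.mp (Nat.eq_one_of_dvd_coprimes (hK.pow_right l)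
      (orderOf_dvd_natCard K hc) hl.dvd)
    simpa [this] using ha'
  · obtain ⟨r, hr, hr1, hr2⟩ := Nat.Prime.not_coprime_iff_dvd.mp h4
    have := Fact.mk hr
    obtain ⟨L, hLn, hLN, hL, j, hj⟩ := exists_compl hcam hr2
    obtain ⟨P⟩ : Nonempty (Sylow p G) := inferInstance
    obtain ⟨l, hl⟩ := P.isPGroup'.exists_card_eq
    obtain ⟨R, hR, hPR⟩ := Cop.exists_invariant_sylowOf r (A := P) (G := K) le_normalizer_of_normal
      (hl ▸ hK.symm.pow_left l) (Or.inl (Cop.solvable_of_isPGroup P.isPGroup'))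
    have hR' : IsSylowIn r R K := Cop.isPiHallOf_singleton_iff.mp hR
    refine h3 P (inf_eq_bot_of_centralizes hcam P hpi (hR'.ne_bot hr1) (hR'.le.trans hKN)
      (hK.coprime_dvd_left (card_dvd_of_le hR'.le)) hPR ?_)
    obtain ⟨s, hs⟩ := hR'.isPGroup.exists_card_eq
    have h5 : (P : Subgroup G) ⊓ N ≤ L := Cop.le_of_coprime_relIndex inf_le_right
      le_normalizer_of_normal (by
        rw [hj]
        exact (((hK.coprime_dvd_left hr1).symm.pow_left l).coprime_dvd_left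
          (hl ▸ card_dvd_of_le inf_le_left)).pow_right j)
    rw [← Cop.commutator_eq_bot_iff_le_centralizer', eq_bot_iff,
      ← inf_eq_bot_of_coprime (H := R) (K := L) (hs ▸ hL.symm.pow_left s)]
    exact le_inf (Cop.commutator_le_left_of_le_normalizer (inf_le_left.trans hPR))
      ((commutator_mono le_top h5).trans (commutator_le_right _ _))

end Cfsg.Agent.S4140
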