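import Cfsg.Statements.S4143
import Mathlib
import Cfsg.Agent.Lib.PGroupMisc

set_option autoImplicit false
open Cfsg

namespace Cfsg.Agent.S4143

open CfsgLib.PGrp
open scoped commutatorElement

/-- Let X be a finite p-group of order p^n containing a non-abelian subgroup B of order p³ with C_X(B) ≤ B. Then X has nilpotency class n − 1 (maximal class). -/
theorem result {X : Type*} [Group X] [Finite X] {p : ℕ} [Fact p.Prime] (n : ℕ) (hX : Nat.card X = p ^ n)
    (B : Subgroup X) (hB : Nat.card B = p ^ 3) (hBna : ¬ IsMulCommutative B) (hC : Subgroup.centralizer (B : Set X) ≤ B) :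
    Group.nilpotencyClass X = n - 1 := by
  have hp : p.Prime := Fact.out
  have hP : IsPGroup p X := IsPGroup.of_card hX
  have := hP.isNilpotent
  rw [isMulCommutative_iff_forall] at hBna
  push Not at hBna
  obtain ⟨a, ha, b, hb, hab⟩ := hBna
  have hchain : ∀ Y : Subgroup X, Y ≤ Subgroup.centralizer (B : Set X) →
      p * (p * Nat.card Y) ≤ Nat.card ↥(Y ⊔ Subgroup.zpowers a ⊔ Subgroup.zpowers b) := by
    intro Y hY
    have h1 : Y < Y ⊔ Subgroup.zpowers a := lt_of_le_of_ne le_sup_left fun h =>
      hab (hY (h ▸ Subgroup.mem_sup_right (Subgroup.mem_zpowers a)) b hb).symm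
    have h2 : Y ⊔ Subgroup.zpowers a ≤ Subgroup.centralizer {a} :=
      sup_le (hY.trans (Subgroup.centralizer_le (by simpa using ha)))
        (Subgroup.zpowers_le.2 (Subgroup.mem_centralizer_singleton_iff.2 rfl))
    have h3 : Y ⊔ Subgroup.zpowers a < Y ⊔ Subgroup.zpowers a ⊔ Subgroup.zpowers b :=
      lt_of_le_of_ne le_sup_left fun h => hab (Subgroup.mem_centralizer_singleton_iff.1
        (h2 (h ▸ Subgroup.mem_sup_right (Subgroup.mem_zpowers b)))).symm
    exact (Nat.mul_le_mul_left _ (mul_card_le_card_of_lt (hP.to_subgroup _) h1)).trans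
      (mul_card_le_card_of_lt (hP.to_subgroup _) h3)
  have hleB : ∀ Y : Subgroup X, Y ≤ Subgroup.centralizer (B : Set X) →
      Y ⊔ Subgroup.zpowers a ⊔ Subgroup.zpowers b ≤ B := fun Y hY =>
    sup_le (sup_le (hY.trans hC) (Subgroup.zpowers_le.2 ha)) (Subgroup.zpowers_le.2 hb)
  have hcardle : ∀ Y : Subgroup X, Y ≤ Subgroup.centralizer (B : Set X) → Nat.card Y ≤ p := by
    intro Y hY
    have := (hchain Y hY).trans (Subgroup.card_le_of_le (hleB Y hY))
    rw [hB, show p ^ 3 = p * (p * p) by ring] at this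
    exact Nat.le_of_mul_le_mul_left (Nat.le_of_mul_le_mul_left this hp.pos) hp.pos
  have hn : 3 ≤ n := by
    rw [← Nat.pow_le_pow_iff_right hp.one_lt, ← hX, ← hB]
    exact Subgroup.card_le_card_group B
  have hnt : Nontrivial X := hP.nontrivial_iff_card.2 ⟨n, by omega, hX⟩
  obtain ⟨k, hk0, hk⟩ := IsPGroup.card_center_eq_prime_pow hX (by omega)
  have hZ : Nat.card (Subgroup.center X) = p := by
    apply le_antisymm (hcardle _ (Subgroup.center_le_centralizer _))
    rw [hk]
    exact Nat.le_self_pow hk0.ne' p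
  have hZB : Subgroup.center X ≤ B := (Subgroup.center_le_centralizer _).trans hC
  have hBeq : Subgroup.center X ⊔ Subgroup.zpowers a ⊔ Subgroup.zpowers b = B :=
    Subgroup.eq_of_le_of_card_ge (hleB _ (Subgroup.center_le_centralizer _)) (by
      have := hchain _ (Subgroup.center_le_centralizer (B : Set X))
      rwa [hZ, show p * (p * p) = p ^ 3 by ring, ← hB] at this)
  set π := QuotientGroup.mk' (Subgroup.center X) with hπ
  have hcomap : ∀ K : Subgroup (X ⧸ Subgroup.center X),
      Nat.card (K.comap π) = p * Nat.card K := fun K => by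
    rw [← hZ]
    exact QuotientGroup.card_preimage_mk (Subgroup.center X) (K : Set (X ⧸ Subgroup.center X))
  have hBm : (B.map π).comap π = B := by
    rw [Subgroup.comap_map_eq, hπ, QuotientGroup.ker_mk', sup_eq_left.2 hZB]
  have hB2 : Nat.card (B.map π) = p ^ 2 := by
    have := hcomap (B.map π)
    rw [hBm, hB, pow_succ'] at this
    exact (Nat.eq_of_mul_eq_mul_left hp.pos this).symm
  set D := (Subgroup.centralizer (B.map π : Set (X ⧸ Subgroup.center X))).comap π with hD
  have hrel : ∀ c ∈ B, (Subgroup.centralizer {c}).relIndex D ≤ p := by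
    intro c hc
    rw [← hZ]
    apply relIndex_centralizer_le_card
    intro g hg
    rw [← QuotientGroup.eq_one_iff, ← QuotientGroup.mk'_apply, map_commutatorElement,
      commutatorElement_eq_one_iff_mul_comm]
    exact hg _ ⟨c, hc, rfl⟩
  have hDc : Nat.card D ≤ p ^ 3 := by
    have h1 : (Subgroup.centralizer {a} ⊓ Subgroup.centralizer {b}).relIndex D ≤ p * p :=
      Subgroup.relIndex_inf_le.trans (Nat.mul_le_mul (hrel a ha) (hrel b hb))
    have h2 : Nat.card ↥(Subgroup.centralizer {a} ⊓ Subgroup.centralizer {b} : Subgroup X) ≤ p := by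
      apply hcardle
      rw [← hBeq, Subgroup.le_centralizer_iff]
      refine sup_le (sup_le (Subgroup.center_le_centralizer _) ?_) ?_
      · exact Subgroup.zpowers_le.2 fun g hg => Subgroup.mem_centralizer_singleton_iff.1 hg.1
      · exact Subgroup.zpowers_le.2 fun g hg => Subgroup.mem_centralizer_singleton_iff.1 hg.2
    have h3 := ((Subgroup.centralizer {a} ⊓ Subgroup.centralizer {b}).subgroupOf D).index_mul_card
    have h4 : Nat.card ((Subgroup.centralizer {a} ⊓ Subgroup.centralizer {b}).subgroupOf D) ≤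
        Nat.card ↥(Subgroup.centralizer {a} ⊓ Subgroup.centralizer {b} : Subgroup X) :=
      Nat.card_le_card_of_injective (fun x => ⟨x.1.1, x.2⟩) fun x y h =>
        Subtype.ext (Subtype.ext (Subtype.mk.inj h))
    rw [← h3, show p ^ 3 = p * p * p by ring]
    exact Nat.mul_le_mul h1 (h4.trans h2)
  have hCB : Subgroup.centralizer (B.map π : Set (X ⧸ Subgroup.center X)) ≤ B.map π := by
    have hc : IsMulCommutative (B.map π) := IsPGroup.isMulCommutative_of_card_eq_prime_sq hB2
    refine (Subgroup.eq_of_le_of_card_ge (Subgroup.le_centralizer _) ?_).ge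
    rw [hD, hcomap, pow_succ', ← hB2] at hDc
    exact Nat.le_of_mul_le_mul_left hDc hp.pos
  obtain ⟨c, -, hc⟩ := exists_card_centralizer_eq_sq (hP.to_quotient _) hB2 hCB
  obtain ⟨m, rfl⟩ : ∃ m, n = m + 1 := ⟨n - 1, by omega⟩
  have hq : Nat.card (X ⧸ Subgroup.center X) = p ^ m := by
    have := (Subgroup.center X).card_eq_card_quotient_mul_card_subgroup
    rw [hX, hZ, pow_succ] at this
    exact (Nat.eq_of_mul_eq_mul_right hp.pos this).symm
  rw [Group.nilpotencyClass_eq_quotient_center_plus_one,
    nilpotencyClass_eq_of_card_centralizer hq (a := c) (by rw [hc, hB2])]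
  omega

end Cfsg.Agent.S4143
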