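import Cfsg.Statements.S4144
import Mathlib
import Cfsg.Agent.Lib.H5MaxClass

set_option autoImplicit false
open Cfsg

namespace Cfsg.Agent.S4144
open Subgroup Cfsg CfsgLib CfsgLib.H5
open scoped commutatorElement

/-- Let X be a finite p-group of order p^n, n ≥ 2, of nilpotency class n − 1 (maximal class), and H any subgroup of X. Then the index in H of the subgroup generated by the p-th powers of elements of H is at most p^p. -/
theorem result {X : Type*} [Group X] [Finite X] {p : ℕ} [Fact p.Prime] (n : ℕ) (hn : 2 ≤ n) (hX : Nat.card X = p ^ n)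
    (hmax : Group.nilpotencyClass X = n - 1) (H : Subgroup X) :
    (Subgroup.closure {y : X | ∃ h ∈ H, y = h ^ p}).relIndex H ≤ p ^ p := by
  have hpp := (Fact.out : p.Prime)
  have h2 := hpp.two_le
  set P := Subgroup.closure {y : X | ∃ h ∈ H, y = h ^ p} with hPdef
  have hPH : P ≤ H := (closure_le _).2 (by rintro _ ⟨h, hh, rfl⟩; exact pow_mem hh p)
  have hpow : ∀ g ∈ H, g ^ p ∈ P := fun g hg => subset_closure ⟨g, hg, rfl⟩
  suffices h : Nat.card H ≤ p ^ p * Nat.card P by
    rw [← card_mul_relIndex hPH, mul_comm] at h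
    exact Nat.le_of_mul_le_mul_right h Nat.card_pos
  by_cases h1 : n ≤ p
  · exact ((card_le_card_group H).trans (hX ▸ Nat.pow_le_pow_right hpp.pos h1)).trans
      (Nat.le_mul_of_pos_right _ Nat.card_pos)
  have hM : MaxCl p n X := ⟨hX, by omega,
    (PGrp.nilpotencyClass_eq_iff_lowerCentralSeries_ne_bot hX hn).1 hmax⟩
  have hP := hM.isPGroup
  by_cases h3 : n = p + 1
  · by_cases hH : H = ⊤
    · obtain ⟨g, hg⟩ := hM.exists_pow_ne_one h3.ge
      have h4 := PGrp.mul_card_le_card_of_lt (hP.to_subgroup P) (bot_lt_iff_ne_bot.2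
        fun h => hg (mem_bot.1 (h ▸ hpow g (hH ▸ mem_top g))))
      rw [card_bot, mul_one] at h4
      rw [hH, card_top, hX, h3, pow_succ]
      exact Nat.mul_le_mul_left _ h4
    · have h4 := PGrp.mul_card_le_card_of_lt (hP.to_subgroup ⊤) (lt_top_iff_ne_top.2 hH)
      rw [card_top, hX, h3, pow_succ'] at h4
      exact (Nat.le_of_mul_le_mul_left h4 hpp.pos).trans (Nat.le_mul_of_pos_right _ Nat.card_pos)
  · have h4 := hM.card_le_pow_mul (by omega) (K := twoStep X (p - 1) ⊓ H) (P := P) inf_le_left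
      fun g hg => hpow g hg.2
    refine (card_le_index_mul_card_inf H (twoStep X (p - 1))).trans ?_
    refine (Nat.mul_le_mul (hM.index_twoStep_le (by omega)) h4).trans_eq ?_
    rw [← mul_assoc, ← pow_succ', Nat.sub_add_cancel hpp.one_le]

end Cfsg.Agent.S4144
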