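import Cfsg.Statements.S4145
import Mathlib
import Cfsg.Agent.Lib.FrobZGroup
import Cfsg.Agent.Lib.PComplementMore
import Cfsg.Agent.Lib.H5SylowIn
import Cfsg.Agent.Lib.CoprimePGroup

set_option autoImplicit false
open Cfsg

namespace Cfsg.Agent.S4145
open Subgroup Cfsg CfsgLib
open scoped commutatorElement

theorem cyc {G : Type*} [Group G] [Finite G] {p : ℕ} [Fact p.Prime] {P : Subgroup G}
    (hP : IsPGroup p P) [hc : IsCyclic P] {a w : G} (ha : a ∈ normalizer (P : Set G))
    (hao : (orderOf a).Coprime p) (hw : w ∈ P) (hw1 : w ≠ 1) (h : w * a = a * w) :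
    a ∈ centralizer (P : Set G) := by
  have := Cop.commutator_eq_bot_of_centralizes_omega_abelian hP hc.isMulCommutative
    (zpowers_le.mpr ha) (by rwa [Nat.card_zpowers]) fun x hx hxp => by
      obtain ⟨k, hk⟩ := orderOf_eq_pow_of_mem_isPGroup hP hw
      have hx' : x ∈ zpowers w := Frob.mem_zpowers_of_isCyclic hw hx (by
        rcases k with _ | k
        · exact absurd (orderOf_eq_one_iff.mp hk) hw1
        · rw [hk, pow_succ', pow_mul, hxp, one_pow])
      obtain ⟨n, rfl⟩ := hx'
      rintro _ ⟨m, rfl⟩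
      exact ((Commute.symm h).zpow_zpow m n).eq
  exact Cop.commutator_eq_bot_iff_le_centralizer'.mp this (mem_zpowers a)

/-- Let G be a finite group with a cyclic Sylow p-subgroup and H a normal subgroup such that p divides both the order of H and the index of H. Then H has a normal p-complement and G is p-solvable. -/
theorem result {G : Type*} [Group G] [Finite G] (p : ℕ) [Fact p.Prime]
    (P : Sylow p G) (hP : IsCyclic (P : Subgroup G)) (H : Subgroup G) [H.Normal] (h1 : p ∣ Nat.card H) (h2 : p ∣ H.index) :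
    Cfsg.HasNormalPComplement p H ∧ Cfsg.IsPSolvable p G := by
  have := hP
  have hab : IsMulCommutative (P : Subgroup G) := hP.isMulCommutative
  have hab' : ∀ {Q : Subgroup G}, Q ≤ P → (P : Subgroup G) ≤ centralizer (Q : Set G) :=
    fun hQ x hx => mem_centralizer_iff.mpr fun y hy =>
      PGrp.isMulCommutative_iff_forall.mp hab y (hQ hy) x hx
  have hQ := IsSylowIn.sylow_inf_normal P H
  set Q := (P : Subgroup G) ⊓ H with hQdef
  have hQc : IsCyclic Q := Frob.isCyclic_of_le (inf_le_left : Q ≤ P)
  have hPH : ¬ (P : Subgroup G) ≤ H := fun h => P.not_dvd_index (h2.trans (index_dvd_of_le h))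
  have key : ∀ x ∈ normalizer ((P : Subgroup G) : Set G), x ∈ H →
      x ∈ centralizer ((P : Subgroup G) : Set G) := by
    intro x hx hxH
    obtain ⟨u, hu, v, hv, rfl, -, huo, hvo⟩ := exists_p_part (Fact.out : p.Prime) x
    have hu' := zpowers_le.mpr hx hu
    have hv' := zpowers_le.mpr hx hv
    refine mul_mem (hab' le_rfl ?_) ?_
    · have := (IsSylowIn.sylow_top P).eq_of_le (T := (P : Subgroup G) ⊔ zpowers u)
        (IsPGroup.to_sup_of_normal_left' P.isPGroup' (isPGroup_zpowers_iff.mpr huo)
          (zpowers_le.mpr hu')) le_sup_left le_top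
      exact this ▸ mem_sup_right (mem_zpowers u)
    · by_cases h0 : (P : Subgroup G) ⊓ centralizer ((zpowers v : Subgroup G) : Set G) = ⊥
      · have := Cop.commutator_sup_centralizer (zpowers_le.mpr hv')
          (Cop.coprime_card_of_isPGroup (by rwa [Nat.card_zpowers]) P.isPGroup')
          (Or.inl inferInstance)
        rw [h0, sup_bot_eq] at this
        exact absurd (this ▸ (commutator_mono le_rfl (zpowers_le.mpr (zpowers_le.mpr hxH hv))).trans
          (commutator_le_right _ _)) hPH
      · obtain ⟨⟨w, hw1, hw2⟩, hw⟩ := ne_bot_iff_exists_ne_one.mp h0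
        exact cyc P.isPGroup' hv' hvo hw1 (fun h => hw (Subtype.ext h))
          (hw2 v (mem_zpowers v)).symm
  have hH : HasNormalPComplement p H := by
    obtain ⟨S, hS⟩ := hQ.exists_sylow_map
    refine PCompl.hnpc_of_normalizer_le_centralizer S fun g hg => ?_
    have hgQ : (g : G) ∈ normalizer (Q : Set G) := by
      rw [← hS]
      exact le_normalizer_map H.subtype (mem_map_of_mem _ hg)
    have hPK : IsSylowIn p (P : Subgroup G) (centralizer (Q : Set G) ⊓ (H ⊔ P)) :=
      IsSylowIn.of_sylow P (le_inf (hab' inf_le_left) le_sup_right)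
    obtain ⟨k, ⟨hk1, hk2⟩, hkg⟩ := hPK.frattini_elem (g := g) (inf_normalizer_le_normalizer_inf
      ⟨Cop.normalizer_le_normalizer_centralizer Q hgQ, le_normalizer (mem_sup_left g.2)⟩)
    obtain ⟨h, hh, u, hu, he⟩ := (mem_sup_iff_of_le_normalizer'
      (le_normalizer_of_normal (H := H))).mp (mul_mem hk2 (mem_sup_left g.2))
    have h3 : h ∈ normalizer ((P : Subgroup G) : Set G) :=
      (mul_mem_cancel_right (le_normalizer hu)).mp (he ▸ hkg)
    have h4 : k * g ∈ centralizer (Q : Set G) :=
      he ▸ mul_mem (centralizer_le (SetLike.coe_subset_coe.mpr inf_le_left) (key h h3 hh))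
        (hab' inf_le_left hu)
    have h5 := (mul_mem_cancel_left (H := centralizer (Q : Set G)) hk1).mp h4
    exact fun y hy => Subtype.ext (h5 y (hS ▸ mem_map_of_mem _ hy))
  refine ⟨hH, isPSolvable_of_normal_of_quotient H (H5.isPSolvable_of_hnpc hH) ?_⟩
  have hC : HasNormalPComplement p (centralizer (Q : Set G)) := by
    obtain ⟨S, hS⟩ := (IsSylowIn.of_sylow P (hab' (inf_le_left : Q ≤ P))).exists_sylow_map
    have hmem : ∀ y ∈ (S : Subgroup (centralizer (Q : Set G))), (y : G) ∈ (P : Subgroup G) :=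
      fun y hy => hS.le (mem_map_of_mem _ hy)
    refine PCompl.hnpc_of_comm_of_pAutomizer S (PGrp.isMulCommutative_iff_forall.mpr
      fun a ha b hb => Subtype.ext (hab' le_rfl (hmem b hb) a (hmem a ha))) fun g hg hgo => ?_
    have hgP : (g : G) ∈ normalizer ((P : Subgroup G) : Set G) := by
      rw [← hS]
      exact le_normalizer_map (Subgroup.subtype _) (mem_map_of_mem _ hg)
    obtain ⟨⟨w, hw1⟩, hw⟩ := ne_bot_iff_exists_ne_one.mp (hQ.ne_bot h1)
    have := cyc P.isPGroup' hgP (by rwa [orderOf_coe]) hw1.1 (fun h => hw (Subtype.ext h))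
      (g.2 w hw1)
    exact fun y hy => Subtype.ext (this y (hmem y hy))
  have hN : IsPSolvable p (normalizer (Q : Set G)) := by
    refine isPSolvable_of_normal_of_quotient
      ((centralizer (Q : Set G)).subgroupOf (normalizer (Q : Set G)))
      (H5.isPSolvable_of_hnpc ((PCompl.hnpc_subgroupOf_iff (centralizer_le_normalizer _)).mpr hC))
      (isPSolvable_of_isSolvable (isSolvable_of_comm fun a b => ?_))
    obtain ⟨a, rfl⟩ := QuotientGroup.mk_surjective a
    obtain ⟨b, rfl⟩ := QuotientGroup.mk_surjective b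
    rw [← commutatorElement_eq_one_iff_mul_comm, ← QuotientGroup.mk'_apply,
      ← QuotientGroup.mk'_apply, ← map_commutatorElement, QuotientGroup.mk'_apply,
      QuotientGroup.eq_one_iff]
    exact Frob.commutator_mem_centralizer_of_isCyclic a.2 b.2
  refine isPSolvable_of_surjective hN ((QuotientGroup.mk' H).comp (Subgroup.subtype _)) fun x => ?_
  obtain ⟨x, rfl⟩ := QuotientGroup.mk_surjective x
  obtain ⟨k, hk, hkx⟩ := hQ.frattini_elem (g := x) (le_normalizer_of_normal (K := ⊤) (mem_top x))
  refine ⟨⟨k * x, hkx⟩, ?_⟩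
  simp [(QuotientGroup.eq_one_iff k).mpr hk]

end Cfsg.Agent.S4145
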