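import Cfsg.Statements.S4149
import Cfsg.Agent.Lib.SylowIn
import Cfsg.Agent.Lib.PComplement

set_option autoImplicit false
open Cfsg

namespace Cfsg.Agent.S4149

open CfsgLib CfsgLib.PCompl Subgroup

theorem half {G : Type*} [Group G] [Fintype G] [DecidableEq G] {p : ℕ} [hp : Fact p.Prime]
    (h : ¬ HasNormalPComplement p G) :
    Fintype.card G ≤
      2 * (Finset.univ.filter fun x : G => p ∣ (centralizer ({x} : Set G)).index).card := by
  classical
  obtain ⟨P⟩ : Nonempty (Sylow p G) := inferInstance
  haveI := Fintype.ofFinite (Sylow p G)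
  have h1 : ∀ Q : Sylow p G, 2 * Nat.card (centralizer ((Q : Subgroup G) : Set G)) ≤
      Nat.card (normalizer ((Q : Subgroup G) : Set G)) := by
    intro Q
    have hle : centralizer ((Q : Subgroup G) : Set G) ≤ normalizer ((Q : Subgroup G) : Set G) :=
      centralizer_le_normalizer _
    rw [← card_mul_relIndex hle, mul_comm]
    apply Nat.mul_le_mul_left
    have h0 : (centralizer ((Q : Subgroup G) : Set G)).relIndex
        (normalizer ((Q : Subgroup G) : Set G)) ≠ 0 := index_ne_zero_of_finite
    have h1 : (centralizer ((Q : Subgroup G) : Set G)).relIndex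
        (normalizer ((Q : Subgroup G) : Set G)) ≠ 1 := fun h1 =>
      h (hnpc_of_normalizer_le_centralizer Q (relIndex_eq_one.mp h1))
    omega
  have h2 : ∀ Q : Sylow p G, Fintype.card (Sylow p G) *
      Nat.card (normalizer ((Q : Subgroup G) : Set G)) = Fintype.card G := by
    intro Q
    rw [← Nat.card_eq_fintype_card, ← Nat.card_eq_fintype_card, Q.card_eq_index_normalizer]
    exact index_mul_card _
  have h3 : (Finset.univ.filter fun x : G => ¬ p ∣ (centralizer ({x} : Set G)).index) ⊆
      Finset.univ.biUnion fun Q : Sylow p G =>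
        Finset.univ.filter fun x => x ∈ centralizer ((Q : Subgroup G) : Set G) := by
    intro x hx
    simp only [Finset.mem_filter, Finset.mem_univ, true_and, Finset.mem_biUnion] at hx ⊢
    obtain ⟨S, hS⟩ := IsSylowIn.exists_in (p := p) (centralizer ({x} : Set G))
    have : IsSylowIn p S ⊤ := ⟨le_top, hS.isPGroup, by
      rw [← relIndex_mul_relIndex S _ ⊤ hS.le le_top, relIndex_top_right]
      exact fun hd => (hp.out.dvd_mul.mp hd).elim hS.not_dvd hx⟩
    obtain ⟨Q, hQ⟩ := IsSylowIn.top_iff.mp this
    refine ⟨Q, fun y hy => ?_⟩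
    exact mem_centralizer_singleton_iff.mp (hS.le (hQ ▸ hy))
  have h4 := (Finset.card_le_card h3).trans Finset.card_biUnion_le
  have h5 : 2 * ∑ Q : Sylow p G, (Finset.univ.filter fun x =>
      x ∈ centralizer ((Q : Subgroup G) : Set G)).card ≤ Fintype.card G := by
    rw [Finset.mul_sum, ← h2 P, ← smul_eq_mul, ← Finset.card_univ]
    apply Finset.sum_le_card_nsmul
    intro Q _
    have e : Nat.card (normalizer ((P : Subgroup G) : Set G)) =
        Nat.card (normalizer ((Q : Subgroup G) : Set G)) :=
      Nat.eq_of_mul_eq_mul_left Fintype.card_pos ((h2 P).trans (h2 Q).symm)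
    rw [e]
    refine le_trans (le_of_eq ?_) (h1 Q)
    rw [Nat.card_eq_fintype_card, Fintype.card_subtype]
  have h6 := Finset.card_filter_add_card_filter_not (s := Finset.univ)
    (fun x : G => p ∣ (centralizer ({x} : Set G)).index)
  rw [Finset.card_univ] at h6
  omega

/-- Let G be a finite group that has a normal p-complement for at most one prime p dividing its order, and let σ be a natural number such that every conjugacy class size of G has at most σ distinct prime divisors. Then the number of primes dividing at least one conjugacy class size of G is at most 2σ. -/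
theorem result {G : Type*} [Group G] [Finite G] (σ : ℕ)
    (hσ : ∀ x : G, ((Subgroup.centralizer ({x} : Set G)).index).primeFactors.card ≤ σ)
    (hnil : ∀ p q : ℕ, p.Prime → q.Prime → p ∣ Nat.card G → q ∣ Nat.card G →
      Cfsg.HasNormalPComplement p G → Cfsg.HasNormalPComplement q G → p = q) :
    Nat.card {p : ℕ | p.Prime ∧ ∃ x : G, p ∣ (Subgroup.centralizer ({x} : Set G)).index} ≤ 2 * σ := by
  classical
  haveI := Fintype.ofFinite G
  let R : Finset ℕ := (Nat.card G).primeFactors.filter
    fun p => ∃ x : G, p ∣ (Subgroup.centralizer ({x} : Set G)).index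
  have e : Nat.card {p : ℕ | p.Prime ∧ ∃ x : G, p ∣ (Subgroup.centralizer ({x} : Set G)).index} =
      R.card := by
    rw [← Set.ncard_coe_finset]
    congr 2
    ext p
    simp only [R, Set.mem_ofPred_eq, Finset.coe_filter, Nat.mem_primeFactors]
    exact ⟨fun ⟨h1, x, hx⟩ => ⟨⟨h1, hx.trans (index_dvd_card _), Nat.card_pos.ne'⟩, x, hx⟩,
      fun ⟨h1, h2⟩ => ⟨h1.1, h2⟩⟩
  rw [e]
  rcases R.eq_empty_or_nonempty with hR | ⟨p, hp⟩
  · simp [hR]
  have hσ0 : 0 < σ := by
    obtain ⟨h1, x, hx⟩ := Finset.mem_filter.mp hp
    refine lt_of_lt_of_le (Finset.card_pos.mpr ⟨p, ?_⟩) (hσ x)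
    exact Nat.mem_primeFactors.mpr ⟨Nat.prime_of_mem_primeFactors h1, hx, index_ne_zero_of_finite⟩
  let K := R.filter fun p => ¬ HasNormalPComplement p G
  have h1 : (R.filter fun p => HasNormalPComplement p G).card ≤ 1 := by
    rw [Finset.card_le_one]
    intro a ha b hb
    simp only [R, Finset.mem_filter, Nat.mem_primeFactors] at ha hb
    exact hnil a b ha.1.1.1 hb.1.1.1 ha.1.1.2.1 hb.1.1.2.1 ha.2 hb.2
  have h2 := Finset.card_filter_add_card_filter_not (s := R) (fun p => HasNormalPComplement p G)
  have h3 : K.card * Fintype.card G ≤ 2 * ∑ p ∈ K,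
      (Finset.univ.filter fun x : G => p ∣ (centralizer ({x} : Set G)).index).card := by
    rw [Finset.mul_sum, ← smul_eq_mul]
    apply Finset.card_nsmul_le_sum
    intro q hq
    simp only [K, R, Finset.mem_filter, Nat.mem_primeFactors] at hq
    haveI : Fact q.Prime := ⟨hq.1.1.1⟩
    exact half hq.2
  have h4 : ∑ p ∈ K, (Finset.univ.filter fun x : G => p ∣ (centralizer ({x} : Set G)).index).card
      = ∑ x : G, (K.filter fun p => p ∣ (centralizer ({x} : Set G)).index).card := by
    simp only [Finset.card_filter]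
    exact Finset.sum_comm
  have h5 : ∑ x : G, (K.filter fun p => p ∣ (centralizer ({x} : Set G)).index).card <
      ∑ _x : G, σ := by
    have h6 : ∀ x : G, (K.filter fun p => p ∣ (centralizer ({x} : Set G)).index) ⊆
        ((Subgroup.centralizer ({x} : Set G)).index).primeFactors := by
      intro x q hq
      simp only [K, R, Finset.mem_filter, Nat.mem_primeFactors] at hq ⊢
      exact ⟨hq.1.1.1.1, hq.2, index_ne_zero_of_finite⟩
    apply Finset.sum_lt_sum (fun x _ => (Finset.card_le_card (h6 x)).trans (hσ x))
    refine ⟨1, Finset.mem_univ _, (Finset.card_le_card (h6 1)).trans_lt ?_⟩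
    have : centralizer ({1} : Set G) = ⊤ := by
      rw [eq_top_iff]; intro y _; simp [mem_centralizer_singleton_iff]
    simpa [this] using hσ0
  rw [Finset.sum_const, Finset.card_univ, smul_eq_mul] at h5
  have h7 : K.card < 2 * σ := by
    apply Nat.lt_of_mul_lt_mul_right (a := Fintype.card G)
    nlinarith
  simp only [K] at h7
  omega

end Cfsg.Agent.S4149
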