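import Cfsg.Statements.S4150
import Cfsg.Agent.Lib.PermTwoPrimesB
import Cfsg.Agent.Lib.BertrandTwo

set_option autoImplicit false
open Cfsg

namespace Cfsg.Agent.S4150

open Equiv Equiv.Perm MulAction Subgroup CfsgLib.H4

section
variable {α : Type*} [Fintype α] [DecidableEq α]

theorem preprimitive_of {H : Subgroup (Perm α)} {x y : Perm α} {p q : ℕ} (hp : p.Prime)
    (hq : q.Prime) (hx : orderOf x = p) (hy : y.IsCycle) (hy' : y.support.card = q)
    (h1 : Nat.card α < 2 * q) (h2 : Nat.card α < p + q) (hxH : x ∈ H) (hyH : y ∈ H)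
    (hU : ∀ a, a ∈ x.support ∨ a ∈ y.support) : IsPreprimitive H α := by
  classical
  have := Fact.mk hp
  have key : ∀ a, ∃ h ∈ H, h a ∈ y.support := by
    intro a
    by_contra hc
    push Not at hc
    have ha : a ∈ x.support := (hU a).resolve_right (by simpa using hc 1 H.one_mem)
    have hP : IsPGroup p (zpowers x) :=
      IsPGroup.of_card ((Nat.card_zpowers x).trans (hx.trans (pow_one p).symm))
    obtain ⟨k, hk⟩ := ncard_orbit_eq_pow hP a
    have h3 : orbit (zpowers x) a ⊆ (y.supportᶜ : Finset α) := by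
      rintro _ ⟨g, rfl⟩
      exact Finset.mem_coe.mpr (Finset.mem_compl.mpr (hc g (zpowers_le.mpr hxH g.2)))
    have h4 := Set.ncard_le_ncard h3
    rw [Set.ncard_coe_finset, Finset.card_compl, ← Nat.card_eq_fintype_card, hy', hk] at h4
    have h5 : k = 0 := by
      by_contra h0
      have := Nat.le_self_pow h0 p
      have := Finset.card_le_univ y.support
      rw [← Nat.card_eq_fintype_card] at this
      omega
    rw [h5, pow_zero] at hk
    obtain ⟨z, hz⟩ := Set.ncard_eq_one.mp hk
    have h7 : a ∈ orbit (zpowers x) a := mem_orbit_self a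
    have h8 : x a ∈ orbit (zpowers x) a := ⟨⟨x, mem_zpowers x⟩, rfl⟩
    rw [hz] at h7 h8
    exact mem_support.mp ha (h8.trans h7.symm)
  have htr : IsPretransitive H α := ⟨fun a b => by
    obtain ⟨g, hg, hga⟩ := key a
    obtain ⟨h, hh, hhb⟩ := key b
    obtain ⟨i, hi⟩ := hy.exists_zpow_eq (mem_support.mp hga) (mem_support.mp hhb)
    refine ⟨⟨h⁻¹ * y ^ i * g, mul_mem (mul_mem (inv_mem hh) (zpow_mem hyH i)) hg⟩, ?_⟩
    change (h⁻¹ * y ^ i * g) a = b
    rw [Perm.mul_apply, Perm.mul_apply, hi, Perm.inv_eq_iff_eq]⟩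
  have := isPretransitive_of_isCycle_mem hy hyH
  have hc : Nat.card (SubMulAction.ofFixingSubgroup H (y.support : Set α)ᶜ) = q := by
    rw [Nat.card_eq_fintype_card, Fintype.card_subtype, ← hy']
    apply congr_arg
    ext x
    simp [SubMulAction.mem_ofFixingSubgroup_iff]
  have := IsPreprimitive.of_prime_card (G := fixingSubgroup H (y.support : Set α)ᶜ) (hc ▸ hq)
  refine IsPreprimitive.of_card_lt
    (f := SubMulAction.ofFixingSubgroup_equivariantMap H (y.support : Set α)ᶜ) ?_
  rw [Set.ncard_range_of_injective SubMulAction.ofFixingSubgroup_equivariantMap_injective, hc]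
  exact h1

theorem core {x y : Perm α} {p q : ℕ} (hp : p.Prime) (hq : q.Prime) (hx : orderOf x = p)
    (hy : orderOf y = q) (hpq : p < q) (h1 : Nat.card α ≤ 2 * p)
    (hxA : x ∈ alternatingGroup α) (hyA : y ∈ alternatingGroup α)
    (hU : ∀ a, a ∈ x.support ∨ a ∈ y.support)
    (hc : (p + 3 ≤ q ∧ (Nat.card α < 2 * p ∨ q + 3 ≤ 2 * p)) ∨ (p = 3 ∧ q = 5) ∨
      (p = 5 ∧ q = 7) ∨ (p = 11 ∧ q = 13 ∧ Nat.card α ≤ 16)) :
    ∃ d : ℕ, 5 ≤ d ∧ Nonempty (closure ({x, y} : Set (Perm α)) ≃* alternatingGroup (Fin d)) := by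
  set H := closure ({x, y} : Set (Perm α)) with hH
  have hxH : x ∈ H := subset_closure (by simp)
  have hyH : y ∈ H := subset_closure (by simp)
  have hle : H ≤ alternatingGroup α := (closure_le _).mpr (by
    rintro z (rfl | rfl) <;> assumption)
  have hp2 := hp.two_le
  have hyc : y.IsCycle := isCycle_of_prime_order' (hy ▸ hq)
    (by rw [← Nat.card_eq_fintype_card]; omega)
  have hy' : y.support.card = q := by rw [← hyc.orderOf, hy]
  have hqd : q ≤ Nat.card α := by
    rw [← hy', Nat.card_eq_fintype_card]; exact Finset.card_le_univ _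
  have hprim := preprimitive_of hp hq hx hyc hy' (by omega) (by omega) hxH hyH hU
  have hxc : Nat.card α < 2 * p → x.IsCycle ∧ x.support.card = p := fun h => by
    have : x.IsCycle := isCycle_of_prime_order' (hx ▸ hp)
      (by rw [← Nat.card_eq_fintype_card]; omega)
    exact ⟨this, by rw [← this.orderOf, hx]⟩
  have fin : alternatingGroup α ≤ H →
      ∃ d : ℕ, 5 ≤ d ∧ Nonempty (H ≃* alternatingGroup (Fin d)) := fun h =>
    ⟨Fintype.card α, by rw [← Nat.card_eq_fintype_card]; omega,
      ⟨(MulEquiv.subgroupCongr (le_antisymm hle h)).trans (Fintype.equivFin α).altCongrHom⟩⟩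
  by_cases hq3 : q + 3 ≤ Nat.card α
  · exact fin (alternatingGroup_le_of_isCycle hprim hq hq3 hyc hy' hyH)
  by_cases hp3 : p + 3 ≤ Nat.card α ∧ Nat.card α < 2 * p
  · exact fin (alternatingGroup_le_of_isCycle hprim hp hp3.1 (hxc hp3.2).1 (hxc hp3.2).2 hxH)
  rcases hc with hc | ⟨rfl, rfl⟩ | ⟨rfl, rfl⟩ | ⟨rfl, rfl, h16⟩
  · omega
  · rcases (show Nat.card α = 5 ∨ Nat.card α = 6 by omega) with h | h
    · exact fin (alternatingGroup_le_of_isPreprimitive_of_isThreeCycle_mem hprim
        (card_support_eq_three_iff.mp (hxc (by omega)).2) hxH)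
    · rcases equiv_alt_of_two_transitive_six h hle
        (isMultiplyPretransitive_of_isCycle hprim hq (k := 0) (by omega) hyc hy' hyH) with h' | h'
      · exact fin h'
      · exact ⟨5, le_rfl, h'⟩
  · have h : Nat.card α = 7 := by omega
    exact fin (alt_le_of_three_transitive_seven h hle (isMultiplyPretransitive_of_isCycle hprim hp
      (k := 1) (by omega) (hxc (by omega)).1 (hxc (by omega)).2 hxH))
  · have h : Nat.card α = 13 := by omega
    exact fin (alt_le_of_eleven_cycle_thirteen h hle hprim (hxc (by omega)).1 (hxc (by omega)).2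
      hxH)

end

theorem main {m p q : ℕ} (hp : p.Prime) (hq : q.Prime) (hpq : p < q) (h1 : m ≤ 2 * p)
    (hc : (p + 3 ≤ q ∧ (m < 2 * p ∨ q + 3 ≤ 2 * p)) ∨ (p = 3 ∧ q = 5) ∨
      (p = 5 ∧ q = 7) ∨ (p = 11 ∧ q = 13 ∧ m ≤ 16))
    (x y : alternatingGroup (Fin m)) (hx : orderOf x = p) (hy : orderOf y = q) :
    ∃ d : ℕ, 5 ≤ d ∧ Nonempty (Subgroup.closure ({x, y} : Set (alternatingGroup (Fin m))) ≃*
      alternatingGroup (Fin d)) := by
  set s : Finset (Fin m) := (x : Perm (Fin m)).support ∪ (y : Perm (Fin m)).support with hs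
  obtain ⟨x', hx'⟩ := (alternatingGroup.mem_range_ofSubtype_iff s x).mpr Finset.subset_union_left
  obtain ⟨y', hy'⟩ := (alternatingGroup.mem_range_ofSubtype_iff s y).mpr Finset.subset_union_right
  have hsm : Nat.card s ≤ m := by
    rw [Nat.card_eq_fintype_card, Fintype.card_coe]
    simpa using Finset.card_le_univ s
  have hinj := alternatingGroup.ofSubtype_injective (s := s)
  obtain ⟨d, hd, ⟨e⟩⟩ := core (α := s) (x := (x' : Perm s)) (y := (y' : Perm s)) hp hq
    (by rw [Subgroup.orderOf_coe, ← hx, ← hx', orderOf_injective _ hinj])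
    (by rw [Subgroup.orderOf_coe, ← hy, ← hy', orderOf_injective _ hinj]) hpq (by omega) x'.2 y'.2
    (fun a => by
      have ha := a.2
      have e1 : (x : Perm (Fin m)) = Perm.ofSubtype (x' : Perm s) := by rw [← hx']; rfl
      have e2 : (y : Perm (Fin m)) = Perm.ofSubtype (y' : Perm s) := by rw [← hy']; rfl
      rcases Finset.mem_union.mp ha with h | h
      · rw [e1, mem_support_ofSubtype] at h
        exact Or.inl (by simpa using h.2)
      · rw [e2, mem_support_ofSubtype] at h
        exact Or.inr (by simpa using h.2)) (by omega)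
  refine ⟨d, hd, ⟨MulEquiv.trans ?_ e⟩⟩
  have e1 : (closure ({x', y'} : Set (alternatingGroup s))).map (alternatingGroup.ofSubtype s) =
      closure {x, y} := by
    rw [MonoidHom.map_closure, Set.image_pair, hx', hy']
  have e2 : (closure ({x', y'} : Set (alternatingGroup s))).map (alternatingGroup s).subtype =
      closure {(x' : Perm s), (y' : Perm s)} := by
    rw [MonoidHom.map_closure, Set.image_pair]; rfl
  exact ((MulEquiv.subgroupCongr e1.symm).trans (equivMapOfInjective _ _ hinj).symm).trans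
    ((equivMapOfInjective _ _ (alternatingGroup s).subtype_injective).trans
      (MulEquiv.subgroupCongr e2))

/-- Let m ≥ 5. Then there are primes p < q with m/2 ≤ p and q ≤ m such that any two elements x, y of the alternating group of degree m with x of order p and y of order q generate a subgroup isomorphic to an alternating group of some degree d ≥ 5. -/
theorem result (m : ℕ) (hm : 5 ≤ m) :
    ∃ p q : ℕ, p.Prime ∧ q.Prime ∧ m ≤ 2 * p ∧ p < q ∧ q ≤ m ∧
      ∀ x y : alternatingGroup (Fin m), orderOf x = p → orderOf y = q →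
        ∃ d : ℕ, 5 ≤ d ∧ Nonempty (Subgroup.closure ({x, y} : Set (alternatingGroup (Fin m))) ≃* alternatingGroup (Fin d)) := by
  by_cases h1 : m ≤ 6
  · exact ⟨3, 5, by norm_num, by norm_num, by omega, by omega, by omega,
      main (by norm_num) (by norm_num) (by omega) (by omega) (by omega)⟩
  by_cases h2 : m ≤ 10
  · exact ⟨5, 7, by norm_num, by norm_num, by omega, by omega, by omega,
      main (by norm_num) (by norm_num) (by omega) (by omega) (by omega)⟩
  by_cases h3 : m ≤ 14
  · exact ⟨7, 11, by norm_num, by norm_num, by omega, by omega, by omega,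
      main (by norm_num) (by norm_num) (by omega) (by omega) (by omega)⟩
  by_cases h4 : m ≤ 16
  · exact ⟨11, 13, by norm_num, by norm_num, by omega, by omega, by omega,
      main (by norm_num) (by norm_num) (by omega) (by omega) (by omega)⟩
  obtain ⟨p, q, hp, hq, h5, h6, h7⟩ := exists_two_primes (m := m) (by omega)
  exact ⟨p, q, hp, hq, by omega, by omega, h7, main hp hq (by omega) (by omega) (by omega)⟩

end Cfsg.Agent.S4150
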