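import Cfsg.Statements.S4151
import Cfsg.Agent.Lib.FrobZGroup

set_option autoImplicit false
open Cfsg

namespace Cfsg.Agent.S4151

open CfsgLib CfsgLib.Frob Subgroup in

/-- Let G be a finite group and H a non-normal subgroup meeting each of its conjugates by elements outside N_G(H) trivially, with the order of H coprime to its index in N_G(H), such that G is π-separable for π the set of primes dividing the order of H (G has a chain of normal subgroups from 1 to G each of whose factors has order divisible only by primes dividing the order of H or coprime to it). Suppose a Sylow 2-subgroup of H is abelian and Q is a complement of H in N_G(H). Then C_H(Q), the subgroup of elements of H commuting with Q, has order coprime to its index in G and has a normal complement in G. -/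
theorem result {G : Type*} [Group G] [Finite G] (H : Subgroup G)
    (hTI : Cfsg.IsTISubset (H : Set G)) (hnn : ¬ H.Normal)
    (hHall : (Nat.card H).Coprime (H.subgroupOf (Subgroup.normalizer (H : Set G))).index)
    (hsep : ∃ (n : ℕ) (M : Fin (n + 1) → Subgroup G), M 0 = ⊥ ∧ M (Fin.last n) = ⊤ ∧ Monotone M ∧ (∀ i, (M i).Normal) ∧
      ∀ i : Fin n, (∀ q : ℕ, q.Prime → q ∣ (M i.castSucc).relIndex (M i.succ) → q ∣ Nat.card H) ∨
        ((M i.castSucc).relIndex (M i.succ)).Coprime (Nat.card H))
    (h2 : ∀ P : Sylow 2 H, IsMulCommutative (P : Subgroup H))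
    (Q : Subgroup G) (hQ : Q ≤ Subgroup.normalizer (H : Set G)) (hQH : Q ⊓ H = ⊥) (hQH' : Q ⊔ H = Subgroup.normalizer (H : Set G)) :
    (Nat.card ↥(H ⊓ Subgroup.centralizer (Q : Set G))).Coprime (H ⊓ Subgroup.centralizer (Q : Set G)).index ∧
    ∃ N : Subgroup G, N.Normal ∧ N.IsComplement' (H ⊓ Subgroup.centralizer (Q : Set G)) := by
  have hH : (Nat.card H).Coprime (H.relIndex (normalizer (H : Set G))) := hHall
  have hsep' : PiSep {p | p ∣ Nat.card H} G := by
    obtain ⟨n, M, h0, h1, hm, hn, hf⟩ := hsep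
    refine piSep_iff_chain.mpr ⟨n, M, h0, h1, hm, hn, fun i => (hf i).imp id fun h q hq h3 h4 => ?_⟩
    exact hq.one_lt.ne' (Nat.eq_one_of_dvd_coprimes h h3 h4)
  have hO := hTI.piCore_sup_normalizer hH hsep'
  have hF : HasFPF H := hTI.hasFPF (K := Cfsg.piCore {p | p ∣ Nat.card H}ᶜ G)
    le_normalizer_of_normal (Nat.coprime_of_dvd fun q hq h3 h4 =>
      piCore_isPiSubgroup _ q hq h4 h3) fun hle => hnn (by
        refine normal_of_le_normalizer_top ?_
        rw [← hO]
        exact sup_le hle le_rfl)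
  have hZ : IsZGroup H := hF.isZGroup_of_isCyclic_sylow_two fun P =>
    hF.isCyclic_subgroup_of_comm _ fun a ha b hb =>
      congrArg Subtype.val ((h2 P).is_comm.comm ⟨a, ha⟩ ⟨b, hb⟩)
  have hcQ : Nat.card Q = H.relIndex (normalizer (H : Set G)) := by
    have h3 := card_sup_of_disjoint hQ hQH
    rw [hQH', ← card_mul_relIndex (le_normalizer (H := H)), mul_comm] at h3
    exact (Nat.eq_of_mul_eq_mul_right Nat.card_pos h3).symm
  have hcop : (Nat.card Q).Coprime (Nat.card H) := hcQ ▸ hH.symm
  have hW : ⁅H, Q⁆ ≤ H := Cop.commutator_le_left_of_le_normalizer hQ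
  have hQW : Q ≤ normalizer ((⁅H, Q⁆ : Subgroup G) : Set G) :=
    Cop.le_normalizer_commutator hQ le_normalizer
  have hHW : H ≤ normalizer ((⁅H, Q⁆ : Subgroup G) : Set G) := by
    have := normalizer_commutator_ge_left H Q
    exact this
  have h3 := coprime_relIndex_centralizer_of_isZGroup hQ hcop
  have h4 := commutator_inf_centralizer_of_isZGroup hQ hcop
  have h5 := Cop.commutator_sup_centralizer hQ hcop (Or.inr inferInstance)
  have hHL : H ≤ normalizer ((⁅H, Q⁆ ⊔ Q : Subgroup G) : Set G) := by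
    intro h hh
    refine mem_normalizer_of_conj_mem fun x hx => ?_
    obtain ⟨w, hw, q, hq, rfl⟩ := (mem_sup_iff_of_le_normalizer' hQW).mp hx
    have : h * (w * q) * h⁻¹ = (h * w * h⁻¹) * ((h * q * h⁻¹ * q⁻¹) * q) := by group
    rw [this]
    exact mul_mem (mem_sup_left (conj_mem_of_mem_normalizer (hHW hh) hw))
      (mul_mem (mem_sup_left (commutator_mem_commutator hh hq)) (mem_sup_right hq))
  obtain ⟨M, hM, e1, e2⟩ := hTI.exists_normal hH (L := ⁅H, Q⁆ ⊔ Q)
    (sup_le (hW.trans le_normalizer) hQ)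
    (by rw [← hQH']; exact sup_le (le_sup_right.trans le_normalizer) hHL) (by
      have : normalizer (H : Set G) = H ⊔ (⁅H, Q⁆ ⊔ Q) := by
        rw [← sup_assoc, sup_eq_left.mpr hW, sup_comm, hQH']
      rw [this, relIndex_sup_of_le_normalizer hHL]
      exact relIndex_dvd_card _ _)
  refine ⟨?_, M, hM, isComplement'_of_disjoint_and_mul_eq_univ ?_ ?_⟩
  · rw [← relIndex_mul_index (inf_le_left : H ⊓ centralizer (Q : Set G) ≤ H)]
    exact Nat.Coprime.mul_right h3
      ((hTI.coprime_index hH).coprime_dvd_left (card_dvd_of_le inf_le_left))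
  · rw [disjoint_def]
    intro x hxM hx
    have h6 : x ∈ M ⊓ normalizer (H : Set G) := ⟨hxM, le_normalizer hx.1⟩
    rw [e1] at h6
    obtain ⟨w, hw, q, hq, rfl⟩ := (mem_sup_iff_of_le_normalizer' hQW).mp h6
    have h7 : q ∈ Q ⊓ H := ⟨hq, by simpa using H.mul_mem (H.inv_mem (hW hw)) hx.1⟩
    rw [hQH, mem_bot] at h7
    subst h7
    have h8 : w * 1 ∈ ⁅H, Q⁆ ⊓ centralizer (Q : Set G) := ⟨by simpa using hw, hx.2⟩
    rwa [h4, mem_bot] at h8
  · rw [← normal_mul, ← coe_top]
    congr 1
    have h6 : ⁅H, Q⁆ ⊔ Q ≤ M := e1 ▸ inf_le_left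
    rw [eq_top_iff, ← e2, ← hQH']
    refine sup_le le_sup_left (sup_le ((le_sup_right.trans h6).trans le_sup_left) ?_)
    conv_lhs => rw [← h5]
    exact sup_le_sup_right (le_sup_left.trans h6) _

end Cfsg.Agent.S4151
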