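import Cfsg.Statements.S4152
import Cfsg.Agent.Lib.H8PiClasses

set_option autoImplicit false
open Cfsg

namespace Cfsg.Agent.S4152

open Subgroup CfsgLib
open scoped Pointwise commutatorElement

open MulAction

@[reducible] def act {G : Type*} [Group G] (N : Subgroup G) (S : Set G)
    (hS : ∀ n ∈ N, ∀ y ∈ S, n * y * n⁻¹ ∈ S) : MulAction N S where
  smul n y := ⟨n * y * (n : G)⁻¹, hS n n.2 y y.2⟩
  one_smul y := Subtype.ext (by show ((1 : N) : G) * y * ((1 : N) : G)⁻¹ = y; simp)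
  mul_smul a b y := Subtype.ext (by
    show ((a * b : N) : G) * y * ((a * b : N) : G)⁻¹ = a * (b * y * (b : G)⁻¹) * (a : G)⁻¹
    simp [mul_assoc])

theorem burn {G : Type*} [Group G] (N : Subgroup G) (S : Set G)
    (hS : ∀ n ∈ N, ∀ y ∈ S, n * y * n⁻¹ ∈ S) :
    Nat.card (Quotient (@orbitRel N S _ (act N S hS))) * Nat.card N =
      Nat.card {p : G × G // p.1 ∈ N ∧ p.2 ∈ S ∧ Commute p.1 p.2} := by
  letI := act N S hS
  rw [← Nat.card_prod, ← Nat.card_congr (sigmaFixedByEquivOrbitsProdGroup N S)]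
  exact Nat.card_congr
    { toFun := fun x => ⟨(x.1, x.2.1), x.1.2, x.2.1.2,
        mul_inv_eq_iff_eq_mul.mp (congrArg Subtype.val x.2.2)⟩
      invFun := fun x => ⟨⟨x.1.1, x.2.1⟩, ⟨x.1.2, x.2.2.1⟩,
        Subtype.ext (mul_inv_eq_iff_eq_mul.mpr x.2.2.2)⟩
      left_inv := fun _ => rfl
      right_inv := fun _ => rfl }

theorem part_unique {G : Type*} [Group G] [Finite G] {π : Set ℕ} {u v u' v' : G}
    (h : Commute u v) (h' : Commute u' v') (hu : IsPiNum π (orderOf u))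
    (hv : IsPiNum πᶜ (orderOf v)) (hu' : IsPiNum π (orderOf u')) (hv' : IsPiNum πᶜ (orderOf v'))
    (e : u * v = u' * v') : u = u' ∧ v = v' := by
  have h1 := mem_zpowers_mul_of_coprime h (hu.coprime_compl hv)
  have h2 := mem_zpowers_mul_of_coprime' h (hu.coprime_compl hv)
  have h3 := mem_zpowers_mul_of_coprime h' (hu'.coprime_compl hv')
  have h4 := mem_zpowers_mul_of_coprime' h' (hu'.coprime_compl hv')
  rw [← e] at h3 h4
  have e2 : u'⁻¹ * u = v' * v⁻¹ := by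
    rw [inv_mul_eq_iff_eq_mul, ← mul_assoc, ← e, mul_inv_cancel_right]
  have h5 : orderOf (u'⁻¹ * u) = 1 := by
    refine IsPiNum.eq_one (π := π) ((hu'.mul hu).of_dvd ?_) ((hv'.mul hv).of_dvd ?_)
    · simpa using (commute_of_mem_zpowers h3 h1).inv_left.orderOf_mul_dvd_mul_orderOf
    · rw [e2]
      simpa using (commute_of_mem_zpowers h4 h2).inv_right.orderOf_mul_dvd_mul_orderOf
  rw [orderOf_eq_one_iff] at h5
  exact ⟨(inv_mul_eq_one.mp h5).symm, (mul_inv_eq_one.mp (e2 ▸ h5)).symm⟩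

theorem fiber_le {G : Type*} [Group G] [Finite G] (N : Subgroup G) [hN : N.Normal] (π : Set ℕ)
    (x : G) : {c | c ∈ PiCl.piClasses π G ∧ ∃ y, ConjClasses.mk y = c ∧ x⁻¹ * y ∈ N}.ncard ≤
      (PiCl.piClasses π N).ncard := by
  set S₁ : Set G := {y | x⁻¹ * y ∈ N ∧ IsPiNum π (orderOf y)}
  set S₂ : Set G := {y | y ∈ N ∧ IsPiNum π (orderOf y)}
  have h1 : ∀ n ∈ N, ∀ y ∈ S₁, n * y * n⁻¹ ∈ S₁ := fun n hn y hy =>
    ⟨by
      have := mul_mem (mul_mem (hN.conj_mem n hn x⁻¹) hy.1) (inv_mem hn)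
      convert this using 1; group, by rw [PiCl.orderOf_conj']; exact hy.2⟩
  have h2 : ∀ n ∈ N, ∀ y ∈ S₂, n * y * n⁻¹ ∈ S₂ := fun n hn y hy =>
    ⟨hN.conj_mem _ hy.1 _, by rw [PiCl.orderOf_conj']; exact hy.2⟩
  have e1 : {c | c ∈ PiCl.piClasses π G ∧ ∃ y, ConjClasses.mk y = c ∧ x⁻¹ * y ∈ N}.ncard ≤
      Nat.card (Quotient (@orbitRel N S₁ _ (act N S₁ h1))) := by
    letI := act N S₁ h1
    let f : Quotient (orbitRel N S₁) → ConjClasses G := Quotient.lift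
      (fun y => ConjClasses.mk y.1) (by
        rintro _ b ⟨n, rfl⟩
        exact PiCl.mk_conj _ _)
    rw [← Set.ncard_univ]
    refine le_trans (Set.ncard_le_ncard ?_) (Set.ncard_image_le (f := f))
    rintro _ ⟨h, y, rfl, hy⟩
    exact ⟨Quotient.mk _ ⟨y, hy, PiCl.mk_mem_piClasses.mp h⟩, trivial, rfl⟩
  have e2 : Nat.card (Quotient (@orbitRel N S₂ _ (act N S₂ h2))) ≤ (PiCl.piClasses π N).ncard := by
    letI := act N S₂ h2
    let f : Quotient (orbitRel N S₂) → PiCl.piClasses π N := Quotient.lift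
      (fun y => ⟨ConjClasses.mk ⟨y.1, y.2.1⟩, PiCl.mk_mem_piClasses.mpr (by
        rw [← Subgroup.orderOf_coe]; exact y.2.2)⟩) (by
        rintro _ b ⟨n, rfl⟩
        exact Subtype.ext (PiCl.mk_conj n ⟨b.1, b.2.1⟩))
    refine Nat.card_le_card_of_injective f ?_
    rintro ⟨a⟩ ⟨b⟩ h
    obtain ⟨n, hn⟩ := isConj_iff.mp (ConjClasses.mk_eq_mk_iff_isConj.mp
      (congrArg Subtype.val h).symm)
    exact Quotient.sound ⟨n, Subtype.ext (congrArg (fun t : N => (t : G)) hn)⟩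
  refine e1.trans (le_trans (Nat.le_of_mul_le_mul_right ?_ (Nat.card_pos (α := N))) e2)
  rw [burn, burn]
  classical
  choose u hu v hv h3 h4 h5 h6 using fun n : G => exists_pi_part π n
  let t : G → G := fun w => if h : ∃ y, x⁻¹ * y ∈ N ∧ Commute y w then h.choose else 1
  have ht : ∀ w y, x⁻¹ * y ∈ N → Commute y w → x⁻¹ * t w ∈ N ∧ Commute (t w) w := by
    intro w y h7 h8
    have h : ∃ y, x⁻¹ * y ∈ N ∧ Commute y w := ⟨y, h7, h8⟩
    simp only [t, dif_pos h]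
    exact h.choose_spec
  have hc : ∀ n y w : G, Commute n y → w ∈ zpowers n → Commute y w := by
    rintro n y _ h ⟨k, rfl⟩
    exact h.symm.zpow_right k
  refine Nat.card_le_card_of_injective (fun p => ⟨((t (u p.1.1))⁻¹ * (p.1.2 * v p.1.1), u p.1.1),
    ?_, ⟨zpowers_le.mpr p.2.1 (hu _), h5 _⟩, ?_⟩) ?_
  · have := mul_mem (mul_mem (inv_mem (ht _ _ p.2.2.1.1 (hc _ _ _ p.2.2.2 (hu _))).1) p.2.2.1.1)
      (zpowers_le.mpr p.2.1 (hv p.1.1))
    convert this using 1; group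
  · exact (ht _ _ p.2.2.1.1 (hc _ _ _ p.2.2.2 (hu _))).2.inv_left.mul_left
      ((hc _ _ _ p.2.2.2 (hu _)).mul_left (h4 _).symm)
  · rintro ⟨⟨n, y⟩, hn, hy, h7⟩ ⟨⟨n', y'⟩, hn', hy', h8⟩ h
    obtain ⟨h9, h10⟩ := Prod.mk.inj (congrArg Subtype.val h)
    simp only at h9 h10
    rw [h10, mul_right_inj] at h9
    obtain ⟨h11, h12⟩ := part_unique (hc _ _ _ h7 (hv _)) (hc _ _ _ h8 (hv _)) hy.2 (h6 _) hy'.2
      (h6 _) h9
    exact Subtype.ext (Prod.ext ((h3 n).trans ((congrArg₂ _ h10 h12).trans (h3 n').symm)) h11)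

theorem card_eq {G : Type*} [Group G] (π : Set ℕ) :
    Nat.card {C : ConjClasses G // ∀ q : ℕ, q.Prime →
      (∃ g : G, ConjClasses.mk g = C ∧ q ∣ orderOf g) → q ∈ π} = (PiCl.piClasses π G).ncard := by
  refine Nat.card_congr (Equiv.subtypeEquivRight fun C => ?_)
  obtain ⟨x, rfl⟩ := ConjClasses.mk_surjective C
  rw [PiCl.mk_mem_piClasses]
  exact ⟨fun h q hq hd => h q hq ⟨x, rfl, hd⟩,
    fun h q hq ⟨g, h1, h2⟩ => h q hq (PiCl.orderOf_eq_of_mk_eq h1 ▸ h2)⟩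

theorem result {G : Type*} [Group G] [Finite G] (N : Subgroup G) [N.Normal] (π : Set ℕ) :
    Nat.card {C : ConjClasses G // ∀ q : ℕ, q.Prime → (∃ g : G, ConjClasses.mk g = C ∧ q ∣ orderOf g) → q ∈ π} ≤ Nat.card {C : ConjClasses N // ∀ q : ℕ, q.Prime → (∃ g : N, ConjClasses.mk g = C ∧ q ∣ orderOf g) → q ∈ π} * Nat.card {C : ConjClasses (G ⧸ N) // ∀ q : ℕ, q.Prime → (∃ g : (G ⧸ N), ConjClasses.mk g = C ∧ q ∣ orderOf g) → q ∈ π} := by
  classical
  rw [card_eq, card_eq, card_eq, Set.ncard_eq_toFinset_card _ (Set.toFinite _),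
    Set.ncard_eq_toFinset_card (PiCl.piClasses π (G ⧸ N)) (Set.toFinite _)]
  refine Finset.card_le_mul_card_image_of_maps_to
    (f := ConjClasses.map (QuotientGroup.mk' N)) (fun c hc => ?_) _ fun d hd => ?_
  · rw [Set.Finite.mem_toFinset] at hc ⊢
    obtain ⟨x, rfl, hx⟩ := hc
    exact ⟨QuotientGroup.mk' N x, rfl, hx.of_dvd (orderOf_map_dvd _ x)⟩
  · obtain ⟨x, rfl⟩ := ConjClasses.mk_surjective d
    obtain ⟨x, rfl⟩ := QuotientGroup.mk'_surjective N x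
    refine le_trans ?_ (fiber_le N π x)
    rw [← Set.ncard_coe_finset]
    refine Set.ncard_le_ncard fun c hc => ?_
    rw [Finset.coe_filter, Set.mem_setOf_eq, Set.Finite.mem_toFinset] at hc
    refine ⟨hc.1, ?_⟩
    obtain ⟨y, rfl⟩ := ConjClasses.mk_surjective c
    obtain ⟨g, hg⟩ := isConj_iff.mp (ConjClasses.mk_eq_mk_iff_isConj.mp hc.2)
    obtain ⟨g, rfl⟩ := QuotientGroup.mk'_surjective N g
    exact ⟨g * y * g⁻¹, PiCl.mk_conj _ _, QuotientGroup.eq.mp hg.symm⟩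

end Cfsg.Agent.S4152
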