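import Cfsg.Statements.S4153
import Cfsg.Agent.Lib.ClassSize2

set_option autoImplicit false
open Cfsg

namespace Cfsg.Agent.S4153

open Subgroup CfsgLib CfsgLib.Frob

/-- Let G be a finite group, p a prime, N a normal subgroup, P a Sylow p-subgroup of G and P̄ a Sylow p-subgroup of G/N. Count the elements of p-power order, the identity included. Then (number of such elements of G/N)/#P̄ ≤ (number of such elements of G)/#P, stated as a cross-multiplied inequality, with equality when N is central. -/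
theorem result {G : Type*} [Group G] [Finite G] (p : ℕ) [Fact p.Prime] (N : Subgroup G) [N.Normal]
    (P : Sylow p G) (Pbar : Sylow p (G ⧸ N)) :
    Nat.card {g : (G ⧸ N) // ∃ k : ℕ, orderOf g = p ^ k} * Nat.card (P : Subgroup G) ≤ Nat.card {g : G // ∃ k : ℕ, orderOf g = p ^ k} * Nat.card (Pbar : Subgroup (G ⧸ N)) ∧
    (N ≤ Subgroup.center G → Nat.card {g : (G ⧸ N) // ∃ k : ℕ, orderOf g = p ^ k} * Nat.card (P : Subgroup G) = Nat.card {g : G // ∃ k : ℕ, orderOf g = p ^ k} * Nat.card (Pbar : Subgroup (G ⧸ N))) := by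
  classical
  set c := Nat.card (N ⊓ (P : Subgroup G) : Subgroup G) with hc
  have hcard : ∀ Q : Sylow p G,
      Nat.card (Pbar : Subgroup (G ⧸ N)) * Nat.card (N ⊓ (Q : Subgroup G) : Subgroup G) =
        Nat.card (P : Subgroup G) := fun Q => by
    have h1 := card_map_mk'_mul_card_inf (Q : Subgroup G) N
    have h2 : Nat.card ((Q : Subgroup G).map (QuotientGroup.mk' N)) =
        Nat.card (Pbar : Subgroup (G ⧸ N)) :=
      (Q.mapSurjective (QuotientGroup.mk'_surjective N)).card_eq_multiplicity.trans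
        Pbar.card_eq_multiplicity.symm
    rw [← h2, h1, Q.card_eq_multiplicity, P.card_eq_multiplicity]
  have hcQ : ∀ Q : Sylow p G, Nat.card (N ⊓ (Q : Subgroup G) : Subgroup G) = c := fun Q =>
    Nat.eq_of_mul_eq_mul_left Nat.card_pos ((hcard Q).trans (hcard P).symm)
  let f : {g : G // ∃ k : ℕ, orderOf g = p ^ k} → {g : G ⧸ N // ∃ k : ℕ, orderOf g = p ^ k} :=
    fun g => ⟨(g.1 : G ⧸ N), by
      obtain ⟨k, hk⟩ := g.2
      obtain ⟨j, -, hj⟩ := (Nat.dvd_prime_pow Fact.out).mp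
        (hk ▸ orderOf_map_dvd (QuotientGroup.mk' N) g.1)
      exact ⟨j, hj⟩⟩
  have := Fintype.ofFinite {g : G ⧸ N // ∃ k : ℕ, orderOf g = p ^ k}
  have hsum : Nat.card {g : G // ∃ k : ℕ, orderOf g = p ^ k} = ∑ y, Nat.card {g // f g = y} := by
    rw [← Nat.card_congr (Equiv.sigmaFiberEquiv f), Nat.card_sigma]
  have hfib : ∀ y, c ≤ Nat.card {g // f g = y} ∧ (N ≤ center G → c = Nat.card {g // f g = y}) := by
    rintro ⟨y, k, hk⟩
    obtain ⟨R, hR⟩ := exists_sylow_mem_of_orderOf hk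
    obtain ⟨Q, rfl⟩ := Sylow.mapSurjective_surjective (QuotientGroup.mk'_surjective N) p R
    obtain ⟨s, hs, rfl⟩ := hR
    let φ : (N ⊓ (Q : Subgroup G) : Subgroup G) → {g // f g = ⟨_, k, hk⟩} := fun n =>
      ⟨⟨s * n, orderOf_eq_pow_of_mem_isPGroup Q.2 ((Q : Subgroup G).mul_mem hs n.2.2)⟩,
        Subtype.ext (QuotientGroup.mk_mul_of_mem s n.2.1)⟩
    have hinj : Function.Injective φ := fun a b e =>
      Subtype.ext (mul_left_cancel (congrArg (fun z => z.1.1) e : s * a = s * b))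
    rw [← hcQ Q]
    refine ⟨Nat.card_le_card_of_injective φ hinj, fun hZ =>
      Nat.card_congr (Equiv.ofBijective φ ⟨hinj, ?_⟩)⟩
    rintro ⟨⟨g, j, hj⟩, hg⟩
    have h1 : s⁻¹ * g ∈ N := QuotientGroup.eq.mp (congrArg Subtype.val hg).symm
    have h2 : s⁻¹ * g ∈ (Q : Subgroup G) := by
      have hn : (zpowers (s⁻¹ * g)).Normal := ⟨fun x hx y => by
        rw [mem_center_iff.mp (hZ (zpowers_le.mpr h1 hx)) y, mul_inv_cancel_right]; exact hx⟩
      refine IsPGroup.le_sylow_of_normal (N := zpowers (s⁻¹ * g)) ?_ Q (mem_zpowers _)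
      obtain ⟨i, hi⟩ := orderOf_eq_pow_of_mem_isPGroup Q.2 ((Q : Subgroup G).inv_mem hs)
      have hcomm : Commute s⁻¹ g := by
        have := mem_center_iff.mp (hZ h1) s⁻¹
        rw [mul_assoc] at this
        exact mul_left_cancel this
      have h3 : (s⁻¹ * g) ^ p ^ (i + j) = 1 := by
        rw [hcomm.mul_pow, pow_add, pow_mul, ← hi, pow_orderOf_eq_one, one_pow, one_mul, mul_comm,
          pow_mul, ← hj, pow_orderOf_eq_one, one_pow]
      obtain ⟨m, -, hm⟩ := (Nat.dvd_prime_pow Fact.out).mp (orderOf_dvd_of_pow_eq_one h3)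
      exact isPGroup_zpowers_iff.mpr ⟨m, hm⟩
    exact ⟨⟨s⁻¹ * g, h1, h2⟩, Subtype.ext (Subtype.ext (by simp [φ]))⟩
  rw [← hcard P, ← hc, hsum, Nat.card_eq_fintype_card]
  constructor
  · have := Finset.card_nsmul_le_sum Finset.univ _ c fun y _ => (hfib y).1
    rw [smul_eq_mul, Finset.card_univ] at this
    nlinarith [Nat.zero_le (Nat.card (Pbar : Subgroup (G ⧸ N)))]
  · intro hZ
    rw [← Finset.sum_congr rfl fun y _ => (hfib y).2 hZ, Finset.sum_const, smul_eq_mul,
      Finset.card_univ]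
    ring

end Cfsg.Agent.S4153
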