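import Cfsg.Statements.S4154
import Cfsg.Agent.Lib.ClassSize2

set_option autoImplicit false
open Cfsg

namespace Cfsg.Agent.S4154

open Subgroup CfsgLib CfsgLib.Frob

/-- Let G be a finite group and α an automorphism of G such that every element of G is the product of an element fixed by α and an element of the form g⁻¹α(g). If N is a normal α-invariant subgroup, then the automorphism ᾱ induced on G/N has the same property, and every coset fixed by ᾱ contains an element fixed by α (so the fixed points of ᾱ are the images of the fixed points of α). -/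
theorem result {G : Type*} [Group G] [Finite G] (α : MulAut G)
    (hccp : ∀ x : G, ∃ c g : G, α c = c ∧ x = c * (g⁻¹ * α g))
    (N : Subgroup G) [N.Normal] (hN : ∀ n ∈ N, α n ∈ N) :
    (∀ x : G, ∃ c g : G, c⁻¹ * α c ∈ N ∧ x⁻¹ * (c * (g⁻¹ * α g)) ∈ N) ∧
    (∀ x : G, x⁻¹ * α x ∈ N → ∃ c : G, α c = c ∧ c⁻¹ * x ∈ N) := by
  refine ⟨fun x => ?_, fun x hx => ?_⟩
  · obtain ⟨c, g, hc, e⟩ := hccp x
    exact ⟨c, g, by rw [hc]; simp, by rw [← e]; simp⟩
  have hNn : N.Normal := inferInstance
  let C : Subgroup G := α.toMonoidHom.eqLocus (MonoidHom.id G)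
  let D : Subgroup G :=
    { carrier := {d | d⁻¹ * α d ∈ N}
      one_mem' := by simp
      mul_mem' := fun {a b} ha hb => by
        have := N.mul_mem (hNn.conj_mem' _ ha b) hb
        change (a * b)⁻¹ * α (a * b) ∈ N
        convert this using 1
        rw [map_mul]; group
      inv_mem' := fun {a} ha => by
        have := hNn.conj_mem _ (N.inv_mem ha) (α a)
        change a⁻¹⁻¹ * α a⁻¹ ∈ N
        have h2 := N.inv_mem (hNn.conj_mem _ ha a)
        convert h2 using 1
        rw [map_inv]; group }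
  have hle : C ⊔ N ≤ D := sup_le (fun c hc => by
    have : α c = c := hc
    change c⁻¹ * α c ∈ N
    rw [this]; simp) fun n hn => N.mul_mem (N.inv_mem hn) (hN n hn)
  let f : G ⧸ D → G ⧸ (C ⊔ N) := Quotient.map' (fun h => α h * h⁻¹) fun a b hab => by
    rw [QuotientGroup.leftRel_apply] at hab ⊢
    refine mem_sup_right ?_
    have h1 : (a⁻¹ * b)⁻¹⁻¹ * α (a⁻¹ * b)⁻¹ ∈ N := D.inv_mem hab
    have h2 := hNn.conj_mem _ (N.inv_mem h1) a
    convert h2 using 1
    simp only [map_mul, map_inv]; group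
  have hf : Function.Surjective f := by
    intro q
    obtain ⟨y, rfl⟩ := QuotientGroup.mk_surjective q
    obtain ⟨c, g, hc, e⟩ := hccp y⁻¹
    refine ⟨(g⁻¹ : G), ?_⟩
    change ((α g⁻¹ * g⁻¹⁻¹ : G) : G ⧸ (C ⊔ N)) = y
    rw [QuotientGroup.eq]
    refine mem_sup_left ?_
    have : (α g⁻¹ * g⁻¹⁻¹)⁻¹ * y = c⁻¹ := by
      rw [← inv_inv y, e, map_inv]; group
    rw [this]
    exact C.inv_mem hc
  have h1 : (C ⊔ N).index ≤ D.index := Nat.card_le_card_of_surjective f hf
  have h2 : C ⊔ N = D := by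
    refine eq_of_le_of_not_lt hle fun hlt => ?_
    exact absurd (index_strictAnti hlt) (not_lt.mpr h1)
  have h3 : x ∈ C ⊔ N := h2 ▸ hx
  obtain ⟨c, hc, n, hn, rfl⟩ := mem_sup_of_normal_right.mp h3
  exact ⟨c, hc, by simpa using hn⟩

end Cfsg.Agent.S4154
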