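import Cfsg.Statements.S4155
import Cfsg.Agent.Lib.FrobMain
import Cfsg.Agent.Lib.CoreElements
import Cfsg.Agent.Lib.CorePi
import Cfsg.Agent.Lib.CoreFitting

set_option autoImplicit false
open Cfsg

namespace Cfsg.Agent.S4155

open Subgroup CfsgLib


/-- Let G be a finite group and N a proper non-trivial normal nilpotent subgroup whose order is not a prime power, such that for every x outside N all elements of the coset xN have the same order as x. Then N is the Fitting subgroup of G, and for every prime q every Sylow q-subgroup of G/N is cyclic or generalized quaternion. -/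
theorem result {G : Type*} [Group G] [Finite G] (N : Subgroup G) [N.Normal] (hN1 : N ≠ ⊥) (hN2 : N ≠ ⊤)
    (heq : ∀ x : G, x ∉ N → ∀ n ∈ N, orderOf (x * n) = orderOf x)
    (hnil : Group.IsNilpotent N) (hnpp : ¬ IsPrimePow (Nat.card N)) :
    N = Cfsg.fittingSubgroup G ∧
    ∀ (q : ℕ) [Fact q.Prime] (Q : Sylow q (G ⧸ N)), IsCyclic (Q : Subgroup (G ⧸ N)) ∨ ∃ n : ℕ, Nonempty ((Q : Subgroup (G ⧸ N)) ≃* QuaternionGroup (2 ^ n)) := by
  have hNF : N ≤ fittingSubgroup G := le_fitting hnil
  have hr : ∀ q : ℕ, q.Prime → ∃ r : ℕ, r.Prime ∧ r ≠ q ∧ r ∣ Nat.card N := by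
    intro q hq
    by_contra h
    push Not at h
    apply hnpp
    rw [isPrimePow_iff_unique_prime_dvd]
    obtain ⟨r, hr, hrd⟩ := Nat.exists_prime_and_dvd (mt card_eq_one.mp hN1)
    have key : ∀ s : ℕ, s.Prime ∧ s ∣ Nat.card N → s = q := fun s hs => by
      by_contra hne; exact h s hs.1 hne hs.2
    exact ⟨r, ⟨hr, hrd⟩, fun s hs => (key s hs).trans (key r ⟨hr, hrd⟩).symm⟩
  have hcop : ∀ {q r a b : ℕ}, q.Prime → r.Prime → r ≠ q → (q ^ a).Coprime (r ^ b) :=
    fun hq hr h => Nat.Coprime.pow _ _ ((Nat.coprime_primes hq hr).mpr h.symm)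
  have key : ∀ x : G, x ∉ N → ∀ y ∈ N, Commute x y → (orderOf x).Coprime (orderOf y) → y = 1 := by
    intro x hx y hy hc hxy
    have := heq x hx y hy
    rw [hc.orderOf_mul_eq_mul_orderOf_of_coprime hxy] at this
    rw [← orderOf_eq_one_iff]
    exact (Nat.mul_eq_left (orderOf_pos x).ne').mp this
  refine ⟨le_antisymm hNF (le_of_forall_primePow_mem fun x hx q k hq hxo => ?_), fun q hq Q => ?_⟩
  · by_contra hxN
    obtain ⟨r, hr, hrq, hrd⟩ := hr q hq
    have := Fact.mk hr
    obtain ⟨y, hy⟩ := exists_prime_orderOf_dvd_card' r hrd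
    rw [← Subgroup.orderOf_coe] at hy
    have hc : (orderOf x).Coprime (orderOf (y : G)) := by
      rw [hxo, hy, ← pow_one r]; exact hcop hq hr hrq
    have := key x hxN y y.2
      (commute_of_coprime_of_mem_isNilpotent fitting_isNilpotent hx (hNF y.2) hc) hc
    rw [this, orderOf_one] at hy
    exact hr.ne_one hy.symm
  · obtain ⟨P, rfl⟩ := Sylow.mapSurjective_surjective (QuotientGroup.mk'_surjective N) q Q
    obtain ⟨r, hr, hrq, hrd⟩ := hr q hq.out
    have := Fact.mk hr
    let R := pCore r G ⊓ N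
    have hR : R ≠ ⊥ := by
      obtain ⟨y, hy⟩ := exists_prime_orderOf_dvd_card' r hrd
      rw [← Subgroup.orderOf_coe] at hy
      have h1 : zpowers (y : G) ≤ pCore r G := le_pCore_of_le_fitting
        ((zpowers_le.mpr y.2).trans hNF) (isPGroup_zpowers_iff.mpr ⟨1, by simpa using hy⟩)
      intro h
      have h2 : (y : G) ∈ R := ⟨h1 (mem_zpowers _), y.2⟩
      rw [h, mem_bot] at h2
      rw [h2, orderOf_one] at hy
      exact hr.ne_one hy.symm
    have := (nontrivial_iff_ne_bot R).mpr hR
    have hc : ∀ x ∈ (P : Subgroup G), ∀ y ∈ R, (orderOf x).Coprime (orderOf y) := by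
      intro x hx y hy
      obtain ⟨a, ha⟩ := orderOf_eq_pow_of_mem_isPGroup P.isPGroup' hx
      obtain ⟨b, hb⟩ := orderOf_eq_pow_of_mem_isPGroup (pCore_isPGroup r) hy.1
      rw [ha, hb]; exact hcop hq.out hr hrq
    have hn : (P : Subgroup G) ≤ normalizer (R : Set G) := by rw [normalizer_eq_top]; exact le_top
    let f := (QuotientGroup.mk' N).subgroupMap (P : Subgroup G)
    have hf : Function.Surjective f := MonoidHom.subgroupMap_surjective _ _
    let φ := f.liftOfSurjective hf ⟨Frob.conjOn hn, fun x hx => by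
      have hxN : (x : G) ∈ N := (QuotientGroup.eq_one_iff _).mp (congrArg Subtype.val hx)
      ext y
      rw [Frob.coe_conjOn_apply,
        (commute_of_coprime_of_mem_isNilpotent hnil hxN y.2.2 (hc _ x.2 _ y.2)).eq]
      simp⟩
    have hφ : Frob.IsFPF φ := by
      intro a ha v hv
      obtain ⟨x, rfl⟩ := hf a
      rw [MonoidHom.liftOfRightInverse_comp_apply] at hv
      have hv' := congrArg Subtype.val hv
      rw [Frob.coe_conjOn_apply, mul_inv_eq_iff_eq_mul] at hv'
      exact Subtype.ext (key x (fun h => ha (Subtype.ext ((QuotientGroup.eq_one_iff _).mpr h)))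
        v v.2.2 hv' (hc _ x.2 _ v.2))
    rcases PGrp.isCyclic_or_quaternion_of_comm_isCyclic
      (P.mapSurjective (QuotientGroup.mk'_surjective N)).isPGroup'
      fun (B : Subgroup ((P : Subgroup G).map (QuotientGroup.mk' N))) hB =>
        (hφ.hasFPF.subgroup B).isCyclic_of_comm hB.is_comm.comm with h | ⟨-, k, -, h⟩
    · exact Or.inl h
    · exact Or.inr ⟨k, h⟩

end Cfsg.Agent.S4155
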