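import Cfsg.Statements.S4156

set_option autoImplicit false
open Cfsg

namespace Cfsg.Agent.S4156

theorem perfect_of_simple {G : Type*} [Group G] [IsSimpleGroup G] (h : ¬ IsMulCommutative G) :
    commutator G = ⊤ :=
  (IsSimpleGroup.eq_bot_or_eq_top_of_normal (commutator G) inferInstance).resolve_left
    fun h0 => h ((commutator_eq_bot_iff G).mp h0)

theorem hom_trivial {G A : Type*} [Group G] [Group A] (hG : commutator G = ⊤) (f : G →* A)
    (h : ∀ x y, Commute (f x) (f y)) (x : G) : f x = 1 := by
  have : commutator G ≤ f.ker := by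
    rw [commutator_def, Subgroup.commutator_le]
    intro a _ b _
    rw [MonoidHom.mem_ker, map_commutatorElement]
    exact (h a b).commutator_eq
  exact this (hG ▸ Subgroup.mem_top x)

theorem exists_psl {G : Type*} [Group G] [IsSimpleGroup G] (hG : commutator G = ⊤) {n : ℕ}
    {F : Type*} [Field F] (φ : G →* GL (Fin n) F) (hφ : ∃ x, φ x ≠ 1) :
    ∃ f : G →* Matrix.ProjectiveSpecialLinearGroup (Fin n) F, Function.Injective f := by
  have hdet : ∀ x, (φ x : Matrix (Fin n) (Fin n) F).det = 1 := fun x => by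
    have := hom_trivial hG (Matrix.GeneralLinearGroup.det.comp φ) (fun _ _ => Commute.all _ _) x
    simpa using congrArg Units.val this
  let ψ : G →* Matrix.SpecialLinearGroup (Fin n) F :=
    { toFun := fun x => ⟨φ x, hdet x⟩
      map_one' := Subtype.ext (by simp)
      map_mul' := fun x y => Subtype.ext (by simp only [map_mul]; rfl) }
  refine ⟨(QuotientGroup.mk' _).comp ψ, ?_⟩
  rw [← MonoidHom.ker_eq_bot_iff]
  refine (IsSimpleGroup.eq_bot_or_eq_top_of_normal _ inferInstance).resolve_right fun h => ?_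
  obtain ⟨x, hx⟩ := hφ
  have : ψ x = 1 := hom_trivial hG ψ (fun a b => by
    have ha : a ∈ ((QuotientGroup.mk' (Subgroup.center _)).comp ψ).ker := h ▸ Subgroup.mem_top a
    rw [MonoidHom.mem_ker, MonoidHom.comp_apply, QuotientGroup.mk'_apply,
      QuotientGroup.eq_one_iff, Subgroup.mem_center_iff] at ha
    exact (ha _).symm) x
  exact hx (Units.ext (congrArg Subtype.val this))


/-- Let n ≥ 5 and F a finite field. Then the projective special linear group PSL_n(F) contains a subgroup isomorphic to the alternating group of degree n + 1. -/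
theorem result (n : ℕ) (hn : 5 ≤ n) (F : Type*) [Field F] [Finite F] :
    ∃ f : alternatingGroup (Fin (n + 1)) →* Matrix.ProjectiveSpecialLinearGroup (Fin n) F, Function.Injective f := by
  classical
  have : IsSimpleGroup (alternatingGroup (Fin (n + 1))) :=
    alternatingGroup.isSimpleGroup (by simp; omega)
  let ρ : Representation F (alternatingGroup (Fin (n + 1))) (Fin (n + 1) → F) :=
    { toFun := fun g => LinearMap.funLeft F F (g⁻¹ : alternatingGroup (Fin (n + 1))).1
      map_one' := rfl
      map_mul' := fun _ _ => rfl }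
  let s : (Fin (n + 1) → F) →ₗ[F] F := ∑ i, LinearMap.proj i
  have hs : ∀ v, s v = ∑ i, v i := fun v => by simp [s]
  have hW : Module.finrank F (LinearMap.ker s) = n := by
    have h1 := LinearMap.finrank_range_add_finrank_ker s
    have h2 : LinearMap.range s = ⊤ := LinearMap.range_eq_top.mpr fun c =>
      ⟨Pi.single 0 c, by simp [hs]⟩
    rw [h2, finrank_top, Module.finrank_self, Module.finrank_fin_fun] at h1
    omega
  let σ := ρ.subrepresentation (LinearMap.ker s) fun g v hv => by
    rw [Submodule.mem_comap, LinearMap.mem_ker, hs]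
    rw [LinearMap.mem_ker, hs] at hv
    rw [← hv]
    exact Equiv.sum_comp (g⁻¹ : alternatingGroup (Fin (n + 1))).1 v
  let b := Module.finBasisOfFinrankEq F _ hW
  let i0 : Fin (n + 1) := ⟨0, by omega⟩
  let i1 : Fin (n + 1) := ⟨1, by omega⟩
  let i2 : Fin (n + 1) := ⟨2, by omega⟩
  let i3 : Fin (n + 1) := ⟨3, by omega⟩
  have h01 : i0 ≠ i1 := by simp [i0, i1]
  have h02 : i0 ≠ i2 := by simp [i0, i2]
  have h03 : i0 ≠ i3 := by simp [i0, i3]
  have h12 : i1 ≠ i2 := by simp [i1, i2]
  have h13 : i1 ≠ i3 := by simp [i1, i3]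
  have h23 : i2 ≠ i3 := by simp [i2, i3]
  let c : alternatingGroup (Fin (n + 1)) := ⟨Equiv.swap i0 i1 * Equiv.swap i0 i2, by
    simp [Equiv.Perm.mem_alternatingGroup, h01, h02]⟩
  let d : alternatingGroup (Fin (n + 1)) := ⟨Equiv.swap i0 i1 * Equiv.swap i0 i3, by
    simp [Equiv.Perm.mem_alternatingGroup, h01, h03]⟩
  refine exists_psl (perfect_of_simple fun h => ?_)
    ((Matrix.GeneralLinearGroup.toLin' b).symm.toMonoidHom.comp σ.asGroupHom) ⟨c⁻¹, fun h => ?_⟩
  · have := congrArg (fun g : alternatingGroup (Fin (n + 1)) => g.1 i0) (h.is_comm.comm c d)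
    simp [c, d, Equiv.swap_apply_def, h01, h02, h03, h12, h13, h23, h01.symm, h02.symm, h03.symm,
      h12.symm, h13.symm, h23.symm] at this
  · simp only [MulEquiv.toMonoidHom_eq_coe, MonoidHom.comp_apply, MonoidHom.coe_coe,
      EmbeddingLike.map_eq_one_iff] at h
    have h1 := congrArg Units.val h
    rw [Representation.asGroupHom_apply] at h1
    have h2 := congrArg (fun v : LinearMap.ker s => (v : Fin (n + 1) → F) i0)
      (LinearMap.congr_fun h1 ⟨Pi.single i0 1 - Pi.single i1 1, by
        rw [LinearMap.mem_ker, map_sub, hs, hs]; simp⟩)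
    change (Pi.single i0 (1 : F) - Pi.single i1 1 : Fin (n + 1) → F) (c⁻¹⁻¹.1 i0) =
      (Pi.single i0 (1 : F) - Pi.single i1 1 : Fin (n + 1) → F) i0 at h2
    simp [c, Equiv.swap_apply_def, h01, h02, h12, h01.symm, h02.symm, h12.symm] at h2

end Cfsg.Agent.S4156
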