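import Cfsg.Statements.S4157
import Cfsg.Agent.S4003
import Cfsg.Agent.Lib.TwoGroupMaxClass

set_option autoImplicit false
open Cfsg

namespace Cfsg.Agent.S4157

open Subgroup CfsgLib
open scoped Pointwise commutatorElement

variable {P : Type*} [Group P] [Finite P]

theorem card_dvd_of_mul (M : Subgroup P) (S : Set P) (h : ∀ x ∈ S, ∀ u ∈ M, x * u ∈ S) :
    Nat.card M ∣ S.ncard := by
  rw [← Set.ncard_image_of_injective _ inv_injective]
  refine Frob.card_dvd_ncard_of_free (A := M) _ ?_ fun x _ u h => Subtype.ext (mul_eq_right.mp h)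
  rintro u _ ⟨z, hz, rfl⟩
  exact ⟨z * (u : P)⁻¹, h z hz _ (inv_mem u.2), by simp [Subgroup.smul_def]⟩

theorem comm_mem (hP : IsPGroup 2 P) {E Z : Subgroup P} [hE : E.Normal] [Z.Normal]
    (hc : Nat.card E = 2 ^ 2) (hZE : Z ≤ E) (hZc : Nat.card Z = 2) :
    ∀ e ∈ E, ∀ x, ⁅e, x⁆ ∈ Z := by
  intro e h x
  have h1 : Nat.card (E.map (QuotientGroup.mk' Z)) = 2 := by
    have := card_comap_mk' Z (E.map (QuotientGroup.mk' Z))
    rw [comap_map_eq, QuotientGroup.ker_mk', sup_eq_left.mpr hZE, hc, hZc] at this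
    omega
  have := hE.map _ (QuotientGroup.mk'_surjective Z)
  have h2 := PGrp.le_center_of_card_eq_prime (hP.to_quotient Z) _ h1 (mem_map_of_mem _ h)
  rw [← QuotientGroup.eq_one_iff]
  change QuotientGroup.mk' Z ⁅e, x⁆ = 1
  rw [map_commutatorElement, commutatorElement_eq_one_iff_mul_comm]
  exact (mem_center_iff.mp h2 _).symm

theorem exists_Z (hP : IsPGroup 2 P) {E : Subgroup P} [hE : E.Normal] (hc : Nat.card E = 2 ^ 2) :
    ∃ Z : Subgroup P, Z.Normal ∧ Z ≤ E ∧ Nat.card Z = 2 ∧ Z ≤ center P ∧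
      ∀ e ∈ E, ∀ x, ⁅e, x⁆ ∈ Z := by
  obtain ⟨Z, hZ, hZE, hZc⟩ := PGrp.exists_normal_le_card_eq_pow hP E 1 (by rw [hc]; norm_num)
  rw [pow_one] at hZc
  exact ⟨Z, hZ, hZE, hZc, PGrp.le_center_of_card_eq_prime hP Z hZc, comm_mem hP hc hZE hZc⟩

theorem lemA (hP : IsPGroup 2 P) {E : Subgroup P} [hE : E.Normal] (he : IsElementaryAbelian 2 E)
    (hEc : Nat.card E = 2 ^ 2) (s : ℕ) :
    2 ^ (s + 3) ∣ {x : P | orderOf x = 2 ^ (s + 3)}.ncard := by
  obtain ⟨Z, hZ, hZE, -, hZ1, hZ2⟩ := exists_Z hP hEc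
  refine H4.dvd_ncard_of_fibers _ (fun x => zpowers (x ^ 2) ⊔ E) _ fun a ha => ?_
  have hpo : ∀ (x : P) k, orderOf x = 2 ^ (k + 1) → orderOf (x ^ 2) = 2 ^ k := fun x k hx => by
    rw [orderOf_pow_of_dvd two_ne_zero (hx ▸ dvd_pow_self 2 (by omega)), hx, pow_succ,
      Nat.mul_div_cancel _ two_pos]
  have hop : ∀ (x : P) k, orderOf (x ^ 2) = 2 ^ (k + 1) → orderOf x = 2 ^ (k + 2) := by
    intro x k h3
    obtain ⟨l, hl⟩ := IsPGroup.iff_orderOf.mp hP x
    rcases l with _ | l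
    · rw [pow_zero, orderOf_eq_one_iff] at hl
      rw [hl, one_pow, orderOf_one] at h3
      exact absurd h3.symm (Nat.one_lt_pow (by omega) one_lt_two).ne'
    · rw [hl, pow_succ, ← hpo x l hl, h3, ← pow_succ]
  set M := zpowers (a ^ 2) ⊔ E with hM
  have h1 : 2 ^ (s + 3) ∣ Nat.card M := by
    have h2 := card_sup_mul_card_inf (H := zpowers (a ^ 2)) (N := E) le_normalizer_of_normal
    rw [Nat.card_zpowers, hpo a _ ha, hEc] at h2
    obtain ⟨i, hi, h3⟩ := (Nat.dvd_prime_pow Nat.prime_two).mp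
      (hEc ▸ card_dvd_of_le (inf_le_right : zpowers (a ^ 2) ⊓ E ≤ E))
    have hi2 : i ≠ 2 := by
      rintro rfl
      have h4 : zpowers (a ^ 2) ⊓ E = E := eq_of_le_of_card_ge inf_le_right (by rw [h3, hEc])
      have : IsCyclic E := isCyclic_of_le (inf_eq_right.mp h4)
      obtain ⟨g, hg⟩ := IsCyclic.exists_ofOrder_eq_natCard (α := E)
      have h5 : orderOf g ∣ 2 := orderOf_dvd_of_pow_eq_one (Subtype.ext (he.2 g g.2))
      rw [hg, hEc] at h5
      omega
    refine Nat.dvd_of_mul_dvd_mul_right (pow_pos two_pos i) ?_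
    rw [h3] at h2
    rw [h2, ← pow_add, ← pow_add]
    exact pow_dvd_pow 2 (by omega)
  refine h1.trans (card_dvd_of_mul M _ ?_)
  rintro z ⟨hz, hzM⟩ u hu
  replace hzM : zpowers (z ^ 2) ⊔ E = M := hzM
  rw [← hzM, ← SetLike.mem_coe, mul_normal] at hu
  obtain ⟨_, ⟨j, rfl⟩, e, he', rfl⟩ := hu
  obtain ⟨j, hj⟩ : ∃ k : ℕ, (z ^ 2) ^ k = (z ^ 2) ^ j :=
    (mem_powers_iff_mem_zpowers (x := z ^ 2) (y := (z ^ 2) ^ j)).mpr ⟨j, rfl⟩
  simp only
  rw [← hj, ← mul_assoc, ← pow_mul, ← pow_succ']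
  have hcop : ∀ x : P, (orderOf x).Coprime (2 * j + 1) := fun x => by
    obtain ⟨l, hl⟩ := IsPGroup.iff_orderOf.mp hP x
    rw [hl]
    exact Nat.Coprime.pow_left _ (by simp)
  have h3 := hZ2 e he' (z ^ (2 * j + 1))
  have h2 : (z ^ (2 * j + 1) * e) ^ 2 = (z ^ 2) ^ (2 * j + 1) * ⁅e, z ^ (2 * j + 1)⁆ := by
    rw [PGrp.mul_pow_eq_of_commute_commutator (mem_center_iff.mp (hZ1 h3) _).symm
      (mem_center_iff.mp (hZ1 h3) _).symm, he.2 e he', mul_one, ← pow_mul, ← pow_mul, mul_comm 2 (2 * j + 1)]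
    simp
  generalize ⁅e, z ^ (2 * j + 1)⁆ = c at h2 h3
  refine ⟨hop _ _ (hop _ _ ?_), ?_⟩
  · rw [h2, Commute.mul_pow (mem_center_iff.mp (hZ1 h3) _), he.2 c (hZE h3), mul_one, ← pow_mul,
      mul_comm, pow_mul, (hcop _).orderOf_pow]
    exact hpo _ _ (hpo _ _ hz)
  · show zpowers ((z ^ (2 * j + 1) * e) ^ 2) ⊔ E = M
    have h4 : zpowers ((z ^ 2) ^ (2 * j + 1)) = zpowers (z ^ 2) :=
      eq_of_le_of_card_ge (zpowers_le.mpr (pow_mem (mem_zpowers _) _))
        (by rw [Nat.card_zpowers, Nat.card_zpowers, (hcop _).orderOf_pow])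
    rw [h2, ← hzM, ← h4]
    generalize (z ^ 2) ^ (2 * j + 1) = w
    refine le_antisymm (sup_le (zpowers_le.mpr (mul_mem_sup (mem_zpowers _) (hZE h3))) le_sup_right)
      (sup_le (zpowers_le.mpr ?_) le_sup_right)
    have := mul_mem_sup (mem_zpowers (w * c)) (E.inv_mem (hZE h3))
    rwa [mul_inv_cancel_right] at this

theorem lemB (hP : IsPGroup 2 P) {E : Subgroup P} [hE : E.Normal] (he : IsElementaryAbelian 2 E)
    (hEc : Nat.card E = 2 ^ 2) (hn : ¬ PGrp.IsDQSD P) : 4 ∣ {x : P | x ^ 2 = 1}.ncard := by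
  obtain ⟨Z, hZ, hZE, hZc, hZ1, hZ2⟩ := exists_Z hP hEc
  set C := centralizer (E : Set P) with hC
  have hEC : E ≤ C := le_centralizer_iff_isMulCommutative.mpr he.1
  have hsplit : {x : P | x ^ 2 = 1} = {x : P | x ^ 2 = 1 ∧ x ∈ C} ∪ {x : P | x ^ 2 = 1 ∧ x ∉ C} := by
    ext x
    simp only [Set.mem_setOf_eq, Set.mem_union]
    tauto
  rw [hsplit, Set.ncard_union_eq (Set.disjoint_left.mpr fun x h h' => h'.2 h.2)]
  refine dvd_add (Dvd.dvd.trans hEc.symm.dvd (card_dvd_of_mul E _ ?_)) ?_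
  · rintro x ⟨h1, h2⟩ u hu
    exact ⟨by rw [Commute.mul_pow (h2 u hu).symm, h1, he.2 u hu, mul_one], mul_mem h2 (hEC hu)⟩
  by_cases h : ∀ t : P, t ^ 2 = 1 → t ∉ C → 4 ∣ (centralizer ({t} : Set P)).index
  · let _ : MulAction P P := MulAction.compHom P (MulAut.conj : P →* MulAut P)
    refine Frob.dvd_ncard_of_dvd_index_stabilizer (A := P) _ ?_ fun x hx => ?_
    · rintro g x ⟨h1, h2⟩
      refine ⟨by show (g * x * g⁻¹) ^ 2 = 1; rw [conj_pow, h1]; simp, fun h3 => h2 ?_⟩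
      simpa [mul_assoc] using (inferInstance : C.Normal).mem_comm h3
    · convert h x hx.1 hx.2 using 2
      ext g
      rw [mem_centralizer_singleton_iff, MulAction.mem_stabilizer_iff, ← mul_inv_eq_iff_eq_mul]
      rfl
  push Not at h
  obtain ⟨t, ht, htC, h4⟩ := h
  set T := centralizer ({t} : Set P) with hT
  obtain ⟨e, heE, het⟩ : ∃ e ∈ E, e * t ≠ t * e := by
    by_contra h
    push Not at h
    exact htC h
  have heT : e ∉ T := fun h => het (mem_centralizer_singleton_iff.mp h)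
  have hidx : ∀ H : Subgroup P, H ≠ ⊤ → ¬ 4 ∣ H.index → H.index = 2 := by
    intro H h1 h2
    obtain ⟨k, hk⟩ := hP.index H
    rcases k with _ | _ | k
    · exact absurd (index_eq_one.mp hk) h1
    · exact hk
    · exact absurd ⟨2 ^ k, by rw [hk]; ring⟩ h2
  have hTi := hidx T (fun h => heT (h ▸ mem_top e)) h4
  have hCi := hidx C (fun h => htC (h ▸ mem_top t)) fun h => by
    have h1 := PGrp.index_centralizer_le_of_card_sq hP E hEc
    have h2 := Nat.le_of_dvd (Nat.pos_of_ne_zero index_ne_zero_of_finite) h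
    rw [hC] at h2
    omega
  haveI := normal_of_index_eq_two hTi
  obtain ⟨z, hz1, hzZ⟩ : ∃ z, z ≠ 1 ∧ ∀ w, w ∈ Z ↔ w = 1 ∨ w = z := by
    obtain ⟨⟨z, hz⟩, h1, h2⟩ := (Nat.card_eq_two_iff' (1 : Z)).mp hZc
    refine ⟨z, fun h => h1 (Subtype.ext h), fun w => ⟨fun hw => ?_, ?_⟩⟩
    · exact or_iff_not_imp_left.mpr fun h => congrArg Subtype.val
        (h2 ⟨w, hw⟩ fun h' => h (congrArg Subtype.val h'))
    · rintro (rfl | rfl)
      exacts [one_mem _, hz]
  have hz : z ∈ Z := (hzZ z).mpr (Or.inr rfl)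
  have hte : (t * e) ^ 2 = z := by
    have h3 := hZ2 e heE t
    rw [PGrp.mul_pow_eq_of_commute_commutator (mem_center_iff.mp (hZ1 h3) _).symm
      (mem_center_iff.mp (hZ1 h3) _).symm, he.2 e heE, ht]
    simpa using ((hzZ _).mp h3).resolve_left
      (mt commutatorElement_eq_one_iff_mul_comm.mp het)
  set K := C ⊓ T with hK
  have hZK : Z ≤ K := le_inf (hZE.trans hEC) (hZ1.trans (center_le_centralizer _))
  have h8 : 2 ^ 2 ≤ Nat.card K := by
    have h1 : K.index ≤ 2 * 2 := index_inf_le.trans (by rw [hCi, hTi])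
    have h2 := K.card_mul_index
    obtain ⟨n, hn'⟩ := hP.exists_card_eq
    have h3 : 2 ^ 2 * 2 ∣ Nat.card P := by
      rw [← C.card_mul_index, hCi, ← hEc]
      exact Nat.mul_dvd_mul_right (card_dvd_of_le hEC) 2
    have h5 : Nat.card P ≠ 8 := fun h => hn ⟨2, PGrp.isDQSD_of_card_eq_eight h fun h' =>
      het (h'.is_comm.comm _ _)⟩
    have h6 : 16 ≤ Nat.card P := by
      have := Nat.card_pos (α := P)
      omega
    by_contra h7
    nlinarith
  obtain ⟨W, hW, hZW, hWK, hWc⟩ := PGrp.exists_normal_card_eq_pow_between hP Z K hZK 2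
    (by rw [hZc]; norm_num) h8
  have h5 : 4 ∣ {k : P | k ∈ K ∧ k ^ 2 ∈ Z}.ncard := by
    refine Dvd.dvd.trans hWc.symm.dvd (card_dvd_of_mul W _ ?_)
    rintro k ⟨h1, h2⟩ w hw
    refine ⟨mul_mem h1 (hWK hw), ?_⟩
    have h6 : w ^ 2 ∈ Z := by
      have h6 := Z.pow_relIndex_mem hw
      have h7 := card_mul_relIndex hZW
      rw [hZc, hWc] at h7
      rwa [show Z.relIndex W = 2 by omega] at h6
    have h7 := comm_mem hP hWc hZW hZc w hw k
    rw [PGrp.mul_pow_eq_of_commute_commutator (mem_center_iff.mp (hZ1 h7) _).symm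
      (mem_center_iff.mp (hZ1 h7) _).symm]
    exact mul_mem (mul_mem h2 h6) (pow_mem h7 _)
  have htT : t ∈ T := mem_centralizer_singleton_iff.mpr rfl
  have h6 : {x : P | x ^ 2 = 1 ∧ x ∉ C} = (· * t) '' {k : P | k ∈ K ∧ k ^ 2 = 1} ∪
      (· * (t * e)) '' {k : P | k ∈ K ∧ k ^ 2 = z} := by
    have hc1 : ∀ k ∈ K, Commute k t := fun k hk => mem_centralizer_singleton_iff.mp hk.2
    have hc2 : ∀ k ∈ K, Commute k (t * e) := fun k hk =>
      (hc1 k hk).mul_right (hk.1 e heE).symm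
    have hz2 : z * z = 1 := by rw [← pow_two]; exact he.2 z (hZE hz)
    ext x
    constructor
    · rintro ⟨h1, h2⟩
      have h3 : x * t⁻¹ ∈ C := by
        rw [mul_mem_iff_of_index_two hCi, inv_mem_iff]; tauto
      by_cases h7 : x ∈ T
      · have h9 : x * t⁻¹ ∈ K := ⟨h3, T.mul_mem h7 (T.inv_mem htT)⟩
        refine Or.inl ⟨x * t⁻¹, ⟨h9, ?_⟩, inv_mul_cancel_right _ _⟩
        have := (hc1 _ h9).mul_pow 2
        rw [inv_mul_cancel_right, h1, ht, mul_one] at this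
        exact this.symm
      · have h9 : x * (t * e)⁻¹ ∈ K := by
          refine ⟨?_, ?_⟩
          · show _ ∈ C
            rw [mul_mem_iff_of_index_two hCi, inv_mem_iff, mul_mem_cancel_right (hEC heE)]; tauto
          · show _ ∈ T
            rw [mul_mem_iff_of_index_two hTi, inv_mem_iff, mul_mem_cancel_left htT]; tauto
        refine Or.inr ⟨x * (t * e)⁻¹, ⟨h9, ?_⟩, inv_mul_cancel_right _ _⟩
        have := (hc2 _ h9).mul_pow 2
        rw [inv_mul_cancel_right, h1, hte, ← hz2] at this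
        exact (mul_right_cancel this).symm
    · rintro (⟨k, ⟨h1, h2⟩, rfl⟩ | ⟨k, ⟨h1, h2⟩, rfl⟩)
      · exact ⟨by rw [(hc1 k h1).mul_pow, h2, ht, mul_one],
          fun h => htC ((C.mul_mem_cancel_left h1.1).mp h)⟩
      · exact ⟨by rw [(hc2 k h1).mul_pow, h2, hte, hz2], fun h => htC
          ((C.mul_mem_cancel_right (hEC heE)).mp ((C.mul_mem_cancel_left h1.1).mp h))⟩
  have h7 : {k : P | k ∈ K ∧ k ^ 2 ∈ Z} =
      {k : P | k ∈ K ∧ k ^ 2 = 1} ∪ {k : P | k ∈ K ∧ k ^ 2 = z} := by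
    ext k
    simp only [Set.mem_setOf_eq, Set.mem_union, hzZ]
    tauto
  rw [h6, Set.ncard_union_eq, Set.ncard_image_of_injective _ (mul_left_injective _),
    Set.ncard_image_of_injective _ (mul_left_injective _), ← Set.ncard_union_eq, ← h7]
  · exact h5
  · exact Set.disjoint_left.mpr fun k h1 h2 => hz1 (h2.2.symm.trans h1.2)
  · rw [Set.disjoint_left]
    rintro _ ⟨k, ⟨h1, -⟩, rfl⟩ ⟨l, ⟨h2, -⟩, h3⟩
    have h9 : l * (t * e) ∈ T := (show l * (t * e) = k * t from h3) ▸ T.mul_mem h1.2 htT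
    exact heT ((T.mul_mem_cancel_left htT).mp ((T.mul_mem_cancel_left h2.2).mp h9))

theorem result {G : Type*} [Group G] [Finite G] {p : ℕ} [Fact p.Prime] (m : ℕ)
    (hG : Nat.card G = p ^ m) (hnc : ¬ IsCyclic G) (h2 : p = 2 → Group.nilpotencyClass G ≠ m - 1)
    (k : ℕ) (hk1 : 1 ≤ k) (hk2 : k < m) :
    Nat.card {H : Subgroup G // Nat.card H = p ^ k} ≡ 1 + p [MOD p ^ 2] := by
  have hp : p.Prime := Fact.out
  have hP : IsPGroup p G := IsPGroup.of_card hG
  have h1 := H4.ncard_subgroups_modEq_sq (G := G) (a := k) hp (hG ▸ pow_dvd_pow p hk2)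
  change {H : Subgroup G | Nat.card H = p ^ k}.ncard ≡ _ [MOD _]
  have key : p ^ (k + 1) ∣ {x : G | orderOf x = p ^ (k + 1)}.ncard →
      {H : Subgroup G | Nat.card H = p ^ k}.ncard ≡ 1 + p [MOD p ^ 2] := by
    intro h
    rw [H4.ncard_orderOf_eq_mul_totient, Nat.totient_prime_pow_succ hp, mul_left_comm,
      pow_succ] at h
    have h3 := (Nat.Coprime.dvd_mul_right (by
      have := hp.two_le
      exact (Nat.coprime_self_sub_right (by omega)).mpr (by simp))).mp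
        (Nat.dvd_of_mul_dvd_mul_left (pow_pos hp.pos _) h)
    have h4 := (Nat.modEq_zero_iff_dvd.mpr h3).mul_right' p
    rw [← pow_two, zero_mul] at h4
    exact Nat.ModEq.add_right_cancel h4 h1
  obtain ⟨k, rfl⟩ : ∃ s, k = s + 1 := ⟨k - 1, by omega⟩
  by_cases hp2 : p = 2
  swap
  · exact key (S4003.pgroup hP hp2 hnc k)
  subst hp2
  have hn : ¬ PGrp.IsDQSD G := by
    rintro ⟨n, x, y, h⟩
    refine h2 rfl ?_
    have := Nat.pow_right_injective le_rfl (hG.symm.trans h.2.1)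
    rw [h.nilpotencyClass_eq, this, Nat.add_sub_cancel]
  obtain ⟨E, hE, he, hEc⟩ := ((PGrp.isCyclic_or_isDQSD_or_exists_normal_card_sq hP).resolve_left
    hnc).resolve_left fun h => hn h.2
  rcases k with _ | k
  swap
  · exact key (lemA hP he hEc k)
  have h3 := lemB hP he hEc hn
  have h4 := H4.ncard_orderOf_eq_mul_totient (G := G) 2
  have h5 : {x : G | x ^ 2 = 1} = insert 1 {x : G | orderOf x = 2} := by
    ext x
    simp only [Set.mem_setOf_eq, Set.mem_insert_iff, orderOf_eq_prime_iff]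
    constructor
    · tauto
    · rintro (rfl | h)
      exacts [one_pow 2, h.1]
  rw [h5, Set.ncard_insert_of_notMem (by simp), h4] at h3
  have h6 : {H : Subgroup G | Nat.card H = 2 ^ (0 + 1)} =
      {H : Subgroup G | Nat.card H = 2 ∧ IsCyclic H} := by
    ext H
    exact ⟨fun h => ⟨h, isCyclic_of_prime_card (p := 2) h⟩, fun h => h.1⟩
  rw [h6]
  simp only [Nat.totient_two, mul_one, Nat.ModEq] at h3 ⊢
  omega

end Cfsg.Agent.S4157
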