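import Cfsg.Statements.S4159
import Cfsg.Agent.Lib.H8FT
import Cfsg.Agent.Lib.ClassSize

set_option autoImplicit false
open Cfsg

namespace Cfsg.Agent.S4159

/-- Let G be a finite group such that in every subgroup H of G, any two conjugacy classes of H of size greater than 1 have non-coprime sizes. Then G is solvable. -/
theorem result {G : Type*} [Group G] [Finite G]
    (h : ∀ (H : Subgroup G) (x y : H), 1 < (Subgroup.centralizer ({x} : Set H)).index → 1 < (Subgroup.centralizer ({y} : Set H)).index →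
      ¬ ((Subgroup.centralizer ({x} : Set H)).index).Coprime (Subgroup.centralizer ({y} : Set H)).index) : Group.IsSolvable G := by
  by_contra hns
  obtain ⟨y, u, q, k, hq, hq2, hy1, hy, ⟨j, hu⟩, huy⟩ := CfsgLib.H8FT.exists_real_of_not_solvable hns
  have hn : Subgroup.zpowers u ≤ Subgroup.normalizer (Subgroup.zpowers y : Set G) :=
    Subgroup.zpowers_le.2 (CfsgLib.mem_normalizer_of_conj_mem fun x hx => by
      rw [CfsgLib.H5.inverts_of_mem_zpowers huy hx]; exact inv_mem hx)
  have hc : (q ^ k).Coprime (2 ^ j) := Nat.Coprime.pow _ _ ((Nat.coprime_primes hq Nat.prime_two).2 hq2)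
  have hnc : ¬ u * y = y * u := fun e => by
    have h1 : y ^ 2 = 1 := by
      rw [e, mul_inv_cancel_right] at huy
      rw [pow_two, ← eq_inv_iff_mul_eq_one, ← huy]
    have h2 := orderOf_dvd_of_pow_eq_one h1
    rw [hy] at h2
    exact hy1 (orderOf_eq_one_iff.1 (hy ▸ Nat.eq_one_of_dvd_coprimes
      (Nat.Coprime.pow_left k ((Nat.coprime_primes hq Nat.prime_two).2 hq2)) dvd_rfl h2))
  obtain ⟨h1, h2⟩ := CfsgLib.FT.relIndex_dvd_card_of_sup hn rfl
  rw [Nat.card_zpowers] at h1 h2
  set H := Subgroup.zpowers y ⊔ Subgroup.zpowers u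
  have hyH : y ∈ H := Subgroup.mem_sup_left (Subgroup.mem_zpowers y)
  have huH : u ∈ H := Subgroup.mem_sup_right (Subgroup.mem_zpowers u)
  have key : ∀ a b : H, ¬ (a : G) * b = b * a → 1 < (Subgroup.centralizer ({a} : Set H)).index :=
    fun a b hab => Subgroup.one_lt_index_of_ne_top fun e => hab (congrArg Subtype.val
      (Subgroup.mem_centralizer_singleton_iff.1 (e ▸ Subgroup.mem_top b : b ∈ _))).symm
  have key2 : ∀ a : H, (Subgroup.centralizer ({a} : Set H)).index ∣
      (Subgroup.zpowers (a : G)).relIndex H := fun a => by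
    rw [CfsgLib.Frob.index_centralizer_subtype]
    exact Subgroup.relIndex_dvd_of_le_left _ (Subgroup.zpowers_le.2
      (Subgroup.mem_centralizer_singleton_iff.2 rfl))
  exact h H ⟨u, huH⟩ ⟨y, hyH⟩ (key _ ⟨y, hyH⟩ hnc) (key _ ⟨u, huH⟩ fun e => hnc e.symm)
    (Nat.Coprime.coprime_dvd_left ((key2 _).trans (hy ▸ h1))
      (hc.coprime_dvd_right ((key2 _).trans (hu ▸ h2))))

end Cfsg.Agent.S4159
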