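import Cfsg.Statements.S4160
import Cfsg.Agent.Lib.H5SylowIn
import Cfsg.Agent.Lib.PComplement
import Cfsg.Agent.Lib.SylowIn

set_option autoImplicit false
open Cfsg

namespace Cfsg.Agent.S4160

open Subgroup CfsgLib

theorem aux {G : Type*} [Group G] [Finite G] (p : ℕ) [Fact p.Prime]
    (h : ¬ HasNormalPComplement p G) :
    2 * {x : G | ¬ p ∣ (centralizer ({x} : Set G)).index}.ncard ≤ Nat.card G := by
  classical
  obtain ⟨P⟩ : Nonempty (Sylow p G) := inferInstance
  have := Fintype.ofFinite (Sylow p G)
  have h1 : {x : G | ¬ p ∣ (centralizer ({x} : Set G)).index} ⊆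
      ⋃ Q ∈ (Finset.univ : Finset (Sylow p G)), (centralizer ((Q : Subgroup G) : Set G) : Set G) := by
    intro x hx
    obtain ⟨Q, hQ⟩ := H5.exists_sylow_le_of_not_dvd_index (p := p) hx
    simp only [Finset.mem_univ, Set.iUnion_true, Set.mem_iUnion]
    exact ⟨Q, fun y hy => mem_centralizer_singleton_iff.mp (hQ hy)⟩
  have h2 : ∀ Q : Sylow p G, (centralizer ((Q : Subgroup G) : Set G) : Set G).ncard =
      Nat.card (centralizer ((P : Subgroup G) : Set G)) := by
    intro Q
    obtain ⟨g, rfl⟩ := MulAction.exists_smul_eq G P Q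
    rw [sylow_coe_smul_eq_map, centralizer_map_conj, ← card_map_conj g]
    rfl
  have h3 := (Set.ncard_le_ncard h1).trans (Finset.set_ncard_biUnion_le _ _)
  simp only [h2, Finset.sum_const, Finset.card_univ, smul_eq_mul] at h3
  rw [← Nat.card_eq_fintype_card, P.card_eq_index_normalizer] at h3
  have hle : centralizer ((P : Subgroup G) : Set G) ≤ normalizer ((P : Subgroup G) : Set G) :=
    centralizer_le_normalizer _
  have hne : ¬ normalizer ((P : Subgroup G) : Set G) ≤ centralizer ((P : Subgroup G) : Set G) :=
    fun h' => h (PCompl.hnpc_of_normalizer_le_centralizer P h')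
  have h4 := card_mul_relIndex hle
  have h5 : 2 ≤ (centralizer ((P : Subgroup G) : Set G)).relIndex
      (normalizer ((P : Subgroup G) : Set G)) := by
    have h6 : (centralizer ((P : Subgroup G) : Set G)).relIndex
      (normalizer ((P : Subgroup G) : Set G)) ≠ 0 := index_ne_zero_of_finite
    have h7 := mt relIndex_eq_one.mp hne
    omega
  have h6 := (normalizer ((P : Subgroup G) : Set G)).index_mul_card
  calc _ ≤ 2 * ((normalizer ((P : Subgroup G) : Set G)).index *
        Nat.card (centralizer ((P : Subgroup G) : Set G))) := Nat.mul_le_mul_left _ h3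
    _ = (normalizer ((P : Subgroup G) : Set G)).index *
        (Nat.card (centralizer ((P : Subgroup G) : Set G)) * 2) := by ring
    _ ≤ _ := by rw [← h6, ← h4]; gcongr


/-- Let G be a finite group and p ≠ q primes each dividing the size of some conjugacy class of G, such that no conjugacy class size is divisible by pq. Then G has a normal p-complement or a normal q-complement. -/
theorem result {G : Type*} [Group G] [Finite G] (p q : ℕ) (hp : p.Prime) (hq : q.Prime) (hpq : p ≠ q)
    (hp' : ∃ x : G, p ∣ (Subgroup.centralizer ({x} : Set G)).index) (hq' : ∃ x : G, q ∣ (Subgroup.centralizer ({x} : Set G)).index) (h : ∀ x : G, ¬ p * q ∣ (Subgroup.centralizer ({x} : Set G)).index) :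
    Cfsg.HasNormalPComplement p G ∨ Cfsg.HasNormalPComplement q G := by
  by_contra hcon
  push Not at hcon
  have := Fact.mk hp
  have := Fact.mk hq
  have h1 := aux p hcon.1
  have h2 := aux q hcon.2
  have h3 := Set.ncard_union_add_ncard_inter {x : G | ¬ p ∣ (centralizer ({x} : Set G)).index}
    {x : G | ¬ q ∣ (centralizer ({x} : Set G)).index}
  have h4 : {x : G | ¬ p ∣ (centralizer ({x} : Set G)).index} ∪
      {x : G | ¬ q ∣ (centralizer ({x} : Set G)).index} = Set.univ := by
    rw [Set.eq_univ_iff_forall]
    intro x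
    by_contra hx
    simp only [Set.mem_union, Set.mem_ofPred_eq, not_or, not_not] at hx
    exact h x (((Nat.coprime_primes hp hq).mpr hpq).mul_dvd_of_dvd_of_dvd hx.1 hx.2)
  have h5 : 0 < ({x : G | ¬ p ∣ (centralizer ({x} : Set G)).index} ∩
      {x : G | ¬ q ∣ (centralizer ({x} : Set G)).index}).ncard := by
    rw [Set.ncard_pos]
    have : (centralizer ({1} : Set G)).index = 1 := by
      rw [index_eq_one, centralizer_eq_top_iff_subset]; simp
    exact ⟨1, by simp [this, hp.ne_one], by simp [this, hq.ne_one]⟩
  rw [h4, Set.ncard_univ] at h3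
  omega

end Cfsg.Agent.S4160
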