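import Cfsg.Statements.S4161
import Cfsg.Agent.Lib.ClsG.Basic

set_option autoImplicit false
open Cfsg

namespace Cfsg.Agent.S4161

open Subgroup CfsgLib.ClsG in
/-- Let G be a finite non-solvable group and p ≠ q primes each dividing the size of some conjugacy class of G. Then either some class size is divisible by pq, or there is a prime r, different from p and q, such that some class size is divisible by pr and some class size is divisible by rq. -/
theorem result {G : Type*} [Group G] [Finite G] (hG : ¬ Group.IsSolvable G)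
    (p q : ℕ) (hp : p.Prime) (hq : q.Prime) (hpq : p ≠ q) (hp' : ∃ x : G, p ∣ (Subgroup.centralizer ({x} : Set G)).index) (hq' : ∃ x : G, q ∣ (Subgroup.centralizer ({x} : Set G)).index) :
    (∃ x : G, p * q ∣ (Subgroup.centralizer ({x} : Set G)).index) ∨ ∃ r : ℕ, r.Prime ∧ r ≠ p ∧ r ≠ q ∧ (∃ x : G, p * r ∣ (Subgroup.centralizer ({x} : Set G)).index) ∧ (∃ y : G, r * q ∣ (Subgroup.centralizer ({y} : Set G)).index) := by
  by_contra hc
  push Not at hc
  obtain ⟨c1, c2⟩ := hc
  have key : ∀ {p q : ℕ}, p.Prime → q.Prime → p ≠ q → ∀ {x y : G}, p ∣ cs x → q ∣ cs y →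
      (∀ a b : G, p ∣ cs a → q ∣ cs b → (cs a).Coprime (cs b)) →
      (∀ r : ℕ, r.Prime → ∀ b : G, q ∣ cs b → r ∣ cs b → ∀ a : G, p ∣ cs a → ¬ r ∣ cs a) →
      ∀ Q : @Sylow q G _, (normalizer ((Q : Subgroup G) : Set G) ≤ centralizer ((Q : Subgroup G) : Set G)) → False := by
    intro p q hp hq hpq x y hx hy h h' Q h2
    haveI := Fact.mk hp
    haveI := Fact.mk hq
    obtain ⟨P⟩ : Nonempty (Sylow p G) := inferInstance
    have h1 := fun e => not_both (P := P) hpq hx hy h e h2
    have h3 := comm_le_cent hy h2 fun b hb => Nat.Coprime.symm (Nat.coprime_of_dvd' fun r hr e1 e2 => by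
      haveI := Fact.mk hr
      obtain ⟨R⟩ : Nonempty (Sylow r G) := inferInstance
      obtain ⟨K, -, k1, k2, -⟩ := exists_compl ((ito P R (h' r hr b hb e1)).resolve_left h1)
      exact absurd (e2.trans (card_dvd_of_le k2)) (hr.coprime_iff_not_dvd.1 k1.symm))
    refine hG ⟨2, ?_⟩
    rw [derivedSeries_succ, derivedSeries_one]
    exact commutator_eq_bot_iff_le_centralizer.2 h3
  have m : ∀ {r s n : ℕ}, r.Prime → s.Prime → r ≠ s → r ∣ n → s ∣ n → r * s ∣ n :=
    fun hr hs e => ((Nat.coprime_primes hr hs).2 e).mul_dvd_of_dvd_of_dvd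
  have h : ∀ r : ℕ, r.Prime → ∀ a b : G, p ∣ cs a → q ∣ cs b → r ∣ cs a → ¬ r ∣ cs b :=
    fun r hr a b ha hb e1 e2 => by
      by_cases e3 : r = p
      · exact c1 b (m hp hq hpq (e3 ▸ e2) hb)
      by_cases e4 : r = q
      · exact c1 a (m hp hq hpq ha (e4 ▸ e1))
      exact c2 r hr e3 e4 ⟨a, m hp hr (Ne.symm e3) ha e1⟩ b (m hr hq e4 e2 hb)
  have h' : ∀ a b : G, p ∣ cs a → q ∣ cs b → (cs a).Coprime (cs b) := fun a b ha hb =>
    Nat.coprime_of_dvd fun r hr => h r hr a b ha hb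
  obtain ⟨x, hx⟩ := hp'
  obtain ⟨y, hy⟩ := hq'
  haveI := Fact.mk hp
  haveI := Fact.mk hq
  obtain ⟨P⟩ : Nonempty (Sylow p G) := inferInstance
  obtain ⟨Q⟩ : Nonempty (Sylow q G) := inferInstance
  rcases ito P Q fun a ha e => c1 a (m hp hq hpq ha e) with e | e
  · exact key hq hp hpq.symm hy hx (fun a b ha hb => (h' b a hb ha).symm)
      (fun r hr b hb e1 a ha => h r hr b a hb ha e1) P e
  · exact key hp hq hpq hx hy h' (fun r hr b hb e1 a ha e2 => h r hr a b ha hb e2 e1) Q e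

end Cfsg.Agent.S4161
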