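import Cfsg.Statements.S4167
import Cfsg.Agent.Lib.H8FT
import Cfsg.Agent.Lib.H8SqClass

set_option autoImplicit false
open Cfsg

namespace Cfsg.Agent.S4167

/-- Let G be a finite group in which no conjugacy class has size divisible by 4. Then G is solvable. -/
theorem result {G : Type*} [Group G] [Finite G]
    (h : ∀ x : G, ¬ 4 ∣ (Subgroup.centralizer ({x} : Set G)).index) : Group.IsSolvable G := by
  by_cases h2 : 2 ∣ Nat.card G
  · exact CfsgLib.H8FT.solvable_of_hnpc_two
      (CfsgLib.SqClass.hnpc_of_not_sq_dvd_class G (fun r hr _ => hr.two_le) h)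
  · exact CfsgLib.H8FT.solvable_of_not_two_dvd h2

end Cfsg.Agent.S4167
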