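import Cfsg.Statements.S4168
import Cfsg.Agent.Lib.CoreComponents
import Cfsg.Agent.Lib.CorePiSep

set_option autoImplicit false
open Cfsg

namespace Cfsg.Agent.S4168

open Subgroup CfsgLib
open scoped Pointwise commutatorElement



theorem result {L : Type*} [Group L] [Finite L] (hL : Cfsg.IsQuasisimple L)
    (p : ℕ) (hp : p.Prime) (hdiv : p ∣ Nat.card (Subgroup.center L)) : p ∣ (Subgroup.center L).index := by
  by_contra hn
  have := Fact.mk hp
  -- Z = O_p(Z) central; L ≤ O_p ⊔ O_{p'}
  obtain ⟨P⟩ : Nonempty (Sylow p (center L)) := inferInstance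
  have h1 := le_sup_piCore_of_central (π := {p}) (D := ⊤)
    (Z := (P : Subgroup (center L)).map (center L).subtype) IsSubnormal.top
    (le_centralizer_iff.mp ((map_subtype_le _).trans (center_le_centralizer _)))
    (isPGroup_iff_isPiSubgroup.mp (P.isPGroup'.map _)) (by
      rintro q _ hd rfl
      rw [relIndex_top_right, index_map_subtype] at hd
      rcases (Nat.Prime.dvd_mul hp).mp hd with h | h
      · exact P.not_dvd_index h
      · exact hn h)
  rcases isQuasisimple_normal hL (piCore {p}ᶜ L) with h | h
  · exact isQuasisimple_center_ne_top hL (top_le_iff.mp (h1.trans (sup_le (map_subtype_le _) h)))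
  · exact piCore_isPiSubgroup {p}ᶜ p hp (hdiv.trans (card_dvd_of_le (h ▸ le_top))) rfl

end Cfsg.Agent.S4168
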