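import Cfsg.Statements.S4169
import Cfsg.Agent.Lib.MannIsaacs
import Cfsg.Agent.Lib.PGroupBasic

set_option autoImplicit false
open Cfsg

namespace Cfsg.Agent.S4169

/-- Let P be a finite p-group whose conjugacy classes have exactly two sizes (1 and one other value). Then P has nilpotency class at most 3. -/
theorem result {P : Type*} [Group P] [Finite P] {p : ℕ} [Fact p.Prime] (hP : IsPGroup p P)
    (m : ℕ) (hm : 1 < m) (h : ∀ x : P, (Subgroup.centralizer ({x} : Set P)).index = 1 ∨ (Subgroup.centralizer ({x} : Set P)).index = m) :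
    upperCentralSeries P 3 = ⊤ := by
  have := hP.isNilpotent
  obtain ⟨A, -, hn, hA, hCA⟩ := CfsgLib.PGrp.exists_scn_ge (⊥ : Subgroup P) inferInstance
  have h1 := CfsgLib.MannIsaacs.lcs_three_eq_bot A hA hCA m fun x hx => by
    rcases h x with h | h <;> omega
  have hc : Subgroup.closure {x : P | (Subgroup.centralizer ({x} : Set P)).index = 1 ∨
      (Subgroup.centralizer ({x} : Set P)).index = m} = ⊤ :=
    eq_top_iff.mpr fun x _ => Subgroup.subset_closure (h x)
  rw [hc] at h1
  exact Subgroup.lowerCentralSeries_eq_bot_iff_upperCentralSeries_eq_top.mp h1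

end Cfsg.Agent.S4169
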