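import Cfsg.Statements.S4170
import Cfsg.Agent.Lib.SylowIn

set_option autoImplicit false
open scoped Pointwise
open Cfsg

namespace Cfsg.Agent.S4170

open Subgroup CfsgLib
open scoped Pointwise commutatorElement

theorem key {G Ω : Type*} [Group G] [Finite G] [MulAction G Ω] {p : ℕ} [Fact p.Prime]
    {P H K : Subgroup G} (hP : IsSylowIn p P ⊤) (hPK : P ≤ K) (hHK : H ≤ K) (hH : ¬ p ∣ H.index) :
    ∃ x ∈ K, ∀ g ∈ P, x⁻¹ * g * x ∈ H := by
  obtain ⟨Q, hQ⟩ := IsSylowIn.exists_in (p := p) H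
  have h1 : IsSylowIn p Q K := by
    refine ⟨hQ.le.trans hHK, hQ.isPGroup, fun h => ?_⟩
    rw [← relIndex_mul_relIndex Q H K hQ.le hHK] at h
    rcases (Fact.out : p.Prime).dvd_mul.1 h with h | h
    · exact hQ.not_dvd h
    · exact hH (h.trans (relIndex_dvd_index_of_le hHK))
  obtain ⟨x, hx, h2⟩ := (hP.mono hPK le_top).exists_conj_eq h1
  refine ⟨x, hx, fun g hg => ?_⟩
  rw [← h2] at hg
  obtain ⟨q, hq, rfl⟩ := hg
  simpa [mul_assoc] using hQ.le hq

theorem result {Ω : Type*} [Fintype Ω] (p : ℕ) [Fact p.Prime] (hp : p ≠ 2) (G : Subgroup (Equiv.Perm Ω)) (hG : G ≠ ⊥) (hgen : Subgroup.closure {g : G | ∃ k : ℕ, orderOf g = p ^ k} = ⊤) :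
    ∃ Δ₁ Δ₂ : Set Ω, Δ₁.Nonempty ∧ Δ₂.Nonempty ∧ Disjoint Δ₁ Δ₂ ∧ p ∣ (MulAction.stabilizer G Δ₁ ⊓ MulAction.stabilizer G Δ₂).index := by
  by_contra hc
  push Not at hc
  obtain ⟨P, hP⟩ := IsSylowIn.exists_in (p := p) (⊤ : Subgroup G)
  obtain ⟨γ, g, hg, hγ⟩ : ∃ γ : Ω, ∃ g ∈ P, g • γ ≠ γ := by
    by_contra h
    push Not at h
    have h0 : P = ⊥ := by
      rw [eq_bot_iff]
      intro g hg
      exact Subtype.ext (Equiv.ext fun γ => h γ g hg)
    rw [h0, IsSylowIn.bot_iff, card_top] at hP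
    apply hG
    rw [eq_bot_iff]
    intro x hx
    have h1 : closure {g : G | ∃ k : ℕ, orderOf g = p ^ k} ≤ ⊥ := by
      rw [closure_le]
      rintro y ⟨k, hk⟩
      rcases k with _ | k
      · simpa using hk
      · exact absurd ((Dvd.intro_left _ (pow_succ p k).symm).trans (hk ▸ orderOf_dvd_natCard y)) hP
    have := h1 (hgen ▸ mem_top (⟨x, hx⟩ : G))
    simpa using this
  have st : ∀ {x : G} {Δ : Set Ω}, x ∈ MulAction.stabilizer G ({γ} : Set Ω) ⊓
      MulAction.stabilizer G Δ → x • γ = γ := fun hx => by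
    simpa using hx.1
  set F : Set Ω := {ω | ∀ g ∈ P, g • ω = ω} with hF
  by_cases hF0 : F.Nonempty
  · have hPF : P ≤ MulAction.stabilizer G F := fun y hy => by
      rw [MulAction.mem_stabilizer_iff]
      ext ω
      rw [Set.mem_smul_set_iff_inv_smul_mem]
      constructor
      · intro h
        have := h y hy
        rw [smul_inv_smul] at this
        rwa [← this] at h
      · intro h
        rwa [h y⁻¹ (inv_mem hy)]
    obtain ⟨x, hx, h1⟩ := key (Ω := Ω) hP hPF inf_le_right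
      (hc {γ} F (Set.singleton_nonempty γ) hF0 (by
        rw [Set.disjoint_singleton_left]; exact fun h => hγ (h g hg)))
    have h2 : x • γ ∈ F := fun y hy => by
      have := st (h1 y hy)
      rwa [mul_smul, mul_smul, inv_smul_eq_iff] at this
    rw [← (MulAction.mem_stabilizer_iff.1 hx), Set.smul_mem_smul_set_iff] at h2
    exact hγ (h2 g hg)
  · obtain ⟨x, -, h1⟩ := key (Ω := Ω) hP le_top le_top
      (hc {γ} {g • γ} (Set.singleton_nonempty γ) (Set.singleton_nonempty _) (by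
        rw [Set.disjoint_singleton]; exact hγ.symm))
    refine hF0 ⟨x • γ, fun y hy => ?_⟩
    have := st (h1 y hy)
    rwa [mul_smul, mul_smul, inv_smul_eq_iff] at this

end Cfsg.Agent.S4170
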