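import Cfsg.Statements.S4172
import Cfsg.Agent.Lib.CoreTate
import Cfsg.Agent.Lib.CoreComponents
import Cfsg.Agent.Lib.CoreElements
import Cfsg.Agent.Lib.CoreSolvable
import Cfsg.Agent.Lib.SchurTransfer
import Cfsg.Agent.Lib.SylowIn
import Cfsg.Agent.Lib.FrobZGroup
import Cfsg.Agent.Lib.CoprimePGroup

set_option autoImplicit false
open Cfsg

namespace Cfsg.Agent.S4172

open Subgroup CfsgLib
open scoped Pointwise commutatorElement

theorem exists_gen {G : Type*} [Group G] [Finite G] {p : ℕ} [hp : Fact p.Prime] (P : Subgroup G)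
    (hgen : (frattini P).index = p ^ 2) {M : Subgroup G}
    (h : ¬ M ⊓ P ≤ (frattini P).map P.subtype) : ∃ x ∈ P, P ≤ (M ⊓ P) ⊔ zpowers x := by
  set W := M.subgroupOf P ⊔ frattini P with hW
  have h1 : frattini P < W := lt_of_le_of_ne le_sup_right fun h2 => h fun x hx =>
    ⟨⟨x, hx.2⟩, h2.ge (mem_sup_left hx.1), rfl⟩
  have key : ∀ {A B : Subgroup P} {k : ℕ}, A < B → A.index ∣ p ^ (k + 1) → B.index ∣ p ^ k := by
    intro A B k hAB hA
    obtain ⟨i, hi, h3⟩ := (Nat.dvd_prime_pow hp.out).mp ((index_dvd_of_le hAB.le).trans hA)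
    have h4 := (index_strictAnti hAB).trans_le (Nat.le_of_dvd (pow_pos hp.out.pos _) hA)
    rw [h3] at h4 ⊢
    exact pow_dvd_pow _ (Nat.lt_succ_iff.mp ((Nat.pow_lt_pow_iff_right hp.out.one_lt).mp h4))
  have h2 : W.index ∣ p ^ (0 + 1) := key h1 (hgen ▸ dvd_rfl)
  obtain ⟨x, hx⟩ : ∃ x : P, W ⊔ zpowers x = ⊤ := by
    by_cases h3 : W = ⊤
    · exact ⟨1, by rw [h3, top_sup_eq]⟩
    · obtain ⟨x, -, hx⟩ := SetLike.exists_of_lt (lt_top_iff_ne_top.mpr h3)
      refine ⟨x, ?_⟩
      have := key (lt_of_le_of_ne (le_sup_left : W ≤ W ⊔ zpowers x) fun h4 =>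
        hx (h4.ge (mem_sup_right (mem_zpowers x)))) h2
      rwa [pow_zero, Nat.dvd_one, index_eq_one] at this
  have h5 : M.subgroupOf P ⊔ zpowers x = ⊤ := frattini_nongenerating (by
    rw [← hx, hW, sup_right_comm])
  refine ⟨x, x.2, ?_⟩
  have := congrArg (Subgroup.map P.subtype) h5
  rw [Subgroup.map_sup, subgroupOf_map_subtype, MonoidHom.map_zpowers,
    ← MonoidHom.range_eq_map, range_subtype] at this
  exact this.ge

theorem comm_le {G : Type*} [Group G] {P M : Subgroup G} (hM : P ≤ normalizer (M : Set G))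
    {x : G} (hx : x ∈ P) (h : P ≤ (M ⊓ P) ⊔ zpowers x) : ⁅P, P⁆ ≤ M := by
  have := normal_subgroupOf_of_le_normalizer hM
  have hn : zpowers x ≤ normalizer ((M ⊓ P : Subgroup G) : Set G) := by
    refine (zpowers_le.mpr hx).trans fun g hg => ?_
    exact inf_normalizer_le_normalizer_inf ⟨hM hg, le_normalizer hg⟩
  have key : ∀ a : P, ∃ i : ℤ, QuotientGroup.mk' (M.subgroupOf P) a =
      QuotientGroup.mk' (M.subgroupOf P) ⟨x, hx⟩ ^ i := fun a => by
    obtain ⟨_, ⟨i, rfl⟩, n, hn, h1⟩ := (mem_sup_iff_of_le_normalizer hn).mp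
      ((h.trans (sup_comm _ _).le) a.2)
    refine ⟨i, ?_⟩
    rw [← map_zpow, eq_comm]
    refine QuotientGroup.eq.mpr ?_
    show (x ^ i)⁻¹ * a ∈ M
    rw [← h1, inv_mul_cancel_left]
    exact hn.1
  rw [commutator_le]
  intro a ha b hb
  obtain ⟨i, hi⟩ := key ⟨a, ha⟩
  obtain ⟨j, hj⟩ := key ⟨b, hb⟩
  have : ⁅(⟨a, ha⟩ : P), ⟨b, hb⟩⁆ ∈ M.subgroupOf P := by
    rw [← QuotientGroup.eq_one_iff]
    show QuotientGroup.mk' _ _ = 1
    rw [map_commutatorElement, hi, hj, commutatorElement_eq_one_iff_commute]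
    exact Commute.zpow_zpow_self _ _ _
  exact this

theorem isPGroup_of_hnpc {G : Type*} [Group G] [Finite G] {p : ℕ} [hp : Fact p.Prime]
    (hcore : Cfsg.pPrimeCore p G = ⊥) {K : Subgroup G} (hK : K.IsSubnormal)
    (h : Cfsg.HasNormalPComplement p K) : IsPGroup p K :=
  PCompl.isPGroup_of_hnpc_of_pPrimeCore_eq_bot h (by
    have := map_pPrimeCore_le_of_isSubnormal p hK
    rwa [hcore, le_bot_iff, map_eq_bot_iff_of_injective _ K.subtype_injective] at this)

theorem cent_le {G : Type*} [Group G] [Finite G] {p : ℕ} [hp : Fact p.Prime] (P : Sylow p G)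
    (hcore : Cfsg.pPrimeCore p G = ⊥)
    (hfrat : ((frattini ↥(P : Subgroup G)).map (P : Subgroup G).subtype).normalCore = ⊥)
    {N : Subgroup G} (hN : IsMinNormal N) (hu : ∀ K : Subgroup G, K.Normal → K ≠ ⊥ → N ≤ K)
    {x : G} (hx : x ∈ P) (hPx : (P : Subgroup G) ≤ (N ⊓ P) ⊔ zpowers x) :
    centralizer (N : Set G) ≤ N := by
  have := hN.1
  set C := centralizer (N : Set G) with hC
  by_cases h0 : C = ⊥
  · rw [h0]; exact bot_le
  have hNC : N ≤ C := hu C inferInstance h0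
  have hcomm : IsMulCommutative N := ⟨⟨fun a b => Subtype.ext (hNC b.2 a a.2)⟩⟩
  have hNp : IsPGroup p N := by
    have h1 : N ≤ Cfsg.fittingSubgroup G := le_fitting_of_isMulCommutative
    rw [fitting_eq_pCore_of_pPrimeCore_eq_bot hcore] at h1
    exact (pCore_isPGroup p).to_le h1
  have hNP : N ≤ P := (le_pCore hNp).trans (pCore_le_sylow P)
  rw [inf_eq_left.mpr hNP] at hPx
  have hdec : ∀ a ∈ (P : Subgroup G), ∃ i : ℤ, ∃ n ∈ N, x ^ i * n = a := fun a ha => by
    obtain ⟨_, ⟨i, rfl⟩, n, hn, h1⟩ := (mem_sup_iff_of_le_normalizer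
      (H := zpowers x) (N := N) le_normalizer_of_normal).mp ((hPx.trans (sup_comm _ _).le) ha)
    exact ⟨i, n, hn, h1⟩
  have hA : ∀ a ∈ (P : Subgroup G) ⊓ C, ∀ b ∈ (P : Subgroup G) ⊓ C, Commute a b := by
    intro a ha b hb
    obtain ⟨i, n, hn, rfl⟩ := hdec a ha.1
    obtain ⟨j, m, hm, rfl⟩ := hdec b hb.1
    have h1 : x ^ i ∈ C := (C.mul_mem_cancel_right (hNC hn)).mp ha.2
    refine Commute.mul_left (Commute.mul_right (Commute.zpow_zpow_self _ _ _) (h1 m hm).symm) ?_
    exact hb.2 n hn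
  have hCC : ⁅C, C⁆ = ⊥ := by
    by_contra h1
    have h2 := hu _ inferInstance h1
    apply hN.2.1
    rw [eq_bot_iff]
    intro z hz
    have h3 := h2 hz
    rw [← map_subtype_commutator] at h3
    obtain ⟨z, h3, rfl⟩ := h3
    obtain ⟨h4, h5⟩ := H4.pow_index_mem_commutator_of_central
      (((P : Subgroup G) ⊓ C).subgroupOf C) (z := z) (by
        rw [mem_center_iff]; intro g; exact Subtype.ext (g.2 z hz).symm) h3
    have h6 : _root_.commutator (((P : Subgroup G) ⊓ C).subgroupOf C) = ⊥ := by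
      rw [_root_.commutator_def, eq_bot_iff, commutator_le]
      intro a _ b _
      rw [mem_bot, commutatorElement_eq_one_iff_mul_comm]
      exact Subtype.ext (Subtype.ext (hA a a.2 b b.2).eq)
    rw [h6, mem_bot] at h5
    have h7 : (z : G) ^ ((P : Subgroup G) ⊓ C).relIndex C = 1 :=
      congrArg (fun t => ((t : (((P : Subgroup G) ⊓ C).subgroupOf C)) : G)) h5
    obtain ⟨k, hk⟩ := orderOf_eq_pow_of_mem_isPGroup hNp hz
    have h8 := (IsSylowIn.sylow_inf_normal P C).not_dvd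
    rw [mem_bot, ← orderOf_eq_one_iff]
    refine Nat.eq_one_of_dvd_coprimes
      (((Nat.Prime.coprime_iff_not_dvd hp.out).mpr h8).pow_left k) (hk ▸ dvd_rfl)
      (orderOf_dvd_of_pow_eq_one h7)
  have hCP : C ≤ P := by
    have : IsMulCommutative C := ⟨⟨fun a b => Subtype.ext
      (commutator_eq_bot_iff_le_centralizer.mp hCC b.2 a a.2)⟩⟩
    have h1 : C ≤ Cfsg.fittingSubgroup G := le_fitting_of_isMulCommutative
    rw [fitting_eq_pCore_of_pPrimeCore_eq_bot hcore] at h1
    exact h1.trans (pCore_le_sylow P)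
  intro c hc
  by_contra hcN
  obtain ⟨i, n, hn, rfl⟩ := hdec c (hCP hc)
  have hyC : x ^ i ∈ C := (C.mul_mem_cancel_right (hNC hn)).mp hc
  have hyN : x ^ i ∉ N := fun h => hcN (N.mul_mem h hn)
  have hyp : (x ^ i) ^ p = 1 := by
    rw [← mem_bot, ← hfrat]
    intro g
    rw [← conj_pow]
    exact Cop.pow_mem_frattini_map P.isPGroup' (hCP (Normal.conj_mem inferInstance _ hyC g))
  have hdisj : zpowers x ⊓ N = ⊥ := by
    rw [eq_bot_iff]
    intro z hz
    by_contra hz1
    have hzp : z ^ p = 1 := (hN.isElementaryAbelian_of_isPGroup hNp).2 z hz.2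
    have := Frob.mem_zpowers_of_isCyclic (P := zpowers x) hz.1
      (zpow_mem (mem_zpowers x) i) (by rw [orderOf_eq_prime hzp hz1]; exact hyp)
    exact hyN (zpowers_le.mpr hz.2 this)
  obtain ⟨L, hL⟩ := Gaschuetz.exists_isComplement'_of_coprime (A := N) (H := P) (K := zpowers x)
    hdisj (le_antisymm (sup_le (zpowers_le.mpr hx) hNP) (hPx.trans (sup_comm _ _).le)) (by
      obtain ⟨k, hk⟩ := IsPGroup.iff_card.mp hNp
      rw [hk]
      exact Nat.Coprime.pow_right k ((Nat.Prime.coprime_iff_not_dvd hp.out).mpr P.not_dvd_index).symm)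
  have hCL : (C ⊓ L).Normal := ⟨fun w hw g => by
    obtain ⟨⟨l, m⟩, rfl⟩ := hL.2 g
    refine ⟨Normal.conj_mem inferInstance _ hw.1 _, ?_⟩
    have h1 : (l : G) * m * w * ((l : G) * m)⁻¹ = l * w * (l : G)⁻¹ := by
      rw [mul_assoc (l : G) m w, hw.1 m m.2]; group
    show (l : G) * m * w * ((l : G) * m)⁻¹ ∈ L
    rw [h1]
    exact L.mul_mem (L.mul_mem l.2 hw.2) (L.inv_mem l.2)⟩
  obtain ⟨⟨l, m⟩, hlm⟩ := hL.2 (x ^ i)
  have h1 : (l : G) * m = x ^ i := hlm
  have h2 : C ⊓ L ≠ ⊥ := fun h => by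
    have h3 : (l : G) ∈ C ⊓ L := ⟨(C.mul_mem_cancel_right (hNC m.2)).mp (h1 ▸ hyC), l.2⟩
    rw [h, mem_bot] at h3
    rw [h3, one_mul] at h1
    exact hyN (h1 ▸ m.2)
  exact hN.2.1 (hL.disjoint.symm.eq_bot_of_le ((hu _ hCL h2).trans inf_le_right))

theorem result {G : Type*} [Group G] [Finite G] (p : ℕ) [Fact p.Prime] (P : Sylow p G) (hna : ¬ IsMulCommutative (P : Subgroup G)) (hgen : (frattini ↥(P : Subgroup G)).index = p ^ 2) (hcore : Cfsg.pPrimeCore p G = ⊥) (hfrat : ((frattini ↥(P : Subgroup G)).map (P : Subgroup G).subtype).normalCore = ⊥) [hFn : (Cfsg.generalizedFittingSubgroup G).Normal] :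
    (Cfsg.generalizedFittingSubgroup G ≠ ⊥ ∧ ∀ K : Subgroup G, K.Normal → K ≠ ⊥ → Cfsg.generalizedFittingSubgroup G ≤ K) ∧
      IsCyclic ↥((P : Subgroup G).map (QuotientGroup.mk' (Cfsg.generalizedFittingSubgroup G))) ∧
      (¬ IsMulCommutative (Cfsg.generalizedFittingSubgroup G) → ∀ K L : Subgroup G, Cfsg.IsComponent K → Cfsg.IsComponent L → ∃ x ∈ (P : Subgroup G), L = K.map (MulAut.conj x).toMonoidHom) := by
  have hPP : ⁅(P : Subgroup G), (P : Subgroup G)⁆ ≠ ⊥ := fun h => hna ⟨⟨fun a b => Subtype.ext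
      (commutator_eq_bot_iff_le_centralizer.mp h b.2 a a.2)⟩⟩
  have hnorm : ∀ M : Subgroup G, M.Normal → M ≠ ⊥ →
      ∃ x ∈ (P : Subgroup G), (P : Subgroup G) ≤ (M ⊓ P) ⊔ zpowers x := by
    intro M hM h0
    refine exists_gen _ hgen fun h => h0 ?_
    have h1 := isPGroup_of_hnpc hcore hM.isSubnormal
      (hnpc_of_inf_le_frattini P le_normalizer_of_normal h)
    rw [inf_eq_left.mpr ((le_pCore h1).trans (pCore_le_sylow P))] at h
    rw [eq_bot_iff, ← hfrat]
    exact normal_le_normalCore.mpr h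
  have hnorm2 : ∀ M : Subgroup G, M.Normal → M ≠ ⊥ → ⁅(P : Subgroup G), (P : Subgroup G)⁆ ≤ M :=
    fun M hM h0 => let ⟨x, hx, h⟩ := hnorm M hM h0; comm_le le_normalizer_of_normal hx h
  have hnt : Nontrivial G := by
    by_contra h
    rw [not_nontrivial_iff_subsingleton] at h
    exact hPP (Subsingleton.elim _ _)
  obtain ⟨N, hN⟩ := exists_isMinNormal (G := G)
  have := hN.1
  have hu : ∀ K : Subgroup G, K.Normal → K ≠ ⊥ → N ≤ K := fun K hK h0 =>
    (hN.inf_eq_bot_or_le K).resolve_left fun h =>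
      hPP (le_bot_iff.mp (h ▸ le_inf (hnorm2 N hN.1 hN.2.1) (hnorm2 K hK h0)))
  obtain ⟨x, hx, hPx⟩ := hnorm N hN.1 hN.2.1
  have hC := cent_le P hcore hfrat hN hu hx hPx
  have hF : Cfsg.fittingSubgroup G ≤ centralizer (N : Set G) :=
    Cop.commutator_eq_bot_iff_le_centralizer'.mp hN.commutator_fitting_eq_bot
  have hEq : Cfsg.generalizedFittingSubgroup G = N := by
    refine le_antisymm (sup_le (layer_le_iff.mpr fun K hK => ?_) (hF.trans hC)) hN.le_genFitting
    rcases isComponent_le_or_commutator_eq_bot hK hN.1.isSubnormal with h | h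
    · exact h
    · exact (Cop.commutator_eq_bot_iff_le_centralizer'.mp h).trans hC
  refine ⟨⟨genFitting_ne_bot, fun K hK h0 => hEq.le.trans (hu K hK h0)⟩, ?_, ?_⟩
  · have h1 : (P : Subgroup G).map (QuotientGroup.mk' (Cfsg.generalizedFittingSubgroup G)) =
        zpowers (QuotientGroup.mk' (Cfsg.generalizedFittingSubgroup G) x) := by
      refine le_antisymm ((map_mono hPx).trans ?_) (zpowers_le.mpr (mem_map_of_mem _ hx))
      rw [Subgroup.map_sup, MonoidHom.map_zpowers]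
      refine sup_le (le_trans ?_ bot_le) le_rfl
      rw [le_bot_iff, Subgroup.map_eq_bot_iff, QuotientGroup.ker_mk']
      exact inf_le_left.trans hEq.ge
    rw [h1]
    infer_instance
  · intro hnc K L hK hL
    by_contra hne
    push Not at hne
    let O : Subgroup G → Prop := fun X => ∃ x ∈ (P : Subgroup G), X = K.map (MulAut.conj x).toMonoidHom
    have hO : ∀ X, ∀ g ∈ (P : Subgroup G), O X → O (X.map (MulAut.conj g).toMonoidHom) := by
      rintro _ g hg ⟨x, hx, rfl⟩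
      exact ⟨g * x, mul_mem hg hx, (map_conj_mul _ _ _).symm⟩
    have hS : ∀ (S : Set (Subgroup G)), (∀ X ∈ S, ∀ g ∈ (P : Subgroup G),
        X.map (MulAut.conj g).toMonoidHom ∈ S) → (∃ X ∈ S, Cfsg.IsComponent X) →
        ⁅(P : Subgroup G), (P : Subgroup G)⁆ ≤ sSup S := by
      rintro S h1 ⟨X, hX, hXc⟩
      have h2 : (P : Subgroup G) ≤ normalizer ((sSup S : Subgroup G) : Set G) := by
        intro g hg
        apply mem_normalizer_of_conj_mem
        have : (sSup S).map (MulAut.conj g).toMonoidHom ≤ sSup S := by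
          rw [map_le_iff_le_comap, sSup_le_iff]
          exact fun Y hY => map_le_iff_le_comap.mp (le_sSup (h1 Y hY g hg))
        exact fun x hx => this (conj_mem_map_conj hx)
      obtain ⟨y, hy, h3⟩ := exists_gen (M := sSup S) _ hgen fun h =>
        isComponent_not_isSolvable hXc (isSolvable_of_isPGroup (isPGroup_of_hnpc hcore hXc.1
          (PCompl.hnpc_of_le (hnpc_of_inf_le_frattini P h2 h) (le_sSup hX))))
      exact comm_le h2 hy h3
    have h1 := hS {X | Cfsg.IsComponent X ∧ O X}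
      (fun X hX g hg => ⟨isComponent_map_conj hX.1 g, hO X g hg hX.2⟩)
      ⟨K, ⟨hK, 1, one_mem _, (map_conj_one K).symm⟩, hK⟩
    have h2 := hS {X | Cfsg.IsComponent X ∧ ¬ O X}
      (fun X hX g hg => ⟨isComponent_map_conj hX.1 g, fun h => hX.2 (by
        have := hO _ g⁻¹ (inv_mem hg) h
        rwa [← map_conj_mul, inv_mul_cancel, map_conj_one] at this)⟩)
      ⟨L, ⟨hL, fun ⟨x, hx, h⟩ => hne x hx h⟩, hL⟩
    set D := ⁅(P : Subgroup G), (P : Subgroup G)⁆
    have h3 : Cfsg.generalizedFittingSubgroup G ≤ centralizer (D : Set G) := by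
      refine sup_le (layer_le_iff.mpr fun X hX => ?_) (hF.trans (centralizer_le
        (hnorm2 N hN.1 hN.2.1)))
      by_cases hOX : O X
      · refine le_trans ?_ (centralizer_le h2)
        rw [le_centralizer_iff, sSup_le_iff]
        intro Y hY
        rcases isComponent_eq_or_commutator_eq_bot hY.1 hX with h | h
        · exact absurd (h ▸ hOX) hY.2
        · exact commutator_eq_bot_iff_le_centralizer.mp h
      · refine le_trans ?_ (centralizer_le h1)
        rw [le_centralizer_iff, sSup_le_iff]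
        intro Y hY
        rcases isComponent_eq_or_commutator_eq_bot hY.1 hX with h | h
        · exact absurd (h ▸ hY.2) hOX
        · exact commutator_eq_bot_iff_le_centralizer.mp h
    rw [hEq, le_centralizer_iff] at h3
    have h4 := hu (centralizer (N : Set G)) inferInstance fun h => hPP (le_bot_iff.mp (h ▸ h3))
    exact hnc (hEq ▸ ⟨⟨fun a b => Subtype.ext (h4 b.2 a a.2)⟩⟩)

end Cfsg.Agent.S4172
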