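import Cfsg.Statements.S4176
import Cfsg.Agent.Lib.OrbitRep
import Cfsg.Agent.Lib.CorePiSep

set_option autoImplicit false
open Cfsg

namespace Cfsg.Agent.S4176

open CfsgLib CfsgLib.OrbitRep

universe u v

theorem aux {k : Type*} [Field k] (p : ℕ) [Fact p.Prime] [CharP k p] (H : Type u) [Group H]
    [Finite H] : ∀ (V : Type v) [AddCommGroup V] [Module k V] (_ : Cfsg.IsPSolvable p H)
    (ρ : Representation k H V) (a : V)
    (_ : ∃ P : Sylow p H, ∀ x : H, x ∈ (P : Subgroup H) → ρ x a = a)
    (_ : Submodule.span k {u : V | ∃ h : H, ρ h a = u} = ⊤),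
    (∃ v : V, ρ.invariants ≤ Submodule.span k {v}) ∧
    ∀ b : V, (stab ρ a).index.Coprime (stab ρ b).index → ∀ h : H, ρ h b = b := by
  revert H
  refine card_induction fun H _ _ ih => ?_
  intro V _ _ hsol ρ a ⟨P, hP⟩ hspan
  rcases subsingleton_or_nontrivial H with hH | hH
  · refine ⟨⟨_, invariants_le_span ρ (by simp) hspan⟩, fun b _ h => ?_⟩
    rw [Subsingleton.elim h 1]; simp
  obtain ⟨N, hN⟩ := exists_isMinNormal (G := H)
  have := hN.1
  let W := Representation.invariants (ρ.comp N.subtype)
  have main : ∃ e : V →ₗ[k] W, Function.Surjective e ∧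
      (∀ h v, (e (ρ h v) : V) = ρ h (e v)) ∧
      ∀ b : V, (stab ρ a).index.Coprime (stab ρ b).index → b ∈ W := by
    rcases isPSolvable_isMinNormal hsol hN with h | h
    · have hle : N ≤ P := (isPGroup_of_isElementaryAbelian h).le_sylow_of_normal P
      have hW : ∀ v : V, v ∈ W := by
        have : Submodule.span k {u : V | ∃ h : H, ρ h a = u} ≤ W := by
          rw [Submodule.span_le]
          rintro _ ⟨g, rfl⟩ ⟨n, hn⟩
          change ρ n (ρ g a) = ρ g a
          have e : n * g = g * (g⁻¹ * n * g) := by group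
          rw [← Module.End.mul_apply, ← map_mul, e, map_mul, Module.End.mul_apply,
            hP _ (hle (this.conj_mem' n hn g))]
        exact fun v => this (hspan ▸ Submodule.mem_top)
      exact ⟨LinearMap.id.codRestrict W hW, fun w => ⟨w, rfl⟩, fun _ _ => rfl, fun b _ => hW b⟩
    · have hc : (Nat.card N : k) ≠ 0 := fun h0 =>
        (Nat.Prime.coprime_iff_not_dvd Fact.out).mp h.symm ((CharP.cast_eq_zero_iff k p _).mp h0)
      refine ⟨(subSum ρ N).codRestrict W fun v n => apply_subSum ρ N n.2 v, fun w => ?_,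
        fun g v => subSum_comm ρ N g v, fun b hb n => fixed_of_coprime ρ N hc hspan hb n n.2⟩
      refine ⟨(Nat.card N : k)⁻¹ • (w : V), Subtype.ext ?_⟩
      change subSum ρ N ((Nat.card N : k)⁻¹ • (w : V)) = w
      rw [map_smul, subSum_of_fixed ρ N fun s hs => w.2 ⟨s, hs⟩,
        smul_smul, inv_mul_cancel₀ hc, one_smul]
  obtain ⟨e, he, hcomm, hb⟩ := main
  let ρ' := Representation.quotientToInvariants ρ N
  have hρ' : ∀ (h : H) (w : W), (ρ' (h : H ⧸ N) w : V) = ρ h w := fun _ _ => rfl
  obtain ⟨⟨v, hv⟩, h2⟩ := ih (H ⧸ N) (card_quotient_lt hN.2.1) W (isPSolvable_quotient hsol N) ρ'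
    (e a) ⟨P.mapSurjective (QuotientGroup.mk'_surjective N), by
      rintro _ ⟨x, hx, rfl⟩
      apply Subtype.ext
      rw [QuotientGroup.mk'_apply, hρ', ← hcomm, hP x hx]⟩ (by
      rw [eq_top_iff, ← LinearMap.range_eq_top.mpr he, ← Submodule.map_top, ← hspan,
        Submodule.map_span, Submodule.span_le]
      rintro _ ⟨_, ⟨g, rfl⟩, rfl⟩
      exact Submodule.subset_span ⟨g, Subtype.ext (by rw [hρ', hcomm])⟩)
  refine ⟨⟨v, fun w hw => ?_⟩, fun b hab h => ?_⟩
  · have : (⟨w, fun n => hw n⟩ : W) ∈ ρ'.invariants := by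
      intro q
      obtain ⟨g, rfl⟩ := QuotientGroup.mk_surjective q
      exact Subtype.ext (hw g)
    obtain ⟨c, hc⟩ := Submodule.mem_span_singleton.mp (hv this)
    exact Submodule.mem_span_singleton.mpr ⟨c, congrArg Subtype.val hc⟩
  · have key : ∀ (x : V) (y : W), (∀ g : H, ρ g x = x → ρ g y = y) →
        (stab ρ' y).index ∣ (stab ρ x).index := by
      intro x y hxy
      rw [← Subgroup.index_comap_of_surjective _ (QuotientGroup.mk'_surjective N)]
      exact Subgroup.index_dvd_of_le fun g hg => Subtype.ext (hxy g hg)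
    have := h2 ⟨b, hb b hab⟩ (Nat.Coprime.coprime_dvd_left
      (key a _ fun g hg => by rw [← hcomm, hg])
      (Nat.Coprime.coprime_dvd_right (key b _ fun g hg => hg) hab)) h
    exact congrArg Subtype.val this


/-- Let k be a field of prime characteristic p, H a finite p-soluble group and ρ a k-linear representation of H on V. Let a be a vector that is fixed by some Sylow p-subgroup of H and whose H-orbit spans V. Then the space of H-fixed vectors has dimension at most 1, and every vector b whose H-orbit has size coprime to the size of the orbit of a is fixed by H. -/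
theorem result {k V H : Type*} [Field k] (p : ℕ) [Fact p.Prime] [CharP k p] [AddCommGroup V] [Module k V]
    [Group H] [Finite H] (hsol : Cfsg.IsPSolvable p H) (ρ : Representation k H V) (a : V)
    (hfix : ∃ P : Sylow p H, ∀ x : H, x ∈ (P : Subgroup H) → ρ x a = a)
    (hspan : Submodule.span k {u : V | ∃ h : H, ρ h a = u} = ⊤) :
    Module.finrank k ρ.invariants ≤ 1 ∧
    ∀ b : V, (Nat.card {u : V | ∃ h : H, ρ h a = u}).Coprime (Nat.card {u : V | ∃ h : H, ρ h b = u}) → ∀ h : H, ρ h b = b := by
  obtain ⟨⟨v, hv⟩, h2⟩ := aux p H V hsol ρ a hfix hspan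
  refine ⟨finrank_le_one_of_le_span hv, fun b hb h => ?_⟩
  rw [card_orbit, card_orbit] at hb
  exact h2 b hb h

end Cfsg.Agent.S4176
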