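import Cfsg.Statements.S4178

set_option autoImplicit false
open Cfsg

namespace Cfsg.Agent.S4178

theorem index_le_of_rep {F W H : Type*} [Field F] [Fintype F] [AddCommGroup W] [Module F W]
    [FiniteDimensional F W] [Nontrivial W] [Group H] (ρ : Representation F H W) (R : Subgroup H)
    (hR : ∀ h : H, ∀ w : W, w ≠ 0 → ρ h w = w → h ∈ R) :
    R.index + 1 ≤ Fintype.card F ^ Module.finrank F W := by
  let _ : MulAction H W :=
    { smul := fun h v => ρ h v
      one_smul := fun v => by change ρ 1 v = v; simp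
      mul_smul := fun x y v => by change ρ (x * y) v = ρ x (ρ y v); simp }
  obtain ⟨w, hw⟩ := exists_ne (0 : W)
  have : Finite W := Module.finite_of_finite F
  have h1 : MulAction.stabilizer H w ≤ R := fun h hh => hR h w hw hh
  have h2 := MulAction.index_stabilizer H w
  have h3 : (MulAction.orbit H w).ncard < Nat.card W := by
    rw [← Set.ncard_univ]
    refine Set.ncard_lt_ncard ⟨Set.subset_univ _, fun h => ?_⟩
    obtain ⟨g, hg⟩ := h (Set.mem_univ 0)
    exact hw ((ρ.apply_bijective g).1 (hg.trans (map_zero _).symm))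
  have h4 : R.index ≤ (MulAction.stabilizer H w).index :=
    Nat.le_of_dvd (h2 ▸ (Set.ncard_pos (Set.toFinite _)).mpr ⟨w, MulAction.mem_orbit_self w⟩)
      (Subgroup.index_dvd_of_le h1)
  rw [Module.natCard_eq_pow_finrank (K := F), Nat.card_eq_fintype_card] at h3
  omega


/-- Let F be a finite field with q elements, V a non-zero finite-dimensional F-space of dimension d, H a group of invertible linear maps of V, and R the subgroup of H generated by the elements of H that fix some non-zero vector (have eigenvalue 1). Then the index of R in H is at most q^d − 1; and if H leaves invariant some proper non-zero subspace, the index is at most q^(d/2) − 1. -/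
theorem result {F V : Type*} [Field F] [Fintype F] [AddCommGroup V] [Module F V] [FiniteDimensional F V] [Nontrivial V]
    (H : Subgroup (V ≃ₗ[F] V)) :
    (Subgroup.closure {h : ↥H | ∃ v : V, v ≠ 0 ∧ (h : V ≃ₗ[F] V) v = v}).index ≤ Fintype.card F ^ Module.finrank F V - 1 ∧
    ((∃ W : Submodule F V, W ≠ ⊥ ∧ W ≠ ⊤ ∧ ∀ h ∈ H, ∀ w ∈ W, h w ∈ W) →
      ((Subgroup.closure {h : ↥H | ∃ v : V, v ≠ 0 ∧ (h : V ≃ₗ[F] V) v = v}).index : ℝ) ≤ Real.sqrt ((Fintype.card F : ℝ) ^ Module.finrank F V) - 1) := by
  let ρ : Representation F H V :=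
    { toFun := fun h => ((h : V ≃ₗ[F] V) : V →ₗ[F] V)
      map_one' := rfl
      map_mul' := fun _ _ => rfl }
  set R := Subgroup.closure {h : ↥H | ∃ v : V, v ≠ 0 ∧ (h : V ≃ₗ[F] V) v = v} with hR
  have hmem : ∀ h : H, ∀ w : V, w ≠ 0 → ρ h w = w → h ∈ R := fun h w hw e =>
    Subgroup.subset_closure ⟨w, hw, e⟩
  refine ⟨Nat.le_sub_one_of_lt (index_le_of_rep ρ R hmem), ?_⟩
  rintro ⟨W, hW0, hW1, hW⟩
  have hle : ∀ g : H, W ≤ W.comap (ρ g) := fun g w hw => hW g g.2 w hw
  have := Submodule.nontrivial_iff_ne_bot.mpr hW0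
  have := Submodule.Quotient.nontrivial_iff.mpr hW1
  have h1 := index_le_of_rep (ρ.subrepresentation W hle) R fun h w hw e =>
    hmem h w (fun h0 => hw (Subtype.ext h0)) (congrArg Subtype.val e)
  have h2 := index_le_of_rep (ρ.quotient W hle) R fun h w hw e => by
    by_contra hcon
    have hinj : Function.Injective (ρ h - 1 : V →ₗ[F] V) := by
      rw [injective_iff_map_eq_zero]
      intro v hv
      by_contra hv0
      exact hcon (hmem h v hv0 (sub_eq_zero.mp hv))
    have hinj' : Function.Injective ((ρ.subrepresentation W hle) h - 1 : W →ₗ[F] W) := by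
      intro a b hab
      exact Subtype.ext (hinj (congrArg Subtype.val hab))
    obtain ⟨v, rfl⟩ := Submodule.Quotient.mk_surjective W w
    have h3 : ρ h v - v ∈ W := (Submodule.Quotient.eq W).mp e
    obtain ⟨u, hu⟩ := LinearMap.surjective_of_injective hinj' ⟨_, h3⟩
    have h4 : (u : V) = v := hinj (congrArg Subtype.val hu)
    exact hw ((Submodule.Quotient.mk_eq_zero W).mpr (h4 ▸ u.2))
  have h3 := Nat.mul_le_mul h1 h2
  rw [← pow_add, add_comm (Module.finrank F W), Submodule.finrank_quotient_add_finrank] at h3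
  rw [le_sub_iff_add_le]
  apply Real.le_sqrt_of_sq_le
  rw [sq]
  exact_mod_cast h3

end Cfsg.Agent.S4178
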