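import Cfsg.Statements.S4179
import Cfsg.Agent.Lib.H9Mersenne
import Cfsg.Agent.Lib.IrrOperator

set_option autoImplicit false
open Cfsg

namespace Cfsg.Agent.S4179

open CfsgLib CfsgLib.H9.CK MulAction

theorem metab {V : Type*} [AddCommGroup V] [Module (ZMod 2) V] [Finite V] {n : ℕ}
    (hV : Nat.card V = 2 ^ n) (hp : (2 ^ n - 1).Prime) (H : Subgroup (V ≃ₗ[ZMod 2] V))
    (A : Subgroup H) [A.Normal] [IsMulCommutative A]
    (htr : ∀ v w : V, v ≠ 0 → w ≠ 0 → ∃ a ∈ A, a • v = w) :
    Nat.card A = 2 ^ n - 1 ∧ (Nat.card H = 2 ^ n - 1 ∨ Nat.card H = n * (2 ^ n - 1)) := by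
  have : Finite (V ≃ₗ[ZMod 2] V) := Finite.of_injective _ DFunLike.coe_injective
  have h2 := hp.two_le
  have : Nontrivial V := Finite.one_lt_card_iff_nontrivial.1 (by omega)
  obtain ⟨v, hv⟩ := exists_ne (0 : V)
  have h1 : ∀ g ∈ Subgroup.centralizer (A : Set H), g • v = v → g = 1 := fun g hg h => by
    refine Subtype.ext (LinearEquiv.ext fun w => ?_)
    by_cases hw : w = 0
    · simp [hw]
    obtain ⟨a, ha, rfl⟩ := htr v w hv hw
    change g • a • v = a • v
    rw [← mul_smul, ← hg a ha, mul_smul, h]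
  have h3 : Subgroup.centralizer (A : Set H) = A := by
    refine le_antisymm (fun g hg => ?_) A.le_centralizer
    obtain ⟨a, ha, h⟩ := htr v (g • v) hv fun h => hv ((smul_eq_zero_iff_eq g).1 h)
    rwa [← inv_mul_eq_one.1 (h1 (a⁻¹ * g) (mul_mem (inv_mem (A.le_centralizer ha)) hg)
      (by rw [mul_smul, ← h, inv_smul_smul]))]
  have h4 : Nat.card A = 2 ^ n - 1 := by
    rw [← hV, ← card_nzAct (G := H)]
    refine Nat.card_eq_of_bijective (fun a => ⟨a.1 • v, fun h => hv ((smul_eq_zero_iff_eq _).1 h)⟩)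
      ⟨fun a b h => Subtype.ext (inv_mul_eq_one.1 (h1 _ (A.le_centralizer (mul_mem (inv_mem a.2) b.2))
        ?_)), fun w => (htr v w hv w.2).elim fun a ha => ⟨⟨a, ha.1⟩, Subtype.ext ha.2⟩⟩
    rw [mul_smul, ← show a.1 • v = b.1 • v from congrArg Subtype.val h, inv_smul_smul]
  have : Fact (2 ^ n - 1).Prime := ⟨hp⟩
  obtain ⟨c, hc⟩ := (isCyclic_of_prime_card h4).exists_generator
  have h5 : (Nat.card A).Coprime 2 := by
    rw [h4, Nat.coprime_two_right]
    exact Nat.Even.sub_odd Nat.one_le_two_pow (Nat.even_pow.2 ⟨even_two, by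
      rintro rfl; omega⟩) odd_one
  let σ : MulAut A := ⟨powCoprime h5, fun x y => Commute.mul_pow (mul_comm' x y) 2⟩
  have h6 : ∀ j x, (σ ^ j) x = x ^ 2 ^ j := fun j x => by
    induction j with
    | zero => simp
    | succ j ih => rw [pow_succ', MulAut.mul_apply, ih, pow_succ, pow_mul]; rfl
  have h7 : orderOf σ ∣ n := orderOf_dvd_of_pow_eq_one (MulEquiv.ext fun x => by
    rw [h6, show 2 ^ n = 2 ^ n - 1 + 1 by omega, pow_succ, ← h4, pow_card_eq_one', one_mul]; rfl)
  have h8 : (MulAut.conjNormal (H := A)).range ≤ Subgroup.zpowers σ := by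
    rintro _ ⟨g, rfl⟩
    obtain ⟨r, hr⟩ := mem_powers_iff_mem_zpowers.2 (hc (MulAut.conjNormal g c))
    let f : H →* Module.End (ZMod 2) V := (LinearEquiv.automorphismGroup.toLinearMapMonoidHom).comp
      H.subtype
    have hf : Function.Injective f := fun a b h => Subtype.ext (LinearEquiv.toLinearMap_injective h)
    obtain ⟨j, hj⟩ := (Chr.irr_pow_card_pow (T := f c) fun W hW => by
      refine or_iff_not_imp_left.2 fun h => eq_top_iff.2 fun w _ => ?_
      obtain ⟨u, hu, hu0⟩ := (Submodule.ne_bot_iff W).1 h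
      by_cases hw : w = 0
      · simp [hw]
      obtain ⟨a, ha, rfl⟩ := htr u w hu0 hw
      obtain ⟨k, hk⟩ := mem_powers_iff_mem_zpowers.2 (hc ⟨a, ha⟩)
      rw [← show (c : H) ^ k = a from congrArg Subtype.val hk]
      clear hk
      induction k with
      | zero => simpa using hu
      | succ k ih => rw [pow_succ', mul_smul]; exact hW _ ih).2 (f g) r g.1.injective (by
        rw [← map_pow, ← map_mul, ← map_mul, show (c : H) ^ r = g * c * g⁻¹ from
          congrArg Subtype.val hr, inv_mul_cancel_right])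
    rw [Nat.card_zmod, ← map_pow, ← map_pow] at hj
    refine ⟨j, MulEquiv.ext fun x => ?_⟩
    obtain ⟨k, rfl⟩ := hc x
    simp only [zpow_natCast, map_zpow]
    rw [h6, ← hr]
    exact congrArg (· ^ k) (Subtype.ext (hf hj).symm)
  have h9 := (MulAut.conjNormal (H := A)).ker.card_mul_index
  rw [Subgroup.index_ker, show (MulAut.conjNormal (H := A)).ker = A from Eq.trans (b := Subgroup.centralizer (A : Set H)) (Subgroup.ext fun g =>
    ⟨fun h a ha => by
      exact (mul_inv_eq_iff_eq_mul.1 (congrArg Subtype.val (DFunLike.congr_fun h ⟨a, ha⟩))).symm,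
    fun h => MulEquiv.ext fun a => Subtype.ext (by simp [← h a a.2])⟩) h3, h4] at h9
  refine ⟨h4, ((Nat.dvd_prime (Nat.prime_of_pow_sub_one_prime (by rintro rfl; omega) hp).2).1
    (((Subgroup.card_dvd_of_le h8).trans (Nat.card_zpowers σ).dvd).trans h7)).imp
      (fun h => ?_) fun h => ?_⟩
  · rw [← h9, h, mul_one]
  · rw [← h9, h, mul_comm]

/-- Let V be a vector space of dimension n over the field with two elements with 2^n − 1 prime, and H a group of invertible linear maps of V. Then H is transitive on the non-zero vectors of V if and only if H is cyclic of order 2^n − 1, or H has order n·(2^n − 1) and contains a normal cyclic subgroup of order 2^n − 1, or H is the whole general linear group of V. -/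
theorem result {V : Type*} [AddCommGroup V] [Module (ZMod 2) V] [Finite V] (n : ℕ) (hn : Module.finrank (ZMod 2) V = n)
    (hprime : (2 ^ n - 1).Prime) (H : Subgroup (V ≃ₗ[ZMod 2] V)) :
    (∀ v w : V, v ≠ 0 → w ≠ 0 → ∃ h ∈ H, h v = w) ↔
      ((IsCyclic ↥H ∧ Nat.card ↥H = 2 ^ n - 1) ∨
       (Nat.card ↥H = n * (2 ^ n - 1) ∧ ∃ C : Subgroup (V ≃ₗ[ZMod 2] V), C ≤ H ∧ (C.subgroupOf H).Normal ∧
          IsCyclic ↥C ∧ Nat.card ↥C = 2 ^ n - 1) ∨
       H = ⊤) := by
  have : Ch2 V := ⟨fun v => by rw [← two_smul (ZMod 2) v]; exact zero_smul _ v⟩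
  have : Finite (V ≃ₗ[ZMod 2] V) := Finite.of_injective _ DFunLike.coe_injective
  have hV : Nat.card V = 2 ^ n := by
    rw [Module.natCard_eq_pow_finrank (K := ZMod 2), Nat.card_zmod, hn]
  have : Fact (2 ^ n - 1).Prime := ⟨hprime⟩
  have hf : ∀ K : Subgroup (V ≃ₗ[ZMod 2] V), ∀ g : K, (∀ v : V, g • v = v) → g = 1 :=
    fun K g hg => Subtype.ext (LinearEquiv.ext hg)
  refine ⟨fun h => ?_, ?_⟩
  · have htr : ∀ v w : V, v ≠ 0 → w ≠ 0 → ∃ g : H, g • v = w := fun v w hv hw =>
      (h v w hv hw).elim fun g hg => ⟨⟨g, hg.1⟩, hg.2⟩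
    rcases full_or_metabelian (G := H) (by rwa [hV]) htr with h1 | h1
    · refine Or.inr (Or.inr (eq_top_iff.2 fun σ _ => ?_))
      obtain ⟨g, hg⟩ := h1 σ.toAddEquiv
      exact (show g.1 = σ from LinearEquiv.ext hg) ▸ g.2
    obtain ⟨A, _, _, hA⟩ : ∃ A : Subgroup H, A.Normal ∧ IsMulCommutative A ∧
        ∀ v w : V, v ≠ 0 → w ≠ 0 → ∃ a ∈ A, a • v = w := by
      by_cases h2 : commutator H = ⊥
      · exact ⟨⊤, inferInstance, Subgroup.le_centralizer_iff_isMulCommutative.1
          (Subgroup.commutator_eq_bot_iff_le_centralizer.1 h2),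
          fun v w hv hw => (htr v w hv hw).imp fun g hg => ⟨trivial, hg⟩⟩
      refine ⟨commutator H, inferInstance, Subgroup.le_centralizer_iff_isMulCommutative.1
        (Subgroup.commutator_eq_bot_iff_le_centralizer.1 (eq_bot_iff.2 fun g hg =>
          hf H g (h1 g hg))), fun v w hv hw => ?_⟩
      have : IsPretransitive H (nzAct H V) :=
        ⟨fun v w => (htr v w v.2 w.2).imp fun g hg => Subtype.ext hg⟩
      have := IsPreprimitive.of_prime_card (G := H) (X := nzAct H V) (by rwa [card_nzAct, hV])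
      obtain ⟨g, hg⟩ := (IsQuasiPreprimitive.isPretransitive_of_normal (N := commutator H)
        (X := nzAct H V) fun h3 => h2 (eq_bot_iff.2 fun g hg => hf H g fun u => by
          by_cases hu : u = 0
          · rw [hu, smul_zero]
          · exact congrArg Subtype.val (h3.ge (Set.mem_univ ⟨u, hu⟩) ⟨g, hg⟩))).exists_smul_eq
        ⟨v, hv⟩ ⟨w, hw⟩
      exact ⟨g, g.2, congrArg Subtype.val hg⟩
    obtain ⟨h2, h3 | h3⟩ := metab hV hprime H A hA
    · exact Or.inl ⟨isCyclic_of_prime_card h3, h3⟩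
    · have h4 : Nat.card (A.map H.subtype) = 2 ^ n - 1 := by
        rw [Subgroup.card_map_of_injective H.subtype_injective, h2]
      refine Or.inr (Or.inl ⟨h3, A.map H.subtype, Subgroup.map_subtype_le A, ?_,
        isCyclic_of_prime_card h4, h4⟩)
      rwa [Subgroup.subgroupOf, Subgroup.comap_map_eq_self_of_injective H.subtype_injective]
  · rintro (⟨-, h⟩ | ⟨-, C, hC, -, -, h⟩ | rfl) v w hv hw
    · exact (trans_of_card (by rwa [hV]) (hf H) (by rwa [hV]) hv hw).elim fun g hg => ⟨g, g.2, hg⟩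
    · exact (trans_of_card (by rwa [hV]) (hf C) (by rwa [hV]) hv hw).elim
        fun g hg => ⟨g, hC g.2, hg⟩
    · obtain ⟨g, hg⟩ := Submodule.exists_linearEquiv_restrict_eq
        ((LinearEquiv.toSpanNonzeroSingleton (ZMod 2) V v hv).symm.trans
          (LinearEquiv.toSpanNonzeroSingleton (ZMod 2) V w hw))
      exact ⟨g, trivial, by
        have := hg (LinearEquiv.toSpanNonzeroSingleton (ZMod 2) V v hv 1)
        rw [LinearEquiv.trans_apply, LinearEquiv.symm_apply_apply] at this
        simpa using this.symm⟩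

end Cfsg.Agent.S4179
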