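import Cfsg.Statements.S4182
import Cfsg.Agent.Lib.SylowIn
import Cfsg.Agent.Lib.H1Amb

set_option autoImplicit false
open Cfsg

namespace Cfsg.Agent.S4182

open Subgroup CfsgLib

section
variable {G : Type*} [Group G]

/-- the subgroup generated by the `p`-elements of `H` -/
def gen (p : ℕ) (H : Subgroup G) : Subgroup G :=
  closure {g : G | g ∈ H ∧ ∃ k : ℕ, orderOf g = p ^ k}

theorem gen_le (p : ℕ) (H : Subgroup G) : gen p H ≤ H := (closure_le _).2 fun _ h => h.1

theorem gen_mono (p : ℕ) {H L : Subgroup G} (h : H ≤ L) : gen p H ≤ gen p L :=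
  closure_mono fun _ hg => ⟨h hg.1, hg.2⟩

theorem gen_gen (p : ℕ) (H : Subgroup G) : gen p (gen p H) = gen p H :=
  le_antisymm (gen_le _ _) (closure_mono fun _ hg => ⟨subset_closure hg, hg.2⟩)

theorem gen_map_conj (p : ℕ) {X : Subgroup G} (h : gen p X = X) (g : G) :
    gen p (X.map (MulAut.conj g).toMonoidHom) = X.map (MulAut.conj g).toMonoidHom := by
  refine le_antisymm (gen_le _ _) ?_
  conv_lhs => rw [← h, gen, MonoidHom.map_closure]
  refine closure_mono ?_
  rintro _ ⟨x, ⟨hx, k, hk⟩, rfl⟩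
  exact ⟨mem_map_of_mem _ hx, k, by
    rw [← hk]; exact orderOf_injective (MulAut.conj g).toMonoidHom (MulAut.conj g).injective x⟩

theorem gen_of_isPGroup {p : ℕ} [Fact p.Prime] {P : Subgroup G} (h : IsPGroup p P) :
    gen p P = P := by
  refine le_antisymm (gen_le _ _) fun x hx => subset_closure ⟨hx, ?_⟩
  obtain ⟨k, hk⟩ := IsPGroup.iff_orderOf.1 h ⟨x, hx⟩
  exact ⟨k, by rw [← hk, orderOf_mk]⟩

theorem pgroup_cover [Finite G] {p : ℕ} [hp : Fact p.Prime] {H : Subgroup G} (hH : IsPGroup p H)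
    {ι : Type*} [Fintype ι] (K : ι → Subgroup G) (hK : ∀ i, ¬ H ≤ K i)
    (hcov : ∀ g ∈ H, ∃ i, g ∈ K i) : p + 1 ≤ Fintype.card ι := by
  classical
  have := Fintype.ofFinite G
  by_contra hlt
  push Not at hlt
  have h1 : ∀ i, p * Nat.card ↥(K i ⊓ H) ≤ Nat.card H := fun i => by
    have h2 : (K i ⊓ H).relIndex H ≠ 1 := fun h => hK i ((relIndex_eq_one.1 h).trans inf_le_left)
    obtain ⟨n, hn⟩ := (hH.index ((K i ⊓ H).subgroupOf H))
    have h3 : p ≤ (K i ⊓ H).relIndex H := by
      rw [relIndex] at h2 ⊢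
      rw [hn] at h2 ⊢
      exact Nat.le_self_pow (fun h => h2 (by rw [h, pow_zero])) p
    rw [← ((K i ⊓ H).subgroupOf H).index_mul_card,
      Nat.card_congr (subgroupOfEquivOfLe (inf_le_right : K i ⊓ H ≤ H)).toEquiv]
    exact Nat.mul_le_mul_right _ h3
  have h4 : ∀ L : Subgroup G, ((Finset.univ.filter fun g => g ∈ L).erase 1).card + 1 =
      Nat.card L := fun L => by
    rw [Finset.card_erase_add_one (by simp), ← Fintype.card_subtype, Nat.card_eq_fintype_card]
  have h5 : (Finset.univ.filter fun g => g ∈ H).erase 1 ⊆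
      Finset.univ.biUnion fun i => (Finset.univ.filter fun g => g ∈ K i ⊓ H).erase 1 := by
    intro g hg
    simp only [Finset.mem_erase, Finset.mem_filter, Finset.mem_univ, true_and,
      Finset.mem_biUnion] at hg ⊢
    obtain ⟨i, hi⟩ := hcov g hg.2
    exact ⟨i, hg.1, mem_inf.2 ⟨hi, hg.2⟩⟩
  have h6 := (Finset.card_le_card h5).trans Finset.card_biUnion_le
  have h7 : p * (∑ i, ((Finset.univ.filter fun g => g ∈ K i ⊓ H).erase 1).card) +
      p * Fintype.card ι ≤ Fintype.card ι * Nat.card H := by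
    rw [← mul_add, ← Finset.card_univ, Finset.card_eq_sum_ones, ← Finset.sum_add_distrib,
      Finset.mul_sum, Finset.sum_mul]
    exact Finset.sum_le_sum fun i _ => by rw [h4, one_mul]; exact h1 i
  have h8 := h4 H
  obtain ⟨i, -⟩ := hcov 1 (one_mem H)
  have h9 : 0 < Fintype.card ι := Fintype.card_pos_iff.2 ⟨i⟩
  have h10 := hp.out.two_le
  set a := ((Finset.univ.filter fun g => g ∈ H).erase 1).card
  set s := ∑ i, ((Finset.univ.filter fun g => g ∈ K i ⊓ H).erase 1).card
  set n := Fintype.card ι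
  rw [← h8] at h7
  have h11 : n * a ≤ p * s := Nat.mul_le_mul (by omega) h6
  nlinarith

theorem aux [Finite G] {p : ℕ} [hp : Fact p.Prime] {ι : Type*} [Fintype ι] (K : ι → Subgroup G)
    (hcov : ∀ g : G, (∃ k : ℕ, orderOf g = p ^ k) → ∃ i, g ∈ K i) (H : Subgroup G)
    (hH : gen p H = H) (hK : ∀ i, ¬ H ≤ K i) : p + 1 ≤ Fintype.card ι := by
  induction H using WellFoundedLT.induction with
  | ind H ih =>
  by_contra hlt
  have h1 : ∀ X, X < H → gen p X = X → ∃ i, X ≤ K i := fun X h h' => by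
    by_contra h2
    push Not at h2
    exact hlt (ih X h h' h2)
  obtain ⟨P, hP⟩ := IsSylowIn.exists_in (p := p) H
  rcases hP.le.eq_or_lt with rfl | hPH
  · refine hlt (pgroup_cover hP.isPGroup K hK fun g hg => hcov g ?_)
    obtain ⟨k, hk⟩ := IsPGroup.iff_orderOf.1 hP.isPGroup ⟨g, hg⟩
    exact ⟨k, by rw [← hk, orderOf_mk]⟩
  obtain ⟨X, hPX, hX⟩ := Finite.exists_le_maximal (p := fun X => X < H ∧ gen p X = X)
    ⟨hPH, gen_of_isPGroup hP.isPGroup⟩
  have h2 : ∀ h ∈ H, ∃ i, X.map (MulAut.conj h).toMonoidHom = gen p (K i ⊓ H) := fun h hh => by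
    have e : H.map (MulAut.conj h).toMonoidHom = H :=
      map_conj_eq_of_mem_normalizer (le_normalizer hh)
    have e' : H.map (MulAut.conj h⁻¹).toMonoidHom = H :=
      map_conj_eq_of_mem_normalizer (le_normalizer (inv_mem hh))
    have k1 : X.map (MulAut.conj h).toMonoidHom < H := e ▸ map_conj_lt_map_conj h hX.1.1
    obtain ⟨i, hi⟩ := h1 _ k1 (gen_map_conj p hX.1.2 h)
    have k2 : X.map (MulAut.conj h).toMonoidHom ≤ gen p (K i ⊓ H) :=
      (gen_map_conj p hX.1.2 h).ge.trans (gen_mono p (le_inf hi k1.le))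
    have k3 : gen p (K i ⊓ H) < H := lt_of_le_of_lt (gen_le _ _)
      (lt_of_le_of_ne inf_le_right fun h => hK i (inf_eq_right.1 h))
    have k4 := hX.2 (y := (gen p (K i ⊓ H)).map (MulAut.conj h⁻¹).toMonoidHom)
      ⟨(map_conj_lt_map_conj h⁻¹ k3).trans_eq e', gen_map_conj p (gen_gen _ _) _⟩
      ((map_conj_inv_map_conj h X).ge.trans (map_mono k2))
    exact ⟨i, le_antisymm k2 ((map_conj_map_conj_inv h _).ge.trans (map_mono k4))⟩
  have h3 : ∀ y ∈ P, ∀ h ∈ H, h⁻¹ * y * h ∈ normalizer (X : Set G) := fun y hy h hh => by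
    by_contra hn
    have : Nonempty ι := ⟨(h2 1 (one_mem H)).choose⟩
    choose! f hf using h2
    have hyH := hP.le hy
    obtain ⟨k, hk⟩ := IsPGroup.iff_orderOf.1 hP.isPGroup ⟨y, hy⟩
    rw [orderOf_mk] at hk
    have key : ∀ a b : G, a ∈ H → b ∈ H → f a = f b → b⁻¹ * a ∈ normalizer (X : Set G) :=
      fun a b ha hb e => mem_normalizer_of_map_conj_eq (by
        rw [map_conj_mul, hf a ha, e, ← hf b hb, map_conj_inv_map_conj])
    have hz : ∀ j : ℕ, 0 < j → j < p → (h⁻¹ * y * h) ^ j ∉ normalizer (X : Set G) :=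
      fun j h0 hj hm => hn (by
        have hc : j.Coprime (orderOf (h⁻¹ * y * h)) := by
          rw [show h⁻¹ * y * h = (MulAut.conj h⁻¹) y by simp, (MulAut.conj h⁻¹).orderOf_eq, hk]
          exact ((Nat.coprime_of_lt_prime h0.ne' hj hp.out).pow_left _).symm
        obtain ⟨m, hm'⟩ := exists_pow_eq_self_of_coprime hc
        rw [← hm']
        exact pow_mem hm m)
    have hlt' : ∀ a b : ℕ, a < b → b < p → f (y ^ b * h) ≠ f (y ^ a * h) := fun a b hab hb e => by
      have := key _ _ (mul_mem (pow_mem hyH b) hh) (mul_mem (pow_mem hyH a) hh) e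
      refine hz (b - a) (by omega) (by omega) ?_
      rwa [show (y ^ a * h)⁻¹ * (y ^ b * h) = (h⁻¹ * y * h) ^ (b - a) by
        rw [show h⁻¹ * y * h = h⁻¹ * y * h⁻¹⁻¹ by simp, conj_pow, pow_sub _ hab.le]
        have : (y ^ a)⁻¹ * y ^ b = y ^ b * (y ^ a)⁻¹ :=
          ((Commute.pow_pow_self y a b).inv_left).eq
        simp only [mul_inv_rev, inv_inv, mul_assoc]
        rw [← mul_assoc (y ^ a)⁻¹, this, mul_assoc]] at this
    have hne : ∀ a : ℕ, f (y ^ a * h) ≠ f 1 := fun a e => by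
      have h5 := key _ _ (mul_mem (pow_mem hyH a) hh) (one_mem H) e
      rw [inv_one, one_mul] at h5
      have h6 : y ∈ normalizer (X : Set G) := le_normalizer (hPX hy)
      have h7 := (mul_mem_cancel_left (pow_mem h6 a)).1 h5
      exact hn (mul_mem (mul_mem (inv_mem h7) h6) h7)
    refine hlt ?_
    have hinj : Function.Injective (fun o : Option (Fin p) =>
        o.elim (f 1) fun a => f (y ^ (a : ℕ) * h)) := by
      rintro (_ | a) (_ | b) e
      · rfl
      · exact absurd e.symm (hne b)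
      · exact absurd e (hne a)
      · rcases lt_trichotomy (a : ℕ) b with h5 | h5 | h5
        · exact absurd e.symm (hlt' a b h5 b.2)
        · rw [Fin.ext h5]
        · exact absurd e (hlt' b a h5 a.2)
    simpa using Fintype.card_le_of_injective _ hinj
  have h4 : ∀ g ∈ H, (∃ k : ℕ, orderOf g = p ^ k) → ∃ h ∈ H, ∃ y ∈ P, g = h⁻¹ * y * h :=
    fun g hg ⟨k, hk⟩ => by
      obtain ⟨h, hh, h5⟩ := hP.exists_conj_le (IsPGroup.of_card (n := k)
        (by rw [Nat.card_zpowers, hk])) (zpowers_le_of_mem hg)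
      exact ⟨h, hh, _, h5 (mem_map_of_mem _ (mem_zpowers g)), by simp [mul_assoc]⟩
  have h5 : H ≤ normalizer (X : Set G) := hH.ge.trans ((closure_le _).2 fun g hg => by
    obtain ⟨h, hh, y, hy, rfl⟩ := h4 g hg.1 hg.2
    exact h3 y hy h hh)
  refine hX.1.1.not_ge (hH.ge.trans ((closure_le _).2 fun g hg => ?_))
  obtain ⟨h, hh, y, hy, rfl⟩ := h4 g hg.1 hg.2
  exact conj_mem_of_mem_normalizer' (h5 hh) (hPX hy)

end

/-- Let p be a prime and G a finite group generated by its p-elements. If a finite family of proper subgroups of G covers the set of p-elements of G (every element of p-power order lies in one of them), then the family has at least p + 1 members. -/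
theorem result {G : Type*} [Group G] [Finite G] (p : ℕ) [Fact p.Prime] (hgen : Subgroup.closure {g : G | ∃ k : ℕ, orderOf g = p ^ k} = ⊤)
    {ι : Type*} [Fintype ι] (K : ι → Subgroup G) (hK : ∀ i, K i ≠ ⊤)
    (hcov : ∀ g : G, (∃ k : ℕ, orderOf g = p ^ k) → ∃ i, g ∈ K i) :
    p + 1 ≤ Fintype.card ι := by
  refine aux K hcov ⊤ ?_ fun i h => hK i (top_le_iff.1 h)
  rw [gen, ← hgen]
  congr 1
  ext g
  simp [hgen]

end Cfsg.Agent.S4182
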