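import Cfsg.Statements.S4184
import Cfsg.Agent.Lib.ClassSize
import Cfsg.Agent.Lib.SylowIn
import Cfsg.Agent.Lib.CharFrobenius

set_option autoImplicit false
open Cfsg

namespace Cfsg.Agent.S4184

open Subgroup CfsgLib
open scoped Pointwise commutatorElement

theorem exists_cent {G : Type*} [Group G] [Finite G] {p : ℕ} [Fact p.Prime] {R : Subgroup G}
    (hR : IsPGroup p R) (h : R ≠ ⊥) : ∃ x ∈ R, x ≠ 1 ∧ R ≤ centralizer {x} := by
  haveI := (nontrivial_iff_ne_bot R).2 h
  haveI := hR.center_nontrivial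
  obtain ⟨⟨x, hx⟩, h1⟩ := exists_ne (1 : center R)
  refine ⟨x, x.2, fun h => h1 (Subtype.ext (Subtype.ext h)), fun y hy => ?_⟩
  exact mem_centralizer_singleton_iff.2 (congrArg Subtype.val (mem_center_iff.1 hx ⟨y, hy⟩))

theorem fact_card {G : Type*} [Group G] [Finite G] (H : Subgroup G) (p : ℕ) :
    (Nat.card H).factorization p + H.index.factorization p = (Nat.card G).factorization p := by
  rw [← H.card_mul_index, Nat.factorization_mul Nat.card_pos.ne' index_ne_zero_of_finite]
  rfl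

theorem core {G : Type*} [Group G] [Finite G] (hZ : center G = ⊥) (m : ℕ) (A : Set ℕ)
    (h1 : ∀ g : G, (centralizer ({g} : Set G)).index ∣ m ∧ (centralizer ({g} : Set G)).index ≠ m)
    (h2 : ∀ g : G, g ≠ 1 →
      (∀ r, r.Prime → r ∈ A → (centralizer ({g} : Set G)).index.factorization r = m.factorization r) ∨
      (∀ r, r.Prime → r ∉ A → (centralizer ({g} : Set G)).index.factorization r = m.factorization r))
    {q : ℕ} (hq : q.Prime) (hqA : q ∉ A) (hqm : q ∣ m) (hm : m ∣ Nat.card G) {p : ℕ} (hp : p.Prime)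
    (hpA : p ∈ A) : (Nat.card G).factorization p ≤ m.factorization p := by
  haveI := Fact.mk hp
  haveI := Fact.mk hq
  have hm0 : m ≠ 0 := by rintro rfl; exact Nat.card_pos.ne' (Nat.eq_zero_of_zero_dvd hm)
  by_contra hlt
  push Not at hlt
  obtain ⟨Q⟩ : Nonempty (Sylow q G) := inferInstance
  obtain ⟨a, haQ, ha1, ha⟩ := exists_cent Q.2 (Q.ne_bot_of_dvd_card (hqm.trans hm))
  have hA : ∀ r, r.Prime → r ∈ A →
      (centralizer ({a} : Set G)).index.factorization r = m.factorization r := by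
    refine (h2 a ha1).resolve_right fun h => ?_
    have h3 := h q hq hqA
    rw [Nat.factorization_eq_zero_of_not_dvd fun h => Q.not_dvd_index (h.trans (index_dvd_of_le ha))] at h3
    exact (hq.factorization_pos_of_dvd hm0 hqm).ne h3
  obtain ⟨R, hR⟩ := IsSylowIn.exists_in (p := p) (centralizer ({a} : Set G))
  have hRA : ∀ x ∈ R, x ≠ 1 →
      (centralizer ({x} : Set G)).index.factorization p = m.factorization p := by
    intro x hx hx1
    refine (h2 x hx1).resolve_right (fun h => ?_) p hp hpA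
    have hc : Commute x a := mem_centralizer_singleton_iff.1 (hR.le hx)
    have hco : (orderOf x).Coprime (orderOf a) := by
      obtain ⟨i, hi⟩ := IsPGroup.iff_orderOf.1 hR.isPGroup ⟨x, hx⟩
      obtain ⟨j, hj⟩ := IsPGroup.iff_orderOf.1 Q.2 ⟨a, haQ⟩
      rw [orderOf_mk] at hi hj
      rw [hi, hj]
      exact Nat.coprime_pow_primes _ _ hp hq (by rintro rfl; exact hqA hpA)
    have h3 := Frob.centralizer_mul_of_coprime hc hco
    refine (h1 (x * a)).2 (Nat.dvd_antisymm (h1 _).1 ?_)
    rw [← Nat.factorization_prime_le_iff_dvd hm0 index_ne_zero_of_finite]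
    intro r hr
    by_cases hrA : r ∈ A
    · rw [← hA r hr hrA]
      exact (Nat.factorization_le_iff_dvd index_ne_zero_of_finite index_ne_zero_of_finite).2
        (index_dvd_of_le (h3.le.trans inf_le_right)) r
    · rw [← h r hr hrA]
      exact (Nat.factorization_le_iff_dvd index_ne_zero_of_finite index_ne_zero_of_finite).2
        (index_dvd_of_le (h3.le.trans inf_le_left)) r
  have hR0 : R ≠ ⊥ := by
    refine hR.ne_bot (Nat.dvd_of_factorization_pos ?_)
    have := fact_card (centralizer ({a} : Set G)) p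
    rw [hA p hp hpA] at this
    omega
  obtain ⟨x, hx, hx1, hRx⟩ := exists_cent hR.isPGroup hR0
  have hRS : IsSylowIn p R (centralizer {x}) := by
    obtain ⟨T, hT⟩ := IsSylowIn.exists_in (p := p) (centralizer ({x} : Set G))
    refine hT.of_card_le hR.isPGroup hRx (le_of_eq ?_)
    rw [hT.card_eq_ordProj, hR.card_eq_ordProj]
    have e1 := fact_card (centralizer ({a} : Set G)) p
    have e2 := fact_card (centralizer ({x} : Set G)) p
    rw [hA p hp hpA] at e1
    rw [hRA x hx hx1] at e2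
    congr 1
    omega
  obtain ⟨P, hP⟩ := hR.isPGroup.exists_le_sylow
  obtain ⟨z, hz, hz1, hPz⟩ := exists_cent P.2 (ne_bot_of_le_ne_bot hR0 hP)
  have hzR : z ∈ R := by
    have := hRS.eq_of_le (T := (P : Subgroup G) ⊓ centralizer {x}) P.2.to_inf_left (le_inf hP hRx)
      inf_le_right
    rw [← this]
    exact ⟨hz, mem_centralizer_singleton_iff.2 (mem_centralizer_singleton_iff.1 (hPz (hP hx))).symm⟩
  have h0 := hRA z hzR hz1
  rw [Nat.factorization_eq_zero_of_not_dvd fun h => P.not_dvd_index (h.trans (index_dvd_of_le hPz))] at h0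
  have hpm : ¬ p ∣ m := fun h => (hp.factorization_pos_of_dvd hm0 h).ne h0
  have : centralizer ({z} : Set G) = ⊤ := by
    refine eq_top_of_forall_conj_mem _ fun g => ?_
    obtain ⟨T, hT⟩ := IsSylowIn.exists_in (p := p) (centralizer ({g} : Set G))
    have hT2 : IsSylowIn p T ⊤ := by
      refine ⟨le_top, hT.isPGroup, ?_⟩
      rw [← relIndex_mul_relIndex T _ ⊤ hT.le le_top, relIndex_top_right]
      exact fun h => (hp.dvd_mul.1 h).elim hT.not_dvd fun h => hpm (h.trans (h1 g).1)
    obtain ⟨y, -, hy⟩ := hT2.exists_conj_le P.2 le_top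
    have h4 : y * z * y⁻¹ * g = g * (y * z * y⁻¹) :=
      mem_centralizer_singleton_iff.1 (hT.le (hy ⟨z, hz, rfl⟩))
    refine ⟨y, mem_centralizer_singleton_iff.2 ?_⟩
    calc y⁻¹ * g * y * z = y⁻¹ * (g * (y * z * y⁻¹)) * y := by group
      _ = z * (y⁻¹ * g * y) := by rw [← h4]; group
  rw [Frob.centralizer_singleton_eq_top_iff, hZ, mem_bot] at this
  exact hz1 this

theorem typeM {M : Type*} [Group M] [Finite M] (A : Set ℕ)
    (h : ∀ a ∈ A, ∀ b ∉ A, a.Prime → b.Prime → a ∣ Nat.card M → b ∣ Nat.card M →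
      ¬ ∃ x : M, orderOf x = a * b) {w : M} {r s : ℕ} (hr : r.Prime) (hs : s.Prime)
    (hw : r ∣ orderOf w) (hc : s ∣ Nat.card (centralizer ({w} : Set M))) : r ∈ A ↔ s ∈ A := by
  haveI := Fact.mk hs
  obtain ⟨⟨y, hy⟩, hyo⟩ := exists_prime_orderOf_dvd_card' s hc
  rw [orderOf_mk] at hyo
  have hx : orderOf (w ^ (orderOf w / r)) = r := orderOf_pow_orderOf_div (orderOf_pos w).ne' hw
  have hcm : Commute (w ^ (orderOf w / r)) y :=
    (show Commute y w from mem_centralizer_singleton_iff.1 hy).symm.pow_left _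
  have hrM : r ∣ Nat.card M := hw.trans (orderOf_dvd_natCard w)
  have hsM : s ∣ Nat.card M := hyo ▸ orderOf_dvd_natCard y
  by_contra hne
  have hrs : r ≠ s := by rintro rfl; exact hne Iff.rfl
  have ho := hcm.orderOf_mul_eq_mul_orderOf_of_coprime
    (by rw [hx, hyo]; exact (Nat.coprime_primes hr hs).2 hrs)
  rw [hx, hyo] at ho
  by_cases hrA : r ∈ A
  · exact h r hrA s (fun h => hne ⟨fun _ => h, fun _ => hrA⟩) hr hs hrM hsM ⟨_, ho⟩
  · have hsA : s ∈ A := by
      by_contra h
      exact hne ⟨fun h' => absurd h' hrA, fun h' => absurd h' h⟩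
    exact h s hsA r hrA hs hr hsM hrM ⟨_, ho.trans (mul_comm _ _)⟩

theorem result {G M : Type*}
    [Group G] [Finite G] [Group M] [Finite M] (hZG : Subgroup.center G = ⊥) (hZM : Subgroup.center M = ⊥)
    (h : Set.range (fun g : G => (Subgroup.centralizer ({g} : Set G)).index) = Set.range (fun g : M => (Subgroup.centralizer ({g} : Set M)).index))
    (hdisc : ∃ A : Set ℕ, (∃ a ∈ A, a.Prime ∧ a ∣ Nat.card M) ∧ (∃ b ∉ A, b.Prime ∧ b ∣ Nat.card M) ∧
      ∀ a ∈ A, ∀ b ∉ A, a.Prime → b.Prime → a ∣ Nat.card M → b ∣ Nat.card M → ¬ ∃ x : M, orderOf x = a * b) :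
    Nat.card G = Nat.card M := by
  obtain ⟨A, ⟨a, haA, ha, haM⟩, ⟨b, hbA, hb, hbM⟩, hd⟩ := hdisc
  have hGM : ∀ g : G, ∃ w : M, (centralizer ({w} : Set M)).index = (centralizer ({g} : Set G)).index :=
    fun g => (h.le ⟨g, rfl⟩ :)
  have hMG : ∀ w : M, ∃ g : G, (centralizer ({g} : Set G)).index = (centralizer ({w} : Set M)).index :=
    fun w => (h.ge ⟨w, rfl⟩ :)
  have hfull : ∀ (w : M) (r s : ℕ), r.Prime → s.Prime → r ∣ orderOf w → ¬ (r ∈ A ↔ s ∈ A) →
      (centralizer ({w} : Set M)).index.factorization s = (Nat.card M).factorization s := by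
    intro w r s hr hs hw hne
    rw [← fact_card (centralizer ({w} : Set M)) s,
      Nat.factorization_eq_zero_of_not_dvd fun h => hne (typeM A hd hr hs hw h), zero_add]
  have h1 : ∀ g : G, (centralizer ({g} : Set G)).index ∣ Nat.card M ∧
      (centralizer ({g} : Set G)).index ≠ Nat.card M := by
    intro g
    obtain ⟨w, hw⟩ := hGM g
    rw [← hw]
    refine ⟨index_dvd_card _, fun h => ?_⟩
    have h0 : centralizer ({w} : Set M) = ⊥ := by
      have := (centralizer ({w} : Set M)).card_mul_index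
      rw [h] at this
      exact card_eq_one.1 (Nat.eq_of_mul_eq_mul_right Nat.card_pos (this.trans (one_mul _).symm))
    have hw1 : w = 1 := mem_bot.1 (h0.le (mem_centralizer_singleton_iff.2 rfl))
    subst hw1
    rw [Frob.index_centralizer_eq_one_iff.2 (one_mem _)] at h
    exact ha.ne_one (Nat.dvd_one.1 (h ▸ haM))
  have h2 : ∀ g : G, g ≠ 1 →
      (∀ r, r.Prime → r ∈ A →
        (centralizer ({g} : Set G)).index.factorization r = (Nat.card M).factorization r) ∨
      (∀ r, r.Prime → r ∉ A →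
        (centralizer ({g} : Set G)).index.factorization r = (Nat.card M).factorization r) := by
    intro g hg
    obtain ⟨w, hw⟩ := hGM g
    have hw1 : w ≠ 1 := by
      rintro rfl
      rw [Frob.index_centralizer_eq_one_iff.2 (one_mem _), eq_comm, Frob.index_centralizer_eq_one_iff,
        hZG, mem_bot] at hw
      exact hg hw
    obtain ⟨r, hr, hrw⟩ := Nat.exists_prime_and_dvd (mt orderOf_eq_one_iff.1 hw1)
    rw [← hw]
    by_cases hrA : r ∈ A
    · exact Or.inr fun s hs hsA => hfull w r s hr hs hrw fun h => hsA (h.1 hrA)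
    · exact Or.inl fun s hs hsA => hfull w r s hr hs hrw fun h => hrA (h.2 hsA)
  have hm : Nat.card M ∣ Nat.card G := by
    rw [← Nat.factorization_prime_le_iff_dvd Nat.card_pos.ne' Nat.card_pos.ne']
    intro s hs
    obtain ⟨r, hr, hrM, hne⟩ : ∃ r, r.Prime ∧ r ∣ Nat.card M ∧ ¬ (r ∈ A ↔ s ∈ A) := by
      by_cases hsA : s ∈ A
      · exact ⟨b, hb, hbM, fun h => hbA (h.2 hsA)⟩
      · exact ⟨a, ha, haM, fun h => hsA (h.1 haA)⟩
    haveI := Fact.mk hr
    obtain ⟨w, hw⟩ := exists_prime_orderOf_dvd_card' r hrM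
    obtain ⟨g, hg⟩ := hMG w
    rw [← hfull w r s hr hs hw.symm.dvd hne, ← hg, ← fact_card (centralizer ({g} : Set G)) s]
    omega
  refine Nat.dvd_antisymm ?_ hm
  rw [← Nat.factorization_prime_le_iff_dvd Nat.card_pos.ne' Nat.card_pos.ne']
  intro p hp
  by_cases hpA : p ∈ A
  · exact core hZG _ A h1 h2 hb hbA hbM hm hp hpA
  · refine core hZG _ Aᶜ h1 (fun g hg => ?_) ha (not_not.2 haA) haM hm hp hpA
    simpa only [Set.mem_compl_iff, not_not] using (h2 g hg).symm

end Cfsg.Agent.S4184
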