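import Cfsg.Statements.S4187
import Cfsg.Agent.Lib.CoreRealGraph

set_option autoImplicit false
open Cfsg

namespace Cfsg.Agent.S4187

open Subgroup CfsgLib
open scoped Pointwise commutatorElement



theorem result {G : Type*} [Group G] [Finite G] (π₁ π₂ : Set ℕ) (h₁ : π₁.Nonempty) (h₂ : π₂.Nonempty) (hcover : ∀ q : ℕ, q.Prime → (∃ n ∈ {n : ℕ | ∃ x : G, IsConj x x⁻¹ ∧ (Subgroup.centralizer ({x} : Set G)).index = n}, q ∣ n) → q ∈ π₁ ∨ q ∈ π₂) (hsub : ∀ q ∈ π₁ ∪ π₂, q.Prime ∧ ∃ n ∈ {n : ℕ | ∃ x : G, IsConj x x⁻¹ ∧ (Subgroup.centralizer ({x} : Set G)).index = n}, q ∣ n) (hdisj : Disjoint π₁ π₂) (hnoedge : ∀ a ∈ π₁, ∀ b ∈ π₂, ∀ n ∈ {n : ℕ | ∃ x : G, IsConj x x⁻¹ ∧ (Subgroup.centralizer ({x} : Set G)).index = n}, ¬ (a ∣ n ∧ b ∣ n)) : Group.IsSolvable G := by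
  obtain ⟨⟨π, t, h⟩, -⟩ := RealGraph.exists_star h₁ h₂ hdisj hsub hcover hnoedge
  exact RealGraph.isSolvable G t h

end Cfsg.Agent.S4187
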