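import Cfsg.Statements.S4188
import Mathlib
import Cfsg.Agent.Lib.FT.U4b
import Cfsg.Agent.Lib.H1Amb
import Cfsg.Agent.Lib.PGroupRankOne
import Cfsg.Agent.Lib.FrobZGroup

set_option autoImplicit false
open Cfsg

namespace Cfsg.Agent.S4188
open Subgroup CfsgLib CfsgLib.FT.BGN CfsgLib.FT.U4
open scoped commutatorElement

section

variable {G : Type*} [Group G]

def Sq (P : Subgroup G) : Subgroup G := closure {g | ∃ x ∈ P, g = x * x}

noncomputable def dl (P V : Subgroup G) : ℕ := (Sq P ⊔ (P ⊓ 𝐂(V))).relIndex P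

theorem sq_mem {P : Subgroup G} {x : G} (hx : x ∈ P) : x * x ∈ Sq P := subset_closure ⟨x, hx, rfl⟩

theorem Sq_le {P D : Subgroup G} (h : ∀ x ∈ P, x * x ∈ D) : Sq P ≤ D :=
  (closure_le _).2 (by rintro _ ⟨x, hx, rfl⟩; exact h x hx)

theorem Sq_le_self (P : Subgroup G) : Sq P ≤ P := Sq_le fun _ hx => mul_mem hx hx

theorem Sq_mono {P Q : Subgroup G} (h : P ≤ Q) : Sq P ≤ Sq Q := Sq_le fun _ hx => sq_mem (h hx)

/-- elements of `V` inverted by `z` -/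
def Inv (V : Subgroup G) (h : V ≤ 𝐂(V)) (z : G) : Subgroup G where
  carrier := {v | v ∈ V ∧ z * v * z⁻¹ = v⁻¹}
  one_mem' := ⟨one_mem _, by simp⟩
  mul_mem' := fun {a b} ha hb => ⟨mul_mem ha.1 hb.1, by
    calc z * (a * b) * z⁻¹ = (z * a * z⁻¹) * (z * b * z⁻¹) := by group
      _ = (b * a)⁻¹ := by rw [ha.2, hb.2, mul_inv_rev]
      _ = (a * b)⁻¹ := by rw [mem_cent.1 (h ha.1) b hb.1]⟩
  inv_mem' := fun {a} ha => ⟨inv_mem ha.1, by
    calc z * a⁻¹ * z⁻¹ = (z * a * z⁻¹)⁻¹ := by group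
      _ = _ := by rw [ha.2]⟩

theorem card_le_four {X : Type*} [Group X] [Finite X] (h : ∀ g : X, g * g = 1) {x y : X}
    (hg : ∀ K : Subgroup X, x ∈ K → y ∈ K → K = ⊤) : Nat.card X ≤ 4 := by
  classical
  have hi : ∀ g : X, g⁻¹ = g := fun g => inv_eq_of_mul_eq_one_right (h g)
  have hc : ∀ a b : X, a * b = b * a := fun a b => by
    rw [← hi (a * b), mul_inv_rev, hi, hi]
  have hn : zpowers x ≤ 𝐍(zpowers y) :=
    le_trans (fun a _ => mem_cent.2 fun b _ => hc b a) (cent_le_norm _)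
  have h1 := hg (zpowers x ⊔ zpowers y) (mem_sup_left (mem_zpowers x)) (mem_sup_right (mem_zpowers y))
  have h2 := card_sup_dvd_mul hn
  rw [h1, card_top, Nat.card_zpowers, Nat.card_zpowers] at h2
  have h3 : ∀ g : X, orderOf g ∣ 2 := fun g => orderOf_dvd_of_pow_eq_one (by rw [pow_two, h g])
  exact Nat.le_of_dvd (by norm_num) (h2.trans (mul_dvd_mul (h3 x) (h3 y)))

variable [Finite G]

theorem le_norm_of_Sq {P D : Subgroup G} (h1 : Sq P ≤ D) (h2 : D ≤ P) : P ≤ 𝐍(D) :=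
  fun g hg => mem_normalizer_of_conj_mem fun d hd => by
    have : g * d * g⁻¹ = (g * d * (g * d)) * d⁻¹ * (g⁻¹ * g⁻¹) := by group
    rw [this]
    exact mul_mem (mul_mem (h1 (sq_mem (mul_mem hg (h2 hd)))) (inv_mem hd))
      (h1 (sq_mem (inv_mem hg)))

theorem submul {P K C : Subgroup G} (h1 : C ≤ K) (h2 : K ≤ P) :
    (Sq P ⊔ C).relIndex P ≤ (Sq P ⊔ K).relIndex P * (Sq K ⊔ C).relIndex K := by
  have h3 : Sq P ⊔ C ≤ P := sup_le (Sq_le_self P) (h1.trans h2)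
  rw [← relIndex_mul_relIndex (Sq P ⊔ C) (Sq P ⊔ K) P (sup_le_sup_left h1 _)
    (sup_le (Sq_le_self P) h2), mul_comm]
  refine Nat.mul_le_mul_left _ ?_
  have h4 : Sq P ⊔ K = K ⊔ (Sq P ⊔ C) := le_antisymm
    (sup_le (le_sup_left.trans le_sup_right) le_sup_left)
    (sup_le le_sup_right (sup_le_sup_left h1 _))
  rw [h4, relIndex_sup_of_le_normalizer (h2.trans (le_norm_of_Sq le_sup_left h3))]
  exact relIndex_le_of_le_left (sup_le_sup_right (Sq_mono h2) _) index_ne_zero_of_finite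

theorem dl_split {P V W₁ W₂ : Subgroup G} (h : W₁ ⊔ W₂ = V) :
    dl P V ≤ dl P W₁ * dl (P ⊓ 𝐂(W₁)) W₂ := by
  have : P ⊓ 𝐂(V) = P ⊓ 𝐂(W₁) ⊓ 𝐂(W₂) := by rw [← h, cent_sup, inf_assoc]
  unfold dl
  rw [this]
  exact submul inf_le_left inf_le_left

theorem dl_le_four {P V : Subgroup G} {x y : G} (hx : x ∈ P) (hy : y ∈ P)
    (h : ∀ K : Subgroup G, K ≤ P → P ⊓ 𝐂(V) ≤ K → x ∈ K → y ∈ K → P ≤ K) : dl P V ≤ 4 := by
  have h3 : Sq P ⊔ (P ⊓ 𝐂(V)) ≤ P := sup_le (Sq_le_self P) inf_le_left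
  have := (normal_subgroupOf_iff_le_normalizer h3).2 (le_norm_of_Sq le_sup_left h3)
  refine card_le_four (X := P ⧸ (Sq P ⊔ (P ⊓ 𝐂(V))).subgroupOf P) (fun g => ?_)
    (x := QuotientGroup.mk ⟨x, hx⟩) (y := QuotientGroup.mk ⟨y, hy⟩) fun K h1 h2 => ?_
  · obtain ⟨g, rfl⟩ := QuotientGroup.mk_surjective g
    rw [← QuotientGroup.mk_mul, QuotientGroup.eq_one_iff]
    exact mem_sup_left (sq_mem g.2)
  · rw [eq_top_iff]
    intro g _
    obtain ⟨g, rfl⟩ := QuotientGroup.mk_surjective g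
    obtain ⟨g', hg', e⟩ := h ((K.comap (QuotientGroup.mk' _)).map P.subtype) (map_subtype_le _)
      (fun c hc => ⟨⟨c, hc.1⟩, by
        show QuotientGroup.mk _ ∈ K
        rw [(QuotientGroup.eq_one_iff _).2 (mem_subgroupOf.2 (mem_sup_right hc))]
        exact one_mem _, rfl⟩) ⟨_, h1, rfl⟩ ⟨_, h2, rfl⟩ g.2
    obtain rfl : g' = g := Subtype.ext e
    exact hg'

theorem relIndex_le_two {P Q : Subgroup G} (h : ∀ a ∈ P, ∀ b ∈ P, a ∉ Q → b ∉ Q → b * a ∈ Q) :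
    Q.relIndex P ≤ 2 := by
  by_cases h1 : P ≤ Q
  · rw [relIndex_eq_one.2 h1]; norm_num
  · obtain ⟨a, ha, ha'⟩ := SetLike.not_le_iff_exists.1 h1
    refine (relIndex_eq_two_iff.2 ⟨a, ha, fun b hb => ?_⟩).le
    by_cases h2 : b ∈ Q
    · exact Or.inr ⟨h2, fun h3 => ha' ((Subgroup.mul_mem_cancel_left _ h2).1 h3)⟩
    · exact Or.inl ⟨h a ha b hb ha' h2, h2⟩

theorem dl_le_two {P V : Subgroup G} {x : G} (hx : x ∈ P)
    (h : ∀ g ∈ P, ∃ k : ℤ, g * (x ^ k)⁻¹ ∈ 𝐂(V)) : dl P V ≤ 2 := by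
  have key : ∀ g ∈ P, g ∉ Sq P ⊔ (P ⊓ 𝐂(V)) → g * x⁻¹ ∈ Sq P ⊔ (P ⊓ 𝐂(V)) := by
    intro g hg hg'
    obtain ⟨k, hk⟩ := h g hg
    have h1 : g * (x ^ k)⁻¹ ∈ Sq P ⊔ (P ⊓ 𝐂(V)) :=
      mem_sup_right (mem_inf.2 ⟨mul_mem hg (inv_mem (zpow_mem hx k)), hk⟩)
    have h2 : ∀ j : ℤ, x ^ j * x ^ j ∈ Sq P ⊔ (P ⊓ 𝐂(V)) := fun j =>
      mem_sup_left (sq_mem (zpow_mem hx j))
    obtain ⟨j, rfl | rfl⟩ := Int.even_or_odd' k
    · refine absurd ?_ hg'
      have : g = g * (x ^ (2 * j))⁻¹ * (x ^ j * x ^ j) := by group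
      rw [this]; exact mul_mem h1 (h2 j)
    · have : g * x⁻¹ = g * (x ^ (2 * j + 1))⁻¹ * (x ^ j * x ^ j) := by group
      rw [this]; exact mul_mem h1 (h2 j)
  refine relIndex_le_two fun a ha b hb ha' hb' => ?_
  have h1 : a⁻¹ ∉ Sq P ⊔ (P ⊓ 𝐂(V)) := fun h1 => ha' (inv_mem_iff.1 h1)
  have : b * a = b * x⁻¹ * (a⁻¹ * x⁻¹)⁻¹ := by group
  rw [this]
  exact mul_mem (key b hb hb') (inv_mem (key _ (inv_mem ha) h1))

theorem sq_cent_three {W : Subgroup G} (h : Nat.card W = 3) {g : G} (hg : g ∈ 𝐍(W)) :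
    g * g ∈ 𝐂(W) := by
  have : Fact (Nat.Prime 3) := ⟨Nat.prime_three⟩
  have := isCyclic_of_prime_card h
  have h1 : Nat.card (MulAut W) = 2 := by rw [IsCyclic.card_mulAut, h]; rfl
  have h2 : W.normalizerMonoidHom (⟨g, hg⟩ ^ 2) = 1 := by rw [map_pow, ← h1, pow_card_eq_one']
  refine mem_cent.2 fun w hw => ?_
  have h4 := congrArg Subtype.val (DFunLike.congr_fun h2 ⟨w, hw⟩)
  have h3 : g ^ 2 * w * (g ^ 2)⁻¹ = w := h4
  rw [← pow_two, ← h3, inv_mul_cancel_right, h3]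

section split

variable {V : Subgroup G} (hc : V ≤ 𝐂(V)) (ho : Odd (Nat.card V)) {z : G} (hz : z ∈ 𝐍(V))
  (hz2 : z * z ∈ 𝐂(V))

include ho hz hz2 in
theorem split_sup : (V ⊓ 𝐂[z]) ⊔ Inv V hc z = V := by
  refine le_antisymm (sup_le inf_le_left fun v hv => hv.1) fun v hv => ?_
  have h1 := conj_mem_of_mem_normalizer hz hv
  have h2 : z * (z * v * z⁻¹) * z⁻¹ = v := by
    calc z * (z * v * z⁻¹) * z⁻¹ = (z * z * v) * (z * z)⁻¹ := by group
      _ = v := by rw [← mem_cent.1 hz2 v hv]; group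
  have h3 := mem_cent.1 (hc hv) _ h1
  have h4 : v * v ∈ (V ⊓ 𝐂[z]) ⊔ Inv V hc z := by
    have e : v * v = (v * (z * v * z⁻¹)) * ((z * v * z⁻¹)⁻¹ * v) := by group
    rw [e]
    refine mul_mem (mem_sup_left ⟨mul_mem hv h1, mem_cent1_comm.1 (mem_cent1_of_conj_eq ?_)⟩)
      (mem_sup_right ⟨mul_mem (inv_mem h1) hv, ?_⟩)
    · calc z * (v * (z * v * z⁻¹)) * z⁻¹ = (z * v * z⁻¹) * (z * (z * v * z⁻¹) * z⁻¹) := by group
        _ = _ := by rw [h2, h3]
    · calc z * ((z * v * z⁻¹)⁻¹ * v) * z⁻¹ = (z * (z * v * z⁻¹) * z⁻¹)⁻¹ * (z * v * z⁻¹) := by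
            simp only [mul_inv_rev, inv_inv, mul_assoc, inv_mul_cancel_left]
        _ = _ := by rw [h2]; group
  obtain ⟨k, hk⟩ := ho
  have h5 : v = (v * v) ^ (k + 1) := by
    have h6 : v ^ Nat.card V = 1 := orderOf_dvd_iff_pow_eq_one.1 (orderOf_dvd_natCard V hv)
    rw [← pow_two, ← pow_mul, show 2 * (k + 1) = Nat.card V + 1 by omega, pow_succ, h6, one_mul]
  rw [h5]
  exact pow_mem h4 _

include ho hz hz2 in
theorem split_card : Nat.card V = Nat.card ↥(V ⊓ 𝐂[z]) * Nat.card (Inv V hc z) := by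
  conv_lhs => rw [← split_sup hc ho hz hz2]
  refine card_sup_of_disjoint (le_trans ?_ (cent_le_norm _)) (eq_bot_of_forall fun v hv => ?_)
  · exact fun v hv => mem_cent.2 fun w hw => mem_cent.1 (hc hv.1) w hw.1
  · have h1 := hv.2.2
    rw [conj_eq_of_mem_cent1 (mem_cent1_comm.1 hv.1.2)] at h1
    have h2 : orderOf v ∣ 2 := orderOf_dvd_of_pow_eq_one (by
      rw [pow_two]; exact mul_eq_one_iff_eq_inv.2 h1)
    exact orderOf_eq_one_iff.1 (Nat.eq_one_of_dvd_coprimes (Nat.coprime_two_right.2 ho)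
      (orderOf_dvd_natCard V hv.1.1) h2)

omit [Finite G] in
theorem conj_eq {g : G} (hg : g ∈ 𝐍(V)) {z' : G} (h : g⁻¹ * z' * g * z⁻¹ ∈ 𝐂(V)) (hz : z ∈ 𝐍(V))
    {v : G} (hv : v ∈ V) : z' * (g * v * g⁻¹) * z'⁻¹ = g * (z * v * z⁻¹) * g⁻¹ := by
  have h1 := mem_cent.1 h _ (conj_mem_of_mem_normalizer hz hv)
  calc z' * (g * v * g⁻¹) * z'⁻¹
      = g * ((g⁻¹ * z' * g * z⁻¹) * (z * v * z⁻¹)) * (g⁻¹ * z' * g * z⁻¹)⁻¹ * g⁻¹ := by group
    _ = _ := by rw [← h1]; group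

include hz in
theorem norm_fix {g : G} (hg : g ∈ 𝐍(V)) (h : g⁻¹ * z * g * z⁻¹ ∈ 𝐂(V)) : g ∈ 𝐍(V ⊓ 𝐂[z]) :=
  mem_normalizer_of_conj_mem fun v hv => ⟨conj_mem_of_mem_normalizer hg hv.1,
    mem_cent1_comm.1 (mem_cent1_of_conj_eq (by
      rw [conj_eq hg h hz hv.1, conj_eq_of_mem_cent1 (mem_cent1_comm.1 hv.2)]))⟩

include hz in
theorem norm_inv {g : G} (hg : g ∈ 𝐍(V)) (h : g⁻¹ * z * g * z⁻¹ ∈ 𝐂(V)) : g ∈ 𝐍(Inv V hc z) :=
  mem_normalizer_of_conj_mem fun v hv => ⟨conj_mem_of_mem_normalizer hg hv.1, by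
    rw [conj_eq hg h hz hv.1, hv.2]; group⟩

end split

theorem three_le {V : Subgroup G} (ho : Odd (Nat.card V)) (h : V ≠ ⊥) : 3 ≤ Nat.card V := by
  have := one_lt_card_iff_ne_bot V |>.2 h
  obtain ⟨k, hk⟩ := ho
  omega

theorem main (n : ℕ) : ∀ V P : Subgroup G, Nat.card V = n → V ≤ 𝐂(V) → Odd (Nat.card V) → V ≠ ⊥ →
    IsPGroup 2 P → P ≤ 𝐍(V) →
    3 * dl P V ≤ 2 * Nat.card V ∧ (3 < Nat.card V → 2 * dl P V ≤ Nat.card V) := by
  induction n using Nat.strong_induction_on with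
  | _ n ih =>
  intro V P hn hc ho hV hP hPV
  have h3 := three_le ho hV
  have hsmall : dl P V ≤ 2 →
      3 * dl P V ≤ 2 * Nat.card V ∧ (3 < Nat.card V → 2 * dl P V ≤ Nat.card V) := by omega
  have ih' : ∀ W Q : Subgroup G, W ≤ V → Nat.card W < Nat.card V → W ≠ ⊥ → Q ≤ P → Q ≤ 𝐍(W) →
      3 * dl Q W ≤ 2 * Nat.card W ∧ (3 < Nat.card W → 2 * dl Q W ≤ Nat.card W) :=
    fun W Q h1 h2 h4 h5 h6 => ih _ (hn ▸ h2) W Q rfl ((h1.trans hc).trans (centralizer_le h1))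
      (ho.of_dvd_nat (card_dvd_of_le h1)) h4 (hP.to_le h5) h6
  have hinv1 : ∀ z ∈ P, z * z ∈ 𝐂(V) → z ∉ 𝐂(V) → Inv V hc z ≠ ⊥ := fun z hz hz2 hz' h0 => by
    have := split_sup hc ho (hPV hz) hz2
    rw [h0, sup_bot_eq, inf_eq_left] at this
    exact hz' (mem_cent.2 fun v hv => mem_cent1.1 (this hv))
  by_cases hA : ∃ z ∈ P, z ∉ 𝐂(V) ∧ z * z ∈ 𝐂(V) ∧ (∀ g ∈ P, g⁻¹ * z * g * z⁻¹ ∈ 𝐂(V)) ∧
      V ⊓ 𝐂[z] ≠ ⊥
  · obtain ⟨z, hz, h1, h2, h4, h5⟩ := hA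
    have h6 := split_card hc ho (hPV hz) h2
    have h7 := hinv1 z hz h2 h1
    have hle : Inv V hc z ≤ V := fun v hv => hv.1
    have a3 := three_le (ho.of_dvd_nat (card_dvd_of_le inf_le_left)) h5
    have b3 := three_le (ho.of_dvd_nat (card_dvd_of_le hle)) h7
    have h8 := (ih' _ P inf_le_left (by rw [h6]; nlinarith) h5 le_rfl
      fun g hg => norm_fix (hPV hz) (hPV hg) (h4 g hg)).1
    have h9 := (ih' _ (P ⊓ 𝐂(V ⊓ 𝐂[z])) hle (by rw [h6]; nlinarith) h7 inf_le_left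
      fun g hg => norm_inv hc (hPV hz) (hPV hg.1) (h4 g hg.1)).1
    have h10 := dl_split (P := P) (split_sup hc ho (hPV hz) h2)
    have h11 := Nat.mul_le_mul h8 h9
    rw [h6]
    constructor
    · nlinarith
    · intro; nlinarith
  push Not at hA
  have hinv : ∀ z ∈ P, z ∉ 𝐂(V) → z * z ∈ 𝐂(V) → (∀ g ∈ P, g⁻¹ * z * g * z⁻¹ ∈ 𝐂(V)) →
      ∀ v ∈ V, z * v * z⁻¹ = v⁻¹ := fun z hz h1 h2 h4 v hv => by
    have := split_sup hc ho (hPV hz) h2
    rw [hA z hz h1 h2 h4, bot_sup_eq] at this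
    exact (this.ge hv).2
  have hN : ((𝐂(V)).subgroupOf P).Normal :=
    normal_subgroupOf_of_le_normalizer (hPV.trans (norm_le_norm_cent V))
  have hmk : ∀ g : P, (QuotientGroup.mk g : P ⧸ (𝐂(V)).subgroupOf P) = 1 ↔ (g : G) ∈ 𝐂(V) :=
    fun g => QuotientGroup.eq_one_iff g
  have : Fact (Nat.Prime 2) := ⟨Nat.prime_two⟩
  have hQ : IsPGroup 2 (P ⧸ (𝐂(V)).subgroupOf P) := hP.to_quotient _
  rcases PGrp.isCyclic_or_isDQSD_or_exists_normal_card_sq hQ with h | ⟨-, m, x, y, h⟩ | ⟨E, hE, h1, h2⟩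
  · obtain ⟨x, hx⟩ := h.exists_generator
    obtain ⟨x, rfl⟩ := QuotientGroup.mk_surjective x
    refine hsmall (dl_le_two x.2 fun g hg => ?_)
    obtain ⟨k, hk⟩ := hx (QuotientGroup.mk ⟨g, hg⟩)
    refine ⟨k, (hmk (⟨g, hg⟩ * (x ^ k)⁻¹)).1 ?_⟩
    simp only at hk
    rw [QuotientGroup.mk_mul, QuotientGroup.mk_inv, QuotientGroup.mk_zpow, hk, mul_inv_cancel]
  · obtain ⟨x, rfl⟩ := QuotientGroup.mk_surjective x
    obtain ⟨y, rfl⟩ := QuotientGroup.mk_surjective y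
    have h4 : dl P V ≤ 4 := dl_le_four x.2 y.2 fun K hK h1 hx hy g hg => by
      rcases h.mem_or (QuotientGroup.mk ⟨g, hg⟩) with ⟨i, hi⟩ | ⟨i, hi⟩
      · have h5 := (hmk ((x ^ i)⁻¹ * ⟨g, hg⟩)).1 (by
          rw [QuotientGroup.mk_mul, QuotientGroup.mk_inv, QuotientGroup.mk_zpow, hi, inv_mul_cancel])
        exact (Subgroup.mul_mem_cancel_left _ (inv_mem (zpow_mem hx i))).1
          (h1 (mem_inf.2 ⟨mul_mem (inv_mem (zpow_mem x.2 i)) hg, h5⟩))
      · have h5 := (hmk ((y * x ^ i)⁻¹ * ⟨g, hg⟩)).1 (by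
          rw [QuotientGroup.mk_mul, QuotientGroup.mk_inv, QuotientGroup.mk_mul,
            QuotientGroup.mk_zpow, hi, inv_mul_cancel])
        exact (Subgroup.mul_mem_cancel_left _ (inv_mem (mul_mem hy (zpow_mem hx i)))).1
          (h1 (mem_inf.2 ⟨mul_mem (inv_mem (mul_mem y.2 (zpow_mem x.2 i))) hg, h5⟩))
    have h5 : ¬ (Nat.card V).Prime := fun hp => by
      have := Fact.mk hp
      have := isCyclic_of_prime_card (α := V) rfl
      refine h.not_commute (commutatorElement_eq_one_iff_mul_comm.1 ?_)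
      have h6 := Frob.commutator_le_centralizer_of_isCyclic hPV hPV
        (commutator_mem_commutator y.2 x.2)
      exact (hmk ⁅y, x⁆).2 h6
    have h6 : 9 ≤ Nat.card V := by
      by_contra h6
      obtain ⟨k, hk⟩ := ho
      have : Nat.card V = 3 ∨ Nat.card V = 5 ∨ Nat.card V = 7 := by omega
      rcases this with h7 | h7 | h7 <;> exact h5 (by rw [h7]; norm_num)
    omega
  · have := hQ.isNilpotent
    have hE1 : E ≠ ⊥ := by
      rintro rfl
      rw [card_bot] at h2; norm_num at h2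
    obtain ⟨z, hz, hz1⟩ := exists_ne_one (inf_center_ne_bot_of_isNilpotent hE1)
    have hz2 : orderOf z = 2 := orderOf_eq_prime (h1.2 z hz.1) hz1
    obtain ⟨e, he, he'⟩ : ∃ e ∈ E, e ∉ zpowers z := by
      by_contra hcon
      push Not at hcon
      have := card_le_of_le (show E ≤ zpowers z from hcon)
      rw [Nat.card_zpowers, hz2, h2] at this
      omega
    have hE4 : ∀ a ∈ E, a ∉ zpowers z → a = e ∨ a = e * z := by
      intro a ha ha'
      have h4 : (zpowers z).relIndex E = 2 := by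
        have := card_mul_relIndex (zpowers_le.2 hz.1)
        rw [Nat.card_zpowers, hz2, h2] at this
        omega
      have h5 : (⟨e, he⟩⁻¹ * ⟨a, ha⟩ : E) ∈ (zpowers z).subgroupOf E :=
        (mul_mem_iff_of_index_two h4).2 (iff_of_false (fun h => he' (inv_mem_iff.1 h)) ha')
      obtain ⟨k, hk⟩ := mem_powers_iff_mem_zpowers.2 (mem_subgroupOf.1 h5)
      have hk' : z ^ k = e⁻¹ * a := hk
      rw [← pow_mod_orderOf, hz2] at hk'
      rcases Nat.mod_two_eq_zero_or_one k with h6 | h6 <;> rw [h6] at hk'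
      · left; rw [pow_zero, eq_comm, inv_mul_eq_one] at hk'; exact hk'.symm
      · right; rw [pow_one] at hk'; rw [hk']; group
    obtain ⟨z, rfl⟩ := QuotientGroup.mk_surjective z
    obtain ⟨e, rfl⟩ := QuotientGroup.mk_surjective e
    have hsq : ∀ a : P, QuotientGroup.mk a ∈ E → (a : G) * a ∈ 𝐂(V) := fun a ha =>
      (hmk (a * a)).1 (by rw [QuotientGroup.mk_mul, ← pow_two]; exact h1.2 _ ha)
    have hzc : ∀ g ∈ P, g⁻¹ * z * g * (z : G)⁻¹ ∈ 𝐂(V) := fun g hg =>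
      (hmk (⟨g, hg⟩⁻¹ * z * ⟨g, hg⟩ * z⁻¹)).1 (by
        simp only [QuotientGroup.mk_mul, QuotientGroup.mk_inv]
        rw [mem_center_iff.1 hz.2]; group)
    have hzi := hinv z z.2 (fun h => hz1 ((hmk z).2 h)) (hsq z hz.1) hzc
    have he1 : (e : G) ∉ 𝐂(V) := fun h => he' (by rw [(hmk e).2 h]; exact one_mem _)
    have hconj : ∀ g ∈ P, g⁻¹ * e * g * (e : G)⁻¹ ∈ 𝐂(V) ∨ g⁻¹ * e * g * ((e : G) * z)⁻¹ ∈ 𝐂(V) := by
      intro g hg
      have h4 := hE.conj_mem' _ he (QuotientGroup.mk ⟨g, hg⟩)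
      rcases hE4 _ h4 (fun h5 => he' (by
        have h6 : (zpowers (QuotientGroup.mk z : P ⧸ (𝐂(V)).subgroupOf P)) ≤ center _ :=
          zpowers_le.2 hz.2
        have h7 := mem_center_iff.1 (h6 h5) (QuotientGroup.mk ⟨g, hg⟩)
        have h8 : (QuotientGroup.mk e : P ⧸ (𝐂(V)).subgroupOf P) =
            (QuotientGroup.mk ⟨g, hg⟩)⁻¹ * QuotientGroup.mk e * QuotientGroup.mk ⟨g, hg⟩ := by
          rw [← mul_left_inj (QuotientGroup.mk ⟨g, hg⟩ : P ⧸ (𝐂(V)).subgroupOf P), ← h7]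
          group
        rwa [h8])) with h5 | h5
      · exact Or.inl ((hmk (⟨g, hg⟩⁻¹ * e * ⟨g, hg⟩ * e⁻¹)).1 (by
          simp only [QuotientGroup.mk_mul, QuotientGroup.mk_inv]; rw [h5, mul_inv_cancel]))
      · exact Or.inr ((hmk (⟨g, hg⟩⁻¹ * e * ⟨g, hg⟩ * (e * z)⁻¹)).1 (by
          simp only [QuotientGroup.mk_mul, QuotientGroup.mk_inv]; rw [h5, mul_inv_cancel]))
    obtain ⟨t, ht, ht'⟩ : ∃ t ∈ P, t⁻¹ * e * t * (e : G)⁻¹ ∉ 𝐂(V) := by
      by_contra hcon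
      push Not at hcon
      have h4 := hinv e e.2 he1 (hsq e he) hcon
      refine he' ?_
      have h5 : (e : G) * (z : G)⁻¹ ∈ 𝐂(V) := mem_cent.2 fun v hv => by
        have h6 := hzi _ (conj_mem_of_mem_normalizer' (hPV z.2) hv)
        have h7 := h4 _ (conj_mem_of_mem_normalizer' (hPV z.2) hv)
        calc v * (e * (z : G)⁻¹) = (z * ((z : G)⁻¹ * v * z) * (z : G)⁻¹) * (e * (z : G)⁻¹) := by group
          _ = (e * ((z : G)⁻¹ * v * z) * (e : G)⁻¹) * (e * (z : G)⁻¹) := by rw [h6, h7]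
          _ = _ := by
            have h8 := hzi v hv
            have h9 : (z : G)⁻¹ * v * z = v⁻¹ := by
              rw [← inv_inj, inv_inv, ← h6]; group
            rw [h9]
            calc (e : G) * v⁻¹ * (e : G)⁻¹ * (e * (z : G)⁻¹) = e * (v⁻¹ * (z : G)⁻¹) := by group
              _ = e * ((z : G)⁻¹ * v * z * (z : G)⁻¹) := by rw [h9]
              _ = _ := by group
      have h6 := (hmk (e * z⁻¹)).2 h5
      rw [QuotientGroup.mk_mul, QuotientGroup.mk_inv, mul_inv_eq_one] at h6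
      rw [h6]; exact mem_zpowers _
    have hez : (e : G) * z ∈ 𝐍(V) := hPV (mul_mem e.2 z.2)
    have hfix : V ⊓ 𝐂[(e : G) * z] = Inv V hc e := by
      ext v
      refine and_congr_right fun hv => ?_
      have h4 : (e : G) * z * v * ((e : G) * z)⁻¹ = (e * v * (e : G)⁻¹)⁻¹ := by
        calc (e : G) * z * v * ((e : G) * z)⁻¹ = e * (z * v * (z : G)⁻¹) * (e : G)⁻¹ := by group
          _ = _ := by rw [hzi v hv]; group
      constructor
      · intro h5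
        rw [conj_eq_of_mem_cent1 (mem_cent1_comm.1 h5)] at h4
        exact inv_eq_iff_eq_inv.1 h4.symm
      · intro h5
        exact mem_cent1_comm.1 (mem_cent1_of_conj_eq (by rw [h4, h5, inv_inv]))
    have hcard : Nat.card ↥(V ⊓ 𝐂[(e : G)]) = Nat.card (Inv V hc e) := by
      rw [← hfix, ← card_map_conj t (V ⊓ 𝐂[(e : G) * z])]
      congr 2
      have h4 := (hconj t ht).resolve_left ht'
      ext v
      rw [mem_map_conj_iff]
      constructor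
      · intro hv
        have h5 := conj_mem_of_mem_normalizer' (hPV ht) hv.1
        have h6 := conj_eq (hPV ht) h4 hez h5
        refine ⟨h5, mem_cent1_comm.1 (mem_cent1_of_conj_eq ?_)⟩
        have h7 : t * (t⁻¹ * v * t) * t⁻¹ = v := by group
        rw [h7, conj_eq_of_mem_cent1 (mem_cent1_comm.1 hv.2)] at h6
        conv_rhs => rw [h6]
        group
      · intro hv
        have h6 := conj_eq (hPV ht) h4 hez hv.1
        have h7 : t * (t⁻¹ * v * t) * t⁻¹ = v := by group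
        rw [conj_eq_of_mem_cent1 (mem_cent1_comm.1 hv.2), h7] at h6
        exact ⟨h7 ▸ conj_mem_of_mem_normalizer (hPV ht) hv.1,
          mem_cent1_comm.1 (mem_cent1_of_conj_eq h6)⟩
    let Q : Subgroup G := P ⊓ 𝐍(V ⊓ 𝐂[(e : G)]) ⊓ 𝐍(Inv V hc e)
    have hQm : ∀ g ∈ P, g⁻¹ * e * g * (e : G)⁻¹ ∈ 𝐂(V) → g ∈ Q := fun g hg h =>
      ⟨⟨hg, norm_fix (hPV e.2) (hPV hg) h⟩, norm_inv hc (hPV e.2) (hPV hg) h⟩
    have hQP : Q ≤ P := inf_le_left.trans inf_le_left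
    have hCQ : P ⊓ 𝐂(V) ≤ Q := fun g hg => hQm g hg.1 (by
      have : g⁻¹ * e * g * (e : G)⁻¹ = g⁻¹ * (e * g * (e : G)⁻¹) := by group
      rw [this]
      exact mul_mem (inv_mem hg.2) (conj_mem_of_mem_normalizer (norm_le_norm_cent V (hPV e.2)) hg.2))
    have hprod : ∀ a ∈ P, ∀ b ∈ P, a⁻¹ * e * a * ((e : G) * z)⁻¹ ∈ 𝐂(V) →
        b⁻¹ * e * b * ((e : G) * z)⁻¹ ∈ 𝐂(V) → (b * a)⁻¹ * e * (b * a) * (e : G)⁻¹ ∈ 𝐂(V) := by
      intro a ha b hb h4 h5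
      have hnc : P ≤ 𝐍(𝐂(V)) := hPV.trans (norm_le_norm_cent V)
      have e1 : (b * a)⁻¹ * e * (b * a) * (e : G)⁻¹ =
          (a⁻¹ * (b⁻¹ * e * b * ((e : G) * z)⁻¹) * a) * (a⁻¹ * e * a * ((e : G) * z)⁻¹) *
          (((e : G) * z) * (a⁻¹ * z * a * (z : G)⁻¹) * ((e : G) * z)⁻¹) *
          (e * ((z : G) * z) * (e : G)⁻¹) := by group
      rw [e1]
      exact mul_mem (mul_mem (mul_mem (conj_mem_of_mem_normalizer' (hnc ha) h5) h4)
        (conj_mem_of_mem_normalizer (hnc (mul_mem e.2 z.2)) (hzc a ha)))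
        (conj_mem_of_mem_normalizer (hnc e.2) (hsq z hz.1))
    have hQi : Q.relIndex P ≤ 2 := relIndex_le_two fun a ha b hb ha' hb' =>
      hQm _ (mul_mem hb ha) (hprod a ha b hb ((hconj a ha).resolve_left fun h => ha' (hQm a ha h))
        ((hconj b hb).resolve_left fun h => hb' (hQm b hb h)))
    have h6 := split_card hc ho (hPV e.2) (hsq e he)
    have h7 := hinv1 e e.2 (hsq e he) he1
    have hle : Inv V hc e ≤ V := fun v hv => hv.1
    have b3 := three_le (ho.of_dvd_nat (card_dvd_of_le hle)) h7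
    have h5 : V ⊓ 𝐂[(e : G)] ≠ ⊥ := fun h0 => by
      rw [h0, card_bot] at hcard; omega
    have h8 := ih' _ Q inf_le_left (by rw [h6, hcard]; nlinarith) h5 hQP
      (inf_le_left.trans inf_le_right)
    have h9 := ih' _ (Q ⊓ 𝐂(V ⊓ 𝐂[(e : G)])) hle (by rw [h6, hcard]; nlinarith) h7
      (inf_le_left.trans hQP) (inf_le_left.trans inf_le_right)
    have hsup := split_sup hc ho (hPV e.2) (hsq e he)
    have h10 := dl_split (P := Q) hsup
    have hQC : Q ⊓ 𝐂(V) = P ⊓ 𝐂(V) :=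
      le_antisymm (inf_le_inf_right _ hQP) (le_inf hCQ inf_le_right)
    rw [hcard] at h6 h8
    rcases b3.eq_or_lt with b4 | b4
    · -- both summands have order `3`
      have h11 : Sq Q ≤ Q ⊓ 𝐂(V) := Sq_le fun g hg => ⟨mul_mem hg hg, by
        rw [← hsup, cent_sup]
        exact ⟨sq_cent_three (hcard.trans b4.symm) hg.1.2, sq_cent_three b4.symm hg.2⟩⟩
      have h12 : (P ⊓ 𝐂(V)).relIndex Q ≤ 4 := by
        have : dl Q V = (P ⊓ 𝐂(V)).relIndex Q := by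
          unfold dl; rw [sup_eq_right.2 h11, hQC]
        rw [← this]
        rw [← b4] at h8 h9
        have a1 : dl Q (V ⊓ 𝐂[(e : G)]) ≤ 2 := by omega
        have a2 : dl (Q ⊓ 𝐂(V ⊓ 𝐂[(e : G)])) (Inv V hc e) ≤ 2 := by omega
        exact h10.trans (Nat.mul_le_mul a1 a2)
      have h13 := relIndex_mul_relIndex _ _ _ hCQ hQP
      have h14 := relIndex_mul_relIndex (P ⊓ 𝐂(V)) (Sq P ⊔ (P ⊓ 𝐂(V))) P le_sup_right
        (sup_le (Sq_le_self P) inf_le_left)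
      have h15 : (P ⊓ 𝐂(V)).relIndex (Sq P ⊔ (P ⊓ 𝐂(V))) ≠ 1 := fun h => ht' (by
        have h16 := (le_sup_left.trans (relIndex_eq_one.1 h)).trans inf_le_right
        have e1 : t⁻¹ * e * t * (e : G)⁻¹ = (t⁻¹ * e * (t⁻¹ * e)) *
          ((e : G)⁻¹ * (t * t) * e) * ((e : G)⁻¹ * (e : G)⁻¹) := by group
        rw [e1]
        exact mul_mem (mul_mem (h16 (sq_mem (mul_mem (inv_mem ht) e.2)))
          (conj_mem_of_mem_normalizer' (norm_le_norm_cent V (hPV e.2)) (h16 (sq_mem ht))))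
          (h16 (sq_mem (inv_mem e.2))))
      have h16 : (P ⊓ 𝐂(V)).relIndex (Sq P ⊔ (P ⊓ 𝐂(V))) ≠ 0 := index_ne_zero_of_finite
      have h17 : 2 * dl P V ≤ 8 := by
        calc 2 * dl P V ≤ (P ⊓ 𝐂(V)).relIndex (Sq P ⊔ (P ⊓ 𝐂(V))) * dl P V :=
              Nat.mul_le_mul_right _ (by omega)
          _ = _ := h14.trans h13.symm
          _ ≤ 4 * 2 := Nat.mul_le_mul h12 hQi
      rw [← b4] at h6
      omega
    · have h11 : dl P V ≤ 2 * dl Q V := by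
        refine (submul hCQ hQP).trans (Nat.mul_le_mul ?_ (le_of_eq (by unfold dl; rw [hQC])))
        exact (relIndex_le_of_le_left le_sup_right index_ne_zero_of_finite).trans hQi
      have h12 := Nat.mul_le_mul (h8.2 b4) (h9.2 b4)
      rw [h6]
      constructor
      · nlinarith
      · intro; nlinarith

end


/-- Let G be a finite group that is the semidirect product of a normal abelian subgroup N of odd order by a 2-subgroup P, and suppose N is the unique minimal normal subgroup of G. Then the index of the Frattini subgroup of P in P is at most #N − 1. -/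
theorem result {G : Type*} [Group G] [Finite G] (N P : Subgroup G) (hN : N.Normal) (hNab : IsMulCommutative ↥N) (hNodd : Odd (Nat.card ↥N)) (hP : IsPGroup 2 ↥P) (hdisj : N ⊓ P = ⊥) (hprod : N ⊔ P = ⊤) (hmin : N ≠ ⊥ ∧ ∀ M : Subgroup G, M.Normal → M ≠ ⊥ → N ≤ M) : (frattini ↥P).index ≤ Nat.card ↥N - 1 := by
  have hc : N ≤ 𝐂(N) := fun a ha => mem_cent.2 fun b hb =>
    congrArg Subtype.val (hNab.is_comm.comm ⟨b, hb⟩ ⟨a, ha⟩)
  have hPN : P ≤ 𝐍(N) := le_normalizer_of_normal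
  have h1 := main _ N P rfl hc hNodd hmin.1 hP hPN
  have h2 : P ⊓ 𝐂(N) = ⊥ := by
    by_contra h0
    have hn : (P ⊓ 𝐂(N)).Normal := normal_of_le_normalizer_top (by
      rw [← hprod]
      refine sup_le (le_trans (fun a ha => mem_cent.2 fun b hb => ?_) (cent_le_norm _))
        (H1.le_normalizer_inf le_normalizer (hPN.trans (norm_le_norm_cent N)))
      exact (mem_cent.1 hb.2 a ha).symm)
    exact hmin.1 (by rw [← hdisj]; exact (inf_eq_left.2 ((hmin.2 _ hn h0).trans inf_le_left)).symm)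
  have : Fact (Nat.Prime 2) := ⟨Nat.prime_two⟩
  have h3 : (frattini P).index ≤ dl P N := by
    unfold dl
    rw [h2, sup_bot_eq]
    refine Nat.le_of_dvd (Nat.pos_of_ne_zero index_ne_zero_of_finite) (index_dvd_of_le ?_)
    intro g hg
    obtain ⟨g', hg', e⟩ := Sq_le (D := (frattini P).map P.subtype) (fun x hx => by
      rw [← pow_two]; exact Cop.pow_mem_frattini_map hP hx) (mem_subgroupOf.1 hg)
    obtain rfl : g' = g := Subtype.ext e
    exact hg'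
  have h4 := three_le hNodd hmin.1
  omega

end Cfsg.Agent.S4188
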