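import Cfsg.Statements.S4189
import Mathlib
import Cfsg.Agent.Lib.PGroupMisc

set_option autoImplicit false
open Cfsg

namespace Cfsg.Agent.S4189

open CfsgLib.PGrp
open scoped commutatorElement

/-- Let P be a finite non-abelian 2-group whose commutator subgroup has index 4 and whose automorphism group is not a 2-group (some automorphism has order that is not a power of 2). Then P is isomorphic to the quaternion group of order 8. -/
theorem result {P : Type*} [Group P] [Finite P] (hP : IsPGroup 2 P) (hna : ¬ IsMulCommutative P) (h4 : (commutator P).index = 4) (haut : ¬ IsPGroup 2 (MulAut P)) : Nonempty (P ≃* QuaternionGroup 2) := by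
  obtain ⟨n, x, y, h⟩ := isDQSD_of_index_commutator hP hna h4
  have h1 : ¬ (3 ≤ n ∨ y ^ 2 = 1) := fun h1 => haut (h.isPGroup_mulAut h1)
  push Not at h1
  obtain rfl : n = 2 := by have := h.1; omega
  rcases h.cases with h2 | h2 | h2
  · exact absurd h2.1 h1.2
  · exact h2
  · exact absurd h2.1 h1.2

end Cfsg.Agent.S4189
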