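import Cfsg.Statements.S4192
import Cfsg.Agent.Lib.CoreRealGraph

set_option autoImplicit false
open Cfsg

namespace Cfsg.Agent.S4192

open Subgroup CfsgLib
open scoped Pointwise commutatorElement



theorem result {G : Type*} [Group G] [Finite G] (h : (∃ π₁ π₂ : Set ℕ, π₁.Nonempty ∧ π₂.Nonempty ∧ Disjoint π₁ π₂ ∧ (∀ q ∈ π₁ ∪ π₂, q.Prime ∧ ∃ n ∈ {n : ℕ | ∃ x : G, IsConj x x⁻¹ ∧ (Subgroup.centralizer ({x} : Set G)).index = n}, q ∣ n) ∧ (∀ q : ℕ, q.Prime → (∃ n ∈ {n : ℕ | ∃ x : G, IsConj x x⁻¹ ∧ (Subgroup.centralizer ({x} : Set G)).index = n}, q ∣ n) → q ∈ π₁ ∨ q ∈ π₂) ∧ ∀ a ∈ π₁, ∀ b ∈ π₂, ∀ n ∈ {n : ℕ | ∃ x : G, IsConj x x⁻¹ ∧ (Subgroup.centralizer ({x} : Set G)).index = n}, ¬ (a ∣ n ∧ b ∣ n))) : (∃ n ∈ {n : ℕ | ∃ x : G, IsConj x x⁻¹ ∧ (Subgroup.centralizer ({x} : Set G)).index = n}, 2 ∣ n) ∧ ((∀ P : Sylow 2 G, (P : Subgroup G).Normal) ∨ ((∃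 π₁ π₂ : Set ℕ, π₁.Nonempty ∧ π₂.Nonempty ∧ Disjoint π₁ π₂ ∧ (∀ q ∈ π₁ ∪ π₂, q.Prime ∧ ∃ n ∈ {n : ℕ | ∃ x : ↥(Subgroup.closure {g : G | ∃ k : ℕ, orderOf g = 2 ^ k}), IsConj x x⁻¹ ∧ (Subgroup.centralizer ({x} : Set ↥(Subgroup.closure {g : G | ∃ k : ℕ, orderOf g = 2 ^ k}))).index = n}, q ∣ n) ∧ (∀ q : ℕ, q.Prime → (∃ n ∈ {n : ℕ | ∃ x : ↥(Subgroup.closure {g : G | ∃ k : ℕ, orderOf g = 2 ^ k}), IsConj x x⁻¹ ∧ (Subgroup.centralizer ({x} : Set ↥(Subgroup.closure {g : G | ∃ k : ℕ, orderOf g = 2 ^ k}))).index = n}, q ∣ n) → q ∈ π₁ ∨ q ∈ π₂) ∧ ∀ a ∈ π₁, ∀ b ∈ π₂, ∀ n ∈ {n : ℕ | ∃ x : ↥(Subgroup.closure {g : G | ∃ k : ℕ, orderOf g = 2 ^ k}), IsConj x x⁻¹ ∧ (Subgroup.centralizer ({x} : Set ↥(Subgroup.closure {g : G | ∃ k : ℕ, orderOf g = 2 ^ k}))).index = n}, ¬ (a ∣ n ∧ b ∣ n)) ∧ ∀ n ∈ {n : ℕ | ∃ x : ↥(Subgroup.closure {g : G | ∃ k : ℕ, orderOf g = 2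 ^ k}), IsConj x x⁻¹ ∧ (Subgroup.centralizer ({x} : Set ↥(Subgroup.closure {g : G | ∃ k : ℕ, orderOf g = 2 ^ k}))).index = n}, Odd n ∨ ∃ j : ℕ, n = 2 ^ j)) := by
  obtain ⟨π₁, π₂, h₁, h₂, hdisj, hsub, hcover, hnoedge⟩ := h
  obtain ⟨⟨π, t, h⟩, x, hx1, hx2⟩ := RealGraph.exists_star h₁ h₂ hdisj hsub hcover hnoedge
  refine ⟨⟨_, ⟨x, hx1, rfl⟩, hx2⟩, or_iff_not_imp_left.2 fun hP => ?_⟩
  have key := @RealGraph.Star.mem_of_dvd G _ _ π t h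
  have hmem : ∀ g : G, (∃ k : ℕ, orderOf g = 2 ^ k) →
      g ∈ closure {g : G | ∃ k : ℕ, orderOf g = 2 ^ k} := fun g hg => subset_closure hg
  have hn : (closure {g : G | ∃ k : ℕ, orderOf g = 2 ^ k}).Normal := by
    refine normal_of_le_normalizer_top fun g _ => ?_
    rw [← map_conj_eq_iff_mem_normalizer]
    refine eq_of_le_of_card_le ?_ (card_map_conj _ _).ge
    rw [MonoidHom.map_closure]
    refine closure_mono ?_
    rintro _ ⟨y, ⟨k, hk⟩, rfl⟩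
    exact ⟨k, by rw [← hk]; exact MulEquiv.orderOf_eq _ _⟩
  generalize closure {g : G | ∃ k : ℕ, orderOf g = 2 ^ k} = K at *
  have hd : RealGraph.Dich π K := fun y hy =>
    (h.dich y (K.subtype.map_isConj hy)).imp (fun h3 => h3.of_dvd (Frob.index_centralizer_normal_dvd K y))
      fun h3 => h3.of_dvd (Frob.index_centralizer_normal_dvd K y)
  refine ⟨⟨{q | q.Prime ∧ q ∉ π ∧ ∃ y : K, IsConj y y⁻¹ ∧ q ∣ (centralizer ({y} : Set K)).index},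
    {q | q.Prime ∧ q ∈ π ∧ ∃ y : K, IsConj y y⁻¹ ∧ q ∣ (centralizer ({y} : Set K)).index},
    ?_, ?_, Set.disjoint_left.2 fun q h1 h2 => h1.2.1 h2.2.1, ?_, ?_, ?_⟩, ?_⟩
  · by_contra h0
    refine hP (H5.sylow_two_normal_of_not_real fun y hy hy2 hr => h0 ⟨2, Nat.prime_two, h.two, ?_⟩)
    obtain ⟨u, hu, huy⟩ := H5.exists_two_element_inverts hr
    have ho := hy.odd_of_ne_two hy2
    have hyK : y ∈ K := by
      refine H5.mem_of_sq_mem_of_odd (Nat.coprime_two_right.2 ho) ?_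
      have := mul_mem (hn.conj_mem u (hmem u hu) y) (inv_mem (hmem u hu))
      rwa [mul_assoc, mul_assoc, ← mul_assoc u, ← conj_inv, huy, inv_inv, ← pow_two] at this
    have h3 : IsConj (⟨y, hyK⟩ : K) (⟨y, hyK⟩ : K)⁻¹ := isConj_iff.2 ⟨⟨u, hmem u hu⟩, Subtype.ext huy⟩
    refine ⟨_, h3, H5.two_dvd_index_centralizer_of_isConj_inv h3 fun e => ?_⟩
    rw [Invol.eq_one_of_odd ho (by rw [← pow_two]; exact congrArg Subtype.val e), orderOf_one] at hy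
    exact Nat.not_prime_one hy
  · have htK : t ∈ K := hmem t (isPGroup_zpowers_iff.1 (Invol.isPGroup_zpowers h.sq))
    have h1 : (centralizer ({⟨t, htK⟩} : Set K)).index ≠ 1 := fun h0 => hP fun P => by
      have h2 : ∀ Q : Sylow 2 G, (Q : Subgroup G) ≤ centralizer {t} := fun Q g hg =>
        mem_centralizer_singleton_iff.2 (congrArg Subtype.val (mem_center_iff.1
          (Frob.index_centralizer_eq_one_iff.1 h0)
          ⟨g, hmem g (orderOf_eq_pow_of_mem_isPGroup Q.isPGroup' hg)⟩))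
      have : Subsingleton (Sylow 2 G) := ⟨fun P Q => h.sylow_eq (h2 P) (h2 Q)⟩
      exact P.normal_of_subsingleton
    obtain ⟨q, hq, h2⟩ := Nat.exists_prime_and_dvd h1
    exact ⟨q, hq, h.pi q hq (h2.trans (Frob.index_centralizer_normal_dvd K _)), _,
      RealGraph.isConj_inv_of_sq (Subtype.ext h.sq), h2⟩
  · rintro q (⟨h1, -, y, h2, h3⟩ | ⟨h1, -, y, h2, h3⟩) <;> exact ⟨h1, _, ⟨y, h2, rfl⟩, h3⟩
  · rintro q hq ⟨_, ⟨y, h2, rfl⟩, h3⟩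
    by_cases h1 : q ∈ π
    · exact Or.inr ⟨hq, h1, y, h2, h3⟩
    · exact Or.inl ⟨hq, h1, y, h2, h3⟩
  · rintro a ha b hb _ ⟨y, hy, rfl⟩ ⟨h1, h2⟩
    rcases hd y hy with h3 | h3
    · exact ha.2.1 (h3 a ha.1 h1)
    · exact h3 b hb.1 h2 hb.2.1
  · rintro _ ⟨y, hy, rfl⟩
    rcases hd y hy with h3 | h3
    · left
      rw [← Nat.not_even_iff_odd, even_iff_two_dvd]
      exact fun h4 => h.two (h3 2 Nat.prime_two h4)
    · refine Or.inr ((isPiNum_singleton_iff Nat.prime_two index_ne_zero_of_finite).1 fun r hr h4 => ?_)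
      by_contra h5
      exact h3 r hr h4 (key hr h5 (h4.trans (index_dvd_card _)))

end Cfsg.Agent.S4192
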