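import Cfsg.Statements.S4193
import Cfsg.Agent.Lib.CoreSimpleInd
import Cfsg.Agent.Lib.CoreRealTwo
import Cfsg.Agent.Lib.H5Real
import Cfsg.Agent.Lib.CoreElements

set_option autoImplicit false
open Cfsg

namespace Cfsg.Agent.S4193

open Subgroup CfsgLib
open scoped Pointwise commutatorElement



theorem result {G : Type*} [Group G] [Finite G] (a : ℕ) (h : ∀ x : G, IsConj x x⁻¹ → x ∉ Subgroup.center G → ((Subgroup.centralizer ({x} : Set G)).index).factorization 2 = a) (S : Sylow 2 G) (hS : ∀ s : ↥(S : Subgroup G), IsConj s s⁻¹ → s ∈ Subgroup.center ↥(S : Subgroup G)) : Group.IsSolvable G ∧ Cfsg.HasNormalPComplement 2 ↥(Subgroup.closure {g : G | ∃ k : ℕ, orderOf g = 2 ^ k}) := by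
  have hreal : ∀ x : G, (∃ k, orderOf x = 2 ^ k) → IsConj x x⁻¹ →
      ∃ T : Sylow 2 G, x ∈ centralizer ((T : Subgroup G) : Set G) := by
    intro x ⟨k, hk⟩ hx
    obtain ⟨u, ⟨l, hl⟩, hu⟩ := H5.exists_two_element_inverts hx
    have h1 : IsPGroup 2 ↥(zpowers u ⊔ zpowers x) := by
      refine IsPGroup.to_sup_of_normal_right' (IsPGroup.of_card (by rw [Nat.card_zpowers, hl]))
        (IsPGroup.of_card (by rw [Nat.card_zpowers, hk])) (zpowers_le.2 ?_)
      exact H5.mem_normalizer_zpowers_of_conj_mem (hu ▸ inv_mem (mem_zpowers x))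
    obtain ⟨T, hT⟩ := h1.exists_le_sylow
    obtain ⟨g, hg⟩ := MulAction.exists_smul_eq G T S
    have hmem : ∀ y, y ∈ (T : Subgroup G) ↔ g * y * g⁻¹ ∈ (S : Subgroup G) := by
      intro y
      rw [← hg, Sylow.coe_subgroup_smul, ← MulAut.conj_apply, ← MulAut.smul_def,
        Subgroup.smul_mem_pointwise_smul_iff]
    have hxT := (hmem x).1 (hT (mem_sup_right (mem_zpowers x)))
    have huT := (hmem u).1 (hT (mem_sup_left (mem_zpowers u)))
    have h2 := hS ⟨_, hxT⟩ (isConj_iff.2 ⟨⟨_, huT⟩, Subtype.ext (by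
      simp only [Subgroup.coe_mul, Subgroup.coe_inv]
      calc _ = g * (u * x * u⁻¹) * g⁻¹ := by group
        _ = _ := by rw [hu]; group)⟩)
    refine ⟨T, fun y hy => ?_⟩
    have h3 := congrArg Subtype.val (mem_center_iff.1 h2 ⟨_, (hmem y).1 hy⟩)
    simp only [Subgroup.coe_mul] at h3
    calc y * x = g⁻¹ * (g * y * g⁻¹ * (g * x * g⁻¹)) * g := by group
      _ = _ := by rw [h3]; group
  by_cases hc : ∀ x : G, x ^ 4 = 1 → IsConj x x⁻¹ → x ∈ center G
  · have h1 := hnpc_two_of_real_central hc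
    exact ⟨isSolvable_of_hnpc_two h1, PCompl.hnpc_subgroup h1 _⟩
  push Not at hc
  obtain ⟨x, hx4, hx, hxZ⟩ := hc
  obtain ⟨T, hT⟩ := hreal x (by
    obtain ⟨k, -, hk⟩ := (Nat.dvd_prime_pow Nat.prime_two (m := 2)).1 (orderOf_dvd_of_pow_eq_one hx4)
    exact ⟨k, hk⟩) hx
  have ha : a = 0 := by
    rw [← h x hx hxZ]
    apply Nat.factorization_eq_zero_of_not_dvd
    refine fun hd => T.not_dvd_index (hd.trans (index_dvd_of_le fun s hs => ?_))
    exact mem_centralizer_singleton_iff.mpr (hT s hs)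
  haveI : (S : Subgroup G).Normal := by
    refine H5.sylow_two_normal_of_not_real (fun y hy hy2 hr => ?_) S
    have hy1 : y ^ 2 ≠ 1 := fun h1 =>
      hy2 ((Nat.prime_dvd_prime_iff_eq hy Nat.prime_two).1 (orderOf_dvd_of_pow_eq_one h1))
    have h1 := H5.two_dvd_index_centralizer_of_isConj_inv hr hy1
    by_cases hyZ : y ∈ center G
    · exact hy1 (H5.sq_eq_one_of_isConj_inv_of_centralizes_sylow hr S (center_le_centralizer _ hyZ))
    · have h2 := h y hr hyZ
      rw [ha] at h2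
      have := (Nat.prime_two.dvd_iff_one_le_factorization index_ne_zero_of_finite).1 h1
      omega
  refine ⟨isSolvable_of_normal_sylow_two S, PCompl.hnpc_of_isPGroup (S.2.to_le ?_)⟩
  rw [closure_le]
  rintro g ⟨k, hk⟩
  have h1 : IsPGroup 2 (zpowers g) := IsPGroup.of_card (by rw [Nat.card_zpowers, hk])
  obtain ⟨T', hT'⟩ := h1.exists_le_sylow
  haveI := Sylow.unique_of_normal S inferInstance
  rw [Subsingleton.elim T' S] at hT'
  exact hT' (mem_zpowers g)

end Cfsg.Agent.S4193
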