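import Cfsg.Statements.S4195

set_option autoImplicit false
open Cfsg

namespace Cfsg.Agent.S4195

theorem sq_eq_one {G : Type*} [Group G] [Finite G] (x : G) (P : Sylow 2 G)
    (hP : (P : Subgroup G) ≤ Subgroup.centralizer ({x} : Set G)) (hreal : IsConj x x⁻¹) :
    x ^ 2 = 1 := by
  obtain ⟨g, hg⟩ := isConj_iff.mp hreal
  set C := Subgroup.centralizer ({x} : Set G) with hC
  have hg' : g * x⁻¹ * g⁻¹ = x := by
    have : g * x⁻¹ * g⁻¹ = (g * x * g⁻¹)⁻¹ := by group
    rw [this, hg, inv_inv]
  have hgN : g ∈ Subgroup.normalizer (C : Set G) := by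
    rw [Subgroup.mem_normalizer_iff]
    intro h
    simp only [hC, Subgroup.mem_centralizer_singleton_iff]
    constructor
    · intro hh
      have : Commute h x⁻¹ := (show Commute h x from hh).inv_right
      calc g * h * g⁻¹ * x = g * h * g⁻¹ * (g * x⁻¹ * g⁻¹) := by rw [hg']
        _ = g * (h * x⁻¹) * g⁻¹ := by group
        _ = (g * x⁻¹ * g⁻¹) * (g * h * g⁻¹) := by rw [this.eq]; group
        _ = _ := by rw [hg']
    · intro hh
      have : Commute (g * h * g⁻¹) x⁻¹ := (show Commute _ x from hh).inv_right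
      rw [← hg] at this
      calc h * x = g⁻¹ * ((g * h * g⁻¹) * (g * x * g⁻¹)) * g := by group
        _ = _ := by rw [this.eq]; group
  have hodd : ¬ 2 ∣ C.relIndex (Subgroup.normalizer (C : Set G)) := fun h =>
    P.not_dvd_index (h.trans ((Subgroup.relIndex_dvd_index_of_le Subgroup.le_normalizer).trans
      (Subgroup.index_dvd_of_le hP)))
  have h1 := Subgroup.pow_index_mem (C.subgroupOf (Subgroup.normalizer (C : Set G))) ⟨g, hgN⟩
  obtain ⟨k, hk⟩ : Odd (C.relIndex (Subgroup.normalizer (C : Set G))) :=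
    Nat.odd_iff.mpr (by omega)
  rw [Subgroup.mem_subgroupOf, Subgroup.coe_pow, ← Subgroup.relIndex, hk] at h1
  have h2 : g ^ 2 ∈ C := by
    rw [hC, Subgroup.mem_centralizer_singleton_iff]
    calc g ^ 2 * x = g * (g * x * g⁻¹) * g⁻¹ * g ^ 2 := by simp only [sq]; group
      _ = _ := by rw [hg, hg']
  have h3 : g ∈ C := by
    have : g = (g ^ 2) ^ (-(k : ℤ)) * g ^ (2 * k + 1) := by group
    rw [this]
    exact C.mul_mem (C.zpow_mem h2 _) h1
  rw [hC, Subgroup.mem_centralizer_singleton_iff] at h3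
  rw [h3, mul_inv_cancel_right] at hg
  rw [sq]
  nth_rewrite 1 [hg]
  exact inv_mul_cancel x


/-- Let x be a non-identity element of a finite group G whose centralizer contains a Sylow 2-subgroup of G. If x is conjugate to its inverse, then x has order 2. -/
theorem result {G : Type*} [Group G] [Finite G] (x : G) (hx : x ≠ 1) (P : Sylow 2 G) (hP : (P : Subgroup G) ≤ Subgroup.centralizer ({x} : Set G)) (hreal : IsConj x x⁻¹) : orderOf x = 2 := by
  exact orderOf_eq_prime (sq_eq_one x P hP hreal) hx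

end Cfsg.Agent.S4195
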