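import Cfsg.Statements.S4196
import Cfsg.Agent.S4195

set_option autoImplicit false
open Cfsg

namespace Cfsg.Agent.S4196

/-- A finite group G has elementary abelian Sylow 2-subgroups (commutative with every element squaring to the identity) if and only if every 2-element of G has a Sylow 2-subgroup in its centralizer and is conjugate to its inverse. -/
theorem result {G : Type*} [Group G] [Finite G] (P : Sylow 2 G) :
    (IsMulCommutative (P : Subgroup G) ∧ ∀ x ∈ (P : Subgroup G), x ^ 2 = 1) ↔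
      ∀ x : G, (∃ k : ℕ, orderOf x = 2 ^ k) → (∃ Q : Sylow 2 G, (Q : Subgroup G) ≤ Subgroup.centralizer ({x} : Set G)) ∧ IsConj x x⁻¹ := by
  constructor
  · rintro ⟨hc, h2⟩ x ⟨k, hk⟩
    have hx : IsPGroup 2 (Subgroup.zpowers x) := IsPGroup.of_card (by rw [Nat.card_zpowers, hk])
    obtain ⟨Q, hQ⟩ := hx.exists_le_sylow
    obtain ⟨g, rfl⟩ := MulAction.exists_smul_eq G P Q
    have hmem : ∀ y, y ∈ ((g • P : Sylow 2 G) : Subgroup G) → g⁻¹ * y * g ∈ (P : Subgroup G) := by
      intro y hy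
      rw [Sylow.coe_subgroup_smul, Subgroup.mem_pointwise_smul_iff_inv_smul_mem] at hy
      simpa using hy
    have hxm := hmem x (hQ (Subgroup.mem_zpowers x))
    refine ⟨⟨g • P, fun y hy => ?_⟩, ?_⟩
    · rw [Subgroup.mem_centralizer_singleton_iff]
      have := congrArg Subtype.val (hc.is_comm.comm ⟨_, hmem y hy⟩ ⟨_, hxm⟩)
      simp only [Subgroup.coe_mul] at this
      calc y * x = g * (g⁻¹ * y * g * (g⁻¹ * x * g)) * g⁻¹ := by group
        _ = _ := by rw [this]; group
    · have h3 : x ^ 2 = 1 := by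
        calc x ^ 2 = g * (g⁻¹ * x * g) ^ 2 * g⁻¹ := by simp only [sq]; group
          _ = 1 := by rw [h2 _ hxm]; group
      have : x⁻¹ = x := by
        rw [inv_eq_iff_mul_eq_one, ← sq, h3]
      rw [this]
  · intro h
    have h2 : ∀ x ∈ (P : Subgroup G), x ^ 2 = 1 := by
      intro x hx
      obtain ⟨k, hk⟩ := IsPGroup.iff_orderOf.mp P.isPGroup' ⟨x, hx⟩
      rw [Subgroup.orderOf_mk] at hk
      obtain ⟨⟨Q, hQ⟩, hr⟩ := h x ⟨k, hk⟩
      exact S4195.sq_eq_one x Q hQ hr
    refine ⟨⟨⟨fun a b => Subtype.ext ?_⟩⟩, h2⟩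
    have inv : ∀ x ∈ (P : Subgroup G), x⁻¹ = x := fun x hx => by
      rw [inv_eq_iff_mul_eq_one, ← sq, h2 x hx]
    have := inv _ (mul_mem a.2 b.2)
    rw [mul_inv_rev, inv _ a.2, inv _ b.2] at this
    exact this.symm

end Cfsg.Agent.S4196
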