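import Cfsg.Statements.S4230
import Mathlib

set_option autoImplicit false
open Cfsg

namespace Cfsg.Agent.S4230

/-- Let p be an odd prime, q a natural number not divisible by p, and e the multiplicative order of q modulo p. For a natural number f, p divides the value at q of the f-th cyclotomic polynomial if and only if f = e·p^j for some j ≥ 0. -/
theorem result (p q f : ℕ) (hp : p.Prime) (hp2 : p ≠ 2) (hpq : ¬ p ∣ q) :
    ((p : ℤ) ∣ (Polynomial.cyclotomic f ℤ).eval (q : ℤ)) ↔ ∃ j : ℕ, f = orderOf (q : ZMod p) * p ^ j := by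
  have := Fact.mk hp
  have hq0 : (q : ZMod p) ≠ 0 := by rwa [Ne, ZMod.natCast_eq_zero_iff]
  have he : ¬ p ∣ orderOf (q : ZMod p) := by
    intro h
    have h1 : orderOf (q : ZMod p) ∣ p - 1 := ZMod.orderOf_dvd_card_sub_one hq0
    have := Nat.le_of_dvd (by have := hp.two_le; omega) (h.trans h1)
    have := hp.two_le
    omega
  have key : ((p : ℤ) ∣ (Polynomial.cyclotomic f ℤ).eval (q : ℤ)) ↔
      (Polynomial.cyclotomic f (ZMod p)).IsRoot (q : ZMod p) := by
    rw [← ZMod.intCast_zmod_eq_zero_iff_dvd, Polynomial.IsRoot.def,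
      ← Polynomial.map_cyclotomic_int f (ZMod p), Polynomial.eval_map, ← Int.cast_natCast (R := ZMod p) q,
      ← eq_intCast (Int.castRingHom (ZMod p)) (q : ℤ), Polynomial.eval₂_at_apply, eq_intCast]
  rw [key]
  rcases Nat.eq_zero_or_pos f with rfl | hf
  · simp only [Polynomial.cyclotomic_zero, Polynomial.IsRoot.def, Polynomial.eval_one, one_ne_zero,
      false_iff, not_exists]
    intro j hj
    rcases mul_eq_zero.1 hj.symm with h | h
    · exact he (h ▸ dvd_zero p)
    · exact pow_ne_zero j hp.ne_zero h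
  obtain ⟨k, m, hm, rfl⟩ := Nat.exists_eq_pow_mul_and_not_dvd hf.ne' p hp.ne_one
  have : NeZero (m : ZMod p) := ⟨by rwa [Ne, ZMod.natCast_eq_zero_iff]⟩
  rw [Polynomial.isRoot_cyclotomic_prime_pow_mul_iff_of_charP, IsPrimitiveRoot.iff_orderOf]
  constructor
  · intro h
    exact ⟨k, by rw [h, mul_comm]⟩
  · rintro ⟨j, hj⟩
    apply Nat.dvd_antisymm
    · have h1 : orderOf (q : ZMod p) ∣ p ^ k * m := hj ▸ Dvd.intro _ rfl
      exact (Nat.Coprime.pow_right k ((hp.coprime_iff_not_dvd.2 he).symm)).dvd_of_dvd_mul_left h1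
    · have h1 : m ∣ orderOf (q : ZMod p) * p ^ j := hj ▸ Dvd.intro_left _ rfl
      exact (Nat.Coprime.pow_right j ((hp.coprime_iff_not_dvd.2 hm).symm)).dvd_of_dvd_mul_right h1

end Cfsg.Agent.S4230
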