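import Cfsg.Statements.S4231
import Cfsg.Agent.Lib.H6Alt

set_option autoImplicit false
open Cfsg

namespace Cfsg.Agent.S4231

open Equiv Equiv.Perm Subgroup in
theorem aux (n : ℕ) (hn : 5 ≤ n) (G : Subgroup (MulAut (alternatingGroup (Fin n))))
    (hG : (MulAut.conj : alternatingGroup (Fin n) →* MulAut (alternatingGroup (Fin n))).range ≤ G)
    (p q : ℕ) [hp : Fact p.Prime] [hq : Fact q.Prime] (hpq : p < q)
    (h : ∀ g : G, orderOf g ≠ p * q) (Q : Sylow q G) : IsMulCommutative (Q : Subgroup G) := by
  have hc : Nat.card (Fin n) = n := by simp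
  have hinj : Function.Injective
      (MulAut.conj : alternatingGroup (Fin n) →* MulAut (alternatingGroup (Fin n))) :=
    (injective_iff_map_eq_one _).2 fun x hx => Subtype.ext
      (CfsgLib.H6Alt.eq_one_of_comm (by omega) fun g => by
        have := congrArg (fun ψ : MulAut (alternatingGroup (Fin n)) => (ψ g : Perm (Fin n))) hx
        exact mul_inv_eq_iff_eq_mul.1 this)
  have key : ∀ m : Multiset ℕ, (∀ a ∈ m, 2 ≤ a) → Even (m.sum + m.card) → m.lcm = p * q →
      n < m.sum := by
    intro m h1 h2 h3
    by_contra h4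
    obtain ⟨g, hg⟩ := (exists_with_cycleType_iff (Fin n) (m := m)).2 ⟨by simpa using h4, h1⟩
    have hs : g ∈ alternatingGroup (Fin n) := by
      rw [mem_alternatingGroup, sign_of_cycleType, hg, h2.neg_one_pow]
    refine h ⟨MulAut.conj ⟨g, hs⟩, hG ⟨_, rfl⟩⟩ ?_
    rw [← orderOf_coe, orderOf_injective _ hinj, ← orderOf_coe, ← lcm_cycleType, hg, h3]
  have h2 := hp.out.two_le
  have hqo : Odd q := hq.out.odd_of_ne_two (by omega)
  have hcop : p.Coprime q := (Nat.coprime_primes hp.out hq.out).2 hpq.ne
  have hlt : n ≤ 2 * q := by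
    rcases hp.out.eq_two_or_odd' with rfl | hpo
    · have := key {2, 2, q} (by simp; omega) (by
        obtain ⟨k, rfl⟩ := hqo
        simp only [Multiset.insert_eq_cons, Multiset.sum_cons, Multiset.sum_singleton,
          Multiset.card_cons, Multiset.card_singleton]
        exact ⟨k + 4, by ring⟩) (by
        simp only [Multiset.insert_eq_cons, Multiset.lcm_cons, Multiset.lcm_singleton,
          normalize_eq, ← lcm_assoc, lcm_same]
        exact hcop.lcm_eq_mul)
      simp only [Multiset.insert_eq_cons, Multiset.sum_cons, Multiset.sum_singleton] at this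
      omega
    · have := key {p, q} (by simp; omega) (by
        obtain ⟨k, rfl⟩ := hqo
        obtain ⟨l, rfl⟩ := hpo
        simp only [Multiset.insert_eq_cons, Multiset.sum_cons, Multiset.sum_singleton,
          Multiset.card_cons, Multiset.card_singleton]
        exact ⟨k + l + 2, by ring⟩) (by
        simp only [Multiset.insert_eq_cons, Multiset.lcm_cons, Multiset.lcm_singleton,
          normalize_eq]
        exact hcop.lcm_eq_mul)
      simp only [Multiset.insert_eq_cons, Multiset.sum_cons, Multiset.sum_singleton] at this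
      omega
  have hY : IsPGroup q ((Q : Subgroup G).map G.subtype) := Q.2.map _
  refine ⟨⟨fun a b => Subtype.ext (Subtype.ext ?_)⟩⟩
  have := CfsgLib.H6Alt.comm_of_aut (by omega) (by omega) (by rw [hc]; nlinarith) hY
    ⟨a.1.1, a.1, a.2, rfl⟩ ⟨b.1.1, b.1, b.2, rfl⟩
  exact congrArg (fun x : (Q : Subgroup G).map G.subtype => x.1) this

/-- Let n ≥ 5 and let G be a group of automorphisms of the alternating group of degree n containing all inner automorphisms. If p ≠ q are primes and G has no element of order pq, then every Sylow p-subgroup of G is abelian or every Sylow q-subgroup of G is abelian. -/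
theorem result (n : ℕ) (hn : 5 ≤ n) (G : Subgroup (MulAut (alternatingGroup (Fin n))))
    (hG : (MulAut.conj : alternatingGroup (Fin n) →* MulAut (alternatingGroup (Fin n))).range ≤ G)
    (p q : ℕ) [Fact p.Prime] [Fact q.Prime] (hpq : p ≠ q) (h : ∀ g : G, orderOf g ≠ p * q) :
    (∀ P : Sylow p G, IsMulCommutative (P : Subgroup G)) ∨ (∀ Q : Sylow q G, IsMulCommutative (Q : Subgroup G)) := by
  rcases lt_or_gt_of_ne hpq with h1 | h1
  · exact Or.inr (aux n hn G hG p q h1 h)
  · exact Or.inl (aux n hn G hG q p h1 (by rwa [mul_comm]))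

end Cfsg.Agent.S4231
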