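import Cfsg.Statements.S4233
import Cfsg.Agent.Lib.MaxN.F

set_option autoImplicit false
open Cfsg

namespace Cfsg.Agent.S4233

/-- Let G be a finite non-solvable group in which every subgroup H that is not subnormal and whose order has at most two prime divisors has a normalizer N_G(H) that is a maximal subgroup of G. Then G is the internal direct product of normal subgroups K and S with K isomorphic to PSL(2, 13) or to SL(2, 13), S abelian, and the orders of K and S coprime. -/
theorem result {G : Type*} [Group G] [Finite G] (hG : ¬ Group.IsSolvable G)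
    (h : ∀ H : Subgroup G, ¬ H.IsSubnormal →
      (∃ p q : ℕ, p.Prime ∧ q.Prime ∧ ∀ r : ℕ, r.Prime → r ∣ Nat.card H → r = p ∨ r = q) →
      IsCoatom (Subgroup.normalizer (H : Set G))) :
    ∃ K S : Subgroup G, K.Normal ∧ S.Normal ∧ K ⊓ S = ⊥ ∧ K ⊔ S = ⊤ ∧
      (Nonempty (K ≃* Matrix.ProjectiveSpecialLinearGroup (Fin 2) (ZMod 13)) ∨
        Nonempty (K ≃* Matrix.SpecialLinearGroup (Fin 2) (ZMod 13))) ∧
      IsMulCommutative S ∧ (Nat.card K).Coprime (Nat.card S) :=
  (CfsgLib.H5.MN.lf_quot hG h).main

end Cfsg.Agent.S4233
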