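import Cfsg.Statements.S4234
import Mathlib
import Cfsg.Agent.Lib.H5Redundant
import Cfsg.Agent.Lib.H5Small
import Cfsg.Agent.Lib.PComplement
import Cfsg.Agent.Lib.FT.BG1
import Cfsg.Agent.Lib.FrobZGroup

set_option autoImplicit false
open Cfsg

namespace Cfsg.Agent.S4234
open Subgroup Cfsg CfsgLib CfsgLib.H5
open scoped commutatorElement MatrixGroups

section simple
variable {G : Type*} [Group G] [Finite G]

theorem exists_char {r : ℕ} [hr : Fact r.Prime] (H : Subgroup G) (h1 : r ∣ Nat.card H)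
    (h2 : ¬ r * r ∣ Nat.card H) (h : ∀ n, n * r ∣ Nat.card H → n % r = 1 → n = 1) :
    ∃ R : Subgroup G, R ≤ H ∧ Nat.card R = r ∧ normalizer (H : Set G) ≤ normalizer (R : Set G) := by
  obtain ⟨Q⟩ : Nonempty (Sylow r H) := inferInstance
  have hQ : Nat.card Q = r := by
    obtain ⟨k, hk⟩ := IsPGroup.iff_card.1 Q.isPGroup'
    have h3 := Q.dvd_card_of_dvd_card h1
    have h4 := (Q : Subgroup H).card_subgroup_dvd_card
    rw [hk] at h3 h4 ⊢
    rcases k with _ | _ | k
    · exact absurd (Nat.dvd_one.1 h3) hr.out.ne_one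
    · simp
    · exact absurd ((Dvd.intro (r ^ k) (by ring)).trans h4) h2
  have h5 : Nat.card (Sylow r H) = 1 := by
    refine h _ ?_ ?_
    · rw [← (Q : Subgroup H).index_mul_card, hQ]
      exact Nat.mul_dvd_mul_right Q.card_dvd_index _
    · have := card_sylow_modEq_one r H
      rwa [Nat.ModEq, Nat.mod_eq_of_lt hr.out.one_lt] at this
  haveI : (Q : Subgroup H).Normal := by
    rw [← normalizer_eq_top_iff, ← index_eq_one]
    exact Q.card_eq_index_normalizer.symm.trans h5
  haveI := Q.characteristic_of_normal inferInstance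
  exact ⟨(Q : Subgroup H).map H.subtype, map_subtype_le _, by rw [card_map_subtype, hQ],
    normalizer_le_normalizer_map_subtype_of_characteristic H Q⟩

variable [IsSimpleGroup G] (hG : Nat.card G = 1092)
include hG

theorem card_le {M : Subgroup G} (hM : M ≠ ⊤) : Nat.card M ≤ 84 := by
  have h0 : M.normalCore = ⊥ := (IsSimpleGroup.eq_bot_or_eq_top_of_normal _ inferInstance).resolve_right fun h =>
    hM (top_le_iff.1 (h ▸ M.normalCore_le))
  obtain ⟨f, hf⟩ := exists_injective_perm_of_normalCore h0 index_ne_zero_of_finite rfl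
  have h1 := card_dvd_of_injective f hf
  rw [Nat.card_perm, Nat.card_fin, hG] at h1
  have h2 := (Nat.Prime.dvd_factorial (by norm_num : Nat.Prime 13)).1
    ((by norm_num : 13 ∣ 1092).trans h1)
  have h3 := M.card_mul_index
  rw [hG] at h3
  nlinarith

omit [IsSimpleGroup G] in
theorem card_dvd (M : Subgroup G) : Nat.card M ∣ 1092 := hG ▸ M.card_subgroup_dvd_card

omit hG in
theorem normalizer_ne_top {R : Subgroup G} (h1 : R ≠ ⊥) (h2 : R ≠ ⊤) :
    normalizer (R : Set G) ≠ ⊤ := fun h =>
  (IsSimpleGroup.eq_bot_or_eq_top_of_normal R (normalizer_eq_top_iff.1 h)).elim h1 h2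

omit [IsSimpleGroup G] in
theorem ne_of_card {R : Subgroup G} {n : ℕ} (h : Nat.card R = n) (h1 : n ≠ 1) (h2 : n ≠ 1092) :
    R ≠ ⊥ ∧ R ≠ ⊤ :=
  ⟨fun h' => h1 (by rw [← h, h', card_bot]), fun h' => h2 (by rw [← h, h', card_top, hG])⟩

omit [IsSimpleGroup G] in
theorem sylow_count {r k : ℕ} [hr : Fact r.Prime] {R : Subgroup G} (hR : Nat.card R = r ^ k)
    (hk : ¬ r ∣ 1092 / r ^ k) : ∃ P : Sylow r G, (P : Subgroup G) = R ∧
      ∃ n, n % r = 1 ∧ Nat.card (normalizer (R : Set G)) * n = 1092 := by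
  have h1 : R.index = 1092 / r ^ k := by
    rw [← hG, ← R.card_mul_index, hR, Nat.mul_div_cancel_left _ (pow_pos hr.out.pos k)]
  let P := (IsPGroup.of_card hR).toSylow (h1 ▸ hk)
  refine ⟨P, rfl, Nat.card (Sylow r G), ?_, ?_⟩
  · have := card_sylow_modEq_one r G
    rwa [Nat.ModEq, Nat.mod_eq_of_lt hr.out.one_lt] at this
  · rw [P.card_eq_index_normalizer, ← hG]
    exact card_mul_index _

theorem not_hnpc {r : ℕ} [hr : Fact r.Prime] (h : r = 2 ∨ r = 3) : ¬ HasNormalPComplement r G := by
  intro h'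
  obtain ⟨N, hN, h1, k, h2⟩ := PCompl.hnpc_exists_normal h'
  rcases IsSimpleGroup.eq_bot_or_eq_top_of_normal N hN with rfl | rfl
  · rw [index_bot, hG] at h2
    have := (Nat.Prime.dvd_of_dvd_pow (by norm_num : Nat.Prime 7) (h2 ▸ (by norm_num : 7 ∣ 1092)))
    rcases h with rfl | rfl <;> omega
  · rw [card_top, hG] at h1
    rcases h with rfl | rfl <;> exact absurd h1 (by norm_num)

theorem norm7 {R : Subgroup G} (hR : Nat.card R = 7) : Nat.card (normalizer (R : Set G)) = 14 := by
  haveI : Fact (Nat.Prime 7) := ⟨by norm_num⟩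
  obtain ⟨-, -, n, h1, h2⟩ := sylow_count hG (r := 7) (k := 1) hR (by norm_num)
  have h3 := ne_of_card hG hR (by norm_num) (by norm_num)
  have h4 := card_le hG (normalizer_ne_top h3.1 h3.2)
  have h5 := hR ▸ card_dvd_of_le (le_normalizer (H := R))
  generalize Nat.card (normalizer (R : Set G)) = m at *
  interval_cases m <;> omega

theorem norm13 {R : Subgroup G} (hR : Nat.card R = 13) :
    Nat.card (normalizer (R : Set G)) = 78 := by
  haveI : Fact (Nat.Prime 13) := ⟨by norm_num⟩
  obtain ⟨-, -, n, h1, h2⟩ := sylow_count hG (r := 13) (k := 1) hR (by norm_num)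
  have h3 := ne_of_card hG hR (by norm_num) (by norm_num)
  have h4 := card_le hG (normalizer_ne_top h3.1 h3.2)
  have h5 := hR ▸ card_dvd_of_le (le_normalizer (H := R))
  generalize Nat.card (normalizer (R : Set G)) = m at *
  interval_cases m <;> omega

theorem char7 {M : Subgroup G} (hM : M ≠ ⊤) (h : 7 ∣ Nat.card M) :
    ∃ R : Subgroup G, R ≤ M ∧ Nat.card R = 7 ∧ normalizer (M : Set G) ≤ normalizer (R : Set G) := by
  haveI : Fact (Nat.Prime 7) := ⟨by norm_num⟩
  have h1 := card_le hG hM
  have h2 := card_dvd hG M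
  refine exists_char M h (fun h' => absurd (h'.trans h2) (by norm_num)) fun n h3 h4 => ?_
  have h5 := Nat.le_of_dvd Nat.card_pos h3
  have h6 := h3.trans h2
  have : n ≤ 12 := by omega
  interval_cases n <;> omega

theorem char13 {M : Subgroup G} (hM : M ≠ ⊤) (h : 13 ∣ Nat.card M) :
    ∃ R : Subgroup G, R ≤ M ∧ Nat.card R = 13 ∧ normalizer (M : Set G) ≤ normalizer (R : Set G) := by
  haveI : Fact (Nat.Prime 13) := ⟨by norm_num⟩
  have h1 := card_le hG hM
  have h2 := card_dvd hG M
  refine exists_char M h (fun h' => absurd (h'.trans h2) (by norm_num)) fun n h3 h4 => ?_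
  have h5 := Nat.le_of_dvd Nat.card_pos h3
  omega

theorem card_cases {M : Subgroup G} (hM : M ≠ ⊤) :
    Nat.card M ∣ 14 ∨ Nat.card M ∣ 78 ∨ Nat.card M ∣ 12 := by
  by_cases h7 : 7 ∣ Nat.card M
  · obtain ⟨R, -, h2, h3⟩ := char7 hG hM h7
    exact Or.inl (norm7 hG h2 ▸ card_dvd_of_le (le_normalizer.trans h3))
  by_cases h13 : 13 ∣ Nat.card M
  · obtain ⟨R, -, h2, h3⟩ := char13 hG hM h13
    exact Or.inr (Or.inl (norm13 hG h2 ▸ card_dvd_of_le (le_normalizer.trans h3)))
  have h1 := card_le hG hM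
  have h2 := card_dvd hG M
  generalize Nat.card M = m at *
  interval_cases m <;> omega

theorem isCoatom_of {M : Subgroup G} (hM : M ≠ ⊤)
    (h : 14 ∣ Nat.card M ∨ 78 ∣ Nat.card M ∨ 12 ∣ Nat.card M) : IsCoatom M := by
  refine ⟨hM, fun K hK => ?_⟩
  by_contra hK'
  have h1 := card_cases hG hK'
  have h2 := card_dvd_of_le hK.le
  have h3 := card_lt_card_of_lt hK
  have h4 := card_le hG hK'
  have h5 : 0 < Nat.card M := Nat.card_pos
  generalize Nat.card M = m at *
  generalize Nat.card K = k at *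
  have h6 : 14 ∣ k ∨ 78 ∣ k ∨ 12 ∣ k := h.imp (·.trans h2) (Or.imp (·.trans h2) (·.trans h2))
  have h7 : k = 14 ∨ k = 78 ∨ k = 12 := by interval_cases k <;> omega
  rcases h7 with rfl | rfl | rfl <;> interval_cases m <;> omega

theorem card_twelve {M : Subgroup G} (hM : M ≠ ⊤) (h : 12 ∣ Nat.card M) : Nat.card M = 12 := by
  rcases card_cases hG hM with h1 | h1 | h1
  · exact absurd (h.trans h1) (by norm_num)
  · exact absurd (h.trans h1) (by norm_num)
  · exact Nat.dvd_antisymm h1 h

theorem norm3 {R : Subgroup G} (hR : Nat.card R = 3) :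
    Nat.card (normalizer (R : Set G)) = 12 ∧ 2 ∣ Nat.card (centralizer (R : Set G)) := by
  haveI : Fact (Nat.Prime 3) := ⟨by norm_num⟩
  obtain ⟨P, hP, n, h1, h2⟩ := sylow_count hG (r := 3) (k := 1) hR (by norm_num)
  have h3 := ne_of_card hG hR (by norm_num) (by norm_num)
  have h4 := card_cases hG (normalizer_ne_top h3.1 h3.2)
  have h5 := hR ▸ card_dvd_of_le (le_normalizer (H := R))
  haveI := isCyclic_of_prime_card hR
  have h6 := FT.relIndex_centralizer_dvd_card_mulAut (E := R) le_rfl
  rw [IsCyclic.card_mulAut, hR, Nat.totient_prime Nat.prime_three] at h6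
  have h7 : (centralizer (R : Set G)).relIndex (normalizer (R : Set G)) ≠ 1 := fun h =>
    not_hnpc hG (Or.inr rfl) (PCompl.hnpc_of_normalizer_le_centralizer P
      (by rw [hP]; exact relIndex_eq_one.1 h))
  have h8 := card_mul_relIndex (centralizer_le_normalizer (R : Set G))
  rw [((Nat.dvd_prime Nat.prime_two).1 h6).resolve_left h7] at h8
  have h9 := card_le hG (normalizer_ne_top h3.1 h3.2)
  generalize Nat.card (normalizer (R : Set G)) = m at *
  interval_cases m <;> omega

theorem norm4 {V : Subgroup G} (hV : Nat.card V = 4) :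
    Nat.card (normalizer (V : Set G)) = 12 ∧ V ≤ centralizer (V : Set G) ∧
      ¬ normalizer (V : Set G) ≤ centralizer (V : Set G) := by
  obtain ⟨P, hP, -⟩ := sylow_count hG (r := 2) (k := 2) hV (by norm_num)
  have h3 := ne_of_card hG hV (by norm_num) (by norm_num)
  have h4 := card_cases hG (normalizer_ne_top h3.1 h3.2)
  have h5 := hV ▸ card_dvd_of_le (le_normalizer (H := V))
  have h6 : ¬ normalizer (V : Set G) ≤ centralizer (V : Set G) := fun h =>
    not_hnpc hG (Or.inl rfl) (PCompl.hnpc_of_normalizer_le_centralizer P (by rwa [hP]))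
  haveI := IsPGroup.isMulCommutative_of_card_eq_prime_sq (p := 2) hV
  have h7 := V.le_centralizer
  have h8 : Nat.card (normalizer (V : Set G)) ≠ 4 := fun h =>
    h6 ((eq_of_le_of_card_le (le_normalizer (H := V)) (by omega)).ge.trans h7)
  have h9 := card_le hG (normalizer_ne_top h3.1 h3.2)
  refine ⟨?_, h7, h6⟩
  generalize Nat.card (normalizer (V : Set G)) = m at *
  interval_cases m <;> omega

theorem cent2 {t : G} (ht : orderOf t = 2) : 12 ∣ Nat.card (centralizer ({t} : Set G)) := by
  haveI : Fact (Nat.Prime 3) := ⟨by norm_num⟩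
  have syl : ∀ P : Sylow 2 G, Nat.card P = 4 := fun P => by
    have h1 := P.pow_dvd_card_of_pow_dvd_card (n := 2) (by rw [hG]; norm_num)
    obtain ⟨k, hk⟩ := IsPGroup.iff_card.1 P.isPGroup'
    have h2 := card_dvd hG (P : Subgroup G)
    rw [hk] at h1 h2 ⊢
    rcases k with _ | _ | _ | k
    · omega
    · omega
    · rfl
    · exact absurd ((pow_dvd_pow 2 (by omega : 3 ≤ k + 1 + 1 + 1)).trans h2) (by norm_num)
  have four : ∀ s : G, orderOf s = 2 → 4 ∣ Nat.card (centralizer ({s} : Set G)) := fun s hs => by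
    obtain ⟨P, hP⟩ := exists_sylow_mem_of_orderOf (p := 2) (k := 1) hs
    rw [← syl P]
    exact card_dvd_of_le fun x hx => mem_centralizer_singleton_iff.2
      (mem_centralizer_iff.1 ((norm4 hG (syl P)).2.1 hx) s hP).symm
  suffices h : 3 ∣ Nat.card (centralizer ({t} : Set G)) from
    Nat.Coprime.mul_dvd_of_dvd_of_dvd (by norm_num : Nat.Coprime 3 4) h (four t ht)
  have three : ∀ s y g : G, orderOf y = 3 → Commute y s → g * s * g⁻¹ = t →
      3 ∣ Nat.card (centralizer ({t} : Set G)) := fun s y g hy hc hg => by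
    rw [← hy, ← (MulAut.conj g).orderOf_eq y]
    refine orderOf_dvd_natCard _ (mem_centralizer_singleton_iff.2 ?_)
    rw [← hg]; exact (hc.map (MulAut.conj g)).eq
  obtain ⟨z, hz⟩ := exists_prime_orderOf_dvd_card' (G := G) 3 (by rw [hG]; norm_num)
  obtain ⟨⟨s, hs⟩, hs2⟩ := exists_prime_orderOf_dvd_card' 2
    (norm3 hG ((Nat.card_zpowers z).trans hz)).2
  rw [orderOf_mk] at hs2
  have hzs : Commute z s := mem_centralizer_iff.1 hs z (mem_zpowers z)
  obtain ⟨P, hP⟩ := exists_sylow_mem_of_orderOf (p := 2) (k := 1) ht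
  obtain ⟨Q, hQ⟩ := exists_sylow_mem_of_orderOf (p := 2) (k := 1) hs2
  obtain ⟨g, rfl⟩ := MulAction.exists_smul_eq G P Q
  replace hQ := mem_smul_sylow.1 hQ
  obtain ⟨h1, h2, h3⟩ := norm4 hG (syl P)
  obtain ⟨⟨y, hy⟩, hy3⟩ := exists_prime_orderOf_dvd_card' 3 (h1 ▸ (by norm_num : 3 ∣ 12))
  rw [orderOf_mk] at hy3
  by_cases hyt : Commute y t
  · exact three t y 1 hy3 hyt (by simp)
  have hy1 : y ^ 3 = 1 := hy3 ▸ pow_orderOf_eq_one y
  have ht1 : t ≠ 1 := by rintro rfl; simp at ht
  have e1 : y * t * y⁻¹ ≠ t := fun h => hyt (mul_inv_eq_iff_eq_mul.1 h)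
  have e2 : y⁻¹ * t * y ≠ t := fun h => e1 (by conv_lhs => rw [← h]
                                               group)
  have e3 : y * t * y⁻¹ ≠ y⁻¹ * t * y := fun h => e2 (by
    calc y⁻¹ * t * y = (y ^ 3)⁻¹ * y * (y * t * y⁻¹) * y⁻¹ * y ^ 3 := by group
      _ = t := by rw [h, hy1]; group)
  classical
  have hs1 : g⁻¹ * s * g ≠ 1 := fun h => by
    have : s = 1 := by
      calc s = g * (g⁻¹ * s * g) * g⁻¹ := by group
        _ = 1 := by rw [h]; group
    simp [this] at hs2
  have hsub : ({1, t, y * t * y⁻¹, y⁻¹ * t * y} : Set G) ⊆ P := by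
    rintro x (rfl | rfl | rfl | rfl)
    exacts [one_mem _, hP, conj_mem_of_mem_normalizer hy hP, conj_mem_of_mem_normalizer' hy hP]
  have hcard : ({1, t, y * t * y⁻¹, y⁻¹ * t * y} : Set G).ncard = 4 := by
    rw [Set.ncard_insert_of_notMem, Set.ncard_insert_of_notMem, Set.ncard_pair e3]
    · simp only [Set.mem_insert_iff, Set.mem_singleton_iff, not_or]
      exact ⟨e1.symm, e2.symm⟩
    · simp only [Set.mem_insert_iff, Set.mem_singleton_iff, not_or]
      exact ⟨ht1.symm, fun h => ht1 (by simpa using h.symm),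
        fun h => ht1 (by
          calc t = y * (y⁻¹ * t * y) * y⁻¹ := by group
            _ = 1 := by rw [← h]; group)⟩
  have heq := Set.eq_of_subset_of_ncard_le hsub (by rw [hcard]; exact (syl P).le)
  rcases (heq ▸ hQ : g⁻¹ * s * g ∈ ({1, t, y * t * y⁻¹, y⁻¹ * t * y} : Set G)) with h | h | h | h
  · exact absurd h hs1
  · exact three s z g⁻¹ hz hzs (by rw [inv_inv, h])
  · exact three s z (y⁻¹ * g⁻¹) hz hzs (by
      calc _ = y⁻¹ * (g⁻¹ * s * g) * y := by group
        _ = t := by rw [h]; group)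
  · exact three s z (y * g⁻¹) hz hzs (by
      calc _ = y * (g⁻¹ * s * g) * y⁻¹ := by group
        _ = t := by rw [h]; group)

omit [IsSimpleGroup G] hG in
theorem centralizer_le_normalizer_zpowers (t : G) :
    centralizer {t} ≤ normalizer (zpowers t : Set G) := fun g hg =>
  centralizer_le_normalizer _ (mem_centralizer_iff.2 fun x hx => by
    obtain ⟨k, rfl⟩ := hx
    exact ((Commute.zpow_right (mem_centralizer_singleton_iff.1 hg) k).eq).symm)

theorem cent13 {R : Subgroup G} (hR : Nat.card R = 13) : centralizer (R : Set G) ≤ R := by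
  haveI : Fact (Nat.Prime 13) := ⟨by norm_num⟩
  haveI := isCyclic_of_prime_card hR
  have h1 : R ≤ centralizer (R : Set G) := R.le_centralizer
  have h2 := norm13 hG hR ▸ card_dvd_of_le (centralizer_le_normalizer (R : Set G))
  have h3 := hR ▸ card_dvd_of_le h1
  have key : ∀ r, r = 2 ∨ r = 3 → ¬ r ∣ Nat.card (centralizer (R : Set G)) := fun r hr hd => by
    haveI : Fact r.Prime := ⟨by rcases hr with rfl | rfl <;> norm_num⟩
    obtain ⟨⟨y, hy⟩, hyr⟩ := exists_prime_orderOf_dvd_card' r hd
    rw [orderOf_mk] at hyr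
    have h4 : R ≤ centralizer {y} := fun x hx =>
      mem_centralizer_singleton_iff.2 (mem_centralizer_iff.1 hy x hx)
    have h5 := hR ▸ card_dvd_of_le (h4.trans (centralizer_le_normalizer_zpowers y))
    have h6 := ne_of_card hG ((Nat.card_zpowers y).trans hyr) (by omega) (by omega)
    have h7 : 12 ∣ Nat.card (normalizer (zpowers y : Set G)) := by
      rcases hr with rfl | rfl
      · exact (cent2 hG hyr).trans (card_dvd_of_le (centralizer_le_normalizer_zpowers y))
      · exact (norm3 hG ((Nat.card_zpowers y).trans hyr)).1.symm.dvd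
    rw [card_twelve hG (normalizer_ne_top h6.1 h6.2) h7] at h5
    omega
  have h4 := key 2 (Or.inl rfl)
  have h5 := key 3 (Or.inr rfl)
  refine (eq_of_le_of_card_le h1 ?_).ge
  rw [hR]
  have := Nat.le_of_dvd (by norm_num) h2
  generalize Nat.card (centralizer (R : Set G)) = m at *
  interval_cases m <;> omega

theorem simple_case (H : Subgroup G) (hH : ¬ H.Normal) : IsCoatom (normalizer (H : Set G)) := by
  have h1 : H ≠ ⊥ := by rintro rfl; exact hH inferInstance
  have h2 : H ≠ ⊤ := by rintro rfl; exact hH inferInstance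
  refine isCoatom_of hG (normalizer_ne_top h1 h2) ?_
  have hc1 : Nat.card H ≠ 1 := fun h => h1 (card_eq_one.1 h)
  have hN := card_dvd_of_le (le_normalizer (H := H))
  by_cases h7 : 7 ∣ Nat.card H
  · left
    obtain ⟨R, h3, h4, h5⟩ := char7 hG h2 h7
    have h6 := norm7 hG h4
    have h8 := h6 ▸ card_dvd_of_le (le_normalizer.trans h5)
    by_cases h9 : Nat.card H = 7
    · rw [← eq_of_le_of_card_le h3 (by omega), h6]
    · have := Nat.le_of_dvd (by norm_num) h8
      have : Nat.card H = 14 := by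
        generalize Nat.card H = m at *
        interval_cases m <;> omega
      exact this ▸ hN
  by_cases h13 : 13 ∣ Nat.card H
  · right; left
    haveI : Fact (Nat.Prime 13) := ⟨by norm_num⟩
    obtain ⟨R, h3, h4, h5⟩ := char13 hG h2 h13
    haveI := isCyclic_of_prime_card h4
    rw [← norm13 hG h4]
    refine card_dvd_of_le fun g hg => mem_normalizer_of_conj_mem fun x hx => ?_
    have e : g * x * g⁻¹ = ⁅g, x⁆ * x := by rw [commutatorElement_def]; group
    rw [e]
    exact mul_mem (h3 (cent13 hG h4 (Frob.commutator_mem_centralizer_of_isCyclic hg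
      (h5 (le_normalizer hx))))) hx
  right; right
  have h12 : Nat.card H ∣ 12 := by
    have h3 := card_le hG h2
    have h4 := card_dvd hG H
    generalize Nat.card H = m at *
    interval_cases m <;> omega
  have : Nat.card H = 2 ∨ Nat.card H = 3 ∨ Nat.card H = 4 ∨ Nat.card H = 6 ∨ Nat.card H = 12 := by
    have := Nat.le_of_dvd (by norm_num) h12
    generalize Nat.card H = m at *
    interval_cases m <;> omega
  rcases this with h | h | h | h | h
  · obtain ⟨⟨t, htH⟩, ht⟩ := exists_prime_orderOf_dvd_card' 2 h.symm.dvd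
    rw [orderOf_mk] at ht
    rw [← eq_of_le_of_card_le (zpowers_le.2 htH) (by rw [Nat.card_zpowers, ht, h])]
    exact (cent2 hG ht).trans (card_dvd_of_le (centralizer_le_normalizer_zpowers t))
  · exact (norm3 hG h).1.symm.dvd
  · exact (norm4 hG h).1.symm.dvd
  · haveI : Fact (Nat.Prime 3) := ⟨by norm_num⟩
    obtain ⟨R, h3, h4, h5⟩ := exists_char (r := 3) H (by omega) (by omega) fun n h3 h4 => by
      have := Nat.le_of_dvd Nat.card_pos h3
      omega
    have h6 := (norm3 hG h4).1
    have h8 := card_mul_relIndex (le_normalizer.trans h5)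
    rw [h6, h] at h8
    haveI := normal_of_index_eq_two (H := H.subgroupOf (normalizer (R : Set G)))
      (show H.relIndex _ = 2 by omega)
    exact h6 ▸ card_dvd_of_le ((normal_subgroupOf_iff_le_normalizer (le_normalizer.trans h5)).1
      inferInstance)
  · exact h ▸ hN

end simple

/-- Normalizers of non-normal subgroups are maximal. -/
def MN (G : Type*) [Group G] : Prop :=
  ∀ H : Subgroup G, ¬ H.Normal → IsCoatom (normalizer (H : Set G))

theorem MN.lift {G G' : Type*} [Group G] [Group G'] [Finite G] (f : G →* G')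
    (hf : Function.Surjective f) (h : MN G')
    (hl : ∀ (H : Subgroup G) (g x y : G), x ∈ H → y ∈ H → f (g * x * g⁻¹) = f y →
      g * x * g⁻¹ ∈ H) : MN G := by
  intro H hH
  have e : normalizer (H : Set G) = (normalizer (H.map f : Set G')).comap f := by
    refine le_antisymm (map_le_iff_le_comap.1 (le_normalizer_map f)) fun g hg => ?_
    refine mem_normalizer_of_conj_mem fun x hx => ?_
    obtain ⟨y, hy, hy'⟩ := conj_mem_of_mem_normalizer hg (mem_map_of_mem f hx)
    exact hl H g x y hx hy (by rw [hy']; simp)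
  rw [e]
  refine isCoatom_comap_of_surjective hf (h _ fun hn => hH ?_)
  rw [← normalizer_eq_top_iff, e, normalizer_eq_top_iff.2 hn, comap_top]

theorem two_ne : (2 : ZMod 13) ≠ 0 := by decide

theorem MN_PSL : MN (Matrix.ProjectiveSpecialLinearGroup (Fin 2) (ZMod 13)) := by
  haveI : Fact (Nat.Prime 13) := ⟨by norm_num⟩
  haveI := Matrix.ProjectiveSpecialLinearGroup.rank_two_simple (F := ZMod 13) (by simp)
  exact simple_case (by rw [SL2C.card_PSL2 two_ne, Nat.card_zmod]; norm_num)

theorem MN_SL : MN (Matrix.SpecialLinearGroup (Fin 2) (ZMod 13)) := by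
  haveI : Fact (Nat.Prime 13) := ⟨by norm_num⟩
  refine MN_PSL.lift (QuotientGroup.mk' _) (QuotientGroup.mk'_surjective _) fun H g x y hx hy h => ?_
  have hz := QuotientGroup.eq.1 h.symm
  rcases SL2_mem_center_iff'.1 hz with h1 | h1
  · rwa [← inv_mul_eq_one.1 h1]
  rw [inv_mul_eq_iff_eq_mul] at h1
  rw [h1]
  refine mul_mem hy ?_
  by_contra hn
  have hodd : Odd (Nat.card H) := Nat.not_even_iff_odd.1 fun he => by
    obtain ⟨⟨t, htH⟩, ht⟩ := exists_prime_orderOf_dvd_card' 2 he.two_dvd
    rw [orderOf_mk] at ht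
    exact hn (H1.SL2_eq_neg_one_of_sq two_ne (ht ▸ pow_orderOf_eq_one t)
      (by rintro rfl; simp at ht) ▸ htH)
  have e1 : (g * x * g⁻¹) ^ Nat.card H = 1 := by
    rw [conj_pow, orderOf_dvd_iff_pow_eq_one.1 (orderOf_dvd_natCard H hx)]; simp
  rw [h1, mul_neg_one, hodd.neg_pow, orderOf_dvd_iff_pow_eq_one.1 (orderOf_dvd_natCard H hy)] at e1
  exact hn (by rw [e1]; exact one_mem H)


/-- Let K be isomorphic to PSL(2, 13) or to SL(2, 13) and let S be a finite abelian group of order coprime to the order of K. Then in the direct product K × S every subgroup that is not normal has a normalizer that is a maximal subgroup. -/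
theorem result {K S : Type*} [Group K] [CommGroup S] [Finite K] [Finite S]
    (hK : Nonempty (K ≃* Matrix.ProjectiveSpecialLinearGroup (Fin 2) (ZMod 13)) ∨
      Nonempty (K ≃* Matrix.SpecialLinearGroup (Fin 2) (ZMod 13)))
    (hKS : (Nat.card K).Coprime (Nat.card S)) (H : Subgroup (K × S)) (hH : ¬ H.Normal) :
    IsCoatom (Subgroup.normalizer (H : Set (K × S))) := by
  have h1 : MN K := by
    rcases hK with ⟨⟨e⟩⟩ | ⟨⟨e⟩⟩
    · exact MN_PSL.lift e.toMonoidHom e.surjective fun H g x y _ hy h => e.injective h ▸ hy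
    · exact MN_SL.lift e.toMonoidHom e.surjective fun H g x y _ hy h => e.injective h ▸ hy
  refine h1.lift (MonoidHom.fst K S) Prod.fst_surjective (fun H g x y hx hy h => ?_) H hH
  have key : ∀ z ∈ H, (z.1, (1 : S)) ∈ H := fun z hz => by
    obtain ⟨m, hm⟩ := exists_pow_eq_self_of_coprime (x := z.1) (n := Nat.card S)
      (hKS.symm.coprime_dvd_right (orderOf_dvd_natCard _))
    have := pow_mem (pow_mem hz (Nat.card S)) m
    convert this using 1
    exact Prod.ext hm.symm (by simp)
  have := mul_mem (mul_mem (key y hy) (inv_mem (key x hx))) hx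
  convert this using 1
  exact Prod.ext (by simpa using h) (by simp)

end Cfsg.Agent.S4234
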