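import Cfsg.Statements.S4237
import Cfsg.Agent.S4003

set_option autoImplicit false
open Cfsg

namespace Cfsg.Agent.S4237

/-- Let G be a finite group, p a prime and a a natural number such that p^(a+1) divides the order of G. Then the number of subgroups of G of order p^a is congruent to 1 or to 1 + p modulo p². -/
theorem result {G : Type*} [Group G] [Finite G] (p a : ℕ) (hp : p.Prime) (hdvd : p ^ (a + 1) ∣ Nat.card G) :
    Nat.card {H : Subgroup G // Nat.card H = p ^ a} ≡ 1 [MOD p ^ 2] ∨
      Nat.card {H : Subgroup G // Nat.card H = p ^ a} ≡ 1 + p [MOD p ^ 2] := by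

  have := Fact.mk hp
  have h1 := CfsgLib.H4.ncard_subgroups_modEq_sq hp hdvd
  have h2 := CfsgLib.H4.ncard_subgroups_modEq_one hp hdvd
  change {H : Subgroup G | Nat.card H = p ^ a}.ncard ≡ 1 [MOD p ^ 2] ∨
    {H : Subgroup G | Nat.card H = p ^ a}.ncard ≡ 1 + p [MOD p ^ 2]
  suffices h : {H : Subgroup G | Nat.card H = p ^ (a + 1) ∧ IsCyclic H}.ncard ≡ 1 [MOD p] ∨
      {H : Subgroup G | Nat.card H = p ^ (a + 1) ∧ IsCyclic H}.ncard ≡ 0 [MOD p] by
    rcases h with h | h
    · left
      have h3 := h.mul_right' p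
      rw [← pow_two, one_mul] at h3
      exact Nat.ModEq.add_right_cancel h3 h1
    · right
      have h3 := h.mul_right' p
      rw [← pow_two, zero_mul] at h3
      exact Nat.ModEq.add_right_cancel h3 h1
  by_cases hp2 : p = 2
  · subst hp2
    exact (Nat.mod_two_eq_zero_or_one _).symm
  obtain ⟨P⟩ : Nonempty (Sylow p G) := inferInstance
  by_cases hc : a = 0 ∨ IsCyclic (P : Subgroup G)
  · left
    convert h2 using 4 with H
    refine and_iff_left_of_imp fun h => ?_
    rcases hc with rfl | hc
    · exact isCyclic_of_prime_card (p := p) (h.trans (by simp))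
    · obtain ⟨Q, hQ⟩ := (IsPGroup.of_card h).exists_le_sylow
      have : IsCyclic (Q : Subgroup G) := isCyclic_of_surjective _ (P.equiv Q).surjective
      exact Subgroup.isCyclic_of_le hQ
  · right
    push Not at hc
    obtain ⟨s, rfl⟩ : ∃ s, a = s + 1 := ⟨a - 1, by omega⟩
    exact Nat.modEq_zero_iff_dvd.mpr (S4003.dvd_cyclic hp2 P hc.2 s)

end Cfsg.Agent.S4237
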