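import Cfsg.Statements.S4238
import Cfsg.Agent.Lib.PComplementMore
import Cfsg.Agent.Lib.CoreElements

set_option autoImplicit false
open Cfsg

namespace Cfsg.Agent.S4238

open Subgroup CfsgLib CfsgLib.PCompl CfsgLib.FrobNPC

theorem aux.{u} (p : ℕ) [hp : Fact p.Prime] (G : Type u) [Group G] [Finite G] :
    (∀ (K : Type u) [Group K] (H : Subgroup G) (f : H →* K), Function.Surjective f →
      pPrimeCore p K = ⊥ → ∃ k : K, orderOf k = Monoid.exponent K) →
    HasNormalPComplement p G := by
  refine card_induction (P := fun G _ _ =>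
    (∀ (K : Type u) [Group K] (H : Subgroup G) (f : H →* K), Function.Surjective f →
      pPrimeCore p K = ⊥ → ∃ k : K, orderOf k = Monoid.exponent K) →
    HasNormalPComplement p G) ?_ G
  intro G _ _ ih h
  have hsub : ∀ L : Subgroup G, L ≠ ⊤ → HasNormalPComplement p L := by
    intro L hL
    refine ih L (card_lt_of_ne_top hL) fun K _ H f hf => ?_
    exact h K (H.map L.subtype)
      (f.comp (H.equivMapOfInjective L.subtype L.subtype_injective).symm.toMonoidHom)
      (hf.comp (MulEquiv.surjective _))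
  have hquo : ∀ (N : Subgroup G) [N.Normal], N ≠ ⊥ → HasNormalPComplement p (G ⧸ N) := by
    intro N _ hN
    refine ih _ (card_quotient_lt hN) fun K _ H f hf => ?_
    exact h K (H.comap (QuotientGroup.mk' N)) (f.comp ((QuotientGroup.mk' N).subgroupComap H))
      (hf.comp (MonoidHom.subgroupComap_surjective_of_surjective _ _
        (QuotientGroup.mk'_surjective N)))
  by_contra hG
  have h1 : pPrimeCore p G = ⊥ := by
    by_contra h0
    exact hG (hnpc_of_quotient_coprime _ (pPrimeCore_coprime p) (hquo _ h0))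
  have h2 : center G = ⊥ := by
    by_contra h0
    exact hG (hnpc_of_quotient_central _ le_rfl (hquo _ h0))
  obtain ⟨H, g, q, k, hH, hH0, hg, hq, hqp, ho, hgc⟩ := exists_not_centralizes_of_not_hnpc hG
  have hqk : (q ^ k).Coprime p := Nat.Coprime.pow_left k ((Nat.coprime_primes hq hp.out).2 hqp)
  have h3 : zpowers g ⊔ H = ⊤ := by
    by_contra h0
    exact hgc (hnpc_mem_centralizer_of_le (hsub _ h0) le_sup_right hH
      (mem_sup_left (mem_zpowers g)) hg (ho ▸ hqk))
  have hHn : H.Normal := by
    rw [← normalizer_eq_top_iff, eq_top_iff, ← h3]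
    exact sup_le (zpowers_le_of_mem hg) le_normalizer
  have h4 : frattini H = ⊥ := by
    by_contra h0
    have h5 : (frattini H).map H.subtype ≠ ⊥ := by
      rwa [Ne, map_eq_bot_iff_of_injective _ H.subtype_injective]
    exact hG (hnpc_of_quotient_le_map_frattini _ le_rfl (hquo _ h5))
  have hab := ((BurnsideBasis.frattini_eq_bot_iff hH).1 h4).1
  obtain ⟨x, hx⟩ := h G ⊤ (⊤ : Subgroup G).subtype (fun y => ⟨⟨y, trivial⟩, rfl⟩) h1
  obtain ⟨u, -, v, -, huv, hcomm, ⟨j, hj⟩, hv⟩ := exists_p_part hp.out x
  have hord : orderOf x = p ^ j * orderOf v := by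
    rw [huv, ← hj]
    exact hcomm.orderOf_mul_eq_mul_orderOf_of_coprime (hj ▸ Nat.Coprime.pow_left j hv.symm)
  obtain ⟨a, ha⟩ := IsPGroup.iff_card.1 hH
  have hcard : ∀ y : G, (orderOf y).Coprime p →
      Nat.card (zpowers y ⊔ H : Subgroup G) = orderOf y * Nat.card H := by
    intro y hy
    rw [card_sup_of_disjoint le_normalizer_of_normal, Nat.card_zpowers]
    apply disjoint_iff.1
    apply disjoint_of_coprime_natCard
    rw [Nat.card_zpowers, ha]
    exact Nat.Coprime.pow_right a hy
  have hGc : Nat.card G = q ^ k * Nat.card H := by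
    rw [← ho, ← hcard g (ho ▸ hqk), h3, card_top]
  have h6 : q ^ k ∣ orderOf v := by
    have h7 : q ^ k ∣ orderOf x := by rw [hx, ← ho]; exact Monoid.order_dvd_exponent g
    rw [hord] at h7
    exact (Nat.Coprime.pow_right j hqk).dvd_of_dvd_mul_left h7
  have h8 : zpowers v ⊔ H = ⊤ := by
    apply eq_of_le_of_card_ge le_top
    rw [card_top, hGc, hcard v hv]
    exact Nat.mul_le_mul_right _ (Nat.le_of_dvd (orderOf_pos v) h6)
  have hu : u ∈ H := by
    apply mem_of_coprime_index
    have h9 := H.card_mul_index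
    rw [hGc, mul_comm (q ^ k)] at h9
    rw [Nat.eq_of_mul_eq_mul_left Nat.card_pos h9, hj]
    exact Nat.Coprime.pow_left j hqk.symm
  have h10 : u ∈ center G := by
    have h11 : zpowers v ⊔ H ≤ centralizer {u} := by
      refine sup_le (zpowers_le_of_mem (mem_centralizer_singleton_iff.2 hcomm.symm)) ?_
      intro y hy
      rw [mem_centralizer_singleton_iff]
      exact congrArg Subtype.val (hab.is_comm.comm (⟨y, hy⟩ : H) ⟨u, hu⟩)
    rw [mem_center_iff]
    intro y
    exact mem_centralizer_singleton_iff.1 (h11 (h8 ▸ mem_top y))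
  rw [h2, mem_bot] at h10
  obtain ⟨z, hz⟩ := exists_prime_orderOf_dvd_card' p
    (hH.card_eq_or_dvd.resolve_left (by rwa [card_eq_one]))
  have h12 : p ∣ orderOf x := by
    rw [hx, ← hz, ← Subgroup.orderOf_coe]; exact Monoid.order_dvd_exponent _
  rw [huv, h10, one_mul] at h12
  exact hp.out.one_lt.ne' (Nat.Coprime.eq_one_of_dvd hv.symm h12)

/-- Let G be a finite group and p a prime. Then G has a normal p-complement if and only if every section K = H/N of G (N a normal subgroup of a subgroup H) whose largest normal subgroup of order prime to p is trivial contains an element whose order equals the exponent of K. -/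
theorem result {G : Type*} [Group G] [Finite G] (p : ℕ) [Fact p.Prime] :
    Cfsg.HasNormalPComplement p G ↔
      ∀ (H : Subgroup G) (N : Subgroup H) [N.Normal], Cfsg.pPrimeCore p (H ⧸ N) = ⊥ →
        ∃ k : H ⧸ N, orderOf k = Monoid.exponent (H ⧸ N) := by
  constructor
  · intro h H N _ h0
    have h1 := isPGroup_of_hnpc_of_pPrimeCore_eq_bot (hnpc_quotient (hnpc_subgroup h H) N) h0
    obtain ⟨k, hk⟩ := isPGroup_iff_exponent_eq_pow.1 h1
    obtain ⟨g, hg⟩ := (Fact.out : p.Prime).exists_orderOf_eq_pow_factorization_exponent (H ⧸ N)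
    refine ⟨g, ?_⟩
    rw [hg, hk, Nat.Prime.factorization_pow Fact.out, Finsupp.single_eq_same]
  · intro h
    refine aux p G fun K _ H f hf h0 => ?_
    let e := QuotientGroup.quotientKerEquivOfSurjective f hf
    have : Finite K := Finite.of_surjective f hf
    obtain ⟨k, hk⟩ := h H f.ker (by
      rw [pPrimeCore_eq_piCore] at h0 ⊢
      rw [← map_piCore_equiv _ e.symm, h0, Subgroup.map_bot])
    exact ⟨e k, by rw [e.orderOf_eq, hk, Monoid.exponent_eq_of_mulEquiv e]⟩

end Cfsg.Agent.S4238
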