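import Cfsg.Statements.S4240
import Cfsg.Agent.Lib.H8Inv
import Cfsg.Agent.Lib.H5Misc

set_option autoImplicit false
open Cfsg

namespace Cfsg.Agent.S4240

theorem card_two_primes {n p q : ℕ} (hn : n ≠ 0) (hp : p.Prime)
    (h : ∀ r : ℕ, r.Prime → r ∣ n → r = p ∨ r = q) : ∃ a b : ℕ, n = p ^ a * q ^ b := by
  have h2 := Nat.eq_prime_pow_of_unique_prime_dvd (n := ordCompl[p] n) (p := q)
      (Nat.ordCompl_pos p hn).ne' fun {r} hr hrd => by
    rcases h r hr (hrd.trans (Nat.ordCompl_dvd n p)) with h1 | h1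
    · subst h1
      exact absurd hrd (Nat.not_dvd_ordCompl hp hn)
    · exact h1
  refine ⟨n.factorization p, (ordCompl[p] n).primeFactorsList.length, ?_⟩
  rw [← h2]
  exact (Nat.ordProj_mul_ordCompl_eq_self n p).symm

open Subgroup CfsgLib in
/-- Let a finite group A act by automorphisms on a finite group G of order coprime to that of A. Suppose every maximal A-invariant proper subgroup of G is nilpotent while G is not. Then G is solvable, the order of G has the form p^a·q^b for two distinct primes p and q, and G has a normal A-invariant Sylow subgroup for some prime dividing its order. -/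
theorem result {A G : Type*} [Group A] [Group G] [Finite A] [Finite G] [MulDistribMulAction A G]
    (hcop : (Nat.card A).Coprime (Nat.card G))
    (hmax : ∀ H : Subgroup G, H ≠ ⊤ → (∀ a : A, ∀ x ∈ H, a • x ∈ H) →
      (∀ K : Subgroup G, H < K → (∀ a : A, ∀ x ∈ K, a • x ∈ K) → K = ⊤) → Group.IsNilpotent H)
    (hG : ¬ Group.IsNilpotent G) :
    Group.IsSolvable G ∧
      (∃ p q a b : ℕ, p.Prime ∧ q.Prime ∧ p ≠ q ∧ Nat.card G = p ^ a * q ^ b) ∧
      ∃ (p : ℕ) (P : Sylow p G), p.Prime ∧ p ∣ Nat.card G ∧ (P : Subgroup G).Normal ∧ (∀ a : A, ∀ x ∈ (P : Subgroup G), a • x ∈ (P : Subgroup G)) := by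
  let φ := MulDistribMulAction.toMulAut A G
  have h : ∀ H : Subgroup G, CopAut.Inv φ H → H ≠ ⊤ → Group.IsNilpotent H := by
    intro H hH hH'
    obtain ⟨M, h1, h2, h3, h4⟩ := H8Inv.exists_maximal_inv_ge hH hH'
    exact isNilpotent_of_le (hmax M h2 h3 h4) h1
  have hs : Group.IsSolvable G := H8Inv.solvable_of_forall_nilpotent hcop h
  refine ⟨hs, ?_, ?_⟩
  · by_contra h1
    push Not at h1
    refine hG ((Group.isNilpotent_of_finite_tfae.out 0 3 rfl rfl).mpr fun p hp P => ?_)
    obtain ⟨Q, hQ⟩ := CopAut.exists_inv_sylow (φ := φ) p hcop (Or.inr hs)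
    suffices h2 : (Q : Subgroup G).Normal by
      have := Sylow.unique_of_normal Q h2
      rwa [Subsingleton.elim P Q]
    rw [← normalizer_eq_top_iff, ← index_eq_one]
    by_contra h2
    obtain ⟨q, hq, hqd⟩ := Nat.exists_prime_and_dvd h2
    have hqp : p ≠ q := by
      rintro rfl
      exact Q.not_dvd_index (hqd.trans (index_dvd_of_le le_normalizer))
    obtain ⟨H, h3, h4, h5⟩ := CopAut.exists_inv_hall_ge (φ := φ) (π := {p, q}) hcop hs
      (U := (Q : Subgroup G)) (fun r hr hrd => by
        obtain ⟨k, hk⟩ := IsPGroup.iff_card.mp Q.isPGroup'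
        rw [hk] at hrd
        exact Or.inl ((Nat.prime_dvd_prime_iff_eq hr hp.out).mp (hr.dvd_of_dvd_pow hrd))) hQ
    have h6 : H ≠ ⊤ := by
      rintro rfl
      obtain ⟨a, b, hab⟩ := card_two_primes (n := Nat.card G) (q := q) Nat.card_pos.ne' hp.out
        fun r hr hrd => h3.1 r hr (by rwa [card_top])
      exact h1 p q a b hp.out hq hqp hab
    have h7 := H5.le_normalizer_of_isSylowIn_of_isNilpotent (IsSylowIn.of_sylow Q h5) (h H h4 h6)
    exact h3.2 q hq (Or.inr rfl) (hqd.trans (index_dvd_of_le h7))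
  · have hnt : (⊥ : Subgroup G) ≠ ⊤ := fun h0 => by
      have : Subsingleton G := subsingleton_of_bot_eq_top h0 |> fun _ =>
        ⟨fun a b => by
          have ha : a ∈ (⊥ : Subgroup G) := h0 ▸ mem_top a
          have hb : b ∈ (⊥ : Subgroup G) := h0 ▸ mem_top b
          rw [mem_bot.mp ha, mem_bot.mp hb]⟩
      exact hG inferInstance
    obtain ⟨N, hN, -, hr⟩ := H5.exists_normal_prime_index_ge hnt
    set r := N.index with hrN
    have : Fact r.Prime := ⟨hr⟩
    have h1 : pResidual r G ≤ N := PRes.pResidual_le_of_index_eq_pow (k := 1) (by simp [hrN])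
    have hc := PRes.pResidual_characteristic (p := r) (G := G)
    have h2 := h _ (CopAut.inv_of_characteristic (pResidual r G)) (fun h2 => by
      rw [h2, top_le_iff] at h1
      rw [h1, index_top] at hrN
      exact hr.one_lt.ne' hrN)
    obtain ⟨s, hs', hsr, hsG⟩ : ∃ s : ℕ, s.Prime ∧ s ≠ r ∧ s ∣ Nat.card G := by
      by_contra h3
      push Not at h3
      refine hG (IsPGroup.isNilpotent (p := r) (IsPGroup.of_card
        (Nat.eq_prime_pow_of_unique_prime_dvd Nat.card_pos.ne' fun {q} hq hqd => ?_)))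
      by_contra h4
      exact h3 q hq h4 hqd
    have : Fact s.Prime := ⟨hs'⟩
    obtain ⟨Q, hQ⟩ := CopAut.exists_inv_sylow (φ := φ) s hcop (Or.inr hs)
    refine ⟨s, Q, hs', hsG, ?_, hQ⟩
    obtain ⟨P, hP⟩ := (IsSylowIn.of_sylow Q
      (PRes.le_pResidual_of_isPGroup (p := r) hsr Q.isPGroup')).exists_sylow_map
    have : (P : Subgroup (pResidual r G)).Characteristic :=
      Sylow.characteristic_of_normal P inferInstance
    rw [← hP]
    infer_instance

end Cfsg.Agent.S4240
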