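import Cfsg.Statements.S4242
import Cfsg.Agent.Lib.FrobeniusPComplement
import Cfsg.Agent.Lib.CoreElements
import Cfsg.Agent.Lib.CoprimeSylow
import Cfsg.Agent.Lib.CoreSolvable

set_option autoImplicit false
open Cfsg

namespace Cfsg.Agent.S4242

open Subgroup CfsgLib CfsgLib.PCompl CfsgLib.FrobNPC

/-- Let G be a finite group and p a prime dividing its order. Every maximal subgroup of G of order divisible by p is nilpotent if and only if G is nilpotent, or G is a minimal non-nilpotent group, or G is the internal direct product of a normal subgroup of order p and a normal minimal non-nilpotent subgroup of order prime to p. -/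
theorem result {G : Type*} [Group G] [Finite G] (p : ℕ) (hp : p.Prime) (hpG : p ∣ Nat.card G) :
    (∀ M : Subgroup G, IsCoatom M → p ∣ Nat.card M → Group.IsNilpotent M) ↔
      (Group.IsNilpotent G ∨ Cfsg.IsMinimalNonNilpotent G ∨
        ∃ Z K : Subgroup G, Z.Normal ∧ K.Normal ∧ Z ⊓ K = ⊥ ∧ Z ⊔ K = ⊤ ∧ Nat.card Z = p ∧
          Cfsg.IsMinimalNonNilpotent K ∧ ¬ p ∣ Nat.card K) := by
  have := Fact.mk hp
  constructor
  · intro h
    have h' : ∀ H : Subgroup G, H ≠ ⊤ → p ∣ Nat.card H → Group.IsNilpotent H := by
      intro H hH hd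
      obtain ⟨M, hM, hle⟩ := (eq_top_or_exists_le_coatom H).resolve_left hH
      exact isNilpotent_of_le (h M hM (hd.trans (card_dvd_of_le hle))) hle
    by_cases h1 : Group.IsNilpotent G
    · exact Or.inl h1
    by_cases h2 : ∀ H : Subgroup G, H ≠ ⊤ → Group.IsNilpotent H
    · exact Or.inr (Or.inl ⟨h1, h2⟩)
    refine Or.inr (Or.inr ?_)
    push Not at h2
    obtain ⟨H, hH, hHn⟩ := h2
    obtain ⟨K, hK, hle⟩ := (eq_top_or_exists_le_coatom H).resolve_left hH
    have hKn : ¬ Group.IsNilpotent K := fun h0 => hHn (isNilpotent_of_le h0 hle)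
    have hKp : ¬ p ∣ Nat.card K := fun h0 => hKn (h K hK h0)
    have hKc : (Nat.card K).Coprime p := (hp.coprime_iff_not_dvd.2 hKp).symm
    by_cases h0 : pCore p G = ⊥
    · exfalso
      have hG : HasNormalPComplement p G := by
        refine hnpc_of_hnpc_normalizer fun Q hQ hQ0 => ?_
        have h3 : normalizer (Q : Set G) ≠ ⊤ := by
          intro h4
          have := normalizer_eq_top_iff.1 h4
          exact hQ0 (le_bot_iff.1 (h0 ▸ le_pCore hQ))
        have h5 : p ∣ Nat.card Q := hQ.card_eq_or_dvd.resolve_left (by rwa [card_eq_one])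
        have := h' _ h3 (h5.trans (card_dvd_of_le le_normalizer))
        exact hnpc_of_isNilpotent
      obtain ⟨P⟩ : Nonempty (Sylow p G) := inferInstance
      obtain ⟨N, hN, hc⟩ := hnpc_exists_isComplement' hG P
      have hcop : (Nat.card (P : Subgroup G)).Coprime (Nat.card N) := by
        rw [← hc.index_eq_card]; exact P.card_coprime_index
      have hPd : p ∣ Nat.card (P : Subgroup G) := P.dvd_card_of_dvd_card hpG
      have h6 : N ≤ centralizer ((P : Subgroup G) : Set G) := by
        refine Cop.le_of_forall_invariant_sylowOf_le (A := (P : Subgroup G))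
          le_normalizer_of_normal hcop (Or.inl (isSolvable_of_isPGroup P.isPGroup'))
          fun q hq Q _ hQ hPQ => ?_
        have hQq : IsPGroup q Q := isPGroup_iff_isPiSubgroup.2 hQ.2.1
        have h7 : (P : Subgroup G) ⊔ Q ≠ ⊤ := by
          intro h8
          apply hKn
          have h9 : Nat.card K ∣ Nat.card (P : Subgroup G) * Nat.card Q := by
            refine dvd_trans ?_ (card_sup_dvd_mul hPQ)
            rw [h8]; exact card_dvd_of_le le_top
          obtain ⟨a, ha⟩ := IsPGroup.iff_card.1 P.isPGroup'
          obtain ⟨b, hb⟩ := IsPGroup.iff_card.1 hQq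
          rw [ha, hb] at h9
          exact (IsPGroup.of_card_dvd_pow
            ((Nat.Coprime.pow_right a hKc).dvd_of_dvd_mul_left h9)).isNilpotent
        have h10 := h' _ h7 (hPd.trans (card_dvd_of_le le_sup_left))
        intro y hy
        rw [mem_centralizer_iff]
        intro x hx
        refine commute_of_coprime_of_mem_isNilpotent h10 (mem_sup_left hx) (mem_sup_right hy) ?_
        exact Nat.Coprime.coprime_dvd_left ((P : Subgroup G).orderOf_dvd_natCard hx)
          (Nat.Coprime.coprime_dvd_right (N.orderOf_dvd_natCard (hQ.1 hy)) hcop)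
      have h11 : (P : Subgroup G).Normal := by
        rw [← normalizer_eq_top_iff, eq_top_iff, ← hc.sup_eq_top]
        exact sup_le (h6.trans (centralizer_le_normalizer _)) le_normalizer
      exact P.ne_bot_of_dvd_card hpG (le_bot_iff.1 (h0 ▸ le_pCore P.isPGroup'))
    · set P := pCore p G with hP
      have hPp : IsPGroup p P := pCore_isPGroup p
      have hPd : p ∣ Nat.card P := hPp.card_eq_or_dvd.resolve_left (by rwa [card_eq_one])
      obtain ⟨a, ha⟩ := IsPGroup.iff_card.1 hPp
      have hcop : (Nat.card K).Coprime (Nat.card P) := ha ▸ Nat.Coprime.pow_right a hKc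
      have hL : ∀ L : Subgroup G, L < K → Group.IsNilpotent (L ⊔ P : Subgroup G) := by
        intro L hL
        refine h' _ (fun h3 => hL.not_ge ?_) (hPd.trans (card_dvd_of_le le_sup_right))
        have h4 : Nat.card K ∣ Nat.card L * Nat.card P := by
          refine dvd_trans ?_ (card_sup_dvd_mul (H := L) (N := P) le_normalizer_of_normal)
          rw [h3]; exact card_dvd_of_le le_top
        exact (eq_of_le_of_card_ge hL.le
          (Nat.le_of_dvd Nat.card_pos (hcop.dvd_of_dvd_mul_right h4))).ge
      have hKP : K ≤ centralizer (P : Set G) := by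
        intro k hk
        have h3 : zpowers k < K := by
          refine lt_of_le_of_ne (zpowers_le_of_mem hk) fun e => hKn ?_
          rw [← e]
          open scoped IsMulCommutative in infer_instance
        rw [mem_centralizer_iff]
        intro x hx
        refine commute_of_coprime_of_mem_isNilpotent (hL _ h3) (mem_sup_right hx)
          (mem_sup_left (mem_zpowers k)) ?_
        exact Nat.Coprime.coprime_dvd_left (P.orderOf_dvd_natCard hx)
          (Nat.Coprime.coprime_dvd_right (K.orderOf_dvd_natCard hk) hcop.symm)
      obtain ⟨z, hz⟩ := exists_prime_orderOf_dvd_card' p hPd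
      rw [← Subgroup.orderOf_coe] at hz
      have hzK : (z : G) ∉ K := fun h3 => hKp (hz ▸ K.orderOf_dvd_natCard h3)
      have hsup : zpowers (z : G) ⊔ K = ⊤ := by
        rw [sup_comm]
        exact hK.2 _ (lt_of_le_of_ne le_sup_left fun e => hzK (e ▸ mem_sup_right (mem_zpowers _)))
      have hKz : K ≤ centralizer ((zpowers (z : G) : Subgroup G) : Set G) :=
        hKP.trans (centralizer_le (zpowers_le_of_mem z.2))
      refine ⟨zpowers (z : G), K, ?_, ?_, ?_, hsup, by rw [Nat.card_zpowers, hz], ⟨hKn, ?_⟩, hKp⟩
      · rw [← normalizer_eq_top_iff, eq_top_iff, ← hsup]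
        exact sup_le le_normalizer (hKz.trans (centralizer_le_normalizer _))
      · rw [← normalizer_eq_top_iff, eq_top_iff, ← hsup]
        exact sup_le ((le_centralizer_iff.1 hKz).trans (centralizer_le_normalizer _)) le_normalizer
      · apply disjoint_iff.1
        apply disjoint_of_coprime_natCard
        rw [Nat.card_zpowers, hz]
        exact hKc.symm
      · intro L hL'
        rw [← isNilpotent_map_subtype_iff]
        refine isNilpotent_of_le (hL _ (lt_of_le_of_ne (map_subtype_le L) fun e => hL' ?_))
          le_sup_left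
        apply map_injective K.subtype_injective
        rw [e, ← MonoidHom.range_eq_map, range_subtype]
  · rintro (h | h | ⟨Z, K, hZ, hK, hZK, hsup, hZc, hKm, hKp⟩) M hM hd
    · infer_instance
    · exact h.2 M hM.1
    · have hZM : Z ≤ M := by
        obtain ⟨z, hz⟩ := exists_prime_orderOf_dvd_card' p hd
        rw [← Subgroup.orderOf_coe] at hz
        have h1 : Z.index = Nat.card K := by
          have h2 := card_sup_of_disjoint (H := Z) (N := K) le_normalizer_of_normal hZK
          rw [hsup, card_top, ← Z.card_mul_index] at h2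
          exact Nat.eq_of_mul_eq_mul_left Nat.card_pos h2
        have h3 : (z : G) ∈ Z :=
          mem_of_coprime_index (by rw [hz, h1]; exact hp.coprime_iff_not_dvd.2 hKp)
        have h4 : zpowers (z : G) = Z :=
          eq_of_le_of_card_ge (zpowers_le_of_mem h3) (by rw [Nat.card_zpowers, hz, hZc])
        rw [← h4]
        exact zpowers_le_of_mem z.2
      have h5 : M = Z ⊔ (M ⊓ K) := by
        apply le_antisymm _ (sup_le hZM inf_le_left)
        intro m hm
        have h6 : m ∈ Z ⊔ K := hsup ▸ mem_top m
        obtain ⟨z, hz, k, hk, rfl⟩ := (mem_sup_iff_of_le_normalizer le_normalizer_of_normal).1 h6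
        exact mul_mem (mem_sup_left hz)
          (mem_sup_right ⟨(M.mul_mem_cancel_left (hZM hz)).1 hm, hk⟩)
      have h7 : Group.IsNilpotent (M ⊓ K : Subgroup G) := by
        rw [← subgroupOf_map_subtype, isNilpotent_map_subtype_iff]
        refine hKm.2 _ fun e => hM.1 ?_
        rw [subgroupOf_eq_top] at e
        rw [eq_top_iff, ← hsup]
        exact sup_le hZM e
      have h8 : Group.IsNilpotent Z := (IsPGroup.of_card (p := p) (n := 1) (by simpa)).isNilpotent
      rw [h5]
      refine isNilpotent_sup ?_ le_normalizer_of_normal h8 h7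
      exact le_trans (le_inf (hZM.trans le_normalizer) le_normalizer_of_normal)
        inf_normalizer_le_normalizer_inf

end Cfsg.Agent.S4242
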