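import Cfsg.Statements.S4245
import Cfsg.Agent.Lib.CoreSimpleInd
import Cfsg.Agent.Lib.CharBurnside
import Cfsg.Agent.Lib.QBaer
import Cfsg.Agent.Lib.OrbitRep

set_option autoImplicit false
open Cfsg

namespace Cfsg.Agent.S4245

open Subgroup CfsgLib
open scoped Pointwise commutatorElement

universe u

def Q (Y : Type u) [Group Y] : Prop :=
  ∃ B : Subgroup Y, ∃ _ : B.Normal, IsCyclic B ∧ IsCyclic (Y ⧸ B) ∧ IsPGroup 2 (Y ⧸ B)

theorem Q.inj {Y Z : Type u} [Group Y] [Group Z] (h : Q Y) (f : Z →* Y) (hf : Function.Injective f) :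
    Q Z := by
  obtain ⟨B, hB, h1, h2, h3⟩ := h
  have hi : Function.Injective (QuotientGroup.map (B.comap f) B f le_rfl) := by
    rw [injective_iff_map_eq_one]
    intro x hx
    obtain ⟨x, rfl⟩ := QuotientGroup.mk'_surjective _ x
    rw [QuotientGroup.mk'_apply, QuotientGroup.map_mk, QuotientGroup.eq_one_iff] at hx
    exact (QuotientGroup.eq_one_iff _).2 hx
  refine ⟨B.comap f, inferInstance, ?_, isCyclic_of_injective _ hi, h3.of_injective _ hi⟩
  refine isCyclic_of_injective (G' := B) ((f.comp (B.comap f).subtype).codRestrict B fun x => x.2) ?_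
  intro x y hxy
  exact Subtype.ext (hf (congrArg Subtype.val hxy))

theorem Q.surj {Y Z : Type u} [Group Y] [Group Z] (h : Q Y) (f : Y →* Z) (hf : Function.Surjective f) :
    Q Z := by
  obtain ⟨B, hB, h1, h2, h3⟩ := h
  haveI := hB.map f hf
  have hs : Function.Surjective (QuotientGroup.map B (B.map f) f (le_comap_map f B)) := by
    intro x
    obtain ⟨x, rfl⟩ := QuotientGroup.mk'_surjective _ x
    obtain ⟨x, rfl⟩ := hf x
    exact ⟨QuotientGroup.mk x, rfl⟩
  exact ⟨B.map f, inferInstance, isCyclic_of_surjective _ (f.subgroupMap_surjective B),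
    isCyclic_of_surjective _ hs, h3.of_surjective _ hs⟩

theorem unique_invol {B : Type*} [Group B] [Finite B] [IsCyclic B] {s t : B} (hs : orderOf s = 2)
    (ht : orderOf t = 2) : s = t := by
  classical
  haveI := Fintype.ofFinite B
  by_contra hne
  have h1 := IsCyclic.card_pow_eq_one_le (α := B) (n := 2) two_pos
  have hs1 : s ≠ 1 := by rintro rfl; simp at hs
  have ht1 : t ≠ 1 := by rintro rfl; simp at ht
  have : ({1, s, t} : Finset B) ⊆ Finset.univ.filter fun a => a ^ 2 = 1 := by
    intro x hx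
    simp only [Finset.mem_insert, Finset.mem_singleton] at hx
    rcases hx with rfl | rfl | rfl
    · simp
    · simp [← hs]
    · simp [← ht]
  have h2 := Finset.card_le_card this
  rw [Finset.card_eq_three.2 ⟨1, s, t, hs1.symm, ht1.symm, hne, rfl⟩] at h2
  omega

theorem result {G : Type*} [Group G] [Finite G] (A : Subgroup G) (p s : ℕ) (hp : p.Prime) (hA : A.index = p ^ s)
    (B : Subgroup A) [B.Normal] (hB : IsCyclic B) (hAB : IsCyclic (A ⧸ B)) (r : ℕ) (hr : Nat.card (A ⧸ B) = 2 ^ r) :
    Group.IsSolvable G := by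
  have hQ : Q A := ⟨B, inferInstance, hB, hAB, IsPGroup.of_card hr⟩
  refine isSolvable_of_simple_induction
    (P := fun X _ _ => ∃ (A : Subgroup X) (s : ℕ), A.index = p ^ s ∧ Q A) ?_ ?_ ?_ G ⟨A, s, hA, hQ⟩
  · rintro X _ _ N _ ⟨A, s, hA, hQ⟩
    obtain ⟨k, -, hk⟩ := (Nat.dvd_prime_pow hp).1 (hA ▸ OrbitRep.relIndex_dvd_index_of_normal_right A N)
    refine ⟨A.subgroupOf N, k, hk, hQ.inj ((N.subtype.comp (A.subgroupOf N).subtype).codRestrict A fun x => x.2) ?_⟩
    intro x y hxy
    exact Subtype.ext (Subtype.ext (congrArg (fun z : A => (z : X)) hxy))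
  · rintro X _ _ N _ ⟨A, s, hA, hQ⟩
    obtain ⟨k, -, hk⟩ := (Nat.dvd_prime_pow hp).1 (hA ▸ A.index_map_dvd (QuotientGroup.mk'_surjective N))
    exact ⟨A.map (QuotientGroup.mk' N), k, hk, hQ.surj _ (MonoidHom.subgroupMap_surjective _ A)⟩
  · rintro X _ _ _ ⟨A, s, hA, B, hB, h1, h2, h3⟩
    have key : ∀ (q k : ℕ) (H : Subgroup X) (g : X), q.Prime → g ≠ 1 → H ≤ centralizer {g} →
        H.index = q ^ k → Group.IsSolvable X := by
      intro q k H g hq hg hH hk
      obtain ⟨j, -, hj⟩ := (Nat.dvd_prime_pow hq).1 (hk ▸ index_dvd_of_le hH)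
      haveI := isMulCommutative_of_simple_of_class_prime_pow hq hg hj
      exact Group.isSolvable_of_comm fun a b => mul_comm' a b
    obtain ⟨r, hr⟩ := IsPGroup.iff_card.1 h3
    by_cases hp2 : p = 2
    · subst hp2
      have hi : (B.map A.subtype).index = 2 ^ (r + s) := by
        rw [index_map_subtype, pow_add, hA, ← hr]; rfl
      by_cases h0 : B = ⊥
      · rw [h0, Subgroup.map_bot, index_bot] at hi
        exact isSolvable_of_isPGroup (IsPGroup.of_card hi)
      · obtain ⟨⟨b, hb⟩, hb1⟩ := ne_bot_iff_exists_ne_one.1 h0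
        refine key 2 _ _ b Nat.prime_two (fun h => hb1 (Subtype.ext (Subtype.ext h))) ?_ hi
        rintro _ ⟨c, hc, rfl⟩ y rfl
        have := congrArg (fun x : B => ((x : A) : X)) (mul_comm' (⟨b, hb⟩ : B) ⟨c, hc⟩)
        exact this
    · by_cases he : 2 ∣ Nat.card B
      · obtain ⟨t, ht⟩ := exists_prime_orderOf_dvd_card' 2 he
        refine key p s A ((t : A) : X) hp (fun h => ?_) ?_ hA
        · have : t = 1 := Subtype.ext (Subtype.ext h)
          simp [this] at ht
        · rintro a ha y rfl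
          have h4 : (⟨⟨a, ha⟩ * t * (⟨a, ha⟩ : A)⁻¹, hB.conj_mem _ t.2 _⟩ : B) = t := by
            refine unique_invol ?_ ht
            rw [orderOf_mk, ← ht, ← orderOf_coe t]
            exact SemiconjBy.orderOf_eq (⟨a, ha⟩ : A)⁻¹ (by simp [SemiconjBy, mul_assoc])
          have h5 : a * ((t : A) : X) * a⁻¹ = t := congrArg (fun x : B => ((x : A) : X)) h4
          rw [mul_inv_eq_iff_eq_mul] at h5
          exact h5.symm
      · obtain ⟨P, hP⟩ := Chr.exists_sylow_le_of_not_dvd_index (p := 2) (H := A) (by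
          rw [hA]
          exact fun h => hp2 ((Nat.prime_dvd_prime_iff_eq Nat.prime_two hp).1
            (Nat.prime_two.dvd_of_dvd_pow h)).symm)
        refine isSolvable_of_isCyclic_sylow_two P (isCyclic_of_injective
          ((QuotientGroup.mk' B).comp (inclusion hP)) ?_)
        rw [injective_iff_map_eq_one]
        intro x hx
        have h4 : inclusion hP x ∈ B := (QuotientGroup.eq_one_iff _).1 hx
        obtain ⟨k, hk⟩ := IsPGroup.iff_orderOf.1 P.2 x
        have h5 : orderOf (inclusion hP x) ∣ Nat.card B := orderOf_dvd_natCard _ h4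
        rw [orderOf_injective _ (inclusion_injective hP), hk] at h5
        rcases k with _ | k
        · exact orderOf_eq_one_iff.1 hk
        · exact absurd ((dvd_pow_self 2 k.succ_ne_zero).trans h5) he

end Cfsg.Agent.S4245
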