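import Cfsg.Statements.S4248
import Cfsg.Agent.Lib.Part.Main

set_option autoImplicit false
open Cfsg

namespace Cfsg.Agent.S4248

/-- Let G be a finite group admitting a nontrivial partition: a family of at least two nontrivial subgroups such that every non-identity element of G lies in exactly one member. Then G is isomorphic to the symmetric group of degree 4; or, for some prime p, the Hughes subgroup generated by the elements g with g^p ≠ 1 is proper (G a p-group or a group of Hughes–Thompson type); or G is a Frobenius group; or G is isomorphic to PSL(2, q) with q ≥ 4, to PGL(2, q) with q ≥ 5 odd, or to a Suzuki group. -/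
theorem result {G : Type*} [Group G] [Finite G] (S : Set (Subgroup G)) (hS2 : ∃ H ∈ S, ∃ K ∈ S, H ≠ K)
    (hS1 : ∀ H ∈ S, H ≠ ⊥) (hpart : ∀ g : G, g ≠ 1 → ∃! H : Subgroup G, H ∈ S ∧ g ∈ H) :
    Nonempty (G ≃* Equiv.Perm (Fin 4)) ∨
    (∃ p : ℕ, p.Prime ∧ Subgroup.closure {g : G | g ^ p ≠ 1} ≠ ⊤) ∨
    (∃ H : Subgroup G, Cfsg.IsFrobeniusComplement H) ∨
    (∃ (F : Type) (_ : Field F) (_ : Fintype F), 4 ≤ Fintype.card F ∧
        Nonempty (G ≃* Matrix.ProjectiveSpecialLinearGroup (Fin 2) F)) ∨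
    (∃ (F : Type) (_ : Field F) (_ : Fintype F), 5 ≤ Fintype.card F ∧ Odd (Fintype.card F) ∧
        Nonempty (G ≃* (GL (Fin 2) F ⧸ Subgroup.center (GL (Fin 2) F)))) ∨
    Cfsg.Lie.IsoSuzuki G := by
  obtain ⟨π, hπ⟩ := CfsgLib.Part.exists_part S hS2 hS1 hpart
  have : Nontrivial G := by
    obtain ⟨H, hH, -⟩ := hS2
    obtain ⟨⟨x, hx⟩, hx1⟩ := Subgroup.ne_bot_iff_exists_ne_one.mp (hS1 H hH)
    exact ⟨⟨x, 1, fun e => hx1 (Subtype.ext e)⟩⟩
  exact CfsgLib.Part.Part.classification hπ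

end Cfsg.Agent.S4248
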