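import Cfsg.Statements.S4249
import Cfsg.Agent.Lib.H5Kegel

set_option autoImplicit false
open Cfsg

namespace Cfsg.Agent.S4249
open Subgroup CfsgLib CfsgLib.H5

/-- Let G be a finite group and p a prime such that G is not a p-group, and suppose the Hughes subgroup H_p(G), generated by all elements g with g^p ≠ 1, is a proper subgroup. Then H_p(G) is nilpotent and has index p in G. -/
theorem result {G : Type*} [Group G] [Finite G] (p : ℕ) (hp : p.Prime) (hG : ¬ IsPGroup p G)
    (hH : Subgroup.closure {g : G | g ^ p ≠ 1} ≠ ⊤) :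
    Group.IsNilpotent (Subgroup.closure {g : G | g ^ p ≠ 1}) ∧ (Subgroup.closure {g : G | g ^ p ≠ 1}).index = p := by
  set H := closure {g : G | g ^ p ≠ 1} with hHdef
  have : Fact p.Prime := ⟨hp⟩
  have hout : ∀ g : G, g ∉ H → g ^ p = 1 := fun g hg => by
    by_contra h0
    exact hg (subset_closure h0)
  have hHn : H.Normal := by
    rw [← normalizer_eq_top_iff, eq_top_iff, le_normalizer_closure_iff]
    intro g _ x hx
    refine subset_closure fun h0 => hx ?_
    rw [conj_pow] at h0
    simpa using h0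
  obtain ⟨t, -, ht⟩ := SetLike.exists_of_lt (lt_top_iff_ne_top.mpr hH)
  have hnil : Group.IsNilpotent H :=
    isNilpotent_of_coset_pow_eq_one hp (t := t) (le_normalizer_of_normal (mem_top t))
      fun x hx => hout _ fun h0 => ht (by simpa using H.mul_mem (H.inv_mem hx) h0)
  refine ⟨hnil, ?_⟩
  obtain ⟨q, hq, hqG, hqp⟩ : ∃ q, q.Prime ∧ q ∣ Nat.card G ∧ q ≠ p := by
    by_contra h0
    push Not at h0
    refine hG ((isPGroup_iff_isPiSubgroup.mpr fun q hq hqK => h0 q hq ?_ :
      IsPGroup p (⊤ : Subgroup G)).of_equiv topEquiv)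
    rwa [card_top] at hqK
  have : Fact q.Prime := ⟨hq⟩
  have hquot : ∀ x : G ⧸ H, x ^ p = 1 := by
    intro x
    obtain ⟨x, rfl⟩ := QuotientGroup.mk_surjective x
    by_cases hx : x ∈ H
    · rw [(QuotientGroup.eq_one_iff x).mpr hx, one_pow]
    · rw [← QuotientGroup.mk_pow, hout x hx, QuotientGroup.mk_one]
  have hQp : IsPGroup p (G ⧸ H) := fun x => ⟨1, by rw [pow_one, hquot]⟩
  obtain ⟨k, hk⟩ := IsPGroup.iff_card.mp hQp
  have hqH : q ∣ Nat.card H := by
    rw [← H.card_mul_index] at hqG
    rcases (Nat.Prime.dvd_mul hq).mp hqG with h1 | h1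
    · exact h1
    · rw [index, hk] at h1
      exact absurd ((Nat.prime_dvd_prime_iff_eq hq hp).mp (hq.dvd_of_dvd_pow h1)) hqp
  obtain ⟨S⟩ : Nonempty (Sylow q H) := inferInstance
  have hSc : (S : Subgroup H).Characteristic := Sylow.characteristic_of_normal S inferInstance
  set Q := (S : Subgroup H).map H.subtype with hQ
  have hQn : Q.Normal := inferInstance
  have hS := IsSylowIn.of_sylow_subgroup S
  set V := centerOf Q with hV
  have hV0 : V ≠ ⊥ := centerOf_ne_bot hS.isPGroup (hS.ne_bot hqH)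
  have hVn : V.Normal := normalizer_eq_top_iff.mp
    (top_le_iff.mp ((normalizer_eq_top Q).symm.le.trans (normalizer_le_normalizer_centerOf Q)))
  have hVq : IsPGroup q V := hS.isPGroup.to_le (centerOf_le Q)
  have hVH : V ≤ H := (centerOf_le Q).trans hS.le
  -- every element of `G` outside `H` is fixed-point-free on `V`
  have hfpf : ∀ s : G, s ∉ H → ∀ v ∈ V, v * s = s * v → v = 1 := by
    intro s hs v hv hc
    have h1 : (v * s) ^ p = 1 := hout _ fun h0 => hs (by
      simpa using H.mul_mem (H.inv_mem (hVH hv)) h0)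
    rw [Commute.mul_pow hc, hout s hs, mul_one] at h1
    obtain ⟨m, hm⟩ := hVq ⟨v, hv⟩
    have h2 : v ^ q ^ m = 1 := congrArg Subtype.val hm
    exact (pow_eq_one_iff_of_coprime
      (((Nat.coprime_primes hp hq).mpr (Ne.symm hqp)).pow_right m)).mp ⟨h1, h2⟩
  -- `H` centralizes `V`
  have hHV : H ≤ centralizer (V : Set G) := by
    refine le_of_forall_sylow_le fun r hr _ => ?_
    by_cases hrq : r = q
    · subst hrq
      exact ⟨S, le_centralizer_centerOf Q⟩
    · obtain ⟨R⟩ : Nonempty (Sylow r H) := inferInstance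
      have hRc : (R : Subgroup H).Characteristic := Sylow.characteristic_of_normal R inferInstance
      refine ⟨R, fun x hx v hv => ?_⟩
      exact (commute_of_normal_of_disjoint V ((R : Subgroup H).map H.subtype) hVn inferInstance
        (IsPGroup.disjoint_of_ne q r (Ne.symm hrq) _ _ hVq (R.isPGroup'.map _)) v x hv hx).eq
  change Nat.card (G ⧸ H) = p
  by_contra hne
  have hk2 : p ^ 2 ∣ Nat.card (G ⧸ H) := by
    rw [hk]
    apply pow_dvd_pow
    by_contra h0
    have h1 : k = 0 ∨ k = 1 := by omega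
    rcases h1 with rfl | rfl
    · exact hH (index_eq_one.mp hk)
    · exact hne (by rw [hk, pow_one])
  obtain ⟨E, hE⟩ := Sylow.exists_subgroup_card_pow_prime p hk2
  have hEc := IsPGroup.isMulCommutative_of_card_eq_prime_sq hE
  have hE1 : E ≠ ⊥ := by
    intro h0
    rw [h0, card_bot] at hE
    exact (Nat.one_lt_pow two_ne_zero hp.one_lt).ne hE
  obtain ⟨⟨a, ha⟩, ha1⟩ := ne_bot_iff_exists_ne_one.mp hE1
  have ha1' : a ≠ 1 := fun h0 => ha1 (Subtype.ext h0)
  have hao : orderOf a = p := orderOf_eq_prime (hquot a) ha1'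
  obtain ⟨b, hb, hba⟩ : ∃ b ∈ E, b ∉ zpowers a := by
    by_contra h0
    push Not at h0
    have h1 := card_le_of_le (h0 : E ≤ zpowers a)
    rw [Nat.card_zpowers, hao, hE] at h1
    have := hp.one_lt
    nlinarith
  have hab : a * b = b * a := isMulCommutative_iff'.mp hEc a ha b hb
  let _ : CommGroup V :=
    { (inferInstance : Group V) with mul_comm := (centerOf_isMulCommutative Q).is_comm.comm }
  let ψ : G ⧸ H →* MulAut V := QuotientGroup.lift H MulAut.conjNormal (fun x hx => by
    ext v
    change x * v * x⁻¹ = v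
    rw [← hHV hx v v.2, mul_inv_cancel_right])
  have key := trace_lemma ψ (zpowers a) hp b
    (centralizer_le_normalizer _ (by
      rintro _ ⟨m, rfl⟩
      exact (Commute.zpow_left hab m).eq))
    (fun x _ => by rw [hquot, map_one]) 0 (fun x hx v => by
      obtain ⟨s, hs⟩ := QuotientGroup.mk_surjective (x * b)
      have hsH : s ∉ H := fun h0 => hba (by
        rw [(QuotientGroup.eq_one_iff s).mpr h0] at hs
        rw [eq_inv_of_mul_eq_one_right hs.symm]
        exact inv_mem hx)
      have h2 := mul_pow_eq_prod_conj V s v p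
      rw [hout _ (fun h0 => hsH (by simpa using H.mul_mem (H.inv_mem (hVH v.2)) h0)),
        hout s hsH, mul_one] at h2
      rw [zpow_zero, ← hs]
      exact Subtype.ext h2.symm) (by simpa using isCoprime_one_left.neg_left) (by
      obtain ⟨m, hm⟩ := IsPGroup.iff_card.mp hVq
      rw [Nat.card_zpowers, hao, hm]
      exact ((Nat.coprime_primes hp hq).mpr (Ne.symm hqp)).pow_right m)
  obtain ⟨s, rfl⟩ := QuotientGroup.mk_surjective a
  apply hV0
  rw [eq_bot_iff]
  intro v hv
  have h3 : s * v * s⁻¹ = v :=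
    congrArg Subtype.val (DFunLike.congr_fun (key (mem_zpowers _)) (⟨v, hv⟩ : V))
  exact hfpf s (fun h0 => ha1' ((QuotientGroup.eq_one_iff s).mpr h0)) v hv
    (mul_inv_eq_iff_eq_mul.mp h3).symm

end Cfsg.Agent.S4249
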