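import Cfsg.Statements.S4250
import Cfsg.Agent.Lib.FrobeniusPComplement

set_option autoImplicit false
open Cfsg

namespace Cfsg.Agent.S4250

/-- Let P be a Sylow p-subgroup of a finite group G. Call an intersection H = P ∩ Q with a Sylow p-subgroup Q tame when N_P(H) and N_Q(H) are Sylow p-subgroups of N_G(H). Then P ∩ G′ is generated by [P, N_G(P)] together with the commutator subgroups [P ∩ Q, ⟨x⟩] for all tame intersections P ∩ Q and all p-elements x of N_G(P ∩ Q). -/
theorem result {G : Type*} [Group G] [Finite G] (p : ℕ) [Fact p.Prime] (P : Sylow p G) :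
    (P : Subgroup G) ⊓ commutator G =
      ⁅(P : Subgroup G), Subgroup.normalizer ((P : Subgroup G) : Set G)⁆ ⊔
        ⨆ (Q : Sylow p G) (_ : (¬ p ∣ ((P : Subgroup G) ⊓ Subgroup.normalizer (((P : Subgroup G) ⊓ (Q : Subgroup G) : Subgroup G) : Set G)).relIndex (Subgroup.normalizer (((P : Subgroup G) ⊓ (Q : Subgroup G) : Subgroup G) : Set G)) ∧ ¬ p ∣ ((Q : Subgroup G) ⊓ Subgroup.normalizer (((P : Subgroup G) ⊓ (Q : Subgroup G) : Subgroup G) : Set G)).relIndex (Subgroup.normalizer (((P : Subgroup G) ⊓ (Q : Subgroup G) : Subgroup G) : Set G))))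
          (x : G) (_ : x ∈ Subgroup.normalizer (((P : Subgroup G) ⊓ (Q : Subgroup G) : Subgroup G) : Set G) ∧ ∃ k : ℕ, orderOf x = p ^ k),
          ⁅(P : Subgroup G) ⊓ (Q : Subgroup G), Subgroup.zpowers x⁆ := by
  apply le_antisymm
  · rw [inf_comm]
    apply CfsgLib.Fusion.commutator_inf_sylow_le P
    intro x hx g hg
    set L := ⁅(P : Subgroup G), Subgroup.normalizer ((P : Subgroup G) : Set G)⁆ ⊔
        ⨆ (Q : Sylow p G) (_ : (¬ p ∣ ((P : Subgroup G) ⊓ Subgroup.normalizer (((P : Subgroup G) ⊓ (Q : Subgroup G) : Subgroup G) : Set G)).relIndex (Subgroup.normalizer (((P : Subgroup G) ⊓ (Q : Subgroup G) : Subgroup G) : Set G)) ∧ ¬ p ∣ ((Q : Subgroup G) ⊓ Subgroup.normalizer (((P : Subgroup G) ⊓ (Q : Subgroup G) : Subgroup G) : Set G)).relIndex (Subgroup.normalizer (((P : Subgroup G) ⊓ (Q : Subgroup G) : Subgroup G) : Set G))))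
          (x : G) (_ : x ∈ Subgroup.normalizer (((P : Subgroup G) ⊓ (Q : Subgroup G) : Subgroup G) : Set G) ∧ ∃ k : ℕ, orderOf x = p ^ k),
          ⁅(P : Subgroup G) ⊓ (Q : Subgroup G), Subgroup.zpowers x⁆ with hL
    have key := CfsgLib.Alperin.alperin_induction P
      (fun A g => ∀ y ∈ A, g * y * g⁻¹ * y⁻¹ ∈ L) ?_ ?_ ?_ ?_
      (Subgroup.zpowers x) g (Subgroup.zpowers_le_of_mem hx) ?_
    · exact key x (Subgroup.mem_zpowers x)
    · intro A B g hBA h y hy
      exact h y (hBA hy)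
    · intro A g k h1 h2 y hy
      have h3 := L.mul_mem (h2 _ (CfsgLib.conj_mem_map_conj (g := g) hy)) (h1 y hy)
      have e : k * (g * y * g⁻¹) * k⁻¹ * (g * y * g⁻¹)⁻¹ * (g * y * g⁻¹ * y⁻¹) =
          k * g * y * (k * g)⁻¹ * y⁻¹ := by group
      rwa [e] at h3
    · intro y hy z hz
      apply Subgroup.mem_sup_left
      rw [Subgroup.commutator_comm]
      exact Subgroup.commutator_mem_commutator hy hz
    · intro Q _ hT y hyQ hy z hz
      apply Subgroup.mem_sup_right
      obtain ⟨k, hk⟩ := IsPGroup.iff_orderOf.1 Q.isPGroup' ⟨y, hyQ⟩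
      rw [← orderOf_injective (Q : Subgroup G).subtype (Subgroup.subtype_injective _)] at hk
      refine Subgroup.mem_iSup_of_mem Q (Subgroup.mem_iSup_of_mem ⟨hT.1.not_dvd, hT.2.not_dvd⟩
        (Subgroup.mem_iSup_of_mem y (Subgroup.mem_iSup_of_mem ⟨hy, k, hk⟩ ?_)))
      rw [Subgroup.commutator_comm]
      exact Subgroup.commutator_mem_commutator (Subgroup.mem_zpowers y) hz
    · rw [MonoidHom.map_zpowers]
      exact Subgroup.zpowers_le_of_mem hg
  · refine sup_le (le_inf ?_ (Subgroup.commutator_mono le_top le_top)) ?_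
    · exact Subgroup.le_normalizer_iff_commutator_le_left.1 le_rfl
    · refine iSup_le fun Q => iSup_le fun _ => iSup_le fun x => iSup_le fun hx => ?_
      refine le_inf ?_ (Subgroup.commutator_mono le_top le_top)
      exact (Subgroup.le_normalizer_iff_commutator_le_left.1
        (Subgroup.zpowers_le_of_mem hx.1)).trans inf_le_left

end Cfsg.Agent.S4250
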