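import Cfsg.Statements.S4259
import Cfsg.Agent.Lib.H2DerC
import Cfsg.Agent.Lib.H6TwoSolv

set_option autoImplicit false
open Cfsg

namespace Cfsg.Agent.S4259

/-- Let G be a finite 2-soluble group whose Sylow 2-subgroups have derived length at most d. Then the 2-length of G is at most d. -/
theorem result {G : Type*} [Group G] [Finite G] (hG : Cfsg.IsPSolvable 2 G) (d : ℕ)
    (hd : ∀ P : Sylow 2 G, derivedSeries (P : Subgroup G) d = ⊥) : Cfsg.PLengthLE 2 d G := by
  refine CfsgLib.H2Der.pLengthLE_two_of_dser (CfsgLib.H6Refl.isSolvable_of_isPSolvable_two G hG)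
    fun T hT => ?_
  obtain ⟨P, hP⟩ := hT.exists_le_sylow
  refine eq_bot_iff.2 ((CfsgLib.H9.dser_mono hP d).trans ?_)
  rw [CfsgLib.H9.dser_eq_map, hd P, Subgroup.map_bot]

end Cfsg.Agent.S4259
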