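import Cfsg.Statements.S4262
import Cfsg.Agent.Lib.H5NilpotentMaximal
import Cfsg.Agent.Lib.CoreElements
import Cfsg.Agent.Lib.ClassSize
import Cfsg.Agent.Lib.PResidual

set_option autoImplicit false
open Cfsg

namespace Cfsg.Agent.S4262

open Subgroup CfsgLib

/-- Let G be a finite group in which the centralizer of every non-central element is a maximal subgroup of G. Then G is solvable. -/
theorem result {G : Type*} [Group G] [Finite G]
    (h : ∀ g : G, g ∉ Subgroup.center G → IsCoatom (Subgroup.centralizer ({g} : Set G))) :
    Group.IsSolvable G := by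
  by_cases hex : ∃ (x : G) (p k : ℕ), p.Prime ∧ p ≠ 2 ∧ orderOf x = p ^ k ∧ x ∉ center G
  swap
  · push Not at hex
    have h1 : pResidual 2 G ≤ center G :=
      PRes.pResidual_le_of_primePow (fun g q k hq h2 ho => hex g q k hq h2 ho) Nat.prime_two
    have h2 : IsPGroup 2 (G ⧸ center G) := PRes.isPGroup_quotient_of_pResidual_le h1
    exact isSolvable_of_normal_of_quotient (center G) isSolvable_of_isMulCommutative
      (isSolvable_of_isPGroup h2)
  obtain ⟨x, p, k, hp, hp2, hx, hxZ⟩ := hex
  -- commuting non-central elements of coprime orders have the same centralizer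
  have key : ∀ a b : G, a ∉ center G → b ∉ center G → Commute a b →
      (orderOf a).Coprime (orderOf b) → centralizer ({a} : Set G) = centralizer ({b} : Set G) := by
    intro a b ha hb hab hc
    have h1 := Frob.centralizer_mul_of_coprime hab hc
    have hab' : a * b ∉ center G := by
      intro h0
      rw [← Frob.centralizer_singleton_eq_top_iff, h1] at h0
      exact ha (Frob.centralizer_singleton_eq_top_iff.1 (top_le_iff.1 (h0.ge.trans inf_le_left)))
    have h2 := h _ hab'
    rw [h1] at h2
    have h3 : centralizer ({a} : Set G) ⊓ centralizer ({b} : Set G) = centralizer ({a} : Set G) := by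
      by_contra hne
      exact (h a ha).1 (h2.2 _ (lt_of_le_of_ne inf_le_left hne))
    have h4 : centralizer ({a} : Set G) ⊓ centralizer ({b} : Set G) = centralizer ({b} : Set G) := by
      by_contra hne
      exact (h b hb).1 (h2.2 _ (lt_of_le_of_ne inf_le_right hne))
    rw [← h3, h4]
  set M := centralizer ({x} : Set G) with hM
  -- every `p'`-element of `M` is central in `M`
  have hcen : ∀ y ∈ M, (orderOf y).Coprime p → ∀ z ∈ M, z * y = y * z := by
    intro y hy hc z hz
    by_cases hyZ : y ∈ center G
    · exact mem_center_iff.1 hyZ z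
    · have h1 := key x y hxZ hyZ (mem_centralizer_singleton_iff.1 hy).symm
        (by rw [hx]; exact Nat.Coprime.pow_left k hc.symm)
      rw [hM, h1] at hz
      exact mem_centralizer_singleton_iff.1 hz
  have := Fact.mk hp
  have hnil : Group.IsNilpotent M := by
    have h1 : pResidual p M ≤ center M := by
      rw [PRes.pResidual_le_iff]
      intro y hy
      rw [mem_center_iff]
      intro z
      exact Subtype.ext (hcen y y.2 (by rwa [Subgroup.orderOf_coe]) z z.2)
    have h2 : IsPGroup p (M ⧸ center M) := PRes.isPGroup_quotient_of_pResidual_le h1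
    have h3 := h2.isNilpotent
    exact Group.of_quotient_center_nilpotent h3
  obtain ⟨T, hT⟩ := IsSylowIn.exists_in (p := 2) M
  refine H5.isSolvable_of_nilpotent_coatom (h x hxZ) hnil hT ?_
  have h5 : ⁅T, T⁆ = ⊥ := by
    rw [commutator_eq_bot_iff_le_centralizer]
    intro a ha
    rw [mem_centralizer_iff]
    intro b hb
    obtain ⟨j, hj⟩ := orderOf_eq_pow_of_mem_isPGroup hT.isPGroup ha
    refine hcen a (hT.le ha) ?_ b (hT.le hb)
    rw [hj]
    exact Nat.Coprime.pow_left j ((Nat.coprime_primes Nat.prime_two hp).2 hp2.symm)
  rw [h5]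
  exact bot_le

end Cfsg.Agent.S4262
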