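import Cfsg.Statements.S4263
import Cfsg.Agent.Lib.FusionRadical
import Cfsg.Agent.Lib.H8Misc
import Cfsg.Agent.Lib.CoreElements

set_option autoImplicit false
open Cfsg

namespace Cfsg.Agent.S4263

open Subgroup CfsgLib

/-- Let G be a finite group. An element x lies in the Fitting subgroup F(G) if and only if, for every subgroup H of G, the power x^[G : H] lies in H. -/
theorem result {G : Type*} [Group G] [Finite G] (x : G) :
    x ∈ Cfsg.fittingSubgroup G ↔ ∀ H : Subgroup G, x ^ H.index ∈ H := by
  constructor
  · intro hx H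
    have h1 := H8.relIndex_dvd_index_of_isSubnormal
      (isSubnormal_of_le_fitting (zpowers_le_of_mem hx)) H
    obtain ⟨m, hm⟩ := h1
    have hn : (H.subgroupOf (zpowers x)).Normal := by
      refine ⟨fun a ha g => ?_⟩
      have : g * a = a * g := Subtype.ext (commute_of_mem_zpowers g.2 a.2)
      rwa [this, mul_inv_cancel_right]
    have h2 := (H.subgroupOf (zpowers x)).pow_index_mem ⟨x, mem_zpowers x⟩
    rw [hm, pow_mul]
    exact H.pow_mem h2 m
  · intro h
    refine mem_of_forall_primePow_mem fun y hy p k hp hk => ?_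
    have := Fact.mk hp
    apply pCore_le_fitting p
    rw [pCore_eq_iInf_sylow, mem_iInf]
    intro P
    refine FrobNPC.mem_of_pow_mem_of_coprime (n := (P : Subgroup G).index) ?_ ?_
    · rw [hk]
      exact Nat.Coprime.pow_left k (hp.coprime_iff_not_dvd.2 P.not_dvd_index)
    · obtain ⟨n, rfl⟩ := hy
      have := (P : Subgroup G).zpow_mem (h P) n
      simp only
      rwa [← zpow_natCast, ← zpow_mul, mul_comm, zpow_mul, zpow_natCast] at this

end Cfsg.Agent.S4263
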