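import Cfsg.Statements.S4269
import Cfsg.Agent.Lib.CoreBasic

set_option autoImplicit false
open Cfsg

namespace Cfsg.Agent.S4269

open CfsgLib Subgroup
open scoped commutatorElement

/-- Let G be a finite group, V an abelian normal subgroup and H a subgroup with HV = G. Then H is pronormal in G (H and gHg⁻¹ are conjugate inside the subgroup they generate, for every g) if and only if every H-invariant subgroup U of V satisfies U = N_U(H)·[H, U], that is, U is the join of U ∩ N_G(H) and the commutator subgroup [H, U]. -/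
theorem result {G : Type*} [Group G] [Finite G]
    (V : Subgroup G) [V.Normal] (hV : IsMulCommutative ↥V) (H : Subgroup G) (hHV : H ⊔ V = ⊤) :
    Cfsg.IsPronormal H ↔
      ∀ U : Subgroup G, U ≤ V → (∀ h ∈ H, U.map (MulAut.conj h).toMonoidHom = U) →
        U = (U ⊓ Subgroup.normalizer (H : Set G)) ⊔ ⁅H, U⁆ := by
  have hc : ∀ a ∈ V, ∀ b ∈ V, a * b = b * a := fun a ha b hb => by
    have := hV.is_comm.comm (⟨a, ha⟩ : V) ⟨b, hb⟩
    exact congrArg Subtype.val this
  have hVn : V.Normal := inferInstance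
  constructor
  · intro hH U hUV hU
    have hconj : ∀ h ∈ H, ∀ u ∈ U, h * u * h⁻¹ ∈ U := fun h hh u hu => by
      rw [← hU h hh]; exact conj_mem_map_conj hu
    have hle : ⁅H, U⁆ ≤ U := by
      rw [commutator_le]
      intro h hh u hu
      rw [commutatorElement_def]
      exact U.mul_mem (hconj h hh u hu) (U.inv_mem hu)
    apply le_antisymm _ (sup_le inf_le_left hle)
    intro u hu
    obtain ⟨x, hx, hxe⟩ := hH u
    have hnorm : H ≤ normalizer ((⁅H, U⁆ : Subgroup G) : Set G) := by
      intro h hh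
      apply mem_normalizer_of_map_conj_eq
      rw [map_commutator, hU h hh, map_conj_eq_of_mem_normalizer (le_normalizer hh)]
    have hL : H ⊔ H.map (MulAut.conj u).toMonoidHom ≤ H ⊔ ⁅H, U⁆ := by
      refine sup_le le_sup_left ?_
      rintro _ ⟨h, hh, rfl⟩
      have : (MulAut.conj u).toMonoidHom h = (⁅h, u⁆)⁻¹ * h := by
        simp [commutatorElement_def, mul_assoc]
      rw [this]
      exact mul_mem (mem_sup_right (inv_mem (commutator_mem_commutator hh hu))) (mem_sup_left hh)
    have hx' := hL hx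
    rw [sup_comm] at hx'
    obtain ⟨w, hw, h, hh, rfl⟩ := (mem_sup_iff_of_le_normalizer' hnorm).mp hx'
    rw [map_conj_mul, map_conj_eq_of_mem_normalizer (le_normalizer hh)] at hxe
    have hn : w⁻¹ * u ∈ normalizer (H : Set G) := by
      apply mem_normalizer_of_map_conj_eq
      rw [map_conj_mul, hxe, ← map_conj_mul, inv_mul_cancel, map_conj_one]
    have : u = w * (w⁻¹ * u) := by group
    rw [this]
    exact mul_mem (mem_sup_right hw) (mem_sup_left ⟨U.mul_mem (U.inv_mem (hle hw)) hu, hn⟩)
  · intro hU g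
    have hg : g ∈ V ⊔ H := by rw [sup_comm, hHV]; trivial
    obtain ⟨v, hv, h, hh, rfl⟩ := (mem_sup_iff_of_le_normalizer' (N := V)
      (le_top.trans (normalizer_eq_top V).ge)).mp hg
    rw [map_conj_mul, map_conj_eq_of_mem_normalizer (le_normalizer hh)]
    set L := H ⊔ H.map (MulAut.conj v).toMonoidHom with hL
    let U : Subgroup G :=
      { carrier := {u | u ∈ V ∧ ∀ k ∈ H, ⁅k, u⁆ ∈ L}
        one_mem' := ⟨V.one_mem, fun k _ => by simp⟩
        mul_mem' := by
          rintro a b ⟨ha, ha'⟩ ⟨hb, hb'⟩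
          refine ⟨V.mul_mem ha hb, fun k hk => ?_⟩
          have h1 : ⁅k, b⁆ ∈ V := by
            rw [commutatorElement_def]
            exact V.mul_mem (hVn.conj_mem b hb k) (V.inv_mem hb)
          have h2 : ⁅k, a * b⁆ = ⁅k, a⁆ * (a * ⁅k, b⁆ * a⁻¹) := by
            simp [commutatorElement_def, mul_assoc]
          rw [h2, hc a ha _ h1, mul_inv_cancel_right]
          exact L.mul_mem (ha' k hk) (hb' k hk)
        inv_mem' := by
          rintro a ⟨ha, ha'⟩
          refine ⟨V.inv_mem ha, fun k hk => ?_⟩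
          have h1 : ⁅k, a⁆ ∈ V := by
            rw [commutatorElement_def]
            exact V.mul_mem (hVn.conj_mem a ha k) (V.inv_mem ha)
          have h2 : ⁅k, a⁻¹⁆ = a⁻¹ * (⁅k, a⁆)⁻¹ * a := by
            simp [commutatorElement_def, mul_assoc]
          rw [h2, hc _ (V.inv_mem ha) _ (V.inv_mem h1), inv_mul_cancel_right]
          exact L.inv_mem (ha' k hk) }
    have hUc : ∀ k ∈ H, ∀ u ∈ U, k * u * k⁻¹ ∈ U := by
      rintro k hk u ⟨hu, hu'⟩
      refine ⟨hVn.conj_mem u hu k, fun m hm => ?_⟩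
      have : ⁅m, k * u * k⁻¹⁆ = k * ⁅k⁻¹ * m * k, u⁆ * k⁻¹ := by
        simp [commutatorElement_def, mul_assoc]
      rw [this]
      exact L.mul_mem (L.mul_mem (mem_sup_left hk)
        (hu' _ (H.mul_mem (H.mul_mem (H.inv_mem hk) hm) hk))) (L.inv_mem (mem_sup_left hk))
    have hUe := hU U (fun u hu => hu.1) (fun k hk => by
      apply map_conj_eq_of_mem_normalizer
      exact mem_normalizer_of_conj_mem (hUc k hk))
    have hvU : v ∈ U := ⟨hv, fun k hk => by
      have : ⁅k, v⁆ = k * (v * k⁻¹ * v⁻¹) := by simp [commutatorElement_def, mul_assoc]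
      rw [this]
      exact L.mul_mem (mem_sup_left hk) (mem_sup_right (conj_mem_map_conj (H.inv_mem hk)))⟩
    have hcL : ⁅H, U⁆ ≤ L := by
      rw [commutator_le]
      intro k hk u hu
      exact hu.2 k hk
    have hcV : ⁅H, U⁆ ≤ V := by
      rw [commutator_le]
      intro k hk u hu
      rw [commutatorElement_def]
      exact V.mul_mem (hVn.conj_mem u hu.1 k) (V.inv_mem hu.1)
    rw [hUe, sup_comm] at hvU
    have hnorm : U ⊓ normalizer (H : Set G) ≤ normalizer ((⁅H, U⁆ : Subgroup G) : Set G) := by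
      intro a ha
      apply mem_normalizer_of_conj_mem
      intro b hb
      rw [hc a ha.1.1 b (hcV hb), mul_inv_cancel_right]
      exact hb
    obtain ⟨w, hw, n, hn, rfl⟩ := (mem_sup_iff_of_le_normalizer' hnorm).mp hvU
    refine ⟨w, hcL hw, ?_⟩
    rw [map_conj_mul, map_conj_eq_of_mem_normalizer hn.2]

end Cfsg.Agent.S4269
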