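import Cfsg.Statements.S4270
import Cfsg.Agent.Lib.CoreBasic
import Cfsg.Agent.Lib.SylowIn

set_option autoImplicit false
open Cfsg

namespace Cfsg.Agent.S4270

open CfsgLib Subgroup

section helpers
variable {G G' : Type*} [Group G] [Group G']

theorem map_conj_map (f : G →* G') (H : Subgroup G) (g : G) :
    (H.map (MulAut.conj g).toMonoidHom).map f = (H.map f).map (MulAut.conj (f g)).toMonoidHom := by
  rw [map_map, map_map]
  congr 1
  ext x
  simp

theorem sylow_le_iff [Finite G] {p : ℕ} [Fact p.Prime] (K : Subgroup G) :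
    (∃ P : Sylow p G, (P : Subgroup G) ≤ K) ↔ ¬ p ∣ K.index := by
  constructor
  · rintro ⟨P, hP⟩ h
    exact P.not_dvd_index (h.trans (index_dvd_of_le hP))
  · intro h
    obtain ⟨S, hS⟩ := IsSylowIn.exists_in (p := p) K
    have : IsSylowIn p S ⊤ := ⟨le_top, hS.isPGroup, by
      rw [← relIndex_mul_relIndex S K ⊤ hS.le le_top, relIndex_top_right]
      exact fun hd => ((Fact.out : p.Prime).dvd_mul.mp hd).elim hS.not_dvd h⟩
    obtain ⟨P, hP⟩ := IsSylowIn.top_iff.mp this
    exact ⟨P, hP ▸ hS.le⟩

theorem prn_map (f : G →* G') (hf : Function.Surjective f) {H : Subgroup G}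
    (h : IsPronormal H) : IsPronormal (H.map f) := by
  intro g'
  obtain ⟨g, rfl⟩ := hf g'
  obtain ⟨x, hx, hxe⟩ := h g
  refine ⟨f x, ?_, ?_⟩
  · rw [← map_conj_map, ← Subgroup.map_sup]
    exact mem_map_of_mem f hx
  · rw [← map_conj_map, ← map_conj_map, hxe]

theorem prn_of_map (f : G →* G') (hf : Function.Injective f) {H : Subgroup G}
    (h : IsPronormal (H.map f)) : IsPronormal H := by
  intro g
  obtain ⟨x, hx, hxe⟩ := h (f g)
  rw [← map_conj_map, ← Subgroup.map_sup] at hx
  obtain ⟨y, hy, rfl⟩ := hx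
  refine ⟨y, hy, map_injective hf ?_⟩
  rw [map_conj_map, map_conj_map, hxe]

theorem exists_lift (f : G →* G') {H : Subgroup G} (h : IsPronormal (H.map f)) (g : G) :
    ∃ x ∈ H ⊔ H.map (MulAut.conj g).toMonoidHom,
      f (x⁻¹ * g) ∈ normalizer ((H.map f : Subgroup G') : Set G') := by
  obtain ⟨x, hx, hxe⟩ := h (f g)
  rw [← map_conj_map, ← Subgroup.map_sup] at hx
  obtain ⟨y, hy, rfl⟩ := hx
  refine ⟨y, hy, mem_normalizer_of_map_conj_eq ?_⟩
  rw [map_mul, map_inv, map_conj_mul, hxe, ← map_conj_mul, inv_mul_cancel, map_conj_one]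

/-- The property "`H` and `H^g` are conjugate in the group they generate". -/
def Good (H : Subgroup G) (g : G) : Prop :=
  ∃ x ∈ H ⊔ H.map (MulAut.conj g).toMonoidHom,
    H.map (MulAut.conj g).toMonoidHom = H.map (MulAut.conj x).toMonoidHom

theorem Good.of_left {H : Subgroup G} {g x : G}
    (hx : x ∈ H ⊔ H.map (MulAut.conj g).toMonoidHom) (h : Good H (x⁻¹ * g)) : Good H g := by
  obtain ⟨w, hw, hwe⟩ := h
  have hwL : w ∈ H ⊔ H.map (MulAut.conj g).toMonoidHom := by
    refine (sup_le le_sup_left ?_ : _ ≤ H ⊔ H.map (MulAut.conj g).toMonoidHom) hw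
    intro y hy
    rw [map_conj_mul, mem_map_conj_iff, inv_inv] at hy
    have := mul_mem (mul_mem (inv_mem hx) (mem_sup_right hy)) hx
    simpa [mul_assoc] using this
  refine ⟨x * w, mul_mem hx hwL, ?_⟩
  rw [map_conj_mul, ← hwe, ← map_conj_mul, mul_inv_cancel_left]

theorem Good.of_right {H : Subgroup G} {g n : G} (hn : n ∈ normalizer (H : Set G))
    (h : Good H g) : Good H (g * n) := by
  unfold Good
  rw [map_conj_mul, map_conj_eq_of_mem_normalizer hn]
  exact h

theorem prn_conj {H : Subgroup G} (g : G)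
    (h : IsPronormal (H.map (MulAut.conj g).toMonoidHom)) : IsPronormal H :=
  prn_of_map _ (MulAut.conj g).injective h

theorem good_of_subgroupOf {H K : Subgroup G} (hHK : H ≤ K) (g : K)
    (h : Good (H.subgroupOf K) g) : Good H g := by
  obtain ⟨x, hx, hxe⟩ := h
  have e : ∀ y : K, H.map (MulAut.conj (y : G)).toMonoidHom =
      ((H.subgroupOf K).map (MulAut.conj y).toMonoidHom).map K.subtype := fun y => by
    rw [map_conj_map, map_subgroupOf_eq_of_le hHK]; rfl
  refine ⟨x, ?_, ?_⟩
  · rw [e]
    nth_rewrite 1 [← map_subgroupOf_eq_of_le hHK]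
    rw [← Subgroup.map_sup]
    exact mem_map_of_mem _ hx
  · rw [e, e, hxe]

theorem prn_of_ker_le (f : G →* G') {H : Subgroup G} (hk : f.ker ≤ H)
    (h : IsPronormal (H.map f)) : IsPronormal H := by
  intro g
  obtain ⟨x, hx, hn⟩ := exists_lift f h g
  refine Good.of_left hx ⟨1, one_mem _, ?_⟩
  rw [map_conj_one]
  have h1 := map_conj_eq_of_mem_normalizer hn
  rw [← map_conj_map] at h1
  have hk' : f.ker ≤ H.map (MulAut.conj (x⁻¹ * g)).toMonoidHom := by
    rw [← map_conj_eq_of_normal (x⁻¹ * g) f.ker]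
    exact map_mono hk
  rw [← comap_map_eq_self hk', h1, comap_map_eq_self hk]

end helpers

/-- Let p be a prime and G a finite group with a normal subgroup A such that, both in A and in G/A, every subgroup containing a Sylow p-subgroup of that group is pronormal in that group. Let T be a Sylow p-subgroup of A. Then every subgroup of G containing a Sylow p-subgroup of G is pronormal in G if and only if (i) every subgroup of N_G(T)/T containing a Sylow p-subgroup of N_G(T)/T is pronormal there, and (ii) for every subgroup H of G containing a Sylow p-subgroup of G, the image of N_G(H) in G/A is the full normalizer of the image of H. (Pronormal: H and gHg⁻¹ are conjugate inside the subgroup they generate, for every g.) -/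
theorem result {G : Type*} [Group G] [Finite G] {p : ℕ} [Fact p.Prime]
    (A : Subgroup G) [A.Normal] (hA : (∀ K : Subgroup ↥A, (∃ P : Sylow p ↥A, (P : Subgroup ↥A) ≤ K) → Cfsg.IsPronormal K)) (hQ : (∀ K : Subgroup (G ⧸ A), (∃ P : Sylow p (G ⧸ A), (P : Subgroup (G ⧸ A)) ≤ K) → Cfsg.IsPronormal K))
    (T : Subgroup G) (hT : ∃ P : Sylow p ↥A, (P : Subgroup ↥A).map A.subtype = T) [(T.subgroupOf (Subgroup.normalizer (T : Set G))).Normal] :
    (∀ K : Subgroup G, (∃ P : Sylow p G, (P : Subgroup G) ≤ K) → Cfsg.IsPronormal K) ↔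
      ((∀ K : Subgroup (↥(Subgroup.normalizer (T : Set G)) ⧸ T.subgroupOf (Subgroup.normalizer (T : Set G))), (∃ P : Sylow p (↥(Subgroup.normalizer (T : Set G)) ⧸ T.subgroupOf (Subgroup.normalizer (T : Set G))), (P : Subgroup (↥(Subgroup.normalizer (T : Set G)) ⧸ T.subgroupOf (Subgroup.normalizer (T : Set G)))) ≤ K) → Cfsg.IsPronormal K) ∧
        ∀ K : Subgroup G, (∃ P : Sylow p G, (P : Subgroup G) ≤ K) →
          (Subgroup.normalizer (K : Set G)).map (QuotientGroup.mk' A) = Subgroup.normalizer ((K.map (QuotientGroup.mk' A) : Subgroup (G ⧸ A)) : Set (G ⧸ A))) := by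
  have hp : p.Prime := Fact.out
  obtain ⟨P0, hP0⟩ := hT
  have hTA : IsSylowIn p T A := hP0 ▸ IsSylowIn.of_sylow_subgroup P0
  obtain ⟨S, hS⟩ := hTA.exists_sylow_inf_eq
  have hSN : (S : Subgroup G) ≤ normalizer (T : Set G) := by
    intro s hs
    apply mem_normalizer_of_conj_mem
    intro t ht
    rw [← hS] at ht ⊢
    exact ⟨(S : Subgroup G).mul_mem ((S : Subgroup G).mul_mem hs ht.1) ((S : Subgroup G).inv_mem hs),
      Normal.conj_mem inferInstance t ht.2 s⟩
  have hNi : ¬ p ∣ (normalizer (T : Set G)).index :=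
    (sylow_le_iff _).mp ⟨S, hSN⟩
  constructor
  · intro h
    refine ⟨fun K hK => ?_, fun K hK => ?_⟩
    · rw [sylow_le_iff] at hK
      have hs := QuotientGroup.mk'_surjective (T.subgroupOf (normalizer (T : Set G)))
      rw [← map_comap_eq_self_of_surjective hs K]
      apply prn_map _ hs
      apply prn_of_map _ (normalizer (T : Set G)).subtype_injective
      apply h
      rw [sylow_le_iff, index_map_subtype, index_comap_of_surjective _ hs]
      exact fun hd => (hp.dvd_mul.mp hd).elim hK hNi
    · apply le_antisymm (le_normalizer_map _)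
      intro g' hg'
      obtain ⟨g, rfl⟩ := QuotientGroup.mk'_surjective A g'
      obtain ⟨x, hx, hxe⟩ := h K hK g
      have hn : x⁻¹ * g ∈ normalizer (K : Set G) := by
        apply mem_normalizer_of_map_conj_eq
        rw [map_conj_mul, hxe, ← map_conj_mul, inv_mul_cancel, map_conj_one]
      have hx' : QuotientGroup.mk' A x ∈ K.map (QuotientGroup.mk' A) := by
        have := mem_map_of_mem (QuotientGroup.mk' A) hx
        rwa [Subgroup.map_sup, map_conj_map, map_conj_eq_of_mem_normalizer hg', sup_idem] at this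
      have : QuotientGroup.mk' A g = QuotientGroup.mk' A x * QuotientGroup.mk' A (x⁻¹ * g) := by
        simp
      rw [this]
      exact mul_mem (map_mono le_normalizer hx') (mem_map_of_mem _ hn)
  · rintro ⟨h1, h2⟩ K0 ⟨P, hP⟩
    obtain ⟨c, hc⟩ := MulAction.exists_smul_eq G P S
    apply prn_conj c
    set H := K0.map (MulAut.conj c).toMonoidHom with hH
    have hSH : (S : Subgroup G) ≤ H := by
      rw [← hc, sylow_coe_smul_eq_map]
      exact map_mono hP
    clear_value H
    -- step 1 : reduce to `g ∈ A`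
    suffices hA' : ∀ a ∈ A, Good H a by
      intro g
      have hq := hQ (H.map (QuotientGroup.mk' A)) ((sylow_le_iff _).mpr fun hd =>
        (sylow_le_iff _).mp ⟨S, hSH⟩ (hd.trans
          (index_map_dvd _ (QuotientGroup.mk'_surjective A))))
      obtain ⟨x, hx, hn⟩ := exists_lift _ hq g
      refine Good.of_left hx ?_
      rw [← h2 H ⟨S, hSH⟩] at hn
      obtain ⟨n, hn, hne⟩ := hn
      have : x⁻¹ * g = (x⁻¹ * g * n⁻¹) * n := by group
      rw [this]
      refine Good.of_right hn (hA' _ ?_)
      rw [← QuotientGroup.eq_one_iff]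
      change QuotientGroup.mk' A _ = 1
      rw [map_mul, ← hne, map_inv, mul_inv_cancel]
    set B := H ⊓ A with hB
    have hTB : T ≤ B := by rw [← hS]; exact inf_le_inf_right _ hSH
    have hTBs : IsSylowIn p T B := hTA.mono hTB inf_le_right
    have hHB : H ≤ normalizer (B : Set G) := fun s hs =>
      mem_normalizer_of_conj_mem fun t ht =>
        ⟨H.mul_mem (H.mul_mem hs ht.1) (H.inv_mem hs), Normal.conj_mem inferInstance t ht.2 s⟩
    -- step 2 : reduce to `g ∈ N(B)`
    suffices hB' : ∀ a ∈ normalizer (B : Set G), Good H a by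
      intro a ha
      have hq := hA (B.subgroupOf A) ⟨P0, by
        intro y hy
        exact hTB (hP0 ▸ mem_map_of_mem A.subtype hy)⟩
      obtain ⟨x, hx, hxe⟩ := good_of_subgroupOf (inf_le_right : B ≤ A) ⟨a, ha⟩ (hq _)
      refine Good.of_left (x := x)
        (sup_le_sup inf_le_left (map_mono inf_le_left) hx) (hB' _ ?_)
      apply mem_normalizer_of_map_conj_eq
      rw [map_conj_mul, hxe, ← map_conj_mul, inv_mul_cancel, map_conj_one]
    -- step 3 : reduce to `g ∈ N(B) ∩ N(T)`
    suffices hC : ∀ a ∈ normalizer (B : Set G), a ∈ normalizer (T : Set G) → Good H a by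
      intro a ha
      obtain ⟨k, hk, hka⟩ := hTBs.frattini_elem ha
      refine Good.of_left (x := k⁻¹) (mem_sup_left (inv_mem hk.1)) ?_
      rw [inv_inv]
      exact hC _ (mul_mem (le_normalizer hk) ha) hka
    intro a haB haT
    set M := H ⊓ normalizer (T : Set G) with hM
    have hMp : IsPronormal (M.subgroupOf (normalizer (T : Set G))) := by
      apply prn_of_ker_le (QuotientGroup.mk' (T.subgroupOf (normalizer (T : Set G))))
      · rw [QuotientGroup.ker_mk']
        exact subgroupOf_mono _ (le_inf (hTB.trans inf_le_left) le_normalizer)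
      · apply h1
        rw [sylow_le_iff]
        intro hd
        have hd' := hd.trans (index_map_dvd _ (QuotientGroup.mk'_surjective _))
        have h3 : ¬ p ∣ M.index := (sylow_le_iff _).mp ⟨S, le_inf hSH hSN⟩
        apply h3
        rw [← relIndex_mul_index (inf_le_right : M ≤ normalizer (T : Set G))]
        exact hd'.mul_right _
    obtain ⟨y, hy, hye⟩ := good_of_subgroupOf (inf_le_right : M ≤ _) ⟨a, haT⟩ (hMp _)
    have hHe : H = B ⊔ M := le_antisymm (hTBs.frattini_le inf_le_left hHB)
      (sup_le inf_le_left inf_le_left)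
    have hyB : y ∈ normalizer (B : Set G) := by
      refine (sup_le (inf_le_left.trans hHB) ?_ : _ ≤ normalizer (B : Set G)) hy
      rintro _ ⟨m, hm, rfl⟩
      exact mul_mem (mul_mem haB (hHB hm.1)) (inv_mem haB)
    refine ⟨y, sup_le_sup inf_le_left (map_mono inf_le_left) hy, ?_⟩
    rw [hHe, Subgroup.map_sup, Subgroup.map_sup, map_conj_eq_of_mem_normalizer haB,
      map_conj_eq_of_mem_normalizer hyB]
    exact congrArg _ hye

end Cfsg.Agent.S4270
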