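import Cfsg.Statements.S4271
import Cfsg.Agent.Lib.CoreBasic
import Cfsg.Agent.Lib.SylowIn
import Cfsg.Agent.S4270

set_option autoImplicit false
open Cfsg

namespace Cfsg.Agent.S4271

open CfsgLib Subgroup

/-- Let p be a prime and G a finite group with a normal subgroup A such that every subgroup of A containing a Sylow p-subgroup of A is pronormal in A, and the Sylow p-subgroups of G/A are self-normalizing. Let T be a Sylow p-subgroup of A. Then every subgroup of G containing a Sylow p-subgroup of G is pronormal in G if and only if every subgroup of N_G(T)/T containing a Sylow p-subgroup of N_G(T)/T is pronormal in N_G(T)/T. (Pronormal: H and gHg⁻¹ are conjugate inside the subgroup they generate, for every g.) -/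
theorem result {G : Type*} [Group G] [Finite G] {p : ℕ} [Fact p.Prime]
    (A : Subgroup G) [A.Normal] (hA : (∀ K : Subgroup ↥A, (∃ P : Sylow p ↥A, (P : Subgroup ↥A) ≤ K) → Cfsg.IsPronormal K))
    (hQ : ∀ P : Sylow p (G ⧸ A), Subgroup.normalizer ((P : Subgroup (G ⧸ A)) : Set (G ⧸ A)) = P)
    (T : Subgroup G) (hT : ∃ P : Sylow p ↥A, (P : Subgroup ↥A).map A.subtype = T) [(T.subgroupOf (Subgroup.normalizer (T : Set G))).Normal] :
    (∀ K : Subgroup G, (∃ P : Sylow p G, (P : Subgroup G) ≤ K) → Cfsg.IsPronormal K) ↔ (∀ K : Subgroup (↥(Subgroup.normalizer (T : Set G)) ⧸ T.subgroupOf (Subgroup.normalizer (T : Set G))), (∃ P : Sylow p (↥(Subgroup.normalizer (T : Set G)) ⧸ T.subgroupOf (Subgroup.normalizer (T : Set G))), (P : Subgroup (↥(Subgroup.normalizer (T : Set G)) ⧸ T.subgroupOf (Subgroup.normalizer (T : Set G)))) ≤ K) → Cfsg.IsPronormal K) := by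
  have hK : ∀ K : Subgroup (G ⧸ A), (∃ P : Sylow p (G ⧸ A), (P : Subgroup (G ⧸ A)) ≤ K) →
      ∀ g : G ⧸ A, ∃ x ∈ K ⊔ K.map (MulAut.conj g).toMonoidHom, x⁻¹ * g ∈ K := by
    rintro K ⟨P, hP⟩ g
    have h1 : IsSylowIn p (P : Subgroup (G ⧸ A)) (K ⊔ K.map (MulAut.conj g).toMonoidHom) :=
      IsSylowIn.of_sylow P (hP.trans le_sup_left)
    have h2 : IsSylowIn p ((P : Subgroup (G ⧸ A)).map (MulAut.conj g).toMonoidHom)
        (K ⊔ K.map (MulAut.conj g).toMonoidHom) := by
      rw [← sylow_coe_smul_eq_map]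
      apply IsSylowIn.of_sylow
      rw [sylow_coe_smul_eq_map]
      exact (map_mono hP).trans le_sup_right
    obtain ⟨x, hx, hxe⟩ := h1.exists_conj_eq h2
    refine ⟨x⁻¹, inv_mem hx, hP ?_⟩
    rw [← hQ P, inv_inv]
    apply mem_normalizer_of_map_conj_eq
    rw [map_conj_mul, hxe]
  rw [Cfsg.Agent.S4270.result A hA ?_ T hT]
  · refine ⟨fun h => h.1, fun h => ⟨h, fun K hK' => le_antisymm (le_normalizer_map _) ?_⟩⟩
    intro g hg
    obtain ⟨x, hx, hxg⟩ := hK (K.map (QuotientGroup.mk' A))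
      ((S4270.sylow_le_iff _).mpr fun hd => (S4270.sylow_le_iff _).mp hK' (hd.trans
          (index_map_dvd _ (QuotientGroup.mk'_surjective A)))) g
    rw [map_conj_eq_of_mem_normalizer hg, sup_idem] at hx
    have := mul_mem hx hxg
    rw [mul_inv_cancel_left] at this
    exact map_mono le_normalizer this
  · intro K hK' g
    obtain ⟨x, hx, hxg⟩ := hK K hK' g
    refine ⟨x, hx, ?_⟩
    have : g = x * (x⁻¹ * g) := by group
    rw [this, map_conj_mul, map_conj_eq_of_mem_normalizer (le_normalizer hxg)]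

end Cfsg.Agent.S4271
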