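import Cfsg.Statements.S4304
import Cfsg.Agent.S4343
import Cfsg.Agent.S4303
import Cfsg.Agent.Lib.PComplementMore
import Cfsg.Agent.Lib.CoreElements

set_option autoImplicit false
open Cfsg

namespace Cfsg.Agent.S4304

open Subgroup CfsgLib CfsgLib.H9

theorem not_hnpc {S : Type*} [Group S] [Finite S] [IsSimpleGroup S] {q r : ℕ} [hq : Fact q.Prime]
    (hr : r.Prime) (hqr : r ≠ q) (h1 : q ∣ Nat.card S) (h2 : r ∣ Nat.card S) :
    ¬ HasNormalPComplement q S := by
  intro h
  obtain ⟨N, hN, hc, k, hk⟩ := PCompl.hnpc_exists_normal h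
  rcases hN.eq_bot_or_eq_top with rfl | rfl
  · rw [index_bot] at hk
    rw [hk] at h2
    exact hqr ((Nat.prime_dvd_prime_iff_eq hr hq.out).1 (hr.dvd_of_dvd_pow h2))
  · rw [card_top] at hc
    exact (hq.out.coprime_iff_not_dvd.1 hc.symm) h1

theorem isCyclic_sylow {S : Type*} [Group S] [Finite S] {q : ℕ} [hq : Fact q.Prime]
    (h : ¬ q ^ 2 ∣ Nat.card S) (Q : Sylow q S) : IsCyclic (Q : Subgroup S) := by
  obtain ⟨k, hk⟩ := IsPGroup.iff_card.1 Q.isPGroup'
  have h1 : k < 2 := by
    by_contra hk2
    exact h ((pow_dvd_pow q (by omega)).trans (hk ▸ card_subgroup_dvd_card _))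
  interval_cases k
  · exact isCyclic_of_card_dvd_prime (p := q) (by rw [hk]; simp)
  · exact isCyclic_of_card_dvd_prime (p := q) (by rw [hk]; simp)

theorem simple_case {S : Type*} [Group S] [Finite S] [IsSimpleGroup S] :
    Nat.card (Sylow 7 S) ≠ 15 := by
  classical
  intro hn
  have h7 : Fact (Nat.Prime 7) := ⟨by norm_num⟩
  obtain ⟨P⟩ : Nonempty (Sylow 7 S) := inferInstance
  have hidx := card_sylow_eq_index P
  rw [hn] at hidx
  have hNtop : normalizer ((P : Subgroup S) : Set S) ≠ ⊤ := by
    intro h; rw [h, index_top] at hidx; omega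
  have hP0 : (P : Subgroup S) ≠ ⊥ := by
    intro h
    apply hNtop
    rw [h, normalizer_eq_top]
  have hdvd : 7 ∣ Nat.card S :=
    (P.isPGroup'.card_eq_or_dvd.resolve_left (fun h => hP0 (card_eq_one.1 h))).trans
      (card_subgroup_dvd_card _)
  have hS : ¬ IsMulCommutative S := fun h => hNtop (normalizer_eq_top _)
  have hP7 : Nat.card (P : Subgroup S) = 7 :=
    Cfsg.Agent.S4343.result hS 7 hdvd (by rw [hn]; norm_num) P
  have h15 : 15 ∣ Nat.card S := hidx ▸ index_dvd_card _
  have := Fintype.ofFinite (Sylow 7 S)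
  have hn' : Fintype.card (Sylow 7 S) = 15 := by rw [← Nat.card_eq_fintype_card, hn]
  -- the action on the Sylow subgroups is faithful
  have hfaith : ∀ c : S, (∀ Q : Sylow 7 S, c • Q = Q) → c = 1 := by
    intro c hc
    rcases (inferInstance : (MulAction.toPermHom S (Sylow 7 S)).ker.Normal).eq_bot_or_eq_top
      with h | h
    · rw [← mem_bot, ← h, MonoidHom.mem_ker]
      exact Equiv.ext hc
    · exfalso
      apply hNtop
      rw [eq_top_iff]
      intro g _
      have : g ∈ (MulAction.toPermHom S (Sylow 7 S)).ker := by rw [h]; trivial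
      exact Sylow.smul_eq_iff_mem_normalizer.1 (congrFun (congrArg DFunLike.coe this) P)
  -- all permutations are even
  have hsign : ∀ c : S, Equiv.Perm.sign (MulAction.toPerm c : Equiv.Perm (Sylow 7 S)) = 1 := by
    intro c
    rcases (inferInstance : (Equiv.Perm.sign.comp
      (MulAction.toPermHom S (Sylow 7 S))).ker.Normal).eq_bot_or_eq_top with h | h
    · exfalso
      have h1 := card_dvd_of_injective _ ((MonoidHom.ker_eq_bot_iff _).1 h)
      rw [Nat.card_eq_fintype_card (α := ℤˣ), Fintype.card_units_int] at h1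
      have := Nat.le_of_dvd two_pos (hdvd.trans h1)
      omega
    · have : c ∈ (Equiv.Perm.sign.comp (MulAction.toPermHom S (Sylow 7 S))).ker := by
        rw [h]; trivial
      exact this
  obtain ⟨x, hxP, hx⟩ : ∃ x ∈ (P : Subgroup S), orderOf x = 7 := by
    obtain ⟨x, hx⟩ := exists_prime_orderOf_dvd_card' (G := (P : Subgroup S)) 7 (by rw [hP7])
    exact ⟨x, x.2, (Subgroup.orderOf_coe x).trans hx⟩
  have hxz : zpowers x = P := eq_of_le_of_card_le (zpowers_le.2 hxP)
    (by rw [Nat.card_zpowers, hx, hP7])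
  have hxfix : ∀ Q : Sylow 7 S, x • Q = Q → Q = P := by
    intro Q hQ
    have h1 : (P : Subgroup S) ≤ normalizer ((Q : Subgroup S) : Set S) := by
      rw [← hxz, zpowers_le]
      exact Sylow.smul_eq_iff_mem_normalizer.1 hQ
    have h2 : (P : Subgroup S) ⊓ normalizer ((Q : Subgroup S) : Set S) = (P : Subgroup S) ⊓ Q :=
      P.isPGroup'.inf_normalizer_sylow Q
    rw [inf_eq_left.2 h1] at h2
    exact Sylow.ext (P.is_maximal' Q.isPGroup' (h2.le.trans inf_le_right))
  -- the centralizer of `P` is a `7`-group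
  have hC : ∀ r : ℕ, r.Prime → r ∣ Nat.card (centralizer ((P : Subgroup S) : Set S)) → r = 7 := by
    intro r hr hrd
    by_contra hr7
    have := Fact.mk hr
    obtain ⟨c, hc⟩ := exists_prime_orderOf_dvd_card' r hrd
    have hco : orderOf (c : S) = r := by rw [← hc, Subgroup.orderOf_coe]
    have hcx : x * c = c * x := c.2 x hxP
    let σ : Equiv.Perm (Sylow 7 S) := MulAction.toPerm (c : S)
    have hσ : σ ^ r = 1 := by
      change (MulAction.toPermHom S (Sylow 7 S) c) ^ r = 1
      rw [← map_pow, ← hco, pow_orderOf_eq_one, map_one]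
    let f : Function.End (Function.fixedPoints σ) := fun ω => ⟨x • ω.1, by
      have : (c : S) • ω.1 = ω.1 := ω.2
      change (c : S) • x • ω.1 = x • ω.1
      rw [← mul_smul, ← hcx, mul_smul, this]⟩
    have hf : ∀ (n : ℕ) ω, ((f ^ n) ω).1 = x ^ n • ω.1 := by
      intro n
      induction n with
      | zero => intro ω; rw [pow_zero, pow_zero, one_smul]; rfl
      | succ n ih =>
        intro ω
        rw [pow_succ', pow_succ', mul_smul, ← ih]
        rfl
    have hf1 : f ^ 7 ^ 1 = 1 := by
      funext ω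
      apply Subtype.ext
      have hx7 : x ^ 7 = 1 := by have := pow_orderOf_eq_one x; rwa [hx] at this
      rw [hf, pow_one, hx7, one_smul]
      rfl
    have h1 := Equiv.Perm.card_fixedPoints_modEq hf1
    have hcP : (c : S) • P = P :=
      Sylow.smul_eq_iff_mem_normalizer.2 (centralizer_le_normalizer _ c.2)
    have h2 : Fintype.card (Function.fixedPoints f) = 1 := by
      rw [Fintype.card_eq_one_iff]
      refine ⟨⟨⟨P, hcP⟩, Subtype.ext (Sylow.smul_eq_iff_mem_normalizer.2 (le_normalizer hxP))⟩, ?_⟩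
      rintro ⟨⟨Q, hQ⟩, hQ'⟩
      exact Subtype.ext (Subtype.ext (hxfix Q (congrArg Subtype.val hQ')))
    have h3 := Equiv.Perm.card_fixedPoints_modEq (f := (⇑σ : Function.End (Sylow 7 S))) (p := r)
      (n := 1) (by
        rw [pow_one]
        funext ω
        have := congrFun (congrArg DFunLike.coe hσ) ω
        rw [Equiv.Perm.coe_pow] at this
        exact this)
    have h4 : Fintype.card (Function.fixedPoints σ) < 15 := by
      rw [← hn']
      refine Fintype.card_subtype_lt (x := ?_) ?_
      · exact Classical.choose (not_forall.1 fun h => hr.one_lt.ne' (by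
          rw [← hco, hfaith c h, orderOf_one]))
      · exact Classical.choose_spec (not_forall.1 fun h => hr.one_lt.ne' (by
          rw [← hco, hfaith c h, orderOf_one]))
    rw [h2] at h1
    rw [hn'] at h3
    have h5 : Fintype.card (Function.fixedPoints σ) = 1 ∨
        Fintype.card (Function.fixedPoints σ) = 8 := by
      unfold Nat.ModEq at h1; omega
    have h7r : ¬ r ∣ 7 := fun h => hr7 ((Nat.prime_dvd_prime_iff_eq hr h7.out).1 h)
    rcases h5 with h5 | h5
    · have h6 : r ∣ 2 * 7 := by
        have := (Nat.modEq_iff_dvd' (h4.le)).1 h3.symm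
        erw [h5] at this
        exact this
      obtain rfl : r = 2 :=
        (Nat.prime_dvd_prime_iff_eq hr Nat.prime_two).1 ((hr.dvd_mul.1 h6).resolve_right h7r)
      have h8 := Equiv.Perm.sign_of_pow_two_eq_one hσ
      rw [hsign c, h5, hn'] at h8
      exact absurd h8 (by decide)
    · have := (Nat.modEq_iff_dvd' (h4.le)).1 h3.symm
      erw [h5] at this
      exact h7r this
  have hCP : Nat.card (centralizer ((P : Subgroup S) : Set S)) ∣ 7 := by
    have hp : IsPGroup 7 (centralizer ((P : Subgroup S) : Set S)) :=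
      isPGroup_iff_isPiSubgroup.2 hC
    exact ((IsSylowIn.sylow_top P).card_dvd hp le_top).trans hP7.dvd
  have hcyc : IsCyclic (P : Subgroup S) := isCyclic_of_prime_card hP7
  have hNC : (centralizer ((P : Subgroup S) : Set S)).relIndex
      (normalizer ((P : Subgroup S) : Set S)) ∣ 6 := by
    have key := card_dvd_of_injective _
      (QuotientGroup.kerLift_injective (P : Subgroup S).normalizerMonoidHom)
    rw [normalizerMonoidHom_ker, ← index, ← relIndex, IsCyclic.card_mulAut, hP7] at key
    exact key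
  have hcard : Nat.card S ∣ 7 * 6 * 15 := by
    rw [← card_mul_index (normalizer ((P : Subgroup S) : Set S)), ← hidx,
      ← card_mul_relIndex (centralizer_le_normalizer ((P : Subgroup S) : Set S))]
    exact Nat.mul_dvd_mul_right (Nat.mul_dvd_mul hCP hNC) _
  by_cases h2 : 2 ∣ Nat.card S
  · obtain ⟨Q⟩ : Nonempty (Sylow 2 S) := inferInstance
    exact not_hnpc h7.out (by norm_num) h2 hdvd (PCompl.hnpc_two_of_isCyclic Q
      (isCyclic_sylow (fun h => absurd (h.trans hcard) (by norm_num)) Q))
  · have h5 : Fact (Nat.Prime 5) := ⟨by norm_num⟩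
    obtain ⟨Q⟩ : Nonempty (Sylow 5 S) := inferInstance
    have hQ := isCyclic_sylow (q := 5) (fun h => absurd (h.trans hcard) (by norm_num)) Q
    refine not_hnpc h7.out (by norm_num) ((by norm_num : 5 ∣ 15).trans h15) hdvd
      (PCompl.hnpc_of_comm_of_rank Q IsCyclic.isMulCommutative ?_)
    intro q hq hqd i hi1 hi2 hqi
    have hr : Group.rank (Q : Subgroup S) ≤ 1 := by
      obtain ⟨g, hg⟩ := isCyclic_iff_exists_zpowers_eq_top.1 hQ
      simpa using Group.rank_le (S := {g}) (by simpa [← zpowers_eq_closure] using hg)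
    obtain rfl : i = 1 := by omega
    have : q ∣ 2 ^ 2 := hqi
    rw [(Nat.prime_dvd_prime_iff_eq hq Nat.prime_two).1 (hq.dvd_of_dvd_pow this)] at hqd
    exact h2 hqd

/-- No finite group has exactly 15 Sylow 7-subgroups. -/
theorem result {G : Type*} [Group G] [Finite G] : Nat.card (Sylow 7 G) ≠ 15 := by
  intro hn
  have h7 : Fact (Nat.Prime 7) := ⟨by norm_num⟩
  obtain ⟨l, hl, hm⟩ := Cfsg.Agent.S4303.result (G := G) 7
  rw [hn] at hl
  have : ∀ m ∈ l, m = 1 := by
    intro m hml
    have hd : m ∣ 15 := hl ▸ List.dvd_prod hml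
    have hle := Nat.le_of_dvd (by norm_num) hd
    rcases hm m hml with ⟨h1, h2⟩ | ⟨S, _, _, hS, h1⟩
    · have : m ≠ 15 := by
        rintro rfl
        obtain ⟨p, k, hp, hk, h⟩ := (isPrimePow_nat_iff _).1 h1
        have e3 : 3 = p := (Nat.prime_dvd_prime_iff_eq (by norm_num) hp).1
          (Nat.Prime.dvd_of_dvd_pow (n := k) (by norm_num) (by rw [h]; norm_num))
        have e5 : 5 = p := (Nat.prime_dvd_prime_iff_eq (by norm_num) hp).1
          (Nat.Prime.dvd_of_dvd_pow (n := k) (by norm_num) (by rw [h]; norm_num))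
        omega
      interval_cases m <;> omega
    · have h2 := card_sylow_modEq_one 7 S
      have h3 := simple_case (S := S)
      rw [← h1] at h2 h3
      unfold Nat.ModEq at h2
      clear h1
      interval_cases m <;> omega
  rw [List.prod_eq_one this] at hl
  omega

end Cfsg.Agent.S4304
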