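import Cfsg.Statements.S4330
import Mathlib
import Cfsg.Agent.Lib.H5CoverB
import Cfsg.Agent.Lib.CoreSolvable
import Cfsg.Agent.Lib.CoreFitting
import Cfsg.Agent.Lib.CorePi

set_option autoImplicit false
open Pointwise
open Cfsg

namespace Cfsg.Agent.S4330

open Subgroup CfsgLib in
theorem aux.{u} (p : ℕ) [hpp : Fact p.Prime] (hp : p ≠ 2) (G : Type u) [Group G] [Finite G] :
    Group.IsSolvable G → ∀ a : G, (∀ c : G, ∃ g : G, IsConj c g ∧ ∃ R : Subgroup G, IsPGroup p R ∧
      a ∈ R ∧ g * a * g⁻¹ ∈ R) → a ∈ Cfsg.pCore p G := by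
  refine card_induction (P := fun G _ _ => Group.IsSolvable G → ∀ a : G, (∀ c : G, ∃ g : G,
    IsConj c g ∧ ∃ R : Subgroup G, IsPGroup p R ∧ a ∈ R ∧ g * a * g⁻¹ ∈ R) →
      a ∈ Cfsg.pCore p G) ?_ G
  intro G _ _ ih hG a h
  rcases subsingleton_or_nontrivial G with hs | hs
  · rw [Subsingleton.elim a 1]; exact one_mem _
  obtain ⟨N, hN⟩ := exists_isMinNormal (G := G)
  haveI := hN.1
  have hq := ih (G ⧸ N) (card_quotient_lt hN.2.1) inferInstance (a : G ⧸ N) (by
    intro c
    obtain ⟨c, rfl⟩ := QuotientGroup.mk_surjective c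
    obtain ⟨g, hg, R, hR, h1, h2⟩ := h c
    exact ⟨g, (QuotientGroup.mk' N).map_isConj hg, R.map (QuotientGroup.mk' N), hR.map _,
      ⟨_, h1, rfl⟩, ⟨_, h2, rfl⟩⟩)
  obtain ⟨q, hqp, hqN⟩ := hN.exists_isPGroup inferInstance
  haveI := Fact.mk hqp
  by_cases hpq : q = p
  · subst hpq
    rw [← comap_pCore_quotient hqN]
    exact hq
  have hcomm := hN.isMulCommutative_of_isSolvable inferInstance
  have hcop : (Nat.card N).Coprime p := by
    obtain ⟨k, hk⟩ := IsPGroup.iff_card.1 hqN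
    rw [hk]
    exact ((Nat.coprime_primes hqp hpp.out).2 hpq).pow_left k
  have hBK : normalClosure {a} ≤ (Cfsg.pCore p (G ⧸ N)).comap (QuotientGroup.mk' N) :=
    normalClosure_le_normal (Set.singleton_subset_iff.2 hq)
  have hpow : ∀ b ∈ normalClosure {a}, ∃ k : ℕ, b ^ p ^ k ∈ N := by
    intro b hb
    obtain ⟨k, hk⟩ := pCore_isPGroup p ⟨_, hBK hb⟩
    refine ⟨k, (QuotientGroup.eq_one_iff _).1 ?_⟩
    exact congrArg Subtype.val hk
  obtain ⟨_, -, R₀, hR₀, haR₀, -⟩ := h 1
  by_cases hc : ∀ b ∈ normalClosure {a}, ∀ n ∈ N, b * n = n * b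
  · have hnil : Group.IsNilpotent (normalClosure {a} : Subgroup G) := by
      let f : (normalClosure {a} : Subgroup G) →* Cfsg.pCore p (G ⧸ N) :=
        ((QuotientGroup.mk' N).comp (normalClosure {a}).subtype).codRestrict _ fun b => hBK b.2
      haveI := (pCore_isPGroup (G := G ⧸ N) p).isNilpotent
      refine Subgroup.isNilpotent_of_ker_le_center f fun x hx => ?_
      rw [mem_center_iff]
      intro b
      have hx' : (x : G) ∈ N := (QuotientGroup.eq_one_iff _).1 (congrArg Subtype.val hx)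
      exact Subtype.ext (hc b b.2 x hx')
    have h1 : a ∈ normalClosure {a} := subset_normalClosure rfl
    exact le_pCore_of_le_fitting ((zpowers_le.2 h1).trans (le_fitting hnil))
      (hR₀.to_le (zpowers_le.2 haR₀)) (mem_zpowers a)
  exfalso
  push Not at hc
  letI : CommGroup N := { (inferInstance : Group N) with mul_comm := fun x y => mul_comm' x y }
  letI : MulDistribMulAction G N := MulDistribMulAction.compHom N (MulAut.conjNormal (H := N))
  have hsm : ∀ (g : G) (n : N), ((g • n : N) : G) = g * n * g⁻¹ := fun g n => rfl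
  obtain ⟨v, B', hn, h1, h2⟩ := H5.Cover.key hp _ N G rfl hcop (normalClosure {a}) inferInstance
    (fun b hb => by
      obtain ⟨k, hk⟩ := hpow b hb
      refine ⟨k, fun v => Subtype.ext ?_⟩
      rw [hsm, setLike_mul_comm hk v.2, mul_inv_cancel_right])
    (by
      obtain ⟨b, hb, n, hn, hne⟩ := hc
      refine ⟨b, hb, ⟨n, hn⟩, fun e => hne ?_⟩
      have := congrArg Subtype.val e
      rw [hsm] at this
      exact mul_inv_eq_iff_eq_mul.1 this)
  obtain ⟨g, hg, R, hR, h3, h4⟩ := h v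
  obtain ⟨x, rfl⟩ := isConj_iff.1 hg
  have hgN : x * v * x⁻¹ ∈ N := hN.1.conj_mem _ v.2 x
  have h5 : a⁻¹ * (x * v * x⁻¹ * a * (x * v * x⁻¹)⁻¹) ∈ R ⊓ N := by
    refine mem_inf.2 ⟨mul_mem (inv_mem h3) h4, ?_⟩
    have := mul_mem (hN.1.conj_mem _ hgN a⁻¹) (inv_mem hgN)
    simpa [mul_assoc] using this
  have h6 : R ⊓ N = ⊥ := by
    obtain ⟨k, hk⟩ := IsPGroup.iff_card.1 hR
    exact inf_eq_bot_of_coprime (by rw [hk]; exact (hcop.symm).pow_left k)
  rw [h6, mem_bot] at h5
  have h7 : x⁻¹ * a * x ∈ B' := by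
    refine h2 _ (by
      simpa using (normalClosure_normal (s := {a})).conj_mem a (subset_normalClosure rfl) x⁻¹)
      (Subtype.ext ?_)
    rw [hsm]
    have h8 : x * v * x⁻¹ * a = a * (x * v * x⁻¹) := by
      rw [inv_mul_eq_one] at h5
      exact (mul_inv_eq_iff_eq_mul.1 h5.symm)
    calc x⁻¹ * a * x * v * (x⁻¹ * a * x)⁻¹ = x⁻¹ * (a * (x * v * x⁻¹)) * a⁻¹ * x := by
          simp [mul_assoc]
      _ = v := by rw [← h8]; simp [mul_assoc]
  apply h1
  refine normalClosure_le_normal (Set.singleton_subset_iff.2 ?_)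
  simpa [mul_assoc] using hn.conj_mem _ h7 x


/-- Let G be a finite solvable group, p an odd prime and A a p-subgroup of G such that every conjugacy class of G contains an element g for which A is subnormal in the subgroup generated by A and its conjugate by g. Then A is contained in O_p(G). (The hypothesis that p is odd is needed.) -/
theorem result {G : Type*} [Group G] [Finite G]
    (hG : Group.IsSolvable G) (p : ℕ) [Fact p.Prime] (hp : p ≠ 2) (A : Subgroup G) (hA : IsPGroup p A)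
    (h : ∀ c : G, ∃ g : G, IsConj c g ∧ (A.subgroupOf (A ⊔ MulAut.conj g • A)).IsSubnormal) :
    A ≤ Cfsg.pCore p G := by
  intro a ha
  refine aux p hp G hG a fun c => ?_
  obtain ⟨g, hg, hs⟩ := h c
  refine ⟨g, hg, A ⊔ MulAut.conj g • A, ?_, Subgroup.mem_sup_left ha,
    Subgroup.mem_sup_right (CfsgLib.mem_conj_smul_iff.2 (by simpa [mul_assoc] using ha))⟩
  have h1 := CfsgLib.le_pCore_of_isSubnormal hs hA.comap_subtype
  have h2 : IsPGroup p ((MulAut.conj g • A).subgroupOf (A ⊔ MulAut.conj g • A)) :=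
    (hA.map _).comap_subtype
  have h3 := (CfsgLib.pCore_isPGroup (G := ↥(A ⊔ MulAut.conj g • A)) p).to_sup_of_normal_left h2
  have h4 : Cfsg.pCore p ↥(A ⊔ MulAut.conj g • A) ⊔
      (MulAut.conj g • A).subgroupOf (A ⊔ MulAut.conj g • A) = ⊤ := by
    rw [eq_top_iff, ← Subgroup.subgroupOf_self, Subgroup.subgroupOf_sup le_sup_left le_sup_right]
    exact sup_le_sup_right h1 _
  rw [h4] at h3
  exact h3.of_equiv Subgroup.topEquiv

end Cfsg.Agent.S4330
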