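import Cfsg.Statements.S4331
import Cfsg.Agent.Lib.CoreElements
import Cfsg.Agent.Lib.CoreSubnormal
import Cfsg.Agent.Lib.CharBurnside

set_option autoImplicit false
open Cfsg

namespace Cfsg.Agent.S4331

open Subgroup CfsgLib
open scoped Pointwise commutatorElement

def E : Type := {p : ZMod 3 × ZMod 3 × ZMod 3 × ZMod 3 × ZMod 3 //
  p.1 * p.1 + p.2.1 * p.2.1 ≠ 0 ∧ p.2.2.1 * p.2.2.1 = 1}

instance instFinE : Fintype E := inferInstanceAs (Fintype {_p // _})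
instance instDecE : DecidableEq E := inferInstanceAs (DecidableEq {_p // _})

theorem aux1 : ∀ a b s a' b' s' : ZMod 3, a * a + b * b ≠ 0 ∧ s * s = 1 →
    a' * a' + b' * b' ≠ 0 ∧ s' * s' = 1 →
    (a * a' - s * b * b') * (a * a' - s * b * b') + (s * a * b' + b * a') * (s * a * b' + b * a') ≠ 0
      ∧ (s * s') * (s * s') = 1 := by decide +kernel

theorem aux2 : ∀ a b s : ZMod 3, a * a + b * b ≠ 0 ∧ s * s = 1 →
    ((a * a + b * b) * a) * ((a * a + b * b) * a) +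
      (-(a * a + b * b) * s * b) * (-(a * a + b * b) * s * b) ≠ 0 ∧ s * s = 1 := by decide +kernel

instance instMulE : Mul E := ⟨fun x y =>
  ⟨(x.1.1 * y.1.1 - x.1.2.2.1 * x.1.2.1 * y.1.2.1, x.1.2.2.1 * x.1.1 * y.1.2.1 + x.1.2.1 * y.1.1,
    x.1.2.2.1 * y.1.2.2.1,
    x.1.1 * y.1.2.2.2.1 - x.1.2.2.1 * x.1.2.1 * y.1.2.2.2.2 + x.1.2.2.2.1,
    x.1.2.2.1 * x.1.1 * y.1.2.2.2.2 + x.1.2.1 * y.1.2.2.2.1 + x.1.2.2.2.2),
    aux1 _ _ _ _ _ _ x.2 y.2⟩⟩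

instance instOneE : One E := ⟨⟨(1, 0, 1, 0, 0), by decide⟩⟩

instance instInvE : Inv E := ⟨fun x =>
  ⟨((x.1.1 * x.1.1 + x.1.2.1 * x.1.2.1) * x.1.1,
    -(x.1.1 * x.1.1 + x.1.2.1 * x.1.2.1) * x.1.2.2.1 * x.1.2.1, x.1.2.2.1,
    -(x.1.1 * x.1.1 + x.1.2.1 * x.1.2.1) * (x.1.1 * x.1.2.2.2.1 + x.1.2.1 * x.1.2.2.2.2),
    -(x.1.1 * x.1.1 + x.1.2.1 * x.1.2.1) * x.1.2.2.1 * (x.1.1 * x.1.2.2.2.2 - x.1.2.1 * x.1.2.2.2.1)),
    aux2 _ _ _ x.2⟩⟩

theorem mul_val (x y : E) : (x * y).1 =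
  (x.1.1 * y.1.1 - x.1.2.2.1 * x.1.2.1 * y.1.2.1, x.1.2.2.1 * x.1.1 * y.1.2.1 + x.1.2.1 * y.1.1,
    x.1.2.2.1 * y.1.2.2.1,
    x.1.1 * y.1.2.2.2.1 - x.1.2.2.1 * x.1.2.1 * y.1.2.2.2.2 + x.1.2.2.2.1,
    x.1.2.2.1 * x.1.1 * y.1.2.2.2.2 + x.1.2.1 * y.1.2.2.2.1 + x.1.2.2.2.2) := rfl

instance instGroupE : Group E := Group.ofLeftAxioms (by
    intro x y z
    have h2 := x.2.2
    apply Subtype.ext
    rw [mul_val, mul_val, mul_val, mul_val]
    refine Prod.ext ?_ (Prod.ext ?_ (Prod.ext ?_ (Prod.ext ?_ ?_))) <;> simp only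
    · linear_combination (-y.1.2.2.1 * x.1.1 * y.1.2.1 * z.1.2.1) * h2
    · linear_combination (-y.1.2.2.1 * x.1.2.1 * y.1.2.1 * z.1.2.1) * h2
    · ring
    · linear_combination (-y.1.2.2.1 * x.1.1 * y.1.2.1 * z.1.2.2.2.2) * h2
    · linear_combination (-y.1.2.2.1 * x.1.2.1 * y.1.2.1 * z.1.2.2.2.2) * h2)
  (by decide +kernel) (by decide +kernel)

def a : E := ⟨(1, 0, -1, 0, 0), by decide⟩
def t : E := ⟨(1, 0, 1, 0, 1), by decide⟩

def P : Subgroup E where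
  carrier := {x | x.1.2.2.2.1 = 0 ∧ x.1.2.2.2.2 = 0}
  one_mem' := ⟨rfl, rfl⟩
  mul_mem' := fun {x y} hx hy => by simp [mul_val, hx.1, hx.2, hy.1, hy.2]
  inv_mem' := fun {x} => by revert x; decide +kernel

theorem hP : ∀ x : E, x.1.2.2.2.1 = 0 ∧ x.1.2.2.2.2 = 0 → x * x * x * x * x * x * x * x = 1 := by
  decide +kernel

theorem key : ∀ c : E, ∃ x : E, ((x * c * x⁻¹).1.2.2.2.1 = 0 ∧ (x * c * x⁻¹).1.2.2.2.2 = 0) ∨
    a * (x * c * x⁻¹) = (x * c * x⁻¹) * a := by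
  decide +kernel

theorem cardE : Fintype.card E = 144 := by decide +kernel

theorem result :
    ∃ (G : Type) (_ : Group G) (_ : Finite G) (A : Subgroup G), Group.IsSolvable G ∧ Nat.card A = 2 ∧
      (∀ c : G, ∃ g : G, IsConj c g ∧ (A.subgroupOf (A ⊔ Subgroup.zpowers g)).IsSubnormal) ∧
      ¬ A ≤ Cfsg.pCore 2 G := by
  have := Fact.mk Nat.prime_two
  have := Fact.mk Nat.prime_three
  refine ⟨E, inferInstance, inferInstance, zpowers a, ?_, ?_, fun c => ?_, fun h => ?_⟩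
  · refine isSolvable_of_two_primes Nat.prime_two Nat.prime_three fun r hr hd => ?_
    rw [Nat.card_eq_fintype_card, cardE, show 144 = 2 ^ 4 * 3 ^ 2 from rfl] at hd
    exact ((Nat.Prime.dvd_mul hr).mp hd).imp
      (fun h => (Nat.prime_dvd_prime_iff_eq hr Nat.prime_two).mp (hr.dvd_of_dvd_pow h))
      (fun h => (Nat.prime_dvd_prime_iff_eq hr Nat.prime_three).mp (hr.dvd_of_dvd_pow h))
  · rw [Nat.card_zpowers]
    exact orderOf_eq_prime (by rw [sq]; decide +kernel) (by decide +kernel)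
  · obtain ⟨x, hx⟩ := key c
    refine ⟨x * c * x⁻¹, isConj_iff.mpr ⟨x, rfl⟩, ?_⟩
    rcases hx with hx | hx
    · have h1 : IsPGroup 2 P := fun y => ⟨3, Subtype.ext (by
        have := hP y y.2
        simp only [pow_succ, pow_zero, one_mul, Nat.reduceMul]
        exact this)⟩
      exact (SubnormalIn.of_isNilpotent (isNilpotent_of_le h1.isNilpotent
        (sup_le (zpowers_le.mpr ⟨rfl, rfl⟩) (zpowers_le.mpr hx))) le_sup_left).2
    · refine Normal.isSubnormal (normal_subgroupOf_of_le_normalizer (sup_le le_normalizer ?_))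
      rw [zpowers_le]
      apply centralizer_le_normalizer
      rintro _ ⟨n, rfl⟩
      exact (Commute.zpow_left hx n).eq
  · have h1 := h (mem_zpowers a)
    obtain ⟨k, hk⟩ := orderOf_eq_pow_of_mem_isPGroup (pCore_isPGroup 2)
      (mul_mem h1 (Normal.conj_mem inferInstance a h1 t))
    rw [orderOf_eq_prime (p := 3) (by rw [pow_succ, sq]; decide +kernel) (by decide +kernel)] at hk
    exact absurd (Nat.prime_three.dvd_of_dvd_pow hk.dvd) (by decide)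

end Cfsg.Agent.S4331
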