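import Cfsg.Statements.S4332
import Cfsg.Agent.Lib.CorePermSwap

set_option autoImplicit false
open Pointwise
open Cfsg

namespace Cfsg.Agent.S4332

open Subgroup CfsgLib
open scoped Pointwise commutatorElement

open Equiv in
theorem exists_triple (c : Perm (Fin 8)) : ∃ x y z : Fin 8, x ≠ y ∧ x ≠ z ∧ y ≠ z ∧
    (({c x, c y, c z} : Finset (Fin 8)) = {x, y, z} ∨
      Disjoint ({c x, c y, c z} : Finset (Fin 8)) {x, y, z}) := by
  by_cases h : 3 ≤ c.supportᶜ.card
  · obtain ⟨x, hx, y, hy, z, hz, h1, h2, h3⟩ := Finset.two_lt_card.mp h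
    simp only [Finset.mem_compl, Perm.notMem_support] at hx hy hz
    exact ⟨x, y, z, h1, h2, h3, Or.inl (by rw [hx, hy, hz])⟩
  have h6 : 5 < c.support.card := by
    rw [Finset.card_compl, Fintype.card_fin] at h
    omega
  have ex : ∀ a b d e f : Fin 8, ∃ z, c z ≠ z ∧ z ≠ a ∧ z ≠ b ∧ z ≠ d ∧ z ≠ e ∧ z ≠ f := by
    intro a b d e f
    obtain ⟨z, hz1, hz2⟩ := Finset.exists_mem_notMem_of_card_lt_card
      (s := ({a, b, d, e, f} : Finset (Fin 8))) (Finset.card_le_five.trans_lt h6)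
    exact ⟨z, Perm.mem_support.mp hz1, by simpa using hz2⟩
  have inj := c.injective
  obtain ⟨x, hx, -⟩ := ex 0 0 0 0 0
  by_cases h2 : c (c x) = x
  · obtain ⟨y, hy, hy1, hy2, -⟩ := ex x (c x) 0 0 0
    obtain ⟨z, hz, hz1, hz2, hz3, hz4, hz5⟩ := ex x (c x) y (c y) (c⁻¹ y)
    refine ⟨x, y, z, hy1.symm, hz1.symm, hz3.symm, Or.inr ?_⟩
    have e1 : c y ≠ x := fun h => hy2 (inj (h.trans h2.symm))
    have e2 : c z ≠ x := fun h => hz2 (inj (h.trans h2.symm))
    have e3 : c z ≠ y := fun h => hz5 (by rw [← h]; simp)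
    simp [hx, hy, hz, e1, e2, e3, hy2.symm, hz2.symm, hz4.symm, hx.symm, hy.symm, hz.symm,
      e1.symm, e2.symm, e3.symm, hy2, hz2, hz4]
  by_cases h3 : c (c (c x)) = x
  · refine ⟨x, c x, c (c x), hx.symm, Ne.symm h2, fun h => hx (inj h).symm, Or.inl ?_⟩
    rw [h3]
    ext; simp; tauto
  · obtain ⟨z, hz, hz1, hz2, hz3, hz4, hz5⟩ := ex x (c x) (c (c x)) (c (c (c x))) (c⁻¹ x)
    refine ⟨x, c (c x), z, Ne.symm h2, hz1.symm, hz3.symm, Or.inr ?_⟩
    have e3 : c z ≠ x := fun h => hz5 (by rw [← h]; simp)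
    simp [hx, hz, h3, e3, hz2, hz4, hx.symm, hz.symm, Ne.symm h3, e3.symm, hz2.symm, hz4.symm]

open Equiv in
theorem commute_of_support_eq {σ τ : Perm (Fin 8)} (h1 : σ.IsThreeCycle) (h2 : τ.IsThreeCycle)
    (h : σ.support = τ.support) : Commute σ τ := by
  obtain ⟨a, ha⟩ := (Perm.mem_range_ofSubtype_iff (p := (· ∈ σ.support)) (g := σ)).mpr le_rfl
  obtain ⟨b, hb⟩ := (Perm.mem_range_ofSubtype_iff (p := (· ∈ σ.support)) (g := τ)).mpr
    (Finset.coe_subset.mpr h.ge)
  have ha' : a ∈ alternatingGroup σ.support := by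
    rw [Perm.mem_alternatingGroup, ← Perm.sign_ofSubtype, ha, h1.sign]
  have hb' : b ∈ alternatingGroup σ.support := by
    rw [Perm.mem_alternatingGroup, ← Perm.sign_ofSubtype, hb, h2.sign]
  have hc : Nat.card σ.support = 3 := by rw [Nat.card_eq_finsetCard, h1.card_support]
  have : Nontrivial σ.support := Finite.one_lt_card_iff_nontrivial.mp (by omega)
  have h3 : Nat.card (alternatingGroup σ.support) = 3 := by
    rw [nat_card_alternatingGroup, hc]; rfl
  have := Fact.mk Nat.prime_three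
  have h4 := congrArg Subtype.val
    ((isCyclic_of_prime_card h3).isMulCommutative.is_comm.comm ⟨a, ha'⟩ ⟨b, hb'⟩)
  rw [← ha, ← hb]
  exact (show Commute a b from h4).map _

theorem result
    (σ : Equiv.Perm (Fin 8)) (hσ : σ.IsThreeCycle) :
    (∀ c : Equiv.Perm (Fin 8), ∃ g : Equiv.Perm (Fin 8), IsConj c g ∧
      ((Subgroup.zpowers σ).subgroupOf (Subgroup.zpowers σ ⊔ MulAut.conj g • Subgroup.zpowers σ)).IsSubnormal) ∧
    Cfsg.pCore 3 (Equiv.Perm (Fin 8)) = ⊥ := by
  constructor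
  · intro c
    obtain ⟨x, y, z, h1, h2, h3, h4⟩ := exists_triple c
    have hτ := Equiv.Perm.isThreeCycle_swap_mul_swap_same h1 h2 h3
    set τ := Equiv.swap x y * Equiv.swap x z
    have hs : τ.support = {x, y, z} := by
      rw [show τ = Equiv.swap y x * Equiv.swap x z by rw [Equiv.swap_comm y x],
        Equiv.Perm.support_swap_mul_swap (by simp [h1.symm, h2, h3])]
      ext; simp; tauto
    have hs2 : (c * τ * c⁻¹).support = {c x, c y, c z} := by
      rw [Equiv.Perm.support_conj, hs]; simp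
    have hτ2 : (c * τ * c⁻¹).IsThreeCycle := Equiv.Perm.cycleType_conj.trans hτ
    have h5 : Commute τ (c * τ * c⁻¹) := by
      rcases h4 with h4 | h4
      · exact commute_of_support_eq hτ hτ2 (by rw [hs, hs2, h4])
      · exact (Equiv.Perm.disjoint_iff_disjoint_support.mpr (by
          rw [hs, hs2]; exact h4.symm)).commute
    obtain ⟨k, hk⟩ := isConj_iff.mp (Equiv.Perm.isConj_iff_cycleType_eq.mpr
      (hτ.cycleType.trans hσ.cycleType.symm))
    refine ⟨k * c * k⁻¹, isConj_iff.mpr ⟨k, rfl⟩, Normal.isSubnormal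
      (normal_subgroupOf_of_le_normalizer (sup_le le_normalizer ?_))⟩
    rw [conj_smul_eq_map, MonoidHom.map_zpowers, zpowers_le]
    apply centralizer_le_normalizer
    rintro _ ⟨n, rfl⟩
    refine (Commute.zpow_left ?_ n).eq
    have := h5.map (MulAut.conj k)
    rw [← hk]
    have h6 : (MulAut.conj (k * c * k⁻¹)).toMonoidHom (k * τ * k⁻¹) =
        MulAut.conj k (c * τ * c⁻¹) := by
      show k * c * k⁻¹ * (k * τ * k⁻¹) * (k * c * k⁻¹)⁻¹ = k * (c * τ * c⁻¹) * k⁻¹
      group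
    rw [h6]
    exact this
  · by_contra h
    have h1 := card_dvd_of_normal_perm _ h
    have := Fact.mk Nat.prime_three
    obtain ⟨k, hk⟩ := (pCore_isPGroup (G := Equiv.Perm (Fin 8)) 3).exists_card_eq
    rw [Nat.card_fin, hk] at h1
    exact absurd (Nat.prime_two.dvd_of_dvd_pow (Dvd.dvd.trans (by decide) h1)) (by decide)

end Cfsg.Agent.S4332
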