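import Cfsg.Statements.S4333
import Cfsg.Agent.Lib.CoreSubnormal

set_option autoImplicit false
open Pointwise
open Cfsg

namespace Cfsg.Agent.S4333

open Subgroup CfsgLib
open scoped Pointwise commutatorElement

theorem aux {G : Type*} [Group G] [Finite G] (A K : Subgroup G) (hAK : A ≤ K)
    (h : ∀ a ∈ A, ∀ g ∈ K, SubnormalIn A (A ⊔ A.map (MulAut.conj (g⁻¹ * a * g)).toMonoidHom)) :
    SubnormalIn A K := by
  induction K using WellFoundedLT.induction with
  | _ K ih =>
    by_contra hn
    have ih' : ∀ L, A ≤ L → L < K → SubnormalIn A L :=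
      fun L h1 h2 => ih L h2 h1 fun a ha g hg => h a ha g (h2.le hg)
    obtain ⟨M, hM1, hM2⟩ := zipper_lemma A hAK ih' hn
    have hAM : A ≤ M := hM2 A le_rfl (lt_of_le_of_ne hAK fun h => hn (h ▸ SubnormalIn.refl _))
    have hN : K ⊓ normalizer (M : Set G) ≤ M := by
      refine hM2 _ (le_inf hAK (hAM.trans le_normalizer)) (lt_of_le_of_ne inf_le_left fun h2 => ?_)
      exact hn ((ih' M hAM hM1).trans (SubnormalIn.of_le_normalizer hM1.le (inf_eq_left.mp h2)))
    have key : ∀ a ∈ A, ∀ g ∈ K, g⁻¹ * a * g ∈ M := by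
      intro a ha g hg
      set x := g⁻¹ * a * g with hx
      have hxK : x ∈ K := K.mul_mem (K.mul_mem (K.inv_mem hg) (hAK ha)) hg
      have h1 : A.map (MulAut.conj x).toMonoidHom ≤ K := by
        rw [← map_conj_eq_of_mem_normalizer (le_normalizer hxK)]; exact map_mono hAK
      have h2 : A.map (MulAut.conj x).toMonoidHom ≤ M := le_sup_right.trans
        (hM2 _ le_sup_left (lt_of_le_of_ne (sup_le hAK h1) fun h3 => hn (h3 ▸ h a ha g hg)))
      have hxK' := map_conj_eq_of_mem_normalizer (le_normalizer (K.inv_mem hxK))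
      have h3 : M.map (MulAut.conj x⁻¹).toMonoidHom ≤ M := hM2 _ (by
        intro b hb
        rw [mem_map_conj_iff, inv_inv]; exact h2 (conj_mem_map_conj hb)) (by
        rw [← hxK']
        exact (map_lt_map_iff_of_injective (MulAut.conj x⁻¹).injective).mpr hM1)
      have := hN ⟨K.inv_mem hxK, mem_normalizer_of_conj_mem fun y hy => h3 (conj_mem_map_conj hy)⟩
      rwa [inv_mem_iff] at this
    set L : Subgroup G := ⨆ x : K, A.map (MulAut.conj (x : G)).toMonoidHom with hL
    have hAL : A ≤ L :=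
      le_iSup_of_le (1 : K) (by simp only [OneMemClass.coe_one, map_conj_one]; exact le_rfl)
    have hLM : L ≤ M := iSup_le fun x => by
      rintro _ ⟨a, ha, rfl⟩
      simpa using key a ha _ (K.inv_mem x.2)
    have hNL : K ≤ normalizer (L : Set G) := by
      intro g hg
      apply mem_normalizer_of_conj_mem
      have : L.map (MulAut.conj g).toMonoidHom ≤ L := by
        rw [hL, Subgroup.map_iSup]
        refine iSup_le fun x => le_iSup_of_le (⟨g, hg⟩ * x) ?_
        rw [← map_conj_mul]
        exact le_rfl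
      exact fun x hx => this (conj_mem_map_conj hx)
    exact hn ((ih' L hAL (lt_of_le_of_lt hLM hM1)).trans
      (SubnormalIn.of_le_normalizer (hLM.trans hM1.le) hNL))

theorem result {G : Type*} [Group G] [Finite G]
    (A : Subgroup G)
    (h : ∀ a ∈ A, ∀ g : G, (A.subgroupOf (A ⊔ MulAut.conj (g⁻¹ * a * g) • A)).IsSubnormal) :
    A.IsSubnormal := by
  exact subnormalIn_top_iff.mp (aux A ⊤ le_top fun a ha g _ => ⟨le_sup_left, h a ha g⟩)

end Cfsg.Agent.S4333
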