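import Cfsg.Statements.S4334
import Cfsg.Agent.Lib.H8NilpotentHall
import Cfsg.Agent.Lib.FrobeniusPComplement
import Cfsg.Agent.Lib.CoprimeSylow
import Cfsg.Agent.Lib.CoreElements
import Cfsg.Agent.Lib.FusionRadical
import Cfsg.Agent.Lib.CoprimePGroup

set_option autoImplicit false
open Cfsg

namespace Cfsg.Agent.S4334

open Subgroup CfsgLib
open scoped Pointwise commutatorElement

section

variable {G : Type*} [Group G] [Finite G]

theorem not_dvd_index_cent {p q : ℕ} [Fact p.Prime] {P Q : Subgroup G} (hP : IsSylowIn p P ⊤)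
    (hQ : ¬ q ∣ Q.index) (h : Q ≤ centralizer (P : Set G)) {R : Subgroup G} (hR : IsPGroup p R) :
    ¬ q ∣ (centralizer (R : Set G)).index := by
  obtain ⟨g, -, hg⟩ := hP.exists_conj_le hR le_top
  intro hd
  refine hQ (Dvd.dvd.trans ?_ (index_dvd_of_le (h.trans (centralizer_le hg))))
  rwa [centralizer_map_conj, index_map_of_bijective (MulAut.conj g).bijective]

theorem mem_cent {q k : ℕ} (hq : q.Prime) {R : Subgroup G}
    (h : ¬ q ∣ (centralizer (R : Set G)).index) {g : G} (hg : g ∈ normalizer (R : Set G))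
    (hk : orderOf g = q ^ k) : g ∈ centralizer (R : Set G) := by
  have h1 := ((centralizer (R : Set G)).subgroupOf (normalizer (R : Set G))).pow_index_mem ⟨g, hg⟩
  refine FrobNPC.mem_of_pow_mem_of_coprime (hk ▸ Nat.Coprime.pow_left k
    (hq.coprime_iff_not_dvd.mpr fun hd => h (hd.trans ?_))) h1
  exact relIndex_dvd_index_of_le (centralizer_le_normalizer _)

end


set_option maxHeartbeats 200000 in
theorem result {G : Type*} [Group G] [Finite G]
    (σ τ π : Set ℕ) (hπ : π = σ ∪ τ) (hd : Disjoint σ τ) (H Hs Ht : Subgroup G) (hH : Cfsg.IsPiHall π H)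
    (hs : Cfsg.IsPiSubgroup σ Hs) (ht : Cfsg.IsPiSubgroup τ Ht) (hsn : Group.IsNilpotent Hs)
    (hjoin : Hs ⊔ Ht = H) (hcomm : ∀ a ∈ Hs, ∀ b ∈ Ht, a * b = b * a) (hD : Cfsg.IsDPiGroup τ G) :
    Cfsg.IsDPiGroup π G := by
  have hct : Ht ≤ centralizer (Hs : Set G) := fun b hb a ha => hcomm a ha b hb
  have hHs : IsPiHall σ Hs := ⟨hs, fun p hp hσ hdv => by
    rw [← relIndex_mul_index (le_sup_left : Hs ≤ Hs ⊔ Ht), hjoin] at hdv
    refine (hp.dvd_mul.mp hdv).elim (fun h => ?_) (hH.2 p hp (hπ ▸ Or.inl hσ))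
    rw [← hjoin, sup_comm, relIndex_sup_of_le_normalizer (hct.trans (centralizer_le_normalizer _))] at h
    exact Set.disjoint_left.mp hd hσ (ht p hp (h.trans (relIndex_dvd_card _ _)))⟩
  have hHt : IsPiHall τ Ht := ⟨ht, fun p hp hτ hdv => by
    rw [← relIndex_mul_index (le_sup_right : Ht ≤ Hs ⊔ Ht), hjoin] at hdv
    refine (hp.dvd_mul.mp hdv).elim (fun h => ?_) (hH.2 p hp (hπ ▸ Or.inr hτ))
    rw [← hjoin, relIndex_sup_of_le_normalizer ((le_centralizer_iff.mp hct).trans
      (centralizer_le_normalizer _))] at h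
    exact Set.disjoint_left.mp hd (hs p hp (h.trans (relIndex_dvd_card _ _))) hτ⟩
  have hpair : ∀ (p q : ℕ) [Fact p.Prime] [Fact q.Prime], p ≠ q → p ∈ σ → q ∈ π →
      ∃ P Q : Subgroup G, IsSylowIn p P ⊤ ∧ IsSylowIn q Q ⊤ ∧ Q ≤ centralizer (P : Set G) := by
    intro p q hp hq hpq hpσ hqπ
    obtain ⟨P, hP⟩ := IsSylowIn.exists_in (p := p) Hs
    refine ⟨P, ?_⟩
    have hP' := NilHall.isSylowIn_of_hallOf hp.out hpσ (Hall.isPiHallOf_top.mpr hHs) hP
    rcases hπ ▸ hqπ with h | h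
    · obtain ⟨Q, hQ⟩ := IsSylowIn.exists_in (p := q) Hs
      refine ⟨Q, hP', NilHall.isSylowIn_of_hallOf hq.out h (Hall.isPiHallOf_top.mpr hHs) hQ,
        fun b hb a ha => commute_of_coprime_of_mem_isNilpotent hsn (hP.le ha) (hQ.le hb) ?_⟩
      obtain ⟨i, hi⟩ := IsPGroup.iff_orderOf.mp hP.isPGroup ⟨a, ha⟩
      obtain ⟨j, hj⟩ := IsPGroup.iff_orderOf.mp hQ.isPGroup ⟨b, hb⟩
      rw [← orderOf_coe] at hi hj
      rw [hi, hj]
      exact Nat.coprime_pow_primes _ _ hp.out hq.out hpq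
    · obtain ⟨Q, hQ⟩ := IsSylowIn.exists_in (p := q) Ht
      exact ⟨Q, hP', NilHall.isSylowIn_of_hallOf hq.out h (Hall.isPiHallOf_top.mpr hHt) hQ,
        fun b hb a ha => hcomm a (hP.le ha) b (hQ.le hb)⟩
  have hc : ∀ (p q : ℕ) [Fact p.Prime] [Fact q.Prime], p ≠ q → p ∈ π → q ∈ π → p ∈ σ ∨ q ∈ σ →
      ∀ R : Subgroup G, IsPGroup p R → ¬ q ∣ (centralizer (R : Set G)).index := by
    intro p q _ _ hpq hp hq h R hR
    rcases h with h | h
    · obtain ⟨P, Q, h1, h2, h3⟩ := hpair p q hpq h hq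
      exact not_dvd_index_cent h1 (relIndex_top_right Q ▸ h2.not_dvd) h3 hR
    · obtain ⟨Q, P, h1, h2, h3⟩ := hpair q p hpq.symm h hp
      exact not_dvd_index_cent h2 (relIndex_top_right Q ▸ h1.not_dvd) (le_centralizer_iff.mp h3) hR
  have key : ∀ K : Subgroup G, IsPiSubgroup π K → ∃ g, K.map (MulAut.conj g).toMonoidHom ≤ H := by
    intro K hK
    have hc' : ∀ (p q : ℕ) [Fact p.Prime] [Fact q.Prime], p ≠ q → p ∈ π → p ∈ σ ∨ q ∈ σ →
        ∀ R : Subgroup K, IsPGroup p R → ∀ g ∈ normalizer (R : Set K), ∀ k, orderOf g = q ^ k →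
          g ∈ centralizer (R : Set K) := by
      intro p q _ hq hpq hp h R hR g hg k hk
      rcases k with _ | k
      · rw [pow_zero, orderOf_eq_one_iff] at hk
        exact hk ▸ one_mem _
      have h1 := mem_cent hq.out (hc p q hpq hp (hK q hq.out (Dvd.dvd.trans
        (hk ▸ dvd_pow_self q k.succ_ne_zero) (_root_.orderOf_dvd_natCard g))) h _ (hR.map K.subtype))
        (le_normalizer_map K.subtype ⟨g, hg, rfl⟩) ((orderOf_coe g).trans hk)
      exact fun a ha => Subtype.ext (h1 a ⟨a, ha, rfl⟩)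
    have h1 : ∀ (p : ℕ) [Fact p.Prime], p ∈ σ → HasNormalPComplement p K := fun p _ hp =>
      FrobNPC.hnpc_of_primePow_centralizes fun R hR _ g hg q k hq hqp hk =>
        @hc' p q _ ⟨hq⟩ hqp.symm (hπ ▸ Or.inl hp) (Or.inl hp) R hR g hg k hk
    have h2 : ∀ (p : ℕ) [Fact p.Prime], p ∈ σ → ∀ P : Sylow p K, (P : Subgroup K).Normal := by
      intro p hp hpσ P
      haveI := PRes.pResidual_normal (G := K) (p := p)
      have h3 := PCompl.hnpc_iff_coprime_pResidual.mp (h1 p hpσ)
      have h4 : pResidual p K ≤ centralizer ((P : Subgroup K) : Set K) := by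
        refine Cop.le_of_forall_invariant_sylowOf_le (A := P) le_normalizer_of_normal
          (Cop.coprime_card_of_isPGroup h3 P.2).symm (Or.inl (isSolvable_of_isPGroup P.2))
          fun q hq Q hdv hQ hPQ => le_centralizer_iff.mp fun g hg => ?_
        obtain ⟨k, hk⟩ := IsPGroup.iff_orderOf.mp P.2 ⟨g, hg⟩
        refine hc' q p ?_ (hK q hq.out (hdv.trans (card_subgroup_dvd_card _))) (Or.inr hpσ) Q
          (Cop.isPGroup_of_isPiHallOf hQ) g (hPQ hg) k ((orderOf_coe _).trans hk)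
        rintro rfl
        exact hp.out.coprime_iff_not_dvd.mp h3.symm hdv
      refine normal_of_le_normalizer_top ?_
      rw [← (PCompl.hnpc_isComplement' (h1 p hpσ) P).sup_eq_top]
      exact sup_le (h4.trans (centralizer_le_normalizer _)) le_normalizer
    let R : Subgroup K := fittingSubgroup K ⊓ piCore σ K
    let N : Subgroup K := ⨅ p : {p : ℕ // p.Prime ∧ p ∈ σ}, pPrimeCore p K
    have hN : IsPiSubgroup τ N := fun r hr hdv => by
      have h0 := hK r hr (hdv.trans (card_subgroup_dvd_card _))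
      rw [hπ] at h0
      refine h0.resolve_left fun h => ?_
      haveI := Fact.mk hr
      exact not_dvd_card_pPrimeCore r (hdv.trans (card_dvd_of_le (iInf_le
        (fun p : {p : ℕ // p.Prime ∧ p ∈ σ} => pPrimeCore p K) ⟨r, hr, h⟩)))
    haveI : N.Normal := normal_iInf_normal fun _ => inferInstance
    have hR : IsPiSubgroup σ R := isPiSubgroup_of_le (piCore_isPiSubgroup σ) inf_le_right
    have hRN : R ⊔ N = ⊤ := by
      rw [eq_top_iff]
      refine le_of_forall_sylow_le fun r hr hdv => ?_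
      obtain ⟨P⟩ : Nonempty (Sylow r K) := inferInstance
      refine ⟨P.subtype le_top, ?_⟩
      rw [Sylow.coe_subtype, subgroupOf_map_subtype, inf_top_eq]
      rw [card_top] at hdv
      have h0 := hK r hr.out hdv
      rw [hπ] at h0
      rcases h0 with h | h
      · haveI := h2 r h P
        exact le_sup_of_le_left (le_inf (le_fitting P.2.isNilpotent) (le_piCore (isPiSubgroup_mono
          (isPGroup_iff_isPiSubgroup.mp P.2) (Set.singleton_subset_iff.mpr h))))
      · refine le_sup_of_le_right (le_iInf ?_)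
        rintro ⟨p, hp, hpσ⟩
        haveI := Fact.mk hp
        rw [PCompl.hnpc_pPrimeCore_eq_pResidual (h1 p hpσ)]
        obtain ⟨k, hk⟩ := P.2.exists_card_eq
        refine PRes.le_pResidual_of_coprime (hk ▸ Nat.Coprime.pow_left k
          ((Nat.coprime_primes hr.out hp).mpr ?_))
        rintro rfl
        exact Set.disjoint_left.mp hd hpσ h
    have h3 : R ≤ centralizer (N : Set K) := by
      rw [← commutator_eq_bot_iff_le_centralizer, eq_bot_iff, ← disjoint_of_isPiSubgroup hd hR hN]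
      exact commutator_le_inf _ _
    obtain ⟨M, hNM, hM⟩ := Finite.exists_le_maximal (isPiSubgroup_map hN K.subtype)
    obtain ⟨g, hg⟩ := hD M Ht hM ⟨ht, fun U hU hle => (Hall.eq_of_hall_le hHt hU hle).ge⟩
    let f := (MulAut.conj g).toMonoidHom.comp K.subtype
    have h4 : N.map f ≤ Ht := by rw [hg, ← map_map]; exact map_mono hNM
    obtain ⟨c, hc1, hc2⟩ := NilHall.exists_conj_le (M := centralizer (N.map f : Set G))
      (K := R.map f) (Hall.isPiHallOf_of_isPiHall hHs fun a ha b hb => (hcomm a ha b (h4 hb)).symm)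
      hsn (isPiSubgroup_map hR f) (by
        rintro _ ⟨a, ha, rfl⟩ _ ⟨b, hb, rfl⟩
        rw [← map_mul, ← map_mul, h3 ha b hb])
      (isNilpotent_map (isNilpotent_of_le fitting_isNilpotent inf_le_left) f)
    refine ⟨c * g, ?_⟩
    have h5 : K.map (MulAut.conj g).toMonoidHom = R.map f ⊔ N.map f := by
      rw [← Subgroup.map_sup, hRN, ← map_map, ← MonoidHom.range_eq_map, range_subtype]
    rw [map_conj_mul, h5, Subgroup.map_sup, ← hjoin,
      map_conj_eq_of_mem_normalizer (centralizer_le_normalizer _ hc1)]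
    exact sup_le_sup hc2 h4
  have key2 : ∀ K : Subgroup G, Maximal (IsPiSubgroup π) K →
      ∃ g, K = H.map (MulAut.conj g).toMonoidHom := fun K hK => by
    obtain ⟨g, hg⟩ := key K hK.1
    exact ⟨g⁻¹, hK.eq_of_le (isPiSubgroup_map hH.1 _)
      ((map_conj_inv_map_conj g K).ge.trans (map_mono hg))⟩
  intro K L hK hL
  obtain ⟨a, rfl⟩ := key2 K hK
  obtain ⟨b, rfl⟩ := key2 L hL
  exact ⟨b * a⁻¹, by rw [map_conj_mul, map_conj_inv_map_conj]⟩

end Cfsg.Agent.S4334
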