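import Cfsg.Statements.S4337
import Cfsg.Agent.Lib.CorePermSwap
import Cfsg.Agent.Lib.CharBurnside

set_option autoImplicit false
open Cfsg

namespace Cfsg.Agent.S4337

open Subgroup CfsgLib
open scoped Pointwise commutatorElement



theorem result (n : ℕ) (a b c : Equiv.Perm (Fin n))
    (ha : a.IsSwap) (hb : b.IsSwap) (hc : c.IsSwap) :
    Group.IsSolvable (Subgroup.closure ({a, b, c} : Set (Equiv.Perm (Fin n)))) := by
  refine isSolvable_of_two_primes Nat.prime_two Nat.prime_three fun r hr hd => ?_
  have h1 := prime_le_of_dvd_card_closure_swaps [a, b, c] (by simp [ha, hb, hc]) hr (by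
    rwa [show {s | s ∈ [a, b, c]} = {a, b, c} by ext; simp])
  have := hr.two_le
  have h4 : r ≠ 4 := by rintro rfl; exact absurd hr (by decide)
  simp at h1
  omega

end Cfsg.Agent.S4337
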