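import Cfsg.Statements.S4344
import Cfsg.Agent.Lib.SylowIn
import Cfsg.Agent.Lib.PGroupBasic

set_option autoImplicit false
open Cfsg

namespace Cfsg.Agent.S4344

open Subgroup CfsgLib

/-- Let S be a finite non-abelian simple group, M a maximal subgroup of S and C a cyclic normal subgroup of M. If a Sylow p-subgroup P of S (for a prime p dividing the order of S) is contained in C, then the number of Sylow p-subgroups of S equals the index of M. -/
theorem result {S : Type*} [Group S] [Finite S]
    [IsSimpleGroup S] (hS : ¬ IsMulCommutative S) (p : ℕ) [Fact p.Prime] (hp : p ∣ Nat.card S)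
    (M : Subgroup S) (hM : IsCoatom M) (C : Subgroup S) (hCM : C ≤ M) (hCn : (C.subgroupOf M).Normal)
    (hC : IsCyclic C) (P : Sylow p S) (hP : (P : Subgroup S) ≤ C) :
    Nat.card (Sylow p S) = M.index := by
  have hCc : ∀ a ∈ C, ∀ b ∈ C, a * b = b * a := fun a ha b hb => by
    have : IsMulCommutative C := IsCyclic.isMulCommutative
    exact PGrp.isMulCommutative_iff_forall.1 this a ha b hb
  have hMC : M ≤ normalizer (C : Set S) := (normal_subgroupOf_iff_le_normalizer hCM).1 hCn
  have hMP : M ≤ normalizer ((P : Subgroup S) : Set S) := by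
    intro m hm
    obtain ⟨k, hk, hkm⟩ := (IsSylowIn.of_sylow P hP).frattini_elem (hMC hm)
    have hkn : k ∈ normalizer ((P : Subgroup S) : Set S) :=
      centralizer_le_normalizer _ (fun a ha => hCc a (hP ha) k hk)
    simpa using mul_mem (inv_mem hkn) hkm
  have hne : normalizer ((P : Subgroup S) : Set S) ≠ ⊤ := by
    intro h
    have hn : (P : Subgroup S).Normal := normalizer_eq_top_iff.1 h
    rcases hn.eq_bot_or_eq_top with h0 | h0
    · exact P.ne_bot_of_dvd_card hp h0
    · apply hS
      refine PGrp.isMulCommutative_iff_forall'.2 fun a b => hCc a (hP ?_) b (hP ?_) <;>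
        rw [h0] <;> trivial
  rw [P.card_eq_index_normalizer]
  congr 1
  exact ((hM.le_iff.1 hMP).resolve_left hne)

end Cfsg.Agent.S4344
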