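import Cfsg.Statements.S4345
import Cfsg.Agent.Lib.H9SylowNum
import Cfsg.Agent.Lib.CorePiSep

set_option autoImplicit false
open Cfsg

namespace Cfsg.Agent.S4345

open Subgroup CfsgLib CfsgLib.H9

theorem aux.{u} (p ℓ : ℕ) [Fact p.Prime] (hℓ : ℓ.Prime) (G : Type u) [Group G] [Finite G] :
    IsPSolvable p G → ℓ ^ (Nat.card (Sylow p G)).factorization ℓ ≡ 1 [MOD p] := by
  refine card_induction (P := fun X _ _ => IsPSolvable p X →
    ℓ ^ (Nat.card (Sylow p X)).factorization ℓ ≡ 1 [MOD p]) ?_ G
  intro G _ _ ih hG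
  obtain ⟨P⟩ : Nonempty (Sylow p G) := inferInstance
  rcases subsingleton_or_nontrivial G with h | h
  · rw [card_sylow_eq_index P, Subsingleton.elim (normalizer _) ⊤]
    simp [Nat.ModEq]
  rcases isPSolvable_core_ne_bot hG with h0 | h0
  · rw [← card_sylow_quotient_of_le _ P ((pCore_le_sylow P).trans le_normalizer)]
    exact ih _ (card_quotient_lt h0) (isPSolvable_quotient hG _)
  · rw [card_sylow_eq_quotient_mul (pPrimeCore p G) P,
      Nat.factorization_mul Nat.card_pos.ne' (by exact index_ne_zero_of_finite), Finsupp.add_apply, pow_add]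
    exact (ih _ (card_quotient_lt h0) (isPSolvable_quotient hG _)).mul
      (ordProj_relIndex_normalizer_modEq_one _ P
        (by rw [normalizer_eq_top (pPrimeCore p G)]; exact le_top) (pPrimeCore_coprime p) hℓ)

/-- Let G be a finite solvable group and p, ℓ primes. Then the largest power of ℓ dividing the number of Sylow p-subgroups of G is congruent to 1 modulo p. -/
theorem result {G : Type*} [Group G] [Finite G]
    (hG : Group.IsSolvable G) (p ℓ : ℕ) [Fact p.Prime] (hℓ : ℓ.Prime) :
    ℓ ^ (Nat.card (Sylow p G)).factorization ℓ ≡ 1 [MOD p] := by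
  exact aux p ℓ hℓ G (isPSolvable_of_isSolvable hG)

end Cfsg.Agent.S4345
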