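import Cfsg.Statements.S4346
import Cfsg.Agent.Lib.Syl22A
import Cfsg.Agent.Lib.PermTwoPrimesA

set_option autoImplicit false
open Cfsg

namespace Cfsg.Agent.S4346

open Subgroup CfsgLib H4 MulAction

section
variable {G : Type*} [Group G] [Finite G] {Ω : Type*} [MulAction G Ω]

theorem commute_of_fix {w t v : G} {p : ℕ} (hp : p.Prime) (hw : orderOf w = p)
    (ht : t ∈ normalizer (zpowers w : Set G)) (hv : v ∈ zpowers w) (hv1 : v ≠ 1) {a : Ω}
    (ha : ∀ u ∈ zpowers w, u • a = a → u = 1) (h1 : t • a = a) (h2 : t • v • a = v • a) :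
    Commute t w := by
  have h3 : v⁻¹ * (t * v * t⁻¹) = 1 := by
    refine ha _ (mul_mem (inv_mem hv) ((mem_normalizer_iff.mp ht v).mp hv)) ?_
    rw [mul_smul, mul_smul, mul_smul, inv_smul_eq_iff.mpr h1.symm, h2, inv_smul_smul]
  have h4 : Commute t v := by
    rw [inv_mul_eq_one, eq_mul_inv_iff_mul_eq] at h3
    exact h3.symm
  have hle : zpowers v ≤ zpowers w := zpowers_le.mpr hv
  have h5 := card_dvd_of_le hle
  rw [Nat.card_zpowers w, hw, Nat.dvd_prime hp] at h5
  rcases h5 with h | h
  · exact absurd (zpowers_eq_bot.mp (card_eq_one.mp h)) hv1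
  · have : w ∈ zpowers v := by
      rw [eq_of_le_of_card_ge hle (by rw [h, Nat.card_zpowers w, hw])]; exact mem_zpowers w
    obtain ⟨j, rfl⟩ := this
    exact h4.zpow_right j

theorem fixedBy_subset_of_mem_zpowers {w u : G} {p : ℕ} (hp : p.Prime) (hw : orderOf w = p)
    (hu : u ∈ zpowers w) (hu1 : u ≠ 1) : fixedBy Ω u ⊆ fixedBy Ω w := by
  have hle : zpowers u ≤ zpowers w := zpowers_le.mpr hu
  have h5 := card_dvd_of_le hle
  rw [Nat.card_zpowers w, hw, Nat.dvd_prime hp] at h5
  rcases h5 with h | h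
  · exact absurd (zpowers_eq_bot.mp (card_eq_one.mp h)) hu1
  · have : w ∈ zpowers u := by
      rw [eq_of_le_of_card_ge hle (by rw [h, Nat.card_zpowers w, hw])]; exact mem_zpowers w
    obtain ⟨j, rfl⟩ := this
    exact fixedBy_subset_fixedBy_zpow Ω u j

theorem card_centralizer_dvd [Finite Ω] [FaithfulSMul G Ω] {x : G} (hx : orderOf x = 3) {a : Ω}
    (ha : fixedBy Ω x = {a}) (hΩ : Nat.card Ω = 22) :
    ∃ k, Nat.card (centralizer ({x} : Set G)) ∣ 3 ^ k * Nat.factorial 7 := by
  classical
  have := Fact.mk Nat.prime_three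
  have := Fintype.ofFinite Ω
  set C := centralizer ({x} : Set G)
  have hc : ∀ c : C, ∀ u ∈ zpowers x, (c : G) * u = u * c := by
    rintro c _ ⟨i, rfl⟩
    exact ((show Commute (c : G) x from mem_centralizer_singleton_iff.mp c.2).zpow_right i).eq
  let Λ := orbitRel.Quotient (zpowers x) Ω
  let _ : Fintype Λ := Fintype.ofFinite Λ
  let _ : MulAction C Λ :=
    { smul := fun c => Quotient.map' (fun b => (c : G) • b) (by
        rintro b b' ⟨u, rfl⟩
        refine ⟨u, ?_⟩
        change (u : G) • (c : G) • b' = (c : G) • (u : G) • b'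
        rw [← mul_smul, ← mul_smul, hc c u u.2])
      one_smul := fun q => Quotient.inductionOn' q fun b => congrArg Quotient.mk'' (one_smul G b)
      mul_smul := fun c d q => Quotient.inductionOn' q fun b =>
        congrArg Quotient.mk'' (mul_smul (c : G) (d : G) b) }
  let φ := toPermHom C Λ
  have h1 : IsPGroup 3 φ.ker := by
    intro c
    refine ⟨1, Subtype.ext (Subtype.ext (eq_of_smul_eq_smul (α := Ω) fun b => ?_))⟩
    have e1 : (Quotient.mk'' (((c : C) : G) • b) : Λ) = Quotient.mk'' b :=
      congrArg (fun σ : Equiv.Perm Λ => σ (Quotient.mk'' b)) c.2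
    obtain ⟨u, hu⟩ := Quotient.exact' e1
    have hu' : (u : G) • b = ((c : C) : G) • b := hu
    have e2 : Commute ((c : C) : G) (u : G) := hc c u u.2
    have e3 : ∀ n : ℕ, ((c : C) : G) ^ n • b = (u : G) ^ n • b := by
      intro n
      induction n with
      | zero => simp
      | succ n ih =>
        rw [pow_succ', mul_smul, ih, ← mul_smul, (e2.pow_right n).eq, mul_smul, ← hu', ← mul_smul,
          pow_succ]
    have e4 : (u : G) ^ 3 = 1 := by
      rw [← hx, ← Nat.card_zpowers, ← Subgroup.coe_pow, pow_card_eq_one', Subgroup.coe_one]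
    change ((c : C) : G) ^ 3 ^ 1 • b = (1 : G) • b
    rw [pow_one, e3, e4]
  obtain ⟨k, hk⟩ := h1.exists_card_eq
  set T : Finset Λ := ({a}ᶜ : Finset Ω).image Quotient.mk'' with hT
  have h2 : 3 * T.card ≤ 21 := by
    have : ({a}ᶜ : Finset Ω).card = 21 := by
      rw [Finset.card_compl, Finset.card_singleton, ← Nat.card_eq_fintype_card, hΩ]
    rw [← this]
    refine Finset.mul_card_image_le_card _ _ fun q hq => ?_
    obtain ⟨b, hb, rfl⟩ := Finset.mem_image.mp hq
    have hP : IsPGroup 3 (zpowers x) :=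
      IsPGroup.of_card ((Nat.card_zpowers x).trans (hx.trans (pow_one 3).symm))
    obtain ⟨j, hj⟩ := hP.card_orbit b
    have hj0 : j ≠ 0 := by
      rintro rfl
      rw [pow_zero, Nat.card_eq_one_iff_unique] at hj
      have := hj.1.elim ⟨b, mem_orbit_self b⟩ ⟨x • b, ⟨x, mem_zpowers x⟩, rfl⟩
      have e : b ∈ fixedBy Ω x := (congrArg Subtype.val this).symm
      rw [ha] at e
      exact Finset.mem_compl.mp hb (Finset.mem_singleton.mpr e)
    refine (Nat.le_self_pow hj0 3).trans ?_
    rw [← hj, Nat.card_coe_set_eq, ← Set.ncard_coe_finset]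
    refine Set.ncard_le_ncard fun c hc => ?_
    rw [Finset.coe_filter]
    refine ⟨?_, Quotient.sound' hc⟩
    obtain ⟨u, rfl⟩ := hc
    rw [Finset.mem_compl, Finset.mem_singleton] at hb ⊢
    intro h
    obtain ⟨i, hi⟩ := u.2
    have e : a ∈ fixedBy Ω (x ^ i) := fixedBy_subset_fixedBy_zpow Ω x i (ha ▸ rfl)
    simp only at hi
    rw [hi] at e
    exact hb (smul_left_cancel (u : G) (Eq.trans h e.symm))
  have h3 : Nat.card φ.range ∣ T.card.factorial := by
    refine card_dvd_factorial_of_support _ _ ?_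
    rintro _ ⟨c, rfl⟩ q hq
    induction q using Quotient.inductionOn' with | h b => ?_
    refine Finset.mem_image.mpr ⟨b, ?_, rfl⟩
    rw [Finset.mem_compl, Finset.mem_singleton]
    rintro rfl
    have e : (c : G) • b ∈ fixedBy Ω x :=
      smul_mem_fixedBy_of_commute (mem_centralizer_singleton_iff.mp c.2) (ha ▸ rfl)
    rw [ha] at e
    exact Equiv.Perm.mem_support.mp hq (congrArg Quotient.mk'' e)
  refine ⟨k, ?_⟩
  rw [← φ.ker.card_mul_index, index_ker, hk]
  exact Nat.mul_dvd_mul_left _ (h3.trans (Nat.factorial_dvd_factorial (by omega)))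

end

theorem arith {k e n : ℕ} (hk : k ∣ 560) (he : e ∣ 10) (he1 : e ≠ 1) (h : n * e = 12 * k)
    (hn : n % 11 = 1) : (7 ∣ k ∧ k / 7 % 7 ≠ 1) ∨ (n = 12 ∧ (k = 2 ∨ 5 ∣ k)) := by
  have h1 : k ∈ Nat.divisors 560 := Nat.mem_divisors.mpr ⟨hk, by norm_num⟩
  have h2 : e ∈ Nat.divisors 10 := Nat.mem_divisors.mpr ⟨he, by norm_num⟩
  rw [show Nat.divisors 560 = {1, 2, 4, 5, 7, 8, 10, 14, 16, 20, 28, 35, 40, 56, 70, 80, 112, 140,
    280, 560} by decide] at h1
  rw [show Nat.divisors 10 = {1, 2, 5, 10} by decide] at h2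
  simp only [Finset.mem_insert, Finset.mem_singleton] at h1 h2
  rcases h2 with rfl | rfl | rfl | rfl <;> omega

theorem simple_case {G : Type*} [Group G] [Finite G] [IsSimpleGroup G] :
    Nat.card (Sylow 3 G) ≠ 22 := by
  classical
  intro hn
  have := Fact.mk Nat.prime_three
  have := Fact.mk Nat.prime_two
  have h5 : Fact (Nat.Prime 5) := ⟨by norm_num⟩
  have h7 : Fact (Nat.Prime 7) := ⟨by norm_num⟩
  have h11 : Fact (Nat.Prime 11) := ⟨by norm_num⟩
  have hn1 : Nat.card (Sylow 3 G) ≠ 1 := by omega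
  obtain ⟨g, P, hg⟩ := exists_sylow_smul_ne hn1
  have := faithfulSMul_of_simple hg
  have hdvd := prime_dvd_card_of_card_sylow_ne_one hn1
  have := Fintype.ofFinite (Sylow 3 G)
  have hP := card_sylow_three_of_twentytwo hn P
  obtain ⟨x, hx, hxz⟩ := exists_zpowers_eq_of_card_prime (P := (P : Subgroup G)) hP
  have hfix : fixedBy (Sylow 3 G) x = {P} := by
    ext Q
    rw [mem_fixedBy, sylow_smul_eq_iff_mem (hx.trans (pow_one _).symm), ← zpowers_le, hxz]
    exact ⟨fun h => Sylow.ext (P.is_maximal' Q.isPGroup' h), fun h => h ▸ le_rfl⟩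
  have hG2 : ¬ Nat.card G ∣ 2 := fun h => absurd (hdvd.trans h) (by norm_num)
  have hcyc : IsCyclic (P : Subgroup G) := isCyclic_of_prime_card hP
  have hidx := H9.card_sylow_eq_index P
  rw [hn] at hidx
  have h22 : 22 ∣ Nat.card G := hidx ▸ index_dvd_card _
  set C := centralizer ({x} : Set G) with hC
  have hC' : centralizer ((P : Subgroup G) : Set G) = C := by
    rw [← hxz, centralizer_coe_zpowers]
  have hCN : C.relIndex (normalizer ((P : Subgroup G) : Set G)) = 2 := by
    have h3 := relIndex_centralizer_dvd_totient (P : Subgroup G)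
    rw [hP, Nat.totient_prime Nat.prime_three, hC'] at h3
    refine ((Nat.dvd_prime Nat.prime_two).mp h3).resolve_left fun h => ?_
    exact not_hnpc_of_simple Nat.prime_two (by norm_num) hdvd ((by norm_num : 2 ∣ 22).trans h22)
      (PCompl.hnpc_of_normalizer_le_centralizer P (hC' ▸ relIndex_eq_one.mp h))
  have hCle : C ≤ normalizer ((P : Subgroup G) : Set G) := hC' ▸ centralizer_le_normalizer _
  have hxC : x ∈ C := mem_centralizer_singleton_iff.mpr rfl
  obtain ⟨k, hk⟩ : 3 ∣ Nat.card C := hx ▸ C.orderOf_dvd_natCard hxC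
  have hN : Nat.card (normalizer ((P : Subgroup G) : Set G)) = 6 * k := by
    rw [← card_mul_relIndex hCle, hCN, hk]; ring
  have hG : Nat.card G = 132 * k := by
    rw [← (normalizer ((P : Subgroup G) : Set G)).card_mul_index, hN, ← hidx]; ring
  have hk3 : ¬ 3 ∣ k := by
    intro h
    have e1 := P.not_dvd_index
    have e2 := (P : Subgroup G).card_mul_index
    rw [hP, hG] at e2
    omega
  have hk560 : k ∣ 560 := by
    obtain ⟨j, hj⟩ := card_centralizer_dvd hx hfix hn
    have e1 : k ∣ 3 ^ (j + 2) * 560 := by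
      refine (Dvd.intro_left 3 hk.symm).trans (hj.trans (dvd_of_eq ?_))
      rw [pow_add, mul_assoc]; norm_num [Nat.factorial]
    exact (Nat.Coprime.pow_right _ ((Nat.Prime.coprime_iff_not_dvd Nat.prime_three).mpr
      hk3).symm).dvd_of_dvd_mul_left e1
  have hfixC : ∀ c ∈ C, (fixedBy (Sylow 3 G) c).ncard % 3 = 1 := by
    intro c hc
    have e1 := ncard_modEq_ncard_fixedBy (hx.trans (pow_one _).symm) (fixedBy (Sylow 3 G) c)
      fun Q hQ => smul_mem_fixedBy_of_commute
        (show Commute c x from mem_centralizer_singleton_iff.mp hc).symm hQ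
    rw [hfix, Set.inter_singleton_of_mem (show P ∈ fixedBy (Sylow 3 G) c from
      Sylow.smul_eq_iff_mem_normalizer.mpr (hCle hc)), Set.ncard_singleton] at e1
    exact e1
  have hlt : ∀ {c : G} {r : ℕ}, orderOf c = r → r ≠ 1 → (fixedBy (Sylow 3 G) c).ncard < 22 :=
    fun {c r} h h1 => hn ▸ ncard_fixedBy_lt fun h' => h1 (by rw [← h, h', orderOf_one])
  -- the prime 11
  obtain ⟨R⟩ : Nonempty (Sylow 11 G) := inferInstance
  have hR : Nat.card (R : Subgroup G) = 11 := by
    obtain ⟨j, hj⟩ := R.isPGroup'.exists_card_eq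
    have e1 := R.not_dvd_index
    have e2 := (R : Subgroup G).card_mul_index
    have e3 : 11 ^ j ∣ 132 * 560 :=
      (Dvd.intro _ (hj ▸ e2)).trans (hG ▸ Nat.mul_dvd_mul_left 132 hk560)
    rw [hj, hG] at e2
    rw [hj]
    rcases j with _ | _ | j
    · omega
    · rfl
    · exact absurd ((pow_dvd_pow 11 (show 2 ≤ j + 1 + 1 by omega)).trans e3) (by norm_num)
  obtain ⟨y, hy, hyz⟩ := exists_zpowers_eq_of_card_prime (P := (R : Subgroup G)) hR
  have hfy : fixedBy (Sylow 3 G) y = ∅ := by
    refine Set.eq_empty_of_forall_notMem fun Q hQ => ?_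
    have e1 := (normalizer ((Q : Subgroup G) : Set G)).orderOf_dvd_natCard
      (Sylow.smul_eq_iff_mem_normalizer.mp hQ)
    have e2 := (normalizer ((Q : Subgroup G) : Set G)).card_mul_index
    rw [← H9.card_sylow_eq_index Q, hn, hG] at e2
    have e3 : Nat.card (normalizer ((Q : Subgroup G) : Set G)) = 6 * k := by omega
    rw [hy, e3] at e1
    exact absurd (e1.trans (Nat.mul_dvd_mul_left 6 hk560)) (by norm_num)
  have hCy := isPGroup_centralizer_of_two_cycles (Ω := Sylow 3 G)
    (sign_eq_one_of_simple hG2) (by norm_num) hy (by rw [hfy]; simp) (by rw [hfy, hn]; simp)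
  have hRc : IsCyclic (R : Subgroup G) := isCyclic_of_prime_card hR
  have hCR : centralizer ((R : Subgroup G) : Set G) = R := by
    rw [← centralizer_coe_zpowers, hyz] at hCy
    exact R.is_maximal' hCy (le_centralizer _)
  have he := relIndex_centralizer_dvd_totient (R : Subgroup G)
  rw [hR, Nat.totient_prime h11.out] at he
  set e := (centralizer ((R : Subgroup G) : Set G)).relIndex
    (normalizer ((R : Subgroup G) : Set G)) with he'
  have he1 : e ≠ 1 := fun h => not_hnpc_of_simple Nat.prime_two (by norm_num)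
    ((by norm_num : 11 ∣ 22).trans h22) ((by norm_num : 2 ∣ 22).trans h22)
      (PCompl.hnpc_of_normalizer_le_centralizer R (relIndex_eq_one.mp h))
  have hNR : Nat.card (normalizer ((R : Subgroup G) : Set G)) = 11 * e := by
    rw [← card_mul_relIndex (centralizer_le_normalizer _), ← he', hCR, hR]
  have hne : Nat.card (Sylow 11 G) * e = 12 * k := by
    have e2 := (normalizer ((R : Subgroup G) : Set G)).card_mul_index
    rw [← H9.card_sylow_eq_index R, hG, hNR] at e2
    nlinarith
  rcases arith hk560 he he1 hne (card_sylow_modEq_one 11 G) with ⟨h1, h2⟩ | ⟨h1, h2⟩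
  · obtain ⟨W⟩ : Nonempty (Sylow 7 C) := inferInstance
    have hW : Nat.card (W : Subgroup C) = 7 := by
      obtain ⟨j, hj⟩ := W.isPGroup'.exists_card_eq
      have e1 := W.not_dvd_index
      have e2 := (W : Subgroup C).card_mul_index
      have e3 : 7 ^ j ∣ 3 * 560 :=
        (Dvd.intro _ (hj ▸ e2)).trans (hk ▸ Nat.mul_dvd_mul_left 3 hk560)
      rw [hj, hk] at e2
      rw [hj]
      rcases j with _ | _ | j
      · omega
      · rfl
      · exact absurd ((pow_dvd_pow 7 (show 2 ≤ j + 1 + 1 by omega)).trans e3) (by norm_num)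
    obtain ⟨w, hw, hwz⟩ := exists_zpowers_eq_of_card_prime (P := (W : Subgroup C)) hW
    have hw' : orderOf (w : G) = 7 := by rw [Subgroup.orderOf_coe, hw]
    have hfw : fixedBy (Sylow 3 G) (w : G) = {P} := by
      have e1 := hfixC w w.2
      have e2 := hlt hw' (by norm_num)
      have e3 := card_modEq_ncard_fixedBy (Ω := Sylow 3 G) (hw'.trans (pow_one _).symm)
      unfold Nat.ModEq at e3
      refine (Set.eq_of_subset_of_ncard_le (Set.singleton_subset_iff.mpr
        (show P ∈ fixedBy (Sylow 3 G) (w : G) from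
          Sylow.smul_eq_iff_mem_normalizer.mpr (hCle w.2))) ?_).symm
      rw [Set.ncard_singleton]
      omega
    have hcw : ∀ c : C, Commute c w → (fixedBy (Sylow 3 G) (c : G)).ncard % 7 = 1 := by
      intro c hc
      have e1 := ncard_modEq_ncard_fixedBy (hw'.trans (pow_one _).symm)
        (fixedBy (Sylow 3 G) (c : G)) fun Q hQ => smul_mem_fixedBy_of_commute
          (hc.symm.map C.subtype) hQ
      rw [hfw, Set.inter_singleton_of_mem (show P ∈ fixedBy (Sylow 3 G) (c : G) from
        Sylow.smul_eq_iff_mem_normalizer.mpr (hCle c.2)), Set.ncard_singleton] at e1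
      exact e1
    set M := normalizer ((W : Subgroup C) : Set C) with hM
    have hM5 : ¬ 5 ∣ Nat.card M := by
      intro h
      obtain ⟨c, hc⟩ := exists_prime_orderOf_dvd_card' 5 h
      have hc1 : orderOf (c : C) = 5 := by rw [Subgroup.orderOf_coe, hc]
      have hc2 : orderOf ((c : C) : G) = 5 := by rw [Subgroup.orderOf_coe, hc1]
      have e0 := hcw c (commute_of_coprime_totient (hwz ▸ c.2) (by rw [hc1, hw]; decide))
      have e1 := hfixC _ (c : C).2
      have e2 := hlt hc2 (by norm_num)
      have e3 := card_modEq_ncard_fixedBy (Ω := Sylow 3 G) (hc2.trans (pow_one _).symm)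
      unfold Nat.ModEq at e3
      omega
    have hM2 : ¬ 2 ∣ Nat.card M := by
      intro h
      obtain ⟨c, hc⟩ := exists_prime_orderOf_dvd_card' 2 h
      have hc1 : orderOf (c : C) = 2 := by rw [Subgroup.orderOf_coe, hc]
      have hc2 : orderOf ((c : C) : G) = 2 := by rw [Subgroup.orderOf_coe, hc1]
      have e1 := hfixC _ (c : C).2
      have e2 := hlt hc2 (by norm_num)
      have e3 := card_modEq_ncard_fixedBy (Ω := Sylow 3 G) (hc2.trans (pow_one _).symm)
      have e4 := sign_toPerm_of_sq (Ω := Sylow 3 G) (t := ((c : C) : G))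
        (hc2 ▸ pow_orderOf_eq_one _)
      rw [sign_eq_one_of_simple hG2, hn] at e4
      have e5 := (neg_one_pow_eq_one_iff_even (by decide)).mp e4.symm
      unfold Nat.ModEq at e3
      rw [Nat.even_iff] at e5
      have e6 : (fixedBy (Sylow 3 G) ((c : C) : G)).ncard = 10 := by omega
      have e7 : ¬ Commute (c : C) w := fun h => by have := hcw c h; omega
      have e8 : Function.Injective fun z : zpowers w ×
          ↥(fixedBy (Sylow 3 G) ((c : C) : G) \ {P}) => (z.1 : C) • (z.2 : Sylow 3 G) := by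
        rintro ⟨u, Q, hQ⟩ ⟨u', Q', hQ'⟩ h
        simp only at h
        have f1 : ((u'⁻¹ * u : zpowers w) : C) • Q = Q' := by
          rw [Subgroup.coe_mul, mul_smul, h, Subgroup.coe_inv, inv_smul_smul]
        have f2 : ((u'⁻¹ * u : zpowers w) : C) = 1 := by
          by_contra hne
          refine e7 (commute_of_fix (Ω := Sylow 3 G) h7.out hw (hwz ▸ c.2) (u'⁻¹ * u).2 hne
            (a := Q) (fun v hv hvQ => ?_) hQ.1 (by rw [f1]; exact hQ'.1))
          by_contra hv1
          have : Q ∈ fixedBy (Sylow 3 G) w := fixedBy_subset_of_mem_zpowers h7.out hw hv hv1 hvQ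
          exact hQ.2 (hfw ▸ this)
        rw [f2, one_smul] at f1
        exact Prod.ext (inv_mul_eq_one.mp (Subtype.ext f2)).symm (Subtype.ext f1)
      have e9 := Nat.card_le_card_of_injective _ e8
      have e10 := Set.ncard_diff_singleton_add_one (show P ∈ fixedBy (Sylow 3 G) ((c : C) : G) from
        Sylow.smul_eq_iff_mem_normalizer.mpr (hCle (c : C).2))
      rw [Nat.card_prod, Nat.card_zpowers, hw, Nat.card_coe_set_eq, hn] at e9
      omega
    have hM3 : 3 ∣ Nat.card M := by
      rw [← hx, ← Subgroup.orderOf_mk x hxC]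
      refine M.orderOf_dvd_natCard (centralizer_le_normalizer _ fun c _ => Subtype.ext ?_)
      exact mem_centralizer_singleton_iff.mp c.2
    have hM7 : 7 ∣ Nat.card M := hW ▸ card_dvd_of_le le_normalizer
    have e1 := M.card_mul_index
    have e2 : Nat.card M ∣ 80 * 21 :=
      (Dvd.intro _ e1).trans (hk ▸ Nat.mul_dvd_mul_left 3 hk560)
    have e3 : Nat.card M ∣ 21 := by
      refine Nat.Coprime.dvd_of_dvd_mul_left ?_ e2
      rw [show 80 = 2 ^ 4 * 5 by norm_num]
      exact Nat.Coprime.mul_right (Nat.Coprime.pow_right 4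
        ((Nat.Prime.coprime_iff_not_dvd Nat.prime_two).mpr hM2).symm)
        ((Nat.Prime.coprime_iff_not_dvd h5.out).mpr hM5).symm
    have e4 : Nat.card M = 21 := Nat.dvd_antisymm e3
      (Nat.Coprime.mul_dvd_of_dvd_of_dvd (m := 3) (n := 7) (by norm_num) hM3 hM7)
    have e5 := card_sylow_modEq_one 7 C
    rw [H9.card_sylow_eq_index W, ← hM] at e5
    unfold Nat.ModEq at e5
    rw [e4, hk] at e1
    have : k / 7 = M.index := by omega
    omega
  · obtain ⟨g', R', hg'⟩ := exists_sylow_smul_ne (p := 11) (G := G) (by omega)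
    have := faithfulSMul_of_simple hg'
    have := Fintype.ofFinite (Sylow 11 G)
    rcases h2 with h2 | h2
    · obtain ⟨t, ht⟩ := exists_prime_orderOf_dvd_card' (G := normalizer ((R : Subgroup G) : Set G))
        2 (by rw [hNR]; rw [h1, h2] at hne; omega)
      have ht' : orderOf (t : G) = 2 := by rw [Subgroup.orderOf_coe, ht]
      have htn : (t : G) ∈ normalizer (zpowers y : Set G) := by rw [hyz]; exact t.2
      have e3 := card_modEq_ncard_fixedBy (Ω := Sylow 11 G) (ht'.trans (pow_one _).symm)
      have e4 := sign_toPerm_of_sq (Ω := Sylow 11 G) (t := (t : G)) (ht' ▸ pow_orderOf_eq_one _)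
      rw [sign_eq_one_of_simple hG2, h1] at e4
      have e5 := (neg_one_pow_eq_one_iff_even (by decide)).mp e4.symm
      unfold Nat.ModEq at e3
      rw [Nat.even_iff] at e5
      have e10 := Set.ncard_diff_singleton_add_one (show R ∈ fixedBy (Sylow 11 G) (t : G) from
        Sylow.smul_eq_iff_mem_normalizer.mpr t.2)
      have e11 : (fixedBy (Sylow 11 G) (t : G)).ncard ≤ 12 := h1 ▸ Set.ncard_le_card _
      obtain ⟨Q, hQ, Q', hQ', hQQ⟩ := (Set.one_lt_ncard (Set.toFinite _)).mp
        (show 1 < (fixedBy (Sylow 11 G) (t : G) \ {R}).ncard by omega)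
      have f0 : sylIdx R Q = 11 := by
        have := card_inf_mul_sylIdx R Q
        rw [hR] at this
        exact ((Nat.dvd_prime h11.out).mp (Dvd.intro_left _ this)).resolve_left fun h =>
          hQ.2 (sylIdx_eq_one_iff.mp h)
      have f1 : orbit (R : Subgroup G) Q = {R}ᶜ := by
        refine Set.eq_of_subset_of_ncard_le ?_ ?_
        · rintro _ ⟨u, rfl⟩ h
          have := sylIdx_smul_of_mem u.2 Q
          rw [show (u : G) • Q = R from h, sylIdx_eq_one_iff.mpr rfl] at this
          omega
        · have := Set.ncard_add_ncard_compl ({R} : Set (Sylow 11 G))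
          rw [Set.ncard_singleton] at this
          rw [ncard_orbit_sylow]
          omega
      obtain ⟨v, hv⟩ : Q' ∈ orbit (R : Subgroup G) Q := f1 ▸ hQ'.2
      have hv' : (v : G) • Q = Q' := hv
      have f2 := commute_of_fix (Ω := Sylow 11 G) h11.out hy htn (v := (v : G)) (by rw [hyz]; exact v.2)
        (fun h => hQQ (by rw [← hv', h, one_smul])) (a := Q) (fun u hu huQ => by
          by_contra hu1
          have f3 : y • Q = Q := fixedBy_subset_of_mem_zpowers h11.out hy hu hu1 huQ
          rw [sylow_smul_eq_iff_mem (hy.trans (pow_one _).symm), ← zpowers_le, hyz] at f3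
          exact hQ.2 (Sylow.ext (R.is_maximal' Q.isPGroup' f3))) hQ.1 (by rw [hv']; exact hQ'.1)
      have f4 : (t : G) ∈ (R : Subgroup G) := by
        refine hCR.le ?_
        have : (t : G) ∈ centralizer (zpowers y : Set G) := by
          rw [centralizer_coe_zpowers]
          exact mem_centralizer_singleton_iff.mpr f2
        rwa [hyz] at this
      have := (R : Subgroup G).orderOf_dvd_natCard f4
      rw [ht', hR] at this
      omega
    · obtain ⟨z, hz⟩ := exists_prime_orderOf_dvd_card' (G := C) 5 (by omega)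
      have hz' : orderOf (z : G) = 5 := by rw [Subgroup.orderOf_coe, hz]
      have hfx : fixedBy (Sylow 11 G) x = ∅ := by
        refine Set.eq_empty_of_forall_notMem fun Q hQ => ?_
        have e1 := (normalizer ((Q : Subgroup G) : Set G)).orderOf_dvd_natCard
          (Sylow.smul_eq_iff_mem_normalizer.mp hQ)
        have e2 := (normalizer ((Q : Subgroup G) : Set G)).card_mul_index
        rw [← H9.card_sylow_eq_index Q, h1, hG] at e2
        rw [hx] at e1
        omega
      have e1 := ncard_modEq_ncard_fixedBy (hx.trans (pow_one _).symm)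
        (fixedBy (Sylow 11 G) (z : G)) fun Q hQ => smul_mem_fixedBy_of_commute
          (show Commute (z : G) x from mem_centralizer_singleton_iff.mp z.2).symm hQ
      rw [hfx, Set.inter_empty, Set.ncard_empty] at e1
      have e2 := ncard_fixedBy_lt (Ω := Sylow 11 G) (c := (z : G)) fun h => by
        rw [h, orderOf_one] at hz'; omega
      have e3 := card_modEq_ncard_fixedBy (Ω := Sylow 11 G) (hz'.trans (pow_one _).symm)
      unfold Nat.ModEq at e1 e3
      omega

/-- No finite group has exactly 22 Sylow 3-subgroups. -/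
theorem result {G : Type*} [Group G] [Finite G] : Nat.card (Sylow 3 G) ≠ 22 := by
  intro hn
  have := Fact.mk Nat.prime_three
  obtain ⟨S, _, _, hS, h⟩ := exists_simple_of_card_sylow hn (by norm_num)
    (not_isPrimePow_mul (a := 2) (b := 11) (by norm_num) (by norm_num) (by norm_num))
    (fun m hm h1 => by
      have := Nat.le_of_dvd (by norm_num) hm
      interval_cases m <;> omega)
  exact simple_case h

end Cfsg.Agent.S4346
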