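import Cfsg.Statements.S4351
import Cfsg.Agent.Lib.CIT.Main

set_option autoImplicit false
open Cfsg

namespace Cfsg.Agent.S4351

open Subgroup CfsgLib in
/-- Let G be a finite non-solvable group in which the centralizer of every non-identity element is nilpotent. Then G is a non-abelian simple group; or G has a normal subgroup of index 2 isomorphic to PSL(2, 9); or G has a nontrivial normal elementary abelian 2-subgroup N such that G/N is isomorphic to PSL(2, q) for some q = 2ⁿ ≥ 4 or is a simple group of Suzuki type (simple, of the order of a Suzuki group). -/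
theorem result {G : Type*} [Group G] [Finite G] (hG : ¬ Group.IsSolvable G)
    (hCN : ∀ x : G, x ≠ 1 → Group.IsNilpotent (Subgroup.centralizer ({x} : Set G))) :
    (IsSimpleGroup G ∧ ¬ IsMulCommutative G) ∨
    (∃ (N : Subgroup G), N.Normal ∧ N.index = 2 ∧ ∃ (F : Type) (_ : Field F) (_ : Fintype F), Fintype.card F = 9 ∧
        Nonempty (N ≃* Matrix.ProjectiveSpecialLinearGroup (Fin 2) F)) ∨
    (∃ (N : Subgroup G) (_ : N.Normal), N ≠ ⊥ ∧ IsPGroup 2 N ∧ IsMulCommutative N ∧ (∀ x ∈ N, x * x = 1) ∧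
        ((∃ (F : Type) (_ : Field F) (_ : Fintype F), CharP F 2 ∧ 4 ≤ Fintype.card F ∧
            Nonempty (G ⧸ N ≃* Matrix.ProjectiveSpecialLinearGroup (Fin 2) F)) ∨ Cfsg.IsSuzuki (G ⧸ N))) := by
  have hc : ¬ IsMulCommutative G := fun _ => hG (Group.isSolvable_of_comm fun a b => mul_comm' a b)
  have h := CfsgLib.Cit.cit_of_cn hG hCN
  rcases h.structure hG with ⟨X, _, f, h1, h2, K, t, h3⟩ | ⟨h0, P, L, q, h1⟩
  · haveI := Finite.of_surjective f h1
    have e := QuotientGroup.quotientKerEquivOfSurjective f h1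
    by_cases h4 : f.ker = ⊥
    · haveI := CfsgLib.Cit.zs_simple h3
      exact Or.inl ⟨(MulEquiv.ofBijective f ⟨(MonoidHom.ker_eq_bot_iff f).mp h4, h1⟩).isSimpleGroup, hc⟩
    refine Or.inr (Or.inr ⟨f.ker, inferInstance, h4, CfsgLib.Cit.isPGroup_of_sq h2,
      ⟨⟨fun a b => Subtype.ext (CfsgLib.Cit.comm_of_sq h2 a.2 b.2)⟩⟩, h2, ?_⟩)
    rcases CfsgLib.Cit.zs_isSuzuki_or h3 with ⟨F, _, _, h5, h6, ⟨e'⟩⟩ | ⟨h5, h6⟩
    · exact Or.inl ⟨F, inferInstance, inferInstance, h5, h6, ⟨e.trans e'⟩⟩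
    · exact Or.inr ⟨e.isSimpleGroup, Nat.card_congr e.toEquiv ▸ h6⟩
  · rcases h1.l.two_le.eq_or_lt with rfl | h2
    · obtain ⟨N, h2, h3, F, _, _, e, rfl | ⟨h4, h5⟩⟩ := h1.two h h0
      · exact Or.inl ⟨Subgroup.topEquiv.symm.isSimpleGroup, hc⟩
      · exact Or.inr (Or.inl ⟨N, h2, h4, F, inferInstance, inferInstance, h5, e⟩)
    · exact Or.inl ⟨h1.simple_of_big h h0 h2, hc⟩

end Cfsg.Agent.S4351
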