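import Cfsg.Statements.S4359
import Mathlib
import Cfsg.Agent.Lib.H5MaxClass
import Cfsg.Agent.Lib.H1Breadth

set_option autoImplicit false
open Pointwise
open Cfsg

namespace Cfsg.Agent.S4359
open Subgroup CfsgLib CfsgLib.H5
open scoped commutatorElement

section aux
variable {G : Type*} [Group G] [Finite G] {p : ℕ} [hp : Fact p.Prime]

theorem card_le_of_relIndex {B C D : Subgroup G} (hD : D.relIndex B = p) (hC : C ≤ B) :
    Nat.card C ≤ p * Nat.card ↥(C ⊓ D) := by
  rw [← card_inf_mul_relIndex D C, inf_comm, mul_comm]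
  exact Nat.mul_le_mul_right _ (hD ▸ relIndex_le_of_le_right hC (hD ▸ hp.out.ne_zero))

theorem le_of_relIndex {B C D K : Subgroup G} (hB : IsPGroup p B) (hD : D.relIndex B = p)
    (hC : C ≤ B) {a : G} (haC : a ∈ C) (haD : a ∉ D) (hK : C ⊓ D ≤ K) (haK : a ∈ K) : C ≤ K :=
  le_of_card_le_mul (hB.to_le hC) inf_le_left (card_le_of_relIndex hD hC) haC
    (fun h => haD (mem_inf.1 h).2) hK haK

theorem isMax_inf {B D : Subgroup G} (hD : D.relIndex B = p) : H1.IsMax p (D ⊓ B) B :=
  ⟨inf_le_right, by rwa [inf_relIndex_right]⟩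

theorem comm_mem_of_relIndex {B D : Subgroup G} (hB : IsPGroup p B) (hD : D.relIndex B = p)
    {a b : G} (ha : a ∈ B) (hb : b ∈ B) : ⁅a, b⁆ ∈ D :=
  (mem_inf.1 ((isMax_inf hD).commutator_le hB (commutator_mem_commutator ha hb))).1

/-- Interval intersections. -/
def I (Q : ℤ → Subgroup G) (u v : ℤ) : Subgroup G := ⨅ m ∈ Set.Icc u v, Q m

omit [Finite G] in
theorem mem_I {Q : ℤ → Subgroup G} {u v : ℤ} {y : G} :
    y ∈ I Q u v ↔ ∀ m, u ≤ m → m ≤ v → y ∈ Q m := by
  simp [I, mem_iInf]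

omit [Finite G] in
theorem I_le {Q : ℤ → Subgroup G} {u v m : ℤ} (h1 : u ≤ m) (h2 : m ≤ v) : I Q u v ≤ Q m :=
  fun _ hy => mem_I.1 hy m h1 h2

omit [Finite G] in
theorem mem_I_up {Q : ℤ → Subgroup G} {u v : ℤ} {y : G} (h : y ∈ I Q u v) (h' : y ∈ Q (v + 1)) :
    y ∈ I Q u (v + 1) := mem_I.2 fun m h1 h2 => by
  rcases h2.eq_or_lt with rfl | h2
  · exact h'
  · exact mem_I.1 h m h1 (by omega)

omit [Finite G] in
theorem mem_I_dn {Q : ℤ → Subgroup G} {u v : ℤ} {y : G} (h : y ∈ I Q u v) (h' : y ∈ Q (u - 1)) :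
    y ∈ I Q (u - 1) v := mem_I.2 fun m h1 h2 => by
  rcases h1.eq_or_lt with rfl | h1
  · exact h'
  · exact mem_I.1 h m (by omega) h2

structure Sys (p : ℕ) (Q : ℤ → Subgroup G) (x : ℤ → G) (t : ℤ) : Prop where
  pg : ∀ m, IsPGroup p (Q m)
  up : ∀ m, (Q (m + 1)).relIndex (Q m) = p
  dn : ∀ m, (Q (m - 1)).relIndex (Q m) = p
  mem : ∀ j m, m ≤ j → j < m + t → x j ∈ Q m
  bot : ∀ u y, (∀ m, u ≤ m → m ≤ u + t → y ∈ Q m) → y = 1
  ne : ∀ j, x j ≠ 1

namespace Sys
variable {Q : ℤ → Subgroup G} {x : ℤ → G} {t : ℤ} (h : Sys p Q x t)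
include h

omit [Finite G] hp in
theorem rev : Sys p (fun m => Q (-m - t + 1)) (fun j => x (-j)) t where
  pg m := h.pg _
  up m := by have := h.dn (-m - t + 1); rwa [show -m - t + 1 - 1 = -(m + 1) - t + 1 by ring] at this
  dn m := by have := h.up (-m - t + 1); rwa [show -m - t + 1 + 1 = -(m - 1) - t + 1 by ring] at this
  mem j m h1 h2 := h.mem _ _ (by omega) (by omega)
  bot u y hy := h.bot (-u - t - t + 1) y fun m h1 h2 => by
    have := hy (-m - t + 1) (by omega) (by omega)
    rwa [show -(-m - t + 1) - t + 1 = m by ring] at this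
  ne j := h.ne _

theorem comm_mem {u v : ℤ} (huv : u ≤ v) {a b : G} (ha : a ∈ I Q u v) (hb : b ∈ I Q u v) :
    ⁅a, b⁆ ∈ I Q (u - 1) (v + 1) :=
  mem_I_dn (mem_I_up (by
      rw [commutatorElement_def]
      exact mul_mem (mul_mem (mul_mem ha hb) (inv_mem ha)) (inv_mem hb))
    (comm_mem_of_relIndex (h.pg v) (h.up v) (I_le huv le_rfl ha) (I_le huv le_rfl hb)))
    (comm_mem_of_relIndex (h.pg u) (h.dn u) (I_le le_rfl huv ha) (I_le le_rfl huv hb))

theorem gen {M : Subgroup G} {a b : ℤ} (hab : b - a ≤ t - 1)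
    (hM : ∀ j, a ≤ j → j ≤ b → x j ∈ M) : I Q (b - t + 1) a ≤ M := by
  have base : ∀ b, b < a → I Q (b - t + 1) a ≤ M := fun b hb y hy => by
    rw [h.bot (a - t) y fun m h1 h2 => mem_I.1 hy m (by omega) (by omega)]; exact one_mem _
  rcases lt_or_ge b a with hb | hb
  · exact base b hb
  have hb' : a - 1 ≤ b := by omega
  clear hb
  induction b, hb' using Int.le_induction with
  | base => exact base _ (by omega)
  | succ b hb ih =>
    have ih := ih (by omega) fun j h1 h2 => hM j h1 (by omega)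
    refine le_of_relIndex (h.pg _) (h.dn (b + 1 - t + 1)) (I_le le_rfl (by omega))
      (a := x (b + 1)) (mem_I.2 fun m h1 h2 => h.mem _ _ (by omega) (by omega)) (fun h' => ?_)
      (fun y hy => ih ?_) (hM _ (by omega) le_rfl)
    · refine h.ne (b + 1) (h.bot (b + 1 - t + 1 - 1) _ fun m h1 h2 => ?_)
      rcases h1.eq_or_lt with rfl | h1
      · exact h'
      · exact h.mem _ _ (by omega) (by omega)
    · have := mem_I_dn (mem_inf.1 hy).1 (mem_inf.1 hy).2
      rwa [show b + 1 - t + 1 - 1 = b - t + 1 by ring] at this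

theorem upper {k : ℤ} (hk1 : 1 ≤ k) (hkt : k ≤ t - 1)
    (hk : ∀ i j, i - j < k → j - i < k → Commute (x i) (x j))
    (hnc : ∀ a, ¬ Commute (x a) (x (a + k))) (a μ : ℤ) (h1 : 1 ≤ μ) (h2 : μ ≤ t - k) :
    ⁅x a, x (a + k)⁆ ∈ I Q (a + k - t) (a + μ) := by
  induction μ, h1 using Int.le_induction with
  | base =>
    have := h.comm_mem (u := a + k - t + 1) (v := a) (by omega) (a := x a) (b := x (a + k))
      (mem_I.2 fun m h1 h2 => h.mem _ _ (by omega) (by omega))
      (mem_I.2 fun m h1 h2 => h.mem _ _ (by omega) (by omega))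
    rwa [add_sub_cancel_right] at this
  | succ μ h1 ih =>
    have ih := ih (by omega)
    rw [← add_assoc]
    refine mem_I_up ih ?_
    by_contra hc
    have hμ : μ < k := by
      by_contra hμ
      refine hnc a (commutatorElement_eq_one_iff_commute.1 (h.bot (a + k - t) _ fun m h1 h2 => ?_))
      exact mem_I.1 ih m h1 (by omega)
    set y := x (a + μ + k) with hy
    have hw : ⁅(x a)⁻¹, y⁆ ∈ centralizer {x (a + k)} := by
      have h3 := h.comm_mem (u := a + μ + k - t + 1) (v := a) (by omega) (a := (x a)⁻¹) (b := y)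
        (inv_mem (mem_I.2 fun m h1 h2 => h.mem _ _ (by omega) (by omega)))
        (mem_I.2 fun m h1 h2 => h.mem _ _ (by omega) (by omega))
      refine h.gen (a := a + 1) (b := a + μ + k - 1) (by omega) (fun j h1 h2 => ?_) ?_
      · exact mem_centralizer_singleton_iff.2 (hk _ _ (by omega) (by omega)).eq
      · rwa [show a + μ + k - 1 - t + 1 = a + μ + k - t + 1 - 1 by ring]
    have hyk : y * x (a + k) = x (a + k) * y := (hk _ _ (by omega) (by omega)).eq
    have hcy : ⁅x a, x (a + k)⁆ ∈ centralizer {y} := by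
      rw [mem_centralizer_singleton_iff] at hw ⊢
      rw [commutatorElement_def, inv_inv] at hw
      have e1 : y * x a = x a * ((x a)⁻¹ * y * x a * y⁻¹) * y := by group
      have e2 : y * (x a)⁻¹ = ((x a)⁻¹ * y * x a * y⁻¹)⁻¹ * (x a)⁻¹ * y := by group
      have hyk' : y * (x (a + k))⁻¹ = (x (a + k))⁻¹ * y := (Commute.inv_right hyk).eq
      set w := (x a)⁻¹ * y * x a * y⁻¹
      calc _ = x a * (x (a + k) * w) * w⁻¹ * (x a)⁻¹ * ((x (a + k))⁻¹ * y) := by
            rw [commutatorElement_def]; group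
        _ = x a * w * (x (a + k) * (w⁻¹ * (x a)⁻¹ * y)) * (x (a + k))⁻¹ := by
            rw [← hw, ← hyk']; group
        _ = x a * w * (x (a + k) * y) * (x a)⁻¹ * (x (a + k))⁻¹ := by rw [← e2]; group
        _ = (x a * w * y) * x (a + k) * (x a)⁻¹ * (x (a + k))⁻¹ := by rw [← hyk]; group
        _ = _ := by rw [← e1, commutatorElement_def]; group
    have hle : I Q (a + k - t) (a + μ) ≤ centralizer {y} := by
      refine le_of_relIndex (h.pg _) (h.up (a + μ)) (I_le (by omega) le_rfl) ih hc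
        (fun z hz => ?_) hcy
      refine h.gen (a := a + μ + 1) (b := a + k - 1) (by omega) (fun j h1 h2 => ?_) ?_
      · exact mem_centralizer_singleton_iff.2 (hk _ _ (by omega) (by omega)).eq
      · rw [show a + k - 1 - t + 1 = a + k - t by ring]
        exact mem_I_up (mem_inf.1 hz).1 (mem_inf.1 hz).2
    exact hnc (a + μ) (mem_centralizer_singleton_iff.1
      (hle (mem_I.2 fun m h1 h2 => h.mem _ _ (by omega) (by omega))))

theorem two_mul_le {k : ℤ} (hk1 : 1 ≤ k) (hkt : k ≤ t - 1)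
    (hk : ∀ i j, i - j < k → j - i < k → Commute (x i) (x j))
    (hnc : ∀ a, ¬ Commute (x a) (x (a + k))) : 2 * t ≤ 3 * k := by
  by_contra hlt
  have h1 := h.upper hk1 hkt hk hnc 0 (t - k) (by omega) le_rfl
  have h2 := h.rev.upper hk1 hkt (fun i j h1 h2 => hk _ _ (by omega) (by omega))
    (fun a h' => hnc (-(a + k)) (by rw [show -(a + k) + k = -a by ring]; exact h'.symm))
    (-k) (t - k) (by omega) le_rfl
  simp only [neg_neg, neg_add_cancel, neg_zero, zero_add] at h1 h2
  refine hnc 0 (commutatorElement_eq_one_iff_commute.1 (h.bot (2 * k - 2 * t + 1) _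
    fun m h3 h4 => ?_))
  rw [zero_add]
  rcases le_or_gt m 1 with h5 | h5
  · have := mem_I.1 h2 (-m - t + 1) (by omega) (by omega)
    rw [show -(-m - t + 1) - t + 1 = m by ring] at this
    rw [← commutatorElement_inv]; exact inv_mem this
  · exact mem_I.1 h1 m (by omega) (by omega)

end Sys

/-- The conjugates of `P`. -/
def cQ (P : Subgroup G) (g : G) (m : ℤ) : Subgroup G := MulAut.conj (g ^ m) • P

omit [Finite G] in
theorem mem_cQ {P : Subgroup G} {g y : G} {m : ℤ} : y ∈ cQ P g m ↔ (g ^ m)⁻¹ * y * g ^ m ∈ P :=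
  mem_conj_smul_iff

omit [Finite G] in
theorem conj_mem_cQ {P : Subgroup G} {g y : G} {m : ℤ} (d : ℤ) :
    g ^ d * y * (g ^ d)⁻¹ ∈ cQ P g (m + d) ↔ y ∈ cQ P g m := by
  rw [mem_cQ, mem_cQ]
  have : (g ^ (m + d))⁻¹ * (g ^ d * y * (g ^ d)⁻¹) * g ^ (m + d) = (g ^ m)⁻¹ * y * g ^ m := by
    group
  rw [this]

omit [Finite G] in
theorem smul_cQ (P : Subgroup G) (g : G) (m d : ℤ) :
    MulAut.conj (g ^ d) • cQ P g m = cQ P g (m + d) := by
  rw [cQ, cQ, smul_smul, ← map_mul, ← zpow_add, add_comm]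

omit [Finite G] in
theorem card_cQ (P : Subgroup G) (g : G) (m : ℤ) : Nat.card (cQ P g m) = Nat.card P :=
  card_map_conj _ _

omit [Finite G] in
theorem cQ_zero (P : Subgroup G) (g : G) : cQ P g 0 = P := by simp [cQ]

omit [Finite G] in
theorem smul_I (P : Subgroup G) (g : G) (u v d : ℤ) :
    MulAut.conj (g ^ d) • I (cQ P g) u v = I (cQ P g) (u + d) (v + d) := by
  ext y
  rw [mem_conj_smul_iff, mem_I, mem_I]
  have e : ∀ m, (g ^ d)⁻¹ * y * g ^ d ∈ cQ P g m ↔ y ∈ cQ P g (m + d) := fun m => by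
    rw [← conj_mem_cQ d]; group
  simp only [e]
  exact ⟨fun h m h1 h2 => by simpa using h (m - d) (by omega) (by omega),
    fun h m h1 h2 => h _ (by omega) (by omega)⟩

omit [Finite G] in
theorem relIndex_smul (a : G) (A B : Subgroup G) :
    (MulAut.conj a • A).relIndex (MulAut.conj a • B) = A.relIndex B :=
  relIndex_map_map_of_injective _ _ (MulAut.conj a).injective

theorem isPGroup_of {P : Subgroup G} {g : G}
    (hN : ((P ⊓ MulAut.conj g⁻¹ • P).subgroupOf (MulAut.conj g⁻¹ • P)).Normal)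
    (hidx : (P ⊓ MulAut.conj g⁻¹ • P).relIndex (MulAut.conj g⁻¹ • P) = p)
    (h1 : ∀ Q : Subgroup G, Q ≤ P → (Q.subgroupOf P).Normal → MulAut.conj g • Q = Q → Q = ⊥) :
    IsPGroup p P := by
  set S : Set G := {y | y ∈ P ∧ (orderOf y).Coprime p}
  have hS : ∀ y ∈ S, g⁻¹ * y * g ∈ S := fun y hy => by
    have ho : orderOf (g⁻¹ * y * g) = orderOf y := by
      simpa using (MulAut.conj g⁻¹).orderOf_eq y
    refine ⟨?_, ho ▸ hy.2⟩
    have hm : g⁻¹ * y * g ∈ MulAut.conj g⁻¹ • P := by
      rw [mem_conj_smul_iff]; simpa [mul_assoc] using hy.1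
    have h3 := pow_index_mem (H := (P ⊓ MulAut.conj g⁻¹ • P).subgroupOf (MulAut.conj g⁻¹ • P))
      ⟨_, hm⟩
    rw [mem_subgroupOf] at h3
    change (g⁻¹ * y * g) ^ (P ⊓ MulAut.conj g⁻¹ • P).relIndex (MulAut.conj g⁻¹ • P) ∈ _ at h3
    rw [hidx] at h3
    obtain ⟨m, hm⟩ := exists_pow_eq_self_of_coprime (x := g⁻¹ * y * g) (n := p)
      (by rw [ho]; exact hy.2.symm)
    rw [← hm]
    exact pow_mem (mem_inf.1 h3).1 m
  have hRP : closure S ≤ P := (closure_le _).2 fun y hy => hy.1
  have hR : closure S = ⊥ := by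
    refine h1 _ hRP (normal_subgroupOf_iff_le_normalizer hRP |>.2 fun a ha => ?_) ?_
    · refine mem_normalizer_of_conj_mem fun y hy => ?_
      have : closure S ≤ (closure S).comap (MulAut.conj a).toMonoidHom :=
        (closure_le _).2 fun z hz => subset_closure ⟨mul_mem (mul_mem ha hz.1) (inv_mem ha), by
          have := (MulAut.conj a).orderOf_eq z
          exact this ▸ hz.2⟩
      exact this hy
    · refine map_conj_eq_of_mem_normalizer (inv_mem_iff.1 (mem_normalizer_of_conj_mem fun y hy => ?_))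
      have : closure S ≤ (closure S).comap (MulAut.conj g⁻¹).toMonoidHom :=
        (closure_le _).2 fun z hz => subset_closure (by simpa using hS z hz)
      exact this hy
  refine IsPGroup.of_card (n := (Nat.card P).primeFactorsList.length)
    (Nat.eq_prime_pow_of_unique_prime_dvd Nat.card_pos.ne' fun {r} hr hd => ?_)
  by_contra hne
  haveI := Fact.mk hr
  obtain ⟨y, hy⟩ := exists_prime_orderOf_dvd_card' r hd
  have : (y : G) ∈ closure S := subset_closure ⟨y.2, by
    rw [orderOf_coe, hy]; exact (Nat.coprime_primes hr hp.out).2 hne⟩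
  rw [hR, mem_bot] at this
  rw [← orderOf_coe, this, orderOf_one] at hy
  exact hr.one_lt.ne hy

theorem not_le_of_ne_bot {P : Subgroup G} {g : G} (pg : ∀ m, IsPGroup p (cQ P g m))
    (up : ∀ m, (cQ P g (m + 1)).relIndex (cQ P g m) = p)
    (dn : ∀ m, (cQ P g (m - 1)).relIndex (cQ P g m) = p)
    (h1 : ∀ Q : Subgroup G, Q ≤ P → (Q.subgroupOf P).Normal → MulAut.conj g • Q = Q → Q = ⊥)
    (j : ℕ) (hj : I (cQ P g) (-j) 0 ≠ ⊥) : ¬ I (cQ P g) (-j) 0 ≤ cQ P g (-j - 1) := by
  have inv : ∀ j : ℕ, I (cQ P g) (-j) 0 ≤ cQ P g (-j - 1) ↔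
      MulAut.conj g • I (cQ P g) (-j) 0 = I (cQ P g) (-j) 0 := fun j => by
    rw [conj_smul_eq_map, map_conj_eq_iff_mem_normalizer, ← inv_mem_iff,
      ← map_conj_eq_iff_mem_normalizer, ← conj_smul_eq_map, ← zpow_neg_one, smul_I]
    refine ⟨fun h => (eq_of_le_of_card_le (fun y hy => mem_I.2 fun m h1 h2 =>
      mem_I.1 (mem_I_dn hy (h hy)) m (by omega) (by omega)) ?_).symm,
      fun h => h.ge.trans (I_le (by omega) (by omega))⟩
    rw [← smul_I, conj_smul_eq_map, card_map_conj]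
  induction j using Nat.strong_induction_on with
  | _ j ih =>
  intro hle
  have hD := (inv j).1 hle
  set D := I (cQ P g) (-j) 0 with hDdef
  have hgD : g ∈ normalizer (D : Set G) := mem_normalizer_of_map_conj_eq hD
  have key : ∀ s : ℕ, ∀ i : ℕ, i + s = j → I (cQ P g) (-i) 0 ≤ normalizer (D : Set G) := by
    intro s
    induction s with
    | zero => intro i hi; rw [add_zero] at hi; subst hi; exact le_normalizer
    | succ s ihs =>
      intro i hi
      have h2 := ihs (i + 1) (by omega)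
      have hB : I (cQ P g) (-i) 0 ≤ cQ P g (-i) := I_le le_rfl (by omega)
      have hA : I (cQ P g) (-i) 0 ⊓ cQ P g (-i - 1) ≤ I (cQ P g) (-(i + 1 : ℕ)) 0 := fun y hy => by
        have := mem_I_dn (mem_inf.1 hy).1 (mem_inf.1 hy).2
        rwa [show -(i : ℤ) - 1 = -(i + 1 : ℕ) by omega] at this
      rcases Nat.eq_zero_or_pos s with rfl | hs
      · intro a ha
        refine mem_normalizer_of_conj_mem fun y hy => ?_
        have hj' : j = i + 1 := by omega
        have hyB : y ∈ I (cQ P g) (-i) 0 := mem_I.2 fun m h1 h2 => mem_I.1 hy m (by omega) h2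
        have e : a * y * a⁻¹ = ⁅a, y⁆ * y := by rw [commutatorElement_def]; group
        rw [e]
        refine mul_mem ?_ hy
        rw [hDdef, hj']
        refine hA (mem_inf.2 ⟨?_, comm_mem_of_relIndex (pg _) (dn _) (hB ha) (hB hyB)⟩)
        rw [commutatorElement_def]
        exact mul_mem (mul_mem (mul_mem ha hyB) (inv_mem ha)) (inv_mem hyB)
      · have h3 := ih (i + 1) (by omega) fun h' => hj (le_bot_iff.1 (h' ▸ fun y hy =>
          mem_I.2 fun m h1 h2 => mem_I.1 hy m (by omega) h2))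
        rw [inv] at h3
        have h4 : ¬ MulAut.conj g • I (cQ P g) (-(i + 1 : ℕ)) 0 ≤ I (cQ P g) (-(i + 1 : ℕ)) 0 :=
          fun h' => h3 (eq_of_le_of_card_le h' (by rw [conj_smul_eq_map, card_map_conj]))
        obtain ⟨a, ha, ha'⟩ := SetLike.not_le_iff_exists.1 h4
        have ha2 : a ∈ MulAut.conj (g ^ (1 : ℤ)) • I (cQ P g) (-(i + 1 : ℕ)) 0 := by
          rwa [zpow_one]
        rw [smul_I] at ha2
        have haB : a ∈ I (cQ P g) (-i) 0 :=
          mem_I.2 fun m h1 h2 => mem_I.1 ha2 m (by omega) (by omega)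
        refine le_of_relIndex (pg _) (dn _) hB haB (fun h' => ha' (hA (mem_inf.2 ⟨haB, h'⟩)))
          (hA.trans h2) ?_
        have := mul_mem (mul_mem hgD (h2 (mem_conj_smul_iff.1 ha))) (inv_mem hgD)
        simpa [mul_assoc] using this
  have hP : I (cQ P g) (-(0 : ℕ)) 0 = P := by
    ext y; rw [mem_I]
    exact ⟨fun h => cQ_zero P g ▸ h 0 (by simp) le_rfl, fun h m h1 h2 => by
      obtain rfl : m = 0 := by omega
      rwa [cQ_zero]⟩
  have hDP : D ≤ P := (I_le (by omega) le_rfl).trans (cQ_zero P g).le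
  exact hj (h1 D hDP ((normal_subgroupOf_iff_le_normalizer hDP).2 (hP ▸ key j 0 (by omega))) hD)

end aux


/-- Let P be a subgroup of a finite group G and g an element such that P ∩ g⁻¹Pg is a normal subgroup of prime index p in g⁻¹Pg. Let n ≥ 1 and let K be the subgroup generated by P and its conjugates g⁻ⁱPgⁱ for i ≤ n. Suppose that g normalizes no non-identity normal subgroup of P and that P meets the center of K trivially. Then the order of P is pᵗ for some t with 1 ≤ t ≤ 3n and t ≠ 3n - 1. -/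
theorem result {G : Type*} [Group G] [Finite G]
    (P : Subgroup G) (g : G) (p : ℕ) (hp : p.Prime)
    (hN : ((P ⊓ MulAut.conj g⁻¹ • P).subgroupOf (MulAut.conj g⁻¹ • P)).Normal)
    (hidx : (P ⊓ MulAut.conj g⁻¹ • P).relIndex (MulAut.conj g⁻¹ • P) = p)
    (n : ℕ) (hn : 1 ≤ n) (K : Subgroup G) (hK : K = ⨆ i ∈ Finset.range (n + 1), MulAut.conj (g ^ i)⁻¹ • P)
    (h1 : ∀ Q : Subgroup G, Q ≤ P → (Q.subgroupOf P).Normal → MulAut.conj g • Q = Q → Q = ⊥)
    (h2 : P ⊓ (Subgroup.center K).map K.subtype = ⊥) :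
    ∃ t : ℕ, Nat.card P = p ^ t ∧ 1 ≤ t ∧ t ≤ 3 * n ∧ t ≠ 3 * n - 1 := by
  haveI := Fact.mk hp
  have hP := isPGroup_of hN hidx h1
  obtain ⟨t, ht⟩ := IsPGroup.iff_card.1 hP
  have pg : ∀ m, IsPGroup p (cQ P g m) := fun m => IsPGroup.of_card ((card_cQ P g m).trans ht)
  have up : ∀ m, (cQ P g (m + 1)).relIndex (cQ P g m) = p := fun m => by
    rw [inf_relIndex_right, ← zpow_neg_one, ← relIndex_smul (g ^ (m + 1))] at hidx
    change (cQ P g (m + 1)).relIndex (MulAut.conj (g ^ (m + 1)) • cQ P g (-1)) = p at hidx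
    rwa [smul_cQ, show -1 + (m + 1) = m by ring] at hidx
  have dn : ∀ m, (cQ P g (m - 1)).relIndex (cQ P g m) = p := fun m => by
    have e1 := card_inf_mul_relIndex (cQ P g (m - 1)) (cQ P g m)
    have e2 := card_inf_mul_relIndex (cQ P g (m - 1 + 1)) (cQ P g (m - 1))
    rw [up, sub_add_cancel, inf_comm, card_cQ] at e2
    rw [card_cQ, ← e2] at e1
    exact Nat.eq_of_mul_eq_mul_left Nat.card_pos e1
  have hcard : ∀ j : ℕ, j ≤ t → Nat.card (I (cQ P g) (-j) 0) = p ^ (t - j) := by
    intro j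
    induction j with
    | zero =>
      intro _
      rw [tsub_zero, ← ht]
      congr 2
      ext y; rw [mem_I]
      exact ⟨fun h => cQ_zero P g ▸ h 0 (by simp) le_rfl, fun h m h1 h2 => by
        obtain rfl : m = 0 := by omega
        rwa [cQ_zero]⟩
    | succ j ih =>
      intro hj
      have ih := ih (by omega)
      have hne : I (cQ P g) (-j) 0 ≠ ⊥ := fun h => by
        rw [h, card_bot] at ih
        have := Nat.one_lt_pow (n := t - j) (by omega) hp.one_lt
        omega
      have h3 := not_le_of_ne_bot pg up dn h1 j hne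
      have e : I (cQ P g) (-(j + 1 : ℕ)) 0 = I (cQ P g) (-j) 0 ⊓ cQ P g (-j - 1) := by
        refine le_antisymm (le_inf (fun y hy => mem_I.2 fun m h1 h2 => mem_I.1 hy m (by omega) h2)
          (I_le (by omega) (by omega))) fun y hy => ?_
        have := mem_I_dn (mem_inf.1 hy).1 (mem_inf.1 hy).2
        rwa [show -(j : ℤ) - 1 = -(j + 1 : ℕ) by omega] at this
      have hB : I (cQ P g) (-j) 0 ≤ cQ P g (-j) := I_le le_rfl (by omega)
      have h4 := card_le_of_relIndex (dn (-j)) hB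
      have h5 := PGrp.mul_card_le_card_of_lt ((pg _).to_le hB) (inf_lt_left.2 h3)
      rw [e]
      rw [ih, show t - j = t - (j + 1) + 1 by omega, pow_succ'] at h4 h5
      exact Nat.eq_of_mul_eq_mul_left hp.pos (le_antisymm h5 h4)
  have ht1 : 1 ≤ t := by
    by_contra h0
    have e := card_inf_mul_relIndex (cQ P g (0 + 1)) (cQ P g 0)
    rw [up, card_cQ, ht, show t = 0 by omega, pow_zero] at e
    exact hp.one_lt.ne' (Nat.eq_one_of_mul_eq_one_left e)
  obtain ⟨x0, hx0, hx1⟩ : ∃ x0 ∈ I (cQ P g) (-(t - 1 : ℕ)) 0, x0 ≠ 1 := by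
    refine ((I (cQ P g) (-(t - 1 : ℕ)) 0).bot_or_exists_ne_one).resolve_left fun h => ?_
    have := hcard (t - 1) (by omega)
    rw [h, card_bot, show t - (t - 1) = 1 by omega, pow_one] at this
    exact hp.one_lt.ne this
  set x : ℤ → G := fun j => g ^ j * x0 * (g ^ j)⁻¹ with hx
  have hS : Sys p (cQ P g) x t := by
    refine ⟨pg, up, dn, fun j m h1 h2 => ?_, fun u y hy => ?_, fun j h => hx1 ?_⟩
    · have := (conj_mem_cQ j).2 (mem_I.1 hx0 (m - j) (by omega) (by omega))
      rwa [sub_add_cancel] at this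
    · have h0 := hcard t le_rfl
      rw [tsub_self, pow_zero, card_eq_one] at h0
      have : y ∈ I (cQ P g) (-t + (u + t)) (0 + (u + t)) :=
        mem_I.2 fun m h1 h2 => hy m (by omega) (by omega)
      rwa [← smul_I, h0, smul_bot, mem_bot] at this
    · simpa [hx] using h
  have shift : ∀ i j d, Commute (x i) (x j) → Commute (x (i + d)) (x (j + d)) := fun i j d h => by
    have e : ∀ i, x (i + d) = MulAut.conj (g ^ d) (x i) := fun i => by
      simp only [hx, MulAut.conj_apply]; group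
    rw [e, e]; exact h.map _
  classical
  have hex : ∃ d : ℕ, d = t ∨ ¬ Commute (x 0) (x d) := ⟨t, Or.inl rfl⟩
  set k := Nat.find hex
  have hkt : k ≤ t := Nat.find_min' hex (Or.inl rfl)
  have hk0 : ∀ d : ℕ, d < k → Commute (x 0) (x d) := fun d hd => by
    have := Nat.find_min hex hd
    push Not at this
    exact this.2
  have hk : ∀ i j : ℤ, i - j < k → j - i < k → Commute (x i) (x j) := fun i j h1 h2 => by
    rcases le_total i j with h | h
    · obtain ⟨d, rfl⟩ := Int.le.dest h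
      have := shift _ _ i (hk0 d (by omega))
      rwa [zero_add, add_comm] at this
    · obtain ⟨d, rfl⟩ := Int.le.dest h
      have := shift _ _ j (hk0 d (by omega))
      rw [zero_add, add_comm] at this
      exact this.symm
  have hk1 : 1 ≤ k := by
    by_contra h0
    have := Nat.find_spec hex
    rw [show Nat.find hex = 0 by omega] at this
    rcases this with h | h
    · omega
    · exact h (Commute.refl _)
  have h2k : 2 * k ≤ t + n := by
    by_contra hlt
    have hxP : x (t - k) ∈ P := cQ_zero P g ▸ hS.mem _ 0 (by omega) (by omega)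
    have hPK : P ≤ K := by
      rw [hK]
      refine le_iSup₂_of_le 0 (by simp) (by simp)
    have hKc : K ≤ centralizer {x (t - k)} := by
      rw [hK]
      refine iSup₂_le fun i hi => ?_
      have hi := Finset.mem_range.1 hi
      refine le_trans (fun y hy => mem_I.2 fun m h1 h2 => ?_)
        (hS.gen (a := -i) (b := -i + t - 1) (by omega) fun j h1 h2 =>
          mem_centralizer_singleton_iff.2 (hk _ _ (by omega) (by omega)).eq)
      obtain rfl : m = -i := by omega
      rwa [cQ, zpow_neg, zpow_natCast]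
    refine hS.ne (t - k) (mem_bot.1 (h2 ▸ mem_inf.2 ⟨hxP, ⟨_, hPK hxP⟩, ?_, rfl⟩))
    exact mem_center_iff.2 fun y => Subtype.ext (mem_centralizer_singleton_iff.1 (hKc y.2))
  refine ⟨t, ht, ht1, ?_⟩
  rcases hkt.eq_or_lt with hkt | hkt
  · omega
  have hnc : ¬ Commute (x 0) (x k) := (Nat.find_spec hex).resolve_left hkt.ne
  have := hS.two_mul_le (k := k) (by omega) (by omega) hk fun a h => hnc (by
    have := shift _ _ (-a) h
    rwa [add_neg_cancel, show a + k + -a = k by ring] at this)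
  omega

end Cfsg.Agent.S4359
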